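import Cfsg.Statements.S4966
import Mathlib
import Cfsg.Agent.Lib.Deg.FS4

set_option autoImplicit false
open Cfsg

namespace Cfsg.Agent.S4966

set_option linter.style.haveILetI false
set_option linter.unusedVariables false

theorem exists_idem {M : Type*} [Monoid M] [Finite M] (f : M) :
    ∃ n, IsIdempotentElem (f ^ (n + 1)) := by
  obtain ⟨a, b, hne, h⟩ := Finite.exists_ne_map_eq_of_infinite fun n : ℕ => f ^ n
  wlog hab : a < b generalizing a b
  · exact this b a hne.symm h.symm (by omega)
  obtain ⟨d, rfl⟩ := Nat.exists_eq_add_of_lt hab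
  have key : ∀ k, f ^ (a + (d + 1) * k) = f ^ a := fun k => by
    induction k with
    | zero => simp
    | succ k ih => rw [show a + (d + 1) * (k + 1) = a + d + 1 + (d + 1) * k by ring, pow_add,
        ← (show f ^ a = _ from h), ← pow_add, ih]
  refine ⟨a + d * (a + 1), ?_⟩
  rw [IsIdempotentElem, ← pow_add, show a + d * (a + 1) + 1 + (a + d * (a + 1) + 1) =
    a + (d + 1) * (a + 1) + (d * (a + 1) + 1) by ring, pow_add, key, ← pow_add, add_assoc]

theorem idem_fix {F V : Type*} [Field F] [AddCommGroup V] [Module F V] {E : Module.End F V}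
    (h : IsIdempotentElem E) {x : V} (hx : x ∈ LinearMap.range E) : E x = x := by
  obtain ⟨y, rfl⟩ := hx
  exact LinearMap.congr_fun h y

/-- Let F be a finite field of characteristic p, G a finite group of order prime to p, and V a finite-dimensional representation of G over F carrying a nondegenerate G-invariant bilinear form (equivalently, V is self-dual). Then V is the direct sum of two G-invariant subspaces U and W such that U carries a G-invariant alternating bilinear form that is nondegenerate on U and W carries a G-invariant symmetric bilinear form that is nondegenerate on W; moreover when p = 2 the decomposition can be chosen with G acting trivially on W. -/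
theorem result {F : Type*} [Field F] [Fintype F] (p : ℕ) [Fact p.Prime] [CharP F p] {G : Type*} [Group G] [Finite G] (hcop : ¬ p ∣ Nat.card G) {V : Type*} [AddCommGroup V] [Module F V] [FiniteDimensional F V] (ρ : Representation F G V) (B : LinearMap.BilinForm F V) (hB : B.Nondegenerate) (hBinv : ∀ g : G, ∀ x y : V, B (ρ g x) (ρ g y) = B x y) : ∃ U W : Submodule F V, IsCompl U W ∧ (∀ g : G, ∀ u ∈ U, ρ g u ∈ U) ∧ (∀ g : G, ∀ w ∈ W, ρ g w ∈ W) ∧ (∃ A : LinearMap.BilinForm F V, (∀ x : V, A x x = 0) ∧ (∀ g : G, ∀ x ∈ U, ∀ y ∈ U, A (ρ g x) (ρ g y) = A x y) ∧ (∀ x ∈ U, (∀ y ∈ U, A x y = 0) → x = 0)) ∧ (∃ S : LinearMap.BilinForm F V, (∀ x y : V, S x y = S y x) ∧ (∀ g : G, ∀ x ∈ W, ∀ y ∈ W, S (ρ g x) (ρ g y) = S x y) ∧ (∀ x ∈ W, (∀ y ∈ W, S x y = 0) → x = 0)) ∧ (p = 2 → ∀ g : G, ∀ w ∈ W, ρ g w = w) := by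
  classical
  haveI : Finite V := Module.finite_of_finite F
  haveI : Finite (Module.End F V) := DFunLike.finite _
  haveI := Fintype.ofFinite G
  obtain ⟨a, ha⟩ : ∃ a : Module.End F V, ∀ x y, B (a x) y = B y x :=
    ⟨(B.toDual hB).symm.toLinearMap ∘ₗ B.flip, fun x y => by
      rw [← LinearMap.BilinForm.toDual_def hB]; simp⟩
  have hρ : ∀ g x y, B x (ρ g y) = B (ρ g⁻¹ x) y := fun g x y => by
    rw [← hBinv g (ρ g⁻¹ x), ρ.self_inv_apply]
  have ca : ∀ g, Commute a (ρ g) := fun g => LinearMap.ext fun x => sub_eq_zero.1 (hB.1 _ fun y => by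
    rw [map_sub, LinearMap.sub_apply, Module.End.mul_apply, Module.End.mul_apply, ha, hρ,
      ← hBinv g⁻¹ (ρ g (a x)), ρ.inv_self_apply, ha, ← hBinv g (ρ g⁻¹ y) x, ρ.self_inv_apply, hρ,
      sub_self])
  obtain ⟨n, hε⟩ := exists_idem (1 - a)
  have cf : ∀ g, Commute (1 - a) (ρ g) := fun g => (Commute.one_left _).sub_left (ca g)
  have caf : Commute a (1 - a) := (Commute.one_right _).sub_right (Commute.refl a)
  have o1 : ∀ k x y, B x (((1 - a) ^ k) y) = (-1) ^ k * B (((1 - a) ^ k) x) ((a ^ k) y) := fun k => by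
    induction k with
    | zero => simp
    | succ k ih =>
      intro x y
      rw [pow_succ' (-1 : F), pow_succ' a]
      nth_rewrite 2 [pow_succ']
      rw [pow_succ, Module.End.mul_apply, ih, ← Module.End.mul_apply, (caf.pow_left k).eq]
      simp only [Module.End.mul_apply, LinearMap.sub_apply, Module.End.one_apply, map_sub, ha]
      ring
  have o2 : ∀ k x y, B (((1 - a) ^ k) x) y = (-1) ^ k * B ((a ^ k) x) (((1 - a) ^ k) y) := fun k => by
    induction k with
    | zero => simp
    | succ k ih =>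
      intro x y
      rw [pow_succ' (-1 : F), pow_succ' a]
      nth_rewrite 2 [pow_succ']
      rw [pow_succ, Module.End.mul_apply, ih, ← Module.End.mul_apply, (caf.pow_left k).eq]
      simp only [Module.End.mul_apply, LinearMap.sub_apply, Module.End.one_apply, map_sub, ha]
      ring
  obtain ⟨ε, hεd⟩ : ∃ ε, ε = (1 - a) ^ (n + 1) := ⟨_, rfl⟩
  have cε : ∀ g, Commute ε (ρ g) := fun g => hεd ▸ (cf g).pow_left _
  have cεa : Commute ε a := hεd ▸ caf.symm.pow_left _
  have k1 : ∀ x, (1 - a) x = 0 → ε x = 0 := fun x hx => by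
    rw [hεd, pow_succ, Module.End.mul_apply, hx, map_zero]
  have k2 : ∀ (c : Module.End F V) x, Commute c (1 - a) → ε x = 0 → c ((1 - a) x) = x → x = 0 :=
    fun c x hc h0 hx => by
      have : ∀ k : ℕ, ((c * (1 - a)) ^ k) x = x := fun k => by
        induction k with
        | zero => rfl
        | succ k ih => rw [pow_succ, Module.End.mul_apply, Module.End.mul_apply, hx, ih]
      rw [← this (n + 1), hc.mul_pow, Module.End.mul_apply, ← hεd, h0, map_zero]
  rw [← hεd] at hε
  have εε : ∀ x, ε (ε x) = ε x := LinearMap.congr_fun hε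
  have sa : ∀ x y, B (ε x) y = B x (ε y) := fun x y => by
    have e1 : B (ε x) (y - ε y) = 0 := by
      nth_rewrite 1 [hεd]
      rw [o2, ← hεd, map_sub, εε, sub_self, map_zero, mul_zero]
    have e2 : B (x - ε x) (ε y) = 0 := by
      nth_rewrite 2 [hεd]
      rw [o1, ← hεd, map_sub, εε, sub_self, map_zero, LinearMap.zero_apply, mul_zero]
    rw [map_sub] at e1 e2
    rw [LinearMap.sub_apply] at e2
    linear_combination e1 - e2
  have inv : ∀ {E : Module.End F V}, (∀ g, Commute E (ρ g)) →
      (∀ g, ∀ u ∈ LinearMap.range E, ρ g u ∈ LinearMap.range E) ∧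
      ∀ g, ∀ u ∈ LinearMap.ker E, ρ g u ∈ LinearMap.ker E := fun {E} h =>
    ⟨by rintro g _ ⟨u, rfl⟩; exact ⟨_, LinearMap.congr_fun (h g) u⟩, fun g u hu =>
      (LinearMap.congr_fun (h g) u).trans (by rw [Module.End.mul_apply, show E u = 0 from hu, map_zero])⟩
  have nd : ∀ {E : Module.End F V}, IsIdempotentElem E → (∀ x y, B (E x) y = B x (E y)) →
      (∀ x, E x = x → (∀ y ∈ LinearMap.range E, B x y = 0) → x = 0) ∧
      ∀ x, E x = 0 → (∀ y ∈ LinearMap.ker E, B x y = 0) → x = 0 := fun {E} h hs =>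
    ⟨fun x hx h0 => hB.1 x fun y => by rw [← hx, hs, h0 _ ⟨y, rfl⟩], fun x hx h0 => hB.1 x fun y => by
      have := h0 (y - E y) (by rw [LinearMap.mem_ker, map_sub, idem_fix h ⟨y, rfl⟩, sub_self])
      rwa [map_sub, ← hs, hx, map_zero, LinearMap.zero_apply, sub_zero] at this⟩
  have cεf : ∀ x, ε ((1 - a) x) = (1 - a) (ε x) :=
    LinearMap.congr_fun ((Commute.one_right _).sub_right cεa)
  by_cases h2 : p = 2
  swap
  · have two : (2 : F) ≠ 0 := fun e => h2 ((Nat.prime_dvd_prime_iff_eq Fact.out Nat.prime_two).1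
      ((CharP.cast_eq_zero_iff F p 2).1 e))
    refine ⟨_, _, LinearMap.IsIdempotentElem.isCompl hε, (inv cε).1, (inv cε).2,
      ⟨B - B.flip, fun x => by simp, fun g x _ y _ => by simp [hBinv], fun x hx h => ?_⟩,
      ⟨B + B.flip, fun x y => by simp [add_comm], fun g x _ y _ => by simp [hBinv], fun x hx h => ?_⟩,
      fun e => absurd e h2⟩
    · rw [← idem_fix hε hx]
      exact k1 x ((nd hε sa).1 _ (by rw [cεf, idem_fix hε hx]) fun y hy => by simpa [ha] using h y hy)
    · refine k2 ((2 : F)⁻¹ • 1) x ((Commute.one_left _).smul_left _) hx ?_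
      have := (nd hε sa).2 (x + a x) (by
        rw [map_add, show ε (a x) = a (ε x) from LinearMap.congr_fun cεa x, show ε x = 0 from hx]; simp)
        fun y hy => by simpa [ha] using h y hy
      rw [LinearMap.sub_apply, eq_neg_of_add_eq_zero_right this]
      simp [← two_smul F x, smul_smul, two]
  subst h2
  have hodd : Odd (Nat.card G) := Nat.not_even_iff_odd.1 fun e => hcop (even_iff_two_dvd.1 e)
  have neg : ∀ x : V, -x = x := fun x => neg_eq_of_add_eq_zero_left (by
    rw [← two_smul F x, CharTwo.two_eq_zero, zero_smul])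
  let r : G → ℕ := fun g => Fintype.equivFin (ConjClasses G) (ConjClasses.mk g)
  have hr : ∀ g h, r (h * g * h⁻¹) = r g := fun g h => by
    simp only [r, ConjClasses.mk_eq_mk_iff_isConj.2 (isConj_iff.2 ⟨h, rfl⟩ : IsConj g _)]
  have hr1 : ∀ g, r g = r g⁻¹ → g = 1 := fun g e => H87.eq_one_of_isConj_inv_of_odd hodd
    (ConjClasses.mk_eq_mk_iff_isConj.1 ((Fintype.equivFin _).injective (Fin.ext e)))
  obtain ⟨z, hz⟩ : ∃ z, z = ∑ g, if r g < r g⁻¹ then ρ g else 0 := ⟨_, rfl⟩
  obtain ⟨w, hw⟩ : ∃ w, w = ∑ g, if r g < r g⁻¹ then ρ g⁻¹ else 0 := ⟨_, rfl⟩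
  obtain ⟨π, hπ⟩ : ∃ π, π = ∑ g, ρ g := ⟨_, rfl⟩
  have zw : z + w + 1 = π := by
    rw [hz, hw, hπ, ← Equiv.sum_comp (Equiv.inv G) fun g => if r g < r g⁻¹ then ρ g⁻¹ else 0,
      ← Finset.sum_add_distrib, ← map_one ρ, ← Finset.sum_ite_eq_of_mem Finset.univ 1 (fun g => ρ g)
      (Finset.mem_univ _), ← Finset.sum_add_distrib]
    refine Finset.sum_congr rfl fun g _ => ?_
    by_cases e : 1 = g
    · simp [← e]
    · rcases lt_trichotomy (r g) (r g⁻¹) with h | h | h
      · simp [e, h, h.le]
      · exact absurd (hr1 g h).symm e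
      · simp [e, h, h.le]
  have az : ∀ x y, B x (z y) = B (w x) y := fun x y => by
    simp only [hz, hw, LinearMap.sum_apply, map_sum]
    exact Finset.sum_congr rfl fun g _ => by split_ifs <;> simp [hρ]
  have aπ : ∀ x y, B (π x) y = B x (π y) := fun x y => by
    simp only [hπ, LinearMap.sum_apply, map_sum, hρ]
    exact (Equiv.sum_comp (Equiv.inv G) fun g => B (ρ g x) y).symm
  have cz : ∀ g, Commute z (ρ g) := fun g => by
    rw [Commute, SemiconjBy, hz, Finset.sum_mul, Finset.mul_sum, ← (MulAut.conj g).sum_comp]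
    refine Finset.sum_congr rfl fun h _ => ?_
    have := hr h⁻¹ g
    simp only [MulEquiv.toEquiv_eq_coe, EquivLike.coe_coe, MulAut.conj_apply, conj_inv, hr]
    split_ifs <;> simp [← map_mul]
  have πρ : ∀ g, ρ g * π = π := fun g => by
    rw [hπ, Finset.mul_sum, ← Equiv.sum_comp (Equiv.mulLeft g) fun h => ρ h]; simp
  have ρπ : ∀ g, π * ρ g = π := fun g => by
    rw [hπ, Finset.sum_mul, ← Equiv.sum_comp (Equiv.mulRight g) fun h => ρ h]; simp
  have ππ : IsIdempotentElem π := by
    rw [IsIdempotentElem]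
    nth_rewrite 1 [hπ]
    obtain ⟨k, hk⟩ := hodd
    rw [Finset.sum_mul, Finset.sum_congr rfl fun g _ => πρ g, Finset.sum_const, Finset.card_univ,
      ← Nat.card_eq_fintype_card, hk, ← Nat.cast_smul_eq_nsmul F]
    simp [CharTwo.two_eq_zero]
  have cs : ∀ {c : Module.End F V}, (∀ g, Commute c (ρ g)) → Commute c z ∧ Commute c w ∧ Commute c π :=
    fun {c} h => ⟨hz ▸ Commute.sum_right _ _ _ fun g _ => by split_ifs; exacts [h g, Commute.zero_right _],
      hw ▸ Commute.sum_right _ _ _ fun g _ => by split_ifs; exacts [h _, Commute.zero_right _],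
      hπ ▸ Commute.sum_right _ _ _ fun g _ => h g⟩
  have c1 : ∀ g, Commute (1 - ε) (ρ g) := fun g => (Commute.one_left _).sub_left (cε g)
  have hE : IsIdempotentElem (π * (1 - ε)) := ππ.mul_of_commute (cs c1).2.2.symm hε.one_sub
  have cE : ∀ g, Commute (π * (1 - ε)) (ρ g) := fun g =>
    Commute.mul_left ((ρπ g).trans (πρ g).symm) (c1 g)
  have sE : ∀ x y, B ((π * (1 - ε)) x) y = B x ((π * (1 - ε)) y) := fun x y => by
    rw [Module.End.mul_apply, aπ, ← (cs c1).2.2.eq]; simp [sa]
  have fix : ∀ g, ∀ x ∈ LinearMap.range (π * (1 - ε)), ρ g x = x := by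
    rintro g _ ⟨x, rfl⟩
    rw [← Module.End.mul_apply, ← mul_assoc, πρ]
  have ce : ∀ g, Commute (ε + z * (1 - ε)) (ρ g) := fun g => (cε g).add_left ((cz g).mul_left (c1 g))
  let b := Module.finBasis F (LinearMap.range (π * (1 - ε)))
  let c := fun i => b.coord i ∘ₗ (π * (1 - ε)).rangeRestrict
  refine ⟨_, _, (LinearMap.IsIdempotentElem.isCompl hE).symm, (inv cE).2, (inv cE).1,
    ⟨B ∘ₗ (ε + z * (1 - ε)) - (B ∘ₗ (ε + z * (1 - ε))).flip, fun x => by simp, fun g x _ y _ => ?_,
      fun x hx h => ?_⟩, ⟨∑ i, (LinearMap.mul F F).compl₁₂ (c i) (c i), fun x y => by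
        simp [mul_comm], fun g x hx y hy => by rw [fix g x hx, fix g y hy], fun x hx h => ?_⟩,
    fun _ => fix⟩
  · have := fun v => LinearMap.congr_fun (ce g) v
    simp only [Module.End.mul_apply] at this
    simp only [LinearMap.sub_apply, LinearMap.flip_apply, LinearMap.comp_apply, this, hBinv]
  · have cq : Commute (π * (1 - ε)) (ε + z * (1 - ε) - (ε + w * (1 - ε)) * a) := by
      have d1 : Commute (π * (1 - ε)) ε := (cs cε).2.2.symm.mul_left
        ((Commute.one_left _).sub_left (Commute.refl _))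
      have d2 := (Commute.one_right _).sub_right d1
      exact (d1.add_right ((cs cE).1.mul_right d2)).sub_right ((d1.add_right ((cs cE).2.1.mul_right
        d2)).mul_right ((cs ca).2.2.symm.mul_left ((Commute.one_left _).sub_left cεa)))
    have q0 := (nd hE sE).2 ((ε + z * (1 - ε) - (ε + w * (1 - ε)) * a) x) (by
      rw [← Module.End.mul_apply, cq.eq, Module.End.mul_apply, show (π * (1 - ε)) x = 0 from hx,
        map_zero]) fun y hy => by
      rw [← h y hy]
      have := fun v => LinearMap.congr_fun (cs cε).2.1 v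
      simp only [Module.End.mul_apply] at this
      simp only [LinearMap.sub_apply, LinearMap.add_apply, Module.End.mul_apply, map_sub, map_add,
        LinearMap.flip_apply, LinearMap.comp_apply, Module.End.one_apply, ← ha x, az, ← sa, this]
    have dz := fun v => LinearMap.congr_fun (cs cε).1 v
    have dw := fun v => LinearMap.congr_fun (cs cε).2.1 v
    have da := fun v => LinearMap.congr_fun cεa v
    simp only [Module.End.mul_apply] at dz dw da
    simp only [LinearMap.sub_apply, LinearMap.add_apply, Module.End.mul_apply,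
      Module.End.one_apply] at q0
    have e0 : ε x = 0 := by
      have := congrArg ε q0
      simp only [map_sub, map_add, dz, dw, εε, sub_self, add_zero, map_zero, da] at this
      rw [← εε]
      exact k1 _ this
    have e1 : π x = 0 := by simpa [e0] using hx
    refine k2 w x (cs cf).2.1.symm e0 ?_
    rw [← zw] at e1
    simp only [da, e0, map_zero, sub_zero, zero_add] at q0
    simp only [LinearMap.add_apply, Module.End.one_apply] at e1
    rw [LinearMap.sub_apply, map_sub, Module.End.one_apply, ← sub_eq_zero.1 q0, sub_eq_add_neg, neg,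
      add_comm, eq_neg_of_add_eq_zero_left e1, neg]
  · have hc : ∀ i (y : LinearMap.range (π * (1 - ε))), c i y = b.repr y i := fun i y => by
      simp only [c, LinearMap.comp_apply, Module.Basis.coord_apply]
      rw [show (π * (1 - ε)).rangeRestrict y = y from Subtype.ext (idem_fix hE y.2)]
    refine congrArg Subtype.val (b.ext_elem (x := ⟨x, hx⟩) (y := 0) fun i => ?_)
    have := h (b i) (b i).2
    simp only [LinearMap.sum_apply, LinearMap.compl₁₂_apply, LinearMap.mul_apply', hc,
      hc _ ⟨x, hx⟩] at this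
    simpa [Finsupp.single_apply] using this

end Cfsg.Agent.S4966
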