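import Cfsg.Statements.S0730
import Mathlib
import Cfsg.Agent.Lib.Perm27.Index2

set_option autoImplicit false
open Cfsg

namespace Cfsg.Agent.S0730

open MulAction OnePoint

theorem comm_of_odd {G Ω : Type*} [Group G] [MulAction G Ω] [Finite G] {a b c : Ω}
    (hS : H27.Sharp3 G Ω) (hb : b ≠ a) (hca : c ≠ a) (hcb : c ≠ b) {p f : ℕ} (hp : p.Prime)
    (hp2 : p ≠ 2) (hf : Odd f) (hΩ : Nat.card Ω = p ^ f + 1) :
    ∀ h ∈ stabilizer G a ⊓ stabilizer G b, ∀ k ∈ stabilizer G a ⊓ stabilizer G b,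
      h * k = k * h := by
  classical
  have := hS.finite
  have hodd : Odd (p ^ f) := (hp.odd_of_ne_two hp2).pow
  obtain ⟨s, hsa, hsb, hsc⟩ := hS.trans3 a b c b a c hb.symm hca.symm hcb.symm hb hcb.symm hca.symm
  obtain ⟨N, hNH, hN2, hNs⟩ := hS.exists_index_two hb hca hcb (hΩ ▸ hodd.add_one) hsa hsb hsc
  have hcard := hS.card_stab2 hb hca hcb
  have hss : s * s = 1 := hS.three _ a b c hb.symm hcb.symm hca.symm
    (by rw [mul_smul, hsa, hsb]) (by rw [mul_smul, hsb, hsa]) (by rw [mul_smul, hsc, hsc])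
  have hsinv : s⁻¹ = s := inv_eq_of_mul_eq_one_right hss
  have e1 := Subgroup.relIndex_mul_relIndex ⊥ N _ bot_le hNH
  rw [Subgroup.relIndex_bot_left, Subgroup.relIndex_bot_left, hN2] at e1
  have hmul : ∀ h ∈ stabilizer G a ⊓ stabilizer G b, ∀ k ∈ stabilizer G a ⊓ stabilizer G b,
      h * k ∈ N ↔ (h ∈ N ↔ k ∈ N) := fun h hh k hk =>
    Subgroup.mul_mem_iff_of_index_two hN2 (a := ⟨h, hh⟩) (b := ⟨k, hk⟩)
  have hsH : ∀ h ∈ stabilizer G a ⊓ stabilizer G b, s * h * s⁻¹ ∈ stabilizer G a ⊓ stabilizer G b :=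
    fun h hh => H27.conj_mem_stab2 (Or.inr ⟨hsa, hsb⟩) hh
  have h2 := (hS.count_invol hb ⟨Nat.card N, by omega⟩ s N (by
    rintro t - hta htb ⟨x, hx⟩
    obtain ⟨h, hh, rfl⟩ := hS.eq_conj_of_fix hb hca hcb hsa hsb hsc hta htb hx
    have e : h⁻¹ * s * h * s = h⁻¹ * (s * h * s⁻¹) := by rw [hsinv]; group
    rw [e, hmul _ (Subgroup.inv_mem _ hh) _ (hsH h hh), inv_mem_iff]
    refine ⟨hNs h, fun h1 => ?_⟩
    have := hNs _ h1
    rwa [hsinv, ← mul_assoc, ← mul_assoc, hss, one_mul, mul_assoc, hss, mul_one] at this)).2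
    (by omega)
  have hNc := H27.comm_of_conj_eq_inv N s (fun h hh => by
    obtain ⟨t, htt, -, -, -, rfl⟩ := h2 h hh
    rw [mul_inv_rev, hsinv, inv_eq_of_mul_eq_one_right htt]
    calc s * (t * s) * s = s * t * (s * s) := by group
      _ = _ := by rw [hss, mul_one])
  obtain ⟨U, hU⟩ := hS.exists_kernel hb
  have hU1 := hU.card_add_one hb
  have hpos := Nat.card_pos (α := N)
  obtain ⟨F, _, _, e, hF, hea, heb, -, -, hadd, hC⟩ := hU.exists_field_coord hb
    (hS.comm_of_large hU hb (by omega)) (by omega) N (fun h hh => (hNH hh).1)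
    (fun h hh => (hNH hh).2) hNc
    (fun h hh y hya hyb hy => hS.three h a b y hb.symm hyb.symm hya.symm (hNH hh).1 (hNH hh).2 hy)
    (by omega)
  have hinj : ∀ x y : F, e x = e y → x = y := fun x y h =>
    OnePoint.coe_injective (e.injective h)
  have hna : ∀ x : F, a ≠ e x := fun x h => OnePoint.infty_ne_coe x (e.injective (hea.trans h))
  have hnb : ∀ x : F, x ≠ 0 → b ≠ e x := fun x hx h => hx (hinj _ _ (heb.trans h)).symm
  have hNm : ∀ n ∈ N, ∃ c : F, ∀ x : F, n • e x = e (c * x : F) := fun n hn =>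
    hC n (hNH hn).1 (hNH hn).2 (fun h hh => hNc h hh n hn)
  have hFc : Fintype.card F = p ^ f := by omega
  have hchar : CharP F p := by
    obtain ⟨n, hq, hn⟩ := FiniteField.card F (ringChar F)
    have : ringChar F = p := by
      rw [hFc] at hn
      exact ((Nat.prime_dvd_prime_iff_eq hq hp).1 (hq.dvd_of_dvd_pow (hn ▸ dvd_pow_self _ n.2.ne')))
    exact this ▸ ringChar.charP F
  have key : ∀ h ∈ stabilizer G a ⊓ stabilizer G b, ∃ c : F, ∀ x : F, h • e x = e (c * x : F) := by
    intro h hh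
    obtain ⟨φ, hφ⟩ := hadd h hh.1 hh.2
    have hφinj : Function.Injective φ := fun x y hxy =>
      hinj _ _ (smul_left_cancel h (by rw [hφ, hφ, hxy]))
    have hd : φ 1 ≠ 0 := fun h0 => one_ne_zero (hφinj (h0.trans (map_zero φ).symm))
    let S : AddSubgroup F :=
      { carrier := {c | ∀ x, φ (c * x) * φ 1 = φ c * φ x}
        zero_mem' := fun x => by simp
        add_mem' := fun {c d} hc hd x => by
          rw [add_mul, map_add, map_add, add_mul, hc, hd, add_mul]
        neg_mem' := fun {c} hc x => by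
          rw [neg_mul, map_neg, map_neg, neg_mul, hc, neg_mul] }
    have hS' : S = ⊤ := by
      choose cN hcN using hNm
      have h1 : ∀ n : N, cN n n.2 ∈ S := by
        intro n x
        have hn' : h * n * h⁻¹ ∈ N :=
          (Subgroup.normal_of_index_eq_two hN2).conj_mem ⟨n, hNH n.2⟩ n.2 ⟨h, hh⟩
        have e2 : ∀ y, φ (cN n n.2 * y) = cN _ hn' * φ y := fun y => hinj _ _ (by
          rw [← hφ, ← hcN, ← hcN, ← hφ, mul_smul, inv_smul_smul, mul_smul])
        have e3 := e2 1
        rw [mul_one] at e3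
        rw [e2, e3]
        ring
      have h3 : Nat.card N < Nat.card S := by
        refine H27.card_lt_of_inj_not_surj (fun n : N => (⟨cN n n.2, h1 n⟩ : S)) ?_ ?_
        · intro n m hnm
          have e2 : cN n n.2 = cN m m.2 := congrArg Subtype.val hnm
          exact Subtype.ext (hS.eq_of_three hb.symm (hnb 1 one_ne_zero) (hna 1)
            ((H27.mem_stab2.1 (hNH n.2)).1.trans (H27.mem_stab2.1 (hNH m.2)).1.symm)
            ((H27.mem_stab2.1 (hNH n.2)).2.trans (H27.mem_stab2.1 (hNH m.2)).2.symm)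
            (by rw [hcN n n.2, hcN m m.2, e2]))
        · intro hs
          obtain ⟨n, hn⟩ := hs 0
          have e2 : cN n n.2 = 0 := congrArg Subtype.val hn
          have e3 := hcN n n.2 1
          rw [e2, zero_mul, heb, ← (H27.mem_stab2.1 (hNH n.2)).2] at e3
          exact hnb 1 one_ne_zero (smul_left_cancel _ e3).symm
      obtain ⟨k, hk⟩ := S.card_addSubgroup_dvd_card
      rw [Nat.card_eq_fintype_card (α := F)] at hk
      apply AddSubgroup.eq_top_of_card_eq
      rw [Nat.card_eq_fintype_card (α := F)]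
      rcases k with _ | _ | k
      · omega
      · omega
      · have h4 : Fintype.card F = 2 * Nat.card N + 1 := by omega
        nlinarith
    have hm : ∀ c x, φ (c * x) * φ 1 = φ c * φ x := fun c => (show c ∈ S from hS' ▸ trivial)
    let θ : F →+* F :=
      { toFun := fun x => φ x / φ 1
        map_one' := div_self hd
        map_mul' := fun x y => by
          field_simp
          exact hm x y
        map_zero' := by simp
        map_add' := fun x y => by rw [map_add, add_div] }
    have hθ : ∀ x, φ x = φ 1 * θ x := fun x => by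
      change _ = φ 1 * (φ x / φ 1)
      field_simp
    have hθ2 : ∀ x, θ (θ x) = x := by
      obtain ⟨c, hc⟩ := hNm _ ((hmul h hh h hh).2 Iff.rfl)
      have e2 : ∀ x, φ 1 * (θ (φ 1) * θ (θ x)) = c * x := fun x => hinj _ _ (by
        rw [← hc, mul_smul, hφ, hφ, hθ (φ x), hθ x, map_mul])
      intro x
      have e3 := e2 1
      rw [map_one θ, map_one θ, mul_one, mul_one] at e3
      have e4 := e2 x
      rw [← e3, ← mul_assoc] at e4
      exact mul_left_cancel₀ (mul_ne_zero hd ((map_ne_zero θ).2 hd)) e4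
    have := Fact.mk hp
    let _ : Algebra (ZMod p) F := ZMod.algebra F p
    let θ' : F ≃ₐ[ZMod p] F := AlgEquiv.ofRingEquiv (f := RingEquiv.ofBijective θ
      (Function.Involutive.bijective hθ2)) (fun x =>
        RingHom.congr_fun (RingHom.ext_zmod (θ.comp (algebraMap (ZMod p) F)) _) x)
    have h3 : θ' ^ 2 = 1 := by
      ext x
      exact hθ2 x
    have h4 : Nat.card (F ≃ₐ[ZMod p] F) = f := by
      rw [IsGalois.card_aut_eq_finrank]
      have := Module.card_eq_pow_finrank (K := ZMod p) (V := F)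
      rw [hFc, ZMod.card] at this
      exact (Nat.pow_right_injective hp.two_le this).symm
    have h5 : θ' = 1 := by
      rw [← orderOf_eq_one_iff]
      exact Nat.eq_one_of_dvd_coprimes (Nat.coprime_two_left.2 hf) (orderOf_dvd_of_pow_eq_one h3)
        (h4 ▸ orderOf_dvd_natCard θ')
    refine ⟨φ 1, fun x => ?_⟩
    rw [hφ, hθ x, show θ x = x from congrArg (fun ψ : F ≃ₐ[ZMod p] F => ψ x) h5]
  intro h hh k hk
  obtain ⟨c1, h1⟩ := key h hh
  obtain ⟨c2, h2⟩ := key k hk
  rw [H27.mem_stab2] at hh hk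
  refine hS.eq_of_three hb.symm (hnb 1 one_ne_zero) (hna 1) ?_ ?_ ?_
  · simp only [mul_smul, hh.1, hk.1]
  · simp only [mul_smul, hh.2, hk.2]
  · rw [mul_smul, mul_smul, h1, h2, h1, h2, mul_left_comm]


/-- A sharply triply transitive group of degree `p^f + 1`, `p` an odd prime and `f` odd, is isomorphic to the projective general linear group of degree 2 over the field with `p^f` elements (for even `f` there is a second, twisted, group). -/
theorem result {α : Type*} [Fintype α] [DecidableEq α] {p f : ℕ} (hp : p.Prime) (hp2 : p ≠ 2) (hfo : Odd f) (hα : Fintype.card α = p ^ f + 1) (G : Subgroup (Equiv.Perm α)) (h3 : MulAction.IsMultiplyPretransitive G α 3) (hsharp : ∀ x : Fin 3 ↪ α, MulAction.stabilizer G x = ⊥) : ∃ (F : Type) (_ : Field F) (_ : Fintype F), Fintype.card F = p ^ f ∧ Nonempty (G ≃* Matrix.ProjGenLinGroup (Fin 2) F) := by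
  have h2 : 2 ≤ p ^ f := hp.two_le.trans (Nat.le_self_pow hfo.pos.ne' p)
  have hc : Nat.card α = p ^ f + 1 := by rw [Nat.card_eq_fintype_card, hα]
  have hS := H27.Sharp3.of_perm G h3 hsharp (by omega)
  have : Nontrivial α := Finite.one_lt_card_iff_nontrivial.1 (by omega)
  obtain ⟨b, a, hb⟩ := exists_pair_ne α
  obtain ⟨c, hca, hcb⟩ := H27.Sharp3.exists_third (Ω := α) (by omega) a b
  obtain ⟨F, _, _, hF, h⟩ := hS.pgl2_of_comm hb hca hcb (comm_of_odd hS hb hca hcb hp hp2 hfo hc)
  exact ⟨F, inferInstance, inferInstance, by omega, h⟩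

end Cfsg.Agent.S0730
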