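import Cfsg.Statements.S2507
import Cfsg.Agent.Lib.SL2Elt.Order
import Cfsg.Agent.Lib.GL.Basic
-- import your own Cfsg.Agent.* helpers here

set_option autoImplicit false
open Cfsg

namespace Cfsg.Agent.S2507

theorem index_centralizer_equiv {G H : Type*} [Group G] [Group H] (e : G ≃* H) (g : G) :
    (Subgroup.centralizer ({e g} : Set H)).index = (Subgroup.centralizer ({g} : Set G)).index := by
  rw [← Subgroup.index_comap_of_surjective _ (f := e.toMonoidHom) e.surjective]
  congr 1
  ext x
  simp only [Subgroup.mem_comap, Subgroup.mem_centralizer_singleton_iff, MulEquiv.coe_toMonoidHom,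
    ← map_mul, e.apply_eq_iff_eq]

theorem card_centralizer_unipotent {F : Type*} [Field F] (h2 : (2 : F) = 0) :
    Nat.card (Subgroup.centralizer
      ({H64.SL2.comp 0} : Set (Matrix.SpecialLinearGroup (Fin 2) F))) = Nat.card F := by
  symm
  refine Nat.card_congr (Equiv.ofBijective (fun t => ⟨H64.SL2.mk (1 + t) (-t) t (1 + t)
    (by linear_combination (t + t ^ 2) * h2), ?_⟩) ⟨?_, ?_⟩)
  · rw [Subgroup.mem_centralizer_singleton_iff]
    simp only [H64.SL2.comp, H64.SL2.ent]
    exact ⟨by ring, by ring, by ring, by ring⟩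
  · intro s t e
    have := congrArg Subtype.val e
    simp only [H64.SL2.ent] at this
    exact this.2.2.1
  · rintro ⟨g, hg⟩
    refine ⟨g 1 0, Subtype.ext ?_⟩
    rw [Subgroup.mem_centralizer_singleton_iff] at hg
    have dg := H64.SL2.det_eq g
    simp only [H64.SL2.comp, H64.SL2.ent] at hg ⊢
    obtain ⟨h1, h3, h4, h5⟩ := hg
    have e1 : g 0 1 = - g 1 0 := by linear_combination h1
    have e2 : g 1 1 = g 0 0 := by linear_combination h4
    rw [e1, e2] at dg
    have e3 : (1 + g 1 0 - g 0 0) ^ 2 = 0 := by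
      linear_combination dg + (1 + g 1 0 - g 0 0 - g 1 0 * g 0 0) * h2
    have e4 := pow_eq_zero_iff two_ne_zero |>.1 e3
    refine ⟨by linear_combination e4, e1.symm, trivial, by linear_combination e4 - e2⟩

/-- Let F be a finite field with q = 2^f ≥ 4 elements. The conjugacy class sizes of PSL(2,F) are exactly 1, q(q − 1), q² − 1 and q(q + 1). -/
theorem result {F : Type*} [Field F] [Fintype F]
    (h2 : 2 ∣ Fintype.card F) (h4 : 4 ≤ Fintype.card F) :
    Set.range (fun g : (Matrix.ProjectiveSpecialLinearGroup (Fin 2) F) => (Subgroup.centralizer ({g} : Set (Matrix.ProjectiveSpecialLinearGroup (Fin 2) F))).index) =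
      {1, Fintype.card F * (Fintype.card F - 1), Fintype.card F ^ 2 - 1, Fintype.card F * (Fintype.card F + 1)} := by
  have h2' := H64.SL2.two_eq_zero_of_even h2
  have hG := H10.card_SL_two (F := F)
  rw [Nat.card_eq_fintype_card (α := F)] at hG
  obtain ⟨k, hk⟩ : ∃ k, Fintype.card F = k + 1 := ⟨Fintype.card F - 1, by omega⟩
  have hk0 : 0 < k := by omega
  have hsq : Fintype.card F ^ 2 - 1 = k * (k + 2) := by
    rw [hk, Nat.sub_eq_iff_eq_add (Nat.one_le_pow _ _ (by omega))]; ring
  have hidx : ∀ (g : Matrix.SpecialLinearGroup (Fin 2) F) (c m : ℕ), 0 < c →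
      Nat.card (Subgroup.centralizer ({g} : Set (Matrix.SpecialLinearGroup (Fin 2) F))) = c →
      m * c = (k + 1) * k * (k + 2) →
      (Subgroup.centralizer ({H64.SL2.projEquiv h2' g} :
        Set (Matrix.ProjectiveSpecialLinearGroup (Fin 2) F))).index = m := by
    intro g c m hc h1 h3
    rw [index_centralizer_equiv]
    have := (Subgroup.centralizer ({g} : Set (Matrix.SpecialLinearGroup (Fin 2) F))).index_mul_card
    rw [h1, hG, hk, Nat.add_sub_cancel] at this
    exact Nat.eq_of_mul_eq_mul_right hc (this.trans h3.symm)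
  have hsplit : ∀ g : Matrix.SpecialLinearGroup (Fin 2) F, H64.SL2.tr g ^ 2 ≠ 4 → H64.SL2.Split g →
      (Subgroup.centralizer ({H64.SL2.projEquiv h2' g} :
        Set (Matrix.ProjectiveSpecialLinearGroup (Fin 2) F))).index =
          Fintype.card F * (Fintype.card F + 1) := by
    intro g ht hs
    refine hidx g k _ hk0 ?_ (by rw [hk]; ring)
    rw [H64.SL2.card_centralizer_of_split ht hs, Nat.card_eq_fintype_card, hk, Nat.add_sub_cancel]
  have hnon : ∀ g : Matrix.SpecialLinearGroup (Fin 2) F, ¬ H64.SL2.Split g →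
      (Subgroup.centralizer ({H64.SL2.projEquiv h2' g} :
        Set (Matrix.ProjectiveSpecialLinearGroup (Fin 2) F))).index =
          Fintype.card F * (Fintype.card F - 1) := by
    intro g hs
    refine hidx g (k + 2) _ (by omega) ?_ (by rw [hk, Nat.add_sub_cancel])
    rw [H64.SL2.card_centralizer_of_not_split hs, Nat.card_eq_fintype_card, hk]
  have huni : ∀ g : Matrix.SpecialLinearGroup (Fin 2) F, IsConj (H64.SL2.comp 0) g →
      (Subgroup.centralizer ({H64.SL2.projEquiv h2' g} :
        Set (Matrix.ProjectiveSpecialLinearGroup (Fin 2) F))).index = Fintype.card F ^ 2 - 1 := by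
    intro g hc
    refine hidx g (k + 1) _ (by omega) ?_ (by rw [hsq]; ring)
    obtain ⟨e⟩ := H64.SL2.nonempty_centralizer_equiv_of_isConj hc
    rw [← Nat.card_congr e.toEquiv, card_centralizer_unipotent h2', Nat.card_eq_fintype_card, hk]
  have hone : (Subgroup.centralizer ({1} :
      Set (Matrix.ProjectiveSpecialLinearGroup (Fin 2) F))).index = 1 := by
    rw [Subgroup.index_eq_one, eq_top_iff]
    intro x _
    simp [Subgroup.mem_centralizer_singleton_iff]
  ext m
  simp only [Set.mem_range, Set.mem_insert_iff, Set.mem_singleton_iff]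
  constructor
  · rintro ⟨g, rfl⟩
    obtain ⟨g, rfl⟩ := (H64.SL2.projEquiv h2').surjective g
    by_cases hz : g ∈ Subgroup.center (Matrix.SpecialLinearGroup (Fin 2) F)
    · left
      rw [H64.SL2.projEquiv_apply, H64.SL2.proj_eq_one_iff.2 hz, hone]
    by_cases ht : H64.SL2.tr g ^ 2 = 4
    · right; right; left
      apply huni
      have h0 : H64.SL2.tr g = 0 := by
        apply pow_eq_zero_iff two_ne_zero |>.1
        linear_combination ht + 2 * h2'
      rw [← h0]
      exact H64.SL2.isConj_comp_of_two_eq_zero h2' hz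
    by_cases hs : H64.SL2.Split g
    · right; right; right; exact hsplit g ht hs
    · right; left; exact hnon g hs
  · rintro (rfl | rfl | rfl | rfl)
    · exact ⟨1, hone⟩
    · obtain ⟨g, hg⟩ := H64.SL2.exists_not_split (F := F)
      exact ⟨_, hnon g hg⟩
    · exact ⟨_, huni _ (IsConj.refl _)⟩
    · obtain ⟨a, ha⟩ := IsCyclic.exists_ofOrder_eq_natCard (α := Fˣ)
      rw [Nat.card_units, Nat.card_eq_fintype_card] at ha
      refine ⟨_, hsplit (H64.SL2.diagHom a) (H64.SL2.tr_sq_ne_four_of_diag rfl ?_)
        (H64.SL2.split_of_10_eq_zero rfl)⟩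
      intro h
      have h5 : a ^ 2 = 1 := Units.ext h
      have := Nat.le_of_dvd two_pos (orderOf_dvd_of_pow_eq_one h5)
      omega

end Cfsg.Agent.S2507
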