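import Cfsg.Statements.S2522
import Cfsg.Agent.Lib.Sour.Com
-- import your own Cfsg.Agent.* helpers here

set_option autoImplicit false
open Cfsg

namespace Cfsg.Agent.S2522

open Module Polynomial H64.Sour

section aux
variable {K : Type*} [Field K] {V W : Type*} [AddCommGroup V] [Module K V] [AddCommGroup W]
  [Module K W] [FiniteDimensional K V] [FiniteDimensional K W]

theorem nil_of_charpoly {A : End K V} {n : ℕ} (h : A.charpoly = (X - C 1) ^ n) :
    IsNilpotent (A - 1) := by
  have := A.aeval_self_charpoly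
  rw [h, map_pow, map_sub, aeval_X, C_1, map_one] at this
  exact ⟨n, this⟩

theorem similar_of_reg {A : End K V} {B : End K W} (h : finrank K V = finrank K W)
    (hA : IsNilpotent (A - 1)) (hA' : finrank K (LinearMap.ker (A - 1)) ≤ 1)
    (hB : IsNilpotent (B - 1)) (hB' : finrank K (LinearMap.ker (B - 1)) ≤ 1) :
    H65.Similar A B := by
  have h1 := H65.similar_cyc_of_finrank_ker_le_one hA hA'
  have h2 := H65.similar_cyc_of_finrank_ker_le_one hB hB'
  rw [h] at h1
  exact (h1.trans h2.symm).of_sub_one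

theorem reg_inv {A A' : End K V} (h : A' * A = 1) (hA : IsNilpotent (A - 1))
    (hA' : finrank K (LinearMap.ker (A - 1)) ≤ 1) :
    IsNilpotent (A' - 1) ∧ finrank K (LinearMap.ker (A' - 1)) ≤ 1 := by
  have h' : A * A' = 1 := mul_eq_one_comm.1 h
  constructor
  · have h1 : A' - 1 = -(A' * (A - 1)) := by rw [mul_sub, h, mul_one, neg_sub]
    rw [h1]
    refine (Commute.isNilpotent_mul_left ?_ hA).neg
    change A' * (A - 1) = (A - 1) * A'
    rw [mul_sub, sub_mul, h, h', mul_one, one_mul]
  · refine le_trans (Submodule.finrank_mono fun v hv => ?_) hA'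
    simp only [LinearMap.mem_ker, LinearMap.sub_apply, End.one_apply, sub_eq_zero] at hv ⊢
    nth_rewrite 1 [← hv]
    exact LinearMap.congr_fun h' v

theorem similar_transvection {ψ ψ' : Dual K V} {v v' : V} (hψ : ψ ≠ 0) (hv : v ≠ 0) (h : ψ v = 0)
    (hψ' : ψ' ≠ 0) (hv' : v' ≠ 0) (h' : ψ' v' = 0) :
    H65.Similar (LinearMap.transvection ψ v) (LinearMap.transvection ψ' v') := by
  have key : ∀ (ψ : Dual K V) (v : V), ψ ≠ 0 → v ≠ 0 → ψ v = 0 →
      (LinearMap.transvection ψ v - 1 : End K V) ^ 2 = 0 ∧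
      finrank K (LinearMap.ker (LinearMap.transvection ψ v - 1 : End K V)) + 1 = finrank K V := by
    intro ψ v hψ hv h
    constructor
    · ext y; simp [pow_two, LinearMap.transvection.apply, h]
    · obtain ⟨φ, y, -, h2, -⟩ := exists_dual_pair hψ hv h
      have : LinearMap.ker (LinearMap.transvection ψ v - 1 : End K V) = LinearMap.ker ψ := by
        ext w
        simp [LinearMap.transvection.apply, hv]
      rw [this, finrank_ker_add_one y ψ h2]
  obtain ⟨h1, h2⟩ := key ψ v hψ hv h
  obtain ⟨h3, h4⟩ := key ψ' v' hψ' hv' h'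
  refine (H65.similar_of_isNilpotent ⟨2, h1⟩ ⟨2, h3⟩ fun j => ?_).of_sub_one
  rcases j with _ | _ | j
  · rfl
  · rw [zero_add, pow_one, pow_one]; omega
  · rw [show j + 1 + 1 = 2 + j by ring, pow_add, pow_add, h1, h3, zero_mul, zero_mul]

theorem exists_gl_conj {n : Type*} [Fintype n] [DecidableEq n] (J : GL n K) {f : End K (n → K)}
    (h : H65.Similar (Matrix.toLin' (J : Matrix n n K)) f) :
    ∃ x : GL n K, Matrix.toLin' ((x * J * x⁻¹ : GL n K) : Matrix n n K) = f := by
  have h1 : IsConj (J : Matrix n n K) (LinearMap.toMatrix' f) := by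
    rwa [H65.isConj_iff_similar, Matrix.toLin'_toMatrix']
  obtain ⟨x, hx⟩ := h1
  refine ⟨x, ?_⟩
  rw [Units.val_mul, Units.val_mul, hx.eq, mul_assoc, Units.mul_inv, mul_one,
    Matrix.toLin'_toMatrix']

end aux

/-- Let K be a field with at least four elements (finite or infinite), n ≥ 3, and J ∈ GL(n, K) the regular unipotent matrix (ones on the diagonal and the superdiagonal, zeros elsewhere). Then every non-scalar g ∈ GL(n, K) with det g = 1 is a product of two GL(n, K)-conjugates of J. -/
theorem result {K : Type*} [Field K] (hK : 4 ≤ Cardinal.mk K) (n : ℕ) (hn : 3 ≤ n) (J g : GL (Fin n) K)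
    (hJ : ∀ i j : Fin n, (J : Matrix (Fin n) (Fin n) K) i j = if i = j then 1 else if j.val = i.val + 1 then 1 else 0)
    (hg : ¬ ∃ c : K, (g : Matrix (Fin n) (Fin n) K) = c • (1 : Matrix (Fin n) (Fin n) K))
    (hdet : (g : Matrix (Fin n) (Fin n) K).det = 1) :
    ∃ x y : GL (Fin n) K, g = (x * J * x⁻¹) * (y * J * y⁻¹) := by

  have hB : Big K := by
    classical
    intro a b c
    by_contra! h1
    have h2 : (Set.univ : Set K) ⊆ (({a, b, c} : Finset K) : Set K) := fun t _ => by
      by_cases ha : t = a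
      · simp [ha]
      by_cases hb : t = b
      · simp [hb]
      simp [h1 t ha hb]
    have h3 := Cardinal.mk_le_mk_of_subset h2
    rw [Cardinal.mk_univ, Finset.coe_sort_coe, Cardinal.mk_coe_finset] at h3
    have h4 := hK.trans h3
    have h5 : ({a, b, c} : Finset K).card ≤ 3 := Finset.card_le_three
    norm_cast at h4
    omega
  obtain ⟨m, rfl⟩ : ∃ m, n = m + 3 := ⟨n - 3, by omega⟩
  set Jl := Matrix.toLin' (J : Matrix (Fin (m + 3)) (Fin (m + 3)) K) with hJl
  have hJv : ∀ (v : Fin (m + 3) → K) (i : Fin (m + 3)),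
      Jl v i = v i + if h : i.val + 1 < m + 3 then v ⟨i.val + 1, h⟩ else 0 := by
    intro v i
    have : ∀ j : Fin (m + 3), (J : Matrix (Fin (m + 3)) (Fin (m + 3)) K) i j * v j =
        (if i = j then v j else 0) + if j.val = i.val + 1 then v j else 0 := by
      intro j
      rw [hJ]
      split_ifs with h1 h2 h2
      · subst h1; omega
      all_goals simp
    rw [hJl, Matrix.toLin'_apply, Matrix.mulVec, dotProduct, Finset.sum_congr rfl fun j _ => this j,
      Finset.sum_add_distrib, Finset.sum_ite_eq, if_pos (Finset.mem_univ _)]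
    congr 1
    split_ifs with h
    · rw [Finset.sum_eq_single ⟨i.val + 1, h⟩]
      · simp
      · intro j _ hj
        exact if_neg fun h2 => hj (Fin.ext h2)
      · simp
    · exact Finset.sum_eq_zero fun j _ => if_neg fun (h2 : j.val = i.val + 1) => h (h2 ▸ j.2)
  have hJn : IsNilpotent (Jl - 1) := by
    refine nil_of_charpoly (n := m + 3) ?_
    rw [hJl, Matrix.charpoly_toLin', Matrix.charpoly_of_upperTriangular]
    · simp [hJ]
    · intro i j hij
      rw [hJ, if_neg (by rintro rfl; simp at hij), if_neg]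
      have : j.val < i.val := hij
      omega
  have hJk : finrank K (LinearMap.ker (Jl - 1)) ≤ 1 := by
    refine FixV.finrank_le (r := LinearMap.proj 0) fun v h1 h2 => funext fun i => ?_
    rcases i with ⟨_ | i, hi⟩
    · exact h2
    · have := hJv v ⟨i, by omega⟩
      rw [h1, dif_pos hi] at this
      simpa using this
  -- it suffices to find a regular decomposition of an endomorphism similar to `g`
  suffices h : ∃ g' A B : End K (Fin (m + 3) → K),
      H65.Similar g' (Matrix.toLin' (g : Matrix (Fin (m + 3)) (Fin (m + 3)) K)) ∧ IsUnit A ∧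
      A * g' = B ∧ IsNilpotent (A - 1) ∧ finrank K (LinearMap.ker (A - 1)) ≤ 1 ∧
      IsNilpotent (B - 1) ∧ finrank K (LinearMap.ker (B - 1)) ≤ 1 by
    obtain ⟨g', A, B, hs, ⟨A, rfl⟩, h1, h2, h3, h4, h5⟩ := h
    obtain ⟨e, he⟩ := hs.eq_conj
    obtain ⟨h6, h7⟩ := reg_inv A.inv_mul h2 h3
    obtain ⟨x, hx⟩ := exists_gl_conj J
      ((similar_of_reg rfl hJn hJk h6 h7).trans (H65.similar_conj _ e))
    obtain ⟨y, hy⟩ := exists_gl_conj J
      ((similar_of_reg rfl hJn hJk h4 h5).trans (H65.similar_conj _ e))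
    refine ⟨x, y, Units.ext (Matrix.toLin'.injective ?_)⟩
    rw [Units.val_mul, Matrix.toLin'_mul, hx, hy, he, ← h1]
    refine LinearMap.ext fun v => ?_
    have := LinearMap.congr_fun A.inv_mul (g' (e.symm v))
    simp only [End.mul_apply, End.one_apply] at this
    simp [LinearEquiv.conj_apply, this]
  set gl := Matrix.toLin' (g : Matrix (Fin (m + 3)) (Fin (m + 3)) K) with hgl
  have hd : LinearMap.det gl = 1 := by rw [hgl, LinearMap.det_toLin', hdet]
  have hns : NS gl := fun μ => by
    by_contra! h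
    exact hg ⟨μ, (H65.toLin'_eq_smul_one_iff _ _).1 (LinearMap.ext h)⟩
  by_cases hr2 : R2 gl
  · obtain ⟨c, r, A, B, h1, h2, h3, h4, h5, h6⟩ :=
      dec_unip hB (n := m + 1) (by simp) hd hns hr2
    exact ⟨gl, A, B, H65.Similar.refl _, h1, h2, nil_of_charpoly h3, h5.finrank_le,
      nil_of_charpoly h4, h6.finrank_le⟩
  · obtain ⟨ψ, v, h1, h2, h3, h4⟩ := transvection_of_not_R2 hr2 hd (by
      intro h
      obtain ⟨w, hw⟩ := hns 1
      simp [h] at hw)
    let ψ₀ : Dual K (Fin (m + 3) → K) := LinearMap.proj (Fin.last _)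
    let v₀ : Fin (m + 3) → K := Pi.single 0 1
    have k1 : ψ₀ v₀ = 0 := by simp [ψ₀, v₀, Fin.ext_iff]
    have k2 : Jl v₀ = v₀ := funext fun i => by
      rw [hJv]
      split_ifs with h
      · have : v₀ ⟨i.val + 1, h⟩ = 0 := Pi.single_eq_of_ne (fun h => Nat.succ_ne_zero _ (congrArg Fin.val h)) _
        rw [this, add_zero]
      · simp
    have k3 : ∀ w, ψ₀ (Jl w) = ψ₀ w := fun w => by
      simp [ψ₀, hJv]
    have k4 : Jl * LinearMap.transvection ψ₀ v₀ - 1 = (Jl - 1) + ψ₀.smulRight v₀ := by
      refine LinearMap.ext fun w => ?_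
      simp only [LinearMap.sub_apply, End.mul_apply, LinearMap.transvection.apply, map_add,
        map_smul, k2, End.one_apply, LinearMap.add_apply, LinearMap.smulRight_apply]
      abel
    refine ⟨LinearMap.transvection ψ₀ v₀, Jl, _, ?_, ?_, rfl, hJn, hJk, ?_, ?_⟩
    · rw [h4]
      refine similar_transvection (fun h => ?_) (by simp [v₀]) k1 h1 h2 h3
      simpa [ψ₀] using LinearMap.congr_fun h (Pi.single (Fin.last _) 1)
    · rw [LinearMap.isUnit_iff_isUnit_det, hJl, LinearMap.det_toLin']
      exact J.isUnit.map Matrix.detMonoidHom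
    · rw [k4]
      refine Commute.isNilpotent_add ?_ hJn ⟨2, ?_⟩
      · refine LinearMap.ext fun w => ?_
        simp [k2, k3]
      · refine LinearMap.ext fun w => ?_
        simp [pow_two, k1]
    · refine FixV.finrank_le (r := LinearMap.proj 0) fun w h5 h6 => ?_
      rw [End.mul_apply, LinearMap.transvection.apply, map_add, map_smul, k2] at h5
      have h7 : ∀ i : ℕ, ∀ hi : i + 2 < m + 3, w ⟨i + 2, hi⟩ = 0 := fun i hi => by
        have := congrFun h5 ⟨i + 1, by omega⟩
        rw [Pi.add_apply, hJv, dif_pos hi] at this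
        simpa [v₀, Fin.ext_iff] using this
      funext i
      rcases i with ⟨_ | _ | i, hi⟩
      · exact h6
      · have := congrFun h5 0
        rw [Pi.add_apply, hJv, dif_pos (by simp)] at this
        have h8 : ψ₀ w = 0 := h7 m (by omega)
        simpa [h8] using this
      · exact h7 i hi

end Cfsg.Agent.S2522
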