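import Mathlib
import Cfsg.Statements.S3816
import Cfsg.Agent.Lib.Flav26.Gen2

set_option autoImplicit false
open Cfsg

namespace Cfsg.Agent.S3816

open Subgroup SemidirectProduct H26.FG


/-- Let p be an odd prime, H a finite solvable group of order prime to p, and x an automorphism of H of order p (so P = ⟨x⟩ has prime order p > 2 and acts coprimely on H). For h ∈ H let [h, P] be the subgroup generated by the commutators h⁻¹·xⁱ(h), and let [H, P] be the subgroup generated by all of these. Then the fixed points of x in [H, P] are generated by the fixed points of x in the subgroups [h, P], h ∈ H. -/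
theorem result {H : Type*} [Group H] [Finite H]
    [Group.IsSolvable H] {p : ℕ} [Fact p.Prime] (hp : p ≠ 2) (hcop : (Nat.card H).Coprime p)
    (x : MulAut H) (hx : orderOf x = p) :
    Subgroup.closure {c : H | ∃ h : H, ∃ i : ℕ, c = h⁻¹ * (x ^ i) h} ⊓ (x : H →* H).eqLocus (MonoidHom.id H) =
      ⨆ h : H, Subgroup.closure {c : H | ∃ i : ℕ, c = h⁻¹ * (x ^ i) h} ⊓ (x : H →* H).eqLocus (MonoidHom.id H) := by
  refine le_antisymm ?_ (iSup_le fun h => inf_le_inf_right _ (closure_mono fun c hc => ⟨h, hc⟩))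
  let Γ := H ⋊[(zpowers x).subtype] zpowers x
  have : Finite Γ := Finite.of_equiv _ SemidirectProduct.equivProd.symm
  let y : Γ := inr ⟨x, mem_zpowers x⟩
  let ι : H →* Γ := inl
  have hι : Function.Injective ι := inl_injective
  have h1 : ∀ (i : ℕ) (h : H), y ^ i * ι h * (y ^ i)⁻¹ = ι ((x ^ i) h) := fun i h => by
    rw [← map_pow, ← map_inv]
    exact (inl_aut (φ := (zpowers x).subtype) (⟨x, mem_zpowers x⟩ ^ i) h).symm
  have h2 : ∀ h : H, (closure {c : H | ∃ i : ℕ, c = h⁻¹ * (x ^ i) h}).map ι = K y (ι h) := by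
    intro h
    rw [K, MonoidHom.map_closure]
    congr 1
    ext z
    constructor
    · rintro ⟨_, ⟨i, rfl⟩, rfl⟩
      exact ⟨i, by rw [h1, map_mul, map_inv]⟩
    · rintro ⟨i, rfl⟩
      exact ⟨_, ⟨i, rfl⟩, by rw [h1, map_mul, map_inv]⟩
  have h3 : ∀ h : H, ι h ∈ centralizer (zpowers y : Set Γ) ↔
      h ∈ (x : H →* H).eqLocus (MonoidHom.id H) := fun h => by
    have := h1 1 h
    rw [pow_one, pow_one] at this
    rw [mem_C, ← mul_inv_eq_iff_eq_mul, this, hι.eq_iff]
    rfl
  have e : Nat.card ι.range = Nat.card H := Nat.card_congr (MonoidHom.ofInjective hι).symm.toEquiv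
  have hn : ι.range.Normal := by rw [range_inl_eq_ker_rightHom]; infer_instance
  have key := main Fact.out hp _ Γ y ι.range rfl (by
      rw [← map_pow, ← map_one inr]
      exact congrArg inr (Subtype.ext (hx ▸ pow_orderOf_eq_one x))) le_normalizer_of_normal
    (Group.isSolvable_of_surjective ι.rangeRestrict_surjective) (e ▸ hcop)
  rw [← map_le_map_iff_of_injective hι]
  refine le_trans ?_ (key.trans (iSup₂_le ?_))
  · refine (map_inf_le _ _ ι).trans (inf_le_inf ?_ ?_)
    · rw [map_le_iff_le_comap, closure_le]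
      rintro _ ⟨h, i, rfl⟩
      refine K_le_comm (h := ι h) (L := ι.range) ⟨h, rfl⟩ ?_
      rw [← h2]
      exact mem_map_of_mem ι (subset_closure ⟨i, rfl⟩)
    · rintro _ ⟨h, hh, rfl⟩
      exact (h3 h).2 hh
  · rintro _ ⟨h, rfl⟩ z ⟨hz, hc⟩
    rw [← h2] at hz
    obtain ⟨w, hw, rfl⟩ := hz
    exact mem_map_of_mem ι (mem_iSup_of_mem h ⟨hw, (h3 w).1 hc⟩)

end Cfsg.Agent.S3816
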