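import Mathlib
import Cfsg.Statements.S3963
import Cfsg.Agent.Lib.Schur.Dihedral

set_option autoImplicit false
open Cfsg

namespace Cfsg.Agent.S3963


/-- For every `n ≥ 1` the dicyclic (generalized quaternion) group of order `4 n` has trivial Schur multiplier. -/
theorem result (n : ℕ) [NeZero n] : Cfsg.HasCyclicSchurMultiplier (QuaternionGroup n) 1 := by
  rw [H78.Schur.hasCyclic_one_iff]
  intro Δ _ _ τ hτ
  have := H78.Schur.card_ker_dvd_of_inverts hτ (H78.Schur.quaternion_closure n) (by
    rw [mul_inv_eq_iff_eq_mul, eq_inv_mul_iff_mul_eq]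
    simp) (N := n) (by
    rw [QuaternionGroup.a_one_pow, ← QuaternionGroup.xa_sq 0]
    exact Subgroup.npow_mem_zpowers _ _)
  rw [QuaternionGroup.orderOf_a_one, Nat.gcd_mul_right_left, Nat.mul_div_cancel_left _ two_pos,
    Nat.div_self (NeZero.pos n), Nat.dvd_one] at this
  exact Subgroup.eq_bot_of_card_eq _ this

end Cfsg.Agent.S3963
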