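import Cfsg.Statements.S4607
import Mathlib
import Cfsg.Agent.Base
import Cfsg.Agent.Lib.Cyc.Small2
import Cfsg.Agent.Lib.Block.CycMin

set_option autoImplicit false
open Cfsg

namespace Cfsg.Agent.S4607

/-- Let G be a finite group, p a prime, M a maximal ideal of the algebraic integers containing p, and B a p-block of G with defect group D. Then B contains exactly two irreducible characters if and only if D has order 2. -/
theorem result {G : Type*} [Group G] [Finite G] (p : ℕ) [Fact p.Prime] (M : Ideal Cfsg.AlgInt) (hM : Cfsg.IsPModular p M) (B : Set (Cfsg.IrrCharacter G)) (hB : Cfsg.IsPBlock M B) (D : Subgroup G) (hD : Cfsg.IsDefectGroup p M B D) : Nat.card B = 2 ↔ Nat.card D = 2 := by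
  haveI := H33.isMaximal_of hM; haveI := H33.charP hM; letI := Fintype.ofFinite G
  obtain ⟨e, h⟩ := H85.exists_mp hM hB hD
  have hq := h.card_eq
  have hl := H84.blockRank_pos (p := p) (H84.block_nonempty hB)
  constructor
  · intro hk
    have h1 : D ≠ ⊥ := fun h1 => by
      obtain ⟨χ, hχ⟩ := H84.block_nonempty hB
      rw [(H33.blockDefect_eq_zero_iff_singleton hM hB hχ).1
        ((H33.blockDefect_eq_zero_iff_bot hM hB hD).2 h1)] at hk
      simp at hk
    have h2 := H35C.rank_lt_card h h1
    have h3 := H35C.rank_one_small hM hB (by omega) (by omega)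
    omega
  · intro hk
    have h1 : D ≠ ⊥ := fun h1 => by simp [h1] at hk
    have h2 := H35C.rank_lt_card h h1
    have h3 := H84.card_le_of_defect_le_two hM hB (by
      by_contra h3
      have := (Nat.pow_le_pow_left (Fact.out : p.Prime).two_le 2).trans
        (Nat.pow_le_pow_right (Fact.out : p.Prime).pos (show 2 ≤ blockDefect p B by omega))
      omega)
    omega

end Cfsg.Agent.S4607
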