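import Cfsg.Statements.S4485
import Mathlib
import Cfsg.Agent.Lib.Char.Leonard
import Cfsg.Agent.Lib.Char.More
import Cfsg.Agent.Lib.Char.BrauerInd

set_option autoImplicit false
open Cfsg

namespace Cfsg.Agent.S4485

theorem aux {p : ℕ} [Fact p.Prime] (m : ℕ) : ∀ {G : Type*} [Group G] [Finite G], Nat.card G = m →
    ∀ (P : Sylow p G), (∀ x ∈ (P : Subgroup G), x ≠ 1 → Subgroup.centralizer ({x} : Set G) =
      Subgroup.centralizer ((P : Subgroup G) : Set G)) → ∀ χ : G → ℂ, Cfsg.IsCharacter G χ →
      (∀ g : G, χ g = χ 1 → g = 1) → H51.deg χ ^ 2 + 1 < Nat.card P → (P : Subgroup G).Normal := by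
  induction m using Nat.strong_induction_on with
  | _ m ih =>
  intro G _ _ hm P hstar χ hχ hf hdeg
  have := Fintype.ofFinite G
  by_cases hK : ∀ K : Subgroup G, K.Normal → (P : Subgroup G) ≤ K → K = ⊤
  · have h1 : commutator G ≤ ⊥ := fun x hx => hf x (H6.char_commutator_of_constituents hχ
      (fun ψ hψ hd => by
        by_cases h : ψ = fun _ => 1
        · rw [h]
        have h2 := (H51.isChar_top.2 hχ).deg_le_of_dot_ne_zero (H51.mem_irr_top.2 hψ)
          (by rwa [H51.dot_top])
        have h3 := (H8.leonard P hstar hψ h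
          (lt_of_le_of_lt (Nat.succ_le_succ (Nat.pow_le_pow_left h2 2)) hdeg) hK).1
        rw [H51.irr_apply_one (H51.mem_irr_top.2 hψ), h3, Nat.cast_one]) hx)
    refine ⟨fun n hn g => ?_⟩
    have h2 : g * n * g⁻¹ * n⁻¹ = 1 :=
      h1 (Subgroup.commutator_mem_commutator (Subgroup.mem_top g) (Subgroup.mem_top n))
    rwa [mul_inv_eq_one.1 h2]
  push Not at hK
  obtain ⟨K, hK, hle, hne⟩ := hK
  have h1 := ih _ (hm ▸ H8.card_lt_of_ne_top hne) rfl (P.subtype hle) (fun x hx h1 => by
      have h2 := hstar x hx fun e => h1 (Subtype.ext e)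
      ext y
      have h3 : (y : G) ∈ Subgroup.centralizer ({(x : G)} : Set G) ↔
        (y : G) ∈ Subgroup.centralizer ((P : Subgroup G) : Set G) := by rw [h2]
      simp only [Subgroup.mem_centralizer_iff, Set.mem_singleton_iff, forall_eq] at h3 ⊢
      constructor
      · exact fun e z hz => Subtype.ext (h3.1 (congrArg Subtype.val e) z hz)
      · exact fun e => Subtype.ext (h3.2 fun z hz => congrArg Subtype.val (e ⟨z, hle hz⟩ hz)))
    (fun x : K => χ x) (H6.isCharacter_restrict K hχ) (fun g hg => Subtype.ext (hf g hg))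
    (by
      have : Nat.card (P.subtype hle) = Nat.card P :=
        Nat.card_congr (Subgroup.subgroupOfEquivOfLe hle).toEquiv
      rw [this]
      exact hdeg)
  have h2 := Sylow.characteristic_of_normal (P.subtype hle) h1
  have h3 := ConjAct.normal_of_characteristic_of_normal (H := K) (K := (P.subtype hle : Subgroup K))
  rwa [Sylow.coe_subtype, Subgroup.subgroupOf_map_subtype, inf_eq_left.2 hle] at h3

/-- Let G be a finite group and p a prime dividing its order such that every non-identity element of a Sylow p-subgroup P has the same centralizer as P itself (so P is abelian); let p^n be the order of P. If G has a faithful character of degree x with x² < p^n − 1, then P is normal in G. -/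
theorem result {G : Type*} [Group G] [Finite G] (p : ℕ) (hp : p.Prime) (hpG : p ∣ Nat.card G) (P : Sylow p G) (hstar : ∀ x ∈ (P : Subgroup G), x ≠ 1 → Subgroup.centralizer ({x} : Set G) = Subgroup.centralizer ((P : Subgroup G) : Set G)) (n : ℕ) (hn : Nat.card P = p ^ n) (χ : G → ℂ) (hχ : Cfsg.IsCharacter G χ) (hfaith : ∀ g : G, χ g = χ 1 → g = 1) (hdeg : Cfsg.charDegree χ ^ 2 + 1 < p ^ n) : (P : Subgroup G).Normal := by
  have : Fact p.Prime := ⟨hp⟩
  exact aux _ rfl P hstar χ hχ hfaith (hn ▸ hdeg)

end Cfsg.Agent.S4485
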