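import Cfsg.Statements.S4959
import Mathlib
import Cfsg.Agent.Lib.Blk86.Knorr5

set_option autoImplicit false
open Cfsg

namespace Cfsg.Agent.S4959

set_option linter.style.haveILetI false
set_option linter.unusedVariables false

theorem knA_of_form {p : ℕ} [Fact p.Prime] {M : Ideal AlgInt} [M.IsMaximal] (hM : IsPModular p M)
    {H W : Type*} [Group H] [Finite H] [CommGroup W] [Finite W] (hH : ¬ p ∣ Nat.card H)
    [Module (ZMod p) (Additive W)] (φ : H →* MulAut W) (β : W → W → ZMod p)
    (hl : ∀ a b c, β (a * b) c = β a c + β b c) (hr : ∀ a b c, β a (b * c) = β a b + β a c)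
    (hi : ∀ h a b, β (φ h a) (φ h b) = β a b) (hn : ∀ a, (∀ b, β a b = 0) → a = 1) :
    H86.KnA M φ := by
  let ρ : Representation (ZMod p) H (Additive W) :=
    { toFun := fun h => (MonoidHom.toAdditive (φ h).toMonoidHom).toZModLinearMap p
      map_one' := by ext x; simp
      map_mul' := fun a b => by ext x; simp }
  let l : Additive W → Additive W →ₗ[ZMod p] ZMod p := fun x =>
    (AddMonoidHom.mk' (fun y => β x.toMul y.toMul) fun y z => hr _ _ _).toZModLinearMap p
  let B : LinearMap.BilinForm (ZMod p) (Additive W) :=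
    (AddMonoidHom.mk' l fun x y => LinearMap.ext fun z => hl _ _ _).toZModLinearMap p
  have hK := H86.knR_of_nondeg hM hH ρ B (fun h x y => hi h _ _) fun x hx =>
      Additive.toMul.injective (hn _ fun w => hx (.ofMul w))
  refine hK.mono (fun h hh => MulEquiv.ext fun u => LinearMap.congr_fun hh (.ofMul u)) fun h => ?_
  rw [div_le_iff₀ (by exact_mod_cast Nat.card_pos)]
  exact_mod_cast (H86.AFx (φ h)).index_mul_card.ge

/-- Let X be a finite group and V a normal subgroup of X in which every element has order dividing the prime p, whose index in X is prime to p and which is its own centralizer in X; so V is an elementary abelian normal Sylow p-subgroup, and any complement G to V in X is a group of order prime to p acting faithfully on the vector space V by conjugation (the coprime linear setting of the k(GV) problem). Let G be a complement to V in X, let v be in V and let H be the centralizer of v in G. Suppose there is a subgroup U of V normalized by H, on which H acts faithfully, and carrying an H-invariant bi-additive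 pairing β with values in the integers modulo p that is nondegenerate on U (equivalently: the restriction of the module V to H has a faithful self-dual submodule; such a v is called a real vector for G). Then the number of conjugacy classes of X is at most the order of V (the real-vector criterion for the k(GV) problem). The pairing is given as a function on X whose relevant values are those on pairs from U. -/
theorem result {X : Type*} [Group X] [Finite X] (p : ℕ) [Fact p.Prime] (V : Subgroup X) [V.Normal] (hVexp : ∀ v ∈ V, v ^ p = 1) (hidx : ¬ p ∣ V.index) (hself : Subgroup.centralizer (V : Set X) = V) (G : Subgroup X) (hGV : Subgroup.IsComplement' V G) (v : X) (hv : v ∈ V) (U : Subgroup X) (hUV : U ≤ V) (hUinv : ∀ h ∈ G, h * v * h⁻¹ = v → ∀ u ∈ U, h * u * h⁻¹ ∈ U) (hUfaith : ∀ h ∈ G, h * v * h⁻¹ = v → (∀ u ∈ U, h * u * h⁻¹ = u) → h = 1) (β : X → X → ZMod p) (hβl : ∀ u ∈ U, ∀ u' ∈ U, ∀ w ∈ U, β (u * u') w = β u w + β u' w) (hβr : ∀ u ∈ U, ∀ w ∈ U, ∀ w' ∈ U, β u (w * w') = β u w + β u w') (hβinv : ∀ h ∈ G, h * v * h⁻¹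 = v → ∀ u ∈ U, ∀ w ∈ U, β (h * u * h⁻¹) (h * w * h⁻¹) = β u w) (hβnd : ∀ u ∈ U, (∀ w ∈ U, β u w = 0) → u = 1) : Nat.card (ConjClasses X) ≤ Nat.card V := by
  obtain ⟨M, hM⟩ := H85.exists_isPModular (Fact.out : p.Prime)
  haveI := H33.isMaximal_of hM
  have hcomm : ∀ a ∈ V, ∀ b ∈ V, a * b = b * a := fun a ha b hb =>
    Subgroup.mem_centralizer_iff.1 (hself.ge hb) a ha
  obtain ⟨H, hH⟩ : ∃ H : Subgroup X, ∀ x, x ∈ H ↔ x ∈ G ∧ x * v = v * x :=
    ⟨G ⊓ Subgroup.centralizer {v}, fun x => by
      rw [Subgroup.mem_inf, Subgroup.mem_centralizer_singleton_iff]⟩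
  have hH' : ∀ x ∈ H, x * v * x⁻¹ = v := fun x hx => mul_inv_eq_iff_eq_mul.2 ((hH x).1 hx).2
  have hU : H ≤ Subgroup.normalizer (U : Set X) := fun x hx => Subgroup.mem_normalizer_iff.2
    fun u => ⟨hUinv x ((hH x).1 hx).1 (hH' x hx) u, fun h => by
      simpa [mul_assoc] using hUinv _ ((hH _).1 (H.inv_mem hx)).1 (hH' _ (H.inv_mem hx)) _ h⟩
  have hG : Nat.card G = V.index := hGV.symm.index_eq_card.symm
  have hHp : ¬ p ∣ Nat.card H := fun h =>
    hidx (hG ▸ h.trans (Subgroup.card_dvd_of_le fun x hx => ((hH x).1 hx).1))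
  letI : CommGroup U := { (inferInstance : Group U) with
    mul_comm := fun a b => Subtype.ext (hcomm a (hUV a.2) b (hUV b.2)) }
  haveI : Module (ZMod p) (Additive U) := AddCommGroup.zmodModule fun x =>
    Additive.toMul.injective (Subtype.ext (by simpa using hVexp _ (hUV x.toMul.2)))
  refine H86.knorr_of_knA hM hVexp hidx hcomm hGV hv hH hUV hU (fun h hh => ?_)
    (knA_of_form hM hHp _ (fun a b => β a b)
      (fun a b c => hβl _ a.2 _ b.2 _ c.2) (fun a b c => hβr _ a.2 _ b.2 _ c.2)
      (fun h a b => hβinv h ((hH h).1 h.2).1 (hH' h h.2) _ a.2 _ b.2)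
      fun a ha => Subtype.ext (hβnd _ a.2 fun w hw => ha ⟨w, hw⟩))
  refine Subtype.ext (hUfaith h ((hH h).1 h.2).1 (hH' h h.2) fun u hu => ?_)
  have h2 := H2.coe_conjAut_apply hU h ⟨u, hu⟩
  rw [hh] at h2
  exact h2.symm

end Cfsg.Agent.S4959
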