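import Mathlib
import Cfsg.Statements.S4541
import Cfsg.Agent.Lib.H85.Contrib2
-- import your own Cfsg.Agent.* helpers here

set_option autoImplicit false
open Cfsg

namespace Cfsg.Agent.S4541

/-- Let B be a 2-block of the finite group G (relative to a maximal ideal M of the algebraic integers containing 2), u a 2-element, and b a block of the centralizer of u inducing B (a subsection (u, b)), of defect q and 2-regular rank l; write s for the integer square root of l and k₀(B) for the number of members of B of height zero. If s is odd then k₀(B) ≤ s·2 ^ q, and otherwise (s + 1)·k₀(B) ≤ l·2 ^ q; in particular k₀(B) ≤ 2 ^ q when l ≤ 3. -/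
theorem result {G : Type*} [Group G] [Finite G] (M : Ideal Cfsg.AlgInt) (hM : Cfsg.IsPModular 2 M) (B : Set (Cfsg.IrrCharacter G)) (hB : Cfsg.IsPBlock M B) (u : G) (hu : ∃ j : ℕ, orderOf u = 2 ^ j) (b : Set (Cfsg.IrrCharacter ↥(Subgroup.centralizer ({u} : Set G)))) (hb : Cfsg.IsInducedBlock M (Subgroup.centralizer ({u} : Set G)) b B) : (Odd (Nat.sqrt (Cfsg.blockRank 2 b)) → Nat.card {χ : Cfsg.IrrCharacter G // χ ∈ B ∧ Cfsg.blockHeight 2 B (χ : G → ℂ) = 0} ≤ Nat.sqrt (Cfsg.blockRank 2 b) * 2 ^ Cfsg.blockDefect 2 b) ∧ (¬ Odd (Nat.sqrt (Cfsg.blockRank 2 b)) → (Nat.sqrt (Cfsg.blockRank 2 b) + 1) * Nat.card {χ : Cfsg.IrrCharacter G // χ ∈ B ∧ Cfsg.blockHeight 2 B (χ : G → ℂ) = 0} ≤ Cfsg.blockRank 2 b * 2 ^ Cfsg.blockDefect 2 b) ∧ (Cfsg.blockRank 2 b ≤ 3 → Nat.card {χ : Cfsg.IrrCharacter G // χ ∈ B ∧ Cfsg.blockHeight 2 B (χ : G → ℂ) = 0} ≤ 2 ^ Cfsg.blockDefect 2 b) := by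
  classical
  have := H33.isMaximal_of hM
  let := Fintype.ofFinite G
  let := Fintype.ofFinite (Subgroup.centralizer ({u} : Set G))
  have hC := H84.isCen_singleton u
  obtain ⟨a, w, h⟩ := H85.exists_avg hM hu hC hb
  set X := (H84.bset B).filter fun χ : IrrCharacter G => blockHeight 2 B (χ : G → ℂ) = 0 with hX
  have hmem : ∀ χ : IrrCharacter G, χ ∈ X ↔ χ ∈ B ∧ blockHeight 2 B (χ : G → ℂ) = 0 := fun χ => by
    rw [hX, Finset.mem_filter, H84.mem_bset]
  rw [Nat.subtype_card X hmem]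
  set l := blockRank 2 b with hl
  set q := blockDefect 2 b with hq
  have h1 : ∀ χ' ∈ X, ∃ m : ℕ, Odd m ∧ a χ' = m ∧ X.card ≤ m * 2 ^ q := fun χ' hχ' => by
    obtain ⟨m, e, h0, ho⟩ := h.odd hM hu hC hb ((hmem _).1 hχ').1
    lift m to ℕ using h0
    refine ⟨m, by exact_mod_cast ho.2 ((hmem _).1 hχ').2, by exact_mod_cast e, ?_⟩
    have h2 : (X.card : ℝ) ≤ ∑ χ ∈ H84.bset B, w χ χ' := by
      rw [Finset.card_eq_sum_ones]
      push_cast
      exact (Finset.sum_le_sum fun χ hχ => h.one_le_w_of_height hM hu hC hb ((hmem _).1 hχ).1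
        ((hmem _).1 hχ').1 ((hmem _).1 hχ).2 ((hmem _).1 hχ').2).trans
        (Finset.sum_le_sum_of_subset_of_nonneg (Finset.filter_subset _ _) fun χ _ _ => h.w_nonneg _ _)
    rw [h.sum_w, e, mul_comm] at h2
    exact_mod_cast h2
  have h2 : ∀ n : ℕ, (∀ χ ∈ X, (n : ℝ) ≤ a χ) → n * X.card ≤ l * 2 ^ q := fun n hn => by
    have := (Finset.sum_le_sum hn).trans
      (Finset.sum_le_sum_of_subset_of_nonneg (Finset.filter_subset _ _) fun χ _ _ => h.a_nonneg χ)
    rw [h.sum_a, Finset.sum_const, nsmul_eq_mul, mul_comm, mul_comm (_ ^ _)] at this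
    exact_mod_cast this
  have hs1 := Nat.sqrt_le' l
  have hs2 := Nat.lt_succ_sqrt' l
  generalize hs : Nat.sqrt l = s at hs1 hs2
  have hodd : Odd s → X.card ≤ s * 2 ^ q := fun ho => by
    by_contra hn
    have := h2 (s + 2) fun χ hχ => by
      obtain ⟨m, o, e, hm⟩ := h1 χ hχ
      have : s < m := by
        by_contra h'
        exact hn (hm.trans (Nat.mul_le_mul_right _ (by omega)))
      obtain ⟨i, rfl⟩ := o
      obtain ⟨j, rfl⟩ := ho
      rw [e]
      exact_mod_cast (by omega)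
    have h3 : l * 2 ^ q ≤ (s + 2) * (s * 2 ^ q) := by
      rw [← mul_assoc]
      exact Nat.mul_le_mul_right _ (by nlinarith)
    exact hn (Nat.le_of_mul_le_mul_left (this.trans h3) (by omega))
  refine ⟨hodd, fun he => ?_, fun h3 => ?_⟩
  · by_cases h3 : ∀ χ ∈ X, ((s + 1 : ℕ) : ℝ) ≤ a χ
    · exact h2 _ h3
    · push Not at h3
      obtain ⟨χ, hχ, h3⟩ := h3
      obtain ⟨m, o, e, hm⟩ := h1 χ hχ
      rw [e] at h3
      have h3 : m < s + 1 := by exact_mod_cast h3
      have h4 : m + 1 ≤ s := by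
        have : m ≠ s := fun h => he (h ▸ o)
        omega
      calc (s + 1) * X.card ≤ (s + 1) * (m * 2 ^ q) := Nat.mul_le_mul_left _ hm
        _ ≤ l * 2 ^ q := by
          rw [← mul_assoc]
          exact Nat.mul_le_mul_right _ (by nlinarith)
  · have h4 : 0 < l := H84.blockRank_pos (H84.block_nonempty hb.1)
    obtain rfl : s = 1 := by nlinarith
    simpa using hodd odd_one

end Cfsg.Agent.S4541
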