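import Cfsg.Statements.S4644
import Mathlib
import Cfsg.Agent.Lib.Blk86.Wat

set_option autoImplicit false
open Cfsg

namespace Cfsg.Agent.S4644

set_option linter.style.haveILetI false
set_option linter.unusedVariables false

open H86 H33
attribute [local irreducible] H33.instFieldF

/-- Let B be a block of the finite group G relative to a maximal ideal M of the algebraic integers containing the prime p, with a commutative defect group P; let c be a block of C_G(P) inducing B and T the stabilizer of c in N_G(P). Let u be an element of P fixed under conjugation by every element of T, H = C_G(u) (so C_G(P) ≤ H), and f the block of H induced by c inside H. Then B and f have the same p-regular rank and the same number of irreducible characters. -/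
theorem result {G : Type*} [Group G] [Finite G] (p : ℕ) [Fact p.Prime] (M : Ideal Cfsg.AlgInt) (hM : Cfsg.IsPModular p M) (B : Set (Cfsg.IrrCharacter G)) (hB : Cfsg.IsPBlock M B) (P : Subgroup G) (hPD : Cfsg.IsDefectGroup p M B P) (hPab : ∀ x ∈ P, ∀ y ∈ P, x * y = y * x) (c : Set (Cfsg.IrrCharacter (Subgroup.centralizer (P : Set G)))) (hc : Cfsg.IsInducedBlock M (Subgroup.centralizer (P : Set G)) c B) (T : Subgroup G) (hT : ∀ g : G, g ∈ T ↔ (g ∈ Subgroup.normalizer (P : Set G) ∧ Cfsg.StabilizesBlock (Subgroup.centralizer (P : Set G)) c g)) (u : G) (hu : u ∈ P) (huT : ∀ g ∈ T, g * u * g⁻¹ = u) (H : Subgroup G) (hH : H = Subgroup.centralizer ({u} : Set G)) (f : Set (Cfsg.IrrCharacter H)) (hf : Cfsg.IsInducedBlockIn M H (Subgroup.centralizer (P : Set G)) c f) : Cfsg.blockRank p B = Cfsg.blockRank p f ∧ Nat.card B = Nat.card f := by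
  haveI := isMaximal_of hM; haveI := charP hM; haveI := Fintype.ofFinite G
  have hab : P ≤ Cen P := fun x hx => mem_Cen.2 fun q hq => hPab q hq x hx
  have hm := isMaxPair_of_induced hM hPD hab hc
  have hT1 := eq_St hc.1 hT
  obtain ⟨b, hb, hbe⟩ := (H86.isBlk_eB hB).exists_eS
  have hw : WS p P (eS M (Cen P) c) ⊤ := ⟨hM, hab, b, hb, hbe ▸ hm⟩
  have hBe := hw.eS_eq (H86.isBlk_eB hB) hm.toPairOf
  have h1 := eq_image_of_top hB hw.blk hBe.symm
  have hHC : H = Cen (Subgroup.zpowers u) := hH ▸ H33.IsCen_eq (H84.isCen_singleton u)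
  subst hHC
  have hTu : St ⊤ P (eS M (Cen P) c) ≤ Cen (Subgroup.zpowers u) := fun g hg =>
    (H84.isCen_zpowers u g).2 (by
      have := huT g (hT1 ▸ hg)
      exact (mul_inv_eq_iff_eq_mul.1 this).symm)
  have hz := Subgroup.zpowers_le.2 hu
  have h2 := hw.rank_eq hu hTu
  have h3 := hw.card_eq hu hTu
  obtain ⟨h4, h5⟩ := hw.inf_sub hz
  rw [top_inf_eq] at h2 h3 h4 h5
  have h6 := eS_inj h4.blk hf.2.1 (h5.unique (nsub_of_inducedIn hM hm.pgrp hab hz hf).sub hm.toPair)
  rw [← h6, ← h2, ← h3, h1, H85.blockRank_trI, H85.card_trI]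
  exact ⟨rfl, rfl⟩

end Cfsg.Agent.S4644
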