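import Cfsg.Statements.S4702
import Mathlib
import Cfsg.Agent.Lib.Perm27.Sharp3
import Cfsg.Agent.Lib.SE42.FieldRec

set_option autoImplicit false
open Cfsg

namespace Cfsg.Agent.S4702

open MulAction

theorem center_eq_bot {F : Type*} [Field F] (h2 : ringChar F = 2) :
    Subgroup.center (Matrix.SpecialLinearGroup (Fin 2) F) = ⊥ := by
  rw [eq_bot_iff]
  intro A hA
  obtain ⟨r, hr, hA⟩ := Matrix.SpecialLinearGroup.mem_center_iff.1 hA
  have : CharP F 2 := h2 ▸ ringChar.charP F
  have h1 : r = 1 := by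
    rw [Fintype.card_fin] at hr
    rcases sq_eq_one_iff.1 hr with h | h
    · exact h
    · rw [h, CharTwo.neg_eq]
  rw [Subgroup.mem_bot]
  apply Subtype.ext
  rw [← hA, h1, map_one]
  rfl


/-- Let G be a triply transitive permutation group on a finite set of odd size m ≥ 3 in which only the identity fixes three or more points. Then m = 2^a + 1 for some a ≥ 1 and G is isomorphic to SL(2, 2^a). -/
theorem result {α : Type*} [Fintype α] [DecidableEq α] (hm : 3 ≤ Fintype.card α) (hodd : Odd (Fintype.card α)) (G : Subgroup (Equiv.Perm α)) (h3 : MulAction.IsMultiplyPretransitive G α 3) (hfix : ∀ g : G, 3 ≤ Nat.card (MulAction.fixedBy α g) → g = 1) : ∃ a : ℕ, 1 ≤ a ∧ Fintype.card α = 2 ^ a + 1 ∧ ∃ (F : Type) (_ : Field F) (_ : Fintype F), Fintype.card F = 2 ^ a ∧ Nonempty (G ≃* Matrix.SpecialLinearGroup (Fin 2) F) := by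
  have hc : 3 ≤ Nat.card α := by rwa [Nat.card_eq_fintype_card]
  have hS := H27.Sharp3.of_perm G h3 (H26.sharp3_iff.2 fun g a b c hab hac hbc ha hb hc =>
    hfix g (by
      have := Fintype.ofFinite (fixedBy α g)
      rw [Nat.card_eq_fintype_card]
      exact Fintype.two_lt_card_iff.2 ⟨⟨a, ha⟩, ⟨b, hb⟩, ⟨c, hc⟩, fun h => hab (congrArg Subtype.val h),
        fun h => hac (congrArg Subtype.val h), fun h => hbc (congrArg Subtype.val h)⟩)) hc
  have : Nontrivial α := Finite.one_lt_card_iff_nontrivial.1 (by omega)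
  obtain ⟨b, a, hb⟩ := exists_pair_ne α
  obtain ⟨c, hca, hcb⟩ := H27.Sharp3.exists_third (Ω := α) hc a b
  obtain ⟨F, _, _, hF, ⟨e⟩⟩ := hS.pgl2_of_odd hb hca hcb (by rwa [Nat.card_eq_fintype_card])
  rw [Nat.card_eq_fintype_card] at hF
  have h2 : ringChar F = 2 := by
    by_contra h
    have := FiniteField.odd_card_of_char_ne_two h
    obtain ⟨k, hk⟩ := hodd
    omega
  obtain ⟨n, -, hn⟩ := FiniteField.card F (ringChar F)
  rw [h2] at hn
  obtain ⟨e2⟩ := H42.nonempty_psl_equiv_pgl_two (F := F) (FiniteField.isSquare_of_char_two h2)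
  refine ⟨n, n.2, by omega, F, inferInstance, inferInstance, hn, ⟨e.trans (e2.symm.trans ?_)⟩⟩
  exact (QuotientGroup.quotientMulEquivOfEq (center_eq_bot h2)).trans QuotientGroup.quotientBot

end Cfsg.Agent.S4702
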