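import Cfsg.Statements.S0745
import Mathlib
import Cfsg.Agent.Lib.Perm27.Induce
import Cfsg.Agent.S4702

set_option autoImplicit false
open Cfsg

namespace Cfsg.Agent.S0745

open MulAction H27 H17
open scoped Pointwise

section
variable {G α : Type*} [Group G] [MulAction G α] [Fintype α] [DecidableEq α]

theorem card_fix_eq {k : ℕ} (h : Homog G α k) {s t : Finset α} (hs : s.card = k) (ht : t.card = k) :
    Nat.card (fixingSubgroup G (s : Set α)) = Nat.card (fixingSubgroup G (t : Set α)) := by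
  obtain ⟨g, hg⟩ := h s t hs ht
  exact Nat.card_congr (SubMulAction.fixingSubgroupEquivFixingSubgroup (g := g)
    (by rw [← hg, Finset.coe_smul_finset])).toEquiv

theorem choose_dvd {k : ℕ} (h : IsPretransitive G (Set.powersetCard α k)) (hk : k ≤ Fintype.card α) :
    (Fintype.card α).choose k ∣ Nat.card G := by
  obtain ⟨s, -, hs⟩ := Finset.exists_subset_card_eq (s := (Finset.univ : Finset α)) (n := k) hk
  rw [← Nat.card_eq_fintype_card, ← Set.powersetCard.card,
    ← index_stabilizer_of_transitive G (⟨s, hs⟩ : Set.powersetCard α k)]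
  exact Subgroup.index_dvd_card _

theorem fixTriv [Finite G] [FaithfulSMul G α] {m : ℕ} (hn : m + 3 ≤ Fintype.card α)
    (hnt : ¬ IsMultiplyPretransitive G α (m + 2)) (h1 : Homog G α (m + 2)) (h2 : Homog G α (m + 3)) :
    FixTriv G α (m + 2) := by
  obtain ⟨t, -, ht⟩ := Finset.exists_subset_card_eq (s := (Finset.univ : Finset α)) (n := m + 3) hn
  refine fixTriv_of_finset fun g s hs hg => ?_
  by_contra hg1
  refine hnt (pred_trans_of_card (k := m + 1) hn (Finite.one_lt_card_iff_nontrivial.2 ⟨?_⟩)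
    (fun s' hs' => card_fix_eq h1 hs' hs) fun s' hs' => card_fix_eq h2 hs' ht)
  exact ⟨⟨g, fun a => hg _ a.2⟩, 1, fun e => hg1 (congrArg Subtype.val e)⟩

theorem params [Finite G] {m : ℕ} (hn : m + 3 ≤ Fintype.card α)
    (ht : IsMultiplyPretransitive G α (m + 1)) (hnt : ¬ IsMultiplyPretransitive G α (m + 2))
    (hf : FixTriv G α (m + 2))
    (ho : ∀ (g : G) (S : Finset α), S.card = m + 1 → (∀ a ∈ S, g • a = a) → g * g = 1 → g = 1)
    (h1 : (Fintype.card α).choose (m + 2) ∣ Nat.card G)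
    (h2 : (Fintype.card α).choose (m + 3) ∣ Nat.card G) {S : Finset α} (hS : S.card = m + 1) :
    ∃ h j x : ℕ, Nat.card (fixingSubgroup G (S : Set α)) = h ∧ Odd h ∧ 2 ≤ j ∧
      Fintype.card α = m + 1 + h * j ∧ j * x = (m + 2).factorial ∧ h * j - 1 ∣ x * (m + 3) ∧
      Nat.card G = (Fintype.card α).descFactorial (m + 1) * h := by
  obtain ⟨x, hx⟩ := h1
  obtain ⟨z, hz⟩ := h2
  have hfree : ∀ (g : fixingSubgroup G (S : Set α)), ∀ c ∈ (S : Set α)ᶜ, g • c = c → g = 1 :=
    fun g c hc h2 => Subtype.ext (hf.eq_one g (insert c S)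
      (by rw [Finset.card_insert_of_notMem hc, hS]) fun a ha => by
        rcases Finset.mem_insert.1 ha with rfl | ha
        · exact h2
        · exact g.2 ⟨a, ha⟩)
  have hout : ∀ (g : fixingSubgroup G (S : Set α)), ∀ c ∈ (S : Set α)ᶜ, g • c ∈ (S : Set α)ᶜ :=
    fun g c hc h => hc (smul_left_cancel (g : G) (g.2 ⟨_, h⟩) ▸ h)
  obtain ⟨j, hj⟩ := card_dvd_of_free _ hout hfree
  have hN : Nat.card ((S : Set α)ᶜ : Set α) + (m + 1) = Fintype.card α := by
    rw [← hS, ← Set.ncard_coe_finset, add_comm, ← Nat.card_eq_fintype_card,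
      ← Set.ncard_add_ncard_compl (S : Set α)]
    rfl
  have hG := (fixingSubgroup G (S : Set α)).index_mul_card
  rw [IsMultiplyPretransitive.index_of_fixingSubgroup_eq _ (by simpa [hS] using ht),
    Set.ncard_coe_finset, hS, Nat.card_eq_fintype_card (α := α)] at hG
  have hj1 : j ≠ 1 := by
    rintro rfl
    refine hnt (isMultiplyPretransitive_succ_of_fix ht S hS fun c d hc hd => ?_)
    obtain ⟨g, hg⟩ := ((Nat.bijective_iff_injective_and_card
      (fun g : fixingSubgroup G (S : Set α) => (⟨g • c, hout g c hc⟩ : ((S : Set α)ᶜ : Set α)))).2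
      ⟨fun g g' e => (inv_mul_eq_one.1 (hfree _ c hc (by
        rw [mul_smul, show g' • c = g • c from (congrArg Subtype.val e).symm, inv_smul_smul]))),
        by rw [hj, mul_one]⟩).2 ⟨d, hd⟩
    exact ⟨g, fun a ha => g.2 ⟨a, ha⟩, congrArg Subtype.val hg⟩
  have hodd : Odd (Nat.card (fixingSubgroup G (S : Set α))) := by
    rw [← Nat.not_even_iff_odd, even_iff_two_dvd]
    intro h2
    obtain ⟨t, ht⟩ := exists_prime_orderOf_dvd_card' 2 h2
    have h3 : t * t = 1 := by rw [← pow_two, ← ht, pow_orderOf_eq_one]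
    rw [show t = 1 from Subtype.ext (ho t S hS (fun a ha => t.2 ⟨a, ha⟩) (congrArg Subtype.val h3))] at ht
    simp at ht
  generalize Nat.card (fixingSubgroup G (S : Set α)) = h at *
  generalize Fintype.card α = n at *
  have e1 := Nat.choose_succ_right_eq n (m + 1)
  have e2 := Nat.choose_succ_right_eq n (m + 2)
  have p1 : 0 < n.choose (m + 1) := Nat.choose_pos (by omega)
  have p2 : 0 < n.choose (m + 2) := Nat.choose_pos (by omega)
  have hj0 : j ≠ 0 := by rintro rfl; omega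
  rw [show n - (m + 1) = h * j by omega] at e1
  rw [show n - (m + 2) = h * j - 1 by omega] at e2
  refine ⟨h, j, x, rfl, hodd, by omega, by omega, ?_, ⟨z, ?_⟩, ?_⟩
  · refine Nat.eq_of_mul_eq_mul_left (Nat.mul_pos p1 hodd.pos) ?_
    rw [Nat.factorial_succ]
    calc _ = n.choose (m + 1) * (h * j) * x := by ring
      _ = n.choose (m + 1 + 1) * x * (m + 1 + 1) := by rw [← e1]; ring
      _ = _ := by rw [← hx, ← hG]; ring
  · refine Nat.eq_of_mul_eq_mul_left p2 ?_
    calc _ = n.choose (m + 2 + 1) * z * (m + 2 + 1) := by rw [← hz, hx]; ring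
      _ = _ := by rw [← mul_assoc, ← e2]; ring
  · rw [← hG, Nat.descFactorial_eq_factorial_mul_choose]; ring

theorem no_sylow [Finite G] {k p m : ℕ} (hp : p.Prime) (h : FixTriv G α k)
    (hkp : k ≤ p) (hkn : k ≤ Fintype.card α) (hn : Fintype.card α < 2 * p)
    (hG : Nat.card G = p * m) (hm : ¬ p ∣ m) : ∃ d r, d ∣ p - 1 ∧ r % p = 1 ∧ r * d = m := by
  have := Fact.mk hp
  obtain ⟨P⟩ : Nonempty (Sylow p G) := inferInstance
  obtain ⟨d, r, h1, -, h2⟩ := sylow_count h hkp hkn hn hG hm P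
  exact ⟨d, r, h1, h2⟩

end

set_option synthInstance.maxSize 400000 in
theorem num3 : ∀ j ≤ 2, ∀ x ≤ 2, j * x = 2 → 2 ≤ j → ∀ h ≤ 7, h % 2 = 1 → h * j - 1 ∣ x * 3 →
    h = 1 ∧ j = 2 := by decide +kernel

set_option synthInstance.maxSize 400000 in
theorem num4 : ∀ j ≤ 6, ∀ x ≤ 6, j * x = 6 → 2 ≤ j → ∀ h ≤ 25, h % 2 = 1 → h * j - 1 ∣ x * 4 →
    (h = 1 ∧ j = 2) ∨ (h = 1 ∧ j = 3) ∨ (h = 3 ∧ j = 3) := by decide +kernel

set_option synthInstance.maxSize 400000 in
theorem num5 : ∀ j ≤ 24, ∀ x ≤ 24, j * x = 24 → 2 ≤ j → ∀ h ≤ 121, h % 2 = 1 → h * j - 1 ∣ x * 5 →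
    (h = 1 ∧ j = 2) ∨ (h = 3 ∧ j = 2) ∨ (h = 1 ∧ j = 3) ∨ (h = 3 ∧ j = 3) ∨ (h = 7 ∧ j = 3) ∨
      (h = 1 ∧ j = 4) ∨ (h = 1 ∧ j = 6) := by decide +kernel

theorem bounds {j x h N c : ℕ} (e : j * x = N) (hN : 0 < N) (hj : 2 ≤ j) (hc : 0 < c)
    (hd : h * j - 1 ∣ x * c) : j ≤ N ∧ x ≤ N ∧ h ≤ N * c + 1 := by
  have h1 := Nat.le_of_dvd hN (Dvd.intro _ e)
  have h2 := Nat.le_of_dvd hN (Dvd.intro_left _ e)
  have h3 : 0 < x := Nat.pos_of_ne_zero (by rintro rfl; omega)
  have h4 := Nat.le_of_dvd (Nat.mul_pos h3 hc) hd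
  have h5 := Nat.mul_le_mul_right c h2
  have h6 : h ≤ h * j := Nat.le_mul_of_pos_right _ (by omega)
  exact ⟨h1, h2, by omega⟩

/-- Let `G` have degree `n` and `3 ≤ k ≤ n`; suppose `G` is `(k-2)`-transitive but not `(k-1)`-transitive, and is `(k-1)`-homogeneous and `k`-homogeneous. Then `k = n` and `G` is the alternating group, or `n = 5, k = 4, |G| = 20`, or `n = 6, k = 5, |G| = 120`, or `n = 9, k = 5, |G| ∈ {504, 1512}`. -/
theorem result {α : Type*} [Fintype α] [DecidableEq α] (G : Subgroup (Equiv.Perm α)) {k : ℕ} (hk : 3 ≤ k) (hkn : k ≤ Fintype.card α) (ht : MulAction.IsMultiplyPretransitive G α (k - 2)) (hnt : ¬ MulAction.IsMultiplyPretransitive G α (k - 1)) (hh1 : MulAction.IsPretransitive G (Set.powersetCard α (k - 1))) (hh : MulAction.IsPretransitive G (Set.powersetCard α k)) : (k = Fintype.card α ∧ G = alternatingGroup α) ∨ (Fintype.card α = 5 ∧ k = 4 ∧ Nat.card G = 20) ∨ (Fintype.card α = 6 ∧ k = 5 ∧ Nat.card G = 120) ∨ (Fintype.card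 α = 9 ∧ k = 5 ∧ (Nat.card G = 504 ∨ Nat.card G = 1512)) := by
  obtain ⟨m, rfl⟩ : ∃ m, k = m + 3 := ⟨k - 3, by omega⟩
  change IsMultiplyPretransitive G α (m + 1) at ht
  change ¬ IsMultiplyPretransitive G α (m + 2) at hnt
  change IsPretransitive G (Set.powersetCard α (m + 2)) at hh1
  have H1 : Homog G α (m + 2) := homog_iff.1 hh1
  have hf := fixTriv hkn hnt H1 (homog_iff.1 hh)
  obtain ⟨Δ, -, hΔ⟩ := Finset.exists_subset_card_eq (s := (Finset.univ : Finset α)) (n := m + 2)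
    (by rw [Finset.card_univ]; omega)
  have ho : ∀ (g : G) (S : Finset α), S.card = m + 1 → (∀ a ∈ S, g • a = a) → g * g = 1 → g = 1 :=
    fun g S hS h1 h2 => by
      by_contra h3
      exact hnt (H1.multi_of_Ind hΔ (Ind_eq_top_of_invol ht hf h3 h2 hS h1 hΔ))
  have par := fun S => params hkn ht hnt hf ho (choose_dvd hh1 (by omega)) (choose_dvd hh hkn) (S := S)
  have hsharp : (∀ S : Finset α, S.card = m + 1 → Nat.card (fixingSubgroup G (S : Set α)) = 1) →
      FixTriv G α (m + 1) := fun h => fixTriv_of_finset fun g S hS hg => by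
    have := (Nat.card_eq_one_iff_unique.1 (h S hS)).1
    exact congrArg Subtype.val (Subsingleton.elim (α := fixingSubgroup G (S : Set α))
      ⟨g, fun a => hg _ a.2⟩ 1)
  by_cases hA : m + 3 = Fintype.card α
  · refine Or.inl ⟨hA, ?_⟩
    have h1 := _root_.IsMultiplyPretransitive.alternatingGroup_le α G
      (by rw [Nat.card_eq_fintype_card, ← hA]; exact ht)
    have : Nontrivial α := Fintype.one_lt_card_iff_nontrivial.1 (by omega)
    have h2 := Subgroup.index_dvd_of_le h1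
    rw [alternatingGroup.index_eq_two] at h2
    rcases (Nat.dvd_prime Nat.prime_two).1 h2 with h | h
    · rw [Subgroup.index_eq_one] at h
      subst h
      refine absurd (H26.multi_iff_fun.2 fun x y hx hy => ?_) hnt
      obtain ⟨g, hg⟩ := H26.multi_iff_fun.1 (Equiv.Perm.isMultiplyPretransitive α (m + 2)) x y hx hy
      exact ⟨⟨g, trivial⟩, hg⟩
    · exact Equiv.Perm.eq_alternatingGroup_of_index_eq_two h
  obtain ⟨S, -, hS⟩ := Finset.exists_subset_card_eq (s := (Finset.univ : Finset α)) (n := m + 1)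
    (by rw [Finset.card_univ]; omega)
  obtain ⟨h, j, x, e1, e2, e3, e4, e5, e6, e7⟩ := par S hS
  obtain ⟨b1, b2, b3⟩ := bounds e5 (Nat.factorial_pos _) e3 (by omega) e6
  rw [Nat.odd_iff] at e2
  rcases m with _ | _ | _ | m
  · obtain ⟨rfl, rfl⟩ := num3 j b1 x b2 e5 e3 h b3 e2 e6
    omega
  · rcases num4 j b1 x b2 e5 e3 h b3 e2 e6 with ⟨rfl, rfl⟩ | ⟨rfl, rfl⟩ | ⟨rfl, rfl⟩
    · omega
    · exact Or.inr (Or.inl ⟨e4, rfl, by rw [e7, e4]; rfl⟩)
    · obtain ⟨d, r, h1, h2, h3⟩ := no_sylow (p := 11) (m := 30) (by norm_num) hf (by norm_num)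
        (by omega) (by omega) (by rw [e7, e4]; rfl) (by norm_num)
      have : d ≤ 10 := Nat.le_of_dvd (by norm_num) h1
      interval_cases d <;> omega
  · rcases num5 j b1 x b2 e5 e3 h b3 e2 e6 with
      ⟨rfl, rfl⟩ | ⟨rfl, rfl⟩ | ⟨rfl, rfl⟩ | ⟨rfl, rfl⟩ | ⟨rfl, rfl⟩ | ⟨rfl, rfl⟩ | ⟨rfl, rfl⟩
    · omega
    · exact Or.inr (Or.inr (Or.inr ⟨e4, rfl, Or.inr (by rw [e7, e4]; rfl)⟩))
    · exact Or.inr (Or.inr (Or.inl ⟨e4, rfl, by rw [e7, e4]; rfl⟩))
    · obtain ⟨d, r, h1, h2, h3⟩ := no_sylow (p := 11) (m := 360) (by norm_num) hf (by norm_num)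
        (by omega) (by omega) (by rw [e7, e4]; rfl) (by norm_num)
      have : d ≤ 10 := Nat.le_of_dvd (by norm_num) h1
      interval_cases d <;> omega
    · obtain ⟨d, r, h1, h2, h3⟩ := no_sylow (p := 23) (m := 3696) (by norm_num) hf (by norm_num)
        (by omega) (by omega) (by rw [e7, e4]; rfl) (by norm_num)
      have : d ≤ 22 := Nat.le_of_dvd (by norm_num) h1
      interval_cases d <;> omega
    · have hs := hsharp fun S' hS' => by
        obtain ⟨h', -, -, f1, -, -, -, -, -, f2⟩ := par S' hS'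
        rw [f1]
        rw [e7, e4] at f2
        exact (Nat.eq_of_mul_eq_mul_left (by decide) f2).symm
      obtain ⟨a, -, ha, -⟩ := Cfsg.Agent.S4702.result (by omega) (by rw [e4]; decide) G ht
        fun g hg => hs.eq_one g (Finset.univ.filter fun x => g • x = x)
          (hg.trans_eq (Nat.subtype_card _ fun x => by simp)) fun a ha => by simpa using ha
      have h1 : 2 ^ a = 6 := by omega
      exact absurd (Nat.prime_three.dvd_of_dvd_pow (h1 ▸ by norm_num : 3 ∣ 2 ^ a)) (by norm_num)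
    · exact Or.inr (Or.inr (Or.inr ⟨e4, rfl, Or.inl (by rw [e7, e4]; rfl)⟩))
  · exfalso
    have key : ∀ S : Finset α, S.card = m + 4 → Nat.card (fixingSubgroup G (S : Set α)) = 1 := by
      intro S hS
      obtain ⟨h, j, x, e1, e2, e3, e4, -⟩ := par S hS
      by_contra h1
      have := Finite.one_lt_card_iff_nontrivial.1
        (show 1 < Nat.card (fixingSubgroup G (S : Set α)) by have := e2.pos; omega)
      obtain ⟨η, hη⟩ := exists_ne (1 : fixingSubgroup G (S : Set α))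
      have h7 := card_le_add_seven (k := m) ht ho hf (by rw [Nat.card_eq_fintype_card]; omega)
        (η := η) (fun e => hη (Subtype.ext e)) hS fun a ha => η.2 ⟨a, ha⟩
      rw [Nat.card_eq_fintype_card] at h7
      have : 2 * 2 ≤ h * j := Nat.mul_le_mul (by have := e2.pos; omega) e3
      omega
    have h1 : h = 1 := e1.symm.trans (key S hS)
    subst h1
    rcases sharp_degree (k := m) ht (hsharp key) (by omega) with h2 | ⟨h2, h3⟩
    · omega
    · obtain rfl : j = 7 := by omega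
      interval_cases m <;> simp [Nat.factorial] at e5 <;> omega

end Cfsg.Agent.S0745
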