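import Cfsg.Statements.S0746
import Mathlib
import Cfsg.Agent.Lib.Perm27.Induce
import Cfsg.Agent.S0745

set_option autoImplicit false
open Cfsg

namespace Cfsg.Agent.S0746

open MulAction H27 in
theorem aux {α : Type*} [Fintype α] [DecidableEq α] (G : Subgroup (Equiv.Perm α)) (m : ℕ) :
    2 * (m + 2) ≤ Fintype.card α → Homog G α (m + 2) → IsMultiplyPretransitive G α (m + 1) := by
  induction m with
  | zero =>
    intro hn h
    have h1 : Homog G α 1 := h.pred le_rfl fun q _ hq => by
      have := Nat.le_of_dvd (by norm_num) hq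
      omega
    refine is_one_pretransitive_iff.2 ⟨fun a b => ?_⟩
    obtain ⟨g, hg⟩ := h1 {a} {b} rfl rfl
    exact ⟨g, by simpa using hg⟩
  | succ m ih =>
    intro hn h
    have h1 : Homog G α (m + 2) := h.pred (by omega) fun q _ hq => by
      have := Nat.le_of_dvd (by omega) hq
      omega
    by_contra hnt
    rcases Cfsg.Agent.S0745.result G (k := m + 3) (by omega) (by omega) (ih (by omega) h1) hnt
      (homog_iff.2 h1) (homog_iff.2 h) with h | h | h | h <;> omega

/-- The Livingstone–Wagner Theorem, first form: a `k`-homogeneous group of degree `n` with `4 ≤ 2k ≤ n` is `(k-1)`-transitive. -/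
theorem result {α : Type*} [Fintype α] [DecidableEq α] (G : Subgroup (Equiv.Perm α)) {k : ℕ} (hk : 2 ≤ k) (hkn : 2 * k ≤ Fintype.card α) (hh : MulAction.IsPretransitive G (Set.powersetCard α k)) : MulAction.IsMultiplyPretransitive G α (k - 1) := by
  obtain ⟨m, rfl⟩ : ∃ m, k = m + 2 := ⟨k - 2, by omega⟩
  exact aux G m hkn (H27.homog_iff.1 hh)

end Cfsg.Agent.S0746
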