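import Cfsg.Statements.S0747
import Mathlib
import Cfsg.Agent.Lib.Perm27.Induce
import Cfsg.Agent.Lib.Perm.RegularNormal

set_option autoImplicit false
open scoped Pointwise
open Cfsg

namespace Cfsg.Agent.S0747

open MulAction H27 H17 in
theorem base {α : Type*} [Fintype α] [DecidableEq α] (G : Subgroup (Equiv.Perm α)) {m : ℕ}
    (hkn : m + 4 < Fintype.card α) (hG : IsMultiplyPretransitive G α (m + 4))
    (hf : FixTriv G α (m + 5)) : ∃ Δ : Finset α, Δ.card = m + 5 ∧ alternatingGroup Δ ≤ Ind G Δ := by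
  obtain ⟨Δ, -, hΔ⟩ := Finset.exists_subset_card_eq (s := (Finset.univ : Finset α)) (n := m + 5)
    (by rw [Finset.card_univ]; omega)
  by_cases ho : ∀ (g : G) (S : Finset α), S.card = m + 4 → (∀ a ∈ S, g • a = a) → g * g = 1 → g = 1
  swap
  · push Not at ho
    obtain ⟨t, S, hS, h1, h2, h3⟩ := ho
    exact ⟨Δ, hΔ, Ind_eq_top_of_invol (k := m + 3) hG hf h3 h2 hS h1 hΔ ▸ le_top⟩
  by_cases h6 : Fintype.card α ≤ m + 6
  · have h1 := _root_.IsMultiplyPretransitive.alternatingGroup_le α G (isMultiplyPretransitive_of_le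
      (n := m + 4) (by rw [Nat.card_eq_fintype_card]; omega) (by rw [Nat.card_eq_fintype_card]; omega))
    refine ⟨Δ, hΔ, fun σ hσ => ⟨⟨Equiv.Perm.ofSubtype σ, h1 ?_⟩, fun x => ?_⟩⟩
    · rw [Equiv.Perm.mem_alternatingGroup, Equiv.Perm.sign_ofSubtype]; exact hσ
    · exact Equiv.Perm.ofSubtype_apply_coe σ x
  by_cases hs : FixTriv G α (m + 4)
  · rcases sharp_degree hG hs hkn.le with h | ⟨h, -⟩
    · omega
    · obtain ⟨Δ, h1, h2⟩ := exists_Ind_top_of_sharp hG hs h
      exact ⟨Δ, h1, h2 ▸ le_top⟩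
  obtain ⟨η, S, hS, h1, h2⟩ : ∃ (η : G) (S : Finset α), S.card = m + 4 ∧ (∀ a ∈ S, η • a = a) ∧ η ≠ 1 := by
    by_contra hc
    push Not at hc
    exact hs (fixTriv_of_finset hc)
  have h7 := card_le_add_seven hG ho hf (by rw [Nat.card_eq_fintype_card]; omega) h2 hS h1
  rw [Nat.card_eq_fintype_card] at h7
  have hfree : ∀ (g : G) (c : α), (∀ a ∈ S, g • a = a) → c ∉ S → g • c = c → g = 1 :=
    fun g c h1 hc h2 => hf.eq_one g (insert c S) (by rw [Finset.card_insert_of_notMem hc, hS])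
      fun a ha => by
        rcases Finset.mem_insert.1 ha with rfl | ha
        · exact h2
        · exact h1 a ha
  have h3 : ∀ a ∈ S, (η * η) • a = a := fun a ha => by rw [mul_smul, h1 a ha, h1 a ha]
  have hout : ∀ c ∉ S, η • c ∉ S := fun c hc h => hc (smul_left_cancel η (h1 _ h) ▸ h)
  refine ⟨Δ, hΔ, Ind_eq_top_of_multi (isMultiplyPretransitive_succ_of_fix hG S hS fun c d hc hd => ?_)
    hΔ ▸ le_top⟩
  have n1 : η • c ≠ c := fun e => h2 (hfree η c h1 hc e)
  have n2 : η • η • c ≠ c := fun e => h2 (ho η S hS h1 (hfree _ c h3 hc (by rw [mul_smul, e])))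
  have h4 : ({c, η • c, η • η • c} : Finset α) = Sᶜ := Finset.eq_of_subset_of_card_le (by
      intro x hx
      simp only [Finset.mem_insert, Finset.mem_singleton] at hx
      rw [Finset.mem_compl]
      rcases hx with rfl | rfl | rfl
      exacts [hc, hout c hc, hout _ (hout c hc)]) (by
    rw [Finset.card_eq_three.2 ⟨_, _, _, n1.symm, n2.symm, fun e => n1 (smul_left_cancel η e).symm, rfl⟩,
      Finset.card_compl]
    omega)
  have h5 : d ∈ ({c, η • c, η • η • c} : Finset α) := h4 ▸ Finset.mem_compl.2 hd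
  simp only [Finset.mem_insert, Finset.mem_singleton] at h5
  rcases h5 with rfl | rfl | rfl
  · exact ⟨1, fun a _ => one_smul _ a, one_smul _ _⟩
  · exact ⟨η, h1, rfl⟩
  · exact ⟨η * η, h3, mul_smul _ _ _⟩

universe u in
open MulAction H27 H17 in
theorem main (m n : ℕ) : ∀ {α : Type u} [Fintype α] [DecidableEq α] (G : Subgroup (Equiv.Perm α)),
    Fintype.card α = n → m + 4 < Fintype.card α → IsMultiplyPretransitive G α (m + 4) →
    ∃ Δ : Finset α, Δ.card = m + 5 ∧ alternatingGroup Δ ≤ Ind G Δ := by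
  induction n using Nat.strong_induction_on with
  | _ n ih =>
  intro α _ _ G hn hkn hG
  classical
  by_cases hf : FixTriv G α (m + 5)
  · exact base G hkn hG hf
  obtain ⟨η, S, hS, h1, h2⟩ : ∃ (η : G) (S : Finset α), S.card = m + 5 ∧ (∀ a ∈ S, η • a = a) ∧ η ≠ 1 := by
    by_contra hc
    push Not at hc
    exact hf (fixTriv_of_finset hc)
  obtain ⟨p, hp, hd⟩ := Nat.exists_prime_and_dvd (n := Nat.card (Subgroup.zpowers η))
    (by rwa [Nat.card_zpowers, Ne, orderOf_eq_one_iff])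
  have := Fact.mk hp
  obtain ⟨⟨_, i, rfl⟩, hg⟩ := exists_prime_orderOf_dvd_card' p hd
  have hg' : orderOf (η ^ i) = p := (Subgroup.orderOf_mk _ _).symm.trans hg
  obtain ⟨Q, hQ1, hQ⟩ := Finite.exists_le_maximal
    (p := fun R : Subgroup G => IsPGroup p R ∧ m + 3 + 1 < (fixedPoints R α).ncard)
    (a := Subgroup.zpowers (η ^ i)) ⟨IsPGroup.of_card (n := 1) (by rw [Nat.card_zpowers, hg', pow_one]), by
      have : (S : Set α) ⊆ fixedPoints (Subgroup.zpowers (η ^ i)) α := fun a ha g =>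
        (Subgroup.zpowers_le.2 (Subgroup.zpow_mem (stabilizer G a) (h1 a ha) i) g.2 :)
      have := Set.ncard_le_ncard this
      rw [Set.ncard_coe_finset] at this
      omega⟩
  have h3 := H26.multi_range_iff.2 (multi_fixAct hp hG hQ)
  have hc : Fintype.card (fixAct (α := α) Q) = (fixedPoints Q α).ncard := by
    rw [← Nat.card_eq_fintype_card]; rfl
  obtain ⟨Δ, h4, h5⟩ := ih _ (by
    rw [← hn]
    refine Fintype.card_subtype_lt (x := Classical.choose (p := fun x : α => η ^ i • x ≠ x) ?_) ?_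
    · by_contra hc
      push Not at hc
      rw [show η ^ i = 1 from Subtype.ext (Equiv.ext hc), orderOf_one] at hg'
      exact hp.one_lt.ne hg'
    · generalize_proofs h
      exact fun h' => Classical.choose_spec h (h' ⟨_, hQ1 (Subgroup.mem_zpowers _)⟩)) _ rfl
    (hc ▸ hQ.1.2) h3
  refine ⟨_, ?_, alt_le_Ind_map ((Function.Embedding.subtype (· ∈ Δ)).trans
    (Function.Embedding.subtype _)) fun σ hσ => ?_⟩
  · simpa using h4
  · obtain ⟨⟨_, g, rfl⟩, hg⟩ := h5 hσ
    exact ⟨g, fun x => congrArg Subtype.val (hg x)⟩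

/-- In a `k`-transitive permutation group with `4 ≤ k < n`, some `(k+1)`-subset `Δ` has the property that every even permutation of `Δ` is induced by an element of the group stabilising `Δ`. -/
theorem result {α : Type*} [Fintype α] [DecidableEq α] (G : Subgroup (Equiv.Perm α)) {k : ℕ} (hk : 4 ≤ k) (hkn : k < Fintype.card α) (hG : MulAction.IsMultiplyPretransitive G α k) : ∃ Δ : Finset α, Δ.card = k + 1 ∧ ∀ σ : Equiv.Perm ↥Δ, σ ∈ alternatingGroup ↥Δ → ∃ g ∈ G, ∀ x : ↥Δ, g (x : α) = σ x := by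
  obtain ⟨m, rfl⟩ : ∃ m, k = m + 4 := ⟨k - 4, by omega⟩
  obtain ⟨Δ, h1, h2⟩ := main m _ G rfl hkn hG
  refine ⟨Δ, h1, fun σ hσ => ?_⟩
  obtain ⟨g, hg⟩ := h2 hσ
  exact ⟨g, g.2, hg⟩

end Cfsg.Agent.S0747
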