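import Cfsg.Statements.S0748
import Mathlib
import Cfsg.Agent.Lib.Perm27.Induce
import Cfsg.Agent.S0746
import Cfsg.Agent.S0747

set_option autoImplicit false
open Cfsg

namespace Cfsg.Agent.S0748

open MulAction H27 H17

theorem sign3 {β : Type*} [Fintype β] [DecidableEq β] {a b c d : β} (h1 : a ≠ b) (h2 : b ≠ c)
    (h3 : c ≠ d) : Equiv.Perm.sign (Equiv.swap a b * Equiv.swap b c * Equiv.swap c d) = -1 := by
  simp [Equiv.Perm.sign_swap h1, Equiv.Perm.sign_swap h2, Equiv.Perm.sign_swap h3]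

/-- The Livingstone–Wagner Theorem: a `k`-homogeneous permutation group of degree `n` with `10 ≤ 2k ≤ n` is `k`-transitive. -/
theorem result {α : Type*} [Fintype α] [DecidableEq α] (G : Subgroup (Equiv.Perm α)) {k : ℕ} (hk : 5 ≤ k) (hkn : 2 * k ≤ Fintype.card α) (hh : MulAction.IsPretransitive G (Set.powersetCard α k)) : MulAction.IsMultiplyPretransitive G α k := by
  obtain ⟨m, rfl⟩ : ∃ m, k = m + 5 := ⟨k - 5, by omega⟩
  have H : Homog G α (m + 5) := homog_iff.1 hh
  have ht : IsMultiplyPretransitive G α (m + 4) := Cfsg.Agent.S0746.result G (by omega) hkn hh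
  obtain ⟨Δ, hΔ, hA⟩ := Cfsg.Agent.S0747.main m _ G rfl (by omega) ht
  by_contra hnt
  have hodd : ∀ (Δ' : Finset α), Δ'.card = m + 5 → ∀ σ ∈ Ind G Δ', Equiv.Perm.sign σ ≠ -1 := by
    intro Δ' h1 σ hσ hs
    obtain ⟨g, hg⟩ := H Δ Δ' hΔ h1
    exact hnt (H.multi_of_Ind h1 (Ind_eq_top_of_odd (alt_le_Ind_smul hg hA) hσ hs))
  obtain ⟨R, -, hR⟩ := Finset.exists_subset_card_eq (s := (Finset.univ : Finset α)) (n := m)
    (by rw [Finset.card_univ]; omega)
  have hc := card_ofFixing (G := G) R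
  have : FaithfulSMul (fixingSubgroup G (R : Set α)) (SubMulAction.ofFixingSubgroup G (R : Set α)) :=
    ⟨fun {g g'} h => Subtype.ext (Subtype.ext (Equiv.ext fun x => by
      by_cases hx : x ∈ R
      · exact (g.2 ⟨x, hx⟩).trans (g'.2 ⟨x, hx⟩).symm
      · exact congrArg Subtype.val (h ⟨x, hx⟩)))⟩
  have hcard : ∀ {a b c d x : SubMulAction.ofFixingSubgroup G (R : Set α)}, D4 a b c d →
      x ≠ a ∧ x ≠ b ∧ x ≠ c ∧ x ≠ d →
      (R ∪ ({x, a, b, c, d} : Finset _).map (Function.Embedding.subtype _)).card = m + 5 :=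
    fun h1 hx => by
      rw [card_union_map, hR, Finset.card_insert_of_notMem (by simp [hx]), h1.card_eq]
  have hmem : ∀ {s : Finset (SubMulAction.ofFixingSubgroup G (R : Set α))} (y), y ∈ s →
      (y : α) ∈ R ∪ s.map (Function.Embedding.subtype _) := fun y hy =>
    Finset.mem_union_right _ (Finset.mem_map_of_mem _ hy)
  have h6 := card_le_six
    (SubMulAction.ofFixingSubgroup.isMultiplyPretransitive G (n := m + 4) (R : Set α) (by simp [hR]))
    (fun g a b c d x h1 hx hm e => hodd _ (hcard h1 hx)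
      (Equiv.swap ⟨a, hmem a (by simp)⟩ ⟨b, hmem b (by simp)⟩)
      (swap_mem_Ind (g := (g : G)) (congrArg Subtype.val hm.1) (congrArg Subtype.val hm.2)
        fun z hz a1 a2 => by
          simp only [Finset.mem_union, Finset.mem_map, Finset.mem_insert, Finset.mem_singleton] at hz
          rcases hz with hz | ⟨z, rfl | rfl | rfl | rfl | rfl, rfl⟩
          · exact g.2 ⟨z, hz⟩
          · exact congrArg Subtype.val e
          · exact absurd rfl a1
          · exact absurd rfl a2
          · exact congrArg Subtype.val hm.3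
          · exact congrArg Subtype.val hm.4)
      (Equiv.Perm.sign_swap fun e => h1.ab (Subtype.ext (Subtype.mk.inj e))))
    (fun g a b c d x h1 hx hm e => hodd _ (hcard h1 hx)
      (Equiv.swap ⟨a, hmem a (by simp)⟩ ⟨b, hmem b (by simp)⟩ *
        Equiv.swap ⟨b, hmem b (by simp)⟩ ⟨c, hmem c (by simp)⟩ *
        Equiv.swap ⟨c, hmem c (by simp)⟩ ⟨d, hmem d (by simp)⟩) ⟨g, ?_⟩ ?_)
  · rw [Nat.card_eq_fintype_card (α := α)] at hc
    omega
  · have n : ∀ {y z : SubMulAction.ofFixingSubgroup G (R : Set α)}, y ≠ z → (y : α) ≠ z :=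
      fun h e => h (Subtype.ext e)
    rintro ⟨z, hz⟩
    have hz' := hz
    simp only [Finset.mem_union, Finset.mem_map, Finset.mem_insert, Finset.mem_singleton] at hz'
    rcases hz' with hz' | ⟨z, rfl | rfl | rfl | rfl | rfl, rfl⟩
    · have n' : ∀ y : SubMulAction.ofFixingSubgroup G (R : Set α), z ≠ y := by
        rintro y rfl; exact y.2 hz'
      refine (g.2 ⟨z, hz'⟩).trans ?_
      simp [Equiv.swap_apply_def, n']
    · refine (congrArg Subtype.val e).trans ?_
      simp [Equiv.swap_apply_def, hx]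
    · refine (congrArg Subtype.val hm.1).trans ?_
      simp [Equiv.swap_apply_def, h1.ab, h1.ac, h1.ad]
    · refine (congrArg Subtype.val hm.2).trans ?_
      simp [Equiv.swap_apply_def, h1.bc, h1.bd, h1.ac.symm, h1.bc.symm]
    · refine (congrArg Subtype.val hm.3).trans ?_
      simp [Equiv.swap_apply_def, h1.cd.symm, h1.bd.symm, h1.ad.symm]
    · refine (congrArg Subtype.val hm.4).trans ?_
      simp [Equiv.swap_apply_def, h1.cd.symm, h1.bc.symm, h1.ab.symm]
  · exact sign3 (fun e => h1.ab (Subtype.ext (Subtype.mk.inj e)))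
      (fun e => h1.bc (Subtype.ext (Subtype.mk.inj e))) fun e => h1.cd (Subtype.ext (Subtype.mk.inj e))

end Cfsg.Agent.S0748
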