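import Cfsg.Statements.S4207
import Mathlib
import Cfsg.Agent.Base
import Cfsg.Agent.Lib.Core.Frattini
import Cfsg.Agent.Lib.PGroup.Frattini

set_option autoImplicit false
open Cfsg

namespace Cfsg.Agent.S4207


theorem card_dvd_of_free {A X : Type*} [Group A] [MulAction A X]
    (h : ∀ b : X, MulAction.stabilizer A b = ⊥) : Nat.card A ∣ Nat.card X := by
  rw [Nat.card_congr (MulAction.selfEquivOrbitsQuotientProd h), Nat.card_prod]
  exact Dvd.intro_left _ rfl

/-- tuples congruent to a fixed tuple modulo `N` -/
def Tup {P : Type*} [Group P] (N : Subgroup P) (T : Finset P) : Type _ :=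
  {f : T → P // ∀ t : T, f t * (t : P)⁻¹ ∈ N}

def tupEquiv {P : Type*} [Group P] (N : Subgroup P) (T : Finset P) : Tup N T ≃ (T → N) where
  toFun f := fun t => ⟨f.1 t * (t : P)⁻¹, f.2 t⟩
  invFun g := ⟨fun t => g t * t, fun t => by simp⟩
  left_inv f := by
    apply Subtype.ext
    funext t
    simp
  right_inv g := by
    funext t
    simp

@[reducible] def tupAction {P : Type*} [Group P] (N : Subgroup P) (T : Finset P)
    (A : Subgroup (MulAut P)) (hA : ∀ α ∈ A, ∀ x : P, α x * x⁻¹ ∈ N) :
    MulAction A (Tup N T) where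
  smul α f := ⟨fun t => (α : MulAut P) (f.1 t), fun t => by
    have h1 := hA α α.2 (f.1 t)
    have h2 := f.2 t
    have := N.mul_mem h1 h2
    simpa [mul_assoc] using this⟩
  one_smul f := rfl
  mul_smul a b f := rfl

/-- Let `P` be a group of order `p^n` whose Frattini subgroup has index `p^r`. Then any group of automorphisms of `P` each of which induces the identity on the Frattini quotient has order dividing `p^(r(n-r))`; in particular it is a `p`-group. -/
theorem result {P : Type*} [Group P] [Finite P] {p n r : ℕ} [Fact p.Prime] (hP : Nat.card P = p ^ n) (hr : (frattini P).index = p ^ r) (A : Subgroup (MulAut P)) (hA : ∀ α ∈ A, ∀ x : P, α x * x⁻¹ ∈ frattini P) : Nat.card A ∣ p ^ (r * (n - r)) := by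
  classical
  have hG : IsPGroup p P := IsPGroup.of_card hP
  have := Fintype.ofFinite P
  obtain ⟨T, -, hT, hcl⟩ := H1.exists_subset_card_eq_closure_eq_top hG hr Finset.univ (by simp)
  letI := tupAction (frattini P) T A hA
  have hfree : ∀ b : Tup (frattini P) T, MulAction.stabilizer A b = ⊥ := by
    intro b
    rw [eq_bot_iff]
    intro α hα
    rw [MulAction.mem_stabilizer_iff] at hα
    have h1 : ∀ t : T, (α : MulAut P) (b.1 t) = b.1 t := fun t =>
      congrFun (congrArg Subtype.val hα) t
    have h2 : Subgroup.closure (Set.range b.1) = ⊤ := by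
      apply H1.eq_top_of_sup_eq_top_of_le_frattini le_rfl
      rw [eq_top_iff, ← hcl, Subgroup.closure_le]
      intro t ht
      have h3 := b.2 ⟨t, ht⟩
      have h4 : b.1 ⟨t, ht⟩ ∈ Subgroup.closure (Set.range b.1) :=
        Subgroup.subset_closure ⟨_, rfl⟩
      have : t = (b.1 ⟨t, ht⟩ * t⁻¹)⁻¹ * b.1 ⟨t, ht⟩ := by group
      rw [SetLike.mem_coe, this]
      exact Subgroup.mul_mem _ (Subgroup.inv_mem _ (Subgroup.mem_sup_right h3))
        (Subgroup.mem_sup_left h4)
    rw [Subgroup.mem_bot]
    apply Subtype.ext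
    ext x
    have : x ∈ H5.fixedSub (α : MulAut P) := by
      have hle : Subgroup.closure (Set.range b.1) ≤ H5.fixedSub (α : MulAut P) := by
        rw [Subgroup.closure_le]
        rintro _ ⟨t, rfl⟩
        exact H5.mem_fixedSub.2 (h1 t)
      exact hle (h2 ▸ Subgroup.mem_top x)
    simpa using H5.mem_fixedSub.1 this
  have hd := card_dvd_of_free hfree
  rw [Nat.card_congr (tupEquiv _ _), Nat.card_fun] at hd
  have hc : Nat.card (frattini P) = p ^ (n - r) := by
    have h := (frattini P).card_mul_index
    rw [hr, hP] at h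
    have hp := (Fact.out : p.Prime).pos
    have hrn : r ≤ n := by
      have : p ^ r ∣ p ^ n := Dvd.intro_left _ h
      exact (Nat.pow_dvd_pow_iff_le_right (Fact.out : p.Prime).one_lt).1 this
    have : p ^ n = p ^ (n - r) * p ^ r := by rw [← pow_add]; congr 1; omega
    rw [this] at h
    exact Nat.eq_of_mul_eq_mul_right (pow_pos hp r) h
  rw [hc, ← pow_mul] at hd
  simpa [hT, mul_comm] using hd

end Cfsg.Agent.S4207
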