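import Cfsg.Statements.S4208
import Mathlib
import Cfsg.Agent.Base
import Cfsg.Agent.S4207
import Cfsg.Agent.Lib.FF.EAGL
import Cfsg.Agent.Lib.Core.CoprimeNorm

set_option autoImplicit false
open Cfsg

namespace Cfsg.Agent.S4208


/-- Let `P` be a group of order `p^n` whose Frattini subgroup has index `p^r`. Then the order of the automorphism group of `P` divides `p^(r(n-r)) · (p^r - 1)(p^r - p) ⋯ (p^r - p^(r-1))`. -/
theorem result {P : Type*} [Group P] [Finite P] {p n r : ℕ} [Fact p.Prime] (hP : Nat.card P = p ^ n) (hr : (frattini P).index = p ^ r) : Nat.card (MulAut P) ∣ p ^ (r * (n - r)) * ∏ i ∈ Finset.range r, (p ^ r - p ^ i) := by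
  have hG : IsPGroup p P := IsPGroup.of_card hP
  let ψ := H2.quotAut (MonoidHom.id (MulAut P)) (frattini P) (fun a x hx => by
    have := (Subgroup.characteristic_iff_map_le.1 (inferInstance : (frattini P).Characteristic)) a
    exact this ⟨x, hx, rfl⟩)
  have h1 : Nat.card ψ.ker ∣ p ^ (r * (n - r)) := by
    apply Cfsg.Agent.S4207.result hP hr
    intro α hα x
    rw [MonoidHom.mem_ker] at hα
    have := DFunLike.congr_fun hα (x : P ⧸ frattini P)
    rw [H2.quotAut_mk] at this
    simp only [MonoidHom.id_apply, MulAut.one_apply] at this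
    rw [← div_eq_mul_inv]
    exact QuotientGroup.eq_iff_div_mem.1 this
  have hq : IsPGroup p (P ⧸ frattini P) := hG.to_quotient _
  have hb := (H1.frattini_eq_bot_iff_of_isPGroup hq).1 H1.frattini_quotient_frattini
  obtain ⟨e⟩ := H23.nonempty_mulAut_equiv_GL (n := r) hb.1 hb.2 hr
  have h2 : ψ.ker.index ∣ ∏ i ∈ Finset.range r, (p ^ r - p ^ i) := by
    rw [Subgroup.index_ker]
    refine (Subgroup.card_subgroup_dvd_card _).trans ?_
    rw [Nat.card_congr e.toEquiv, Matrix.card_GL_field, ZMod.card, Finset.prod_range]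
  rw [← ψ.ker.card_mul_index]
  exact Nat.mul_dvd_mul h1 h2

end Cfsg.Agent.S4208
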