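import Mathlib
import Cfsg.Statements.S0060
import Cfsg.Agent.Lib.Core.Fitting
import Cfsg.Agent.Lib.Core.HallSZ

set_option autoImplicit false
open Pointwise
open Cfsg

namespace Cfsg.Agent.S0060

/-- Brodkey's Theorem: in a finite group with abelian Sylow p-subgroups and no nontrivial normal p-subgroup, some conjugate of a Sylow p-subgroup meets it trivially. -/
theorem result {G : Type*} [Group G] [Finite G] (p : ℕ) [Fact p.Prime]
    (S : Sylow p G) (hS : IsMulCommutative S) (hOp : Cfsg.pCore p G = ⊥) :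
    ∃ g : G, (S : Subgroup G) ⊓ MulAut.conj g • (S : Subgroup G) = ⊥ := by
  obtain ⟨T, hT⟩ := exists_minimalFor_of_wellFoundedLT (fun _ : Sylow p G => True)
    (fun T : Sylow p G => Nat.card ((S : Subgroup G) ⊓ T : Subgroup G)) ⟨S, trivial⟩
  set D : Subgroup G := (S : Subgroup G) ⊓ T with hD
  have hcomm : ∀ P : Sylow p G, ∀ x ∈ (P : Subgroup G), ∀ y ∈ (P : Subgroup G), x * y = y * x := by
    intro P x hx y hy
    have e := Sylow.equiv S P
    have := hS.is_comm.comm (e.symm ⟨x, hx⟩) (e.symm ⟨y, hy⟩)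
    rw [← map_mul, ← map_mul] at this
    exact congrArg Subtype.val (e.symm.injective this)
  have hn : ∀ P : Sylow p G, D ≤ P → (P : Subgroup G) ≤ Subgroup.normalizer (D : Set G) := by
    intro P hP
    refine Subgroup.le_normalizer_iff.mpr fun x hx y hy => ?_
    rw [hcomm P x hx y (hP hy), mul_inv_cancel_right]
    exact hy
  have key : ∀ P : Sylow p G, D ≤ P := by
    intro P
    set N := Subgroup.normalizer (D : Set G) with hN
    obtain ⟨x, hx, hxP⟩ := H3.exists_conj_le_of_isPGroup_of_not_dvd_relIndex (p := p) (T := N)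
      (K := (T : Subgroup G)) (P := (P : Subgroup G) ⊓ N) P.isPGroup'.to_inf_left inf_le_right
      (fun h => T.not_dvd_index
        (h.trans (Subgroup.relIndex_dvd_index_of_le (hn T inf_le_right))))
    have h1 : (S : Subgroup G) ⊓ (x • P : Sylow p G) ≤ D := by
      refine le_inf inf_le_left (le_trans ?_ hxP)
      rw [Subgroup.smul_inf, Subgroup.conj_smul_eq_self_of_mem hx]
      exact le_inf inf_le_right (inf_le_left.trans (hn S inf_le_left))
    have h2 : (S : Subgroup G) ⊓ (x • P : Sylow p G) = D :=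
      Subgroup.eq_of_le_of_card_ge h1 (hT.2 trivial (Subgroup.card_le_of_le h1))
    have h3 : D ≤ MulAut.conj x • (P : Subgroup G) := h2 ▸ inf_le_right
    rw [← H1.mem_normalizer_iff_conj_smul_eq.mp hx] at h3
    exact Subgroup.pointwise_smul_le_pointwise_smul_iff.mp h3
  obtain ⟨g, rfl⟩ := MulAction.exists_smul_eq G S T
  refine ⟨g, le_bot_iff.mp ?_⟩
  rw [← hOp, H1.pCore_eq_iInf_sylow]
  exact le_iInf key

end Cfsg.Agent.S0060
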