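import Cfsg.Statements.S0089
import Mathlib
import Cfsg.Agent.Lib.Transfer.Control

set_option autoImplicit false
open Cfsg

namespace Cfsg.Agent.S0089

/-- When all Sylow subgroups are abelian, the derived subgroup meets the centre trivially. -/
theorem result {G : Type*} [Group G] [Finite G] (h : ∀ p : ℕ, p.Prime → ∀ P : Sylow p G, IsMulCommutative P) : commutator G ⊓ Subgroup.center G = ⊥ := by
  rw [eq_bot_iff]
  refine H4.le_of_forall_prime_pow fun q hq _ x hx ⟨k, hk⟩ => ?_
  have := Fact.mk hq
  have h1 : IsPGroup q (Subgroup.zpowers x) := by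
    apply IsPGroup.of_card_dvd_pow (n := k)
    rw [Nat.card_zpowers]
    exact orderOf_dvd_of_pow_eq_one hk
  obtain ⟨P, hP⟩ := h1.exists_le_sylow
  rw [← H4.inf_commutator_inf_center_eq_bot (H := (P : Subgroup G)) (h q hq P)
    P.card_coprime_index]
  exact ⟨⟨hP (Subgroup.mem_zpowers x), hx.1⟩, hx.2⟩

end Cfsg.Agent.S0089
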