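import Mathlib
import Cfsg.Statements.S0268
-- import your own Cfsg.Agent.* helpers here

set_option autoImplicit false
open Cfsg

namespace Cfsg.Agent.S0268

/-- For q odd, -1 is the unique involution of SL_2(q). -/
theorem result {F : Type*} [Field F] [Fintype F] (hF : Odd (Fintype.card F)) (g : Matrix.SpecialLinearGroup (Fin 2) F) (h1 : g ≠ 1) (h2 : g * g = 1) : (g : Matrix (Fin 2) (Fin 2) F) = -1 := by
  have h2' : (2 : F) ≠ 0 := by
    intro h
    have : CharP F 2 := CharTwo.of_one_ne_zero_of_two_eq_zero one_ne_zero h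
    obtain ⟨n, -, hn⟩ := FiniteField.card F 2
    rw [hn] at hF
    exact (Nat.not_even_iff_odd.2 hF) (Nat.even_pow.2 ⟨even_two, n.ne_zero⟩)
  have hinv : g⁻¹ = g := inv_eq_of_mul_eq_one_right h2
  have hdet := g.det_coe
  rw [Matrix.det_fin_two] at hdet
  rw [Matrix.SpecialLinearGroup.SL2_inv_expl] at hinv
  have h00 := congrArg (fun A : Matrix.SpecialLinearGroup (Fin 2) F => A.1 0 0) hinv
  have h01 := congrArg (fun A : Matrix.SpecialLinearGroup (Fin 2) F => A.1 0 1) hinv
  have h10 := congrArg (fun A : Matrix.SpecialLinearGroup (Fin 2) F => A.1 1 0) hinv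
  simp only [Matrix.cons_val', Matrix.cons_val_zero, Matrix.cons_val_one,
    Matrix.cons_val_fin_one] at h00 h01 h10
  have hb : g.1 0 1 = 0 := by
    apply mul_left_cancel₀ h2'
    linear_combination -h01
  have hc : g.1 1 0 = 0 := by
    apply mul_left_cancel₀ h2'
    linear_combination -h10
  rw [hb, h00] at hdet
  have ha : g.1 0 0 = 1 ∨ g.1 0 0 = -1 := by
    apply mul_self_eq_one_iff.1
    linear_combination hdet
  rcases ha with ha | ha
  · exfalso
    apply h1
    ext i j
    fin_cases i <;> fin_cases j <;> simp [ha, hb, hc, h00]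
  · ext i j
    fin_cases i <;> fin_cases j <;> simp [ha, hb, hc, h00]

end Cfsg.Agent.S0268
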