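import Cfsg.Statements.S0413
import Mathlib
import Cfsg.Agent.Base
import Cfsg.Agent.Lib.Design.Aut

set_option autoImplicit false
open Cfsg

namespace Cfsg.Agent.S0413

/-- Aut of an S(4, 7, 23) is simple of order 10200960 and 4-transitive. -/
theorem result {α : Type*} [Fintype α] [DecidableEq α] (hα : Fintype.card α = 23) {B : Set (Finset α)} (hB : Cfsg.IsSteinerSystem 4 7 B) : Cfsg.IsM23 (Cfsg.setSystemAut B) ∧ MulAction.IsMultiplyPretransitive (Cfsg.setSystemAut B) α 4 := by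
  obtain ⟨g, hg, -, φ, hφ⟩ := H17.aut23 hα hB
  have := H15.isSimple_M23
  refine ⟨⟨φ.symm.isSimpleGroup, by rw [← Nat.card_congr φ.toEquiv, H15.card_M23]⟩, ?_⟩
  refine H17.multi_of_equiv φ hφ 4 fun x y hx hy => ?_
  have key : ∀ x : Fin 4 → α, Function.Injective x →
      Function.Injective (Fin.cons none (fun i => g (x i)) : Fin 5 → GolayPt) := fun x hx =>
    Fin.cons_injective_iff.2 ⟨fun ⟨i, hi⟩ => (hg _).2 ⟨_, rfl⟩ hi, g.injective.comp hx⟩
  obtain ⟨k, hk, h⟩ := H15.M24_trans5 _ _ (key x hx) (key y hy)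
  exact ⟨k, ⟨hk, h 0⟩, fun i => h i.succ⟩

end Cfsg.Agent.S0413
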