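import Cfsg.Statements.S0414
import Mathlib
import Cfsg.Agent.Base
import Cfsg.Agent.Lib.Design.Aut

set_option autoImplicit false
open Cfsg

namespace Cfsg.Agent.S0414

/-- Aut of an S(3, 6, 22) has order 887040, is 3-transitive, and contains a simple subgroup of index 2. -/
theorem result {α : Type*} [Fintype α] [DecidableEq α] (hα : Fintype.card α = 22) {B : Set (Finset α)} (hB : Cfsg.IsSteinerSystem 3 6 B) : Nat.card (Cfsg.setSystemAut B) = 887040 ∧ MulAction.IsMultiplyPretransitive (Cfsg.setSystemAut B) α 3 ∧ ∃ H : Subgroup (Cfsg.setSystemAut B), H.index = 2 ∧ Cfsg.IsM22 H := by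
  obtain ⟨g, hg, -, φ, hφ⟩ := H17.aut22 hα hB
  have hne : (none : GolayPt) ≠ H15.pt 22 := by decide
  have hc : Nat.card (Cfsg.setSystemAut B) = 887040 := by
    rw [← Nat.card_congr φ.toEquiv, H17.card_M22d]
  refine ⟨hc, ?_, ?_⟩
  · refine H17.multi_of_equiv φ hφ 3 fun x y hx hy => ?_
    have key : ∀ x : Fin 3 → α, Function.Injective x → Function.Injective
        (Fin.cons none (Fin.cons (H15.pt 22) (fun i => g (x i)) : Fin 4 → GolayPt) :
          Fin 5 → GolayPt) := fun x hx => by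
      refine Fin.cons_injective_iff.2 ⟨?_, Fin.cons_injective_iff.2
        ⟨fun ⟨i, hi⟩ => ((hg _).2 ⟨_, rfl⟩).2 hi, g.injective.comp hx⟩⟩
      rintro ⟨i, hi⟩
      refine Fin.cases (fun h => hne h.symm) (fun i h => ((hg _).2 ⟨_, rfl⟩).1 h) i hi
    obtain ⟨k, hk, h⟩ := H15.M24_trans5 _ _ (key x hx) (key y hy)
    exact ⟨k, H17.stab2_le_M22d ⟨⟨hk, h 0⟩, h 1⟩, fun i => h i.succ.succ⟩
  · let K := (M24 ⊓ H15.St (none : GolayPt) ⊓ H15.St (H15.pt 22)).subgroupOf H17.M22d
    let e := (φ.subgroupMap K).symm.trans (Subgroup.subgroupOfEquivOfLe H17.stab2_le_M22d)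
    have := H15.isSimple_stab2 hne
    have hK : Nat.card (K.map (φ : H17.M22d →* setSystemAut B)) = 443520 := by
      rw [Nat.card_congr e.toEquiv, H15.card_stab2 hne]
    refine ⟨K.map (φ : H17.M22d →* setSystemAut B), ?_, e.isSimpleGroup, hK⟩
    have := (K.map (φ : H17.M22d →* setSystemAut B)).card_mul_index
    rw [hK, hc] at this
    omega

end Cfsg.Agent.S0414
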