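import Cfsg.Statements.S0437
import Mathlib
import Cfsg.Agent.Lib.ThreeTrans.Small

set_option autoImplicit false
open Cfsg

namespace Cfsg.Agent.S0437

/-- For three distinct, pairwise commuting members a, b, c of a set of 3-transpositions E, a member e of E centralises a * b * c if and only if it centralises each of a, b and c. -/
theorem result {G : Type*} [Group G] {E : Set G} (hE : Cfsg.IsThreeTranspositionSet E) {a b c e : G} (ha : a ∈ E) (hb : b ∈ E) (hc : c ∈ E) (he : e ∈ E) (hab : a ≠ b) (hac : a ≠ c) (hbc : b ≠ c) (h₁ : Commute a b) (h₂ : Commute a c) (h₃ : Commute b c) : Commute e (a * b * c) ↔ (Commute e a ∧ Commute e b ∧ Commute e c) := by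
  refine ⟨fun h => ?_, fun h => (h.1.mul_right h.2.1).mul_right h.2.2⟩
  have sa := H94.TS.mul_self hE ha
  have sb := H94.TS.mul_self hE hb
  have sc := H94.TS.mul_self hE hc
  by_cases k3 : Commute e c
  · have := h.mul_right k3
    rw [H94.mul_mul_self_cancel sc, H94.TS.commute_mul_iff hE ha hb he hab h₁] at this
    exact ⟨this.1, this.2, k3⟩
  by_cases k1 : Commute e a
  · have := k1.mul_right h
    rw [mul_assoc a b c, H94.mul_self_cancel sa, H94.TS.commute_mul_iff hE hb hc he hbc h₃] at this
    exact absurd this.2 k3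
  by_cases k2 : Commute e b
  · have := k2.mul_right h
    rw [h₁.eq, mul_assoc b a c, H94.mul_self_cancel sb,
      H94.TS.commute_mul_iff hE ha hc he hac h₂] at this
    exact absurd this.2 k3
  exfalso
  have hcube := H94.TS.cube hE he hc k3
  have e1 : e * c = (e * a * b) * (a * b * c) := by
    rw [mul_assoc e a b, mul_assoc e, ← mul_assoc (a * b) (a * b) c,
      ← pow_two, (H94.commute_iff_sq sa sb).1 h₁, one_mul]
  have hct : Commute (e * a * b) (a * b * c) :=
    (h.mul_left (((Commute.refl a).mul_right h₁).mul_right h₂)).mul_left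
      ((h₁.symm.mul_right (Commute.refl b)).mul_right h₃)
  have ht2 : (a * b * c) ^ 2 = 1 := by
    rw [(h₂.mul_left h₃).mul_pow, h₁.mul_pow, pow_two, pow_two, pow_two, sa, sb, sc, one_mul, one_mul]
  have h6 : (e * a * b) ^ 6 = 1 := by
    have : (e * c) ^ 6 = 1 := by rw [show 6 = 3 * 2 from rfl, pow_mul, hcube, one_pow]
    rwa [e1, hct.mul_pow, show 6 = 2 * 3 from rfl, pow_mul (a * b * c), ht2, one_pow, mul_one] at this
  obtain ⟨φ, hφ, rfl, rfl, rfl⟩ := H94.TS.exists_perm4 hE ha he hb hab h₁ (fun h' => k1 h'.symm) k2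
  rw [← map_mul, ← map_mul, ← map_pow, ← map_one φ, hφ.eq_iff] at h6
  revert h6; decide

end Cfsg.Agent.S0437
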