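import Mathlib
import Cfsg.Agent.Lib.AltCov.Mult
import Cfsg.Statements.S0447

set_option autoImplicit false
open Cfsg

namespace Cfsg.Agent.S0447

open Subgroup H40.Alt Equiv H72.AC
open scoped commutatorElement

theorem cyc {α : Type*} [DecidableEq α] [Fintype α] (h : Fintype.card α ≤ 7)
    {a : alternatingGroup α} (ha : orderOf a = 2) : a.1.cycleType = {2, 2} := by
  have h1 : orderOf a.1 = 2 := by rw [orderOf_coe, ha]
  obtain ⟨n, hn⟩ := Perm.cycleType_prime_order (σ := a.1) (h1 ▸ Nat.prime_two)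
  rw [h1] at hn
  have h2 := a.1.sum_cycleType_le
  have h3 := a.1.sign_of_cycleType
  rw [Perm.mem_alternatingGroup.1 a.2] at h3
  rw [hn] at h2 h3 ⊢
  simp only [Multiset.sum_replicate, Multiset.card_replicate, smul_eq_mul] at h2 h3
  have : n ≤ 2 := by omega
  interval_cases n
  · exact absurd h3 (by decide)
  · rfl
  · exact absurd h3 (by decide)

theorem central {ι : Type} [DecidableEq ι] [Fintype ι] (hι : Fintype.card ι ≤ 5) {H : Type*}
    [Group H] (π : H →* AA ι) (hs : Function.Surjective π) (hk : π.ker = center H)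
    (h2 : ∀ c ∈ center H, c ^ 2 = 1) (hL : ∀ L : Subgroup H, ¬ (center H).IsComplement' L) {x : H}
    (hx : orderOf x = 2) : x ∈ center H := by
  by_contra hc
  have hx2 : x ^ 2 = 1 := hx ▸ pow_orderOf_eq_one x
  have hcard : Fintype.card (ι ⊕ Bool) ≤ 7 := by simpa using hι
  have h1 := cyc hcard (orderOf_eq_prime (x := π x) (by rw [← map_pow, hx2, map_one])
    fun e => hc (hk ▸ e))
  choose a ha using fun i => hs (xa i)
  have h3 : ∀ i, (a i ^ 4) ^ 3 = 1 := fun i => by
    have : a i ^ 3 ∈ π.ker := by rw [MonoidHom.mem_ker, map_pow, ha, xa_pow_three]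
    rw [← pow_mul, show 4 * 3 = 3 * 2 * 2 from rfl, pow_mul, pow_mul, h2 (a i ^ 3) (hk ▸ this), one_pow]
  have h4 : ∀ i, π (a i ^ 4) = xa i := fun i => by rw [map_pow, ha, pow_succ, xa_pow_three, one_mul]
  obtain ⟨φ, hφ⟩ := carm_hom (fun i => a i ^ 4) h3 fun i j hij => by
    have h5 := cyc hcard (orderOf_eq_prime (xa_mul_sq hij) fun e => by
      have := congrArg (fun s : AA ι => s.1 (.inl j)) e
      simp [xa, xp_inl_self, xp_false] at this)
    obtain ⟨r, hr⟩ := isConj_iff.1 (Perm.isConj_iff_cycleType_eq.2 (h1.trans h5.symm))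
    obtain ⟨s, hs'⟩ : ∃ s : AA ι, s * π x * s⁻¹ = xa i * xa j := by
      rcases Int.units_eq_one_or (Perm.sign r) with h | h
      · exact ⟨⟨r, h⟩, Subtype.ext hr⟩
      · refine ⟨⟨swap (.inl j) (.inr true) * r, by
          rw [Perm.mem_alternatingGroup, map_mul, h, Perm.sign_swap (by simp)]; rfl⟩,
          Subtype.ext ?_⟩
        change swap _ _ * r * (π x).1 * (swap _ _ * r)⁻¹ = xp i * xp j
        change _ = xp i * xp j at hr
        rw [mul_inv_rev, mul_assoc, mul_assoc, ← mul_assoc _ r⁻¹, ← mul_assoc r, ← mul_assoc r, hr]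
        ext k
        rcases k with k | (_ | _)
        · by_cases e1 : k = i
          · subst e1; simp [xp, swap_apply_def, hij]
          · by_cases e2 : k = j
            · subst e2; simp [xp, swap_apply_def, e1]
            · simp [xp, swap_apply_def, e1, e2]
        · simp [xp, swap_apply_def, hij]
        · simp [xp, swap_apply_def, hij.symm]
    obtain ⟨g, rfl⟩ := hs s
    have h6 : (g * x * g⁻¹)⁻¹ * (a i ^ 4 * a j ^ 4) ∈ center H := hk ▸ (by
      rw [MonoidHom.mem_ker, map_mul, map_inv, map_mul, map_mul, map_inv, hs', map_mul, h4, h4,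
        inv_mul_cancel])
    have h7 : Commute (g * x * g⁻¹) _ := mem_center_iff.1 h6 _
    rw [← mul_inv_cancel_left (g * x * g⁻¹) (a i ^ 4 * a j ^ 4), h7.mul_pow, h2 _ h6, conj_pow, hx2]
    group
  have hid : ∀ s, π (φ s) = s := fun s => by
    have : π.comp φ = MonoidHom.id _ := MonoidHom.eq_of_eqOn_dense closure_xa (by
      rintro _ ⟨i, rfl⟩
      rw [MonoidHom.comp_apply, hφ, h4]; rfl)
    exact DFunLike.congr_fun this s
  refine hL φ.range (isComplement'_of_disjoint_and_mul_eq_univ ?_ ?_)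
  · rw [disjoint_def]
    rintro _ hc ⟨s, rfl⟩
    rw [← hk, MonoidHom.mem_ker, hid] at hc
    rw [hc, map_one]
  · refine Set.eq_univ_of_forall fun g => ⟨g * (φ (π g))⁻¹, ?_, φ (π g), ⟨_, rfl⟩, by simp⟩
    rw [SetLike.mem_coe, ← hk, MonoidHom.mem_ker, map_mul, map_inv, hid, mul_inv_cancel]

theorem perms : ∃ a b g : alternatingGroup (Fin 8), ⁅a, b⁆ ^ 2 = 1 ∧ a * (g * ⁅a, b⁆ * g⁻¹) = g * ⁅a, b⁆ * g⁻¹ * a ∧
    b * (g * ⁅a, b⁆ * g⁻¹) = g * ⁅a, b⁆ * g⁻¹ * b ∧ g * ⁅a, b⁆ * g⁻¹ * ⁅a, b⁆ ≠ 1 :=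
  ⟨⟨swap 4 5 * swap 5 6, Perm.mem_alternatingGroup.2 (by decide)⟩, ⟨swap 4 5 * swap 6 7, Perm.mem_alternatingGroup.2 (by decide)⟩,
    ⟨swap 0 4 * swap 1 5 * swap 2 6 * swap 3 7, Perm.mem_alternatingGroup.2 (by decide)⟩, by decide, by decide, by decide, by decide⟩

/-- Involutions in double covers of alternating groups: for n ≤ 7, a finite non-split double cover of the alternating group of degree n has exactly one element of order 2 (the central one); for degree 8 there is a non-split double cover with two distinct involutions. -/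
theorem result : (∀ (n : ℕ) (H : Type) (_ : Group H) (_ : Finite H), n ≤ 7 → Cfsg.IsNonsplitDoubleCover H (alternatingGroup (Fin n)) → ∀ x y : H, orderOf x = 2 → orderOf y = 2 → x = y) ∧ ∃ (H : Type) (_ : Group H) (_ : Finite H), Cfsg.IsNonsplitDoubleCover H (alternatingGroup (Fin 8)) ∧ ∃ x y : H, x ≠ y ∧ orderOf x = 2 ∧ orderOf y = 2 := by
  refine ⟨fun n H i1 i2 hn ⟨h1, ⟨e⟩, h3⟩ x y hx hy => ?_, ?_⟩
  · have key : ∀ x : H, orderOf x = 2 → x ∈ center H := by
      intro x hx
      by_cases h : n ≤ 1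
      · haveI : Subsingleton (Fin n) := Fin.subsingleton_iff_le_one.2 h
        haveI : Subsingleton (H ⧸ center H) := e.toEquiv.subsingleton
        exact (QuotientGroup.eq_one_iff x).1 (Subsingleton.elim _ _)
      obtain ⟨m, rfl⟩ : ∃ m, n = m + 2 := ⟨n - 2, by omega⟩
      refine central (ι := Fin m) (by rw [Fintype.card_fin]; omega)
        (((e.trans (aaEquiv m).symm).toMonoidHom).comp (QuotientGroup.mk' _))
        ((e.trans (aaEquiv m).symm).surjective.comp (QuotientGroup.mk'_surjective _)) ?_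
        (fun c hc => ?_) h3 hx
      · ext g
        rw [MonoidHom.mem_ker, MonoidHom.comp_apply, MulEquiv.coe_toMonoidHom,
          MulEquiv.map_eq_one_iff]
        exact QuotientGroup.eq_one_iff g
      · exact congrArg Subtype.val (h1 ▸ pow_card_eq_one' (x := (⟨c, hc⟩ : center H)))
    obtain ⟨z, -, hz⟩ := (Nat.card_eq_two_iff' (1 : center H)).1 h1
    have k : ∀ x : H, orderOf x = 2 → x = z := fun x hx =>
      congrArg Subtype.val (hz ⟨x, key x hx⟩ fun e => by
        rw [show x = 1 from congrArg Subtype.val e, orderOf_one] at hx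
        exact absurd hx (by decide))
    rw [k x hx, k y hy]
  · obtain ⟨Γ, i1, i2, z, h1, h2, h3, i3, ⟨e⟩⟩ := exists_cover (Fin 6)
    let π := ((e.trans (aaEquiv 6)).toMonoidHom).comp (QuotientGroup.mk' (zpowers z))
    have hs : Function.Surjective π :=
      (e.trans (aaEquiv 6)).surjective.comp (QuotientGroup.mk'_surjective _)
    have hk : π.ker = zpowers z := by
      ext g
      rw [MonoidHom.mem_ker, MonoidHom.comp_apply, MulEquiv.coe_toMonoidHom,
        MulEquiv.map_eq_one_iff]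
      exact QuotientGroup.eq_one_iff g
    have hc : center Γ = π.ker := by
      refine le_antisymm (fun c hc => ?_) (hk ▸ zpowers_le.2 h1)
      have : π c ∈ center (alternatingGroup (Fin (6 + 2))) := mem_center_iff.2 fun s => by
        obtain ⟨g, rfl⟩ := hs s
        rw [← map_mul, ← map_mul, mem_center_iff.1 hc g]
      rwa [alternatingGroup.center_eq_bot (by simp)] at this
    have hz : Nat.card (center Γ) = 2 := by rw [hc, hk, Nat.card_zpowers, h2]
    refine ⟨Γ, i1, i2, ⟨hz, ⟨(QuotientGroup.quotientMulEquivOfEq hc).trans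
      (QuotientGroup.quotientKerEquivOfSurjective π hs)⟩, fun L hL => ?_⟩, ?_⟩
    · have h4 : commutator Γ ≤ L := by
        rw [_root_.commutator_def, commutator_le]
        intro a _ b _
        obtain ⟨⟨c, a'⟩, rfl⟩ := hL.surjective a
        obtain ⟨⟨d, b'⟩, rfl⟩ := hL.surjective b
        have e1 := mem_center_iff.1 c.2
        have e2 := mem_center_iff.1 d.2
        have : ⁅(c : Γ) * a', (d : Γ) * b'⁆ = ⁅(a' : Γ), (b' : Γ)⁆ := by
          calc _ = (c : Γ) * (a' * (d * b') * (a' : Γ)⁻¹) * (c : Γ)⁻¹ * ((d : Γ) * b')⁻¹ := by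
                rw [commutatorElement_def]; group
            _ = a' * (d * (b' * (a' : Γ)⁻¹ * (b' : Γ)⁻¹)) * (d : Γ)⁻¹ := by rw [← e1]; group
            _ = _ := by rw [← e2, commutatorElement_def]; group
        change ⁅(c : Γ) * a', (d : Γ) * b'⁆ ∈ L
        rw [this, commutatorElement_def]
        exact mul_mem (mul_mem (mul_mem a'.2 b'.2) (inv_mem a'.2)) (inv_mem b'.2)
      rw [disjoint_def.1 hL.disjoint h1 (h4 h3), orderOf_one] at h2
      exact absurd h2 (by decide)
    · obtain ⟨a, b, g, p1, p2, p3, p4⟩ := perms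
      obtain ⟨a, rfl⟩ := hs a
      obtain ⟨b, rfl⟩ := hs b
      obtain ⟨g, rfl⟩ := hs g
      rw [← map_commutatorElement] at p1 p2 p3 p4
      rw [← map_inv, ← map_mul, ← map_mul] at p2 p3 p4
      have h4 : ⁅a, b⁆ ^ 2 ∈ center Γ := hc ▸ (by rw [MonoidHom.mem_ker, map_pow, p1])
      have h5 : Commute ⁅a, b⁆ (g * ⁅a, b⁆ * g⁻¹) := mem_centralizer_singleton_iff.1
        (commutator_le_cent (K := (centralizer {π (g * ⁅a, b⁆ * g⁻¹)}).comap π) (fun k hk => hc ▸ (by
          rw [MonoidHom.mem_ker, map_commutatorElement, commutatorElement_eq_one_iff_mul_comm]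
          exact mem_centralizer_singleton_iff.1 hk))
        (commutator_mem_commutator (mem_centralizer_singleton_iff.2 p2)
          (mem_centralizer_singleton_iff.2 p3)))
      refine ⟨g * ⁅a, b⁆ * g⁻¹ * ⁅a, b⁆, z, fun e => p4 ?_, orderOf_eq_prime ?_ fun e => p4 ?_, h2⟩
      · rw [← map_mul, e, ← MonoidHom.mem_ker, hk]; exact mem_zpowers z
      · rw [h5.symm.mul_pow, conj_pow, mem_center_iff.1 h4 g, mul_inv_cancel_right, ← pow_two]
        exact congrArg Subtype.val (hz ▸ pow_card_eq_one' (x := (⟨_, h4⟩ : center Γ)))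
      · rw [← map_mul, e, map_one]

end Cfsg.Agent.S0447
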