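import Cfsg.Statements.S0454
import Cfsg.Agent.Lib.LyC.Inv
import Cfsg.Agent.Lib.Mdl.More

set_option autoImplicit false
open Cfsg

namespace Cfsg.Agent.S0454

/-- Existence of the Lyons group: there is a transitive permutation group of degree 8835156, simple of order 51765179004000000, whose point stabiliser is simple of the order of a group of type G2, and which has an involution whose centraliser is a non-split double cover of the alternating group of degree 11. -/
theorem result : ∃ H : Subgroup (Equiv.Perm (Fin 8835156)), Cfsg.IsLy H ∧ MulAction.IsPretransitive H (Fin 8835156) ∧ Cfsg.IsG2 (MulAction.stabilizer H (0 : Fin 8835156)) ∧ ∃ t : H, orderOf t = 2 ∧ Cfsg.IsNonsplitDoubleCover (Subgroup.centralizer ({t} : Set H)) (alternatingGroup (Fin 11)) := by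
  have := H54.Ly.simple
  have := H54.Ly.simple_range
  obtain ⟨P, e, h1, ⟨f⟩⟩ := H15.Mdl.exists_perm_realization H54.Ly.θ.range H54.Ly.index (by norm_num)
  have h2 := H60.LyC.cm.map_hom e.toMonoidHom (e.map_ne_one_iff.2 H60.LyC.cm.ne)
  refine ⟨P, ⟨e.symm.isSimpleGroup, (Nat.card_congr e.toEquiv).symm.trans H54.Ly.card⟩, h1,
    ⟨f.symm.isSimpleGroup, 5, Nat.prime_five.isPrimePow, by norm_num,
      (Nat.card_congr f.toEquiv).symm.trans H54.Ly.card_range⟩, _,
    orderOf_eq_prime ((pow_two _).trans h2.sq) h2.ne, h2.nonsplit (by norm_num) ?_⟩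
  rw [Set.range_comp, ← MonoidHom.map_closure, H60.LyC.cent_eq]
  ext g
  obtain ⟨g, rfl⟩ := e.surjective g
  refine (Subgroup.mem_map_iff_mem e.injective).trans ?_
  simp only [Subgroup.mem_centralizer_singleton_iff]
  exact ⟨fun h => by simpa using congrArg e h, fun h => e.injective (by simpa using h)⟩

end Cfsg.Agent.S0454
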