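import Cfsg.Statements.S0473
import Cfsg.Agent.Lib.CosetEnum.Fi24
import Cfsg.Agent.Lib.CosetEnum.He24

set_option autoImplicit false
open Cfsg

namespace Cfsg.Agent.S0473

/-- The largest Fischer 3-transposition group: a group of order 2 · 1255205709190661721292800 generated by a conjugacy class of 306936 3-transpositions, in which a transposition centraliser has order 2 · 4089470473293004800 and contains a simple subgroup of order 4089470473293004800; its subgroup of index 2 is simple and contains simple subgroups of orders 4089470473293004800 and 4030387200. -/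
theorem result : ∃ (G : Type) (_ : Group G) (_ : Finite G), Nat.card G = 2 * 1255205709190661721292800 ∧ ∃ D : Set G, Cfsg.IsThreeTranspositionClass D ∧ Nat.card D = 306936 ∧ (∀ d ∈ D, Nat.card (Subgroup.centralizer ({d} : Set G)) = 2 * 4089470473293004800 ∧ ∃ K : Subgroup G, K ≤ Subgroup.centralizer ({d} : Set G) ∧ Cfsg.IsFi23 K) ∧ ∃ H : Subgroup G, H.index = 2 ∧ Cfsg.IsFi24' H ∧ (∃ K : Subgroup H, Cfsg.IsFi23 K) ∧ (∃ K : Subgroup H, Cfsg.IsHe K) := by
  obtain ⟨K, hK, ⟨e⟩⟩ := H18.He24.exists_he H18.Fi24.model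
  have := H54.He.simple
  have e' := (Subgroup.subgroupOfEquivOfLe hK).trans e
  exact ⟨Spor.Fi24, inferInstance, H18.Fi24.model.finite, H18.Fi24.card_eq, conjugatesOf (H18.Fi24.s 0),
    H18.Fi24.cls, H18.Fi24.model.ncard, fun _ hd => H18.Fi24.centralizer_cls hd, commutator _,
    H18.Fi24.index_commutator, H18.Fi24.isFi24', H18.Fi24.exists_fi23,
    K.subgroupOf _, e'.isSimpleGroup, (Nat.card_congr e'.toEquiv).trans H54.He.card⟩

end Cfsg.Agent.S0473
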