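import Mathlib
import Cfsg.Statements.S0618
import Cfsg.Agent.Lib.FF.Faithful
-- import your own Cfsg.Agent.* helpers here

set_option autoImplicit false
open Cfsg

namespace Cfsg.Agent.S0618

/-- A p-separable group with trivial p'-core in which the Thompson factorization fails has p = 2 or 3, and J(G) induces on the normal closure of Ω₁(Z(S)) a group containing a normal SL(2, p). -/
theorem result {G : Type*} [Group G] [Finite G] {p : ℕ} [Fact p.Prime] (hsep : Cfsg.IsPSolvable p G) (hO : Cfsg.pPrimeCore p G = ⊥) (hnf : ¬ Cfsg.IsThompsonFactorizable p G) : (p = 2 ∨ p = 3) ∧ ∃ E : Subgroup G, Subgroup.centralizer ((⨆ S : Sylow p G, Cfsg.omegaOne p ((S : Subgroup G) ⊓ Subgroup.centralizer ((S : Subgroup G) : Set G))) : Set G) ≤ E ∧ E ≤ Cfsg.thompsonSubgroup p G ⊔ Subgroup.centralizer ((⨆ S : Sylow p G, Cfsg.omegaOne p ((S : Subgroup G) ⊓ Subgroup.centralizer ((S : Subgroup G) : Set G))) : Set G) ∧ Cfsg.thompsonSubgroup p G ⊔ Subgroup.centralizer ((⨆ S : Sylow p G, Cfsg.omegaOne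 p ((S : Subgroup G) ⊓ Subgroup.centralizer ((S : Subgroup G) : Set G))) : Set G) ≤ Subgroup.normalizer (E : Set G) ∧ ∃ hn : ((Subgroup.centralizer ((⨆ S : Sylow p G, Cfsg.omegaOne p ((S : Subgroup G) ⊓ Subgroup.centralizer ((S : Subgroup G) : Set G))) : Set G)).subgroupOf E).Normal, Nonempty ((↥E ⧸ (Subgroup.centralizer ((⨆ S : Sylow p G, Cfsg.omegaOne p ((S : Subgroup G) ⊓ Subgroup.centralizer ((S : Subgroup G) : Set G))) : Set G)).subgroupOf E) ≃* Matrix.SpecialLinearGroup (Fin 2) (ZMod p)) := by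
  have hcc : Subgroup.centralizer ((⨆ S : Sylow p G, Cfsg.omegaOne p ((S : Subgroup G) ⊓
      Subgroup.centralizer ((S : Subgroup G) : Set G))) : Set G) =
      Subgroup.centralizer (H24.omegaZClosure G p : Set G) := by
    rw [H24.omegaZClosure_def, Subgroup.iSup_eq_closure, Subgroup.centralizer_closure]
    rfl
  rw [hcc]
  have hc := H23.centralizer_pCore_le_of_isPSolvable hsep hO
  have hV := H24.omegaZClosure_isElementaryAbelian hc
  rw [H24.isThompsonFactorizable_iff hO, ← H24.thompsonSubgroupOf_top, H24.thompsonSubgroupOf_le_iff] at hnf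
  push Not at hnf
  obtain ⟨A, hA, hAV⟩ := hnf
  obtain ⟨h23, E, hCE, hEA, hn, f, hf, hk⟩ := H23.exists_SL_two_of_offender hsep hV
    H24.pCore_quotient_centralizer_omegaZClosure (H24.isBestOffenderOn_of_mem_maxEA hA le_top hV) hAV
  haveI := H24.thompsonSubgroup_characteristic (p := p) (G := G)
  refine ⟨h23, E, hCE, hEA.trans (sup_le_sup_right ?_ _), sup_le ?_ (hCE.trans Subgroup.le_normalizer),
    inferInstance, ⟨(QuotientGroup.quotientMulEquivOfEq hk.symm).trans
      (QuotientGroup.quotientKerEquivOfSurjective f hf)⟩⟩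
  · apply Subgroup.normalClosure_le_normal
    rw [← H24.thompsonSubgroupOf_top]
    exact H24.le_thompsonSubgroupOf hA
  · rw [← H24.thompsonSubgroupOf_top, H24.thompsonSubgroupOf_le_iff]
    exact fun B hB => hn B (H24.isBestOffenderOn_of_mem_maxEA hB le_top hV)

end Cfsg.Agent.S0618
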