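import Mathlib
import Cfsg.Agent.Base
import Cfsg.Agent.Lib.FFOp.Model
import Cfsg.Statements.S0621

set_option autoImplicit false
open Cfsg

namespace Cfsg.Agent.S0621

open Subgroup H23 H79.FFO
open scoped commutatorElement

/-- Let K be p-separable with O_p'(K) = 1, normalized by an elementary abelian q-group X for a prime q not dividing the order of K. If the Thompson factorization fails in K, then p is 2 or 3 and the fixed points of X contain a plane W of order p² and a subgroup inducing SL(2, p) on it. -/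
theorem result {G : Type*} [Group G] [Finite G] {p : ℕ} [Fact p.Prime] {q : ℕ} [Fact q.Prime] (K X : Subgroup G) (hXK : X ≤ Subgroup.normalizer (K : Set G)) (hX : Cfsg.IsElementaryAbelian q X) (hq : ¬ q ∣ Nat.card K) (hsep : Cfsg.IsPSolvable p ↥K) (hO : Cfsg.pPrimeCore p ↥K = ⊥) (hnf : ¬ Cfsg.IsThompsonFactorizable p ↥K) : (p = 2 ∨ p = 3) ∧ ∃ W D : Subgroup G, W ≤ K ⊓ Subgroup.centralizer (X : Set G) ∧ D ≤ K ⊓ Subgroup.centralizer (X : Set G) ∧ Cfsg.IsElementaryAbelian p W ∧ Nat.card W = p ^ 2 ∧ D ≤ Subgroup.normalizer (W : Set G) ∧ ∃ hn : ((Subgroup.centralizer (W : Set G)).subgroupOf D).Normal, Nonempty ((↥D ⧸ (Subgroup.centralizer (W : Set G)).subgroupOf D) ≃* Matrix.SpecialLinearGroup (Fin 2) (ZMod p)) := by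
  haveI := omegaZClosure_characteristic (G := K) (p := p)
  set V := H24.omegaZClosure K p with hVd
  have hV := H24.omegaZClosure_isElementaryAbelian (H23.centralizer_pCore_le_of_isPSolvable hsep hO)
  obtain ⟨Γ, _, _, g, i, X', m⟩ := exists_model hXK hX hq hsep V hV
    H24.pCore_quotient_centralizer_omegaZClosure
  have h := m.ff
  set Y := (pPrimeCore p g.range).map g.range.subtype with hY
  rw [H24.isThompsonFactorizable_iff hO, ← H24.thompsonSubgroupOf_top, H24.thompsonSubgroupOf_le_iff] at hnf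
  push Not at hnf
  obtain ⟨A, hA, hAV⟩ := hnf
  obtain ⟨T, hT⟩ : ∃ T, FFSetup.IsTv p i.range g.range T := by
    by_contra hne
    push Not at hne
    apply hAV
    rw [← m.ker, ← Subgroup.map_eq_bot_iff, eq_bot_iff]
    exact h.offender_le (map_le_range g A)
      (model_offender m.inj m.ker m.conj (H24.isBestOffenderOn_of_mem_maxEA hA le_top hV))
      fun B hB _ => absurd hB (hne B)
  have hdiag := exists_diag h Fact.out (Model.not_dvd g hq) m.pow m.normV m.normH m.normY hT
  obtain ⟨eSL⟩ := h.E_equiv hT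
  have hcW := h.card_comm_E hT
  have hEW := h.E_inf_centralizer hT
  set E := ⁅Y, T⁆ ⊔ T with hE
  set W := ⁅i.range, E⁆ with hW
  obtain ⟨δ, hinj, h1, -, h3, h4⟩ := hdiag
  have hEH : E ≤ g.range := h.E_le hT.1
  have hWV : W ≤ i.range := h.comm_le hEH
  have hnW : E ≤ normalizer (W : Set Γ) := normalizer_commutator_ge_right _ E
  let δE : E →* Γ := δ.comp (inclusion le_sup_left)
  let δW : W →* Γ := δ.comp (inclusion le_sup_right)
  have hδE : Function.Injective δE := hinj.comp (inclusion_injective _)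
  have hδW : Function.Injective δW := hinj.comp (inclusion_injective _)
  have hWr : δW.range ≤ i.range := by
    rintro _ ⟨w, rfl⟩
    exact h4 _ (hWV w.2)
  set W0 : Subgroup G := ((δW.range.comap i).map V.subtype).map K.subtype with hW0
  set D0 : Subgroup G := (δE.range.comap g).map K.subtype ⊓ centralizer (X : Set G) with hD0
  have hDK : D0 ≤ K := inf_le_left.trans (map_subtype_le _)
  have memW : ∀ y, y ∈ W0 ↔ ∃ v : V, i v ∈ δW.range ∧ ((v : K) : G) = y := by
    intro y
    constructor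
    · rintro ⟨_, ⟨v, hv, rfl⟩, rfl⟩
      exact ⟨v, hv, rfl⟩
    · rintro ⟨v, hv, rfl⟩
      exact ⟨_, ⟨v, hv, rfl⟩, rfl⟩
  have memD : ∀ d (hd : d ∈ D0), g ⟨d, hDK hd⟩ ∈ δE.range := by
    rintro _ ⟨⟨x, hx, rfl⟩, -⟩
    exact hx
  let f0 : D0 →* Γ := g.comp (inclusion hDK)
  have hrange : f0.range = δE.range := by
    refine le_antisymm ?_ ?_
    · rintro _ ⟨d, rfl⟩
      exact memD d d.2
    · rintro _ ⟨e, rfl⟩
      obtain ⟨x, hx, hxe⟩ := m.liftH ⟨h3 (inclusion le_sup_left e) (hEH e.2), h1 _⟩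
      exact ⟨⟨x, ⟨x, ⟨e, hxe.symm⟩, rfl⟩, hx⟩, hxe⟩
  have hker : f0.ker = (centralizer (W0 : Set G)).subgroupOf D0 := by
    ext d
    rw [MonoidHom.mem_ker, mem_subgroupOf, mem_centralizer_iff]
    constructor
    · intro hd y hy
      obtain ⟨v, -, rfl⟩ := (memW y).1 hy
      have : inclusion hDK d ∈ centralizer (V : Set K) := m.ker ▸ hd
      exact congrArg Subtype.val (this v v.2)
    · intro hd
      obtain ⟨e, he⟩ := memD d d.2
      have : (e : Γ) ∈ E ⊓ centralizer (W : Set Γ) := by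
        refine ⟨e.2, fun w hw => ?_⟩
        obtain ⟨v, hv⟩ := hWr ⟨⟨w, hw⟩, rfl⟩
        have h5 := hd _ ((memW _).2 ⟨v, ⟨_, hv.symm⟩, rfl⟩)
        have h6 := m.conj ⟨d, hDK d.2⟩ v
        have h7 : (⟨(⟨d, hDK d.2⟩ : K) * v * (⟨d, hDK d.2⟩ : K)⁻¹,
            Normal.conj_mem inferInstance _ v.2 _⟩ : V) = v := by
          refine Subtype.ext (Subtype.ext ?_)
          change (d : G) * v * (d : G)⁻¹ = v
          rw [← h5, mul_inv_cancel_right]
        rw [h7, ← he, hv, mul_inv_eq_iff_eq_mul] at h6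
        have h8 : δ (inclusion le_sup_left e * inclusion le_sup_right ⟨w, hw⟩) =
            δ (inclusion le_sup_right ⟨w, hw⟩ * inclusion le_sup_left e) := by
          rw [map_mul, map_mul]; exact h6
        exact (congrArg Subtype.val (hinj h8)).symm
      rw [hEW, mem_bot] at this
      change g ⟨d, hDK d.2⟩ = 1
      rw [← he, show e = 1 from Subtype.ext this, map_one]
  haveI hn : ((centralizer (W0 : Set G)).subgroupOf D0).Normal := hker ▸ inferInstance
  refine ⟨h.two_or_three hT, W0, D0, le_inf (map_subtype_le _) fun y hy => ?_,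
    le_inf hDK inf_le_right, ?_, ?_, fun d hd => ?_, hn, ⟨?_⟩⟩
  · obtain ⟨v, ⟨w, hw⟩, rfl⟩ := (memW y).1 hy
    exact m.liftV v (hw ▸ h1 _)
  · exact H24.EA.map (H24.EA.mono hV (map_subtype_le _)) _
  · rw [hW0, H24.card_map_subtype, H24.card_map_subtype, ← H24.card_map_of_inj m.inj,
      map_comap_eq_self hWr, ← Nat.card_congr (MonoidHom.ofInjective hδW).toEquiv, hcW]
  · refine H24.mem_normalizer_of_conj_mem fun y hy => ?_
    obtain ⟨v, ⟨w, hw⟩, rfl⟩ := (memW y).1 hy
    obtain ⟨e, he⟩ := memD d hd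
    refine (memW _).2 ⟨⟨(⟨d, hDK hd⟩ : K) * v * (⟨d, hDK hd⟩ : K)⁻¹,
      Normal.conj_mem inferInstance _ v.2 _⟩, ?_, rfl⟩
    rw [← m.conj, ← he, ← hw]
    refine ⟨⟨e * w * (e : Γ)⁻¹, H24.conj_mem_of_mem_normalizer (hnW e.2) w.2⟩, ?_⟩
    change δ _ = δ _ * δ _ * (δ _)⁻¹
    rw [← map_inv, ← map_mul, ← map_mul]
    rfl
  · exact ((QuotientGroup.quotientMulEquivOfEq hker.symm).trans
      (QuotientGroup.quotientKerEquivRange f0)).trans
      ((MulEquiv.subgroupCongr hrange).trans ((MonoidHom.ofInjective hδE).symm.trans eSL))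

end Cfsg.Agent.S0621
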