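import Mathlib
import Cfsg.Statements.S0698
import Cfsg.Agent.Lib.Perm.RegularNormal

set_option autoImplicit false
open Cfsg

namespace Cfsg.Agent.S0698

open MulAction

/-- Jordan's Theorem on normal subgroups of multiply transitive groups: if `G` is `k`-transitive (`k > 1`) of degree greater than `k`, a non-trivial normal subgroup is `(k-1)`-transitive, except possibly for `k = 3` when it may be an elementary abelian 2-group. -/
theorem result {α : Type*} [Fintype α] [DecidableEq α] (G : Subgroup (Equiv.Perm α)) {k : ℕ} (hk : 1 < k) (hdeg : k < Fintype.card α) (hG : MulAction.IsMultiplyPretransitive G α k) (N : Subgroup G) [N.Normal] (hN : N ≠ ⊥) : MulAction.IsMultiplyPretransitive N α (k - 1) ∨ (k = 3 ∧ IsMulCommutative N ∧ ∀ n ∈ N, n ^ 2 = 1) := by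
  rw [← Nat.card_eq_fintype_card] at hdeg
  obtain ⟨k, rfl⟩ : ∃ j, k = j + 1 := ⟨k - 1, by omega⟩
  rw [Nat.add_sub_cancel]
  have hP : IsMultiplyPreprimitive G α k := isMultiplyPreprimitive_of_isMultiplyPretransitive_succ
    G α (by rw [ENat.card_eq_coe_natCard]; exact_mod_cast hdeg.le)
  have hk' : (k : ℕ∞) ≤ ENat.card α := by
    rw [ENat.card_eq_coe_natCard]; exact_mod_cast (by omega : k ≤ Nat.card α)
  have : IsPreprimitive G α :=
    (is_one_preprimitive_iff _ _).mp (isMultiplyPreprimitive_of_le G α hP (by omega) hk')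
  have hNt := H26.normal_isPretransitive (α := α) N hN
  by_cases hreg : ∀ a : α, stabilizer N a = ⊥
  · rcases Nat.lt_or_ge k 3 with h3 | h3
    · interval_cases k
      · omega
      · exact Or.inl (is_one_pretransitive_iff.mpr hNt)
      · rcases H26.regular_of_two_preprimitive (by omega) hP N hNt hreg with h | h
        · omega
        · exact Or.inr ⟨rfl, h.1, h.2.1⟩
    · have := H26.regular_of_three_preprimitive (by omega)
        (isMultiplyPreprimitive_of_le G α hP h3 hk') N hNt hreg
      omega
  left
  simp only [not_forall] at hreg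
  obtain ⟨a, ha⟩ := hreg
  rcases Nat.lt_or_ge k 3 with h3 | h3
  · interval_cases k
    · omega
    · exact is_one_pretransitive_iff.mpr hNt
    · exact H26.two_trans_of_normal hP N ha
  by_cases hfull : IsMultiplyPretransitive G α (Nat.card α)
  · have htop : G = ⊤ := Equiv.Perm.eq_top_of_isMultiplyPretransitive
      (isMultiplyPretransitive_of_le (n := Nat.card α) (Nat.sub_le _ _) le_rfl)
    subst htop
    have : (N.map (⊤ : Subgroup (Equiv.Perm α)).subtype).Normal :=
      Subgroup.Normal.map inferInstance _ (fun x => ⟨⟨x, trivial⟩, rfl⟩)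
    have hA := Equiv.Perm.alternatingGroup_le_of_normal (α := α) (by omega)
      (N := N.map (⊤ : Subgroup (Equiv.Perm α)).subtype) ((Subgroup.nontrivial_iff_ne_bot _).mpr
        (by rwa [Ne, Subgroup.map_eq_bot_iff_of_injective _ (Subgroup.subtype_injective _)]))
    have := alternatingGroup.isMultiplyPretransitive α
    have h2 : IsMultiplyPretransitive (alternatingGroup α) α k :=
      isMultiplyPretransitive_of_le (n := Nat.card α - 2) (by omega) (Nat.sub_le _ _)
    rw [H26.multi_iff_fun] at h2 ⊢
    intro x y hx hy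
    obtain ⟨g, hg⟩ := h2 x y hx hy
    obtain ⟨n, hn, hng⟩ := hA g.2
    exact ⟨⟨n, hn⟩, fun i => by rw [← hg i]; exact DFunLike.congr_fun hng (x i)⟩
  · exact H26.multi_of_normal_of_preprimitive k (by omega) hP hfull N a ha

end Cfsg.Agent.S0698
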