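import Mathlib
import Cfsg.Statements.S0699
import Cfsg.Agent.Lib.Perm.Generous
import Cfsg.Agent.Lib.Perm.RegularNormal
import Cfsg.Agent.Lib.Perm.PrimeDegree3
import Cfsg.Agent.S0698

set_option autoImplicit false
open Cfsg

namespace Cfsg.Agent.S0699

open MulAction H26

/-- Wagner's Theorem: a non-trivial normal subgroup of a triply transitive permutation group of odd degree at least 5 is triply transitive. -/
theorem result {α : Type*} [Fintype α] [DecidableEq α] (G : Subgroup (Equiv.Perm α)) (hodd : Odd (Fintype.card α)) (h5 : 5 ≤ Fintype.card α) (hG : MulAction.IsMultiplyPretransitive G α 3) (N : Subgroup G) [N.Normal] (hN : N ≠ ⊥) : MulAction.IsMultiplyPretransitive N α 3 := by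
  have hG2 : IsMultiplyPretransitive G α 2 :=
    isMultiplyPretransitive_of_le (n := 3) (by norm_num) (by rw [Nat.card_eq_fintype_card]; omega)
  have : IsPreprimitive G α := isPreprimitive_of_is_two_pretransitive hG2
  have hNt := normal_isPretransitive (α := α) N hN
  have : Nontrivial α := Fintype.one_lt_card_iff_nontrivial.mp (by omega)
  obtain ⟨a₀, b₀, hab₀⟩ := exists_pair_ne α
  have h2 : IsMultiplyPretransitive N α 2 := by
    rcases Cfsg.Agent.S0698.result G (k := 3) (by norm_num) (by omega) hG N hN with h | ⟨-, hc, h⟩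
    · exact h
    exfalso
    have hpg : IsPGroup 2 N := fun k => ⟨1, Subtype.ext (by simpa using h k k.2)⟩
    have := hpg.card_eq_or_dvd
    rw [card_eq_of_regular (stabilizer_eq_bot_of_comm N hc a₀), Nat.card_eq_fintype_card] at this
    obtain ⟨m, hm⟩ := hodd
    omega
  have heven : Even (Nat.card N) := by
    have h1 := (pred_card_dvd_card_stabilizer h2 a₀).trans (Subgroup.card_subgroup_dvd_card _)
    rw [Nat.card_eq_fintype_card (α := α)] at h1
    exact (Nat.Odd.sub_odd hodd odd_one).trans_dvd h1
  obtain ⟨t, htN, ht⟩ := exists_involution_of_even_card heven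
  have ht2 : t * t = 1 := by rw [← pow_two, ← ht, pow_orderOf_eq_one]
  obtain ⟨c, hc⟩ := (IsPGroup.of_card (p := 2) (n := 1) (G := Subgroup.zpowers t)
    (by rw [Nat.card_zpowers, ht, pow_one])).nonempty_fixed_point_of_prime_not_dvd_card α
    (by rw [Nat.card_eq_fintype_card]; exact hodd.not_two_dvd_nat)
  have htc : t • c = c := hc ⟨t, Subgroup.mem_zpowers t⟩
  obtain ⟨a, ha⟩ : ∃ a : α, t • a ≠ a := by
    by_contra hcon
    simp only [ne_eq, not_exists, not_not] at hcon
    rw [show t = 1 from eq_of_smul_eq_smul (α := α) fun x => by rw [hcon, one_smul],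
      orderOf_one] at ht
    exact absurd ht (by decide)
  have hgen : Generous N α 2 := by
    apply generous_of_swap
    intro s hs x hx y hy hxy
    obtain ⟨z, hz⟩ : ((s.erase x).erase y).Nonempty := by
      rw [← Finset.card_pos, Finset.card_erase_of_mem (by simp [hy, hxy.symm]),
        Finset.card_erase_of_mem hx, hs]
      norm_num
    simp only [Finset.mem_erase] at hz
    have hs' : s = {x, y, z} := by
      symm
      apply Finset.eq_of_subset_of_card_le
      · intro w hw
        simp only [Finset.mem_insert, Finset.mem_singleton] at hw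
        rcases hw with rfl | rfl | rfl
        exacts [hx, hy, hz.2.2]
      · rw [hs, Finset.card_eq_three.mpr ⟨x, y, z, hxy, hz.2.1.symm, hz.1.symm, rfl⟩]
    obtain ⟨g, hg1, hg2, hg3⟩ := trans3 hG (a := a) (b := t • a) (c := c) ha.symm
      (by rintro rfl; exact ha htc)
      (fun h => ha (by rw [MulAction.injective t (h.trans htc.symm)]; exact htc)) hxy
      hz.2.1.symm hz.1.symm
    refine ⟨⟨g * t * g⁻¹, Subgroup.Normal.conj_mem inferInstance t htN g⟩, fun w hw => ?_⟩
    show (g * t * g⁻¹) • w = _
    rw [hs'] at hw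
    simp only [Finset.mem_insert, Finset.mem_singleton] at hw
    rcases hw with rfl | rfl | rfl
    · rw [Equiv.swap_apply_left, mul_smul, mul_smul, inv_smul_eq_iff.mpr hg1.symm, hg2]
    · rw [Equiv.swap_apply_right, mul_smul, mul_smul, inv_smul_eq_iff.mpr hg2.symm, ← mul_smul t,
        ht2, one_smul, hg1]
    · rw [Equiv.swap_apply_of_ne_of_ne hz.2.1 hz.1, mul_smul, mul_smul,
        inv_smul_eq_iff.mpr hg3.symm, htc, hg3]
  refine trans3_of_trans2 h2 hab₀ fun x y hxa hxb hya hyb => ?_
  by_contra hno
  have hcard : ({a₀, b₀} : Finset α).card = 2 := Finset.card_pair hab₀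
  have hnc : (({a₀, b₀} : Finset α) : Set α).ncard = 2 := by rw [Set.ncard_coe_finset, hcard]
  have := is_one_pretransitive_iff.mp (SubMulAction.ofFixingSubgroup.isMultiplyPretransitive
    (m := 1) (n := 3) G (({a₀, b₀} : Finset α) : Set α) (by rw [hnc]))
  have hout : ∀ i, ![x, y] i ∉ ({a₀, b₀} : Finset α) := by
    intro i
    fin_cases i <;> simp [hxa, hxb, hya, hyb]
  have hno' : y ∉ orbit (fixingSubgroup N (({a₀, b₀} : Finset α) : Set α)) x := by
    rintro ⟨g, hg⟩
    have := (mem_fixingSubgroup_iff N).mp g.2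
    exact hno ⟨g, this a₀ (by simp), this b₀ (by simp), hg⟩
  obtain ⟨i, hi⟩ := hgen.exists_dvd_card_orbit (by omega) Nat.prime_two le_rfl _ hcard ![x, y] hout
    (by
      intro i j hij
      fin_cases i <;> fin_cases j
      · exact absurd rfl hij
      · exact hno'
      · exact fun h => hno' (mem_orbit_symm.mp h)
      · exact absurd rfl hij)
  have := hi.trans (card_orbit_fixing_normal_dvd _ N (by exact_mod_cast hout i))
  rw [hnc, Nat.card_eq_fintype_card] at this
  obtain ⟨m, hm⟩ := hodd
  omega

end Cfsg.Agent.S0699
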