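import Mathlib
import Cfsg.Statements.S0723
import Cfsg.Agent.Lib.Perm.Scott
import Cfsg.Agent.Lib.Perm.Basic
import Cfsg.Agent.S0721
import Cfsg.Agent.S0722

set_option autoImplicit false
open Cfsg

namespace Cfsg.Agent.S0723


/-- The core of the O'Nan–Scott Theorem. Let `H` be a primitive permutation group on a finite set whose unique minimal normal subgroup `N` is non-abelian, and `K` a point stabiliser. Then there are a non-abelian simple group `T` and an isomorphism `N ≃* T^m` (`m ≥ 1`) under which `K ⊓ N` becomes either a product `∏ K_i` of proper subgroups `K_i < T`, or the set of functions constant on each block of a partition of the index set into blocks of one common size `k ≥ 2`. -/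
theorem result {α : Type*} [Finite α] (H : Subgroup (Equiv.Perm α)) [MulAction.IsPreprimitive H α] (N : Subgroup H) [N.Normal] (hN : N ≠ ⊥) (hmin : ∀ M : Subgroup H, M.Normal → M ≤ N → M = ⊥ ∨ M = N) (huniq : ∀ L : Subgroup H, L.Normal → L ≠ ⊥ → (∀ M : Subgroup H, M.Normal → M ≤ L → M = ⊥ ∨ M = L) → L = N) (hnab : ¬ IsMulCommutative N) (a : α) : ∃ (T : Type) (_ : Group T) (m : ℕ) (e : N ≃* (Fin m → T)), IsSimpleGroup T ∧ ¬ IsMulCommutative T ∧ 0 < m ∧ ((∃ K : Fin m → Subgroup T, (∀ i, K i ≠ ⊤) ∧ ∀ n : N, (n : H) ∈ MulAction.stabilizer H a ↔ ∀ i, e n i ∈ K i) ∨ (∃ (k : ℕ) (c : Fin m → Fin m), 2 ≤ k ∧ (∀ j : Fin m, Nat.card {i : Fin m // c i = j} = k ∨ Nat.card {i : Fin m // c i = j} = 0) ∧ ∀ n : N, (n : H) ∈ MulAction.stabilizer H a ↔ ∀ i j : Fin m, c i = c j → e n i = e n j)) := by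
  classical
  obtain ⟨T, _, m, hT, hm, ⟨e⟩⟩ := S0721.result N hN hmin
  have hTc : ¬ IsMulCommutative T := fun h => hnab ⟨⟨fun x y => e.injective (by
    rw [map_mul, map_mul]; ext i; exact h.is_comm.comm _ _)⟩⟩
  set K := MulAction.stabilizer H a with hK
  let φ : H → ((Fin m → T) ≃* (Fin m → T)) := fun k => e.symm.trans ((MulAut.conjNormal k).trans e)
  have hφ : ∀ k (n : N), φ k (e n) = e (MulAut.conjNormal k n) := fun k n => by simp [φ]
  have hφm : ∀ k k' x, φ (k * k') x = φ k (φ k' x) := fun k k' x => by simp [φ]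
  have hφi : ∀ k x, φ k (φ k⁻¹ x) = x := fun k x => by rw [← hφm]; simp [φ]
  let D : Subgroup (Fin m → T) := (K.subgroupOf N).map e.toMonoidHom
  have hD : ∀ n : N, e n ∈ D ↔ (n : H) ∈ K := fun n =>
    ⟨fun ⟨n', h1, h2⟩ => (e.injective h2 : n' = n) ▸ h1, fun h => ⟨n, h, rfl⟩⟩
  have hφD : ∀ k ∈ K, ∀ d ∈ D, φ k d ∈ D := fun k hk d hd => by
    obtain ⟨n, rfl⟩ := e.surjective d
    rw [hφ, hD, MulAut.conjNormal_apply]
    exact K.mul_mem (K.mul_mem hk ((hD n).1 hd)) (K.inv_mem hk)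
  haveI hNt := H26.normal_isPretransitive (α := α) N hN
  have hNK : ¬ N ≤ K := fun h => hN (by
    rw [eq_bot_iff]
    intro n hn
    refine eq_of_smul_eq_smul (α := α) fun x => ?_
    obtain ⟨g, rfl⟩ := MulAction.exists_smul_eq H a x
    have : g⁻¹ * n * g ∈ K := h (Subgroup.Normal.conj_mem' inferInstance n hn g)
    rw [hK, MulAction.mem_stabilizer_iff, mul_smul, mul_smul, inv_smul_eq_iff] at this
    rw [this, one_smul])
  obtain ⟨t0, ht0⟩ := exists_ne (1 : T)
  have htr : ∀ i j, ∃ k ∈ K, ∃ θ : T ≃* T, ∀ x, φ k x j = θ (x i) := by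
    intro i j
    by_contra hj
    let M0 : Subgroup N :=
      { carrier := {n | ∀ j, (∃ k ∈ K, ∃ θ : T ≃* T, ∀ x, φ k x j = θ (x i)) → e n j = 1}
        one_mem' := fun j _ => by simp
        mul_mem' := fun {a b} ha hb j h => by simp [ha j h, hb j h]
        inv_mem' := fun {a} ha j h => by simp [ha j h] }
    have hMn : (M0.map N.subtype).Normal := ⟨by
      rintro _ ⟨n, hn, rfl⟩ g
      obtain ⟨n', hn'⟩ := MulAction.exists_smul_eq N a (g • a)
      have hk : (n' : H)⁻¹ * g ∈ K := by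
        rw [hK, MulAction.mem_stabilizer_iff, mul_smul, ← hn']; exact inv_smul_smul _ _
      refine ⟨n' * MulAut.conjNormal ((n' : H)⁻¹ * g) n * n'⁻¹, fun j ⟨k, hk', θ, hθ⟩ => ?_, by
        simp [mul_assoc]⟩
      obtain ⟨j', θ', hθ'⟩ := H26.Scott.aut_coord hTc (φ ((n' : H)⁻¹ * g)) j
      have := hn j' ⟨_, K.mul_mem (K.inv_mem hk) hk', θ.trans θ'.symm, fun x => by
        show _ = θ'.symm (θ (x i))
        rw [MulEquiv.eq_symm_apply, ← hθ', ← hφm, mul_inv_cancel_left, hθ]⟩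
      rw [map_mul, map_mul, ← hφ]
      simp [hθ', this]⟩
    rcases hmin _ hMn (Subgroup.map_subtype_le _) with h | h
    · have h1 : e.symm (Pi.mulSingle j t0) ∈ M0 := fun j' hj' => by
        have : j' ≠ j := by rintro rfl; exact hj hj'
        simp [this]
      have h2 : ((e.symm (Pi.mulSingle j t0) : N) : H) ∈ M0.map N.subtype := ⟨_, h1, rfl⟩
      rw [h, Subgroup.mem_bot, OneMemClass.coe_eq_one, map_eq_one_iff _ e.symm.injective] at h2
      exact ht0 (by simpa using congrFun h2 j)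
    · have h2 : ((e.symm (Pi.mulSingle i t0) : N) : H) ∈ M0.map N.subtype := by
        rw [h]; exact Subtype.prop _
      obtain ⟨n, hn, h3⟩ := h2
      have h4 : n = e.symm (Pi.mulSingle i t0) := Subtype.ext h3
      have := hn i ⟨1, K.one_mem, MulEquiv.refl T, fun x => by simp [φ]⟩
      exact ht0 (by simpa [h4] using this)
  by_cases hD1 : ∀ i t, ∃ d ∈ D, d i = t
  · obtain ⟨c, θ, hc, hcD⟩ := H26.Scott.scott hTc D hD1
    have hle : ∀ i j, Nat.card {i' // c i' = c j} ≤ Nat.card {i' // c i' = c i} := by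
      intro i j
      obtain ⟨k, hk, θ0, hθ0⟩ := htr i j
      choose σ θ' hσ using H26.Scott.aut_coord hTc (φ k)
      refine Nat.card_le_card_of_injective (fun j' => ⟨σ j'.1, (hc _ _).2 fun d hd => ?_⟩) ?_
      · have := (hc _ _).1 j'.2 _ (hφD k hk d hd)
        simpa [hσ j'.1, hθ0] using this
      · rintro ⟨j1, h1⟩ ⟨j2, h2⟩ h
        have h' : σ j1 = σ j2 := congrArg Subtype.val h
        by_contra hne
        have hne' : j2 ≠ j1 := fun e => hne (Subtype.ext e.symm)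
        have e1 := hσ j1 (φ k⁻¹ (Pi.mulSingle j1 t0))
        have e2 := hσ j2 (φ k⁻¹ (Pi.mulSingle j1 t0))
        rw [hφi] at e1 e2
        rw [Pi.mulSingle_eq_of_ne hne', eq_comm, map_eq_one_iff _ (θ' j2).injective, ← h'] at e2
        rw [e2] at e1
        exact ht0 (by simpa using e1)
    let i0 : Fin m := ⟨0, hm⟩
    refine ⟨T, inferInstance, m, e.trans (MulEquiv.piCongrRight θ), hT, hTc, hm, Or.inr
      ⟨Nat.card {i' // c i' = c i0}, c, ?_, fun j => ?_, fun n => ?_⟩⟩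
    · by_contra hlt
      refine hNK fun n hn => (hD ⟨n, hn⟩).1 ((hcD _).2 fun i j hij => ?_)
      have h1 : Nat.card {i' // c i' = c j} ≤ 1 := by have := hle i0 j; omega
      have := (Finite.card_le_one_iff_subsingleton.1 h1).elim ⟨i, hij⟩ ⟨j, rfl⟩
      rw [show i = j from congrArg Subtype.val this]
    · by_cases hj : ∃ j', c j' = j
      · obtain ⟨j', rfl⟩ := hj
        exact Or.inl (le_antisymm (hle _ _) (hle _ _))
      · right
        rw [Nat.card_eq_zero]
        exact Or.inl ⟨fun ⟨i, hi⟩ => hj ⟨i, hi⟩⟩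
    · rw [← hD, hcD]; rfl
  · let R : Fin m → Subgroup T := fun i => D.map (Pi.evalMonoidHom (fun _ => T) i)
    have hR : ∀ i, R i ≠ ⊤ := fun i h => hD1 fun j t => by
      obtain ⟨k, hk, θ, hθ⟩ := htr i j
      obtain ⟨d, hd, e1⟩ := (show θ.symm t ∈ R i by rw [h]; trivial)
      exact ⟨_, hφD k hk d hd, by rw [hθ, show d i = _ from e1, MulEquiv.apply_symm_apply]⟩
    let X : Subgroup H := ((Subgroup.pi Set.univ R).comap e.toMonoidHom).map N.subtype
    have hX : ∀ n : N, (n : H) ∈ X ↔ ∀ i, e n i ∈ R i := fun n =>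
      ⟨fun ⟨n', h1, h2⟩ i => (Subtype.ext h2 : n' = n) ▸ h1 i trivial, fun h => ⟨n, fun i _ => h i, rfl⟩⟩
    have hXc : ∀ k ∈ K, ∀ x ∈ X, k * x * k⁻¹ ∈ X := by
      rintro k hk _ ⟨n, hn, rfl⟩
      refine (hX (MulAut.conjNormal k n)).2 fun j => ?_
      obtain ⟨i, θ, hθ⟩ := H26.Scott.aut_coord hTc (φ k) j
      obtain ⟨d, hd, e1⟩ := hn i trivial
      exact ⟨_, hφD k hk d hd, by
        rw [← hφ, hθ]; exact (hθ d).trans (congrArg θ e1)⟩
    refine ⟨T, inferInstance, m, e, hT, hTc, hm, Or.inl ⟨R, hR, fun n => ?_⟩⟩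
    rcases S0722.result H N hN hmin a X (Subgroup.map_subtype_le _)
      (fun x hx => (hX ⟨x, hx.2⟩).2 fun i => ⟨_, (hD ⟨x, hx.2⟩).2 hx.1, rfl⟩)
      (fun k hk => Subgroup.mem_normalizer_iff.2 fun x => ⟨hXc k hk x, fun h => by
        simpa [mul_assoc] using hXc _ (K.inv_mem hk) _ h⟩) with h | h
    · rw [← hX, h]; exact ⟨fun h => ⟨h, n.2⟩, fun h => h.1⟩
    · refine absurd (eq_top_iff.2 fun t _ => ?_) (hR ⟨0, hm⟩)
      simpa using (hX (e.symm fun _ => t)).1 (by rw [h]; exact Subtype.prop _) ⟨0, hm⟩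

end Cfsg.Agent.S0723
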