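import Cfsg.Statements.S0732
import Mathlib
import Cfsg.Agent.Lib.Perm27.Feit
import Cfsg.Agent.Lib.Perm27.Semiaffine
import Cfsg.Agent.Lib.Perm.RegularNormal
import Cfsg.Agent.Lib.GL.Basic

set_option autoImplicit false
open Cfsg

namespace Cfsg.Agent.S0732

open MulAction H27

theorem setup {G Ω : Type*} [Group G] [Finite G] [MulAction G Ω] [Finite Ω] [FaithfulSMul G Ω]
    [IsPretransitive G Ω] {p d : ℕ} (hp : p.Prime) (hΩ : Nat.card Ω = p + 1)
    (hG : Nat.card G = (p + 1) * p * d) (hd : d < p) (a : Ω) :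
    ∃ U : Subgroup G, ZData G Ω ∧ IsKernel U a ∧ Nat.card U = p ∧
      (∀ u ∈ U, ∀ v ∈ U, u * v = v * u) ∧ ∀ b, b ≠ a →
        ∀ h ∈ stabilizer G a ⊓ stabilizer G b, ∀ k ∈ stabilizer G a ⊓ stabilizer G b,
          h * k = k * h := by
  have := Fact.mk hp
  have hfa : ∀ g : G, (∀ x : Ω, g • x = x) → g = 1 := fun g hg =>
    eq_of_smul_eq_smul (α := Ω) (fun x => by rw [hg, one_smul])
  have hs : Nat.card (stabilizer G a) = p * d := by
    have h1 := (stabilizer G a).index_mul_card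
    rw [index_stabilizer_of_transitive, hΩ, hG, mul_assoc] at h1
    exact Nat.eq_of_mul_eq_mul_left (Nat.succ_pos p) h1
  have hd0 : 0 < d := Nat.pos_of_ne_zero fun e => by
    have := Nat.card_pos (α := stabilizer G a)
    rw [hs, e] at this
    simp at this
  obtain ⟨P⟩ : Nonempty (Sylow p (stabilizer G a)) := inferInstance
  have hnd : ¬ p ∣ d := Nat.not_dvd_of_pos_of_lt hd0 hd
  have hP : Nat.card P = p := by
    rw [P.card_eq_multiplicity, hs, Nat.factorization_mul hp.ne_zero hd0.ne', Finsupp.add_apply,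
      hp.factorization_self, Nat.factorization_eq_zero_of_not_dvd hnd, pow_one]
  have hi : (P : Subgroup (stabilizer G a)).index = d := by
    have h1 := (P : Subgroup (stabilizer G a)).card_mul_index
    rw [hP, hs] at h1
    exact Nat.eq_of_mul_eq_mul_left hp.pos h1
  have h1 : Nat.card (Sylow p (stabilizer G a)) = 1 := by
    have h2 := Nat.le_of_dvd hd0 (hi ▸ P.card_dvd_index)
    have h3 := card_sylow_modEq_one p (stabilizer G a)
    rw [Nat.ModEq, Nat.mod_eq_of_lt (by omega), Nat.mod_eq_of_lt hp.one_lt] at h3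
    exact h3
  have := (Nat.card_eq_one_iff_unique.1 h1).1
  have hn := P.normal_of_subsingleton
  let U := (P : Subgroup (stabilizer G a)).map (stabilizer G a).subtype
  have hU : Nat.card U = p := by
    rw [Subgroup.card_map_of_injective (Subgroup.subtype_injective _), hP]
  have hUa : ∀ u ∈ U, u • a = a := by rintro _ ⟨u, -, rfl⟩; exact u.2
  have hgen : ∀ u ∈ U, u ≠ 1 → Subgroup.zpowers u = U := fun u hu hu1 => by
    refine Subgroup.eq_of_le_of_card_ge (Subgroup.zpowers_le.2 hu) ?_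
    rw [hU, Nat.card_zpowers]
    have h2 := Subgroup.orderOf_dvd_natCard U hu
    rw [hU, Nat.dvd_prime hp] at h2
    exact (h2.resolve_left fun e => hu1 (orderOf_eq_one_iff.1 e)).ge
  have hfix : ∀ u ∈ U, ∀ y, y ≠ a → u • y = y → u = 1 := by
    intro u hu y hy e
    by_contra hu1
    have h2 := card_fixedBy_modEq (Ω := Ω) hp (g := u) (k := 1) (by
      rw [pow_one, ← hU]; exact congrArg Subtype.val (pow_card_eq_one' (x := (⟨u, hu⟩ : U))))
    have h3 : 1 < Nat.card (fixedBy Ω u) := Finite.one_lt_card_iff_nontrivial.2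
      ⟨⟨y, e⟩, ⟨a, hUa u hu⟩, fun h => hy (congrArg Subtype.val h)⟩
    have h4 : Nat.card (fixedBy Ω u) < Nat.card Ω := card_lt_of_inj_not_surj Subtype.val
      Subtype.val_injective fun h => hu1 (hfa u fun x => by
        obtain ⟨z, rfl⟩ := h x; exact z.2)
    rw [hΩ] at h2 h4
    have h5 := (Nat.modEq_iff_dvd' h4.le).1 h2.symm
    have := Nat.le_of_dvd (by omega) h5
    omega
  have hreg : ∀ y z : Ω, y ≠ a → z ≠ a → ∃! u : U, (u : G) • y = z := by
    intro y z hy hz
    let f : Option U → Ω := fun o => o.elim a fun u => (u : G) • y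
    have hne : ∀ u : U, (u : G) • y ≠ a := fun u e =>
      hy (smul_left_cancel (u : G) (e.trans (hUa u u.2).symm))
    have hinj : ∀ u v : U, (u : G) • y = (v : G) • y → u = v := fun u v e =>
      Subtype.ext (inv_mul_eq_one.1 (hfix _ (U.mul_mem (U.inv_mem u.2) v.2) y hy
        (by rw [mul_smul, ← e, inv_smul_smul])))
    have hf : Function.Injective f := by
      rintro (_ | u) (_ | v) e
      · rfl
      · exact absurd e.symm (hne v)
      · exact absurd e (hne u)
      · rw [hinj u v e]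
    have hb := (Nat.bijective_iff_injective_and_card f).2
      ⟨hf, by rw [Finite.card_option, hU, hΩ]⟩
    obtain ⟨_ | u, e⟩ := hb.2 z
    · exact absurd e.symm hz
    · exact ⟨u, e, fun v hv => hinj _ _ (hv.trans e.symm)⟩
  have hK : IsKernel U a := ⟨hUa, by
    rintro g hg _ ⟨u, hu, rfl⟩
    exact ⟨_, hn.conj_mem u hu ⟨g, hg⟩, rfl⟩, hreg⟩
  have hcent : ∀ b, b ≠ a → ∀ h : G, h • a = a → h • b = b → ∀ u ∈ U, u ≠ 1 →
      h * u = u * h → h = 1 := by
    intro b hb h ha hhb u hu hu1 e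
    refine hfa h fun x => ?_
    by_cases hx : x = a
    · rw [hx, ha]
    obtain ⟨v, hv, rfl⟩ := hK.exists_smul_eq hb hx
    rw [← hgen u hu hu1] at hv
    obtain ⟨k, rfl⟩ := hv
    rw [← mul_smul, (Commute.zpow_right e k).eq, mul_smul, hhb]
  refine ⟨U, ⟨fun x y z w hxy hzw => ?_, fun g x y z hxy hyz hxz h1 h2 h3 => ?_, hfa⟩, hK, hU,
    fun u hu v hv => ?_, fun b hb h hh k hk => ?_⟩
  · obtain ⟨g, hg⟩ := exists_smul_eq G x a
    obtain ⟨k, hk⟩ := exists_smul_eq G z a
    obtain ⟨u, hu, e⟩ := hK.exists_smul_eq (y := g • y) (z := k • w)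
      (fun e => hxy (smul_left_cancel g (hg.trans e.symm)))
      (fun e => hzw (smul_left_cancel k (hk.trans e.symm)))
    exact ⟨k⁻¹ * u * g, by rw [mul_smul, mul_smul, hg, hUa u hu, inv_smul_eq_iff, hk],
      by rw [mul_smul, mul_smul, e, inv_smul_smul]⟩
  · obtain ⟨k, hk⟩ := exists_smul_eq G x a
    have h4 : ∀ t : Ω, g • t = t → (k * g * k⁻¹) • k • t = k • t := fun t ht => by
      rw [mul_smul, mul_smul, inv_smul_smul, ht]
    have hy : k • y ≠ a := fun e => hxy (smul_left_cancel k (hk.trans e.symm))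
    have hz : k • z ≠ a := fun e => hxz (smul_left_cancel k (hk.trans e.symm))
    have ha : (k * g * k⁻¹) • a = a := hk ▸ h4 x h1
    obtain ⟨u, hu, e⟩ := hK.exists_smul_eq hy hz
    have h5 := hcent _ hy _ ha (h4 y h2) u hu (by
      rintro rfl
      exact hyz (smul_left_cancel k ((one_smul G _).symm.trans e))) (by
      rw [← mul_inv_eq_iff_eq_mul]
      refine hK.eq_of_smul_eq (hK.conj _ ha u hu) hu hy ?_
      rw [mul_smul, mul_smul, inv_smul_eq_iff.2 (h4 y h2).symm, e, h4 z h3])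
    exact conj_eq_one_iff.1 h5
  · by_cases hu1 : u = 1
    · simp [hu1]
    rw [← hgen u hu hu1] at hv
    obtain ⟨k, rfl⟩ := hv
    exact (Commute.zpow_right (Commute.refl u) k).eq
  · have : Nontrivial U := Finite.one_lt_card_iff_nontrivial.1 (hU ▸ hp.one_lt)
    obtain ⟨⟨u, hu⟩, hu1⟩ := exists_ne (1 : U)
    have hu2 : u ≠ 1 := fun e => hu1 (Subtype.ext e)
    obtain ⟨i, hi⟩ : h * u * h⁻¹ ∈ Subgroup.zpowers u := (hgen u hu hu2).symm ▸ hK.conj h hh.1 u hu
    obtain ⟨j, hj⟩ : k * u * k⁻¹ ∈ Subgroup.zpowers u := (hgen u hu hu2).symm ▸ hK.conj k hk.1 u hu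
    simp only at hi hj
    have hm := Subgroup.mul_mem _ (Subgroup.inv_mem _ (Subgroup.mul_mem _ hk hh))
      (Subgroup.mul_mem _ hh hk)
    refine (inv_mul_eq_one.1 (hcent b hb _ hm.1 hm.2 u hu hu2 ?_)).symm
    have e1 : h * k * u * (h * k)⁻¹ = u ^ (i * j) := by
      calc _ = h * (k * u * k⁻¹) * h⁻¹ := by group
        _ = _ := by rw [← hj, ← conj_zpow, ← hi, zpow_mul]
    have e2 : k * h * u * (k * h)⁻¹ = u ^ (i * j) := by
      calc _ = k * (h * u * h⁻¹) * k⁻¹ := by group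
        _ = _ := by rw [← hi, ← conj_zpow, ← hj, mul_comm i, zpow_mul]
    calc _ = (k * h)⁻¹ * (h * k * u * (h * k)⁻¹) * (h * k) := by group
      _ = _ := by rw [e1, ← e2]; group

/-- A transitive permutation group on `p + 1` points (`p` prime) of order `(p+1) p d` with `d < p` is isomorphic to `PGL(2,p)` with `d = p - 1`, or to `PSL(2,p)` with `2d = p - 1`, or else `p + 1 = 2^q` for a prime `q`, `d = 1` or `d = q`, and the group is permutation-isomorphic to a group of semi-affine maps `x ↦ a φ(x) + b` of the field with `2^q` elements. -/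
theorem result {α : Type*} [Fintype α] [DecidableEq α] {p d : ℕ} (hp : p.Prime) (hα : Fintype.card α = p + 1) (G : Subgroup (Equiv.Perm α)) [MulAction.IsPretransitive G α] (hG : Nat.card G = (p + 1) * p * d) (hd : d < p) : (d = p - 1 ∧ Nonempty (G ≃* Matrix.ProjGenLinGroup (Fin 2) (ZMod p))) ∨ (2 * d = p - 1 ∧ Nonempty (G ≃* Matrix.ProjectiveSpecialLinearGroup (Fin 2) (ZMod p))) ∨ (∃ q : ℕ, q.Prime ∧ p + 1 = 2 ^ q ∧ (d = 1 ∨ d = q) ∧ ∃ e : α ≃ GaloisField 2 q, ∀ g : G, (e.symm.trans (((g : Equiv.Perm α)).trans e)) ∈ Cfsg.semiaffineGroup (GaloisField 2 q)) := by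
  have := Fact.mk hp
  rw [← Nat.card_eq_fintype_card] at hα
  have : Nontrivial α := Finite.one_lt_card_iff_nontrivial.1 (by have := hp.pos; omega)
  obtain ⟨a⟩ : Nonempty α := inferInstance
  obtain ⟨b, hb⟩ := exists_ne a
  obtain ⟨U, hZ, hU, hcU, hUc, hEc⟩ := setup hp hα hG hd a
  have hE : Nat.card (stabilizer G a ⊓ stabilizer G b : Subgroup G) = d := by
    have h1 := hZ.card_eq hU hb
    rw [hG, hcU] at h1
    exact (Nat.eq_of_mul_eq_mul_left (Nat.mul_pos (Nat.succ_pos p) hp.pos) h1).symm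
  by_cases hd1 : d = p - 1
  · obtain ⟨F, _, _, hF, ⟨e⟩⟩ := hZ.pgl2 hU hb hUc (hcU ▸ hp.one_lt) (hEc b hb) (by omega)
    exact Or.inl ⟨hd1, ⟨e.trans (H10.pglCongr (FiniteField.ringEquivOfCardEq
      (by rw [hF, hcU, ZMod.card])))⟩⟩
  right
  have h2 : IsMultiplyPretransitive G α 2 :=
    is_two_pretransitive_iff.2 fun h h' => hZ.two _ _ _ _ h h'
  by_cases hZ' : IsZassenhausGroup G α
  · obtain ⟨h1, F, _, _, hF, -, ⟨e⟩⟩ := (zass_of_comm hZ' hU hb hUc).resolve_left (by omega)
    exact Or.inl ⟨by omega, ⟨e.trans (H10.pslCongr (FiniteField.ringEquivOfCardEq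
      (by rw [ZMod.card]; omega)))⟩⟩
  right
  obtain ⟨N, hNn, hNt, hNr⟩ : ∃ N : Subgroup G, N.Normal ∧ IsPretransitive N α ∧
      ∀ x : α, stabilizer N x = ⊥ := by
    by_contra hc
    refine hZ' ⟨inferInstance, h2, hZ.three, ?_, fun N h1 h3 => ?_⟩
    · by_contra hf
      push Not at hf
      obtain ⟨K, h1, -, h3, h4, -⟩ := H26.sharp2_exists_kernel h2 fun g x y hxy hx hy => by
        by_contra hg
        exact hf g hg x y hxy hx hy
      exact hc ⟨K, h1, h3, h4⟩
    · by_contra hf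
      push Not at hf
      exact hc ⟨N, h1, h3, hf⟩
  have htr : ∀ x : α, ∃ n ∈ N, n • a = x := fun x => by
    obtain ⟨n, hn⟩ := hNt.exists_smul_eq a x
    exact ⟨n, n.2, hn⟩
  have hreg : ∀ n ∈ N, n • a = a → n = 1 := fun n hn e =>
    congrArg Subtype.val (Subgroup.mem_bot.1 (hNr a ▸ e : (⟨n, hn⟩ : N) ∈ ⊥))
  have hN1 : N ≠ ⊥ := by
    rintro rfl
    obtain ⟨n, hn, e⟩ := htr b
    rw [Subgroup.mem_bot.1 hn, one_smul] at e
    exact hb e.symm
  obtain ⟨hNc, -⟩ := H26.elementary_of_regular h2 (hNr a) hN1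
  obtain ⟨F, _, _, e, he0, -, -, hsa⟩ := exists_semiaffine (A := U) hN1
    (fun u hu v hv => congrArg Subtype.val (hNc.is_comm.comm ⟨u, hu⟩ ⟨v, hv⟩)) htr hreg hU.fix hUc
    hU.conj (fun W hW hinv => by
      refine or_iff_not_imp_left.2 fun hW1 => le_antisymm hW fun n hn => ?_
      obtain ⟨⟨w, hw⟩, hw1⟩ := (Subgroup.ne_bot_iff_exists_ne_one).1 hW1
      by_cases hn1 : n = 1
      · rw [hn1]; exact W.one_mem
      obtain ⟨u, hu, h⟩ := hU.exists_smul_eq (y := w • a) (z := n • a)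
        (fun h => hw1 (Subtype.ext (hreg w (hW hw) h))) (fun h => hn1 (hreg n hn h))
      rw [← H26.eq_of_smul_eq_of_regular (hNr a) (hNn.conj_mem w (hW hw) u) hn (by
        rw [mul_smul, mul_smul, inv_smul_eq_iff.2 (hU.fix u hu).symm, h])]
      exact hinv u hu w hw)
  have hcF : Fintype.card F = p + 1 := by
    rw [← Nat.card_eq_fintype_card, Nat.card_congr e, hα]
  obtain ⟨q, hr, hq⟩ := FiniteField.card F (ringChar F)
  have hd0 : 0 < d := hE ▸ Nat.card_pos
  have hr2 : ringChar F = 2 := by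
    have h3 : 2 ∣ ringChar F ^ (q : ℕ) := by
      rw [← hq, hcF]
      exact (hp.odd_of_ne_two (by omega)).add_one.two_dvd
    exact ((Nat.prime_dvd_prime_iff_eq Nat.prime_two hr).1
      (Nat.prime_two.dvd_of_dvd_pow h3)).symm
  rw [hr2, hcF] at hq
  have hq1 : (q : ℕ) ≠ 1 := by
    intro e1
    rw [e1] at hq
    have := hp.two_le
    omega
  have hqp : (q : ℕ).Prime :=
    (Nat.prime_of_pow_sub_one_prime hq1 (by rw [← hq]; exact hp)).2
  have : CharP F 2 := hr2 ▸ ringChar.charP F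
  let _ : Algebra (ZMod 2) F := ZMod.algebra F 2
  have i := (GaloisField.algEquivGaloisField 2 q (K := F)
    (by rw [Nat.card_eq_fintype_card, hcF, hq])).toRingEquiv
  refine ⟨q, hqp, hq, ?_, e.symm.trans i.toEquiv, fun g => ?_⟩
  · rw [← Nat.dvd_prime hqp]
    have hb' : e 1 ≠ a := he0 ▸ e.injective.ne one_ne_zero
    have hE' : Nat.card (stabilizer G a ⊓ stabilizer G (e 1) : Subgroup G) = d := by
      have h1 := hZ.card_eq hU hb'
      rw [hG, hcU] at h1
      exact (Nat.eq_of_mul_eq_mul_left (Nat.mul_pos (Nat.succ_pos p) hp.pos) h1).symm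
    have key : ∀ g : (stabilizer G a ⊓ stabilizer G (e 1) : Subgroup G),
        ∃ φ : F ≃ₐ[ZMod 2] F, ∀ x, (g : G) • e x = e (φ x) := by
      intro g
      obtain ⟨c, t, φ, h⟩ := hsa g
      have h0 : t = 0 := by
        have := h 0
        rw [he0, g.2.1, ← he0] at this
        simpa using (e.injective this).symm
      have h1 : (c : F) = 1 := by
        have := h 1
        rw [g.2.2] at this
        simpa [h0] using (e.injective this).symm
      refine ⟨AlgEquiv.ofRingEquiv (f := φ) fun x => ?_, fun x => ?_⟩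
      · exact RingHom.congr_fun (Subsingleton.elim (φ.toRingHom.comp (algebraMap (ZMod 2) F))
          (algebraMap (ZMod 2) F)) x
      · rw [h, h0, h1, one_mul, add_zero]; rfl
    choose φ hφ using key
    let Φ : (stabilizer G a ⊓ stabilizer G (e 1) : Subgroup G) →* (F ≃ₐ[ZMod 2] F) :=
      MonoidHom.mk' φ fun g k => AlgEquiv.ext fun x => e.injective (by
        rw [AlgEquiv.mul_apply, ← hφ, ← hφ, ← hφ, Subgroup.coe_mul, mul_smul])
    have hinj : Function.Injective Φ := (injective_iff_map_eq_one Φ).2 fun g hg =>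
      Subtype.ext (hZ.faithful _ fun x => by
        obtain ⟨y, rfl⟩ := e.surjective x
        rw [hφ, show φ g = 1 from hg, AlgEquiv.one_apply])
    have h3 := Subgroup.card_dvd_of_injective Φ hinj
    rw [hE', IsGalois.card_aut_eq_finrank] at h3
    have h4 := Module.card_eq_pow_finrank (K := ZMod 2) (V := F)
    rw [hcF, hq, ZMod.card] at h4
    rwa [← Nat.pow_right_injective le_rfl h4] at h3
  · obtain ⟨c, t, φ, h⟩ := hsa g
    exact semiaffine_transport i e h

end Cfsg.Agent.S0732
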