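import Cfsg.Statements.S0827
import Mathlib
import Cfsg.Agent.Lib.ClGeo.U32
import Cfsg.Agent.Lib.ClGeo.Heart

set_option autoImplicit false
open Cfsg

namespace Cfsg.Agent.S0827

/-- U_3(2) ≅ 3².Q_8: PSU_3(2) (form over the field with 4 elements) has a normal subgroup N which is elementary abelian of order 9 such that the quotient by N is isomorphic to the quaternion group of order 8. -/
theorem result {F : Type*} [Field F] [Fintype F] (hF : Fintype.card F = 4) : ∃ (N : Subgroup (Cfsg.PSU 3 F 2)) (_ : N.Normal), Nat.card N = 9 ∧ (∀ x ∈ N, x ^ 3 = 1) ∧ Nonempty (Cfsg.PSU 3 F 2 ⧸ N ≃* QuaternionGroup 2) := by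
  obtain ⟨e⟩ := H30.F4.nonempty_ringEquiv hF
  let E := H30.psuCongr e 3 2
  obtain ⟨φ, hφ⟩ := H30.U32.exists_surj_psu
  let ψ : Cfsg.PSU 3 F 2 →* QuaternionGroup 2 := φ.comp E.toMonoidHom
  have hψ : Function.Surjective ψ := hφ.comp E.surjective
  have hc : Nat.card ψ.ker = 9 := by
    have := H54.card_ker_mul ψ hψ
    rw [H30.U32.card_Q, Nat.card_congr E.toEquiv, H30.U32.card_PSU] at this
    omega
  refine ⟨ψ.ker, inferInstance, hc, fun x hx => ?_, ⟨QuotientGroup.quotientKerEquivOfSurjective ψ hψ⟩⟩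
  have h9 : x ^ 9 = 1 := by
    have := pow_card_eq_one' (G := ψ.ker) (x := ⟨x, hx⟩)
    rw [hc] at this
    exact congrArg Subtype.val this
  have h12 : x ^ 12 = 1 := by
    apply E.injective
    rw [map_pow, H30.U32.psu_pow_twelve, map_one]
  have := pow_gcd_eq_one.2 ⟨h9, h12⟩
  simpa using this

end Cfsg.Agent.S0827
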