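import Cfsg.Statements.S0986
import Mathlib
import Cfsg.Agent.Lib.H4.SylRules

set_option autoImplicit false
open Cfsg

namespace Cfsg.Agent.S0986

open Subgroup in
theorem lt_inf_normalizer {G : Type*} [Group G] [Finite G] {p : ℕ} [Fact p.Prime] {P D : Subgroup G}
    (hP : IsPGroup p P) (h : D < P) : D < P ⊓ normalizer (D : Set G) := by
  haveI := hP.isNilpotent
  have h1 : D.subgroupOf P < ⊤ := by
    rw [lt_top_iff_ne_top, Ne, subgroupOf_eq_top]; exact h.not_ge
  have h2 := normalizerCondition_of_isNilpotent (G := P) _ h1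
  rw [← subgroupOf_normalizer_eq h.le] at h2
  refine lt_of_le_of_ne (le_inf h.le le_normalizer) fun e => h2.ne ?_
  rw [← inf_subgroupOf_left (normalizer (D : Set G)) P, ← e]

/-- Let P and Q be distinct Sylow p-subgroups of a finite group G chosen so that the order of P ∩ Q is as large as possible among intersections of two distinct Sylow p-subgroups, and let N be the normalizer of P ∩ Q. Then N has more than one Sylow p-subgroup, any two distinct Sylow p-subgroups of N intersect exactly in P ∩ Q, and each Sylow p-subgroup of N lies in exactly one Sylow p-subgroup of G. -/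
theorem result {G : Type*} [Group G] [Finite G] (p : ℕ) [Fact p.Prime] (P Q : Sylow p G) (hPQ : P ≠ Q) (hmax : ∀ P' Q' : Sylow p G, P' ≠ Q' → Nat.card ↥((P' : Subgroup G) ⊓ (Q' : Subgroup G)) ≤ Nat.card ↥((P : Subgroup G) ⊓ (Q : Subgroup G))) : 1 < Nat.card (Sylow p ↥(Subgroup.normalizer (((P : Subgroup G) ⊓ (Q : Subgroup G) : Subgroup G) : Set G))) ∧ (∀ S T : Sylow p ↥(Subgroup.normalizer (((P : Subgroup G) ⊓ (Q : Subgroup G) : Subgroup G) : Set G)), S ≠ T → (S : Subgroup _) ⊓ (T : Subgroup _) = ((P : Subgroup G) ⊓ (Q : Subgroup G)).subgroupOf (Subgroup.normalizer (((P : Subgroup G) ⊓ (Q : Subgroup G) : Subgroup G) : Set G))) ∧ ∀ S : Sylow p ↥(Subgroup.normalizer (((P : Subgroup G) ⊓ (Q : Subgroup G) : Subgroup G) : Set G)), ∃! T : Sylow p G, (S : Subgroup _).map (Subgroup.normalizer (((P : Subgroup G) ⊓ (Q : Subgroup G) : Subgroup G) : Set G)).subtype ≤ (T : Subgroup G) := by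
  set D := (P : Subgroup G) ⊓ Q with hD
  set N := Subgroup.normalizer (D : Set G) with hN
  have hDN : D ≤ N := Subgroup.le_normalizer
  have huniq : ∀ X : Subgroup G, D < X → ∀ T T' : Sylow p G, X ≤ T → X ≤ T' → T = T' := by
    intro X hX T T' h1 h2
    by_contra hne
    have := hmax T T' hne
    have h3 := Subgroup.card_le_of_le (le_inf h1 h2)
    exact hX.ne (Subgroup.eq_of_le_of_card_ge hX.le (h3.trans this))
  have hDP : D < P := lt_of_le_of_ne inf_le_left fun e =>
    hPQ (Sylow.ext (P.is_maximal' Q.isPGroup' (e ▸ inf_le_right)).symm)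
  have hDQ : D < Q := lt_of_le_of_ne inf_le_right fun e =>
    hPQ (Sylow.ext (Q.is_maximal' P.isPGroup' (e ▸ inf_le_left)))
  have hP := lt_inf_normalizer P.isPGroup' hDP
  have hQ := lt_inf_normalizer Q.isPGroup' hDQ
  have hDn : (D.subgroupOf N).Normal := Subgroup.normal_in_normalizer
  have hDp : IsPGroup p (D.subgroupOf N) := (P.isPGroup'.to_le inf_le_left).comap_subtype
  have hDS : ∀ S : Sylow p N, D.subgroupOf N ≤ S := fun S => hDp.le_sylow_of_normal S
  have hlt : ∀ S : Sylow p N, D < (S : Subgroup N).map N.subtype := fun S => by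
    refine lt_of_le_of_ne (by
      have := Subgroup.map_mono (f := N.subtype) (hDS S)
      rwa [Subgroup.map_subgroupOf_eq_of_le hDN] at this) fun e => ?_
    obtain ⟨S', hS'⟩ := (P.isPGroup'.comap_subtype (K := N)).exists_le_sylow
    have h1 : Nat.card (S' : Subgroup N) = Nat.card (S : Subgroup N) := by
      rw [Sylow.card_eq_multiplicity, Sylow.card_eq_multiplicity]
    have h2 := Subgroup.card_le_of_le hS'
    rw [h1, ← Subgroup.card_map_of_injective N.subtype_injective,
      ← Subgroup.card_map_of_injective (K := (S : Subgroup N)) N.subtype_injective, ← e,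
      Subgroup.map_comap_eq, Subgroup.range_subtype, inf_comm] at h2
    exact hP.ne (Subgroup.eq_of_le_of_card_ge hP.le h2)
  have hex : ∀ S : Sylow p N, ∃ T : Sylow p G, (S : Subgroup N).map N.subtype ≤ T := fun S =>
    (S.isPGroup'.map _).exists_le_sylow
  refine ⟨?_, fun S T hST => ?_, fun S => ?_⟩
  · obtain ⟨S, hS⟩ := (P.isPGroup'.comap_subtype (K := N)).exists_le_sylow
    obtain ⟨S', hS'⟩ := (Q.isPGroup'.comap_subtype (K := N)).exists_le_sylow
    rw [Finite.one_lt_card_iff_nontrivial]
    refine ⟨⟨S, S', fun e => hPQ ?_⟩⟩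
    subst e
    obtain ⟨T, hT⟩ := hex S
    have h1 := (Subgroup.map_mono (f := N.subtype) hS).trans hT
    have h2 := (Subgroup.map_mono (f := N.subtype) hS').trans hT
    rw [Subgroup.map_comap_eq, Subgroup.range_subtype, inf_comm] at h1 h2
    exact (huniq _ hP P T inf_le_left h1).trans (huniq _ hQ Q T inf_le_left h2).symm
  · refine le_antisymm ?_ (le_inf (hDS S) (hDS T))
    by_contra hle
    obtain ⟨A, hA⟩ := hex S
    obtain ⟨B, hB⟩ := hex T
    have h1 : D < ((S : Subgroup N) ⊓ T).map N.subtype := by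
      refine lt_of_le_of_ne (by
        have := Subgroup.map_mono (f := N.subtype) (le_inf (hDS S) (hDS T))
        rwa [Subgroup.map_subgroupOf_eq_of_le hDN] at this) fun e => hle ?_
      rw [e]; exact Subgroup.le_comap_map _ _
    have h2 := huniq _ h1 A B ((Subgroup.map_mono inf_le_left).trans hA)
      ((Subgroup.map_mono inf_le_right).trans hB)
    subst h2
    have h3 := S.is_maximal' (A.isPGroup'.comap_subtype (K := N)) (Subgroup.map_le_iff_le_comap.1 hA)
    have h4 := T.is_maximal' (A.isPGroup'.comap_subtype (K := N)) (Subgroup.map_le_iff_le_comap.1 hB)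
    exact hST (Sylow.ext (h3.symm.trans h4))
  · obtain ⟨T, hT⟩ := hex S
    exact ⟨T, hT, fun T' hT' => huniq _ (hlt S) T' T hT' hT⟩

end Cfsg.Agent.S0986
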