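import Cfsg.Statements.S0987
import Mathlib
import Cfsg.Agent.Lib.H4.SylRules
import Cfsg.Agent.Lib.Block.PPart

set_option autoImplicit false
open Cfsg

namespace Cfsg.Agent.S0987

open Subgroup in
theorem normal_of_two {G : Type*} [Group G] [Finite G] {q r : ℕ} (hq : q.Prime) [hr : Fact r.Prime]
    (hqr : q < r) (hG : Nat.card G = q * r) (R : Sylow r G) : (R : Subgroup G).Normal := by
  have hR : Nat.card (R : Subgroup G) = r ^ 1 := H36.card_sylow_eq_pow R (by simp [hG]) (by
    rw [hG, pow_two, Nat.mul_dvd_mul_iff_right hr.out.pos]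
    exact fun h => absurd (Nat.le_of_dvd hq.pos h) (by omega))
  have h1 := (R : Subgroup G).card_mul_index
  rw [hR, hG, pow_one, mul_comm q] at h1
  have h2 := Sylow.card_dvd_index R
  rw [Nat.eq_of_mul_eq_mul_left hr.out.pos h1] at h2
  have h3 := card_sylow_modEq_one r G
  rw [Nat.ModEq, Nat.mod_eq_of_lt ((Nat.le_of_dvd hq.pos h2).trans_lt hqr),
    Nat.mod_eq_of_lt hr.out.one_lt] at h3
  haveI := (Nat.card_eq_one_iff_unique.1 h3).1
  exact Sylow.normal_of_subsingleton R

/-- If a finite group has order pqr for primes p < q < r, then its Sylow r-subgroups are normal. -/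
theorem result {G : Type*} [Group G] [Finite G] (p q r : ℕ) (hp : p.Prime) (hq : q.Prime) [Fact r.Prime] (hpq : p < q) (hqr : q < r) (hG : Nat.card G = p * q * r) (R : Sylow r G) : (R : Subgroup G).Normal := by
  haveI := Fact.mk hp
  have hr : r.Prime := Fact.out
  obtain ⟨P⟩ : Nonempty (Sylow p G) := inferInstance
  have hpd : ¬ p ∣ q * r := fun h => by
    rcases (hp.dvd_mul).1 h with h | h
    · exact hpq.ne ((Nat.prime_dvd_prime_iff_eq hp hq).1 h)
    · exact (hpq.trans hqr).ne ((Nat.prime_dvd_prime_iff_eq hp hr).1 h)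
  have hP : Nat.card (P : Subgroup G) = p ^ 1 := H36.card_sylow_eq_pow P
    (by rw [hG, mul_assoc]; simp) (by
      rw [hG, pow_two, mul_assoc, Nat.mul_dvd_mul_iff_left hp.pos]; exact hpd)
  have hmin : (Nat.card G).minFac = p := by
    have h1 := Nat.minFac_prime (n := Nat.card G) (by
      rw [hG]; have := hp.two_le; have := hq.two_le; have := hr.two_le; nlinarith [Nat.mul_le_mul hp.two_le hq.two_le])
    have h2 := Nat.minFac_le_of_dvd hp.two_le (show p ∣ Nat.card G by rw [hG, mul_assoc]; simp)
    have h3 := Nat.minFac_dvd (Nat.card G)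
    generalize (Nat.card G).minFac = m at *
    rw [hG, h1.dvd_mul, h1.dvd_mul, Nat.prime_dvd_prime_iff_eq h1 hp,
      Nat.prime_dvd_prime_iff_eq h1 hq, Nat.prime_dvd_prime_iff_eq h1 hr] at h3
    omega
  have hc := (isCyclic_of_prime_card (hP.trans (pow_one p))).isComplement' hmin
  set K := (MonoidHom.transferSylow P
    ((isCyclic_of_prime_card (hP.trans (pow_one p))).normalizer_le_centralizer hmin)).ker
  have hi : K.index = p := by rw [hc.symm.index_eq_card, hP, pow_one]
  have hK : Nat.card K = q * r := by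
    have := K.card_mul_index
    rw [hi, hG, mul_assoc, mul_comm p] at this
    exact Nat.eq_of_mul_eq_mul_right hp.pos this
  have hRK : (R : Subgroup G) ≤ K := fun x hx =>
    (H35.isPElt_of_mem R.isPGroup' hx).mem_of_index (by
      rw [hi]; exact fun h => absurd (Nat.le_of_dvd hp.pos h) (by omega))
  haveI := normal_of_two hq hqr hK (R.subtype hRK)
  haveI := Sylow.characteristic_of_normal (R.subtype hRK) inferInstance
  have := ConjAct.normal_of_characteristic_of_normal (H := K) (K := (R.subtype hRK : Subgroup K))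
  rwa [Sylow.coe_subtype, Subgroup.map_subgroupOf_eq_of_le hRK] at this

end Cfsg.Agent.S0987
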