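import Cfsg.Statements.S0988
import Mathlib
import Cfsg.Agent.Lib.H4.Sieve

set_option autoImplicit false
open Cfsg

namespace Cfsg.Agent.S0988

theorem not_small {G : Type*} [Group G] [Finite G] [IsSimpleGroup G] (hG : ¬ IsMulCommutative G)
    {s m : ℕ} (hs : s.Prime) (h : Nat.card G = s ^ 1 * m) (hm : ∀ t, t.Prime → t ∣ m → s < t) :
    False := by
  haveI := Fact.mk hs
  have h0 : ¬ s ∣ m := fun h => lt_irrefl _ (hm s hs h)
  have h1 := H4.burnside_rule hG le_rfl (by norm_num) h h0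
  obtain ⟨t, ht, h2⟩ := Nat.exists_prime_and_dvd h1
  have h3 := (H4.sylow_rule hG le_rfl h h0).1
  have h4 := hm t ht ((h2.trans (Nat.gcd_dvd_left _ _)).trans (Nat.div_dvd_of_dvd h3))
  have h5 := Nat.le_of_dvd (by have := hs.two_le; simp; omega) (h2.trans (Nat.gcd_dvd_right _ _))
  simp at h5; omega

theorem aux {G : Type*} [Group G] [Finite G] [IsSimpleGroup G] (hG : ¬ IsMulCommutative G)
    {r : ℕ} (hr : r.Prime) (h2 : r ≠ 2) (h3 : r ≠ 3) (h : Nat.card G = r ^ 1 * 12) :
    Nat.card G = 60 := by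
  haveI := Fact.mk hr
  have h0 : ¬ r ∣ 12 := fun h => by
    have := Nat.le_of_dvd (by norm_num) h
    interval_cases r <;> simp_all (config := {decide := true})
  obtain ⟨a1, a2, a3, -⟩ := H4.sylow_rule hG le_rfl h h0
  have a4 := Nat.le_of_dvd (by norm_num) a1
  have a5 : r ≤ 12 := by
    by_contra a5
    rw [Nat.mod_eq_of_lt (by omega)] at a2
    exact a3 a2
  rw [pow_one] at h
  have := H4.Sv.card_mem hG (ok := [60]) (f := 150) (lo := 0) (by decide +kernel) (by omega)
    (by omega)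
  simpa using this

/-- If a finite simple group has order p^2 * q * r with p, q and r prime, then its order is 60. -/
theorem result {G : Type*} [Group G] [Finite G] [IsSimpleGroup G] (p q r : ℕ) (hp : p.Prime) (hq : q.Prime) (hr : r.Prime) (hG : Nat.card G = p ^ 2 * q * r) : Nat.card G = 60 := by
  have hG' := H36.not_comm_of_not_prime (G := G) (by
    rw [hG]; exact Nat.not_prime_mul (by
      have := hp.two_le; have := hq.two_le; nlinarith) hr.one_lt.ne')
  have hns : ¬ Group.IsSolvable G := fun hs => hG' ⟨⟨(IsSimpleGroup.comm_iff_isSolvable.2 hs)⟩⟩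
  have hpq : p ≠ q := by
    rintro rfl
    exact hns (H8.isSolvable_of_card_dvd (a := 3) (b := 1) hp hr (by rw [hG]; exact Dvd.intro 1 (by ring)))
  have hpr : p ≠ r := by
    rintro rfl
    exact hns (H8.isSolvable_of_card_dvd (a := 3) (b := 1) hp hq (by rw [hG]; exact Dvd.intro 1 (by ring)))
  have hqr : q ≠ r := by
    rintro rfl
    exact hns (H8.isSolvable_of_card_dvd (a := 2) (b := 2) hp hq (by rw [hG]; exact Dvd.intro 1 (by ring)))
  have e : ∀ {t a b : ℕ}, t.Prime → a.Prime → b.Prime → t ∣ a ^ 2 * b → t = a ∨ t = b :=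
    fun ht ha hb h => ((ht.dvd_mul).1 h).imp
      (fun h => (Nat.prime_dvd_prime_iff_eq ht ha).1 (ht.dvd_of_dvd_pow h))
      (fun h => (Nat.prime_dvd_prime_iff_eq ht hb).1 h)
  have h1 : ¬ (q < p ∧ q < r) := fun h => not_small hG' hq (m := p ^ 2 * r) (by rw [hG]; ring)
    fun t ht hd => by rcases e ht hp hr hd with rfl | rfl <;> omega
  have h2 : ¬ (r < p ∧ r < q) := fun h => not_small hG' hr (m := p ^ 2 * q) (by rw [hG]; ring)
    fun t ht hd => by rcases e ht hp hq hd with rfl | rfl <;> omega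
  haveI := Fact.mk hp
  have h0 : ¬ p ∣ q * r := fun h => ((hp.dvd_mul).1 h).elim
    (fun h => hpq ((Nat.prime_dvd_prime_iff_eq hp hq).1 h))
    (fun h => hpr ((Nat.prime_dvd_prime_iff_eq hp hr).1 h))
  have hG2 : Nat.card G = p ^ 2 * (q * r) := by rw [hG, mul_assoc]
  obtain ⟨t, ht, h3⟩ := Nat.exists_prime_and_dvd (H4.burnside_rule hG' (by norm_num) le_rfl hG2 h0)
  have h4 := (h3.trans (Nat.gcd_dvd_left _ _)).trans
    (Nat.div_dvd_of_dvd (H4.sylow_rule hG' (by norm_num) hG2 h0).1)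
  have h5 : t = q ∨ t = r := ((ht.dvd_mul).1 h4).imp
    (fun h => (Nat.prime_dvd_prime_iff_eq ht hq).1 h) (fun h => (Nat.prime_dvd_prime_iff_eq ht hr).1 h)
  have h6 : p < t := by rcases h5 with rfl | rfl <;> omega
  have h7 := h3.trans (Nat.gcd_dvd_right _ _)
  rw [show p ^ 2 - 1 = (p + 1) * (p - 1) by rw [← Nat.sq_sub_sq]] at h7
  have hp2 := hp.two_le
  have h8 : t = p + 1 := by
    rcases (ht.dvd_mul).1 h7 with h | h
    · have := Nat.le_of_dvd (by omega) h; omega
    · have := Nat.le_of_dvd (by omega) h; omega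
  have h9 : p = 2 := by
    rcases hp.eq_two_or_odd with h | h
    · exact h
    · have := ht.eq_two_or_odd; omega
  subst h9
  rcases h5 with rfl | rfl
  · exact aux hG' hr hpr.symm (by omega) (by rw [hG, h8]; ring)
  · exact aux hG' hq hpq.symm (by omega) (by rw [hG, h8]; ring)

end Cfsg.Agent.S0988
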