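import Cfsg.Statements.S0992
import Mathlib
import Cfsg.Agent.Lib.H4.SylRules

set_option autoImplicit false
open Cfsg

namespace Cfsg.Agent.S0992

/-- Let G be a non-abelian finite simple group of even order not divisible by 8, and T a Sylow 2-subgroup. Then T is a Klein four-group and the centralizer of T has index 3 in the normalizer of T. -/
theorem result {G : Type*} [Group G] [Finite G] [IsSimpleGroup G] (hG : ¬ IsMulCommutative G) (h2 : Even (Nat.card G)) (h8 : ¬ 8 ∣ Nat.card G) (T : Sylow 2 G) : IsKleinFour ↥(T : Subgroup G) ∧ (Subgroup.centralizer ((T : Subgroup G) : Set G)).relIndex (Subgroup.normalizer ((T : Subgroup G) : Set G)) = 3 := by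
  have h4 := H36.four_dvd_card hG h2.two_dvd
  have hT : Nat.card (T : Subgroup G) = 2 ^ 2 := H36.card_sylow_eq_pow T h4 h8
  have hK : IsKleinFour (T : Subgroup G) := by
    refine ⟨hT, ?_⟩
    have hnc := H36.not_isCyclic_sylow_two hG h2.two_dvd T
    haveI : Nontrivial (T : Subgroup G) := Finite.one_lt_card_iff_nontrivial.1 (by rw [hT]; norm_num)
    refine (Monoid.exponent_eq_prime_iff Nat.prime_two).2 fun x hx => ?_
    obtain ⟨k, hk, h1⟩ := (Nat.dvd_prime_pow Nat.prime_two).1 (hT ▸ orderOf_dvd_natCard x)
    interval_cases k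
    · exact absurd (orderOf_eq_one_iff.1 h1) hx
    · exact h1
    · exact absurd (isCyclic_of_orderOf_eq_card x (h1.trans hT.symm)) hnc
  refine ⟨hK, ?_⟩
  have h1 := H36.not_norm_le_cent hG h2.two_dvd T
  rw [← Subgroup.relIndex_eq_one] at h1
  have hab := hK.isMulCommutative
  have h3 : ¬ 2 ∣ (Subgroup.centralizer ((T : Subgroup G) : Set G)).relIndex
      (Subgroup.normalizer ((T : Subgroup G) : Set G)) := fun h => T.not_dvd_index
    ((h.trans (Subgroup.relIndex_dvd_index_of_le (Subgroup.centralizer_le_normalizer _))).trans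
      (Subgroup.index_dvd_of_le (Subgroup.le_centralizer _)))
  have h5 := H36.relIndex_cent_dvd (T : Subgroup G)
  have h6 : Nat.card (MulAut (T : Subgroup G)) ∣ 24 := by
    have := Subgroup.card_dvd_of_injective (MulAut.toPerm (T : Subgroup G))
      (fun a b h => MulEquiv.toEquiv_injective h)
    rwa [Nat.card_perm, hT] at this
  have h7 := h5.trans h6
  have := Nat.le_of_dvd (by norm_num) h7
  generalize (Subgroup.centralizer ((T : Subgroup G) : Set G)).relIndex
      (Subgroup.normalizer ((T : Subgroup G) : Set G)) = n at *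
  interval_cases n <;> omega

end Cfsg.Agent.S0992
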