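import Cfsg.Statements.S1001
import Mathlib
import Cfsg.Agent.S0904
import Cfsg.Agent.Lib.Char.BurnsidePQ

set_option autoImplicit false
open Cfsg

namespace Cfsg.Agent.S1001

/-- In a finite simple group whose order has the form p * 3^a * 2^b with p prime, the centralizer of any element of order p is the cyclic group it generates. -/
theorem result {G : Type*} [Group G] [Finite G] [IsSimpleGroup G] (p a b : ℕ) (hp : p.Prime) (hG : Nat.card G = p * 3 ^ a * 2 ^ b) (x : G) (hx : orderOf x = p) : Subgroup.centralizer ({x} : Set G) = Subgroup.zpowers x := by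
  have := Fact.mk hp
  by_cases h : p = 2 ∨ p = 3
  · have hs : Group.IsSolvable G := by
      rcases h with rfl | rfl
      · exact H8.isSolvable_of_card_dvd Nat.prime_two Nat.prime_three (a := b + 1) (b := a)
          (by rw [hG]; exact Dvd.intro 1 (by ring))
      · exact H8.isSolvable_of_card_dvd Nat.prime_two Nat.prime_three (a := b) (b := a + 1)
          (by rw [hG]; exact Dvd.intro 1 (by ring))
    have hc := IsSimpleGroup.comm_iff_isSolvable.2 hs
    have hn : (Subgroup.zpowers x).Normal := ⟨fun y hy g => by rw [hc g y]; simpa using hy⟩
    rcases hn.eq_bot_or_eq_top with h1 | h1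
    · rw [Subgroup.zpowers_eq_bot] at h1
      rw [h1, orderOf_one] at hx
      exact absurd hx hp.one_lt.ne
    · rw [h1, eq_top_iff]
      exact fun g _ => Subgroup.mem_centralizer_singleton_iff.2 (hc g x)
  · push Not at h
    have h1 : (Nat.card G).factorization p = 1 := by
      rw [hG, Nat.factorization_mul (mul_ne_zero hp.ne_zero (by positivity)) (by positivity),
        Nat.factorization_mul hp.ne_zero (by positivity), Nat.factorization_pow,
        Nat.factorization_pow]
      simp [hp.factorization, Nat.prime_two.factorization, Nat.prime_three.factorization,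
        Finsupp.single_apply, h.1.symm, h.2.symm]
    let S : Sylow p G := Sylow.ofCard (Subgroup.zpowers x) (by rw [h1, Nat.card_zpowers, hx, pow_one])
    have h2 := Cfsg.Agent.S0904.result 3 2 p a b Nat.prime_three Nat.prime_two (by norm_num)
      h.2.symm h.1.symm (by rw [hG]; ring) S
    have h3 : (S : Subgroup G) = Subgroup.zpowers x := rfl
    rw [← h3, ← h2]
    ext g
    rw [Subgroup.mem_centralizer_singleton_iff, Subgroup.mem_centralizer_iff]
    constructor
    · rintro h4 _ ⟨i, rfl⟩
      exact ((show Commute g x from h4).zpow_right i).symm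
    · intro h4
      exact (h4 x (Subgroup.mem_zpowers x)).symm

end Cfsg.Agent.S1001
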