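import Cfsg.Statements.S1138
import Cfsg.Agent.Lib.Suz.Higman

set_option autoImplicit false
open Cfsg

namespace Cfsg.Agent.S1138

/-- Let `P` be a Suzuki 2-group with `|Z(P)| = q`. Then every square lies in `Z(P)` and `P/Z(P)` is abelian (so elementary abelian), `|P| = q²` or `|P| = q³`, and `P` has exponent 4. -/
theorem result {P : Type*} [Group P] (hP : Cfsg.IsSuzukiTwoGroup P) :
    (∀ x : P, x * x ∈ Subgroup.center P) ∧ (∀ x y : P, x⁻¹ * y⁻¹ * x * y ∈ Subgroup.center P) ∧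
      (Nat.card P = Nat.card (Subgroup.center P) ^ 2 ∨ Nat.card P = Nat.card (Subgroup.center P) ^ 3) ∧
      Monoid.exponent P = 4 := by
  refine ⟨H13.Hig.suzuki_sq_mem hP, fun x y => ?_, H13.Hig.suzuki_card hP, ?_⟩
  · simpa [commutatorElement_def] using H13.Hig.cm_mem_of_sq (H13.Hig.suzuki_sq_mem hP) x⁻¹ y⁻¹
  · have h4 : Monoid.exponent P ∣ 2 ^ 2 := Monoid.exponent_dvd_of_forall_pow_eq_one fun x => by
      rw [show 2 ^ 2 = 2 * 2 from rfl, pow_mul, sq, sq]
      exact (H13.Hig.suzuki_mem_center hP _).1 (H13.Hig.suzuki_sq_mem hP x)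
    obtain ⟨i, hi, e⟩ := (Nat.dvd_prime_pow Nat.prime_two).1 h4
    by_contra hne
    have h2 : Monoid.exponent P ∣ 2 := by
      interval_cases i
      · rw [e]; exact one_dvd _
      · rw [e]; rfl
      · exact absurd e hne
    obtain ⟨x, y, e⟩ := hP.2.2.1
    exact e (Subgroup.mem_center_iff.1 ((H13.Hig.suzuki_mem_center hP y).2
      (by rw [← sq]; exact Monoid.exponent_dvd_iff_forall_pow_eq_one.1 h2 y)) x)

end Cfsg.Agent.S1138
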