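import Cfsg.Statements.S1187
import Mathlib
import Cfsg.Agent.Lib.TwoFusion.ZStarIso
import Cfsg.Agent.Lib.Core.GrpBasic

set_option autoImplicit false
open Cfsg

namespace Cfsg.Agent.S1187

theorem exists_invariant_sylow {G : Type*} [Group G] [Finite G] {z : G}
    (hz : Cfsg.IsIsolatedInvolution z) {p : ℕ} [hp : Fact p.Prime] :
    ∃ P : Sylow p G, z ∈ Subgroup.normalizer ((P : Subgroup G) : Set G) := by
  have hz2 : IsPGroup 2 (Subgroup.zpowers z) :=
    IsPGroup.of_card (n := 1) (by rw [Nat.card_zpowers, hz.1, pow_one])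
  by_cases h2 : p = 2
  · subst h2
    obtain ⟨P, hP⟩ := hz2.exists_le_sylow
    exact ⟨P, Subgroup.le_normalizer (hP (Subgroup.mem_zpowers z))⟩
  obtain ⟨N, hN, hodd, h⟩ := H41.Isolated.zstar_exists hz
  obtain ⟨P⟩ : Nonempty (Sylow p G) := inferInstance
  set K : Subgroup G := (P : Subgroup G) ⊔ N with hK
  have hzK : z ∈ Subgroup.normalizer (K : Set G) := by
    apply Subgroup.mem_normalizer_fintype
    intro g hg
    have := K.mul_mem ((le_sup_right : N ≤ K) (h g)) hg
    simpa using this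
  have hKodd : ¬ 2 ∣ Nat.card K := by
    intro hd
    obtain ⟨n, hn⟩ := IsPGroup.iff_card.1 P.2
    have h3 := hd.trans (H1.card_sup_dvd_of_normal (P : Subgroup G) N)
    rcases (Nat.Prime.dvd_mul Nat.prime_two).1 h3 with h4 | h4
    · rw [hn] at h4
      exact h2 ((Nat.prime_dvd_prime_iff_eq Nat.prime_two hp.out).1
        (Nat.prime_two.dvd_of_dvd_pow h4)).symm
    · exact (Nat.not_even_iff_odd.2 hodd) (even_iff_two_dvd.2 h4)
  let φ : MulAut K := K.normalizerMonoidHom ⟨z, hzK⟩
  have hφ : φ ^ 2 ^ 1 = 1 := by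
    rw [← map_pow]
    have : (⟨z, hzK⟩ : Subgroup.normalizer (K : Set G)) ^ 2 ^ 1 = 1 :=
      Subtype.ext (by simpa [pow_two] using H41.Isolated.mul_self hz)
    rw [this, map_one]
  have := Fintype.ofFinite (Sylow p K)
  have hcard : ¬ 2 ∣ Fintype.card (Sylow p K) := by
    intro hd
    rw [← Nat.card_eq_fintype_card] at hd
    exact hKodd ((hd.trans (P.subtype (le_sup_left : _ ≤ K)).card_dvd_index).trans
      (Subgroup.index_dvd_card _))
  obtain ⟨R, hR⟩ := Equiv.Perm.exists_fixed_point_of_prime (p := 2) (n := 1) hcard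
    (σ := MulAction.toPermHom (MulAut K) (Sylow p K) φ) (by rw [← map_pow, hφ, map_one])
  have hR' : φ • R = R := hR
  have hc : Nat.card ((R : Subgroup K).map K.subtype) = p ^ (Nat.card G).factorization p := by
    rw [Subgroup.card_map_of_injective K.subtype_injective, ← P.card_eq_multiplicity,
      R.card_eq_multiplicity, ← (P.subtype (le_sup_left : _ ≤ K)).card_eq_multiplicity,
      Sylow.coe_subtype, H1.card_subgroupOf_of_le le_sup_left]
  refine ⟨Sylow.ofCard _ hc, ?_⟩
  rw [Sylow.coe_ofCard]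
  apply Subgroup.mem_normalizer_fintype
  rintro _ ⟨y, hy, rfl⟩
  refine ⟨φ y, ?_, rfl⟩
  rw [← hR']
  exact Subgroup.smul_mem_pointwise_smul _ _ _ hy

/-- Let z be an isolated involution of the finite group G and p a prime. If Q is a p-subgroup normalized by z that is maximal among p-subgroups normalized by z, then Q is a Sylow p-subgroup of G. -/
theorem result {G : Type*} [Group G] [Finite G] (z : G) (hz : Cfsg.IsIsolatedInvolution z) {p : ℕ} [Fact p.Prime] (Q : Subgroup G) (hQ : IsPGroup p Q) (hzQ : z ∈ Subgroup.normalizer (Q : Set G)) (hmax : ∀ R : Subgroup G, IsPGroup p R → z ∈ Subgroup.normalizer (R : Set G) → Q ≤ R → R = Q) : ∃ P : Sylow p G, (P : Subgroup G) = Q := by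
  have hfin : ∀ P : Sylow p (Subgroup.normalizer (Q : Set G)),
      (P : Subgroup _).map (Subgroup.normalizer (Q : Set G)).subtype = Q →
      ∃ P : Sylow p G, (P : Subgroup G) = Q := by
    intro P hP
    obtain ⟨S, hS⟩ := hQ.exists_le_sylow
    refine ⟨S, ?_⟩
    by_contra hne
    have hlt : Q.subgroupOf S < ⊤ := by
      rw [lt_top_iff_ne_top, Ne, Subgroup.subgroupOf_eq_top]
      exact fun h => hne (le_antisymm h hS)
    have := S.2.isNilpotent
    obtain ⟨x, hx, hxQ⟩ := SetLike.exists_of_lt (Group.normalizerCondition_of_isNilpotent _ hlt)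
    rw [← Subgroup.subgroupOf_normalizer_eq hS] at hx
    have hx' : (x : G) ∈ Subgroup.normalizer (Q : Set G) := hx
    have h1 : IsPGroup p ((S : Subgroup G).subgroupOf (Subgroup.normalizer (Q : Set G))) :=
      S.2.comap_subtype
    have h2 := P.3 h1 (by
      intro y hy
      have : (y : G) ∈ Q := hP.le ⟨y, hy, rfl⟩
      exact hS this)
    apply hxQ
    show (x : G) ∈ Q
    exact hP.le ⟨⟨x, hx'⟩, h2.le x.2, rfl⟩
  obtain ⟨P, hP⟩ := exists_invariant_sylow (p := p) (H41.Isolated.subgroup hz hzQ)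
  apply hfin P
  apply hmax _ (P.2.map _)
  · exact Subgroup.le_normalizer_map _ ⟨_, hP, rfl⟩
  · have h1 : IsPGroup p (Q.subgroupOf (Subgroup.normalizer (Q : Set G))) := hQ.comap_subtype
    have h2 := h1.le_sylow_of_normal P
    intro x hx
    exact ⟨⟨x, Subgroup.le_normalizer hx⟩, h2 hx, rfl⟩

end Cfsg.Agent.S1187
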