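import Cfsg.Statements.S1237
import Cfsg.Agent.Lib.TwoFusion.U34Model
import Cfsg.Agent.Lib.TwoFusion.RankTwo

set_option autoImplicit false
open Cfsg

namespace Cfsg.Agent.S1237

/-- Let T be a finite 2-group of 2-rank exactly 2 (it has a Klein four-subgroup but no elementary abelian subgroup of order 8) admitting an automorphism φ such that any two involutions of T are carried to one another by a power of φ. Then T ≅ Z_{2^n} × Z_{2^n} for some n ≥ 1, or T is isomorphic to a Sylow 2-subgroup of PSU(3) over the field with 16 elements. -/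
theorem result {T : Type*} [Group T] [Finite T] (hT : IsPGroup 2 T) (h2 : Cfsg.PRankLE 2 2 T) (h1 : ¬ Cfsg.PRankLE 2 1 T) (φ : MulAut T) (htrans : ∀ s t : T, orderOf s = 2 → orderOf t = 2 → ∃ k : ℕ, (φ ^ k) s = t) {F : Type*} [Field F] [Fintype F] (hF : Fintype.card F = 16) (P : Sylow 2 (Cfsg.PSU 3 F 4)) : (∃ n : ℕ, 1 ≤ n ∧ Nonempty (T ≃* Multiplicative (ZMod (2 ^ n) × ZMod (2 ^ n)))) ∨ Nonempty (T ≃* (P : Subgroup (Cfsg.PSU 3 F 4))) := by
  obtain ⟨a, b, ha, hb, hc, ha1, hb1, hab⟩ := H41.hasFour_of_not_pRankLE h1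
  have : Nontrivial T := ⟨⟨a, 1, ha1⟩⟩
  have : Fact (Nat.Prime 2) := ⟨Nat.prime_two⟩
  obtain ⟨z, -, hzc, hz⟩ := H5.exists_mem_center_orderOf_eq hT (⊤ : Subgroup T) top_ne_bot
  have hcen : ∀ c g : T, c * c = 1 → g * c = c * g := by
    intro c g hc
    by_cases hc1 : c = 1
    · simp [hc1]
    obtain ⟨k, rfl⟩ := htrans z c hz (H41.orderOf_two_of_mul_self hc1 hc)
    obtain ⟨g, rfl⟩ := (φ ^ k).surjective g
    rw [← map_mul, ← map_mul, Subgroup.mem_center_iff.1 hzc]
  have h4 : H41.V4 a b := ⟨hT, ha, hb, ha1, hb1, hab, hcen, fun c hc' =>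
    H41.rkTwo_of_pRankLE h2 a b c ha hb hc' hc (hcen _ _ hc') (hcen _ _ hc') ha1 hb1 hab⟩
  have h5 := h4.tri0 (α := φ) fun c hc' he => by
    by_contra hc1
    have key : ∀ d : T, d * d = 1 → d ≠ 1 → d = c := fun d hd hd1 => by
      obtain ⟨k, rfl⟩ := htrans c d (H41.orderOf_two_of_mul_self hc1 hc')
        (H41.orderOf_two_of_mul_self hd1 hd)
      exact MulAction.mem_stabilizer_iff.1 (pow_mem (show φ ∈ MulAction.stabilizer _ c from he) k)
    exact hab ((key b hb hb1).trans (key a ha ha1).symm)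
  exact h5.homocyclic_or.imp_right fun h => h.equiv_sylow hF P

end Cfsg.Agent.S1237
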