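import Cfsg.Statements.S1238
import Cfsg.Agent.Lib.TwoFusion.U34Model
import Cfsg.Agent.Lib.TwoFusion.RankTwo
import Cfsg.Agent.Lib.Invol.Dihedral

set_option autoImplicit false
open Cfsg

namespace Cfsg.Agent.S1238

/-- Let G be a finite group of 2-rank 2 (a Klein four-subgroup but no elementary abelian subgroup of order 8) which is fusion simple: G has no subgroup of index 2 and no isolated involution. Let S be a Sylow 2-subgroup. Then S is dihedral, quasi-dihedral, wreathed, isomorphic to Z_{2^n} × Z_{2^n} for some n ≥ 2, or isomorphic to a Sylow 2-subgroup of PSU(3) over the field with 16 elements. -/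
theorem result {G : Type*} [Group G] [Finite G] (h2 : Cfsg.PRankLE 2 2 G) (h1 : ¬ Cfsg.PRankLE 2 1 G) (hidx : ∀ H : Subgroup G, H.index ≠ 2) (hiso : ∀ z : G, ¬ Cfsg.IsIsolatedInvolution z) (S : Sylow 2 G) {F : Type*} [Field F] [Fintype F] (hF : Fintype.card F = 16) (P : Sylow 2 (Cfsg.PSU 3 F 4)) : (∃ m : ℕ, 2 ≤ m ∧ Nonempty ((S : Subgroup G) ≃* DihedralGroup m)) ∨ Cfsg.IsQuasiDihedral (S : Subgroup G) ∨ Cfsg.IsWreathed (S : Subgroup G) ∨ (∃ n : ℕ, 2 ≤ n ∧ Nonempty ((S : Subgroup G) ≃* Multiplicative (ZMod (2 ^ n) × ZMod (2 ^ n)))) ∨ Nonempty ((S : Subgroup G) ≃* (P : Subgroup (Cfsg.PSU 3 F 4))) := by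
  have := H41.r2t_sylow h2 (H41.hasFour_of_not_pRankLE h1) S fun z hz hz2 => by
    by_contra hn
    push Not at hn
    exact hiso z ⟨hz2, fun g hg => H9.eq_of_isolated S hn
      (H9.isPGroup_closure_pair_of_commute (H41.mul_self_of_orderOf_two hz2)
        (H41.mul_self_of_orderOf_two (by rw [H41.orderOf_conj, hz2])) hg)
      (Subgroup.subset_closure (by simp)) (Subgroup.subset_closure (by simp))
      (isConj_iff.2 ⟨g, rfl⟩) (IsConj.refl z)⟩
  exact this.imp_right (Or.imp_right (Or.imp_right (Or.imp_right fun h => h.equiv_sylow hF P)))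

end Cfsg.Agent.S1238
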