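import Mathlib
import Cfsg.Statements.S1313
import Cfsg.Agent.Lib.Comp.FStar
-- import your own Cfsg.Agent.* helpers here

set_option autoImplicit false
open Cfsg

namespace Cfsg.Agent.S1313

/-- For a finite group H, |H| ≤ |F*(H)|!. -/
theorem result {H : Type*} [Group H] [Finite H] : Nat.card H ≤ Nat.factorial (Nat.card ↥(Cfsg.generalizedFittingSubgroup H)) := by
  classical
  set F := Cfsg.generalizedFittingSubgroup H with hF
  let φ : H →* MulAut F := MulAut.conjNormal
  have hker : φ.ker ≤ F := by
    refine le_trans ?_ H23.centralizer_fStar_le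
    intro x hx
    rw [Subgroup.mem_centralizer_iff]
    intro y hy
    have h1 : φ x ⟨y, hy⟩ = ⟨y, hy⟩ := by rw [MonoidHom.mem_ker.mp hx]; rfl
    have h2 : x * y * x⁻¹ = y := by
      have := congrArg Subtype.val h1
      simpa [φ] using this
    calc y * x = (x * y * x⁻¹) * x := by rw [h2]
      _ = x * y := by group
  have h1 : Nat.card H = Nat.card φ.range * Nat.card φ.ker := by
    rw [← Subgroup.index_ker, Subgroup.index_mul_card]
  have h2 : Nat.card φ.ker ≤ Nat.card F := Subgroup.card_le_of_le hker
  have h3 : Nat.card φ.range ≤ Nat.card (MulAut F) := Subgroup.card_le_card_group _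
  -- automorphisms permute the non-identity elements faithfully
  have h4 : Nat.card (MulAut F) ≤ (Nat.card F - 1).factorial := by
    let ψ : MulAut F → Equiv.Perm {x : F // x ≠ 1} := fun e =>
      Equiv.Perm.subtypePerm e.toEquiv (fun x => by simp)
    have hψ : Function.Injective ψ := by
      intro e e' h
      ext x
      by_cases hx : x = 1
      · simp [hx]
      · have := congrArg (fun σ : Equiv.Perm {x : F // x ≠ 1} => ((σ ⟨x, hx⟩ : F) : H)) h
        simpa [ψ] using this
    have := Fintype.ofFinite F
    have h5 := Nat.card_le_card_of_injective ψ hψ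
    rw [Nat.card_perm] at h5
    have h6 : Nat.card {x : F // x ≠ 1} = Nat.card F - 1 := by
      simp [Nat.card_eq_fintype_card]
    rwa [h6] at h5
  have hpos : 0 < Nat.card F := Nat.card_pos
  calc Nat.card H ≤ (Nat.card F - 1).factorial * Nat.card F := by
        rw [h1]; exact Nat.mul_le_mul (h3.trans h4) h2
    _ = (Nat.card F).factorial := by
        rw [mul_comm, Nat.mul_factorial_pred hpos.ne']

end Cfsg.Agent.S1313
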