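import Cfsg.Statements.S1328
import Mathlib
import Cfsg.Agent.Lib.PComp.Automizer

set_option autoImplicit false
open Cfsg

namespace Cfsg.Agent.S1328

/-- Let G be finite, H ≤ G with O(H) = 1, t an involution of G normalizing H, and Y a nontrivial subgroup of O(C_H(t)). Then some component E of H is normalized by t and by Y and centralized by neither t nor Y. -/
theorem result {G : Type*} [Group G] [Finite G] (H : Subgroup G) (hO : Cfsg.oddCore ↥H = ⊥) (t : G) (ht : orderOf t = 2) (htH : t ∈ Subgroup.normalizer (H : Set G)) (Y : Subgroup G) (hY1 : Y ≠ ⊥) (hY : Y ≤ (Cfsg.oddCore ↥(H ⊓ Subgroup.centralizer ({t} : Set G))).map (H ⊓ Subgroup.centralizer ({t} : Set G)).subtype) : ∃ E : Subgroup ↥H, Cfsg.IsComponent E ∧ (E.map H.subtype).map (MulAut.conj t).toMonoidHom = E.map H.subtype ∧ Y ≤ Subgroup.normalizer ((E.map H.subtype : Subgroup G) : Set G) ∧ ¬ (t ∈ Subgroup.centralizer ((E.map H.subtype : Subgroup G) : Set G)) ∧ ¬ (Y ≤ Subgroup.centralizer ((E.map H.subtype : Subgroup G) : Set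 G)) := by
  have : Fact (Nat.Prime 2) := ⟨Nat.prime_two⟩
  set M := H ⊔ Subgroup.zpowers t with hM
  have hHM : H ≤ M := le_sup_left
  have htM : t ∈ M := (le_sup_right : _ ≤ M) (Subgroup.mem_zpowers t)
  have hMH : M ≤ Subgroup.normalizer (H : Set G) :=
    sup_le Subgroup.le_normalizer (Subgroup.zpowers_le.mpr htH)
  have hP := H44.isPGroup_zpowers_of_orderOf ht
  have hsub : H44.SubnIn H M := H44.SubnIn.of_normalizer hHM hMH
  have hOM : H44.coreOf 2 M = ⊥ := by
    have h1 : H44.coreOf 2 M ≤ H := by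
      intro w hw
      have hw2 := (H44.coprime_card_coreOf 2 M).coprime_dvd_left (H1.orderOf_dvd_card_of_mem hw)
      have hn : (H.subgroupOf M).Normal := (Subgroup.normal_subgroupOf_iff_le_normalizer hHM).mpr hMH
      have h2 : (H.subgroupOf M).index ∣ 2 := by
        change H.relIndex M ∣ 2
        rw [hM, sup_comm, H1.relIndex_sup_of_le_normalizer (Subgroup.zpowers_le.mpr htH), ← ht,
          ← Nat.card_zpowers]
        exact Subgroup.relIndex_dvd_card _ _
      exact H1.mem_of_coprime_index (N := H.subgroupOf M) (x := ⟨w, H44.coreOf_le 2 M hw⟩)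
        (by rw [← Subgroup.orderOf_coe]; exact hw2.coprime_dvd_right h2)
    rw [← inf_eq_left.mpr h1, ← H44.coreOf_eq_inf hsub]
    exact H44.coreOf_eq_bot_iff.mpr hO
  have hO' := H44.coreOf_eq_bot_iff.mp hOM
  let t' : M := ⟨t, htM⟩
  have ht' : orderOf t' = 2 := by rw [← Subgroup.orderOf_coe]; exact ht
  have hP' := H44.isPGroup_zpowers_of_orderOf ht'
  have hYM : Y ≤ M := (hY.trans (Subgroup.map_subtype_le _)).trans (inf_le_left.trans hHM)
  have hY' : Y.subgroupOf M ≤ H44.coreOf 2 (Subgroup.centralizer ({t'} : Set M)) := by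
    rw [H44.centralizer_singleton_subtype, ← Subgroup.inf_subgroupOf_left (Subgroup.centralizer _),
      H44.coreOf_subgroupOf_of_le inf_le_left]
    exact Subgroup.comap_mono (hY.trans (H44.coreOf_le_coreOf (hsub.inf_right _)))
  have hY'' := hY'
  rw [← H44.centralizer_zpowers] at hY''
  obtain ⟨L, hL, hLY⟩ : ∃ L : Subgroup M, Cfsg.IsComponent L ∧ ⁅L, Y.subgroupOf M⁆ ≠ ⊥ := by
    by_contra hcon
    push Not at hcon
    have h1 := H44.eq_bot_of_centralizes hO' (H44.coprime_of_le_coreOf hY')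
      ((hY''.trans le_sup_right).trans (H44.sup_centralizer_le_centralizer_pCore hP')) hcon
    rw [Subgroup.subgroupOf_eq_bot, disjoint_iff, inf_eq_left.mpr hYM] at h1
    exact hY1 h1
  have h1 : ⁅L, Subgroup.zpowers t'⁆ = L := by
    by_contra h
    exact hLY (H23.commutator_eq_bot_of_le le_rfl hY'
      (H44.commutator_coreOf_eq_bot_of_commutator_ne hO' hL ht' h))
  have h2 : Y.subgroupOf M ≤ Subgroup.normalizer (L : Set M) :=
    (hY''.trans le_sup_right).trans (H44.sup_centralizer_le_normalizer_component hO' hL hP')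
  have h3 : Subgroup.zpowers t' ≤ Subgroup.normalizer (L : Set M) :=
    Subgroup.le_normalizer_iff_commutator_le_left.mpr h1.le
  have hLM : Cfsg.IsComponentOf (L.map M.subtype) M :=
    H44.isComponentOf_iff.mpr ⟨H44.SubnIn.map_subtype hL.1,
      (H23.isQuasisimple_map_iff M.subtype_injective L).mpr hL.2⟩
  have hYH : Y ≤ H := (hY.trans (Subgroup.map_subtype_le _)).trans inf_le_left
  have hc : ∀ U : Subgroup G, U ≤ M → U ≤ Subgroup.centralizer (L.map M.subtype : Set G) →
      ⁅L, U.subgroupOf M⁆ = ⊥ := fun U _ hU => by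
    rw [Subgroup.commutator_comm, Subgroup.commutator_eq_bot_iff_le_centralizer]
    intro u hu l hl
    exact Subtype.ext (hU hu l ⟨l, hl, rfl⟩)
  have hLH : L.map M.subtype ≤ H := (H44.IsComponentOf.le_or_commutator_eq_bot hLM hsub).resolve_right
    fun h => hLY (hc Y hYM (hYH.trans (Subgroup.commutator_eq_bot_iff_le_centralizer.mp
      (H23.commutator_eq_bot_symm h))))
  have he : ((L.map M.subtype).subgroupOf H).map H.subtype = L.map M.subtype :=
    Subgroup.map_subgroupOf_eq_of_le hLH
  refine ⟨(L.map M.subtype).subgroupOf H, (H44.IsComponentOf.of_le hLM hLH hHM).2, ?_⟩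
  rw [he]
  refine ⟨H68.mem_normalizer_iff_cj.mp (H44.map_le_normalizer_map h3 M.subtype
    ⟨t', Subgroup.mem_zpowers _, rfl⟩), ?_, fun h => ?_, fun h => hLY (hc Y hYM h)⟩
  · rw [← Subgroup.map_subgroupOf_eq_of_le hYM]
    exact H44.map_le_normalizer_map h2 M.subtype
  · refine H23.IsComponent.ne_bot hL (h1.symm.trans ?_)
    rw [Subgroup.commutator_comm, Subgroup.commutator_eq_bot_iff_le_centralizer,
      Subgroup.zpowers_le]
    intro l hl
    exact Subtype.ext (h l ⟨l, hl, rfl⟩)

end Cfsg.Agent.S1328
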