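import Cfsg.Statements.S1708
import Cfsg.Agent.Lib.HN.Cover
-- import your own Cfsg.Agent.* helpers here

set_option autoImplicit false
open Cfsg

namespace Cfsg.Agent.S1708

/-- In the presented Harada–Norton group, the subgroup N generated by the images of x, y, z has a normal subgroup of index 2 which is a non-split double cover of the Higman–Sims group. -/
theorem result : ∃ K : Subgroup (((Subgroup.closure ({Cfsg.Spor.HN.x, Cfsg.Spor.HN.y, Cfsg.Spor.HN.z} : Set (FreeGroup Cfsg.Spor.HN.Gen))).map (PresentedGroup.mk (Cfsg.Spor.coxRelators Cfsg.Spor.HN.edges ∪ {r | r ∈ Cfsg.Spor.HN.extra})))), K.Normal ∧ K.index = 2 ∧ Cfsg.IsNonsplitDoubleCover K Cfsg.Spor.HS := by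
  refine H54.HN.exists_cover ((MonoidHom.ofInjective H54.HN.θ_inj).trans (MulEquiv.subgroupCongr ?_))
  rw [H54.map_closure_eq H54.HN.mem_gens [Spor.HN.x, Spor.HN.y, Spor.HN.z] (by simp)
    (E := [[0], [2], [4]]) (by decide +kernel), H54.HN.range_eq']

end Cfsg.Agent.S1708
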