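import Cfsg.Statements.S1710
import Cfsg.Agent.Lib.Ly.Main
-- import your own Cfsg.Agent.* helpers here

set_option autoImplicit false
open Cfsg

namespace Cfsg.Agent.S1710

/-- In the presented Lyons group, the subgroup generated by the images of a, b, c, d is isomorphic to the adjoint Chevalley group of type G₂ over a field with five elements. -/
theorem result : ∃ (K : Type) (_ : Field K) (_ : Fintype K), Fintype.card K = 5 ∧ Nonempty ((((Subgroup.closure ({Cfsg.Spor.Ly.a, Cfsg.Spor.Ly.b, Cfsg.Spor.Ly.c, Cfsg.Spor.Ly.d} : Set (FreeGroup Cfsg.Spor.Ly.Gen))).map (PresentedGroup.mk (Cfsg.Spor.coxRelators Cfsg.Spor.Ly.edges ∪ {r | r ∈ Cfsg.Spor.Ly.extra})))) ≃* Cfsg.Lie.chevG2.group K) := by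
  rw [H54.map_closure_eq H54.Ly.mem_gens [Spor.Ly.a, Spor.Ly.b, Spor.Ly.c, Spor.Ly.d] (by simp)
    (E := [[0], [2], [4], [6]]) (by decide +kernel), ← H54.Ly.range_eq']
  exact ⟨ZMod 5, inferInstance, inferInstance, ZMod.card 5,
    ⟨(MonoidHom.ofInjective H54.Ly.θ_inj).symm.trans H54.Ly.equivP.some⟩⟩

end Cfsg.Agent.S1710
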