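import Mathlib
import Cfsg.Agent.Base
import Cfsg.Agent.Lib.PGroup.Extra
import Cfsg.Agent.Lib.Comp.FStar
import Cfsg.Agent.Lib.Core.Coprime
import Cfsg.Statements.S1784

set_option autoImplicit false
open Cfsg

namespace Cfsg.Agent.S1784

open Subgroup H5
open scoped commutatorElement

theorem zp_two {G : Type*} [Group G] {z c : G} (hz : orderOf z = 2) (hc : c ∈ zpowers z) :
    c = 1 ∨ c = z := by
  by_cases h : c = 1
  · exact Or.inl h
  right
  have h2 : z * z = 1 := by rw [← pow_two, ← hz, pow_orderOf_eq_one]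
  obtain ⟨k, rfl⟩ := hc
  simp only at h ⊢
  rcases Int.even_or_odd' k with ⟨j, rfl | rfl⟩
  · exact absurd (by rw [zpow_mul, zpow_ofNat, pow_two, h2, one_zpow]) h
  · rw [zpow_add, zpow_mul, zpow_ofNat, pow_two, h2, one_zpow, one_mul, zpow_one]

theorem ident {G : Type*} [Group G] {Q : Subgroup G} {z α : G} (h : WES 2 Q z) (hα : α * α = 1)
    (hαz : Commute α z) (hn : ∀ q ∈ Q, α * q * α⁻¹ ∈ Q) {q y : G} (hq : q ∈ Q) (hy : y ∈ Q) :
    ⁅α * q * α⁻¹ * q⁻¹, y⁆ = ⁅q, α * y * α⁻¹ * y⁻¹⁆ := by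
  have hi : α⁻¹ = α := inv_eq_of_mul_eq_one_right hα
  rw [h.commutator_mul_left (hn q hq) (h.comm _ (inv_mem hq) _ hy),
    commutator_mul_right_of_commute (h.commute (h.comm _ hq _ (inv_mem hy)) (hn y hy)),
    commutator_inv_left_of_commute (h.commute (h.comm _ hq _ hy) hq),
    commutator_inv_right_of_commute (h.commute (h.comm _ hq _ hy) hy)]
  have e : ⁅α * q * α⁻¹, y⁆ = ⁅q, α * y * α⁻¹⁆ := by
    have h1 : Commute α ⁅q, α * y * α⁻¹⁆ := by
      rcases zp_two h.ord (h.comm _ hq _ (hn y hy)) with e | e <;> rw [e]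
      exacts [Commute.one_right _, hαz]
    calc ⁅α * q * α⁻¹, y⁆ = α * ⁅q, α⁻¹ * y * α⁆ * α⁻¹ := by simp only [commutatorElement_def]; group
      _ = α * ⁅q, α * y * α⁻¹⁆ * α⁻¹ := by rw [hi]
      _ = _ := by rw [h1.eq, mul_inv_cancel_right]
  rw [e]
  exact (h.commute (inv_mem (h.comm _ hq _ hy)) (h.zpowers_le (h.comm _ hq _ (hn y hy)))).symm.eq

theorem main {G : Type*} [Group G] [Finite G] {Q : Subgroup G} {z α : G} (h : WES 2 Q z)
    (hα : α * α = 1) (hαz : Commute α z) (hn : ∀ q ∈ Q, α * q * α⁻¹ ∈ Q)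
    (hc : ∃ q ∈ Q, α * q * α⁻¹ * q⁻¹ ≠ 1) (Q₀ : Subgroup G)
    (hQ₀ : ∀ q : G, q ∈ Q₀ ↔ (q ∈ Q ∧ α * q * α⁻¹ * q⁻¹ ∈ zpowers z)) :
    closure ((fun q : G => α * q * α⁻¹ * q⁻¹) '' (Q : Set G)) = (center Q₀).map Q₀.subtype := by
  have hi : α⁻¹ = α := inv_eq_of_mul_eq_one_right hα
  set D := closure ((fun q : G => α * q * α⁻¹ * q⁻¹) '' (Q : Set G)) with hD
  have hmem : ∀ q ∈ Q, α * q * α⁻¹ * q⁻¹ ∈ D := fun q hq => subset_closure ⟨q, hq, rfl⟩
  have hcQ : ∀ q ∈ Q, α * q * α⁻¹ * q⁻¹ ∈ Q := fun q hq => mul_mem (hn q hq) (inv_mem hq)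
  have hDQ : D ≤ Q := (closure_le _).2 (by rintro _ ⟨q, hq, rfl⟩; exact hcQ q hq)
  apply le_antisymm
  · rw [hD, closure_le]
    rintro _ ⟨q, hq, rfl⟩
    have h1 : α * q * α⁻¹ * q⁻¹ ∈ Q₀ := by
      refine (hQ₀ _).2 ⟨hcQ q hq, ?_⟩
      have := h.pow_mem (inv_mem (hcQ q hq))
      convert this using 1
      have e : α * (α * q * α⁻¹ * q⁻¹) * α⁻¹ = (α * q * α⁻¹ * q⁻¹)⁻¹ := by
        rw [← mul_assoc, ← mul_assoc, ← mul_assoc, hα, one_mul]
        simp only [mul_inv_rev, inv_inv, hi, mul_assoc]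
      rw [e, pow_two]
    refine ⟨⟨_, h1⟩, mem_center_iff.2 fun y => Subtype.ext ?_, rfl⟩
    obtain ⟨hy1, hy2⟩ := (hQ₀ _).1 y.2
    have := ident h hα hαz hn hq hy1
    rw [(commutatorElement_eq_one_iff_commute.2 (h.commute hy2 hq))] at this
    exact (commutatorElement_eq_one_iff_commute.1 this).symm.eq
  rintro _ ⟨w, hw, rfl⟩
  by_contra hwD
  have hzD : z ∈ D := by
    obtain ⟨q, hq, hne⟩ := hc
    by_cases h1 : α * q * α⁻¹ * q⁻¹ ∈ zpowers z
    · exact (zp_two h.ord h1).resolve_left hne ▸ hmem q hq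
    · have : ¬ ∀ y ∈ Q, Commute y (α * q * α⁻¹ * q⁻¹) := fun h2 =>
        h1 (h.mem_zpowers_of_commute (hcQ q hq) h2)
      push Not at this
      obtain ⟨x, hx, hxc⟩ := this
      rw [← (zp_two h.ord (h.comm _ hx _ (hcQ q hq))).resolve_left
        (fun e => hxc (commutatorElement_eq_one_iff_commute.1 e))]
      have := mul_mem (mul_mem (inv_mem (hmem x hx)) (hmem _ (mul_mem hx hq))) (inv_mem (hmem q hq))
      convert this using 1
      simp only [commutatorElement_def]; group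
  have hzD' : zpowers z ≤ D := zpowers_le.2 hzD
  have hwQ : (w : G) ∈ Q := ((hQ₀ _).1 w.2).1
  obtain ⟨M, hM1, hM2, hM3⟩ := exists_index_eq_not_mem (G := Q) (p := 2) (N := D.subgroupOf Q)
    (by
      rw [commutator_def, commutator_le]
      intro a _ b _
      exact hzD' (h.comm _ a.2 _ b.2))
    (fun x => hzD' (h.pow_mem x.2)) (g := ⟨w, hwQ⟩) hwD
  set M' := M.map Q.subtype with hM'
  have hMQ : M' ≤ Q := map_subtype_le _
  have hDM : D ≤ M' := fun x hx => ⟨⟨x, hDQ hx⟩, hM1 hx, rfl⟩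
  have hcard : Nat.card M' * 2 = Nat.card Q := by
    rw [hM', card_map_of_injective Q.subtype_injective, ← hM2, card_mul_index]
  have : ¬ M' ⊓ centralizer (M' : Set G) ≤ zpowers z := by
    intro hle
    have hW : WES 2 M' z := ⟨h.ord, le_antisymm hle (le_inf (hzD'.trans hDM)
      (h.zpowers_le_cent.trans (centralizer_le hMQ))), fun x hx y hy => h.comm _ (hMQ hx) _ (hMQ hy)⟩
    obtain ⟨a, ha⟩ := hW.exists_card Nat.prime_two
    obtain ⟨b, hb⟩ := h.exists_card Nat.prime_two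
    rw [ha, hb, ← pow_succ] at hcard
    have := Nat.pow_right_injective le_rfl hcard
    omega
  obtain ⟨y, ⟨hy1, hy2⟩, hy3⟩ := SetLike.not_le_iff_exists.1 this
  have hyQ := hMQ hy1
  have hy0 : y ∈ Q₀ := by
    refine (hQ₀ _).2 ⟨hyQ, h.mem_zpowers_of_commute (hcQ y hyQ) fun q hq => ?_⟩
    rw [← commutatorElement_eq_one_iff_commute, ← ident h hα hαz hn hq hyQ,
      commutatorElement_eq_one_iff_commute]
    exact hy2 _ (hDM (hmem q hq))
  have hwy : Commute (w : G) y := (congrArg Subtype.val (mem_center_iff.1 hw ⟨y, hy0⟩)).symm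
  refine hy3 (h.mem_zpowers_of_commute hyQ fun q hq => ?_)
  by_cases hqM : (⟨q, hq⟩ : Q) ∈ M
  · exact hy2 q ⟨_, hqM, rfl⟩
  · have h1 : (⟨q, hq⟩ * ⟨w, hwQ⟩ : Q) ∈ M := (mul_mem_iff_of_index_two hM2).2 (by tauto)
    have h2 : Commute (q * w) y := hy2 _ ⟨_, h1, rfl⟩
    simpa using h2.mul_left hwy.inv_left

/-- Let G be a finite group and let z be an involution of G such that Q, the generalized Fitting subgroup of the centralizer C of z, is a 2-group of symplectic type (every characteristic abelian subgroup of Q is cyclic); suppose Q is extraspecial, and view Q inside G. Let α be an involution of C that is not in Q, and let Q₀ be the subgroup of those q ∈ Q whose commutator with α lies in the subgroup generated by z. Then (a) the subgroup generated by the commutators α q α⁻¹ q⁻¹, q ∈ Q, equals the centre of Q₀; and (b) if Q₀ is not contained in the product of the centralizer of α in Q with the subgroup generated by z, then some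 element of Q conjugates α to α z. -/
theorem result {G : Type*} [Group G] [Finite G] (z : G) (hz : orderOf z = 2) (hQ : Cfsg.IsOfSymplecticType ↥(Cfsg.generalizedFittingSubgroup ↥(Subgroup.centralizer ({z} : Set G)))) (hE : Cfsg.IsExtraspecial 2 ↥(Cfsg.generalizedFittingSubgroup ↥(Subgroup.centralizer ({z} : Set G))))
    (α : G) (hα : orderOf α = 2) (hαC : α ∈ Subgroup.centralizer ({z} : Set G)) (hαQ : α ∉ (Cfsg.generalizedFittingSubgroup ↥(Subgroup.centralizer ({z} : Set G))).map (Subgroup.centralizer ({z} : Set G)).subtype)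
    (Q₀ : Subgroup G) (hQ₀ : ∀ q : G, q ∈ Q₀ ↔ (q ∈ (Cfsg.generalizedFittingSubgroup ↥(Subgroup.centralizer ({z} : Set G))).map (Subgroup.centralizer ({z} : Set G)).subtype ∧ α * q * α⁻¹ * q⁻¹ ∈ Subgroup.zpowers z)) :
    Subgroup.closure ((fun q : G => α * q * α⁻¹ * q⁻¹) '' ((Cfsg.generalizedFittingSubgroup ↥(Subgroup.centralizer ({z} : Set G))).map (Subgroup.centralizer ({z} : Set G)).subtype : Set G)) = (Subgroup.center ↥Q₀).map Q₀.subtype ∧
      (¬ Q₀ ≤ ((Cfsg.generalizedFittingSubgroup ↥(Subgroup.centralizer ({z} : Set G))).map (Subgroup.centralizer ({z} : Set G)).subtype ⊓ Subgroup.centralizer ({α} : Set G)) ⊔ Subgroup.zpowers z →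
        ∃ q ∈ (Cfsg.generalizedFittingSubgroup ↥(Subgroup.centralizer ({z} : Set G))).map (Subgroup.centralizer ({z} : Set G)).subtype, q * α * q⁻¹ = α * z) := by
  set C := centralizer ({z} : Set G) with hC
  set Q := (Cfsg.generalizedFittingSubgroup C).map C.subtype with hQd
  have hz2 : z * z = 1 := by rw [← pow_two, ← hz, pow_orderOf_eq_one]
  have hzC : z ∈ C := mem_centralizer_singleton_iff.2 rfl
  have hcen : (⟨z, hzC⟩ : C) ∈ center C :=
    mem_center_iff.2 fun y => Subtype.ext (mem_centralizer_singleton_iff.1 y.2)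
  have hzF : (⟨z, hzC⟩ : C) ∈ Cfsg.generalizedFittingSubgroup C :=
    H23.centralizer_fStar_le fun y _ => mem_center_iff.1 hcen y
  obtain ⟨z', h', -⟩ := exists_wes hE
  have hz' : z' = ⟨z, hzC⟩ := by
    have := h'.mem_zpowers_of_commute hzF fun y _ => mem_center_iff.1 hcen y
    refine ((zp_two h'.ord this).resolve_left fun e => ?_).symm
    rw [show z = 1 from congrArg Subtype.val e] at hz
    simp at hz
  subst hz'
  have hmz : ∀ c : C, c ∈ zpowers (⟨z, hzC⟩ : C) → (c : G) ∈ zpowers z := by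
    rintro _ ⟨k, rfl⟩
    exact ⟨k, rfl⟩
  have h : WES 2 Q z := by
    refine ⟨hz, le_antisymm ?_ ?_, ?_⟩
    · rintro _ ⟨⟨x, hx, rfl⟩, hx2⟩
      exact hmz _ (h'.mem_zpowers_of_commute hx fun y hy => Subtype.ext (hx2 _ ⟨y, hy, rfl⟩))
    · rw [zpowers_le]
      refine ⟨⟨_, hzF, rfl⟩, ?_⟩
      rintro _ ⟨y, -, rfl⟩
      exact mem_centralizer_singleton_iff.1 y.2
    · rintro _ ⟨x, hx, rfl⟩ _ ⟨y, hy, rfl⟩
      exact hmz _ (h'.comm x hx y hy)
  have hα2 : α * α = 1 := by rw [← pow_two, ← hα, pow_orderOf_eq_one]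
  have hn : ∀ q ∈ Q, α * q * α⁻¹ ∈ Q := by
    rintro _ ⟨q, hq, rfl⟩
    exact ⟨_, H23.fStar_normal.conj_mem q hq ⟨α, hαC⟩, rfl⟩
  refine ⟨main h hα2 (mem_centralizer_singleton_iff.1 hαC) hn ?_ Q₀ hQ₀, fun hle => ?_⟩
  · by_contra hc
    push Not at hc
    refine hαQ (H23.inf_centralizer_map_fStar_le C ⟨hαC, fun q hq => ?_⟩)
    exact (commutatorElement_eq_one_iff_commute.1 (hc q hq)).symm.eq
  · obtain ⟨q, hq, hq2⟩ := SetLike.not_le_iff_exists.1 hle
    obtain ⟨hq3, hq4⟩ := (hQ₀ q).1 hq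
    refine ⟨q, hq3, ?_⟩
    rcases zp_two hz hq4 with e | e
    · refine absurd (mem_sup_left (mem_inf.2 ⟨hq3, mem_centralizer_singleton_iff.2 ?_⟩)) hq2
      exact (commutatorElement_eq_one_iff_commute.1 e).symm.eq
    · have hi : α⁻¹ = α := inv_eq_of_mul_eq_one_right hα2
      rw [← e, hi, ← mul_assoc, ← mul_assoc, ← mul_assoc, hα2, one_mul]

end Cfsg.Agent.S1784
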