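import Cfsg.Statements.S1892
import Mathlib
import Cfsg.Agent.Lib.Comp.PConstrained
import Cfsg.Agent.Lib.LocEven.Basic

set_option autoImplicit false
open Cfsg

namespace Cfsg.Agent.S1892

open Subgroup
open scoped Pointwise commutatorElement

/-- Let S be a finite p-solvable group with no nontrivial normal subgroup of order prime to p, A a p-subgroup of S, and Q a nontrivial A-invariant subgroup of order prime to p with [A, Q] = Q. Then the commutator [O_p(S), A, Q] is nontrivial. -/
theorem result {S : Type*} [Group S] [Finite S] {p : ℕ} [Fact p.Prime]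
    (hS : Cfsg.IsPSolvable p S) (hred : Cfsg.pPrimeCore p S = ⊥)
    (A Q : Subgroup S) (hA : IsPGroup p A) (hQ : ¬ p ∣ Nat.card Q) (hQ1 : Q ≠ ⊥)
    (hinv : ∀ a ∈ A, ∀ x ∈ Q, a * x * a⁻¹ ∈ Q) (hAQ : ⁅A, Q⁆ = Q) :
    ⁅⁅Cfsg.pCore p S, A⁆, Q⁆ ≠ ⊥ := by
  intro h
  set P := pCore p S
  have hP : IsPGroup p P := H1.isPGroup_pCore
  have hcop : (Nat.card Q).Coprime p := ((Nat.Prime.coprime_iff_not_dvd Fact.out).mpr hQ).symm
  have h1 := commutator_eq_bot_iff_le_centralizer.mp h
  have h2 : ⁅⁅A, Q⁆, P⁆ ≤ ⁅P, A⁆ := H2.three_subgroups_le (normalizer_commutator_ge_right _ _)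
    ((le_centralizer_iff.mp h1).trans (centralizer_le_normalizer _))
    (normalizer_commutator_ge_left _ _) (commutator_mono (commutator_le_right _ _) le_rfl)
    (h.le.trans bot_le)
  rw [hAQ, commutator_comm] at h2
  have h3 := H2.le_centralizer_of_commutator_le
    (H2.coprime_card_of_isPGroup hcop (hP.to_le (commutator_le_left _ _))) h2
    (le_centralizer_iff.mp h1)
  exact hQ1 (H68.eq_bot_of_isPGroup_of_not_dvd
    (hP.to_le (h3.trans (H23.centralizer_pCore_le_of_isPSolvable hS hred))) le_rfl hQ)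

end Cfsg.Agent.S1892
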