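import Cfsg.Statements.S1893
import Cfsg.Agent.Lib.BG.Api.Core
import Cfsg.Agent.Lib.BG.Api.Hall
import Cfsg.Agent.Lib.Core.Coprime
import Cfsg.Agent.Lib.FGS.PLength
import Cfsg.Agent.Lib.FGS.FpfGross
import Cfsg.Agent.Lib.Thompson.Stable
import Cfsg.Agent.Lib.LocStruct.SylowIn
-- import your own Cfsg.Agent.* helpers here

set_option autoImplicit false
open Cfsg

namespace Cfsg.Agent.S1893

section
open Subgroup H69 H45
open scoped commutatorElement

theorem core {G : Type*} [Group G] [Finite G] [Group.IsSolvable G] (h2 : pCore 2 G = ⊥)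
    (h3 : pCore 3 G = ⊥) {F A : Subgroup G} (hF : Group.IsNilpotent F)
    (hFF : fittingSubgroup G ≤ F) (hAF : A ≤ F) (hFA : F ≤ 𝐍(A)) (hC : F ⊓ 𝐂(A) ≤ A) :
    𝐂(A) ≤ A := by
  refine le_of_forall_syl fun q hq => ?_
  haveI := Fact.mk (mem_primesOf.mp hq).1
  have hqp : q.Prime := Fact.out
  obtain ⟨X, hX⟩ := Sylow_exists q 𝐂(A)
  refine ⟨X, hX, le_trans (le_inf ?_ hX.le) hC⟩
  set R := pCore q G with hR
  set U := pPrimeCore q G ⊓ fittingSubgroup G with hU
  haveI : U.Normal := inferInstance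
  have hRF : R ≤ F := (H1.pCore_le_fitting q).trans hFF
  have hAX : A ≤ 𝐂(X) := centsC.mp hX.le
  have hXU : X ≤ 𝐂(U) := by
    refine H2.le_centralizer_of_nilpotent_sup (P := A)
      (H1.isNilpotent_of_le hF (sup_le (inf_le_right.trans hFF) hAF)) ?_ hAX
      le_normalizer_of_normal le_normalizer_of_normal
      (((inf_le_inf_right _ (inf_le_right.trans hFF)).trans hC).trans hAX)
    exact H2.coprime_of_le_right
      (H1.coprime_card_of_isPGroup_of_coprime hX.isP H1.coprime_card_pPrimeCore) inf_le_left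
  have hRX : ⁅R, X⁆ ≤ A := by
    refine le_trans (le_inf ((commutator_le_left _ _).trans hRF) ?_) hC
    apply le_centralizer_of_commutator_eq_bot
    rw [commutator_comm R X, eq_bot_iff]
    refine three_subgroups le_normalizer_of_normal le_normalizer_of_normal le_normalizer_of_normal ?_ ?_
    · exact ((commutator_mono (commutator_le_right_of_le_normalizer (hRF.trans hFA)) le_rfl).trans
        (commutator_eq_bot_of_le_centralizer hAX).le)
    · rw [commutator_eq_bot_of_le_centralizer hAX, commutator_bot_left]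
  set f := QuotientGroup.mk' 𝐂(R) with hf
  have hXL : X ≤ (pCore q (G ⧸ 𝐂(R))).comap f := by
    intro x hx
    rw [mem_comap]
    by_cases h0 : R = ⊥
    · have : f x = 1 := (QuotientGroup.eq_one_iff _).mpr (by rw [h0, centralizer_bot]; trivial)
      rw [this]; exact one_mem _
    have h5 : 5 ≤ q := by
      have := hqp.two_le
      by_contra hlt
      have h4 : q ≠ 4 := fun h => by rw [h] at hqp; exact absurd hqp (by decide)
      have : q = 2 ∨ q = 3 := by omega
      rcases this with h | h <;> subst h <;> contradiction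
    refine (H24.locallyStable_of_isPSolvable q h5 H76.isPSolvable_of_isSolvable).mem_pCore_top
      (P := R) H1.isPGroup_pCore f (QuotientGroup.mk'_surjective _) (QuotientGroup.ker_mk' _).ge x ?_
    have hz : zpowers x ≤ X := zpowers_le.mpr hx
    refine ((commutator_mono ((commutator_mono le_rfl hz).trans hRX) hz).trans ?_)
    rw [commutator_eq_bot_of_le_centralizer hAX]; exact bot_le
  refine (le_inf hXL hXU).trans (le_trans ?_ hFF)
  refine H76.le_fitting_of_forall_centralizer_pCore fun r hr y hy hc => ?_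
  haveI := Fact.mk hr
  by_cases hrq : r = q
  · subst hrq
    obtain ⟨k, hk⟩ := isPGroup_iff_mem.mp H1.isPGroup_pCore _ (mem_comap.mp hy.1)
    have : f y = 1 := orderOf_eq_one_iff.mp (Nat.eq_one_of_dvd_coprimes (hc.pow_right k)
      (orderOf_map_dvd f y) (orderOf_dvd_of_pow_eq_one hk))
    exact (QuotientGroup.eq_one_iff _).mp this
  · exact centralizer_anti (le_inf (H1.pCore_le_pPrimeCore ((Nat.coprime_primes hr hqp).mpr hrq))
      (H1.pCore_le_fitting r)) hy.2

theorem main {S : Type*} [Group S] [Finite S] [Group.IsSolvable S]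
    (π : Set ℕ) (h2 : 2 ∉ π) (h3 : 3 ∉ π) (H : Subgroup S) (hH : IsPiHall π H)
    (A : Subgroup S) (hA : IsSCN (Fit H) A) : 𝐂(A) ≤ A ⊔ piCore πᶜ S := by
  set N := piCore πᶜ S with hN
  set f := QuotientGroup.mk' N with hf
  have hNH : N ⊓ H = ⊥ := IsPi.inf_eq_bot' H1.isPiSubgroup_piCore (hall_top_iff.mpr hH).isPi
  have hinj : ∀ x ∈ H, f x = 1 → x = 1 := fun x hx h => by
    have : x ∈ N ⊓ H := ⟨(QuotientGroup.eq_one_iff _).mp h, hx⟩
    rwa [hNH, mem_bot] at this
  have h0 : piCore πᶜ (S ⧸ N) = ⊥ := H1.piCore_quotient_piCore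
  have hq : ∀ (q : ℕ) [Fact q.Prime], q ∉ π → pCore q (S ⧸ N) = ⊥ := fun q _ hq => by
    rw [eq_bot_iff, ← h0, H1.pCore_eq_piCore]
    exact H1.piCore_mono (Set.singleton_subset_iff.mpr hq)
  haveI : Fact (Nat.Prime 3) := ⟨Nat.prime_three⟩
  have hFH : fittingSubgroup (S ⧸ N) ≤ H.map f := by
    refine H1.le_of_isPiSubgroup_of_index (π := π) ?_ fun p hp hπ h => hH.2 p hp hπ
      (h.trans (index_map_dvd _ (QuotientGroup.mk'_surjective N)))
    rw [← Fitting_top]
    exact Fitting_isPi_of_pcore_eq_bot (by rw [H1.piCoreOf_top]; exact h0)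
  have hFF : fittingSubgroup (S ⧸ N) ≤ (Fit H).map f := by
    have h1 : H ⊓ (fittingSubgroup (S ⧸ N)).comap f ≤ Fit H := by
      refine Fitting_max (normalIn_inf_of_norm le_normalizer_of_normal) ?_
      let g : ↥(H ⊓ (fittingSubgroup (S ⧸ N)).comap f) →* fittingSubgroup (S ⧸ N) :=
        (f.comp (H ⊓ (fittingSubgroup (S ⧸ N)).comap f).subtype).codRestrict _
          fun x => (mem_inf.mp x.2).2
      refine Subgroup.isNilpotent_of_ker_le_center g fun x hx => ?_
      rw [show x = 1 from Subtype.ext (hinj x x.2.1 (congrArg Subtype.val hx))]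
      exact one_mem _
    intro x hx
    obtain ⟨y, hy, rfl⟩ := hFH hx
    exact mem_map_of_mem f (h1 ⟨hy, hx⟩)
  have := core (hq 2 h2) (hq 3 h3) (A := A.map f) (H1.isNilpotent_map (Fitting_nil H) f) hFF
    (map_mono hA.1) ((map_mono hA.2.1).trans (le_normalizer_map _)) (by
      rintro _ ⟨⟨y, hy, rfl⟩, hc⟩
      refine mem_map_of_mem f (hA.2.2.le ⟨hy, mem_centralizer_iff.mpr fun a ha => ?_⟩)
      have h1 := mem_centralizer_iff.mp hc _ (mem_map_of_mem f ha)
      have h2 := hinj (a * y * (y * a)⁻¹) (H.mul_mem (H.mul_mem (Fitting_sub H (hA.1 ha))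
        (Fitting_sub H hy)) (H.inv_mem (H.mul_mem (Fitting_sub H hy) (Fitting_sub H (hA.1 ha)))))
        (by rw [map_mul, map_inv, map_mul, map_mul, h1, mul_inv_cancel])
      exact mul_inv_eq_one.mp h2)
  intro c hc
  have h1 : f c ∈ A.map f := this (mem_centralizer_iff.mpr (by
    rintro _ ⟨a, ha, rfl⟩
    rw [← map_mul, ← map_mul, mem_centralizer_iff.mp hc a ha]))
  rwa [← mem_comap, comap_map_eq, QuotientGroup.ker_mk'] at h1

end

/-- Let S be a finite solvable group, π a set of primes containing neither 2 nor 3, H a Hall π-subgroup of S, and A a self-centralizing normal subgroup of the Fitting subgroup F(H). Then C_S(A) = A × D for a normal subgroup D of C_S(A) whose order has no prime divisor in π. -/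
theorem result {S : Type*} [Group S] [Finite S] [Group.IsSolvable S]
    (π : Set ℕ) (h2 : 2 ∉ π) (h3 : 3 ∉ π) (H : Subgroup S) (hH : Cfsg.IsPiHall π H)
    (A : Subgroup S) (hA : Cfsg.IsSCN ((Cfsg.fittingSubgroup H).map H.subtype) A) :
    ∃ D : Subgroup S, D ≤ Subgroup.centralizer (A : Set S) ∧
      (∀ c ∈ Subgroup.centralizer (A : Set S), ∀ d ∈ D, c * d * c⁻¹ ∈ D) ∧
      A ⊓ D = ⊥ ∧ A ⊔ D = Subgroup.centralizer (A : Set S) ∧
      ∀ q : ℕ, q.Prime → q ∣ Nat.card D → q ∉ π := by
  have h := main π h2 h3 H hH A hA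
  have hAC : A ≤ Subgroup.centralizer (A : Set S) := hA.2.2.ge.trans inf_le_right
  have hAπ : H45.IsPi π A := (H45.hall_top_iff.mpr hH).isPi.of_le (hA.1.trans (H45.Fitting_sub H))
  refine ⟨piCore πᶜ S ⊓ Subgroup.centralizer (A : Set S), inf_le_right, fun c hc d hd =>
    ⟨Subgroup.Normal.conj_mem inferInstance d hd.1 c, Subgroup.mul_mem _ (Subgroup.mul_mem _ hc hd.2) (Subgroup.inv_mem _ hc)⟩,
    hAπ.inf_eq_bot (H45.IsPi.inf_left H1.isPiSubgroup_piCore _), ?_, fun q hq hd => ?_⟩
  · rw [← H69.dedekind_right Subgroup.le_normalizer_of_normal hAC]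
    exact inf_eq_right.mpr h
  · exact (H45.IsPi.inf_left H1.isPiSubgroup_piCore _).mem hq hd

end Cfsg.Agent.S1893
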