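import Cfsg.Statements.S1894
import Mathlib
import Cfsg.Agent.Lib.PGroup.Basic

set_option autoImplicit false
open Cfsg

namespace Cfsg.Agent.S1894

open Subgroup
open scoped Pointwise commutatorElement

/-- Let P be a finite p-group, A a normal subgroup of P and B an abelian subgroup of A that is normal in P. Then some subgroup C of A containing B is normal in P and is self-centralizing and normal in A (C ∈ SCN(A)). -/
theorem result {P : Type*} [Group P] [Finite P] {p : ℕ} [Fact p.Prime] (hP : IsPGroup p P)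
    (A : Subgroup P) [A.Normal] (B : Subgroup P) [B.Normal] (hBA : B ≤ A) (hB : IsMulCommutative B) :
    ∃ C : Subgroup P, C.Normal ∧ B ≤ C ∧ Cfsg.IsSCN A C := by
  obtain ⟨C, hBC, ⟨hn, hc, hCA⟩, hmax⟩ := Finite.exists_le_maximal
    (p := fun C : Subgroup P => C.Normal ∧ IsMulCommutative C ∧ C ≤ A) (a := B)
    ⟨inferInstance, hB, hBA⟩
  refine ⟨C, hn, hBC, hCA, le_normalizer_of_normal, le_antisymm ?_ (le_inf hCA (le_centralizer C))⟩
  by_contra h
  obtain ⟨x, hx, hxC, -, h1⟩ := H5.exists_step hP C _ h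
  exact hxC (hmax ⟨H5.normal_sup_zpowers h1, H5.isMulCommutative_sup_zpowers hc hx.2,
    sup_le hCA (zpowers_le.mpr hx.1)⟩ le_sup_left (mem_sup_right (mem_zpowers x)))

end Cfsg.Agent.S1894
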