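import Cfsg.Statements.S1895
import Mathlib
import Cfsg.Agent.Base
import Cfsg.Agent.Lib.BG.S4a
import Cfsg.Agent.Lib.Tech58.Harada
import Cfsg.Agent.Lib.PGroup.Commutator
import Cfsg.Agent.Lib.BG.Api.Rank

set_option autoImplicit false
open Cfsg

namespace Cfsg.Agent.S1895

open Subgroup H45 H69 H45.BG
open scoped commutatorElement

universe u

theorem mul_le_of_lt {G : Type u} [Group G] [Finite G] {p : ℕ} [hp : Fact p.Prime] {A B : Subgroup G}
    (hB : IsPGroup p B) (h : A < B) : p * Nat.card A ≤ Nat.card B := by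
  rw [← H4.card_mul_relIndex_of_le h.le, mul_comm]
  refine Nat.mul_le_mul_left _ ?_
  obtain ⟨n, hn⟩ := IsPGroup.index hB (A.subgroupOf B)
  have h2 := H83.two_le_relIndex h.not_ge
  change A.relIndex B = p ^ n at hn
  rw [hn] at h2 ⊢
  rcases n with _ | n
  · simp at h2
  · exact Nat.le_self_pow n.succ_ne_zero p

theorem caseB {G : Type u} [Group G] [Finite G] {p : ℕ} [hp : Fact p.Prime] (h2 : p ≠ 2) {R : Subgroup G}
    (hR : IsPGroup p R) (hr : pRk p R ≤ 2) {x : G} (hx : x ∈ R) (hxp : x ^ p = 1) (hxc : x ∉ 𝐂(R)) :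
    ∃ C : Subgroup G, C < R ∧ 𝐍(R) ≤ 𝐍(C) ∧ C.relIndex R ≤ p ^ 2 := by
  have hnc : ¬ IsCyclic R := fun hc => by
    have : IsMulCommutative R := ⟨⟨fun a b => by
      letI := IsCyclic.commGroup (α := R)
      exact mul_comm a b⟩⟩
    exact hxc (abelian_iff_le_centralizer.1 this hx)
  have hR0 : R ≠ ⊥ := fun h => hnc (by rw [h]; infer_instance)
  set Z := Ω₁ p (Zc R) with hZ
  have hZe : PElem p R Z := ⟨Ohm1_center_le p R, Ohm1_center_abelem p R⟩
  have hZc : Z ≤ 𝐂(R) := Ohm1_center_cent p R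
  obtain ⟨n, hn⟩ := hZe.exists_pnElem
  have hn1 : n + 1 ≤ 2 := ((hn.sup_zpowers hx (centsC.1 hZc hx) hxp fun h => hxc (hZc h)).le_pRk).trans hr
  have hn0 : n ≠ 0 := fun h => Ohm1_center_ne_bot hR hR0 (pnElem0.1 (h ▸ hn))
  obtain rfl : n = 1 := by omega
  have hcZ : Nat.card Z = p := hn.card1
  obtain ⟨hW1, hW2⟩ := Ohm1_odd_ucn2 h2 hR hnc
  set W := Ω₁ p (ucn 2 R) with hW
  have hWR : W ≤ R := (Ohm1_sub p _).trans (ucn_le 2 R)
  have hW3 : Nat.card W ≤ p ^ 3 :=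
    Nat.le_of_dvd (pow_pos hp.out.pos 3) (rank2_exponent_p_p3group h2 ((p_rankS p hWR).trans hr) hW2)
  have hZW : Z ≤ W := OhmS p (by rw [← ucn_one]; exact ucn_mono R (by omega))
  have hWp : IsPGroup p W := hR.to_le hWR
  have hWZ : ¬ W ≤ Z := fun h => hW1 (by
    have := hn.cyclic1
    exact isCyclic_of_le h)
  have hgen : ∃ a ∈ W, ∃ b ∈ W, W ≤ Z ⊔ zpowers a ⊔ zpowers b := by
    obtain ⟨a, ha, haZ⟩ := SetLike.not_le_iff_exists.1 hWZ
    have h1 : Z < Z ⊔ zpowers a := left_lt_sup.2 (by rwa [zpowers_le])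
    have h1W : Z ⊔ zpowers a ≤ W := sup_le hZW (zpowers_le.2 ha)
    by_cases h : W ≤ Z ⊔ zpowers a
    · exact ⟨a, ha, 1, one_mem _, h.trans le_sup_left⟩
    obtain ⟨b, hb, hbZ⟩ := SetLike.not_le_iff_exists.1 h
    have h3 : Z ⊔ zpowers a < Z ⊔ zpowers a ⊔ zpowers b := left_lt_sup.2 (by rwa [zpowers_le])
    have h3W : Z ⊔ zpowers a ⊔ zpowers b ≤ W := sup_le h1W (zpowers_le.2 hb)
    refine ⟨a, ha, b, hb, (eq_of_le_of_card_ge h3W (hW3.trans ?_)).ge⟩
    have e1 := mul_le_of_lt (hWp.to_le h1W) h1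
    have e2 := mul_le_of_lt (hWp.to_le h3W) h3
    rw [hcZ] at e1
    calc p ^ 3 = p * (p * p) := by ring
      _ ≤ _ := (Nat.mul_le_mul_left _ e1).trans e2
  obtain ⟨a, ha, b, hb, hab⟩ := hgen
  have key : ∀ w ∈ W, ∀ r ∈ R, r * w * r⁻¹ * w⁻¹ ∈ Z := fun w hw r hr' => by
    have h1 : ⁅w, r⁆ ∈ Zc R := by
      rw [← ucn_one]; exact (mem_ucn_succ.1 (Ohm1_sub p _ hw)).2 r hr'
    have h3 : ⁅w, r⁆ ^ p = 1 := by
      rw [← H5.commutator_pow_left (show Commute w ⁅w, r⁆ from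
        mem_centralizer_iff_commute.1 h1.2 w (hWR hw)), hW2 w hw, commutatorElement_one_left]
    have := inv_mem (mem_Ohm1 h1 h3)
    rwa [commutatorElement_inv] at this
  refine ⟨R ⊓ 𝐂(W), lt_of_le_of_ne inf_le_left fun h => hWZ fun w hw => ?_,
    le_normalizer_inf le_rfl (le_normalizer_centralizer
      (((Ohm1_char p _).trans (ucn_charIn 2 R)).norms)), ?_⟩
  · exact mem_Ohm1 ⟨hWR hw, centsC.1 (inf_eq_left.1 h) hw⟩ (hW2 w hw)
  · have e1 := H58.Har.count R Z a (key a ha)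
    have e2 := H58.Har.count (𝐂[a] ⊓ R) Z b fun r hr' => key b hb r hr'.2
    have e3 : 𝐂[b] ⊓ (𝐂[a] ⊓ R) ≤ R ⊓ 𝐂(W) := fun r hr' => ⟨hr'.2.2, centralizer_anti hab (by
      rw [centralizer_sup, centralizer_sup, centralizer_zpowers, centralizer_zpowers]
      exact ⟨⟨centsC.1 hZc hr'.2.2, hr'.2.1⟩, hr'.1⟩)⟩
    have e4 := Subgroup.card_le_of_le e3
    have e5 := H4.card_mul_relIndex_of_le (inf_le_left : R ⊓ 𝐂(W) ≤ R)
    rw [hcZ] at e1 e2
    refine Nat.le_of_mul_le_mul_left ?_ (Nat.card_pos (α := ↥(R ⊓ 𝐂(W))))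
    rw [e5]
    calc Nat.card R ≤ _ := e1
      _ ≤ Nat.card ↥(R ⊓ 𝐂(W)) * p * p :=
        Nat.mul_le_mul_right _ (e2.trans (Nat.mul_le_mul_right _ e4))
      _ = _ := by ring

theorem quo_rank {G : Type u} [Group G] [Finite G] {p : ℕ} [hp : Fact p.Prime] (h2 : p ≠ 2) {R : Subgroup G}
    (hr : pRk p R ≤ 2) (hc : ∀ x ∈ R, x ^ p = 1 → x ∈ 𝐂(R)) :
    pRk p (R /ₙ Ω₁ p (Zc R)) ≤ 2 := by
  set Z := Ω₁ p (Zc R) with hZ
  have hZn : Z ⊴ R := Ohm1_center_normal p R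
  have hZe : PElem p R Z := ⟨Ohm1_center_le p R, Ohm1_center_abelem p R⟩
  have hZc : Z ≤ 𝐂(R) := Ohm1_center_cent p R
  obtain ⟨n, hn⟩ := hZe.exists_pnElem
  refine p_rank_le_iff.2 fun m A hA => le_trans ?_ (hn.le_pRk.trans hr)
  set E := qpre Z A with hE
  have hER : E ≤ R := qpre_le_of_le_quo hZn.le hA.le
  have hpw : ∀ x ∈ E, x ^ p ∈ Z := fun x hx => by
    have hx' := mem_qpre.1 hx
    rw [← coset_eq_one_iff (pow_mem hx'.1 p), ap_pow _ hx'.1]
    exact hA.pow_eq_one hx'.2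
  have hcm : ∀ x ∈ E, ∀ y ∈ E, ⁅x, y⁆ ∈ Z := fun x hx y hy => by
    have hx' := mem_qpre.1 hx
    have hy' := mem_qpre.1 hy
    rw [← coset_eq_one_iff (by
      rw [commutatorElement_def]
      exact mul_mem (mul_mem (mul_mem hx'.1 hy'.1) (inv_mem hx'.1)) (inv_mem hy'.1)),
      ap_commutator _ hx'.1 hy'.1, commutatorElement_eq_one_iff_mul_comm]
    exact mem_centralizer_iff_commute.1 (hA.cent hy'.2) _ hx'.2
  have hmul : ∀ x y : E, (x * y) ^ p = x ^ p * y ^ p := fun x y => by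
    apply Subtype.ext
    have h1 := hcm y y.2 x x.2
    exact H5.mul_pow_eq_of_class_two_of_odd
      (show Commute (x : G) _ from mem_centralizer_iff_commute.1 (hZc h1) _ (hER x.2))
      (show Commute (y : G) _ from mem_centralizer_iff_commute.1 (hZc h1) _ (hER y.2))
      (hp.out.odd_of_ne_two h2) (hn.pow_eq_one h1)
  let f : E →* G := E.subtype.comp (H5.powHom p hmul)
  have hk : f.ker = Z.subgroupOf E := by
    ext x
    rw [MonoidHom.mem_ker, mem_subgroupOf]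
    change (x : G) ^ p = 1 ↔ _
    exact ⟨fun h => mem_Ohm1 ⟨hER x.2, hc x (hER x.2) h⟩ h, fun h => hn.pow_eq_one h⟩
  have hra : f.range ≤ Z := by
    rintro _ ⟨x, rfl⟩
    exact hpw x x.2
  have e1 : Nat.card A = Nat.card f.range := by
    rw [← relIndex_qpre A, ← index_ker, hk]; rfl
  have e2 := Subgroup.card_le_of_le hra
  rw [← e1, hA.card, hn.card] at e2
  exact (Nat.pow_le_pow_iff_right hp.out.one_lt).1 e2

theorem exists_char {p : ℕ} [hp : Fact p.Prime] (h2 : p ≠ 2) (n : ℕ) :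
    ∀ {G : Type u} [Group G] [Finite G] {R : Subgroup G}, Nat.card R = n → IsPGroup p R → R ≠ ⊥ →
      pRk p R ≤ 2 → ∃ C : Subgroup G, C < R ∧ 𝐍(R) ≤ 𝐍(C) ∧ C.relIndex R ≤ p ^ 2 := by
  induction n using Nat.strong_induction_on with
  | _ n ih =>
  intro G _ _ R hn hR hR0 hr
  by_cases hc : ∀ x ∈ R, x ^ p = 1 → x ∈ 𝐂(R)
  swap
  · push Not at hc
    obtain ⟨x, hx, hxp, hxc⟩ := hc
    exact caseB h2 hR hr hx hxp hxc
  have hq := quo_rank h2 hr hc
  set Z := Ω₁ p (Zc R) with hZ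
  have hZn : Z ⊴ R := Ohm1_center_normal p R
  by_cases hZR : R ≤ Z
  · have hZe : PElem p R Z := ⟨Ohm1_center_le p R, Ohm1_center_abelem p R⟩
    obtain ⟨m, hm⟩ := hZe.exists_pnElem
    refine ⟨⊥, bot_lt_iff_ne_bot.2 hR0, (NormalIn.bot _).norm, ?_⟩
    rw [relIndex_bot_left]
    refine (Subgroup.card_le_of_le hZR).trans ?_
    rw [hm.card]
    exact Nat.pow_le_pow_right hp.out.pos (hm.le_pRk.trans hr)
  have hlt : Nat.card (R /ₙ Z) < n := by
    rw [← hn, ← card_quotient_mul hZn]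
    refine lt_mul_of_one_lt_left Nat.card_pos ?_
    exact (Subgroup.one_lt_card_iff_ne_bot _).2 (Ohm1_center_ne_bot hR hR0)
  obtain ⟨C, hC1, hC2, hC3⟩ := ih _ hlt rfl (quotient_isPGroup Z hR) ((quotient_neq1 hZn.norm).2 hZR) hq
  refine ⟨qpre Z C, ?_, norm_quotient_pre (Ohm1_center_char p R).norms ((quotient_norm Z R).trans hC2), ?_⟩
  · conv_rhs => rw [← quotientGK hZn]
    exact cosetpre_proper.2 hC1
  · conv_lhs => rw [← quotientGK hZn]
    rwa [index_cosetpre]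

/-- Let p be an odd prime and G a finite p-solvable group with no elementary abelian subgroup of order p³. Then every chief factor H/K of G (H, K normal in G with no normal subgroup of G strictly between them) whose order is a power of p has order p or p². -/
theorem result {G : Type*} [Group G] [Finite G] {p : ℕ} [Fact p.Prime] (hp : p ≠ 2)
    (hG : Cfsg.IsPSolvable p G) (hr : Cfsg.PRankLE p 2 G)
    (H K : Subgroup G) [H.Normal] [K.Normal] (hKH : K < H) (hpow : ∃ n : ℕ, K.relIndex H = p ^ n)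
    (hchief : ∀ L : Subgroup G, L.Normal → K ≤ L → L ≤ H → L = K ∨ L = H) :
    K.relIndex H = p ∨ K.relIndex H = p ^ 2 := by
  obtain ⟨n, hn⟩ := hpow
  obtain ⟨R, hR⟩ := exists_isSylowIn p H
  have hp' : p.Prime := Fact.out
  have hRK : MulEq K R H := mulEq_of_coprime_relIndex hKH.le hR.le (by
    rw [hn]
    exact Nat.Coprime.pow_left _ ((Nat.Prime.coprime_iff_not_dvd hp').2 hR.not_dvd_relIndex))
  have hN : ∀ g : G, g ∈ 𝐍(K) := fun g => normal_iff_top_le_normalizer.1 inferInstance (mem_top g)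
  obtain ⟨N, ⟨hN1, hN2, hN3⟩, hmin⟩ := wellFounded_lt.has_min
    {N : Subgroup G | N ≤ R ∧ 𝐍(R) ≤ 𝐍(N) ∧ ¬ N ≤ K}
    ⟨R, le_rfl, le_rfl, fun h => hKH.ne (by rw [← hRK.sup_eq, sup_eq_left.2 h])⟩
  have hnorm : (K ⊔ N).Normal := by
    refine normal_iff_top_le_normalizer.2 fun g _ => ?_
    obtain ⟨h, hh, a, ha, rfl⟩ := hR.frattini
      (normal_iff_top_le_normalizer.1 (inferInstance : H.Normal) (mem_top g))
    obtain ⟨k, hk, r, hr', rfl⟩ := hRK.exists_mul hh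
    have hA : 𝐍(R) ≤ 𝐍(K ⊔ N) := le_normalizer_sup (fun x _ => hN x) hN2
    exact mul_mem (mul_mem (le_normalizer (mem_sup_left hk)) (hA (le_normalizer hr'))) (hA ha)
  have hKN : K ⊔ N = H := (hchief _ hnorm le_sup_left (sup_le hKH.le (hN1.trans hR.le))).resolve_left
    fun h => hN3 (sup_eq_left.1 h)
  have hrk : pRk p N ≤ 2 := p_rank_le_iff.2 fun m A hA => by
    have := hr A hA.abelian fun a ha => hA.pow_eq_one ha
    rw [hA.card] at this
    exact (Nat.pow_le_pow_iff_right hp'.one_lt).1 this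
  obtain ⟨C, hC1, hC2, hC3⟩ := exists_char hp _ rfl (hR.isP.to_le hN1)
    (fun h => hN3 (by rw [h]; exact bot_le)) hrk
  have hCK : C ≤ K := by
    by_contra h
    exact hmin C ⟨hC1.le.trans hN1, hN2.trans hC2, h⟩ hC1
  have e1 : K.relIndex H = K.relIndex N := by
    rw [← hKN]; exact (mulEq_of_norm fun x _ => hN x).relIndex_left
  have e2 : K.relIndex H ≤ p ^ 2 := by
    rw [e1]
    exact (Nat.le_of_dvd (Nat.pos_of_ne_zero (Subgroup.FiniteIndex.index_ne_zero (H := C.subgroupOf N)))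
      (relIndex_dvd_of_le_left N hCK)).trans hC3
  have e3 := H83.two_le_relIndex hKH.not_ge
  rw [hn] at e2 e3 ⊢
  have e4 := (Nat.pow_le_pow_iff_right hp'.one_lt).1 e2
  have e5 : n ≠ 0 := fun h => by simp [h] at e3
  obtain rfl | rfl : n = 1 ∨ n = 2 := by omega
  · exact Or.inl (pow_one p)
  · exact Or.inr rfl

end Cfsg.Agent.S1895
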