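import Cfsg.Statements.S1897
import Mathlib
import Cfsg.Agent.Lib.Small30.L27
import Cfsg.Agent.Lib.ClGeo.Heart
import Cfsg.Agent.S0255

set_option autoImplicit false
open Cfsg

namespace Cfsg.Agent.S1897

/-- The projective special unitary group PSU₃(3) (realised over the field with 9 elements) has a subgroup isomorphic to PSL₂(7). -/
theorem result {F : Type*} [Field F] [Fintype F] (hF : Fintype.card F = 9)
    {K : Type*} [Field K] [Fintype K] (hK : Fintype.card K = 7) :
    ∃ H : Subgroup (Cfsg.PSU 3 F 3), Nonempty (H ≃* Matrix.ProjectiveSpecialLinearGroup (Fin 2) K) := by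
  obtain ⟨H, ⟨e⟩⟩ := H30.L27.exists_sub
  obtain ⟨f⟩ := Cfsg.Agent.S0255.result (K := ZMod 2) hK (ZMod.card 2)
  let g : F ≃+* H74.F9 := FiniteField.ringEquivOfCardEq (by rw [hF, H74.F9.card_eq])
  let E : Cfsg.SU 3 H74.F9 3 ≃* Cfsg.PSU 3 F 3 :=
    H74.U33.psuEquiv.symm.trans (H30.psuCongr g 3 3).symm
  exact ⟨H.map E.toMonoidHom, ⟨(E.subgroupMap H).symm.trans (e.symm.trans f.symm)⟩⟩

end Cfsg.Agent.S1897
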