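import Cfsg.Statements.S1898
import Cfsg.Agent.Lib.PGroup.Critical
import Cfsg.Agent.Lib.PGroup.Commutator
-- import your own Cfsg.Agent.* helpers here

set_option autoImplicit false
open Cfsg

namespace Cfsg.Agent.S1898
open scoped commutatorElement

/-- Let X be a finite 2-group whose derived subgroup is elementary abelian and central. Then the subgroup generated by the elements of order dividing 4 has exponent dividing 4, and every automorphism of X fixing each element of order dividing 4 has 2-power order. -/
theorem result {X : Type*} [Group X] [Finite X] (hX : IsPGroup 2 X)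
    (hel : Cfsg.IsElementaryAbelian 2 (commutator X)) (hcen : commutator X ≤ Subgroup.center X) :
    (∀ x ∈ Subgroup.closure {g : X | g ^ 4 = 1}, x ^ 4 = 1) ∧
      ∀ φ : MulAut X, (∀ g : X, g ^ 4 = 1 → φ g = g) → ∃ k : ℕ, φ ^ (2 ^ k) = 1 := by
  have hc : ∀ x y : X, ⁅y, x⁆ ∈ commutator X := fun x y =>
    Subgroup.commutator_mem_commutator (Subgroup.mem_top y) (Subgroup.mem_top x)
  refine ⟨fun x hx => ?_, fun φ hφ => ?_⟩
  · induction hx using Subgroup.closure_induction with
    | mem x hx => exact hx
    | one => exact one_pow _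
    | mul x y _ _ hx hy =>
      have h1 : Commute x ⁅y, x⁆ := (Subgroup.mem_center_iff.mp (hcen (hc x y)) x)
      have h2 : Commute y ⁅y, x⁆ := (Subgroup.mem_center_iff.mp (hcen (hc x y)) y)
      rw [H5.mul_pow_eq_of_class_two (p := 2) h1 h2 (n := 4) (by decide) (hel.2 _ (hc x y)), hx, hy,
        one_mul]
    | inv x _ hx => rw [inv_pow, hx, inv_one]
  · have h0 : orderOf φ ≠ 0 := (orderOf_pos φ).ne'
    obtain ⟨k, m, hm, hkm⟩ := Nat.exists_eq_two_pow_mul_odd h0
    refine ⟨k, H5.aut_eq_one_of_omega_two (p := 2) hX _ ?_ fun x hx => ?_⟩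
    · have : orderOf (φ ^ 2 ^ k) = m := by
        rw [orderOf_pow' _ (by positivity), hkm, Nat.gcd_mul_right_left,
          Nat.mul_div_cancel_left _ (by positivity)]
      rw [this]
      exact Nat.coprime_two_right.mpr hm
    · have : ∀ n : ℕ, (φ ^ n) x = x := by
        intro n
        induction n with
        | zero => rfl
        | succ n ih => rw [pow_succ, MulAut.mul_apply, hφ x (by simpa using hx), ih]
      exact this _

end Cfsg.Agent.S1898
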