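import Cfsg.Statements.S1899
import Mathlib
import Cfsg.Agent.Lib.Core.GrpBasic

set_option autoImplicit false
open Cfsg

namespace Cfsg.Agent.S1899

open Subgroup
open scoped Pointwise commutatorElement

/-- Let a dihedral group of order 2n, n odd and n > 1, act on a finite abelian 2-group A through automorphisms d and t with d^n = 1, t² = 1 and t d t⁻¹ = d⁻¹, and suppose that d fixes only the identity. Then A is the internal direct product of C_A(t) and its image under d. -/
theorem result {A : Type*} [CommGroup A] [Finite A] (hA : IsPGroup 2 A)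
    {n : ℕ} (hn : Odd n) (hn1 : 1 < n) (d t : MulAut A) (hd : d ^ n = 1) (ht : t ^ 2 = 1) (hdt : t * d * t⁻¹ = d⁻¹)
    (hfix : ∀ a : A, d a = a → a = 1) :
    (MulEquiv.toMonoidHom t).eqLocus (MonoidHom.id A) ⊓ ((MulEquiv.toMonoidHom t).eqLocus (MonoidHom.id A)).map d.toMonoidHom = ⊥ ∧
      (MulEquiv.toMonoidHom t).eqLocus (MonoidHom.id A) ⊔ ((MulEquiv.toMonoidHom t).eqLocus (MonoidHom.id A)).map d.toMonoidHom = ⊤ := by
  set C := (MulEquiv.toMonoidHom t).eqLocus (MonoidHom.id A)
  have hC : ∀ a, a ∈ C ↔ t a = a := fun a => Iff.rfl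
  have htt : ∀ a, t (t a) = a := fun a => by rw [← MulAut.mul_apply, ← sq, ht]; rfl
  have e1 : ∀ a, t (d a) = d⁻¹ (t a) := fun a => by
    rw [← hdt]; simp [MulAut.mul_apply]
  have e2 : ∀ a, t (d⁻¹ a) = d (t a) := fun a => by
    rw [← htt a, ← e1, htt, htt]
  have hfix2 : ∀ a, d (d a) = a → a = 1 := fun a h => by
    obtain ⟨k, rfl⟩ := hn
    have h1 : ∀ j, (d ^ (2 * j)) a = a := fun j => by
      induction j with
      | zero => rfl
      | succ j ih => rw [mul_add, pow_add, MulAut.mul_apply, mul_one, sq, MulAut.mul_apply, h, ih]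
    apply hfix
    rw [← h1 k, ← MulAut.mul_apply, ← pow_succ', hd, h1]; rfl
  have h1 : C ⊓ C.map d.toMonoidHom = ⊥ := by
    rw [eq_bot_iff]
    rintro _ ⟨h, c, hc, rfl⟩
    change t (d c) = d c at h
    rw [e1, (hC c).mp hc] at h
    have := hfix2 c (by rw [← h]; simp)
    simp [this]
  refine ⟨h1, ?_⟩
  let f : A →* A := (MulEquiv.toMonoidHom t) / MonoidHom.id A
  have hk : f.ker = C := by
    ext a
    exact div_eq_one
  have h2 : Nat.card f.range ≤ Nat.card C := by
    refine Nat.card_le_card_of_injective (fun x => ⟨d x / d⁻¹ x, ?_⟩) fun x y h => ?_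
    · obtain ⟨_, a, rfl⟩ := x
      change t (d (t a / a) / d⁻¹ (t a / a)) = d (t a / a) / d⁻¹ (t a / a)
      rw [map_div t, e1, e2, map_div t, htt, ← inv_div (t a) a, map_inv, map_inv, inv_div_inv]
    · have h3 : d x / d⁻¹ x = d y / d⁻¹ y := congrArg Subtype.val h
      have h4 := hfix2 (d⁻¹ (x / y)) (by
        rw [MulAut.apply_inv_self, map_div, map_div, div_eq_div_iff_mul_eq_mul, mul_comm,
          ← div_eq_div_iff_mul_eq_mul]
        rw [div_eq_div_iff_mul_eq_mul] at h3 ⊢
        rw [mul_comm, h3, mul_comm])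
      exact Subtype.ext (div_eq_one.mp ((map_eq_one_iff _ (MulEquiv.injective _)).mp h4))
  have h3 := H1.card_sup_mul_card_inf_of_normal C (C.map d.toMonoidHom)
  rw [h1, card_bot, mul_one, card_map_of_injective d.injective] at h3
  apply eq_top_of_le_card
  rw [h3, ← C.card_mul_index]
  refine Nat.mul_le_mul_left _ ?_
  rwa [← hk, index_ker, hk]

end Cfsg.Agent.S1899
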