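import Cfsg.Statements.S1900
import Cfsg.Agent.Lib.BG.Api.Hall
import Cfsg.Agent.Lib.Core.CoprimeAbelian
-- import your own Cfsg.Agent.* helpers here

set_option autoImplicit false
open Cfsg

namespace Cfsg.Agent.S1900

section
open Subgroup H69 H45
open scoped commutatorElement

theorem norm_aux {S : Type*} [Group S] [Finite S] {p : ℕ} [Fact p.Prime] {P Q X₁ X₂ : Subgroup S}
    (hP : IsPGroup p P) (hQP : Q ≤ 𝐍(P)) (hcop : (Nat.card Q).Coprime (Nat.card P))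
    (hQ : IsMulCommutative Q) (h₁ : X₁ ≤ Q) (h₂ : X₂ ≤ Q)
    (hgen : ∀ M, M ≤ P → Q ≤ 𝐍(M) → M ≤ (M ⊓ 𝐂(X₁)) ⊔ (M ⊓ 𝐂(X₂)))
    (hinf : (P ⊓ 𝐂(X₁)) ⊓ (P ⊓ 𝐂(X₂)) = ⊥) : P ≤ 𝐍(P ⊓ 𝐂(X₂)) := by
  set C := P ⊓ 𝐂(X₂) with hC
  have hQX : ∀ X, X ≤ Q → Q ≤ 𝐍(X) := fun X hX =>
    cents_norm (sub_abelian_cent2 hQ le_rfl hX)
  have hQC : Q ≤ 𝐍(C) := le_normalizer_inf hQP (le_normalizer_centralizer (hQX _ h₂))
  set M := P ⊓ 𝐍(C) with hM
  have hQM : Q ≤ 𝐍(M) := le_normalizer_inf hQP (le_normalizer_normalizer hQC)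
  have hCM : C ≤ M := le_inf inf_le_left le_normalizer
  have h1 : ⁅M, X₁⁆ ≤ C := by
    refine (commutator_mono (hgen M inf_le_left hQM) le_rfl).trans ?_
    refine commutator_sup_le_left (inf_le_left.trans inf_le_right) (inf_le_left.trans inf_le_right)
      ?_ ?_
    · rw [commutator_eq_bot_of_le_centralizer inf_le_right]; exact bot_le
    · exact (commutator_mono (inf_le_inf_right _ inf_le_left) le_rfl).trans
        (commutator_le_left_of_le_normalizer (h₁.trans hQC))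
  have h2 : C ≤ ⁅M, X₁⁆ := by
    have := H2.commutator_sup_centralizer (h₁.trans hQC)
      (H2.coprime_of_le_left (H2.coprime_of_le_right hcop inf_le_left) h₁)
      (Or.inl (solvable_of_abelian (abelianS hQ h₁)))
    have h0 : C ⊓ 𝐂(X₁) = ⊥ := by
      rw [eq_bot_iff, ← hinf]
      exact le_inf (inf_le_inf_right _ inf_le_left) inf_le_left
    rw [h0, sup_bot_eq] at this
    rw [← this]
    exact commutator_mono hCM le_rfl
  have h3 : C = ⁅M, X₁⁆ := le_antisymm h2 h1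
  have hPM : P ≤ M := by
    refine H2.le_of_normalizer_inf_le hP.isNilpotent inf_le_left (le_inf inf_le_left ?_)
    refine (hgen _ inf_le_left (le_normalizer_inf hQP (le_normalizer_normalizer hQM))).trans
      (sup_le ?_ ?_)
    · rw [h3]
      exact le_normalizer_commutator (inf_le_left.trans inf_le_right) (cents_norm inf_le_right)
    · exact (inf_le_inf_right _ inf_le_left).trans le_normalizer
  exact hPM.trans inf_le_right

theorem main {S : Type*} [Group S] [Finite S] {p q : ℕ} [hp : Fact p.Prime] [hq : Fact q.Prime]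
    (hpq : p ≠ q) {P Q X₁ X₂ : Subgroup S} (hP : IsPGroup p P) (hQP : Q ≤ 𝐍(P))
    (hQ : IsElementaryAbelian q Q) (hQc : Nat.card Q = q ^ 2)
    (h₁ : X₁ ≤ Q) (h₂ : X₂ ≤ Q) (h₁₂ : X₁ ≠ X₂) (hc₁ : Nat.card X₁ = q) (hc₂ : Nat.card X₂ = q)
    (honly : ∀ X : Subgroup S, X ≤ Q → Nat.card X = q → P ⊓ 𝐂(X) ≠ ⊥ → X = X₁ ∨ X = X₂) :
    ⁅P ⊓ 𝐂(X₁), P ⊓ 𝐂(X₂)⁆ = ⊥ ∧ (P ⊓ 𝐂(X₁)) ⊓ (P ⊓ 𝐂(X₂)) = ⊥ ∧
      (P ⊓ 𝐂(X₁)) ⊔ (P ⊓ 𝐂(X₂)) = P := by
  have hcop : (Nat.card Q).Coprime (Nat.card P) := by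
    rw [hQc]
    exact (coprime_of_isPGroup_of_not_dvd hp.out hP fun h =>
      hpq ((Nat.prime_dvd_prime_iff_eq hp.out hq.out).mp (hp.out.dvd_of_dvd_pow h))).symm
  have hord : ∀ a ∈ Q, a ≠ 1 → Nat.card (zpowers a) = q := fun a ha h1 => by
    rw [Nat.card_zpowers]; exact orderOf_eq_prime (hQ.2 a ha) h1
  have hp1 : (Nat.card X₁).Prime := hc₁ ▸ hq.out
  have hp2 : (Nat.card X₂).Prime := hc₂ ▸ hq.out
  have hX : X₁ ⊓ X₂ = ⊥ := prime_TIg hp1 fun h =>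
    h₁₂ (eq_of_le_of_prime_card hp2 h (ne_bot_of_prime_card hp1))
  have hnc : ¬ IsCyclic Q := by
    intro hc
    obtain ⟨g, hg⟩ := hc.exists_generator
    have h1 : orderOf g = q ^ 2 := by rw [← hQc]; exact orderOf_eq_card_of_forall_mem_zpowers hg
    have h2 : orderOf g ∣ q := orderOf_dvd_of_pow_eq_one (Subtype.ext (by simpa using hQ.2 g g.2))
    rw [h1] at h2
    have := Nat.le_of_dvd hq.out.pos h2
    nlinarith [hq.out.two_le]
  have hgen : ∀ M, M ≤ P → Q ≤ 𝐍(M) → M ≤ (M ⊓ 𝐂(X₁)) ⊔ (M ⊓ 𝐂(X₂)) := by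
    intro M hM hQM
    refine H2.le_of_forall_centralizer_le hQ.1 hnc hQM (H2.coprime_of_le_right hcop hM)
      fun a ha h1 => ?_
    rw [← centralizer_zpowers]
    by_cases h : P ⊓ 𝐂(zpowers a) = ⊥
    · exact ((inf_le_inf_right _ hM).trans h.le).trans bot_le
    · rcases honly _ (zpowers_le.mpr ha) (hord a ha h1) h with h | h <;> rw [h]
      exacts [le_sup_left, le_sup_right]
  have hinf : (P ⊓ 𝐂(X₁)) ⊓ (P ⊓ 𝐂(X₂)) = ⊥ := by
    by_contra hne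
    obtain ⟨x, hx, hx1⟩ := (bot_or_exists_ne_one X₁).resolve_left (ne_bot_of_prime_card hp1)
    obtain ⟨y, hy, hy1⟩ := (bot_or_exists_ne_one X₂).resolve_left (ne_bot_of_prime_card hp2)
    have hxy : x * y ≠ 1 := fun h => hx1 (by
      have : x ∈ X₁ ⊓ X₂ := ⟨hx, by rw [eq_inv_of_mul_eq_one_left h]; exact X₂.inv_mem hy⟩
      rwa [hX, mem_bot] at this)
    have hm : x * y ∈ Q := mul_mem (h₁ hx) (h₂ hy)
    have hle : (P ⊓ 𝐂(X₁)) ⊓ (P ⊓ 𝐂(X₂)) ≤ P ⊓ 𝐂(zpowers (x * y)) := by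
      refine le_inf (inf_le_left.trans inf_le_left) ?_
      refine (inf_le_inf inf_le_right inf_le_right).trans ?_
      rw [← centralizer_sup]
      exact centralizer_anti (zpowers_le.mpr (mul_mem_sup hx hy))
    rcases honly _ (zpowers_le.mpr hm) (hord _ hm hxy) (fun h => hne (eq_bot_iff.mpr (h ▸ hle)))
      with h | h
    · have : y ∈ X₁ ⊓ X₂ := ⟨(mul_mem_cancel_left hx).mp (h ▸ mem_zpowers _), hy⟩
      rw [hX, mem_bot] at this; exact hy1 this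
    · have : x ∈ X₁ ⊓ X₂ := ⟨hx, (mul_mem_cancel_right hy).mp (h ▸ mem_zpowers _)⟩
      rw [hX, mem_bot] at this; exact hx1 this
  have n2 := norm_aux hP hQP hcop hQ.1 h₁ h₂ hgen hinf
  have n1 := norm_aux hP hQP hcop hQ.1 h₂ h₁ (fun M a b => by rw [sup_comm]; exact hgen M a b)
    (by rw [inf_comm]; exact hinf)
  refine ⟨?_, hinf, le_antisymm (sup_le inf_le_left inf_le_left) (hgen P le_rfl hQP)⟩
  rw [eq_bot_iff, ← hinf]
  exact commutator_le_inf_of_norm (inf_le_left.trans n2) (inf_le_left.trans n1)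

end

/-- Let S = PQ be a finite group with P a normal Sylow p-subgroup and Q elementary abelian of order q², q a prime different from p. If exactly two subgroups X₁, X₂ of order q in Q have a nontrivial centralizer in P, then P is the internal direct product of C_P(X₁) and C_P(X₂): they commute elementwise, meet trivially and generate P. -/
theorem result {S : Type*} [Group S] [Finite S] {p q : ℕ} [Fact p.Prime] [Fact q.Prime] (hpq : p ≠ q)
    (P : Sylow p S) [(P : Subgroup S).Normal] (Q : Subgroup S) (hQ : Cfsg.IsElementaryAbelian q Q) (hQc : Nat.card Q = q ^ 2)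
    (hS : (P : Subgroup S) ⊔ Q = ⊤)
    (X₁ X₂ : Subgroup S) (h₁ : X₁ ≤ Q) (h₂ : X₂ ≤ Q) (h₁₂ : X₁ ≠ X₂) (hc₁ : Nat.card X₁ = q) (hc₂ : Nat.card X₂ = q)
    (hf₁ : (P : Subgroup S) ⊓ Subgroup.centralizer (X₁ : Set S) ≠ ⊥)
    (hf₂ : (P : Subgroup S) ⊓ Subgroup.centralizer (X₂ : Set S) ≠ ⊥)
    (honly : ∀ X : Subgroup S, X ≤ Q → Nat.card X = q →
      (P : Subgroup S) ⊓ Subgroup.centralizer (X : Set S) ≠ ⊥ → X = X₁ ∨ X = X₂) :
    ⁅(P : Subgroup S) ⊓ Subgroup.centralizer (X₁ : Set S), (P : Subgroup S) ⊓ Subgroup.centralizer (X₂ : Set S)⁆ = ⊥ ∧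
      ((P : Subgroup S) ⊓ Subgroup.centralizer (X₁ : Set S)) ⊓ ((P : Subgroup S) ⊓ Subgroup.centralizer (X₂ : Set S)) = ⊥ ∧
      ((P : Subgroup S) ⊓ Subgroup.centralizer (X₁ : Set S)) ⊔ ((P : Subgroup S) ⊓ Subgroup.centralizer (X₂ : Set S)) = P := by
  exact main hpq P.isPGroup' Subgroup.le_normalizer_of_normal hQ hQc h₁ h₂ h₁₂ hc₁ hc₂ honly

end Cfsg.Agent.S1900
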