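import Cfsg.Statements.S1901
import Cfsg.Agent.Lib.BG.Api.Hall
import Cfsg.Agent.Lib.Core.Coprime
import Cfsg.Agent.Lib.FGS.PLength
import Cfsg.Agent.Lib.Comp.PConstrained
import Cfsg.Agent.Lib.LocStruct.SylowIn
-- import your own Cfsg.Agent.* helpers here

set_option autoImplicit false
open Cfsg

namespace Cfsg.Agent.S1901

section
open Subgroup H69 H45
open scoped commutatorElement

universe v

theorem main {p : ℕ} [hp : Fact p.Prime] (n : ℕ) : ∀ (G : Type v) [Group G] [Finite G], Nat.card G = n →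
    IsPSolvable p G → ∀ P Q X : Subgroup G, IsSylowIn p P ⊤ → ¬ p ∣ Nat.card Q → Q ≤ 𝐍(P) →
      IsPGroup p X → X ≤ 𝐍(Q) → ⁅Q, X⁆ = ⊥ := by
  induction n using Nat.strong_induction_on with
  | _ n ih =>
  intro G _ _ hn hG P Q X hP hQ hQP hX hXQ
  have hquo : ∀ (N : Subgroup G) [N.Normal], N ≠ ⊥ → ⁅Q, X⁆ ≤ N := by
    intro N _ hN
    have h1 := hP.map (QuotientGroup.mk' N)
    rw [map_top_of_surjective _ (QuotientGroup.mk'_surjective N)] at h1
    have := ih _ (hn ▸ H1.card_quotient_lt hN) (G ⧸ N) rfl (H76.isPSolvable_quotient hG N) _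
      (Q.map (QuotientGroup.mk' N)) (X.map (QuotientGroup.mk' N)) h1
      (fun h => hQ (h.trans (card_map_dvd _ _))) ((map_mono hQP).trans (le_normalizer_map _))
      (hX.map _) ((map_mono hXQ).trans (le_normalizer_map _))
    rw [← map_commutator, Subgroup.map_eq_bot_iff, QuotientGroup.ker_mk'] at this
    exact this
  have hKQ : ⁅Q, X⁆ ≤ Q := commutator_le_left_of_le_normalizer hXQ
  have hcop : (Nat.card X).Coprime (Nat.card Q) := coprime_of_isPGroup_of_not_dvd hp.out hX hQ
  by_cases h1 : pPrimeCore p G = ⊥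
  · by_cases h2 : pCore p G = ⊥
    · rcases subsingleton_or_nontrivial G with hs | hs
      · exact Subsingleton.elim _ _
      · exact absurd (by rw [H23.pPrimePCore_eq_pCore_of_pPrimeCore_eq_bot h1, h2])
          (H76.pPrimePCore_ne_bot hG)
    · rw [eq_bot_iff, ← coprime_TIg (coprime_of_isPGroup_of_not_dvd hp.out H1.isPGroup_pCore hQ)]
      exact le_inf (hquo _ h2) hKQ
  · set K := ⁅Q, X⁆ with hK
    have hKN := hquo _ h1
    have hPK : P ≤ 𝐂(K) := by
      apply le_centralizer_of_commutator_eq_bot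
      rw [eq_bot_iff, ← H1.inf_pPrimeCore_eq_bot hP.isP]
      exact le_inf (commutator_le_left_of_le_normalizer (hKQ.trans hQP))
        ((commutator_mono le_rfl hKN).trans (commutator_le_right _ _))
    have hXK : X ≤ 𝐍(K) := le_normalizer_commutator hXQ le_normalizer
    obtain ⟨g, hg, hXg⟩ := (hP.mono (cents_norm hPK) le_top).exists_le_cj hX hXK
    have hXC : X ≤ 𝐂(K) := by
      refine hXg.trans ((cj_mono g hPK).trans ?_)
      rw [cj_centralizer, cj_eq_of_mem_normalizer hg]
    rw [hK, ← H2.commutator_commutator_eq hXQ hcop]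
    exact commutator_eq_bot_of_le_centralizer (centsC.mp hXC)

theorem main' {G : Type v} [Group G] [Finite G] {p : ℕ} [hp : Fact p.Prime]
    (hG : IsPSolvable p G) (Q : Subgroup G) (hQ : ¬ p ∣ Nat.card Q)
    (hA : p ∣ (𝐂(Q)).relIndex (𝐍(Q))) (P : Sylow p G) : ¬ Q ≤ 𝐍((P : Subgroup G)) := by
  intro h
  obtain ⟨X, hX⟩ := exists_isSylowIn p (𝐍(Q))
  have := main _ G rfl hG P Q X (isSylowIn_top P) hQ h hX.isP hX.le
  exact hX.not_dvd_relIndex_of_le (centsC.mp (le_centralizer_of_commutator_eq_bot this))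
    (cents_norm le_rfl) hA

end

/-- Let G be a finite p-solvable group and Q a subgroup of order prime to p such that p divides the index of C_G(Q) in N_G(Q). Then Q normalizes no Sylow p-subgroup of G. -/
theorem result {G : Type*} [Group G] [Finite G] {p : ℕ} [Fact p.Prime]
    (hG : Cfsg.IsPSolvable p G) (Q : Subgroup G) (hQ : ¬ p ∣ Nat.card Q)
    (hA : p ∣ (Subgroup.centralizer (Q : Set G)).relIndex (Subgroup.normalizer (Q : Set G)))
    (P : Sylow p G) : ¬ Q ≤ Subgroup.normalizer ((P : Subgroup G) : Set G) := by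
  exact main' hG Q hQ hA P

end Cfsg.Agent.S1901
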