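import Cfsg.Statements.S3737
import Mathlib
import Cfsg.Agent.Lib.Core.CoprimeAbelian
import Cfsg.Agent.Lib.Tech58.Small
import Cfsg.Agent.Lib.Core.Fitting
import Cfsg.Agent.Lib.PGroup.Basic

set_option autoImplicit false
open Cfsg

namespace Cfsg.Agent.S3737

open Subgroup
open scoped Pointwise commutatorElement

theorem symProd_perm {K : Type*} [Group K] (h : ∀ a b c : K, Commute ⁅a, b⁆ c) {l l' : List K}
    (hl : l.Perm l') : l.prod * l.reverse.prod = l'.prod * l'.reverse.prod := by
  induction hl with
  | nil => rfl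
  | cons a _ ih =>
    simp only [List.prod_cons, List.reverse_cons, List.prod_append, List.prod_nil, mul_one]
    rw [mul_assoc, ← mul_assoc (List.prod _), ih]; simp only [mul_assoc]
  | swap a b l =>
    simp only [List.prod_cons, List.reverse_cons, List.prod_append, List.prod_nil, mul_one]
    have e1 : b * (a * l.prod) * (l.reverse.prod * a * b) =
        ⁅b, a⁆ * (a * b * l.prod * l.reverse.prod) * (a * b) := by
      rw [commutatorElement_def]; group
    rw [e1, (h b a _).eq, commutatorElement_def]; group
  | trans _ _ h1 h2 => exact h1.trans h2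

open scoped IsMulCommutative in
theorem step {X : Type*} [Group X] [Finite X] {p : ℕ} [Fact p.Prime] (hp : p ≠ 2)
    (P Q G : Subgroup X) (hP : IsPGroup p P) (hQ : (Nat.card Q).Coprime p)
    (hPQ : P ≤ normalizer (Q : Set X)) (hG : IsPGroup p G) (hPG : P ≤ normalizer (G : Set X))
    (hQG : Q ≤ normalizer (G : Set X))
    (hC : G ⊓ centralizer (P : Set X) ≤ centralizer (Q : Set X)) (h1 : ⁅G, Q⁆ = G)
    (h2 : Q ≤ centralizer ((⁅G, G⁆ : Subgroup X) : Set X)) : G ≤ ⁅G, G⁆ := by
  classical
  by_contra hne
  set D := ⁅G, G⁆ with hD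
  have hcop := H2.coprime_card_of_isPGroup hQ hG
  have hQD : Q ≤ normalizer (D : Set X) := h2.trans (centralizer_le_normalizer _)
  have hDG : D ≤ centralizer (G : Set X) := H58.le_centralizer_of_commutator_eq h1
    (H2.le_normalizer_commutator le_normalizer le_normalizer)
    (by rw [commutator_comm]; exact commutator_eq_bot_iff_le_centralizer.mpr h2)
  obtain ⟨x, hx, hxD, hxp, hxc⟩ := H5.exists_step_of_le (hP.to_sup_of_normal_right' hG hPG) D
    le_sup_right (sup_le hPG le_normalizer) hne
  have := H2.normal_subgroupOf_of_commutator_le (K := G) (N := D) le_rfl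
  have := H2.isMulCommutative_section (K := G) (N := D) le_rfl
  have := Fintype.ofFinite Q
  let x' : G := ⟨x, hx⟩
  let c : Q → G := fun q => x'⁻¹ * H2.conjAut hQG q x'
  let l : List Q := Finset.univ.toList
  let s : G := (l.map c).prod * (l.map c).reverse.prod
  have hcomm : ∀ a b d : G, Commute ⁅a, b⁆ d := fun a b d =>
    Subtype.ext (hDG (commutator_mem_commutator a.2 b.2) d d.2).symm
  have hs : (s : X) ∈ centralizer (P : Set X) := by
    intro g hg
    have e : ∀ q, H2.conjAut hPG ⟨g, hg⟩ (c q) = c (H2.conjAut hPQ ⟨g, hg⟩ q) := by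
      intro q
      apply Subtype.ext
      have h3 := h2 (H2.conjAut hPQ ⟨g, hg⟩ q).2 _ (hxc g (mem_sup_left hg))
      simp only [c, x', H2.coe_conjAut_apply, coe_mul, coe_inv] at h3 ⊢
      have e2 : g * (x⁻¹ * (q * x * (q : X)⁻¹)) * g⁻¹ =
          x⁻¹ * (⁅x, g⁆ * (g * q * g⁻¹)) * ⁅x, g⁆⁻¹ * x * (g * q * g⁻¹)⁻¹ := by
        rw [commutatorElement_def]; group
      rw [e2, h3]; group
    have e3 : (l.map c).map (H2.conjAut hPG ⟨g, hg⟩) = (l.map (H2.conjAut hPQ ⟨g, hg⟩)).map c := by
      rw [List.map_map, List.map_map]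
      exact List.map_congr_left fun q _ => e q
    have e4 : (l.map (H2.conjAut hPQ ⟨g, hg⟩)).Perm l := by
      rw [List.perm_ext_iff_of_nodup ((Finset.nodup_toList _).map (MulEquiv.injective _))
        (Finset.nodup_toList _)]
      intro q
      simp only [l, List.mem_map, Finset.mem_toList, Finset.mem_univ, true_and, iff_true]
      exact MulEquiv.surjective _ q
    have e5 : H2.conjAut hPG ⟨g, hg⟩ s = s := by
      simp only [s]
      rw [map_mul, map_list_prod, map_list_prod, List.map_reverse, e3]
      exact symProd_perm hcomm (e4.map c)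
    have e6 := congrArg Subtype.val e5
    rw [H2.coe_conjAut_apply] at e6
    exact mul_inv_eq_iff_eq_mul.mp e6
  have hsD : (s : X) ∈ D := H2.inf_centralizer_le_commutator hQG hcop h1.ge ⟨s.2, hC ⟨s.2, hs⟩⟩
  let π := QuotientGroup.mk' (D.subgroupOf G)
  let φ := H2.sectionAut hQG hQD
  have hN : H2.normHom φ (π x') = 1 := by
    obtain ⟨y, hy⟩ := QuotientGroup.mk_surjective (H2.normHom φ (π x'))
    rw [← hy, QuotientGroup.eq_one_iff]
    refine H2.mem_of_mem_commutator_of_fixed hQG hQD le_rfl
      (hcop.coprime_dvd_right (relIndex_dvd_card _ _)) (h1.ge y.2) fun a ha => ?_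
    refine (H2.sectionAut_mk_eq_iff hQG hQD ⟨a, ha⟩ y).mp ?_
    rw [hy]
    exact H2.apply_normHom φ _ _
  have h3 : ((l.map c).map π).prod = (π x')⁻¹ ^ Nat.card Q := by
    rw [List.map_map, Finset.prod_map_toList]
    have : ∀ q, (π ∘ c) q = (π x')⁻¹ * φ q (π x') := fun q => rfl
    simp only [this]
    rw [Finset.prod_mul_distrib, ← H2.normHom_apply, hN, mul_one, Finset.prod_const,
      Finset.card_univ, Nat.card_eq_fintype_card]
  have h4 : π s = 1 := (QuotientGroup.eq_one_iff s).mpr hsD
  simp only [s] at h4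
  rw [map_mul, map_list_prod, map_list_prod, List.map_reverse, List.prod_reverse, h3, ← pow_add,
    inv_pow, inv_eq_one, ← two_mul] at h4
  have h5 : π x' ^ p = 1 := by
    rw [← map_pow]; exact (QuotientGroup.eq_one_iff _).mpr hxp
  have h6 : π x' = 1 := by
    rw [← orderOf_eq_one_iff]
    refine Nat.eq_one_of_dvd_coprimes (Nat.Coprime.mul_left ?_ hQ) (orderOf_dvd_of_pow_eq_one h4)
      (orderOf_dvd_of_pow_eq_one h5)
    exact (Nat.coprime_primes Nat.prime_two Fact.out).mpr hp.symm
  exact hxD ((QuotientGroup.eq_one_iff x').mp h6)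

/-- Thompson's strengthening of the P × Q lemma for odd primes. Let p be an odd prime and let P, Q and G be subgroups of a finite group with P a p-group, Q of order prime to p and normalized by P, and G a p-group normalized by both P and Q. If every element of G centralized by P is centralized by Q, then Q centralizes G. -/
theorem result {X : Type*} [Group X] [Finite X] {p : ℕ} [Fact p.Prime] (hp : p ≠ 2) (P Q G : Subgroup X) (hP : IsPGroup p P) (hQ : (Nat.card Q).Coprime p) (hPQ : P ≤ Subgroup.normalizer (Q : Set X)) (hG : IsPGroup p G) (hPG : P ≤ Subgroup.normalizer (G : Set X)) (hQG : Q ≤ Subgroup.normalizer (G : Set X)) (hC : G ⊓ Subgroup.centralizer (P : Set X) ≤ Subgroup.centralizer (Q : Set X)) : Q ≤ Subgroup.centralizer (G : Set X) := by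
  induction G using WellFoundedLT.induction with
  | ind G ih =>
    have hcop := H2.coprime_card_of_isPGroup hQ hG
    have ih' : ∀ D < G, P ≤ normalizer (D : Set X) → Q ≤ normalizer (D : Set X) →
        Q ≤ centralizer (D : Set X) := fun D h a b =>
      ih D h (hG.to_le h.le) a b ((inf_le_inf_right _ h.le).trans hC)
    rw [le_centralizer_iff, ← commutator_eq_bot_iff_le_centralizer]
    rcases (H2.commutator_le_of_le_normalizer hQG).eq_or_lt with h | h
    · by_contra hne
      have h0 : G ≠ ⊥ := fun e => hne (by rw [h, e])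
      have h1 := H1.commutator_self_lt_of_isSolvable (H1.isSolvable_of_isPGroup hG) h0
      exact h1.not_ge (step hp P Q G hP hQ hPQ hG hPG hQG hC h (ih' _ h1
        (H2.le_normalizer_commutator hPG hPG) (H2.le_normalizer_commutator hQG hQG)))
    · apply H2.commutator_eq_bot_of_commutator_commutator_eq_bot hQG hcop
      rw [commutator_eq_bot_iff_le_centralizer, ← le_centralizer_iff]
      exact ih' _ h (H2.le_normalizer_commutator hPG hPQ)
        (H2.le_normalizer_commutator hQG le_normalizer)

end Cfsg.Agent.S3737
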