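import Cfsg.Statements.S1902
import Cfsg.Agent.Lib.BG.S1a
import Cfsg.Agent.Lib.BG.Api.Hall
import Cfsg.Agent.Lib.Core.Coprime
import Cfsg.Agent.Lib.FGS.PLength
import Cfsg.Agent.Lib.Comp.PConstrained
import Cfsg.Agent.Lib.LocStruct.SylowIn
import Cfsg.Agent.S3737
-- import your own Cfsg.Agent.* helpers here

set_option autoImplicit false
open Cfsg

namespace Cfsg.Agent.S1902

section
open Subgroup H69 H45
open scoped commutatorElement

theorem core {G : Type*} [Group G] [Finite G] {p : ℕ} [hp : Fact p.Prime] (hp2 : p ≠ 2)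
    (hC : 𝐂(pCore p G) ≤ pCore p G) {B Q : Subgroup G} (hB : IsPGroup p B)
    (h : ∀ x ∈ pCore p G, x ∈ 𝐂(B) → x ^ p = 1 → x ∈ B) (hQ : ¬ p ∣ Nat.card Q)
    (hBQ : B ≤ 𝐍(Q)) : Q = ⊥ := by
  have hR : IsPGroup p (pCore p G) := H1.isPGroup_pCore
  have hcop := coprime_of_isPGroup_of_not_dvd hp.out hR hQ
  have hQC : Q ≤ 𝐂(pCore p G) := by
    by_cases h0 : pCore p G = ⊥
    · rw [h0, centralizer_bot]; exact le_top
    obtain ⟨D, hD, -, -, hexp, hcr⟩ := H45.BG.critical_odd hp2 hR h0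
    have hn : ∀ L : Subgroup G, L ≤ 𝐍(D) := fun L => hD.norm_trans le_normalizer_of_normal
    refine hcr Q le_normalizer_of_normal ((isPi_compl_singleton_iff hp.out).mpr hQ) ?_
    refine S3737.result hp2 B Q D hB ((Nat.Prime.coprime_iff_not_dvd hp.out).mpr hQ).symm hBQ
      (hR.to_le hD.le) (hn _) (hn _) fun x hx => ?_
    have hxB : x ∈ B := h x (hD.le hx.1) hx.2 (hexp x hx.1)
    have : B ⊓ pCore p G ≤ 𝐂(Q) := by
      apply le_centralizer_of_commutator_eq_bot
      rw [eq_bot_iff, ← coprime_TIg hcop]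
      exact le_inf ((commutator_mono inf_le_right le_rfl).trans (commutator_le_left _ _))
        (commutator_le_right_of_le_normalizer (inf_le_left.trans hBQ))
    exact this ⟨hxB, hD.le hx.1⟩
  rw [eq_bot_iff, ← coprime_TIg hcop]
  exact le_inf (hQC.trans hC) le_rfl

theorem main {G : Type*} [Group G] [Finite G] {p : ℕ} [hp : Fact p.Prime] (hp2 : p ≠ 2)
    (hG : IsPSolvable p G) {B P Q : Subgroup G} (hB : IsPGroup p B) {b : G} (hb : b ∈ B)
    (hP : IsSylowIn p P 𝐂[b]) (h : ∀ x ∈ P, orderOf x = p → x ∈ B) (hQ : ¬ p ∣ Nat.card Q)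
    (hBQ : B ≤ 𝐍(Q)) : Q ≤ pPrimeCore p G := by
  set N := pPrimeCore p G with hN
  set f := QuotientGroup.mk' N with hf
  have hNc : (Nat.card N).Coprime p := H1.coprime_card_pPrimeCore
  have hzb : IsPGroup p (zpowers b) := hB.to_le (zpowers_le.mpr hb)
  have hC : (𝐂[b]).map f = 𝐂[f b] := by
    rw [← centralizer_zpowers, ← centralizer_zpowers, ← MonoidHom.map_zpowers]
    exact H2.map_mk'_centralizer (H1.coprime_card_of_isPGroup_of_coprime hzb hNc)
      (Or.inl (H2.isSolvable_zpowers b))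
  have hP' := hP.map f
  rw [hC] at hP'
  have := core hp2 (H23.centralizer_pCore_le_of_isPSolvable (H76.isPSolvable_quotient hG N)
    H1.pPrimeCore_quotient_pPrimeCore) (hB.map f) (Q := Q.map f) (fun x hx hxB hxp => ?_)
    (fun h => hQ (h.trans (card_map_dvd _ _))) ((map_mono hBQ).trans (le_normalizer_map _))
  · rwa [Subgroup.map_eq_bot_iff, QuotientGroup.ker_mk'] at this
  have h1 : pCore p (G ⧸ N) ⊓ 𝐂[f b] ≤ P.map f :=
    hP'.le_of_le_normalizer (H1.isPGroup_pCore.to_le inf_le_left) inf_le_right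
      (le_normalizer_inf le_normalizer_of_normal (hP'.le.trans le_normalizer))
  obtain ⟨y, hy, rfl⟩ := h1 ⟨hx, cent_le_cent1 (mem_map_of_mem f hb) hxB⟩
  have h2 : y ^ p ∈ P ⊓ N := ⟨P.pow_mem hy p, by
    rw [← map_pow] at hxp; exact (QuotientGroup.eq_one_iff _).mp hxp⟩
  rw [H1.inf_pPrimeCore_eq_bot hP.isP, mem_bot] at h2
  by_cases hy1 : y = 1
  · rw [hy1, map_one]; exact one_mem _
  · exact mem_map_of_mem f (h y hy (orderOf_eq_prime h2 hy1))

end

/-- Let p be an odd prime, G a finite p-solvable group, and B an elementary abelian subgroup of order p² such that B is the subgroup generated by the elements of order p of some Sylow p-subgroup of C_G(b₀), for some nontrivial b₀ ∈ B. Then every B-invariant subgroup of G of order prime to p lies in O_{p'}(G). -/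
theorem result {G : Type*} [Group G] [Finite G] {p : ℕ} [Fact p.Prime] (hp : p ≠ 2)
    (hG : Cfsg.IsPSolvable p G) (B : Subgroup G) (hB : Cfsg.IsElementaryAbelian p B) (hBc : Nat.card B = p ^ 2)
    (b₀ : G) (hb₀ : b₀ ∈ B) (hb₁ : b₀ ≠ 1) (P : Sylow p ↥(Subgroup.centralizer ({b₀} : Set G)))
    (hBP : B = Subgroup.closure {x : G | x ∈ ((P : Subgroup ↥(Subgroup.centralizer ({b₀} : Set G))).map
      (Subgroup.centralizer ({b₀} : Set G)).subtype : Subgroup G) ∧ orderOf x = p})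
    (Q : Subgroup G) (hQ : ¬ p ∣ Nat.card Q) (hinv : ∀ b ∈ B, ∀ x ∈ Q, b * x * b⁻¹ ∈ Q) :
    Q ≤ Cfsg.pPrimeCore p G := by
  refine main hp hG (B := B) (H69.isPGroup_iff_mem.mpr fun x hx => ⟨1, by simpa using hB.2 x hx⟩) hb₀
    (H69.isSylowIn_map_subtype P) (fun x hx ho => ?_) hQ fun b hb => ?_
  · rw [hBP]; exact Subgroup.subset_closure ⟨hx, ho⟩
  · exact H69.mem_normalizer_of_cj_le fun x hx => by
      obtain ⟨a, ha, rfl⟩ := H69.mem_cj'.mp hx; exact hinv b hb a ha

end Cfsg.Agent.S1902
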