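import Cfsg.Statements.S1906
import Mathlib
import Cfsg.Agent.Base
import Cfsg.Agent.Lib.Tech58.Extremal
import Cfsg.Agent.Lib.PGroup.Critical

set_option autoImplicit false
open Cfsg

namespace Cfsg.Agent.S1906

open Subgroup Matrix

section Mat
variable {F : Type*} [Field F]

theorem adj_eq (s : Matrix (Fin 3) (Fin 3) F) :
    adjugate s = s * s - s.trace • s + (adjugate s).trace • (1 : Matrix (Fin 3) (Fin 3) F) := by
  ext i j
  fin_cases i <;> fin_cases j <;>
    simp [adjugate_fin_three, Matrix.mul_apply, Fin.sum_univ_three, trace_fin_three] <;> ring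

theorem trace_eq {s : Matrix (Fin 3) (Fin 3) F} (h2 : s * s = 1) (hd : s.det = 1) (h1 : s ≠ 1) :
    s.trace = -1 := by
  have ha : adjugate s = s := by
    have := mul_adjugate s
    rw [hd, one_smul] at this
    rw [← one_mul (adjugate s), ← h2, mul_assoc, this, mul_one]
  by_contra ht
  have ht' : 1 + s.trace ≠ 0 := fun h => ht (by linear_combination h)
  have h3 := adj_eq s
  rw [h2] at h3
  nth_rw 1 [ha] at h3
  have h4 : (1 + s.trace) • s = (1 + (adjugate s).trace) • (1 : Matrix (Fin 3) (Fin 3) F) := by
    rw [add_smul, add_smul, one_smul, one_smul]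
    nth_rw 1 [h3]
    abel
  obtain ⟨c, hc⟩ : ∃ c : F, s = c • (1 : Matrix (Fin 3) (Fin 3) F) :=
    ⟨(1 + s.trace)⁻¹ * (1 + (adjugate s).trace), by
      rw [mul_smul, ← h4, smul_smul, inv_mul_cancel₀ ht', one_smul]⟩
  subst hc
  have h5 : c * c = 1 := by simpa using congrFun (congrFun h2 0) 0
  have h6 : c ^ 3 = 1 := by simpa using hd
  have : c = 1 := by linear_combination h6 - c * h5
  exact h1 (by rw [this, one_smul])

theorem mul_mul_of_adj {u : Matrix (Fin 3) (Fin 3) F} (h : adjugate u = 0)
    (x : Matrix (Fin 3) (Fin 3) F) : u * x * u = (x * u).trace • u := by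
  have h00 := congrFun (congrFun h 0) 0
  have h01 := congrFun (congrFun h 0) 1
  have h02 := congrFun (congrFun h 0) 2
  have h10 := congrFun (congrFun h 1) 0
  have h11 := congrFun (congrFun h 1) 1
  have h12 := congrFun (congrFun h 1) 2
  have h20 := congrFun (congrFun h 2) 0
  have h21 := congrFun (congrFun h 2) 1
  have h22 := congrFun (congrFun h 2) 2
  simp [adjugate_fin_three] at h00 h01 h02 h10 h11 h12 h20 h21 h22
  have key : ∀ i j k l, u i k * u l j = u l k * u i j := by
    intro i j k l
    fin_cases i <;> fin_cases j <;> fin_cases k <;> fin_cases l <;> simp only [Fin.isValue, Fin.zero_eta, Fin.mk_one, Fin.reduceFinMk] <;>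
      first
        | ring1
        | linear_combination h00 | linear_combination -h00
        | linear_combination h01 | linear_combination -h01
        | linear_combination h02 | linear_combination -h02
        | linear_combination h10 | linear_combination -h10
        | linear_combination h11 | linear_combination -h11
        | linear_combination h12 | linear_combination -h12
        | linear_combination h20 | linear_combination -h20
        | linear_combination h21 | linear_combination -h21
        | linear_combination h22 | linear_combination -h22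
  ext i j
  simp only [Matrix.mul_apply, Matrix.smul_apply, trace, diag, smul_eq_mul, Finset.sum_mul]
  rw [Finset.sum_comm]
  refine Finset.sum_congr rfl fun k _ => Finset.sum_congr rfl fun l _ => ?_
  linear_combination x k l * key i j k l

theorem comm_mul (hF : (2 : F) ≠ 0) {t x : Matrix (Fin 3) (Fin 3) F} (h2 : t * t = 1)
    (hd : t.det = 1) (h1 : t ≠ 1) (hx : x * t = t * x) :
    x * (1 + t) = ((x * (1 + t)).trace / 2) • (1 + t) := by
  have huu : (1 + t) * (1 + t) = (2 : F) • (1 + t) := by
    rw [two_smul, add_mul, mul_add, mul_add, h2]; simp only [one_mul, mul_one]; abel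
  have htr : (1 + t).trace = 2 := by
    rw [trace_add, trace_eq h2 hd h1, trace_one]; simp; norm_num
  have h3 := adj_eq (1 + t)
  rw [huu, htr, sub_self, zero_add] at h3
  have h4 := congrArg trace h3
  rw [trace_smul, trace_one] at h4
  have h5 : (adjugate (1 + t)).trace = 0 := by
    apply mul_left_cancel₀ hF
    simp only [Fintype.card_fin, Nat.cast_ofNat, smul_eq_mul] at h4
    linear_combination -h4
  rw [h5, zero_smul] at h3
  have h6 := mul_mul_of_adj h3 x
  have h7 : (1 + t) * x = x * (1 + t) := by rw [add_mul, mul_add, hx, one_mul, mul_one]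
  rw [h7, mul_assoc, huu, Matrix.mul_smul] at h6
  rw [div_eq_inv_mul, mul_smul, ← h6, smul_smul, inv_mul_cancel₀ hF, one_smul]

theorem one_add_ne (hF : (2 : F) ≠ 0) {t : Matrix (Fin 3) (Fin 3) F} (hd : t.det = 1) :
    1 + t ≠ 0 := by
  intro h
  have : t = -1 := eq_neg_of_add_eq_zero_right h
  rw [this, det_neg, det_one] at hd
  apply hF
  simp only [Fintype.card_fin] at hd
  linear_combination -hd

theorem mul_eq_neg (hF : (2 : F) ≠ 0) {t s : Matrix (Fin 3) (Fin 3) F} (h2 : t * t = 1)
    (hd : t.det = 1) (h1 : t ≠ 1) (hx : s * t = t * s) (hs2 : s * s = 1) (hsd : s.det = 1)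
    (hs1 : s ≠ 1) (hst : s * t ≠ 1) : s * (1 + t) = -(1 + t) := by
  have h3 : (s * t) * (s * t) = 1 := by
    rw [mul_assoc, ← mul_assoc t, ← hx, mul_assoc, h2, mul_one, hs2]
  have h4 : (s * (1 + t)).trace = -2 := by
    rw [mul_add, mul_one, trace_add, trace_eq hs2 hsd hs1,
      trace_eq h3 (by rw [det_mul, hd, hsd, one_mul]) hst]; norm_num
  rw [comm_mul hF h2 hd h1 hx, h4, neg_div, div_self hF, neg_one_smul]

theorem not_fix (hF : (2 : F) ≠ 0) {t : Matrix (Fin 3) (Fin 3) F} (hd : t.det = 1) :
    (1 + t) ≠ -(1 + t) := by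
  intro h
  apply one_add_ne hF hd
  have : (2 : F) • (1 + t) = 0 := by rw [two_smul]; nth_rw 1 [h]; simp
  exact (smul_eq_zero.mp this).resolve_left hF

theorem no_E8 (hF : (2 : F) ≠ 0) {E : Type*} [Group E] [Finite E] (hc : ∀ a b : E, a * b = b * a)
    (h2 : ∀ a : E, a * a = 1) (h8 : Nat.card E = 8) (g : E →* Matrix (Fin 3) (Fin 3) F)
    (hg : ∀ a, g a = 1 → a = 1) (hd : ∀ a, (g a).det = 1) : False := by
  classical
  haveI := Fintype.ofFinite E
  have hex : ∀ s : Finset E, s.card < 8 → ∃ a, a ∉ s := fun s hs =>
    (Finset.exists_mem_notMem_of_card_lt_card (t := Finset.univ)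
      (by rwa [Finset.card_univ, ← Nat.card_eq_fintype_card, h8])).imp fun _ h => h.2
  obtain ⟨a, ha⟩ := hex {1} (by simp)
  obtain ⟨b, hb⟩ := hex {1, a} (Finset.card_le_two.trans_lt (by norm_num))
  obtain ⟨c, hc'⟩ := hex {1, a, b, a * b} (Finset.card_le_four.trans_lt (by norm_num))
  simp only [Finset.mem_insert, Finset.mem_singleton, not_or] at ha hb hc'
  have hinv : ∀ x y : E, x * y = 1 → x = y := fun x y h => by
    rw [← mul_one x, ← h2 y, ← mul_assoc, h, one_mul]
  have key : ∀ x : E, x ≠ 1 → x ≠ a → g x * (1 + g a) = -(1 + g a) := fun x h1 hxa =>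
    mul_eq_neg hF (by rw [← map_mul, h2, map_one]) (hd a) (fun h => ha (hg a h))
      (by rw [← map_mul, hc, map_mul]) (by rw [← map_mul, h2, map_one]) (hd x)
      (fun h => h1 (hg x h)) (fun h => hxa (hinv _ _ (hg _ (by rw [map_mul, h]))))
  have h3 := key (c * b) (fun h => hc'.2.2.1 (hinv _ _ h))
    (fun h => hc'.2.2.2 (by rw [← h, mul_assoc, h2, mul_one]))
  rw [map_mul, mul_assoc, key b hb.1 hb.2, mul_neg, key c hc'.1 hc'.2.1, neg_neg] at h3
  exact not_fix hF (hd a) h3

end Mat

/-- Let G be a finite group with no subgroup of index 2 whose Sylow 2-subgroup X embeds in GL₃(F) for a finite field F of odd order. If X contains an elementary abelian subgroup of order 8, then X is abelian. -/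
theorem result {G : Type*} [Group G] [Finite G] (hG : ∀ H : Subgroup G, H.index ≠ 2) (X : Sylow 2 G)
    {F : Type*} [Field F] [Fintype F] (hF : Odd (Fintype.card F))
    (f : ↥(X : Subgroup G) →* GL (Fin 3) F) (hf : Function.Injective f)
    (E : Subgroup G) (hE : E ≤ (X : Subgroup G)) (hEa : Cfsg.IsElementaryAbelian 2 E) (hE8 : Nat.card E = 8) :
    IsMulCommutative (X : Subgroup G) := by
  have hF2 : (2 : F) ≠ 0 := by
    intro h
    have h1 : ringChar F = 2 := CharP.ringChar_of_prime_eq_zero Nat.prime_two (by exact_mod_cast h)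
    have := FiniteField.even_card_iff_char_two.mp h1
    rw [Nat.odd_iff] at hF
    omega
  let g : (X : Subgroup G) →* Matrix (Fin 3) (Fin 3) F := (Units.coeHom _).comp f
  have hg : Function.Injective g := Units.val_injective.comp hf
  let φ : (X : Subgroup G) →* Fˣ := Matrix.GeneralLinearGroup.det.comp f
  have hφ : ∀ x, (φ x : F) = (g x).det := fun x => rfl
  have hφ2 : ∀ s : (X : Subgroup G), s ^ 2 = 1 → φ s = 1 ∨ φ s = -1 := fun s hs => by
    have : (φ s : F) ^ 2 = 1 := by rw [← Units.val_pow_eq_pow_val, ← map_pow, hs, map_one]; rfl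
    rcases sq_eq_one_iff.mp this with h | h
    · exact Or.inl (Units.ext h)
    · exact Or.inr (Units.ext h)
  obtain ⟨z, hz⟩ : ∃ z : (X : Subgroup G), g z = -1 := by
    by_contra hno
    push Not at hno
    haveI := hEa.1
    let i : E →* (X : Subgroup G) := inclusion hE
    have hsq : ∀ a : E, i a ^ 2 = 1 := fun a => Subtype.ext (hEa.2 a a.2)
    let g' : E →* Matrix (Fin 3) (Fin 3) F :=
      { toFun := fun a => (φ (i a) : F) • g (i a)
        map_one' := by simp
        map_mul' := fun a b => by simp [smul_smul, mul_comm] }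
    refine no_E8 hF2 (E := E) mul_comm' (fun a => Subtype.ext (by
      have := hEa.2 a a.2; rwa [pow_two] at this)) hE8 g' (fun a ha => ?_) (fun a => ?_)
    · change (φ (i a) : F) • g (i a) = 1 at ha
      rcases hφ2 _ (hsq a) with h | h
      · rw [h, Units.val_one, one_smul, ← g.map_one] at ha
        exact inclusion_injective hE (by rw [map_one]; exact hg ha)
      · rw [h, Units.val_neg, Units.val_one, neg_one_smul] at ha
        exact absurd (neg_eq_iff_eq_neg.mp ha) (hno _)
    · change ((φ (i a) : F) • g (i a)).det = 1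
      rw [det_smul, ← hφ]
      rcases hφ2 _ (hsq a) with h | h <;> rw [h] <;> simp
      norm_num
  have hzc : ∀ x : (X : Subgroup G), x * z = z * x := fun x =>
    hg (by rw [map_mul, map_mul, hz]; simp)
  have hz2 : z ^ 2 = 1 := hg (by rw [map_pow, hz]; simp)
  have hzd : φ z ≠ 1 := fun h => by
    have := hφ z
    rw [h, hz, det_neg, det_one] at this
    apply hF2
    simp only [Fintype.card_fin, Units.val_one] at this
    linear_combination this
  obtain ⟨k, hk, hk1, hk2⟩ := H58.exists_extremal_conj hG X φ (-1) hφ2 (y := z)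
    (congrArg Subtype.val hz2) X X.isPGroup' z.2
    (fun x hx => mem_centralizer_singleton_iff.mpr (congrArg Subtype.val (hzc ⟨x, hx⟩)))
  let c : (X : Subgroup G) →* (X : Subgroup G) :=
    { toFun := fun x => ⟨_, hk2 x x.2⟩
      map_one' := by ext; simp
      map_mul' := fun a b => by ext; simp [mul_assoc] }
  have hci : Function.Injective c := fun a b h => by
    have := congrArg Subtype.val h
    simpa [c] using this
  let e : MulAut (X : Subgroup G) := MulEquiv.ofBijective c (Finite.injective_iff_bijective.mp hci)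
  have het : φ (e z) = 1 := hk1
  have htc : ∀ x, x * e z = e z * x := fun x => by
    rw [← e.apply_symm_apply x, ← map_mul, hzc, map_mul]
  by_contra hab
  have hne : commutator (X : Subgroup G) ≠ ⊥ := fun h =>
    hab ((_root_.commutator_eq_bot_iff _).mp h)
  obtain ⟨s, hs, -, hs2⟩ := H5.exists_mem_center_orderOf_eq X.isPGroup' _ hne
  have hsd : ∀ x ∈ commutator (X : Subgroup G), φ x = 1 := fun x hx =>
    Abelianization.commutator_subset_ker φ hx
  have ht2 : g (e z) * g (e z) = 1 := by rw [← map_mul, ← map_mul, ← pow_two, hz2]; simp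
  have htd : (g (e z)).det = 1 := by rw [← hφ, het]; rfl
  have ht1 : g (e z) ≠ 1 := fun h => hzd (by
    rw [← g.map_one] at h
    rw [(map_eq_one_iff e e.injective).mp (hg h), map_one])
  have hcm : ∀ x, g x * g (e z) = g (e z) * g x := fun x => by rw [← map_mul, htc, map_mul]
  have hlam := fun x => comm_mul hF2 ht2 htd ht1 (hcm x)
  have hu := one_add_ne hF2 htd
  let lam : (X : Subgroup G) →* F :=
    { toFun := fun x => (g x * (1 + g (e z))).trace / 2
      map_one' := by
        have := hlam 1
        rw [map_one] at this ⊢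
        apply smul_left_injective F hu
        simp only [← this]
        rw [one_mul, one_smul]
      map_mul' := fun a b => by
        apply smul_left_injective F hu
        simp only [← hlam]
        rw [mul_comm ((g a * (1 + g (e z))).trace / 2), mul_smul, ← hlam, ← Matrix.mul_smul, ← hlam,
          map_mul, mul_assoc] }
  have h1 : lam s = 1 :=
    congrArg Units.val (Abelianization.commutator_subset_ker lam.toHomUnits hs)
  have h2 : g s * (1 + g (e z)) = 1 + g (e z) := by
    rw [hlam]; change lam s • _ = _; rw [h1, one_smul]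
  have hss : s * s = 1 := by
    have := pow_orderOf_eq_one s
    rwa [hs2, pow_two] at this
  have h3 : g s * g (e z) = 1 := by
    by_contra h
    refine not_fix hF2 htd (h2.symm.trans (mul_eq_neg hF2 ht2 htd ht1 (hcm s)
      (by rw [← map_mul, hss, map_one]) (by rw [← hφ, hsd s hs]; rfl) (fun h => ?_) h))
    rw [← g.map_one] at h
    rw [hg h, orderOf_one] at hs2
    omega
  rw [← map_mul, ← g.map_one] at h3
  have h4 : e z ∈ commutator (X : Subgroup G) := by
    rw [eq_inv_of_mul_eq_one_right (hg h3)]
    exact inv_mem hs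
  have h5 := H5.aut_mem_of_characteristic inferInstance e.symm h4
  rw [MulEquiv.symm_apply_apply] at h5
  exact hzd (hsd z h5)

end Cfsg.Agent.S1906
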