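import Cfsg.Statements.S1907
import Mathlib
import Cfsg.Agent.Base
import Cfsg.Agent.Lib.Tech58.PPCore
import Cfsg.Agent.Lib.LocEven.CharP

set_option autoImplicit false
open Cfsg

namespace Cfsg.Agent.S1907

/-- Let P be a Sylow p-subgroup of a finite group G, H = P ∩ O_{p',p}(G), N = N_G(H) and D = O_{p'}(G). (a) If y is an element of p-power order of N and d ∈ D with d⁻¹ y d ∈ N, then d = d₁ d₂ with d₁ ∈ C_D(y) and d₂ ∈ C_D(H). (b) Two elements of P that are conjugate in G are conjugate in N. -/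
theorem result {G : Type*} [Group G] [Finite G] {p : ℕ} [Fact p.Prime] (P : Sylow p G) :
    (∀ y ∈ Subgroup.normalizer (((P : Subgroup G) ⊓ Cfsg.pPrimePCore p G : Subgroup G) : Set G), (∃ k : ℕ, orderOf y = p ^ k) →
      ∀ d ∈ Cfsg.pPrimeCore p G, d⁻¹ * y * d ∈ Subgroup.normalizer (((P : Subgroup G) ⊓ Cfsg.pPrimePCore p G : Subgroup G) : Set G) →
        ∃ d₁ ∈ Cfsg.pPrimeCore p G ⊓ Subgroup.centralizer ({y} : Set G),
          ∃ d₂ ∈ Cfsg.pPrimeCore p G ⊓ Subgroup.centralizer (((P : Subgroup G) ⊓ Cfsg.pPrimePCore p G : Subgroup G) : Set G), d = d₁ * d₂) ∧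
    ∀ x y : G, x ∈ (P : Subgroup G) → y ∈ (P : Subgroup G) → IsConj x y →
      ∃ n ∈ Subgroup.normalizer (((P : Subgroup G) ⊓ Cfsg.pPrimePCore p G : Subgroup G) : Set G), n * x * n⁻¹ = y := by
  have hH : IsPGroup p ((P : Subgroup G) ⊓ Cfsg.pPrimePCore p G : Subgroup G) :=
    P.isPGroup'.to_le inf_le_left
  constructor
  · rintro y hy ⟨k, hk⟩ d hd hdy
    have := H58.exists_factor_of_conj_le_normalizer (Y := Subgroup.zpowers y)
      H1.coprime_card_pPrimeCore hH
      (H70.isPGroup_zpowers (k := k) (by rw [← hk, pow_orderOf_eq_one]))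
      (Subgroup.zpowers_le.mpr hy) hd (by
        rintro _ ⟨m, rfl⟩
        have := zpow_mem hdy m
        rwa [show d⁻¹ * y * d = d⁻¹ * y * d⁻¹⁻¹ by rw [inv_inv], conj_zpow, inv_inv] at this)
    rwa [H70.centralizer_zpowers] at this
  · intro x y hx hy hxy
    obtain ⟨g, rfl⟩ := isConj_iff.mp hxy
    have hPN := H58.sylow_le_normalizer_inf P (Cfsg.pPrimePCore p G)
    obtain ⟨n, hn, c, hc, rfl⟩ := H58.exists_factor_of_sup_normalizer (Y := Subgroup.zpowers x)
      H1.coprime_card_pPrimeCore hH (H58.pPrimeCore_sup_normalizer_sylow_inf P)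
      (P.isPGroup'.to_le (Subgroup.zpowers_le.mpr hx)) (Subgroup.zpowers_le.mpr (hPN hx)) (g := g) (by
        rintro _ ⟨m, rfl⟩
        have := zpow_mem (hPN hy) m
        rwa [conj_zpow] at this)
    refine ⟨n, hn, ?_⟩
    have := hc.2 x (Subgroup.mem_zpowers x)
    calc n * x * n⁻¹ = n * (x * c) * c⁻¹ * n⁻¹ := by group
      _ = n * c * x * (n * c)⁻¹ := by rw [this]; group

end Cfsg.Agent.S1907
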