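import Cfsg.Statements.S1924
import Mathlib
import Cfsg.Agent.Base
import Cfsg.Agent.Lib.Tech58.Sign
import Cfsg.Agent.Lib.Inv73.Basic
import Cfsg.Agent.Lib.Transfer.Residual
import Cfsg.Agent.Lib.InvChar.SylowIn
import Cfsg.Agent.Lib.Core.GrpBasic
import Cfsg.Agent.Lib.Invol.Dihedral

set_option autoImplicit false
open Cfsg

namespace Cfsg.Agent.S1924

open Subgroup
open scoped Pointwise

/-- A consequence of Thompson's transfer lemma. Let G be a finite group, L a subgroup with O²(L) = L, T a Sylow 2-subgroup of L and S a Sylow 2-subgroup of G containing T. Suppose D ≤ S is a dihedral subgroup of order at least 4 (the four-group counts) with D ∩ T = 1 and S = TD as a set of products (so |S| = |T|·|D|), and C ≤ D is cyclic of index 2 in D. If no involution of D outside C is G-conjugate to an involution of the subgroup generated by T and C, and the involution of C is not G-conjugate to any involution of T, then G has a normal subgroup K, containing every Sylow 2-subgroup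 of L as a Sylow 2-subgroup, with G = KD. -/
theorem result {G : Type*} [Group G] [Finite G] (L T S D C : Subgroup G) (hL : Cfsg.pResidual 2 ↥L = ⊤)
    (hTL : T ≤ L) (hT2 : IsPGroup 2 T) (hTsyl : ¬ 2 ∣ T.relIndex L)
    (hS2 : IsPGroup 2 S) (hSsyl : ¬ 2 ∣ S.index) (hTS : T ≤ S)
    (hDS : D ≤ S) (hDih : ∃ n : ℕ, 2 ≤ n ∧ Nonempty (↥D ≃* DihedralGroup n)) (hDT : D ⊓ T = ⊥) (hTD : T ⊔ D = S) (hTDc : Nat.card T * Nat.card D = Nat.card S)
    (hCD : C ≤ D) (hC : IsCyclic ↥C) (hCi : C.relIndex D = 2)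
    (h1 : ∀ x ∈ D, x ∉ C → orderOf x = 2 → ∀ g : G, g * x * g⁻¹ ∈ T ⊔ C → False)
    (h2 : ∀ c ∈ C, orderOf c = 2 → ∀ g : G, g * c * g⁻¹ ∈ T → False) :
    ∃ K : Subgroup G, K.Normal ∧ K ⊔ D = ⊤ ∧
      ∀ T' : Subgroup G, T' ≤ L → IsPGroup 2 T' → ¬ 2 ∣ T'.relIndex L → T' ≤ K ∧ ¬ 2 ∣ T'.relIndex K := by
  set K := Cfsg.pResidual 2 G with hK
  have hKn : K.Normal := H4.pResidual_normal 2 G
  have hno : ∀ N : Subgroup K, N.Normal → N.index ≠ 2 := by
    intro N hN h
    have h3 := H4.pResidual_le_of_index_dvd_pow (n := 2) (N := N) (k := 1) (by rw [h]; rfl)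
    rw [H4.pResidual_pResidual, top_le_iff] at h3
    rw [h3, index_top] at h
    omega
  have hLK : L ≤ K := by
    have := H4.map_subtype_pResidual_le (n := 2) L
    rwa [hL, ← MonoidHom.range_eq_map, range_subtype] at this
  have hTK : T ≤ K := hTL.trans hLK
  have hRodd : Odd ((S ⊓ K).relIndex K) := by
    rw [inf_relIndex_right, ← Nat.not_even_iff_odd, even_iff_two_dvd]
    exact fun h => hSsyl (h.trans (H4.relIndex_dvd_index_of_normal_right S K))
  have hTD0 : ∀ X ≤ D, Nat.card ((T : Set G) * (X : Set G) : Set G) = Nat.card T * Nat.card X := by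
    intro X hX
    have h3 := H1.card_mul_set_mul_card_inf T X
    have h4 : T ⊓ X = ⊥ := eq_bot_iff.mpr (by rw [← hDT, inf_comm]; exact inf_le_inf_right _ hX)
    rwa [h4, card_bot, mul_one] at h3
  have hprod : (T : Set G) * (D : Set G) = S := by
    refine Set.eq_of_subset_of_ncard_le ?_ ?_
    · rintro _ ⟨t, ht, d, hd, rfl⟩
      exact S.mul_mem (hTS ht) (hDS hd)
    · exact (hTDc.symm.trans (hTD0 D le_rfl).symm).le
  have hR : Nat.card (S ⊓ K : Subgroup G) = Nat.card T * Nat.card (D ⊓ K : Subgroup G) := by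
    rw [← hTD0 _ inf_le_left]
    congr 2
    ext s
    constructor
    · intro hs
      obtain ⟨t, ht, d, hd, rfl⟩ : s ∈ (T : Set G) * (D : Set G) := by rw [hprod]; exact hs.1
      exact ⟨t, ht, d, ⟨hd, by simpa using K.mul_mem (K.inv_mem (hTK ht)) hs.2⟩, rfl⟩
    · rintro ⟨t, ht, d, hd, rfl⟩
      exact ⟨S.mul_mem (hTS ht) (hDS hd.1), K.mul_mem (hTK ht) hd.2⟩
  have hTR : T ≤ S ⊓ K := le_inf hTS hTK
  have hTi : T.relIndex (S ⊓ K) = Nat.card (D ⊓ K : Subgroup G) :=
    Nat.eq_of_mul_eq_mul_left Nat.card_pos ((H1.card_mul_relIndex_of_le hTR).trans hR)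
  have hD0 : D ⊓ K = ⊥ := by
    by_contra hne
    by_cases hle : D ⊓ K ≤ C
    · have hcyc : IsCyclic (D ⊓ K : Subgroup G) := isCyclic_of_le hle
      obtain ⟨d, hd⟩ := (Subgroup.isCyclic_iff_exists_zpowers_eq_top _).mp hcyc
      have hdm : d ∈ D ⊓ K := hd ▸ mem_zpowers d
      have hod : orderOf d = Nat.card (D ⊓ K : Subgroup G) := by rw [← hd, Nat.card_zpowers]
      obtain ⟨N, hN, hNi, -⟩ := H58.exists_index_two_of_semiregular (T.subgroupOf K) ⟨d, hdm.2⟩
        (k := (S ⊓ K).relIndex K) (by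
          rw [orderOf_mk, hod, H9.even_card_iff_exists_involution]
          exact H9.exists_involution_of_isPGroup (hS2.to_le (inf_le_left.trans hDS)) hne) hRodd
        (by rw [orderOf_mk, hod, ← hTi, relIndex_mul_relIndex _ _ _ hTR inf_le_right]; rfl)
        (fun n g hg => by
          by_contra hn
          have hn' : d ^ n ≠ 1 := fun h => hn (Subtype.ext h)
          obtain ⟨c, hc, hco⟩ := H9.exists_involution_of_isPGroup
            (hS2.to_le (zpowers_le.mpr (S.pow_mem (hDS hdm.1) n))) (by simpa using hn')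
          obtain ⟨m, rfl⟩ := mem_zpowers_iff.mp hc
          refine h2 _ (C.zpow_mem (C.pow_mem (hle hdm) n) m) hco (g : G)⁻¹ ?_
          rw [← conj_zpow, inv_inv]
          exact T.zpow_mem hg m)
      exact hno N hN hNi
    · obtain ⟨x, hx, hxC⟩ := SetLike.not_le_iff_exists.mp hle
      obtain ⟨n, hn, ⟨e⟩⟩ := hDih
      obtain ⟨a, b, hao, hbb, hba, -, hab⟩ := H73.exists_gens_of_dihedral (by omega) e
      have hrefl : ∀ i : ℤ, a ^ i * b * (a ^ i * b) = 1 := fun i => by
        calc a ^ i * b * (a ^ i * b) = a ^ i * (b * a ^ i * b⁻¹) * (b * b) := by group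
          _ = 1 := by rw [H9.conj_zpow_of_inverts hba, hbb]; group
      have hDc : Nat.card D = 2 * n := by
        rw [Nat.card_congr e.toEquiv, DihedralGroup.nat_card]
      have hCc : Nat.card C = n := by
        have := H1.card_mul_relIndex_of_le hCD
        rw [hCi, hDc] at this
        omega
      have hxo : orderOf x = 2 := by
        refine H9.orderOf_eq_two_of_mul_self (fun h => hxC (h ▸ C.one_mem)) ?_
        obtain ⟨i, rfl | rfl⟩ := (hab x).mp hx.1
        · obtain ⟨c, hc⟩ := (Subgroup.isCyclic_iff_exists_zpowers_eq_top _).mp hC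
          obtain ⟨j, rfl | rfl⟩ := (hab c).mp (hCD (hc ▸ mem_zpowers c))
          · exfalso
            apply hxC
            rw [eq_of_le_of_card_ge (H := C) (K := zpowers a)
              (by rw [← hc]; exact zpowers_le.mpr (zpow_mem_zpowers a j))
              (by rw [Nat.card_zpowers, hao, hCc])]
            exact zpow_mem_zpowers a i
          · have h3 : n ∣ 2 := by
              rw [← hCc, ← hc, Nat.card_zpowers]
              exact orderOf_dvd_of_pow_eq_one (by rw [pow_two, hrefl])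
            have h4 : a ^ 2 = 1 := orderOf_dvd_iff_pow_eq_one.mp (hao ▸ h3)
            rw [← pow_two, ← zpow_natCast, ← zpow_mul, mul_comm, zpow_mul, zpow_natCast, h4, one_zpow]
        · exact hrefl i
      have hxTC : x ∉ T ⊔ C := fun h => h1 x hx.1 hxC hxo 1 (by simpa using h)
      have hTCS : T ⊔ C ≤ S := sup_le hTS (hCD.trans hDS)
      have h3 : (T ⊔ C).relIndex S ≤ 2 := by
        have h4 := H1.card_mul_relIndex_of_le hTCS
        have h5 : Nat.card T * Nat.card C ≤ Nat.card (T ⊔ C : Subgroup G) := by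
          rw [← hTD0 C hCD]
          refine Set.ncard_le_ncard (t := ((T ⊔ C : Subgroup G) : Set G)) ?_
          rintro _ ⟨t, ht, c, hc, rfl⟩
          exact mul_mem_sup ht hc
        rw [← hTDc, hDc, ← hCc] at h4
        refine Nat.le_of_mul_le_mul_left (c := Nat.card (T ⊔ C : Subgroup G)) ?_ Nat.card_pos
        rw [h4]; nlinarith
      have h4 : (T ⊔ C).relIndex (S ⊓ K) = 2 := by
        have h5 := (relIndex_le_of_le_right (H := T ⊔ C) (inf_le_left : S ⊓ K ≤ S)
          index_ne_zero_of_finite).trans h3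
        have h6 : (T ⊔ C).relIndex (S ⊓ K) ≠ 0 := index_ne_zero_of_finite
        have h7 : (T ⊔ C).relIndex (S ⊓ K) ≠ 1 := fun h =>
          hxTC (relIndex_eq_one.mp h ⟨hDS hx.1, hx.2⟩)
        omega
      obtain ⟨N, hN, hNi, -⟩ := H73.thompson_transfer ((S ⊓ K).subgroupOf K) ((T ⊔ C).subgroupOf K)
        hRodd (by rw [relIndex_subgroupOf inf_le_right, h4]) ⟨x, hx.2⟩ (by rw [orderOf_mk, hxo])
        (fun g hg => h1 x hx.1 hxC hxo g hg)
      exact hno N hN hNi
  rw [hD0, card_bot, relIndex_eq_one] at hTi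
  have hTR' : T = S ⊓ K := le_antisymm hTR hTi
  refine ⟨K, hKn, ?_, fun T' hT'L hT'2 hT's => ⟨hT'L.trans hLK, ?_⟩⟩
  · rw [eq_top_iff, ← H4.pResidual_sup_eq_top (n := 2) (H := S)
      ((Nat.Prime.coprime_iff_not_dvd Nat.prime_two).mpr hSsyl).symm, ← hTD]
    exact sup_le le_sup_left (sup_le (hTK.trans le_sup_left) le_sup_right)
  · have hc : ∀ A B : Subgroup G, IsPGroup 2 A → A ≤ L → IsPGroup 2 B → B ≤ L →
        ¬ 2 ∣ B.relIndex L → Nat.card A ≤ Nat.card B := by
      intro A B hA hAL hB hBL hBs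
      obtain ⟨h, -, hh⟩ := H72.exists_conj_mem_sylowIn hB hBL hBs hA hAL
      rw [← H72.card_map_conj h A]
      refine card_le_of_le ?_
      rintro _ ⟨a, ha, rfl⟩
      exact hh a ha
    have h3 := le_antisymm (hc T T' hT2 hTL hT'2 hT'L hT's) (hc T' T hT'2 hT'L hT2 hTL hTsyl)
    have h4 := H1.card_mul_relIndex_of_le (hT'L.trans hLK)
    rw [← H1.card_mul_relIndex_of_le hTK, h3] at h4
    rw [Nat.eq_of_mul_eq_mul_left Nat.card_pos h4, hTR']
    exact hRodd.not_two_dvd_nat

end Cfsg.Agent.S1924
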