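import Cfsg.Statements.S1935
import Mathlib
import Cfsg.Agent.Base
import Cfsg.Agent.Lib.Lin35.Lim
import Cfsg.Agent.Lib.Push.NatApi
import Cfsg.Agent.Lib.PF.H20_Mod

set_option autoImplicit false
open Cfsg

namespace Cfsg.Agent.S1935

open H35L.Lim Module in
theorem aux {Ω W : Type*} [Group Ω] [Finite Ω] (p : ℕ) [Fact p.Prime] (hp : 5 ≤ p)
    (V G : Subgroup Ω) [AddCommGroup W] [Module (ZMod p) W] (e : V ≃* Multiplicative W)
    (ρ : G →* End (ZMod p) W) (hGV : G ≤ Subgroup.normalizer (V : Set Ω))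
    (hρ : ∀ (g : G) (v v' : V), (v' : Ω) = g * v * (g : Ω)⁻¹ →
      ρ g (e v).toAdd = (e v').toAdd)
    (hVp : IsPGroup p V) (hG : IsPGroup p G)
    (hfaith : G ⊓ Subgroup.centralizer (V : Set Ω) = ⊥) (B : Subgroup Ω) (hBG : B ≤ G)
    (hB : B ≠ ⊥) (hq : ⁅⁅V, B⁆, B⁆ = ⊥)
    (hc : Nat.card V ≤ Nat.card B * Nat.card ↥(V ⊓ Subgroup.centralizer (B : Set Ω))) :
    ∃ A : Subgroup Ω, A ≤ G ∧ A ≠ ⊥ ∧ Cfsg.IsElementaryAbelian p A ∧
      Nat.card ↥V ≤ Nat.card ↥A * Nat.card ↥(V ⊓ Subgroup.centralizer (A : Set Ω)) ∧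
      ⁅⁅V, A⁆, A⁆ = ⊥ ∧ ∀ g ∈ Subgroup.closure {x : Ω | ∃ h ∈ G, ∃ a ∈ A, x = h * a * h⁻¹},
        ∀ a ∈ A, g * a * g⁻¹ ∈ A := by
  have hpp : p.Prime := Fact.out
  have hW : Finite W := Finite.of_equiv _ (e.toEquiv.trans Multiplicative.toAdd)
  have cj : ∀ (g : G) (v : V), (g : Ω) * v * (g : Ω)⁻¹ ∈ V := fun g v =>
    (Subgroup.mem_normalizer_iff.1 (hGV g.2) v).1 v.2
  have hρ' : ∀ (g : G) (v : V), ρ g (e v).toAdd = (e ⟨_, cj g v⟩).toAdd := fun g v =>
    hρ g v _ rfl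
  have surj : ∀ w : W, ∃ v : V, (e v).toAdd = w := fun w =>
    ⟨e.symm (Multiplicative.ofAdd w), by simp⟩
  have cm : ∀ (g : G) (v : V), (g : Ω) * v * (g : Ω)⁻¹ * (v : Ω)⁻¹ ∈ V := fun g v =>
    V.mul_mem (cj g v) (V.inv_mem v.2)
  have hx : ∀ (g : G) (v : V), (ρ g - 1) (e v).toAdd = (e ⟨_, cm g v⟩).toAdd := by
    intro g v
    have : (⟨_, cm g v⟩ : V) = ⟨_, cj g v⟩ * v⁻¹ := rfl
    rw [this, map_mul, map_inv, toAdd_mul, toAdd_inv, LinearMap.sub_apply, hρ', sub_eq_add_neg]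
    rfl
  have hfix : ∀ (g : G) (v : V), (ρ g - 1) (e v).toAdd = 0 ↔ (g : Ω) * v = v * g := by
    intro g v
    rw [hx, toAdd_eq_zero, map_eq_one_iff _ e.injective, Subtype.ext_iff]
    simp only [OneMemClass.coe_one]
    rw [mul_inv_eq_one, mul_inv_eq_iff_eq_mul]
  have hinj : Function.Injective ρ := by
    rw [injective_iff_map_eq_one]
    intro g hg
    have : (g : Ω) ∈ G ⊓ Subgroup.centralizer (V : Set Ω) := by
      refine ⟨g.2, fun v hv => ?_⟩
      exact ((hfix g ⟨v, hv⟩).1 (by rw [hg]; simp)).symm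
    rw [hfaith, Subgroup.mem_bot] at this
    exact Subtype.ext this
  -- dictionary
  have cardA : ∀ (A : Submodule (ZMod p) (End (ZMod p) W)) (hA : Sq A),
      (∀ x ∈ A, ∃ g, ρ g = 1 + x) →
      Nat.card ((grp ρ A hA).map G.subtype) = p ^ finrank (ZMod p) A := by
    intro A hA hm
    rw [Subgroup.card_map_of_injective G.subtype_injective]
    have : Finite (End (ZMod p) W) := Finite.of_injective _ DFunLike.coe_injective
    have h1 : Nat.card A = p ^ finrank (ZMod p) A := by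
      rw [Module.natCard_eq_pow_finrank (K := ZMod p), Nat.card_zmod]
    rw [← h1]
    refine Nat.card_eq_of_bijective (fun g => ⟨ρ g - 1, g.2⟩) ⟨fun g g' h => ?_, fun x => ?_⟩
    · have := congrArg Subtype.val h
      simp only [sub_left_inj] at this
      exact Subtype.ext (hinj this)
    · obtain ⟨g, hg⟩ := hm x x.2
      have : ρ g - 1 = x := by rw [hg]; simp
      exact ⟨⟨g, by rw [mem_grp, this]; exact x.2⟩, Subtype.ext this⟩
  have cardK : ∀ (A : Submodule (ZMod p) (End (ZMod p) W)) (hA : Sq A),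
      (∀ x ∈ A, ∃ g, ρ g = 1 + x) →
      Nat.card ↥(V ⊓ Subgroup.centralizer ((grp ρ A hA).map G.subtype : Set Ω)) =
        p ^ finrank (ZMod p) (kk A) := by
    intro A hA hm
    have h1 : Nat.card (kk A) = p ^ finrank (ZMod p) (kk A) := by
      rw [Module.natCard_eq_pow_finrank (K := ZMod p), Nat.card_zmod]
    rw [← h1]
    refine Nat.card_eq_of_bijective (fun v => ⟨(e ⟨v.1, v.2.1⟩).toAdd, fun x hx => ?_⟩)
      ⟨fun v v' h => ?_, fun w => ?_⟩
    · obtain ⟨g, hg⟩ := hm x hx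
      have h2 : ρ g - 1 = x := by rw [hg]; simp
      rw [← h2, hfix]
      exact v.2.2 g ⟨g, by show ρ g - 1 ∈ A; rw [h2]; exact hx, rfl⟩
    · have := congrArg Subtype.val h
      simp only [EmbeddingLike.apply_eq_iff_eq, Subtype.mk.injEq] at this
      exact Subtype.ext this
    · obtain ⟨v, hv⟩ := surj w
      refine ⟨⟨v, v.2, ?_⟩, Subtype.ext hv⟩
      rintro _ ⟨g, hg, rfl⟩
      refine (hfix g v).1 ?_
      rw [hv]
      exact w.2 _ hg
  have cardV : Nat.card V = p ^ finrank (ZMod p) W := by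
    rw [Nat.card_congr (e.toEquiv.trans Multiplicative.toAdd),
      Module.natCard_eq_pow_finrank (K := ZMod p), Nat.card_zmod]
  -- the initial subspace
  have hqB : ∀ b b' : G, (b : Ω) ∈ B → (b' : Ω) ∈ B → (ρ b - 1) * (ρ b' - 1) = 0 := by
    intro b b' hb hb'
    ext w
    obtain ⟨v, rfl⟩ := surj w
    rw [End.mul_apply, hx, LinearMap.zero_apply, hfix]
    have h1 : (b' : Ω) * v * (b' : Ω)⁻¹ * (v : Ω)⁻¹ ∈ ⁅V, B⁆ := by
      rw [Subgroup.commutator_comm]
      exact Subgroup.commutator_mem_commutator hb' v.2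
    have h2 := Subgroup.commutator_eq_bot_iff_le_centralizer.1 hq h1
    exact h2 b hb
  let A₁ : AddSubgroup (End (ZMod p) W) :=
    { carrier := {x | ∃ b : G, (b : Ω) ∈ B ∧ x = ρ b - 1}
      zero_mem' := ⟨1, B.one_mem, by simp⟩
      add_mem' := by
        rintro _ _ ⟨b, hb, rfl⟩ ⟨b', hb', rfl⟩
        refine ⟨b * b', B.mul_mem hb hb', ?_⟩
        have : ρ (b * b') - 1 = (ρ b - 1) + (ρ b' - 1) + (ρ b - 1) * (ρ b' - 1) := by
          rw [map_mul]; noncomm_ring
        rw [this, hqB b b' hb hb', add_zero]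
      neg_mem' := by
        rintro _ ⟨b, hb, rfl⟩
        refine ⟨b⁻¹, B.inv_mem hb, ?_⟩
        rw [rho_inv ρ (hqB b b hb hb) (g := b) (by simp)]
        simp }
  let A₀ : Submodule (ZMod p) (End (ZMod p) W) := AddSubgroup.toZModSubmodule p A₁
  have hA₀ : ∀ x, x ∈ A₀ ↔ ∃ b : G, (b : Ω) ∈ B ∧ x = ρ b - 1 := fun x => Iff.rfl
  have sq₀ : Sq A₀ := by
    intro x hx x' hx'
    obtain ⟨b, hb, rfl⟩ := (hA₀ x).1 hx
    obtain ⟨b', hb', rfl⟩ := (hA₀ x').1 hx'
    exact hqB b b' hb hb'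
  have mem₀ : ∀ x ∈ A₀, ∃ g, ρ g = 1 + x := by
    intro x hx
    obtain ⟨b, hb, rfl⟩ := (hA₀ x).1 hx
    exact ⟨b, by simp⟩
  have hB₀ : (grp ρ A₀ sq₀).map G.subtype = B := by
    ext x
    constructor
    · rintro ⟨g, hg, rfl⟩
      obtain ⟨b, hb, h⟩ := (hA₀ _).1 hg
      rw [sub_left_inj] at h
      rw [hinj h]
      exact hb
    · intro hx
      exact ⟨⟨x, hBG hx⟩, (hA₀ _).2 ⟨⟨x, hBG hx⟩, hx, rfl⟩, rfl⟩
  -- the central series
  have hH : IsPGroup p (G ⊔ V : Subgroup Ω) := IsPGroup.to_sup_of_normal_right' hG hVp hGV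
  have hnil := hH.isNilpotent
  have := hG.isNilpotent
  let ι : Multiplicative W →* (G ⊔ V : Subgroup Ω) :=
    (Subgroup.inclusion le_sup_right).comp e.symm.toMonoidHom
  let U : ℕ → Submodule (ZMod p) W := fun i => AddSubgroup.toZModSubmodule p
    (Subgroup.toAddSubgroup' ((Subgroup.upperCentralSeries (G ⊔ V : Subgroup Ω) i).comap ι))
  have hU : ∀ i (v : V), (e v).toAdd ∈ U i ↔ (⟨v, Subgroup.mem_sup_right v.2⟩ :
      (G ⊔ V : Subgroup Ω)) ∈ Subgroup.upperCentralSeries (G ⊔ V : Subgroup Ω) i := by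
    intro i v
    show ι (e v) ∈ Subgroup.upperCentralSeries (G ⊔ V : Subgroup Ω) i ↔ _
    have : ι (e v) = ⟨v, Subgroup.mem_sup_right v.2⟩ := by
      simp only [ι, MonoidHom.comp_apply, MulEquiv.coe_toMonoidHom, MulEquiv.symm_apply_apply]
      rfl
    rw [this]
  have h2 : (2 : ZMod p) ≠ 0 := by
    intro h
    have := (ZMod.natCast_eq_zero_iff 2 p).1 (by exact_mod_cast h)
    have := Nat.le_of_dvd (by norm_num) this
    omega
  obtain ⟨A, hA, hm, hd, hk, hn⟩ := main_mod ρ h2 U (Group.nilpotencyClass (G ⊔ V : Subgroup Ω))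
    (by
      rw [eq_bot_iff]
      intro w hw
      obtain ⟨v, rfl⟩ := surj w
      rw [hU, Subgroup.upperCentralSeries_zero, Subgroup.mem_bot, Subtype.ext_iff] at hw
      have : v = 1 := Subtype.ext hw
      rw [this, map_one]
      exact Submodule.zero_mem _)
    (by
      intro j hj
      rw [eq_top_iff]
      intro w _
      obtain ⟨v, rfl⟩ := surj w
      rw [hU, (Subgroup.upperCentralSeries_eq_top_iff_nilpotencyClass_le).2 hj]
      trivial)
    (by
      intro g i w hw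
      obtain ⟨v, rfl⟩ := surj w
      have h3 := hx g v
      rw [LinearMap.sub_apply, End.one_apply] at h3
      rw [h3, hU]
      rw [hU, Subgroup.mem_upperCentralSeries_succ_iff] at hw
      have := Subgroup.inv_mem _ (hw ⟨g, Subgroup.mem_sup_left g.2⟩)
      convert this using 1
      ext
      simp [commutatorElement_def, mul_assoc]) A₀ sq₀ mem₀
  have c1 := cardA A₀ sq₀ mem₀
  have c2 := cardK A₀ sq₀ mem₀
  rw [hB₀] at c1 c2
  have c3 := cardA A hA hm
  have c4 := cardK A hA hm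
  have hpos : 0 < finrank (ZMod p) A₀ := by
    by_contra h0
    have : finrank (ZMod p) A₀ = 0 := by omega
    rw [this, pow_zero, Subgroup.card_eq_one] at c1
    exact hB c1
  refine ⟨(grp ρ A hA).map G.subtype, Subgroup.map_subtype_le _, ?_, ⟨⟨⟨?_⟩⟩, ?_⟩, ?_, ?_, ?_⟩
  · intro h
    rw [h, Subgroup.card_bot] at c3
    have := Nat.one_lt_pow (n := finrank (ZMod p) A) (by omega) hpp.one_lt
    omega
  · rintro ⟨_, g, hg, rfl⟩ ⟨_, g', hg', rfl⟩
    have : g * g' = g' * g := by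
      apply hinj
      have e1 : ρ (g * g') = 1 + (ρ g - 1) + (ρ g' - 1) + (ρ g - 1) * (ρ g' - 1) := by
        rw [map_mul]; noncomm_ring
      have e2 : ρ (g' * g) = 1 + (ρ g - 1) + (ρ g' - 1) + (ρ g' - 1) * (ρ g - 1) := by
        rw [map_mul]; noncomm_ring
      rw [e1, e2, hA _ hg _ hg', hA _ hg' _ hg]
    have h5 : (g : Ω) * g' = g' * g := congrArg Subtype.val this
    exact Subtype.ext h5
  · rintro _ ⟨g, hg, rfl⟩
    have h3 : ∀ n : ℕ, ρ (g ^ n) = 1 + n • (ρ g - 1) := by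
      intro n
      induction n with
      | zero => simp
      | succ n ih =>
        have e1 : ρ g = 1 + (ρ g - 1) := by simp
        have e2 := hA _ hg _ hg
        rw [pow_succ, map_mul, ih, succ_nsmul]
        generalize ρ g - 1 = y at *
        rw [e1, mul_add, mul_one, add_mul, one_mul, smul_mul_assoc, e2, smul_zero, add_zero,
          add_assoc]
    have : g ^ p = 1 := by
      apply hinj
      rw [h3, map_one, ← Nat.cast_smul_eq_nsmul (ZMod p), ZMod.natCast_self, zero_smul, add_zero]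
    exact congrArg Subtype.val this
  · rw [c1, c2, cardV, ← pow_add, Nat.pow_le_pow_iff_right hpp.one_lt] at hc
    rw [c3, c4, cardV, ← pow_add, Nat.pow_le_pow_iff_right hpp.one_lt]
    rcases Nat.eq_zero_or_pos (finrank (ZMod p) W) with h0 | h0
    · omega
    · have := Nat.le_of_mul_le_mul_left hk h0
      omega
  · rw [Subgroup.commutator_eq_bot_iff_le_centralizer, Subgroup.commutator_comm,
      Subgroup.commutator_le]
    rintro _ ⟨g, hg, rfl⟩ v hv _ ⟨g', hg', rfl⟩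
    refine (hfix g' ⟨_, cm g ⟨v, hv⟩⟩).1 ?_
    rw [← hx, ← End.mul_apply, hA _ hg' _ hg, LinearMap.zero_apply]
  · intro g hg
    have : Subgroup.closure {x : Ω | ∃ h ∈ G, ∃ a ∈ (grp ρ A hA).map G.subtype, x = h * a * h⁻¹} ≤
        Subgroup.normalizer ((grp ρ A hA).map G.subtype : Set Ω) := by
      rw [Subgroup.closure_le]
      rintro _ ⟨h, hh, _, ⟨a, ha, rfl⟩, rfl⟩
      exact Subgroup.le_normalizer_map G.subtype ⟨_, hn ⟨h, hh⟩ a ha, rfl⟩
    exact fun a ha => (Subgroup.mem_normalizer_iff.1 (this hg) a).1 ha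

/-- Let p ≥ 5 be a prime and, inside an ambient finite group, let G be a p-subgroup acting faithfully by conjugation on an elementary abelian p-subgroup V that it normalizes (only the identity of G centralizes V). Suppose V is an F-module for G: some nontrivial elementary abelian subgroup E of G satisfies #E · #C_V(E) ≥ #V. Then G contains such an offender A that moreover acts quadratically on V ([V, A, A] = 1) and is normal in its normal closure in G. -/
theorem result {Ω : Type*} [Group Ω] [Finite Ω] (p : ℕ) [Fact p.Prime] (hp : 5 ≤ p) (V G : Subgroup Ω) (hV : Cfsg.IsElementaryAbelian p V) (hG : IsPGroup p ↥G) (hGV : G ≤ Subgroup.normalizer (V : Set Ω)) (hfaith : G ⊓ Subgroup.centralizer (V : Set Ω) = ⊥) (hF : ∃ E : Subgroup Ω, E ≤ G ∧ E ≠ ⊥ ∧ Cfsg.IsElementaryAbelian p E ∧ Nat.card ↥V ≤ Nat.card ↥E * Nat.card ↥(V ⊓ Subgroup.centralizer (E : Set Ω))) : ∃ A : Subgroup Ω, A ≤ G ∧ A ≠ ⊥ ∧ Cfsg.IsElementaryAbelian p A ∧ Nat.card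 ↥V ≤ Nat.card ↥A * Nat.card ↥(V ⊓ Subgroup.centralizer (A : Set Ω)) ∧ ⁅⁅V, A⁆, A⁆ = ⊥ ∧ ∀ g ∈ Subgroup.closure {x : Ω | ∃ h ∈ G, ∃ a ∈ A, x = h * a * h⁻¹}, ∀ a ∈ A, g * a * g⁻¹ ∈ A := by
  have hpp : p.Prime := Fact.out
  obtain ⟨E, hEG, hE, hEa, hc⟩ := hF
  have hVp : IsPGroup p V := fun v => ⟨1, Subtype.ext (by simpa using hV.2 v v.2)⟩
  have hbot : ∀ B ≤ G, B ⊓ Subgroup.centralizer (V : Set Ω) = ⊥ := fun B hB =>
    eq_bot_iff.2 (hfaith ▸ inf_le_inf_right _ hB)
  obtain ⟨B, hBE, hB, hq, hc'⟩ := H68.Push.exists_quadratic_offender p (V := V) (A := E)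
    (Subgroup.le_centralizer_iff_isMulCommutative.2 hV.1) hVp (hEG.trans hGV)
    (by
      rw [Subgroup.commutator_eq_bot_iff_le_centralizer.2
        (Subgroup.le_centralizer_iff_isMulCommutative.2 hEa.1)]
      exact bot_le)
    (fun a ha => by rw [hEa.2 a ha]; exact Subgroup.one_mem _)
    (fun h => hE (by rw [← hbot E hEG, inf_eq_left.2 h]))
    (by rwa [hbot E hEG, Subgroup.card_bot, mul_one])
  rw [hbot B (hBE.trans hEG), Subgroup.card_bot, mul_one] at hc'
  let _ : CommGroup V := { (inferInstance : Group V) with mul_comm := hV.1.is_comm.comm }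
  have hpow : ∀ v : Additive V, p • v = 0 := fun v =>
    Subtype.ext (by simpa using hV.2 _ (Additive.toMul v).2 : ((Additive.toMul v ^ p : V) : Ω) = 1)
  let _ : Module (ZMod p) (Additive V) := AddCommGroup.zmodModule hpow
  obtain ⟨ρ, hρ⟩ := H20.exists_end_of_mulAut p
    ((Subgroup.normalizerMonoidHom V).comp (Subgroup.inclusion hGV))
  refine aux (W := Additive V) p hp V G (MulEquiv.multiplicativeAdditive V).symm ρ hGV
    (fun g v v' h => ?_) hVp hG hfaith B (hBE.trans hEG) (fun h => hB (h ▸ bot_le)) hq hc'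
  refine (hρ g v).trans (congrArg Additive.ofMul (Subtype.ext ?_))
  exact h.symm

end Cfsg.Agent.S1935
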