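import Cfsg.Statements.S1939
import Mathlib
import Cfsg.Agent.Base
import Cfsg.Agent.Lib.Invol.Dihedral
import Cfsg.Agent.Lib.Transfer.NormalComplement

set_option autoImplicit false
open Cfsg

namespace Cfsg.Agent.S1939

/-- Let S be a Sylow p-subgroup of the finite group G and a an element of S that is the only G-conjugate of a lying in S. Then every power of a has the same property: for every n, the only G-conjugate of a^n lying in S is a^n. -/
theorem result {G : Type*} [Group G] [Finite G] {p : ℕ} [Fact p.Prime] (S : Sylow p G) (a : G)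
    (haS : a ∈ (S : Subgroup G)) (hwc : ∀ g : G, g * a * g⁻¹ ∈ (S : Subgroup G) → g * a * g⁻¹ = a) (n : ℕ) :
    ∀ g : G, g * a ^ n * g⁻¹ ∈ (S : Subgroup G) → g * a ^ n * g⁻¹ = a ^ n := by
  intro g hg
  have hpa : IsPGroup p (Subgroup.zpowers a) :=
    S.isPGroup'.to_le ((Subgroup.zpowers_le).mpr haS)
  have hpa' : IsPGroup p (Subgroup.zpowers (g * a * g⁻¹)) := by
    have := hpa.map (MulAut.conj g).toMonoidHom
    rwa [MonoidHom.map_zpowers] at this
  have h1 : Subgroup.zpowers a ≤ Subgroup.centralizer ({g * a ^ n * g⁻¹} : Set G) := by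
    rw [Subgroup.zpowers_le, Subgroup.mem_centralizer_singleton_iff]
    have := hwc (g * a ^ n * g⁻¹) (S.1.mul_mem (S.1.mul_mem hg haS) (S.1.inv_mem hg))
    calc a * (g * a ^ n * g⁻¹) = (g * a ^ n * g⁻¹) * a * (g * a ^ n * g⁻¹)⁻¹ * (g * a ^ n * g⁻¹) := by
          rw [this]
      _ = _ := by group
  have h2 : Subgroup.zpowers (g * a * g⁻¹) ≤ Subgroup.centralizer ({g * a ^ n * g⁻¹} : Set G) := by
    rw [Subgroup.zpowers_le, Subgroup.mem_centralizer_singleton_iff]
    group
  obtain ⟨T, k, hk, hT1, hT2⟩ := H4.exists_conj_le_common_sylow hpa h1 hpa' h2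
  have h3 : a = k * (g * a * g⁻¹) * k⁻¹ :=
    H9.eq_of_isolated S hwc T.isPGroup' (hT1 (Subgroup.mem_zpowers a))
      (hT2 _ (Subgroup.mem_zpowers _)) (IsConj.refl a)
      (isConj_iff.mpr ⟨k * g, by group⟩)
  rw [Subgroup.mem_centralizer_singleton_iff] at hk
  have h4 : a ^ n = k * (g * a ^ n * g⁻¹) * k⁻¹ := by
    conv_lhs => rw [h3]
    rw [conj_pow, conj_pow]
  rw [hk] at h4
  exact ((mul_inv_cancel_right _ _).symm.trans h4.symm)

end Cfsg.Agent.S1939
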