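import Cfsg.Statements.S1940
import Mathlib
import Cfsg.Agent.Base
import Cfsg.Agent.Lib.Tech58.Norm

set_option autoImplicit false
open Cfsg

namespace Cfsg.Agent.S1940

/-- Let the finite group L act by automorphisms on the finite abelian group M, and let N be an L-invariant subgroup of M such that M/N is a p-group on which L acts trivially (every l • m lies in the coset mN). If every element of M is a product of an element of N and an element fixed by a Sylow p-subgroup T of L, then every element of M is a product of an element of N and an element fixed by all of L. -/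
theorem result {L : Type*} [Group L] [Finite L] {M : Type*} [CommGroup M] [Finite M] [MulDistribMulAction L M]
    {p : ℕ} [Fact p.Prime] (N : Subgroup M) (hN : ∀ (l : L) (m : M), m ∈ N → l • m ∈ N)
    (hquot : IsPGroup p (M ⧸ N)) (htriv : ∀ (l : L) (m : M), (l • m) * m⁻¹ ∈ N) (T : Sylow p L)
    (hT : ∀ m : M, ∃ n ∈ N, ∃ c : M, (∀ t ∈ (T : Subgroup L), t • c = c) ∧ m = n * c) :
    ∀ m : M, ∃ n ∈ N, ∃ c : M, (∀ l : L, l • c = c) ∧ m = n * c := by
  intro m
  obtain ⟨n, hn, c, hc, rfl⟩ := hT m
  have hk : (T : Subgroup L).index.Coprime p :=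
    ((Nat.Prime.coprime_iff_not_dvd Fact.out).mpr T.not_dvd_index).symm
  obtain ⟨j, hj⟩ := H58.exists_pow_pow_eq_of_isPGroup hquot hk (QuotientGroup.mk c : M ⧸ N)
  have h1 := H58.relNorm_mul_inv_mem (T : Subgroup L) N (c := c) fun l => htriv l c
  have h2 : (QuotientGroup.mk (H58.relNorm (T : Subgroup L) c) : M ⧸ N) =
      (QuotientGroup.mk c) ^ (T : Subgroup L).index := by
    rw [← QuotientGroup.mk_pow, eq_comm, QuotientGroup.eq, mul_comm]
    exact h1
  refine ⟨n * c * ((H58.relNorm (T : Subgroup L) c) ^ j)⁻¹, ?_, (H58.relNorm (T : Subgroup L) c) ^ j,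
    fun l => by rw [smul_pow', H58.relNorm_fixed _ hc], by group⟩
  rw [mul_assoc]
  refine N.mul_mem hn ?_
  rw [mul_comm, ← QuotientGroup.eq, QuotientGroup.mk_pow, h2, hj]

end Cfsg.Agent.S1940
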