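import Cfsg.Statements.S1941
import Mathlib
import Cfsg.Agent.Base
import Cfsg.Agent.Lib.Core.CrossedHom
import Cfsg.Agent.Lib.Comp.FStar

set_option autoImplicit false
open Cfsg

namespace Cfsg.Agent.S1941

/-- Let G be a finite group with no nontrivial normal subgroup of order prime to p, T a Sylow p-subgroup of G and E(G) the layer of G (the subgroup generated by its components). An automorphism of G of p-power order that fixes T and E(G) elementwise is inner. -/
theorem result {G : Type*} [Group G] [Finite G] {p : ℕ} [Fact p.Prime] (hcore : Cfsg.pPrimeCore p G = ⊥)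
    (T : Sylow p G) (α : MulAut G) (hα : ∃ j : ℕ, orderOf α = p ^ j) (hfixT : ∀ x ∈ (T : Subgroup G), α x = x)
    (hfixE : ∀ x ∈ Cfsg.layer G, α x = x) : ∃ g : G, ∀ x : G, α x = g * x * g⁻¹ := by
  let _ := hα
  set F := Cfsg.generalizedFittingSubgroup G with hF
  set A : Subgroup G := Subgroup.centralizer (F : Set G) with hA
  have hFp : Cfsg.fittingSubgroup G = Cfsg.pCore p G := H1.fitting_eq_pCore_of_pPrimeCore_eq_bot hcore
  have hfix : ∀ x ∈ F, α x = x := by
    have : F ≤ α.toMonoidHom.eqLocus (MonoidHom.id G) := by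
      rw [hF, H23.fStar_def, hFp]
      exact sup_le hfixE fun x hx => hfixT x (H1.pCore_le_sylow T hx)
    exact this
  have hAF : A ≤ F := H23.centralizer_fStar_le
  have hAp : IsPGroup p A := H1.isPGroup_pCore.to_le (hFp ▸ H23.centralizer_fStar_le_fitting)
  have hd : ∀ g : G, α g * g⁻¹ ∈ A := by
    intro g f hf
    have h1 := hfix _ ((inferInstance : F.Normal).conj_mem' f hf g)
    rw [map_mul, map_mul, map_inv, hfix f hf] at h1
    calc f * (α g * g⁻¹) = α g * ((α g)⁻¹ * f * α g) * g⁻¹ := by group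
      _ = α g * g⁻¹ * f := by rw [h1]; group
  let _ : CommGroup A := { (inferInstance : Group A) with
    mul_comm := fun a b => Subtype.ext (b.2 a (hAF a.2)) }
  obtain ⟨e, he⟩ := H3.crossedHom_principal (A := A) (MulAut.conjNormal (H := A))
    (T : Subgroup G) (H1.coprime_card_of_isPGroup_of_coprime hAp
      ((Nat.Prime.coprime_iff_not_dvd Fact.out).mpr T.not_dvd_index).symm)
    (fun g => ⟨_, hd g⟩) (fun g h => Subtype.ext (by
      change α (g * h) * (g * h)⁻¹ = α g * g⁻¹ * (g * (α h * h⁻¹) * g⁻¹)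
      rw [map_mul]; group)) (fun u hu => Subtype.ext (by
      change α u * u⁻¹ = 1
      rw [hfixT u hu, mul_inv_cancel]))
  refine ⟨e, fun x => ?_⟩
  have h1 : α x * x⁻¹ = e * (x * e * x⁻¹)⁻¹ := congrArg Subtype.val (he x)
  calc α x = (α x * x⁻¹) * x := by group
    _ = e * x * (e : G)⁻¹ := by rw [h1]; group

end Cfsg.Agent.S1941
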