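import Cfsg.Statements.S1944
import Mathlib
import Cfsg.Agent.Base
import Cfsg.Agent.Lib.Tech58.PPCore
import Cfsg.Agent.Lib.Tech58.Norm

set_option autoImplicit false
open Cfsg

namespace Cfsg.Agent.S1944

/-- Let S be a Sylow p-subgroup of the finite group G and suppose that the centre Z(S) lies in O_{p',p}(G). The elements of S each of which is its only G-conjugate in S form a subgroup W of Z(S); W is then a direct factor of Z(S): there is a subgroup K of Z(S) with W ∩ K = 1 and WK = Z(S). -/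
theorem result {G : Type*} [Group G] [Finite G] {p : ℕ} [Fact p.Prime] (S : Sylow p G)
    (hZ : ((S : Subgroup G) ⊓ Subgroup.centralizer ((S : Subgroup G) : Set G)) ≤ Cfsg.pPrimePCore p G) :
    ∃ W K : Subgroup G, (∀ x : G, x ∈ W ↔ (x ∈ (S : Subgroup G) ∧ ∀ g : G, g * x * g⁻¹ ∈ (S : Subgroup G) → g * x * g⁻¹ = x)) ∧
      K ≤ ((S : Subgroup G) ⊓ Subgroup.centralizer ((S : Subgroup G) : Set G)) ∧ W ⊓ K = ⊥ ∧ W ⊔ K = ((S : Subgroup G) ⊓ Subgroup.centralizer ((S : Subgroup G) : Set G)) := by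
  set H : Subgroup G := (S : Subgroup G) ⊓ Cfsg.pPrimePCore p G with hH
  have hHp : IsPGroup p H := S.isPGroup'.to_le inf_le_left
  set N : Subgroup G := Subgroup.normalizer (H : Set G) with hN
  have hSN : (S : Subgroup G) ≤ N := H58.sylow_le_normalizer_inf S _
  set Z : Subgroup G := (S : Subgroup G) ⊓ Subgroup.centralizer ((S : Subgroup G) : Set G) with hZdef
  set M : Subgroup G := H ⊓ Subgroup.centralizer (H : Set G) with hM
  have hZM : Z ≤ M := fun z hz => ⟨⟨hz.1, hZ hz⟩, fun h hh => hz.2 h hh.1⟩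
  have hNM : N ≤ Subgroup.normalizer (M : Set G) :=
    H2.le_normalizer_inf le_rfl (H2.le_normalizer_centralizer le_rfl)
  set W : Subgroup G := H ⊓ Subgroup.centralizer (N : Set G) with hW
  have hWZ : W ≤ Z := fun w hw => ⟨hw.1.1, fun s hs => hw.2 s (hSN hs)⟩
  let _ : CommGroup M := { (inferInstance : Group M) with
    mul_comm := fun a b => Subtype.ext (b.2.2 a a.2.1) }
  let _ : MulDistribMulAction N M := MulDistribMulAction.compHom M
    (M.normalizerMonoidHom.comp (Subgroup.inclusion hNM))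
  have hsmul : ∀ (n : N) (m : M), ((n • m : M) : G) = n * m * (n : G)⁻¹ := fun _ _ => rfl
  set T : Subgroup N := (S : Subgroup G).subgroupOf N with hT
  have hTi : T.index.Coprime p :=
    ((Nat.Prime.coprime_iff_not_dvd Fact.out).mpr (S.subtype hSN).not_dvd_index).symm
  have hMp : IsPGroup p M := hHp.to_le inf_le_left
  have hW1 : ∀ c : M, (c : G) ∈ W → H58.relNorm T c = c ^ T.index := fun c hc =>
    H58.relNorm_of_fixed T fun l => Subtype.ext (by
      rw [hsmul, hc.2 l l.2, mul_inv_cancel_right])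
  have hW2 : ∀ c : M, (c : G) ∈ Z → ((H58.relNorm T c : M) : G) ∈ W := fun c hc =>
    ⟨(H58.relNorm T c).2.1, fun n hn => by
      have := congrArg Subtype.val (H58.relNorm_fixed T (c := c) (fun t ht => Subtype.ext (by
        rw [hsmul, hc.2 t ht, mul_inv_cancel_right])) ⟨n, hn⟩)
      rw [hsmul] at this
      exact mul_inv_eq_iff_eq_mul.mp this⟩
  refine ⟨W, Z ⊓ (H58.relNorm T).ker.map M.subtype, fun x => ⟨fun hx => ⟨hx.1.1, fun g hg => ?_⟩,
    fun ⟨hx, h⟩ => ?_⟩, inf_le_left, ?_, ?_⟩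
  · obtain ⟨n, hn, c, hc, rfl⟩ := H58.exists_factor_of_sup_normalizer (Y := Subgroup.zpowers x)
      H1.coprime_card_pPrimeCore hHp (H58.pPrimeCore_sup_normalizer_sylow_inf S)
      (S.isPGroup'.to_le (Subgroup.zpowers_le.mpr hx.1.1))
      (Subgroup.zpowers_le.mpr (hSN hx.1.1)) (g := g) (by
        rintro _ ⟨m, rfl⟩
        have := zpow_mem (hSN hg) m
        rwa [conj_zpow] at this)
    have h1 := hc.2 x (Subgroup.mem_zpowers x)
    calc n * c * x * (n * c)⁻¹ = n * (c * x) * c⁻¹ * n⁻¹ := by group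
      _ = (n * x) * n⁻¹ := by rw [← h1]; group
      _ = x := by rw [hx.2 n hn, mul_inv_cancel_right]
  · have hxH : x ∈ H := (hZM ⟨hx, fun s hs => mul_inv_eq_iff_eq_mul.mp
      (h s (mul_mem (mul_mem hs hx) (inv_mem hs)))⟩).1
    exact ⟨hxH, fun n hn => mul_inv_eq_iff_eq_mul.mp
      (h n (H3.conj_mem_of_mem_normalizer hn hxH).1)⟩
  · rw [eq_bot_iff]
    rintro _ ⟨hw, -, c, hc, rfl⟩
    have h1 : c ^ T.index = 1 := by rw [← hW1 c hw]; exact hc
    obtain ⟨j, hj⟩ := H58.exists_pow_pow_eq_of_isPGroup hMp hTi c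
    rw [h1, one_pow] at hj
    rw [← hj]; exact one_mem _
  · refine le_antisymm (sup_le hWZ inf_le_left) fun z hz => ?_
    set c : M := ⟨z, hZM hz⟩ with hc
    obtain ⟨j, hj⟩ := H58.exists_pow_pow_eq_of_isPGroup hMp hTi (H58.relNorm T c)
    have hw : (((H58.relNorm T c) ^ j : M) : G) ∈ W := W.pow_mem (hW2 c hz) j
    have h1 : z = ((H58.relNorm T c) ^ j : M) * ((((H58.relNorm T c) ^ j)⁻¹ * c : M) : G) := by
      simp [hc]
    rw [h1]
    refine Subgroup.mul_mem_sup hw ⟨show _ ∈ Z from Z.mul_mem (Z.inv_mem (hWZ hw)) hz, ((H58.relNorm T c) ^ j)⁻¹ * c, ?_, rfl⟩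
    change H58.relNorm T _ = 1
    rw [map_mul, map_inv, hW1 _ hw, ← pow_mul, mul_comm j, pow_mul, hj, inv_mul_cancel]

end Cfsg.Agent.S1944
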