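import Cfsg.Statements.S1946
import Mathlib
import Cfsg.Agent.Base
import Cfsg.Agent.Lib.Tech58.Small
import Cfsg.Agent.Lib.Transfer.NormalComplement
import Cfsg.Agent.Lib.Thompson.Replacement

set_option autoImplicit false
open Cfsg

namespace Cfsg.Agent.S1946

open scoped commutatorElement

/-- Let P be a Sylow p-subgroup of the finite group G. Then G has a normal p-complement if and only if P controls the fusion of its elements of order dividing p (dividing 4 when p = 2): whenever such an element a of P has a G-conjugate g a g⁻¹ in P, that conjugate is already x a x⁻¹ for some x in P. -/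
theorem result {G : Type*} [Group G] [Finite G] {p : ℕ} [Fact p.Prime] (P : Sylow p G) :
    Cfsg.HasNormalPComplement p G ↔
      ∀ a ∈ (P : Subgroup G), (a ^ p = 1 ∨ (p = 2 ∧ a ^ 4 = 1)) → ∀ g : G, g * a * g⁻¹ ∈ (P : Subgroup G) →
        ∃ x ∈ (P : Subgroup G), g * a * g⁻¹ = x * a * x⁻¹ := by
  refine ⟨fun h a ha _ g hg => ?_, fun h => ?_⟩
  · obtain ⟨v, hv, e⟩ := (H4.hasNormalPComplement_iff_controls_fusion P).mp h a ha g hg
    exact ⟨v, hv, e.symm⟩
  rw [H4.hasNormalPComplement_iff_forall_le_sylow P]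
  intro Q hQ g hg hcop
  by_contra hne
  have hA : Subgroup.zpowers g ≤ Subgroup.normalizer (Q : Set G) := (Subgroup.zpowers_le).mpr hg
  obtain ⟨D, hDQ, hD0, hDA, hD, hs⟩ := H58.exists_small_commutator_eq (P.isPGroup'.to_le hQ) hA
    (by rwa [Nat.card_zpowers]) (fun h0 => hne
      (H24.le_centralizer_of_commutator_eq_bot' h0 (Subgroup.mem_zpowers g)))
  apply hD0
  refine H24.eq_bot_of_le_commutator_of_isNilpotent (Q := (P : Subgroup G))
    P.isPGroup'.isNilpotent (hDQ.trans hQ) ?_
  conv_lhs => rw [← hD]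
  rw [Subgroup.commutator_le]
  intro d hd a ha
  obtain ⟨x, hx, e⟩ := h d⁻¹ (hQ (hDQ (D.inv_mem hd))) (hs _ (D.inv_mem hd)) a
    (hQ (hDQ (H2.conj_mem_of_le_normalizer hDA ha (D.inv_mem hd))))
  have : ⁅d, a⁆ = ⁅d, x⁆ := by
    rw [commutatorElement_def, commutatorElement_def]
    calc d * a * d⁻¹ * a⁻¹ = d * (a * d⁻¹ * a⁻¹) := by group
      _ = d * (x * d⁻¹ * x⁻¹) := by rw [e]
      _ = _ := by group
  rw [this]
  exact Subgroup.commutator_mem_commutator hd hx

end Cfsg.Agent.S1946
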