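import Cfsg.Statements.S1948
import Mathlib
import Cfsg.Agent.Base
import Cfsg.Agent.Lib.Tech58.PPCore
import Cfsg.Agent.Lib.Core.Hall

set_option autoImplicit false
open Cfsg

namespace Cfsg.Agent.S1948

/-- Let S be a Sylow p-subgroup of the finite group G. Then G = N_G(S)·O_{p'}(G) if and only if G is p-constrained and N_G(S) controls fusion in S, in the sense that whenever a subgroup Q of S has a conjugate g Q g⁻¹ inside S, the element g is a product n c with n normalizing S and c centralizing Q. -/
theorem result {G : Type*} [Group G] [Finite G] {p : ℕ} [Fact p.Prime] (S : Sylow p G) :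
    Subgroup.normalizer ((S : Subgroup G) : Set G) ⊔ Cfsg.pPrimeCore p G = ⊤ ↔
      (Cfsg.IsPConstrained p G ∧
        ∀ Q : Subgroup G, Q ≤ (S : Subgroup G) → ∀ g : G, Q.map (MulAut.conj g).toMonoidHom ≤ (S : Subgroup G) →
          ∃ n ∈ Subgroup.normalizer ((S : Subgroup G) : Set G), ∃ c ∈ Subgroup.centralizer (Q : Set G), g = n * c) := by
  constructor
  · intro h
    constructor
    · refine H23.isPConstrained_of_isPSolvable ((H3.isPSolvable_iff_isPiSeparable Fact.out).mpr ?_)
      have hc : ∀ {X : Type _} [Group X], (Nat.card X).Coprime p → H3.IsPiSeparable {p} X := by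
        intro X _ hX
        have := (H3.isPiSeparable_of_piNum ((H3.piNum_compl_singleton_iff Fact.out).mpr hX)).compl
        rwa [compl_compl] at this
      refine H3.IsPiSeparable.extension (pPrimeCore p G) (hc H1.coprime_card_pPrimeCore) ?_
      let T := S.mapSurjective (QuotientGroup.mk'_surjective (pPrimeCore p G))
      have hT : (T : Subgroup (G ⧸ pPrimeCore p G)).Normal := by
        rw [← Subgroup.normalizer_eq_top_iff, eq_top_iff]
        intro x _
        obtain ⟨g, rfl⟩ := QuotientGroup.mk'_surjective _ x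
        have : g ∈ Subgroup.normalizer ((S : Subgroup G) : Set G) ⊔ Cfsg.pPrimeCore p G := by
          rw [h]; trivial
        obtain ⟨n, hn, d, hd, rfl⟩ := Subgroup.mem_sup_of_normal_right.mp this
        rw [map_mul, QuotientGroup.mk'_apply _ d, (QuotientGroup.eq_one_iff d).mpr hd, mul_one]
        exact Subgroup.le_normalizer_map _ ⟨n, hn, rfl⟩
      refine H3.IsPiSeparable.extension (T : Subgroup (G ⧸ pPrimeCore p G)) ?_ (hc ?_)
      · exact H3.isPiSeparable_of_piNum ((H3.piNum_singleton_iff Fact.out Nat.card_pos.ne').mpr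
          (IsPGroup.iff_card.mp T.isPGroup'))
      · exact ((Nat.Prime.coprime_iff_not_dvd Fact.out).mpr T.not_dvd_index).symm
    · intro Q hQ g hg
      obtain ⟨n, hn, c, hc, rfl⟩ := H58.exists_factor_of_sup_normalizer
        H1.coprime_card_pPrimeCore S.isPGroup' (by rw [sup_comm, h]) (S.isPGroup'.to_le hQ)
        (hQ.trans Subgroup.le_normalizer) (g := g)
        (fun y hy => Subgroup.le_normalizer (hg ⟨y, hy, rfl⟩))
      exact ⟨n, hn, c, hc.2, rfl⟩
  · rintro ⟨hc, hf⟩
    rw [eq_top_iff, ← H58.pPrimeCore_sup_normalizer_sylow_inf S]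
    refine sup_le le_sup_right fun g hg => ?_
    obtain ⟨n, hn, c, hcc, rfl⟩ := hf (S ⊓ pPrimePCore p G) inf_le_left g (by
      rintro _ ⟨y, hy, rfl⟩
      exact (H3.conj_mem_of_mem_normalizer hg hy).1)
    refine mul_mem (Subgroup.mem_sup_left hn) ?_
    have h1 : c ∈ pPrimePCore p G := by
      rw [H23.pPrimePCore_def, Subgroup.mem_comap]
      apply H23.isPConstrained_iff.mp hc
      rw [← H58.map_sylow_inf_pPrimePCore S, ← H23.map_centralizer_of_isPGroup
        (QuotientGroup.mk'_surjective _) H23.coprime_card_ker_mk'_pPrimeCore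
        (S.isPGroup'.to_le inf_le_left)]
      exact ⟨c, hcc, rfl⟩
    rw [H23.pPrimePCore_def, ← H25.ZJ.sup_sylow_inf_comap S
      (H25.ZJ.le_map_sylow S H1.isPGroup_pCore)] at h1
    exact (sup_le le_sup_right ((inf_le_left.trans Subgroup.le_normalizer).trans le_sup_left) :
      _ ≤ _) h1

end Cfsg.Agent.S1948
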