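import Cfsg.Statements.S1949
import Mathlib
import Cfsg.Agent.Base
import Cfsg.Agent.Lib.PGroup.Critical
import Cfsg.Agent.Lib.Transfer.Residual

set_option autoImplicit false
open Cfsg

namespace Cfsg.Agent.S1949

open Subgroup
open scoped Pointwise commutatorElement

theorem map_eq_of_mem {P : Type*} [Group P] (G : Subgroup (MulAut P)) (D : Subgroup P)
    (h : ∀ α ∈ G, ∀ d ∈ D, α d ∈ D) (α : MulAut P) (hα : α ∈ G) : D.map α.toMonoidHom = D := by
  apply le_antisymm
  · rintro _ ⟨d, hd, rfl⟩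
    exact h α hα d hd
  · intro d hd
    exact ⟨α⁻¹ d, h _ (G.inv_mem hα) d hd, by simp⟩

/-- Let P be a finite p-group and G a group of automorphisms of P containing the inner automorphisms. Then there is a G-invariant subgroup D of P, contained in the subgroup generated by the elements x⁻¹α(x) with x in P and α in O^p(G), of exponent dividing p when p is odd and dividing 4 when p = 2, with [D, P] ≤ Z(D), such that every automorphism in G of order prime to p that fixes D elementwise is the identity; moreover every maximal abelian subgroup A of D is normal in P and every automorphism in G fixing A elementwise has p-power order. -/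
theorem result {P : Type*} [Group P] [Finite P] {p : ℕ} [Fact p.Prime] (hP : IsPGroup p P)
    (G : Subgroup (MulAut P)) (hG : Cfsg.Inn P ≤ G) :
    ∃ D : Subgroup P,
      (∀ α ∈ G, D.map α.toMonoidHom = D) ∧
      D ≤ Subgroup.closure {y : P | ∃ α ∈ Cfsg.pResidual p ↥G, ∃ x : P, y = x⁻¹ * (α : MulAut P) x} ∧
      (∀ d ∈ D, d ^ p = 1 ∨ (p = 2 ∧ d ^ 4 = 1)) ∧
      ⁅D, (⊤ : Subgroup P)⁆ ≤ D ⊓ Subgroup.centralizer (D : Set P) ∧
      (∀ α ∈ G, (orderOf α).Coprime p → (∀ d ∈ D, α d = d) → α = 1) ∧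
      ∀ A : Subgroup P, A ≤ D → IsMulCommutative ↥A →
        (∀ B : Subgroup P, A ≤ B → B ≤ D → IsMulCommutative ↥B → B = A) →
        A.Normal ∧ ∀ α ∈ G, (∀ a ∈ A, α a = a) → ∃ k : ℕ, orderOf α = p ^ k := by
  have hp : p.Prime := Fact.out
  obtain ⟨H, hH⟩ := H5.exists_isCritical hP
  haveI := hH.char
  set K : Subgroup P := Subgroup.closure
    {y : P | ∃ α ∈ Cfsg.pResidual p ↥G, ∃ x : P, y = x⁻¹ * (α : MulAut P) x} with hK
  have hKinv : ∀ β ∈ G, ∀ y ∈ K, β y ∈ K := by
    intro β hβ y hy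
    have : K.map β.toMonoidHom ≤ K := by
      rw [hK, MonoidHom.map_closure]
      refine closure_mono ?_
      rintro _ ⟨_, ⟨α, hα, x, rfl⟩, rfl⟩
      refine ⟨⟨β, hβ⟩ * α * ⟨β, hβ⟩⁻¹, (H4.pResidual_normal p G).conj_mem α hα _, β x, ?_⟩
      simp
    exact this ⟨y, hy, rfl⟩
  have hHinv : ∀ β : MulAut P, ∀ y ∈ H, β y ∈ H := fun β y hy =>
    H5.aut_mem_of_characteristic hH.char β hy
  let D : Subgroup P :=
    { carrier := {d | d ∈ H ∧ d ∈ K ∧ (d ^ p = 1 ∨ (p = 2 ∧ d ^ 4 = 1))}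
      one_mem' := ⟨one_mem _, one_mem _, Or.inl (one_pow _)⟩
      mul_mem' := fun {a b} ha hb => by
        refine ⟨mul_mem ha.1 hb.1, mul_mem ha.2.1 hb.2.1, ?_⟩
        by_cases h2 : p = 2
        · right
          refine ⟨h2, ?_⟩
          have h4 : ∀ d : P, (d ^ p = 1 ∨ (p = 2 ∧ d ^ 4 = 1)) → d ^ 4 = 1 := by
            rintro d (h | h)
            · rw [show 4 = p * 2 by omega, pow_mul, h, one_pow]
            · exact h.2
          rw [H5.mul_pow_eq_of_class_two (p := p) (hH.commutator_mem b hb.1 a a ha.1)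
            (hH.commutator_mem b hb.1 a b hb.1) (by rw [h2]; decide)
            (hH.commutator_pow_eq_one hb.1 ha.1), h4 a ha.2.2, h4 b hb.2.2, one_mul]
        · left
          rw [hH.mul_pow (hp.odd_of_ne_two h2) ha.1 hb.1,
            ha.2.2.resolve_right (fun h => h2 h.1), hb.2.2.resolve_right (fun h => h2 h.1), one_mul]
      inv_mem' := fun {a} ha => by
        refine ⟨inv_mem ha.1, inv_mem ha.2.1, ?_⟩
        rcases ha.2.2 with h | h
        · left; rw [inv_pow, h, inv_one]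
        · right; exact ⟨h.1, by rw [inv_pow, h.2, inv_one]⟩ }
  have hDinv : ∀ β ∈ G, ∀ y ∈ D, β y ∈ D := by
    intro β hβ y hy
    refine ⟨hHinv β y hy.1, hKinv β hβ y hy.2.1, ?_⟩
    rcases hy.2.2 with h | h
    · left; rw [← map_pow, h, map_one]
    · right; exact ⟨h.1, by rw [← map_pow, h.2, map_one]⟩
  have hDH : D ≤ H := fun d hd => hd.1
  have hconj : ∀ d ∈ D, ∀ g : P, g * d * g⁻¹ ∈ D := fun d hd g =>
    hDinv (MulAut.conj g) (hG ⟨g, rfl⟩) d hd
  have hcomm : ∀ d ∈ D, ∀ g : P, ⁅d, g⁆ ∈ D ⊓ centralizer (D : Set P) := by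
    intro d hd g
    refine ⟨?_, centralizer_le hDH (hH.commutator_mem d hd.1 g)⟩
    have : ⁅d, g⁆ = d * (g * d⁻¹ * g⁻¹) := by rw [commutatorElement_def]; group
    rw [this]
    exact D.mul_mem hd (hconj _ (D.inv_mem hd) g)
  have hdet : ∀ α ∈ G, (orderOf α).Coprime p → (∀ d ∈ D, α d = d) → α = 1 := by
    intro α hα hc hfix
    have hαr : (⟨α, hα⟩ : G) ∈ Cfsg.pResidual p G :=
      H4.mem_pResidual_of_coprime (by rwa [Subgroup.orderOf_mk])
    have hM : ∀ x ∈ H ⊓ K, α x = x := by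
      intro x hx
      have hinv : ∀ y ∈ H ⊓ K, α y ∈ H ⊓ K := fun y hy => ⟨hHinv α y hy.1, hKinv α hα y hy.2⟩
      by_cases h2 : p = 2
      · have hZ : ∀ z ∈ (H ⊓ K) ⊓ centralizer (H : Set P), α z = z := fun z hz =>
          H5.aut_apply_eq_of_powHom (hP.to_subgroup ((H ⊓ K) ⊓ centralizer (H : Set P)))
            (fun u hu v hv => (show Commute u v from hv.2 u hu.1.1).mul_pow p) α
            (fun u hu => ⟨hinv u hu.1, H5.aut_mem_of_characteristic inferInstance α hu.2⟩) hc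
            (fun u hu hu' => hfix u ⟨hu.1.1, hu.1.2, Or.inl hu'⟩) hz
        apply H5.aut_apply_eq_of_isPGroup hP α hc
        have hm : x⁻¹ * α x ∈ H ⊓ K := (H ⊓ K).mul_mem ((H ⊓ K).inv_mem hx) (hinv x hx)
        refine hfix _ ⟨hm.1, hm.2, Or.inr ⟨h2, ?_⟩⟩
        have h1 := hZ _ ⟨(H ⊓ K).pow_mem hx p, hH.pow_mem x hx.1⟩
        have c1 : Commute x⁻¹ ⁅α x, x⁻¹⁆ :=
          hH.commutator_mem _ (hinv x hx).1 _ _ (inv_mem hx.1)
        have c2 : Commute (α x) ⁅α x, x⁻¹⁆ :=
          hH.commutator_mem _ (hinv x hx).1 _ _ (hinv x hx).1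
        rw [show 4 = p * p by rw [h2], pow_mul, H5.mul_pow_of_class_two c1 c2, ← map_pow, h1,
          inv_pow, inv_mul_cancel, one_mul, pow_right_comm,
          hH.commutator_pow_eq_one (hinv x hx).1 (inv_mem hx.1), one_pow]
      · exact H5.aut_apply_eq_of_powHom (hP.to_subgroup (H ⊓ K))
          (fun u hu v hv => hH.mul_pow (hp.odd_of_ne_two h2) hu.1 hv.1) α hinv hc
          (fun u hu hu' => hfix u ⟨hu.1, hu.2, Or.inl hu'⟩) hx
    refine hH.aut_eq_one hP α hc fun x hx => H5.aut_apply_eq_of_isPGroup hP α hc (hM _ ⟨?_, ?_⟩)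
    · exact H.mul_mem (H.inv_mem hx) (hHinv α x hx)
    · exact subset_closure ⟨⟨α, hα⟩, hαr, x, rfl⟩
  refine ⟨D, map_eq_of_mem G D hDinv, fun d hd => hd.2.1, fun d hd => hd.2.2,
    Subgroup.commutator_le.mpr fun d hd g _ => hcomm d hd g, hdet, ?_⟩
  intro A hAD hA hmax
  have hself : ∀ c ∈ D, c ∈ centralizer (A : Set P) → c ∈ A := by
    intro c hc hcA
    have hB : IsMulCommutative (closure (insert c (A : Set P))) := by
      apply Subgroup.isMulCommutative_closure
      rintro a (rfl | ha) b (rfl | hb)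
      · rfl
      · exact (hcA b hb).symm
      · exact hcA a ha
      · exact setLike_mul_comm ha hb
    have := hmax (closure (insert c (A : Set P)))
      (fun a ha => subset_closure (Set.mem_insert_of_mem _ ha))
      ((closure_le _).mpr (Set.insert_subset hc hAD)) hB
    rw [← this]
    exact subset_closure (Set.mem_insert _ _)
  have hAn : A.Normal := ⟨fun a ha g => by
    have h1 := hcomm a⁻¹ (D.inv_mem (hAD ha)) g
    have h2 : ⁅a⁻¹, g⁆ ∈ A := hself _ h1.1 (centralizer_le hAD h1.2)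
    have : g * a * g⁻¹ = a * ⁅a⁻¹, g⁆ := by rw [commutatorElement_def]; group
    rw [this]
    exact A.mul_mem ha h2⟩
  refine ⟨hAn, fun α hα hfix => ?_⟩
  obtain ⟨k, hk⟩ := H4.exists_pow_coprime_orderOf (isOfFinOrder_of_finite α) p
  have hfix' : ∀ n : ℕ, ∀ a ∈ A, (α ^ n) a = a := by
    intro n a ha
    induction n with
    | zero => rfl
    | succ n ih => rw [pow_succ, MulAut.mul_apply, hfix a ha, ih]
  have hβ : α ^ p ^ k = 1 := by
    set β := α ^ p ^ k with hβ
    have hβG : β ∈ G := G.pow_mem hα _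
    refine hdet β hβG hk fun d hd => H5.aut_apply_eq_of_isPGroup hP β hk (hfix' _ _ (hself _
      (D.mul_mem (D.inv_mem hd) (hDinv β hβG d hd)) fun c hc => ?_))
    have h3 : β (d * c * d⁻¹) = d * c * d⁻¹ := hfix' _ _ (hAn.conj_mem c hc d)
    have h4 : β c = c := hfix' _ c hc
    rw [map_mul, map_mul, map_inv, h4] at h3
    calc c * (d⁻¹ * β d) = d⁻¹ * (d * c * d⁻¹) * β d := by group
      _ = d⁻¹ * (β d * c * (β d)⁻¹) * β d := by rw [h3]
      _ = d⁻¹ * β d * c := by group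
  obtain ⟨j, -, hj⟩ := (Nat.dvd_prime_pow hp).mp (orderOf_dvd_of_pow_eq_one hβ)
  exact ⟨j, hj⟩

end Cfsg.Agent.S1949
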