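import Cfsg.Statements.S1951
import Mathlib
import Cfsg.Agent.Base
import Cfsg.Agent.Lib.Tech58.PairCount
import Cfsg.Agent.Lib.Tech58.PairGroup

set_option autoImplicit false
open Cfsg

namespace Cfsg.Agent.S1951

open ComplexConjugate

/-- Let p be a prime and P a nontrivial elementary abelian Sylow p-subgroup of a finite nonabelian simple group G whose nonidentity elements are all conjugate in G. Suppose that two elements of P are conjugate in G only if they are conjugate in N_G(P), that the centralizer of every element of order p of P has a normal p-complement, and that every two elements of order p of G generate a p-solvable subgroup. Then p = 2. -/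
theorem result {G : Type*} [Group G] [Finite G] [IsSimpleGroup G] (hG : ¬ IsMulCommutative G) {p : ℕ} [Fact p.Prime] (P : Sylow p G)
    (hP1 : (P : Subgroup G) ≠ ⊥) (hPe : Cfsg.IsElementaryAbelian p (P : Subgroup G))
    (hconj : ∀ x ∈ (P : Subgroup G), ∀ y ∈ (P : Subgroup G), x ≠ 1 → y ≠ 1 → ∃ g : G, g * x * g⁻¹ = y)
    (ha : ∀ x ∈ (P : Subgroup G), ∀ y ∈ (P : Subgroup G), (∃ g : G, g * x * g⁻¹ = y) →
      ∃ n ∈ Subgroup.normalizer ((P : Subgroup G) : Set G), n * x * n⁻¹ = y)
    (hb : ∀ x ∈ (P : Subgroup G), orderOf x = p → Cfsg.HasNormalPComplement p ↥(Subgroup.centralizer ({x} : Set G)))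
    (hc : ∀ x y : G, orderOf x = p → orderOf y = p → Cfsg.IsPSolvable p ↥(Subgroup.closure ({x, y} : Set G))) :
    p = 2 := by
  by_contra hp2
  classical
  letI := Fintype.ofFinite G
  letI : Fintype (P : Subgroup G) := Fintype.ofFinite _
  obtain ⟨M, hM⟩ := H33.exists_isPModular p
  haveI : M.IsMaximal := hM.2.1
  obtain ⟨x, hxP, hx1⟩ := (Subgroup.bot_or_exists_ne_one (P : Subgroup G)).resolve_left hP1
  have hxo : orderOf x = p := orderOf_eq_prime (hPe.2 x hxP) hx1
  have hcomm : ∀ a ∈ (P : Subgroup G), ∀ b ∈ (P : Subgroup G), a * b = b * a := fun a ha b hb =>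
    congrArg Subtype.val (hPe.1.is_comm.comm (⟨a, ha⟩ : (P : Subgroup G)) ⟨b, hb⟩)
  have hab : H58.AbP p G := H58.abP_of_sylow P hcomm
  have hxp : H35.IsPElt p x := H35.isPElt_of_mem P.2 hxP
  have hK : ∀ u, H35.IsPElt p u → u ≠ 1 → IsConj x u := by
    intro u hu hu1
    obtain ⟨g, hg⟩ := hu.exists_conj_mem P
    obtain ⟨k, hk⟩ := hconj x hxP _ hg hx1 (by simpa using hu1)
    exact (isConj_iff.2 ⟨k, hk⟩).trans (isConj_iff.2 ⟨g, rfl⟩).symm
  set X : Finset G := Finset.univ.filter (fun a => IsConj x a) with hXdef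
  have hmemX : ∀ a, a ∈ X ↔ IsConj x a := fun a => by simp only [hXdef, Finset.mem_filter,
    Finset.mem_univ, true_and]
  have hX : ∀ g : G, ∀ a ∈ X, g * a * g⁻¹ ∈ X := fun g a ha =>
    (hmemX _).2 (((hmemX a).1 ha).trans (isConj_iff.2 ⟨g, rfl⟩))
  have hXo : ∀ a ∈ X, orderOf a = p := fun a ha => by
    rw [← H35.orderOf_eq_of_isConj ((hmemX a).1 ha), hxo]
  have hXp : ∀ a ∈ X, H35.IsPElt p a := fun a ha => hxp.of_isConj ((hmemX a).1 ha)
  have hX1 : ∀ a ∈ X, a ≠ 1 := fun a ha h => by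
    have := hXo a ha
    rw [h, orderOf_one] at this
    exact (Fact.out : p.Prime).one_lt.ne this
  have hXi : ∀ a ∈ X, a⁻¹ ∈ X := fun a ha =>
    (hmemX _).2 (hK _ (hXp a ha).inv (inv_ne_one.2 (hX1 a ha)))
  have hC := hb x hxP hxo
  have hq := H58.factorization_centralizer P (u := x) fun y hy =>
    Subgroup.mem_centralizer_singleton_iff.2 (hcomm y hy x hxP)
  set q := Nat.card (P : Subgroup G) with hqdef
  have h1 := H58.section_count hM hX hxp hC
  have h2 := H58.col_principal hM hxp hxp hC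
  have h3 := H58.col_principal hM hxp H35.isPElt_one hC
  rw [hq] at h1 h2 h3
  rw [H6.classInd_of_isConj (IsConj.refl x), mul_one] at h2
  rw [H6.classInd_of_not_isConj (fun h => hx1 (isConj_one_left.1 h)), mul_zero] at h3
  -- a nontrivial linear character of `P`
  obtain ⟨lam, hlam⟩ : ∃ lam : IrrCharacter (P : Subgroup G),
      lam.1 ⟨x, hxP⟩ ≠ lam.1 1 := by
    by_contra h
    push Not at h
    exact hx1 (congrArg Subtype.val (H6.eq_one_of_forall_irr h))
  have hlam1 : lam.1 1 = 1 :=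
    H6.irr_one_eq_one_of_comm (fun a b => Subtype.ext (hcomm a a.2 b b.2)) lam.2
  have hlam0 : ∑ u : (P : Subgroup G), conj (lam.1 u) = 0 := by
    have h4 := H6.irr_inner_ne H6.isIrrCharacter_one lam.2 (fun h => hlam (by rw [← h]))
    have h5 := H6.card_mul_classInner (fun _ : (P : Subgroup G) => (1 : ℂ)) lam
    rw [h4, mul_zero] at h5
    simpa using h5.symm
  have hint : ∀ χ : IrrCharacter G, ∃ (d : ℤ) (n : ℕ), (χ : G → ℂ) x = d ∧ (χ : G → ℂ) 1 = n ∧
      0 < n ∧ (χ ≠ H84.irrOne G → d + q ≤ n) := by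
    intro χ
    obtain ⟨n, hn0, hn⟩ := H6.irr_one_pos χ.2
    obtain ⟨b, hb⟩ := H6.char_inner_nat (H6.isCharacter_restrict (P : Subgroup G)
      (H84.irr_char χ)) (H84.irr_char lam)
    have h5 := H6.card_mul_classInner (fun u : (P : Subgroup G) => (χ : G → ℂ) u) lam
    have h6 : ∀ u : (P : Subgroup G), (χ : G → ℂ) u * conj (lam.1 u) =
        (χ : G → ℂ) x * conj (lam.1 u) +
          if u = 1 then (n : ℂ) - (χ : G → ℂ) x else 0 := by
      intro u
      split_ifs with hu
      · rw [hu, hlam1]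
        simp [hn]
      · rw [← H6.classFun_of_isConj (H84.irr_class χ) (hK u (H35.isPElt_of_mem P.2 u.2)
          (fun h => hu (Subtype.ext h))), add_zero]
    rw [hb, Finset.sum_congr rfl fun u _ => h6 u, Finset.sum_add_distrib, ← Finset.mul_sum, hlam0]
      at h5
    simp only [mul_zero, Finset.sum_ite_eq', Finset.mem_univ, if_true, zero_add] at h5
    have h7 : (χ : G → ℂ) x = ((n - q * b : ℤ) : ℂ) := by
      push_cast
      rw [hqdef, h5]
      ring
    refine ⟨n - q * b, n, h7, hn, hn0, fun hne => ?_⟩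
    have hb0 : b ≠ 0 := by
      rintro rfl
      refine hx1 (H6.eq_one_of_simple χ.2 (fun h => hne (Subtype.ext h)) ?_)
      rw [h7, hn]
      simp
    have : 1 ≤ b := Nat.one_le_iff_ne_zero.2 hb0
    nlinarith
  choose d n hd hn hn0 hdn using hint
  have hd1 : d (H84.irrOne G) = 1 := by
    have := hd (H84.irrOne G)
    simp only [H84.irrOne_coe] at this
    exact_mod_cast this.symm
  have hn1 : n (H84.irrOne G) = 1 := by
    have := hn (H84.irrOne G)
    simp only [H84.irrOne_coe] at this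
    exact_mod_cast this.symm
  have hS : ∀ χ : IrrCharacter G, ∑ a ∈ X, (χ : G → ℂ) a = X.card * (d χ : ℂ) := by
    intro χ
    rw [Finset.sum_congr rfl fun a ha =>
      (H6.classFun_of_isConj (H84.irr_class χ) ((hmemX a).1 ha)).symm, hd]
    simp
  let r : G → ℝ := fun c => if p ∣ orderOf c then 1 else 0
  have hr : ∀ c, H6.classInd x (H35.pPart p c) = r c := by
    intro c
    simp only [r]
    split_ifs with hc
    · rw [H6.classInd_of_isConj (hK _ (H35.isPElt_pPart p c) ((H35.pPart_ne_one_iff p).2 hc))]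
      simp
    · rw [H35.pPart_eq_one hc, H6.classInd_of_not_isConj (fun h => hx1 (isConj_one_left.1 h))]
      simp
  have e1 : (q : ℝ) * ∑ a ∈ X, ∑ b ∈ X, r (a * b) = (X.card : ℝ) ^ 2 *
      ∑ χ ∈ H84.bset (principalBlock M G), (d χ : ℝ) ^ 3 / (n χ : ℝ) := by
    apply Complex.ofReal_injective
    simp only [hr, hS, hd, hn] at h1
    push_cast
    rw [h1, Finset.mul_sum]
    refine Finset.sum_congr rfl fun χ _ => ?_
    simp only [map_mul, map_natCast, map_intCast]
    ring
  have e2 : ∑ χ ∈ H84.bset (principalBlock M G), (d χ : ℝ) ^ 2 = q := by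
    apply Complex.ofReal_injective
    simp only [hd, map_intCast] at h2
    push_cast
    rw [← h2]
    exact Finset.sum_congr rfl fun χ _ => sq _
  have e3 : ∑ χ ∈ H84.bset (principalBlock M G), (d χ : ℝ) * (n χ : ℝ) = 0 := by
    apply Complex.ofReal_injective
    simp only [hd, hn, map_intCast] at h3
    push_cast
    rw [← h3]
    exact Finset.sum_congr rfl fun χ _ => mul_comm _ _
  have e4 : (X.card : ℝ) ^ 2 ≤ 2 * ∑ a ∈ X, ∑ b ∈ X, r (a * b) := by
    have h4 : ∀ a, ∑ b ∈ X, r (a * b) = ∑ b ∈ X, r (a * b⁻¹) := fun a =>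
      Finset.sum_bij' (fun b _ => b⁻¹) (fun b _ => b⁻¹) hXi hXi (fun b _ => inv_inv b)
        (fun b _ => inv_inv b) (fun b _ => by rw [inv_inv])
    have h5 : ∑ a ∈ X, ∑ b ∈ X, (1 : ℝ) ≤ ∑ a ∈ X, ∑ b ∈ X, (r (a * b) + r (a * b⁻¹)) := by
      refine Finset.sum_le_sum fun a ha => Finset.sum_le_sum fun b hb => ?_
      have := hab.sing_or_sing hp2 (hXp a ha) (hXp b hb) (hX1 b hb) (hc a b (hXo a ha) (hXo b hb))
      have h0 : ∀ c, 0 ≤ r c := fun c => by simp only [r]; split_ifs <;> norm_num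
      rcases this with h | h
      · have : r (a * b) = 1 := if_pos h
        linarith [h0 (a * b⁻¹)]
      · have : r (a * b⁻¹) = 1 := if_pos h
        linarith [h0 (a * b)]
    simp only [Finset.sum_add_distrib, ← h4, Finset.sum_const, nsmul_eq_mul, mul_one] at h5
    linarith
  have e5 := H58.cube_sum_lt (H84.bset (principalBlock M G)) (fun χ => (d χ : ℝ))
    (fun χ => (n χ : ℝ)) (H84.mem_bset.2 H84.irrOne_mem_principal) (c := 1 / 2) (by norm_num)
    (fun χ _ => by exact_mod_cast hn0 χ) (by simp [hn1]) (by simp [hd1])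
    (fun χ _ h => by
      have : d χ < 0 := by exact_mod_cast h
      have : d χ ≤ -1 := by omega
      exact_mod_cast this) e3
    (fun χ hχ hne h => by
      have h4 : (d χ : ℝ) + q ≤ n χ := by exact_mod_cast hdn χ hne
      have h5 : (d χ : ℝ) ^ 2 ≤ q := e2 ▸ Finset.single_le_sum
        (f := fun χ => (d χ : ℝ) ^ 2) (fun _ _ => sq_nonneg _) hχ
      have h6 : (1 : ℝ) ≤ d χ := by
        have : 0 < d χ := by exact_mod_cast h
        have : 1 ≤ d χ := this
        exact_mod_cast this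
      nlinarith)
  simp only [e2, hd1] at e5
  have hXpos : (0 : ℝ) < (X.card : ℝ) ^ 2 := by
    exact pow_pos (Nat.cast_pos.2 (Finset.card_pos.2 ⟨x, (hmemX x).2 (IsConj.refl x)⟩)) 2
  have hq0 : (0 : ℝ) < q := Nat.cast_pos.2 Nat.card_pos
  push_cast at e5
  nlinarith

end Cfsg.Agent.S1951
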