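import Mathlib
import Cfsg.Statements.S2001
import Cfsg.Agent.Lib.Functor.Local

set_option autoImplicit false
open Cfsg

namespace Cfsg.Agent.S2001

/-- Let p be a prime dividing the order of the finite group G, P a Sylow p-subgroup, W a conjugacy functor for p on G with Z(H) ≤ W(H) for every nontrivial p-subgroup H, and V a central functor: a conjugacy functor with V(H) ≤ Z(H), and V(H) ≤ V(K) whenever Z(H) ≤ Z(K), for nontrivial p-subgroups H, K. Say that W with V controls transfer in a subgroup L when some Sylow p-subgroup Q of L satisfies Q ∩ L' = (Q ∩ (N_L(W(Q)))')·(Q ∩ (C_L(V(Q)))') as a product of two subgroups. If W with V controls transfer in N_G(H) for every subgroup H with Z(P) ≤ H ≤ P, then W with V controls transfer in G. -/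
theorem result {G : Type*} [Group G] [Finite G] {p : ℕ} [Fact p.Prime] (hdiv : p ∣ Nat.card G) (P : Sylow p G) (W V : Subgroup G → Subgroup G) (hW : Cfsg.IsConjugacyFunctor p W) (hV : Cfsg.IsConjugacyFunctor p V) (hWZ : ∀ H : Subgroup G, IsPGroup p ↥H → H ⊓ Subgroup.centralizer ((H : Subgroup G) : Set G) ≤ W H) (hVZ : ∀ H : Subgroup G, IsPGroup p ↥H → V H ≤ H ⊓ Subgroup.centralizer ((H : Subgroup G) : Set G)) (hVmono : ∀ H K : Subgroup G, IsPGroup p ↥H → IsPGroup p ↥K → H ≠ ⊥ → K ≠ ⊥ → H ⊓ Subgroup.centralizer ((H : Subgroup G) : Set G) ≤ K ⊓ Subgroup.centralizer ((K : Subgroup G) : Set G) → V H ≤ V K) (hloc : ∀ H : Subgroup G, (P : Subgroup G) ⊓ Subgroup.centralizer (((P : Subgroup G) : Subgroup G) : Set G) ≤ H → H ≤ (P : Subgroup G) → ∃ Q : Subgroup G, Q ≤ Subgroup.normalizer ((H : Subgroup G) : Set G) ∧ IsPGroup p ↥Q ∧ ¬ p ∣ (Q).relIndex (Subgroup.normalizer ((H : Subgroup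 G) : Set G)) ∧ ∀ x : G, x ∈ Q ⊓ ⁅Subgroup.normalizer ((H : Subgroup G) : Set G), Subgroup.normalizer ((H : Subgroup G) : Set G)⁆ ↔ ∃ a ∈ Q ⊓ ⁅Subgroup.normalizer ((H : Subgroup G) : Set G) ⊓ Subgroup.normalizer ((W Q : Subgroup G) : Set G), Subgroup.normalizer ((H : Subgroup G) : Set G) ⊓ Subgroup.normalizer ((W Q : Subgroup G) : Set G)⁆, ∃ b ∈ Q ⊓ ⁅Subgroup.normalizer ((H : Subgroup G) : Set G) ⊓ Subgroup.centralizer ((V Q : Subgroup G) : Set G), Subgroup.normalizer ((H : Subgroup G) : Set G) ⊓ Subgroup.centralizer ((V Q : Subgroup G) : Set G)⁆, x = a * b) : ∃ Q : Subgroup G, IsPGroup p ↥Q ∧ ¬ p ∣ Q.index ∧ ∀ x : G, x ∈ Q ⊓ commutator G ↔ ∃ a ∈ Q ⊓ ⁅Subgroup.normalizer ((W Q : Subgroup G) : Set G), Subgroup.normalizer ((W Q : Subgroup G) : Set G)⁆, ∃ b ∈ Q ⊓ ⁅Subgroup.centralizer ((V Q : Subgroup G) : Set G), Subgroup.centralizer ((V Q : Subgroup G) : Set G)⁆, x = a * b := by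
  open Subgroup H69 H59 in
  have hP := isSylowIn_top P
  have hP1 : (P : Subgroup G) ≠ ⊥ := hP.dvd_card_iff.1 (by rwa [card_top])
  set K := ((P : Subgroup G) ⊓ ⁅𝐍(W P), 𝐍(W P)⁆) ⊔ ((P : Subgroup G) ⊓ ⁅𝐂(V P), 𝐂(V P)⁆) with hK
  have hl : ∀ T, Extr p ⊤ P T → (P : Subgroup G) ⊓ 𝐂((P : Subgroup G)) ≤ T →
      ((P : Subgroup G) ⊓ 𝐍(T)) ⊓ ⁅𝐍(T), 𝐍(T)⁆ ≤
        (((P : Subgroup G) ⊓ 𝐍(T)) ⊓ ⁅𝐍(T) ⊓ 𝐍(W ((P : Subgroup G) ⊓ 𝐍(T))), 𝐍(T) ⊓ 𝐍(W ((P : Subgroup G) ⊓ 𝐍(T)))⁆) ⊔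
        (((P : Subgroup G) ⊓ 𝐍(T)) ⊓ ⁅𝐍(T) ⊓ 𝐂(V ((P : Subgroup G) ⊓ 𝐍(T))), 𝐍(T) ⊓ 𝐂(V ((P : Subgroup G) ⊓ 𝐍(T)))⁆) := by
    intro T hT hZ
    obtain ⟨Q, h1, h2, h3, h4⟩ := hloc T hZ hT.le
    have hs := hT.syl
    rw [top_inf_eq] at hs
    obtain ⟨k, hk, e⟩ := (isSylowIn_of_not_dvd_relIndex h2 h1 h3).conj hs
    have h5 : Q ⊓ ⁅𝐍(T), 𝐍(T)⁆ ≤ (Q ⊓ ⁅𝐍(T) ⊓ 𝐍(W Q), 𝐍(T) ⊓ 𝐍(W Q)⁆) ⊔
        (Q ⊓ ⁅𝐍(T) ⊓ 𝐂(V Q), 𝐍(T) ⊓ 𝐂(V Q)⁆) := fun x hx => by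
      obtain ⟨a, ha, b, hb, rfl⟩ := (h4 x).1 hx
      exact mul_mem_sup ha hb
    have h6 := cj_mono k h5
    simp only [cj_inf, cj_sup, cj_commutator, cj_eq_of_mem hk] at h6
    rwa [cj_normalizer, cj_centralizer, ← cf_cj hW h2, ← cf_cj hV h2, e] at h6
  have key := WP.induction hW hP.isP (L := ⊤) (fun T => (P : Subgroup G) ⊓ 𝐂((P : Subgroup G)) ≤ T →
      ((P : Subgroup G) ⊓ 𝐍(T)) ⊓ ⁅𝐍(T), 𝐍(T)⁆ ≤ K) (by
    intro T hT hn hZ
    refine (hl T hT.extr hZ).trans ?_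
    rw [inf_eq_left.2 hn]
    exact sup_le_sup (inf_le_inf_left _ (commutator_mono inf_le_right inf_le_right))
      (inf_le_inf_left _ (commutator_mono inf_le_right inf_le_right))) (by
    intro T hT hlt ih hZ
    have h0 : IsPGroup p ((P : Subgroup G) ⊓ 𝐍(T) : Subgroup G) := hP.isP.to_inf_left
    have h1 := lt_inf_normalizer_next hW hP.isP hlt
    have h2 : (P : Subgroup G) ⊓ 𝐂((P : Subgroup G)) ≤ ((P : Subgroup G) ⊓ 𝐍(T)) ⊓ 𝐂((P : Subgroup G) ⊓ 𝐍(T)) :=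
      le_inf (le_inf inf_le_left (hZ.trans le_normalizer))
        (inf_le_right.trans (centralizer_anti inf_le_left))
    have h3 : V P ≤ V ((P : Subgroup G) ⊓ 𝐍(T)) := hVmono _ _ hP.isP h0 hP1 (fun e => center_ne_bot hP.isP hP1
      (eq_bot_iff.2 (h2.trans (inf_le_left.trans e.le)))) h2
    refine (hl T hT.extr hZ).trans (sup_le (le_trans ?_ (ih (h2.trans (hWZ _ h0))))
      (le_trans ?_ le_sup_right))
    · exact inf_le_inf h1.le (commutator_mono inf_le_right inf_le_right)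
    · exact inf_le_inf inf_le_left (commutator_mono (inf_le_right.trans (centralizer_anti h3))
        (inf_le_right.trans (centralizer_anti h3))))
  have hfoc : (P : Subgroup G) ⊓ ⁅(⊤ : Subgroup G), ⊤⁆ ≤ K := by
    refine focal_le hP (alperin_wp hW hP (TGood K) (fun _ _ _ => TGood.mono)
      (fun _ _ _ => TGood.mul) (fun _ _ => TGood.inv) ?_)
    intro U hU ih g _ hg
    by_cases hZ : (P : Subgroup G) ⊓ 𝐂((P : Subgroup G)) ≤ U
    · have hle : U ≤ (P : Subgroup G) ⊓ 𝐍(U) := le_inf hU.extr.le le_normalizer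
      exact tgood_of_le hle inf_le_right hg (by rwa [cj_eq_of_mem_normalizer hg]) (key U hU hZ)
    · obtain ⟨n, -, -, hn, c, -, hc, rfl⟩ := hU.extr.frattini (mem_top g) hg
      have h1 : U ⊔ ((P : Subgroup G) ⊓ 𝐂(U)) ≤ P := sup_le hU.extr.le inf_le_left
      refine (tgood_of_mem_centralizer hc).mul ?_
      rw [cj_eq_of_mem_centralizer hc]
      refine (ih _ n h1 (mem_top n) ((cj_eq_of_mem_normalizer hn).le.trans h1)
        (card_lt_of_lt (lt_of_le_of_ne le_sup_left fun e => hZ ?_))).mono le_sup_left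
      rw [e]
      exact (inf_le_inf_left _ (centralizer_anti hU.extr.le)).trans le_sup_right
  refine ⟨P, hP.isP, P.not_dvd_index, fun x => ⟨fun hx => ?_, ?_⟩⟩
  · have hn : (P : Subgroup G) ≤ 𝐍(𝐂(V P)) := le_normalizer.trans
      ((cf_normalizer hV hP.isP).trans (normalizer_le_normalizer_centralizer _))
    exact (mem_sup_of_le_normalizer_right (inf_le_left.trans (le_normalizer_inf le_normalizer
      (le_normalizer_commutator hn hn)))).1 (hfoc hx)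
  · rintro ⟨a, ha, b, hb, rfl⟩
    exact ⟨mul_mem ha.1 hb.1, mul_mem (commutator_mono le_top le_top ha.2)
      (commutator_mono le_top le_top hb.2)⟩

end Cfsg.Agent.S2001
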