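import Mathlib
import Cfsg.Statements.S2002
import Cfsg.Agent.Lib.Functor.Local

set_option autoImplicit false
open Cfsg

namespace Cfsg.Agent.S2002

open Subgroup H69 H59 in
theorem fgood_of_list {G : Type*} [Group G] {N : G → Prop} (hN : ∀ n, N n → N n⁻¹)
    {T : Subgroup G} : ∀ (l : List G) (A : Subgroup G), (∀ b ∈ l, N b) →
      (∀ k ≤ l.length, A ^ᶜ ((l.take k).prod)⁻¹ ≤ T) → FGood N T A (l.prod)⁻¹
  | [], A, _, h => by
    have := h 0 le_rfl
    rw [List.take_zero, List.prod_nil, inv_one, cj_one] at this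
    rw [List.prod_nil, inv_one]; exact FGood.one this
  | b :: l, A, h1, h2 => by
    have h3 : FGood N T A b⁻¹ := FGood.single (by
      have := h2 0 (Nat.zero_le _)
      rwa [List.take_zero, List.prod_nil, inv_one, cj_one] at this)
      (hN _ (h1 b List.mem_cons_self)) (by simpa using h2 1 (by simp))
    have h4 := fgood_of_list hN l (A ^ᶜ b⁻¹) (fun c hc => h1 c (List.mem_cons_of_mem _ hc))
      fun k hk => by
        have := h2 (k + 1) (by simpa using hk)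
        rwa [List.take_succ_cons, List.prod_cons, mul_inv_rev, ← cj_cj] at this
    rw [List.prod_cons, mul_inv_rev]
    exact h3.mul h4

open Subgroup H69 H59 in
theorem list_of_fgood {G : Type*} [Group G] {N : G → Prop} (hN : ∀ n, N n → N n⁻¹)
    {T A : Subgroup G} {g : G} (h : FGood N T A g) : ∃ l : List G, (∀ b ∈ l, N b) ∧
      (∀ k ≤ l.length, A ^ᶜ ((l.take k).prod)⁻¹ ≤ T) ∧ Agree A (l.prod)⁻¹ g := by
  obtain ⟨hA, c, hc, e⟩ := h
  suffices H : ∃ l : List G, (∀ b ∈ l, N b) ∧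
      (∀ k ≤ l.length, A ^ᶜ ((l.take k).prod)⁻¹ ≤ T) ∧ (l.prod)⁻¹ = c by
    obtain ⟨l, h1, h2, h3⟩ := H
    exact ⟨l, h1, h2, h3 ▸ e⟩
  clear e
  induction hc with
  | refl => exact ⟨[], by simp, fun k _ => by
      rwa [List.take_nil, List.prod_nil, inv_one, cj_one], by simp⟩
  | @tail c c' _ hs ih =>
    obtain ⟨l, h1, h2, h3⟩ := ih
    have h4 : ((l ++ [(c' * c⁻¹)⁻¹]).prod)⁻¹ = c' := by simp [← h3]
    refine ⟨l ++ [(c' * c⁻¹)⁻¹], fun b hb => ?_, fun k hk => ?_, h4⟩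
    · rcases List.mem_append.1 hb with hb | hb
      · exact h1 b hb
      · rw [List.mem_singleton.1 hb]; exact hN _ hs.1
    · by_cases hk' : k ≤ l.length
      · rw [List.take_append_of_le_length hk']; exact h2 k hk'
      · rw [List.take_of_length_le (by simp; omega), h4]; exact hs.2.2

open Subgroup H69 H59 in
theorem image_image_subset_iff {G : Type*} [Group G] {X : Set G} {c d : G} {T : Subgroup G}
    (hc : c ∈ centralizer X) :
    (fun x => d⁻¹ * x * d) '' ((fun x => c⁻¹ * x * c) '' X) ⊆ T ↔ closure X ^ᶜ d⁻¹ ≤ T := by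
  rw [closure_cj_le_iff, inv_inv, Set.image_image]
  refine Eq.to_iff (congrArg (· ⊆ (T : Set G)) (Set.image_congr fun x hx => ?_))
  rw [mul_assoc c⁻¹, hc x hx, inv_mul_cancel_left]

/-- Let p be a prime dividing the order of the finite group G, P a Sylow p-subgroup, W a conjugacy functor for p on G with Z(H) ≤ W(H) for every nontrivial p-subgroup H, and V a central functor (a conjugacy functor with V(H) ≤ Z(H), and V(H) ≤ V(K) whenever Z(H) ≤ Z(K)). Say that W with V controls strong fusion in a subgroup L when some Sylow p-subgroup Q of L has the property: whenever X ⊆ Q and a ∈ L with a⁻¹Xa ⊆ Q, then a = c b with c ∈ C_L(X) and b = b₁ ⋯ bₙ a product of elements each in N_L(W(Q)) or in C_L(V(Q)) such that every partial conjugate (b₁ ⋯ bₖ)⁻¹ X (b₁ ⋯ bₖ) lies in Q. If W with V controls strong fusion in N_G(H) for every subgroup H with Z(P) ≤ H ≤ P, then W with V controls strong fusion in G. -/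
theorem result {G : Type*} [Group G] [Finite G] {p : ℕ} [Fact p.Prime] (hdiv : p ∣ Nat.card G) (P : Sylow p G) (W V : Subgroup G → Subgroup G) (hW : Cfsg.IsConjugacyFunctor p W) (hV : Cfsg.IsConjugacyFunctor p V) (hWZ : ∀ H : Subgroup G, IsPGroup p ↥H → H ⊓ Subgroup.centralizer ((H : Subgroup G) : Set G) ≤ W H) (hVZ : ∀ H : Subgroup G, IsPGroup p ↥H → V H ≤ H ⊓ Subgroup.centralizer ((H : Subgroup G) : Set G)) (hVmono : ∀ H K : Subgroup G, IsPGroup p ↥H → IsPGroup p ↥K → H ≠ ⊥ → K ≠ ⊥ → H ⊓ Subgroup.centralizer ((H : Subgroup G) : Set G) ≤ K ⊓ Subgroup.centralizer ((K : Subgroup G) : Set G) → V H ≤ V K) (hloc : ∀ H : Subgroup G, (P : Subgroup G) ⊓ Subgroup.centralizer (((P : Subgroup G) : Subgroup G) : Set G) ≤ H → H ≤ (P : Subgroup G) → ∃ Q : Subgroup G, Q ≤ Subgroup.normalizer ((H : Subgroup G) : Set G) ∧ IsPGroup p ↥Q ∧ ¬ p ∣ (Q).relIndex (Subgroup.normalizer ((H : Subgroup G) : Set G)) ∧ ∀ (X : Set G) (a :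 G), X ⊆ Q → a ∈ Subgroup.normalizer ((H : Subgroup G) : Set G) → (fun x => a⁻¹ * x * a) '' X ⊆ Q → ∃ c ∈ Subgroup.normalizer ((H : Subgroup G) : Set G) ⊓ Subgroup.centralizer X, ∃ (n : ℕ) (b : Fin n → G), (∀ i, b i ∈ Subgroup.normalizer ((H : Subgroup G) : Set G) ⊓ Subgroup.normalizer ((W Q : Subgroup G) : Set G) ∨ b i ∈ Subgroup.normalizer ((H : Subgroup G) : Set G) ⊓ Subgroup.centralizer ((V Q : Subgroup G) : Set G)) ∧ a = c * (List.ofFn b).prod ∧ ∀ k : ℕ, k ≤ n → (fun x => (((List.ofFn b).take k).prod)⁻¹ * x * ((List.ofFn b).take k).prod) '' ((fun x => c⁻¹ * x * c) '' X) ⊆ Q) : ∃ Q : Subgroup G, IsPGroup p ↥Q ∧ ¬ p ∣ Q.index ∧ ∀ (X : Set G) (a : G), X ⊆ Q → (fun x => a⁻¹ * x * a) '' X ⊆ Q → ∃ c ∈ Subgroup.centralizer X, ∃ (n : ℕ) (b : Fin n → G), (∀ i, b i ∈ ⊤ ⊓ Subgroup.normalizer ((W Q : Subgroup G) : Set G) ∨ b i ∈ ⊤ ⊓ Subgroup.centralizer ((V Q : Subgroup G) : Set G)) ∧ a = c * (List.ofFn b).prod ∧ ∀ k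 : ℕ, k ≤ n → (fun x => (((List.ofFn b).take k).prod)⁻¹ * x * ((List.ofFn b).take k).prod) '' ((fun x => c⁻¹ * x * c) '' X) ⊆ Q := by
  open Subgroup H69 H59 in
  have hP := isSylowIn_top P
  have hP1 : (P : Subgroup G) ≠ ⊥ := hP.dvd_card_iff.1 (by rwa [card_top])
  let St : Subgroup G → Subgroup G → G → Prop := fun H Q n => n ∈ H ⊓ 𝐍(W Q) ∨ n ∈ H ⊓ 𝐂(V Q)
  have hinv : ∀ H Q n, St H Q n → St H Q n⁻¹ := fun H Q n h => h.imp inv_mem inv_mem
  have hl : ∀ T, Extr p ⊤ P T → (P : Subgroup G) ⊓ 𝐂((P : Subgroup G)) ≤ T →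
      ∀ (A : Subgroup G) (g : G), A ≤ (P : Subgroup G) ⊓ 𝐍(T) → g ∈ 𝐍(T) → A ^ᶜ g ≤ (P : Subgroup G) ⊓ 𝐍(T) →
        FGood (St 𝐍(T) ((P : Subgroup G) ⊓ 𝐍(T))) ((P : Subgroup G) ⊓ 𝐍(T)) A g := by
    intro T hT hZ
    obtain ⟨Q, h1, h2, h3, h4⟩ := hloc T hZ hT.le
    have hs := hT.syl
    rw [top_inf_eq] at hs
    obtain ⟨k, hk, e⟩ := (isSylowIn_of_not_dvd_relIndex h2 h1 h3).conj hs
    have h5 : ∀ (A : Subgroup G) (g : G), A ≤ Q → g ∈ 𝐍(T) → A ^ᶜ g ≤ Q →
        FGood (St 𝐍(T) Q) Q A g := fun A g hA hg hAg => by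
      obtain ⟨c, hc, n, b, hb, e1, hk⟩ := h4 A g⁻¹ hA (inv_mem hg) (by
        rintro _ ⟨a, ha, rfl⟩
        rw [inv_inv]; exact hAg (cj_mem g ha))
      refine (fgood_of_list (hinv _ _) (List.ofFn b) A (fun x hx => ?_) fun k hk' => ?_).of_agree ?_
      · obtain ⟨i, rfl⟩ := List.mem_ofFn.1 hx
        exact hb i
      · have := (image_image_subset_iff hc.2).1 (hk k (by simpa using hk'))
        rwa [closure_eq] at this
      · rw [agree_iff, e1, mul_inv_cancel_right]; exact hc.2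
    intro A g hA hg hAg
    rw [← e] at hA hAg ⊢
    have h6 := h5 (A ^ᶜ k⁻¹) (k⁻¹ * g * k) (le_cj_iff.1 hA)
      (mul_mem (mul_mem (inv_mem hk) hg) hk) (by
        rw [cj_cj, mul_inv_cancel_right, ← cj_cj]; exact le_cj_iff.1 hAg)
    have h7 := h6.map (MulAut.conj k).toMonoidHom (N' := St 𝐍(T) (Q ^ᶜ k)) (by
      rintro n (hn | hn)
      · left
        rw [cf_cj hW h2, ← cj_normalizer (W Q), ← cj_eq_of_mem hk, ← cj_inf]
        exact mem_map_of_mem _ hn
      · right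
        rw [cf_cj hV h2, ← cj_centralizer, ← cj_eq_of_mem hk, ← cj_inf]
        exact mem_map_of_mem _ hn)
    rw [cj_inv_cj] at h7
    simpa [mul_assoc] using h7
  have key := WP.induction hW hP.isP (L := ⊤) (fun T => (P : Subgroup G) ⊓ 𝐂((P : Subgroup G)) ≤ T →
      ∀ (A : Subgroup G) (g : G), A ≤ (P : Subgroup G) ⊓ 𝐍(T) → g ∈ 𝐍(T) → A ^ᶜ g ≤ (P : Subgroup G) ⊓ 𝐍(T) →
        FGood (St ⊤ P) P A g) (by
    intro T hT hn hZ A g hA hg hAg
    have := hl T hT.extr hZ A g hA hg hAg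
    rw [inf_eq_left.2 hn] at this
    exact this.mono' (fun n h => h.imp (fun h => ⟨mem_top _, h.2⟩) fun h => ⟨mem_top _, h.2⟩)
      le_rfl) (by
    intro T hT hlt ih hZ A g hA hg hAg
    have h0 : IsPGroup p ((P : Subgroup G) ⊓ 𝐍(T) : Subgroup G) := hP.isP.to_inf_left
    have h1 := lt_inf_normalizer_next hW hP.isP hlt
    have h2 : (P : Subgroup G) ⊓ 𝐂((P : Subgroup G)) ≤ ((P : Subgroup G) ⊓ 𝐍(T)) ⊓ 𝐂((P : Subgroup G) ⊓ 𝐍(T)) :=
      le_inf (le_inf inf_le_left (hZ.trans le_normalizer))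
        (inf_le_right.trans (centralizer_anti inf_le_left))
    have h3 : V P ≤ V ((P : Subgroup G) ⊓ 𝐍(T)) := hVmono _ _ hP.isP h0 hP1 (fun e => center_ne_bot hP.isP hP1
      (eq_bot_iff.2 (h2.trans (inf_le_left.trans e.le)))) h2
    refine (hl T hT.extr hZ A g hA hg hAg).bind inf_le_left ?_
    rintro B n (hn | hn) - hB hBn
    · exact ih (h2.trans (hWZ _ h0)) B n (hB.trans h1.le) hn.2 (hBn.trans h1.le)
    · exact FGood.single (hB.trans inf_le_left) (Or.inr ⟨mem_top _, centralizer_anti h3 hn.2⟩)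
        (hBn.trans inf_le_left))
  have hfus := alperin_wp hW hP (FGood (St ⊤ P) P) (fun _ _ _ => FGood.mono)
      (fun _ _ _ => FGood.mul) (fun _ _ => FGood.inv (hinv _ _)) (by
    intro U hU ih g _ hg
    by_cases hZ : (P : Subgroup G) ⊓ 𝐂((P : Subgroup G)) ≤ U
    · have hle : U ≤ (P : Subgroup G) ⊓ 𝐍(U) := le_inf hU.extr.le le_normalizer
      exact key U hU hZ U g hle hg (by rwa [cj_eq_of_mem_normalizer hg])
    · obtain ⟨n, -, -, hn, c, -, hc, rfl⟩ := hU.extr.frattini (mem_top g) hg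
      have h1 : U ⊔ ((P : Subgroup G) ⊓ 𝐂(U)) ≤ P := sup_le hU.extr.le inf_le_left
      refine (FGood.of_mem_centralizer hU.extr.le hc).mul ?_
      rw [cj_eq_of_mem_centralizer hc]
      refine (ih _ n h1 (mem_top n) ((cj_eq_of_mem_normalizer hn).le.trans h1)
        (card_lt_of_lt (lt_of_le_of_ne le_sup_left fun e => hZ ?_))).mono le_sup_left
      rw [e]
      exact (inf_le_inf_left _ (centralizer_anti hU.extr.le)).trans le_sup_right)
  refine ⟨P, hP.isP, P.not_dvd_index, fun X a hX hXa => ?_⟩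
  obtain ⟨l, h1, h2, h3⟩ := list_of_fgood (hinv _ _) (hfus (closure X) a⁻¹ ((closure_le _).2 hX)
    (mem_top _) (closure_cj_le_iff.2 (by rwa [inv_inv])))
  have hc : a * (l.prod)⁻¹ ∈ centralizer X := by
    rw [agree_iff, inv_inv, centralizer_closure] at h3; exact h3
  refine ⟨a * (l.prod)⁻¹, hc, l.length, l.get, fun i => h1 _ (List.get_mem l i), ?_, fun k hk => ?_⟩
  · rw [List.ofFn_get, inv_mul_cancel_right]
  · rw [List.ofFn_get]; exact (image_image_subset_iff hc).2 (h2 k hk)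

end Cfsg.Agent.S2002
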