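import Mathlib
import Cfsg.Statements.S2015
import Cfsg.Agent.Lib.KInf.Transport
import Cfsg.Agent.S1984

set_option autoImplicit false
universe u
open Cfsg

namespace Cfsg.Agent.S2015

/-- For p ≥ 5, every finite p-group P has a characteristic subgroup K containing Z(P), depending only on P, whose normalizer controls transfer wherever P is a Sylow subgroup: for every finite group G and every embedding ι of P onto a Sylow p-subgroup of G, the intersection of ι(P) with the derived subgroup of G equals its intersection with the derived subgroup of N_G(ι(K)). -/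
theorem result (p : ℕ) [Fact p.Prime] (hp : 5 ≤ p) (P : Type u) [Group P] [Finite P] (hP : IsPGroup p P) : ∃ K : Subgroup P, K.Characteristic ∧ Subgroup.center P ≤ K ∧ ∀ (G : Type u) [Group G] [Finite G] (ι : P →* G), Function.Injective ι → (∃ T : Sylow p G, (T : Subgroup G) = ι.range) → ι.range ⊓ commutator G = ι.range ⊓ (commutator ↥(Subgroup.normalizer ((K.map ι : Subgroup G) : Set G))).map (Subgroup.normalizer ((K.map ι : Subgroup G) : Set G)).subtype := by
  have hW := H57.KInf.isCharPFunctor_kInfLower.{u} p
  refine ⟨Cfsg.kInfLower P, H57.KInf.kInfLower_characteristic P, H57.KInf.center_le_kInfLower P, ?_⟩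
  rintro G _ _ ι hι ⟨T, hT⟩
  have h1 := H57.transfer_eq_of_controls (H57.isConjugacyFunctor_induced hW)
    (Cfsg.Agent.S1984.result (G := G) hp) T
  have h2 : Cfsg.inducedFunctor (G := G) (fun Q _ => Cfsg.kInfLower Q) (T : Subgroup G) =
      (Cfsg.kInfLower P).map ι := by
    rw [hT]
    change (Cfsg.kInfLower ι.range).map ι.range.subtype = _
    rw [← H57.KInf.map_equiv_kInfLower (MonoidHom.ofInjective hι), Subgroup.map_map]
    rfl
  rw [h2, hT] at h1
  rw [h1, commutator_def, Subgroup.map_commutator, ← MonoidHom.range_eq_map, Subgroup.range_subtype]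

end Cfsg.Agent.S2015
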