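import Cfsg.Statements.S2128
import Cfsg.Agent.Lib.Twist.AutMat
import Cfsg.Agent.Lib.Twist.F4Mat

set_option autoImplicit false
open Cfsg

namespace Cfsg.Agent.S2128

/-- Outer automorphisms of the large Ree groups: for q = 2^(2m+1) with m ≥ 1 the outer automorphism group of ²F₄(q) has order 2m + 1 (field automorphisms only). -/
theorem result {K : Type*} [Field K] [Fintype K] {m : ℕ} (hm : 1 ≤ m) (hK : Fintype.card K = 2 ^ (2 * m + 1)) : Nat.card (Cfsg.Out ↥(Cfsg.Lie.twistedF4 K (2 ^ m))) = 2 * m + 1 := by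
  obtain ⟨R, E, hE, T, h, hA⟩ := H39.exists_F4 hK
  have := Fact.mk Nat.prime_two
  rw [H39.card_out_tw hA, ← H67.card_ringAut (F := K) (p := 2) (f := 2 * m + 1)
    (by rw [Nat.card_eq_fintype_card, hK])]
  refine h.card_out ?_ (H39.hasDF (by simp) fun i => ⟨_, h.hφ i⟩)
  rw [hK]
  exact lt_of_lt_of_le (by norm_num) (Nat.pow_le_pow_right two_pos (show 3 ≤ 2 * m + 1 by omega))

end Cfsg.Agent.S2128
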