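import Mathlib
import Cfsg.Statements.S2163
import Cfsg.Agent.Lib.Inv2.Linear
-- import your own Cfsg.Agent.* helpers here

set_option autoImplicit false
open Cfsg

namespace Cfsg.Agent.S2163

/-- Over a finite field of characteristic two and for n ≥ 3: for every ℓ with 1 ≤ ℓ and 2ℓ ≤ n, the matrix j_ℓ that is the identity plus the entries 1 in positions (n − ℓ + i, i) for i < ℓ (an identity block of size ℓ in the lower left corner) lies in SL_n(F), has order 2, and j_ℓ − 1 has rank ℓ. Together with the conjugacy criterion by rank, these matrices represent the conjugacy classes of involutions of SL_n(F). -/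
theorem result {F : Type*} [Field F] [Fintype F] [CharP F 2] {n : ℕ} (hn : 3 ≤ n) (ℓ : ℕ) (h1 : 1 ≤ ℓ) (h2 : 2 * ℓ ≤ n) :
    ∃ a : Matrix.SpecialLinearGroup (Fin n) F, (a : Matrix (Fin n) (Fin n) F) = 1 + Matrix.of (fun i j : Fin n => if j.val < ℓ ∧ i.val = j.val + (n - ℓ) then (1 : F) else 0) ∧ orderOf a = 2 ∧ ((a : Matrix (Fin n) (Fin n) F) - 1).rank = ℓ := by
  have hE : Matrix.of (fun i j : Fin n => if j.val < ℓ ∧ i.val = j.val + (n - ℓ) then (1 : F) else 0) =
      H66.incl F n ℓ (n - ℓ) * (H66.incl F n ℓ 0).transpose := by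
    ext i j
    simp [H66.incl_mul_transpose_apply]
  rw [hE]
  set E := H66.incl F n ℓ (n - ℓ) * (H66.incl F n ℓ 0).transpose with hEdef
  have hsq : (1 + E - 1) * (1 + E - 1) = 0 := by
    rw [add_sub_cancel_left, hEdef, Matrix.mul_assoc, ← Matrix.mul_assoc (Matrix.transpose _),
      H66.incl_transpose_mul_eq_zero (by omega), Matrix.zero_mul, Matrix.mul_zero]
  have hr : (1 + E - 1).rank = ℓ := by
    rw [add_sub_cancel_left, hEdef, H66.rank_mul_eq_card _ _ _ (H66.incl F n ℓ 0)
      (H66.incl_transpose_mul (by omega)) (H66.incl_transpose_mul (by omega)), Fintype.card_fin]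
  refine ⟨⟨1 + E, H65.det_eq_one_of_unipotent (H66.isNilpotent_of_mul_self hsq)⟩, rfl, ?_, hr⟩
  refine orderOf_eq_prime_iff.mpr ⟨(pow_two _).trans
    (Subtype.ext (H66.sub_one_mul_self_iff.mp hsq)), fun h => ?_⟩
  have h' : 1 + E = 1 := congrArg Subtype.val h
  rw [h', sub_self, Matrix.rank_zero] at hr
  omega
end Cfsg.Agent.S2163
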