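import Mathlib
import Cfsg.Statements.S2165
import Cfsg.Agent.Lib.Inv2.Linear
-- import your own Cfsg.Agent.* helpers here

set_option autoImplicit false
open Cfsg

namespace Cfsg.Agent.S2165

/-- In SU_n(q), q even, n ≥ 3 (matrices of determinant 1 over the field with q² elements preserving Σ u_i v_i^q): for every ℓ with 1 ≤ ℓ and 2ℓ ≤ n, the permutation matrix of the involution of {0, …, n−1} exchanging i and n − ℓ + i for each i < ℓ lies in SU_n(q), has order 2, and differs from the identity by a matrix of rank ℓ. So every rank between 1 and n/2 occurs for involutions of SU_n(q). -/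
theorem result {F : Type*} [Field F] [Fintype F] [CharP F 2] {n q : ℕ} (hF : Fintype.card F = q ^ 2) (hn : 3 ≤ n) (ℓ : ℕ) (h1 : 1 ≤ ℓ) (h2 : 2 * ℓ ≤ n) :
    ∃ a : ↥(Cfsg.SU n F q), (((a : Matrix.SpecialLinearGroup (Fin n) F) : Matrix (Fin n) (Fin n) F) = Matrix.of (fun i j : Fin n => if (j.val < ℓ ∧ i.val = j.val + (n - ℓ)) ∨ (i.val < ℓ ∧ j.val = i.val + (n - ℓ)) ∨ (i = j ∧ ℓ ≤ i.val ∧ i.val < n - ℓ) then (1 : F) else 0)) ∧ orderOf a = 2 ∧ ((((a : Matrix.SpecialLinearGroup (Fin n) F) : Matrix (Fin n) (Fin n) F)) - 1).rank = ℓ := by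
  have : H11.U.IsSq F q := ⟨hF⟩
  refine ⟨H11.U.toSU (H66.swapMat F n ℓ) (H66.isIso_swapMat h2) (H66.det_swapMat h2), rfl, ?_,
    H66.rank_swapMat h2⟩
  rw [orderOf_eq_prime_iff, pow_two]
  refine ⟨Subtype.ext (Subtype.ext (H66.sub_one_mul_self_iff.mp (H66.swapMat_sq_zero h2))),
    fun h => ?_⟩
  have h' : H66.swapMat F n ℓ = 1 := congrArg (fun x : Cfsg.SU n F q => x.1.1) h
  have hr := H66.rank_swapMat (F := F) h2
  rw [h', sub_self, Matrix.rank_zero] at hr
  omega
end Cfsg.Agent.S2165
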