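import Mathlib
import Cfsg.Statements.S2166
import Cfsg.Agent.Lib.Inv2.Symp
-- import your own Cfsg.Agent.* helpers here

set_option autoImplicit false
open Cfsg

namespace Cfsg.Agent.S2166

/-- Conjugacy of involutions in the symplectic group Sp_{2m}(F), F a finite field of characteristic two, m ≥ 2 (Sp taken as the matrices A with A J Aᵀ = J, acting on column vectors, with the alternating form f(u, v) = u ⬝ (J v)). For an involution t write V(t) for the set of vectors v with f(v, t v) = 0 (a subspace). Two involutions a, b are conjugate in Sp_{2m}(F) exactly when a − 1 and b − 1 have the same rank and, in case that rank is even, V(a) and V(b) have the same number of elements. -/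
theorem result {F : Type*} [Field F] [Fintype F] [CharP F 2] {m : ℕ} (hm : 2 ≤ m) (a b : ↥(Matrix.symplecticGroup (Fin m) F)) (ha : orderOf a = 2) (hb : orderOf b = 2) :
    IsConj a b ↔ ((((a : ↥(Matrix.symplecticGroup (Fin m) F)) : Matrix (Fin m ⊕ Fin m) (Fin m ⊕ Fin m) F) - 1).rank = (((b : ↥(Matrix.symplecticGroup (Fin m) F)) : Matrix (Fin m ⊕ Fin m) (Fin m ⊕ Fin m) F) - 1).rank ∧
      (Even (((a : ↥(Matrix.symplecticGroup (Fin m) F)) : Matrix (Fin m ⊕ Fin m) (Fin m ⊕ Fin m) F) - 1).rank → Nat.card {v : Fin m ⊕ Fin m → F // Cfsg.sympForm m F v (Matrix.mulVec ((a : ↥(Matrix.symplecticGroup (Fin m) F)) : Matrix (Fin m ⊕ Fin m) (Fin m ⊕ Fin m) F) v) = 0} = Nat.card {v : Fin m ⊕ Fin m → F // Cfsg.sympForm m F v (Matrix.mulVec ((b : ↥(Matrix.symplecticGroup (Fin m) F)) : Matrix (Fin m ⊕ Fin m) (Fin m ⊕ Fin m) F) v) = 0})) := by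
  have ha2 := (H66.orderOf_eq_two_iff'.mp ha).1
  have hb2 := (H66.orderOf_eq_two_iff'.mp hb).1
  rw [H66.isConj_Sp_iff ha2 hb2]
  refine and_congr_right fun hr => ?_
  have h1 := H66.card_isotropic_set ha2
  have h2 := H66.card_isotropic_set hb2
  have hq : 1 < Fintype.card F := Fintype.one_lt_card
  have hp : 0 < Fintype.card F ^ (2 * m) := by positivity
  constructor
  · intro h _
    rw [← h2] at h1
    split_ifs at h1 with h4 h5 h5
    · omega
    · exact absurd (h.mp h4) h5
    · exact absurd (h.mpr h5) h4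
    · exact Nat.eq_of_mul_eq_mul_right (by omega) h1
  · intro h
    by_cases he : Even (a.1 - 1).rank
    · rw [h he, ← h2] at h1
      have h3 := Nat.eq_of_mul_eq_mul_left (Nat.pos_of_mul_pos_right (h2 ▸ hp)) h1
      split_ifs at h3 with h4 h5 h5
      · exact iff_of_true h4 h5
      · omega
      · omega
      · exact iff_of_false h4 h5
    · exact iff_of_false (fun h => he (H66.even_rank_of_alt_Sp ha2 h))
        fun h => he (hr ▸ H66.even_rank_of_alt_Sp hb2 h)

end Cfsg.Agent.S2166
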