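import Mathlib
import Cfsg.Statements.S2172
import Cfsg.Agent.Lib.Inv2.Symp
-- import your own Cfsg.Agent.* helpers here

set_option autoImplicit false
open Cfsg

namespace Cfsg.Agent.S2172

/-- Splitting of involution classes from O to Ω for the hyperbolic quadratic form Q = Σ x_i y_i in dimension 2m over a finite field F of characteristic two, m ≥ 4. Let t, s be involutions of the commutator subgroup Ω that are conjugate in the full isometry group O. If it is not the case that t − 1 has rank m and Q(v + t v) = 0 for every vector v, then t and s are conjugate by an element of Ω. If t − 1 has rank m and Q(v + t v) = 0 for all v, then t and s are conjugate by an element of Ω exactly when the intersection of the images of t − 1 and s − 1 has even dimension (so the class of t in O meets at most two classes of Ω). -/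
theorem result {F : Type*} [Field F] [Fintype F] [CharP F 2] {m : ℕ} (hm : 4 ≤ m) (t s : ↥(Cfsg.isometryGroup F (Cfsg.quadFormPlus m F))) (ht : orderOf t = 2) (hs : orderOf s = 2) (htO : t ∈ Cfsg.Omega F (Cfsg.quadFormPlus m F)) (hsO : s ∈ Cfsg.Omega F (Cfsg.quadFormPlus m F)) (hconj : IsConj t s) :
    (¬ (((((t : ↥(Cfsg.isometryGroup F (Cfsg.quadFormPlus m F))) : GL (Fin m ⊕ Fin m) F) : Matrix (Fin m ⊕ Fin m) (Fin m ⊕ Fin m) F) - 1).rank = m ∧ ∀ v : Fin m ⊕ Fin m → F, Cfsg.quadFormPlus m F (v + Matrix.mulVec (((t : ↥(Cfsg.isometryGroup F (Cfsg.quadFormPlus m F))) : GL (Fin m ⊕ Fin m) F) : Matrix (Fin m ⊕ Fin m) (Fin m ⊕ Fin m) F) v) = 0) →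
      ∃ g ∈ Cfsg.Omega F (Cfsg.quadFormPlus m F), g * t * g⁻¹ = s) ∧
    ((((((t : ↥(Cfsg.isometryGroup F (Cfsg.quadFormPlus m F))) : GL (Fin m ⊕ Fin m) F) : Matrix (Fin m ⊕ Fin m) (Fin m ⊕ Fin m) F) - 1).rank = m ∧ ∀ v : Fin m ⊕ Fin m → F, Cfsg.quadFormPlus m F (v + Matrix.mulVec (((t : ↥(Cfsg.isometryGroup F (Cfsg.quadFormPlus m F))) : GL (Fin m ⊕ Fin m) F) : Matrix (Fin m ⊕ Fin m) (Fin m ⊕ Fin m) F) v) = 0) →
      ((∃ g ∈ Cfsg.Omega F (Cfsg.quadFormPlus m F), g * t * g⁻¹ = s) ↔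
        Even (Module.finrank F ↥(LinearMap.range (Matrix.toLin' ((((t : ↥(Cfsg.isometryGroup F (Cfsg.quadFormPlus m F))) : GL (Fin m ⊕ Fin m) F) : Matrix (Fin m ⊕ Fin m) (Fin m ⊕ Fin m) F) - 1)) ⊓ LinearMap.range (Matrix.toLin' ((((s : ↥(Cfsg.isometryGroup F (Cfsg.quadFormPlus m F))) : GL (Fin m ⊕ Fin m) F) : Matrix (Fin m ⊕ Fin m) (Fin m ⊕ Fin m) F) - 1)))))) := by
  have hN := H12.nondeg_QPlus (F := F) m
  have hG : H12.Good (H12.QPlus F m) :=
    H12.good_of_finrank_ne hN (by rw [H12.finrank_plus]; omega)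
  have hc := (H66.isConj_equiv_iff (H12.isoEquiv (H12.QPlus F m) (H12.QPlus_apply m)) t s).mpr hconj
  rw [H66.exists_Omega_conj_iff (H12.QPlus F m) (H12.QPlus_apply m),
    ← H66.altO_isoEquiv (H12.QPlus F m) (H12.QPlus_apply m),
    ← H66.rkO_isoEquiv (H12.QPlus F m) (H12.QPlus_apply m),
    ← H66.nO_isoEquiv (H12.QPlus F m) (H12.QPlus_apply m),
    ← H66.nO_isoEquiv (H12.QPlus F m) (H12.QPlus_apply m)]
  refine ⟨fun h => H66.exists_Om_conj_of_not_split hN hG (H66.mul_self_isoEquiv _ _ ht) hc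
    fun h' => h ⟨by have := h'.1; rw [H12.finrank_plus] at this; omega, h'.2⟩, fun h => ?_⟩
  have he := (H66.mem_Om_iff_rkO hN hG _).mp ((H66.mem_Omega_iff _ (H12.QPlus_apply m) t).mp htO)
  have hle := Submodule.finrank_mono (inf_le_left :
    LinearMap.range (H66.nO (H12.isoEquiv (H12.QPlus F m) (H12.QPlus_apply m) t)) ⊓
      LinearMap.range (H66.nO (H12.isoEquiv (H12.QPlus F m) (H12.QPlus_apply m) s)) ≤ _)
  rw [H66.exists_Om_conj_iff_of_split hN hG (H12.finrank_plus m) hc h.1 h.2,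
    Nat.even_sub (hle.trans h.1.le)]
  rw [h.1] at he
  simp only [he, true_iff]

end Cfsg.Agent.S2172
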