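import Cfsg.Statements.S2175
import Mathlib
import Cfsg.Agent.Lib.Chev.InvolTab

set_option autoImplicit false
open Cfsg

namespace Cfsg.Agent.S2175

theorem compat : H9.Compat H38.rsE6 H38.tabE6 :=
  ⟨by decide, fun _ _ => rfl, fun _ => rfl, fun _ _ => rfl⟩

/-- representatives -/
def reps : List (List ℕ) := [[71], [68, 66], [55, 65, 67]]

/-- the classification -/
def steps : List H9.Step :=
   [.br [] [] [] [] [] [0, 1, 2, 3, 4, 5],
    .br [71] [] [71] [] [71] [0, 2, 3, 4, 5],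
    .br [71, 60] [(23, [68, 66])] [68, 66] [] [68, 66] [2, 3, 4],
    .br [71, 60, 44] [(10, [55, 60, 67]), (24, [55, 65, 67])] [55, 65, 67] [] [55, 65, 67] [3],
    .red [71, 60, 44, 39] [71, 60, 44] [47, 25, 20, 8]]

theorem run : H9.runB Lie.chevE6 H38.tabE6 ([] :: reps) steps = true := by decide +kernel

/-- fixed vectors -/
def ker0 : List (ℕ × List ℕ) :=
  [(0, [0]), (2, [2]), (3, [3]), (4, [4]), (5, [5]), (17, [17]), (18, [18]), (19, [19]), (20, [20]), (21,
  [21]), (32, [32]), (33, [33]), (34, [34]), (35, [35]), (36, [36]), (37, [37]), (38, [38]), (39, [39]), (40,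
  [40]), (41, [41]), (42, [42]), (43, [43]), (44, [44]), (45, [45]), (46, [46]), (47, [47]), (48, [48]), (49,
  [49]), (50, [50]), (51, [51]), (52, [52]), (53, [53]), (54, [54]), (55, [55]), (56, [56]), (57, [57]), (58,
  [58]), (59, [59]), (60, [60]), (61, [61]), (62, [62]), (63, [63]), (64, [64]), (65, [65]), (66, [66]), (67,
  [67]), (68, [68]), (69, [69]), (70, [70]), (71, [71]), (72, [72]), (73, [73]), (74, [74]), (75, [75]), (76,
  [76]), (77, [77])]

/-- commutators -/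
def im0 : List ((ℕ × List ℕ) × List ℕ) :=
  [((77, [77]), [1]), ((52, [52]), [7]), ((53, [53]), [8]), ((54, [54]), [9]), ((55, [55]), [10]), ((56,
  [56]), [11]), ((57, [57]), [12]), ((58, [58]), [13]), ((59, [59]), [14]), ((60, [60]), [15]), ((61, [61]),
  [16]), ((67, [67]), [22]), ((68, [68]), [23]), ((69, [69]), [24]), ((70, [70]), [25]), ((71, [71]), [26]),
  ((72, [72]), [27]), ((73, [73]), [28]), ((74, [74]), [29]), ((75, [75]), [30]), ((76, [76]), [31]), ((5, [0,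
  3, 5]), [1, 6])]

theorem rank0 {F : Type*} [Field F] (h : (2 : F) = 0) :
    (H9.wM Lie.chevE6 F [71] - 1).rank = 22 := by
  have h1 := H9.rank_le H37.tabE6 h (L := [71]) (K := ker0) (by decide +kernel)
  have h2 := H9.le_rank H37.tabE6 h (L := [71]) (I := im0) (by decide +kernel)
  change _ + 56 ≤ 78 at h1
  change 22 ≤ _ at h2
  omega

/-- fixed vectors -/
def ker1 : List (ℕ × List ℕ) :=
  [(1, [1]), (3, [3]), (24, [24]), (26, [26]), (30, [30]), (31, [31]), (33, [33]), (38, [38]), (42, [42]),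
  (44, [44]), (45, [45]), (47, [47]), (50, [50]), (51, [51]), (52, [52]), (53, [53]), (55, [55]), (57, [57]),
  (58, [58]), (59, [59]), (60, [60]), (61, [61]), (62, [62]), (63, [63]), (64, [64]), (65, [65]), (66, [66]),
  (67, [67]), (68, [68]), (69, [69]), (70, [70]), (71, [71]), (72, [72]), (73, [73]), (74, [74]), (75, [75]),
  (76, [76]), (77, [77]), (29, [27, 29]), (37, [34, 37]), (40, [35, 40]), (48, [43, 48]), (49, [46, 49]), (56,
  [54, 56]), (2, [0, 2, 5]), (4, [0, 4, 5])]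

/-- commutators -/
def im1 : List ((ℕ × List ℕ) × List ℕ) :=
  [((72, [72]), [0]), ((74, [74]), [5]), ((42, [42]), [10]), ((44, [44]), [13]), ((47, [47]), [15]), ((51,
  [51]), [16]), ((55, [55]), [18]), ((58, [58]), [19]), ((60, [60]), [20]), ((61, [61]), [21]), ((62, [62]),
  [22]), ((63, [63]), [23]), ((64, [64]), [25]), ((66, [66]), [27]), ((65, [65]), [28]), ((67, [67]), [32]),
  ((69, [69]), [34]), ((71, [71]), [35]), ((68, [68]), [36]), ((70, [70]), [39]), ((73, [73]), [41]), ((75,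
  [75]), [43]), ((76, [76]), [46]), ((77, [77]), [54]), ((29, [27, 29]), [6, 27]), ((37, [34, 37]), [7, 34]),
  ((40, [35, 40]), [8, 35]), ((48, [43, 48]), [12, 43]), ((49, [46, 49]), [14, 46]), ((56, [54, 56]), [17,
  54]), ((5, [0, 1, 4, 5]), [5, 9]), ((4, [2, 4]), [0, 5, 9, 11])]

theorem rank1 {F : Type*} [Field F] (h : (2 : F) = 0) :
    (H9.wM Lie.chevE6 F [68, 66] - 1).rank = 32 := by
  have h1 := H9.rank_le H37.tabE6 h (L := [68, 66]) (K := ker1) (by decide +kernel)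
  have h2 := H9.le_rank H37.tabE6 h (L := [68, 66]) (I := im1) (by decide +kernel)
  change _ + 46 ≤ 78 at h1
  change 32 ≤ _ at h2
  omega

/-- fixed vectors -/
def ker2 : List (ℕ × List ℕ) :=
  [(1, [1]), (31, [31]), (45, [45]), (46, [46]), (49, [49]), (51, [51]), (52, [52]), (53, [53]), (54, [54]),
  (56, [56]), (58, [58]), (59, [59]), (60, [60]), (61, [61]), (65, [65]), (66, [66]), (68, [68]), (69, [69]),
  (70, [70]), (71, [71]), (72, [72]), (73, [73]), (74, [74]), (75, [75]), (76, [76]), (77, [77]), (39, [20,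
  39]), (40, [21, 40]), (41, [35, 41]), (48, [42, 48]), (50, [47, 50]), (57, [55, 57]), (62, [43, 62]), (63,
  [44, 63]), (64, [47, 64]), (67, [55, 67]), (4, [0, 4]), (5, [2, 5]), (28, [16, 26, 28, 47]), (36, [19, 33,
  36, 55])]

/-- commutators -/
def im2 : List ((ℕ × List ℕ) × List ℕ) :=
  [((71, [71]), [3]), ((45, [45]), [14]), ((49, [49]), [15]), ((53, [53]), [17]), ((56, [56]), [18]), ((59,
  [59]), [20]), ((60, [60]), [21]), ((46, [46]), [25]), ((65, [65]), [27]), ((51, [51]), [29]), ((66, [66]),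
  [30]), ((54, [54]), [32]), ((68, [68]), [34]), ((70, [70]), [35]), ((58, [58]), [37]), ((69, [69]), [38]),
  ((74, [74]), [42]), ((72, [72]), [43]), ((75, [75]), [44]), ((76, [76]), [47]), ((77, [77]), [55]), ((61,
  [61]), [0, 3]), ((73, [73]), [2, 3]), ((39, [20, 39]), [8, 20]), ((41, [35, 41]), [9, 35]), ((40, [21, 40]),
  [11, 21]), ((48, [42, 48]), [13, 42]), ((50, [47, 50]), [16, 47]), ((57, [55, 57]), [19, 55]), ((62, [43,
  62]), [23, 43]), ((63, [44, 63]), [24, 44]), ((64, [47, 64]), [26, 47]), ((67, [55, 67]), [33, 55]), ((4,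
  [0, 1, 4]), [2, 3, 10]), ((5, [1, 2, 5]), [0, 3, 22]), ((1, [1]), [0, 2, 3, 10, 12, 22]), ((47, [16, 26, 28,
  47]), [6, 16, 26, 47]), ((55, [19, 33, 36, 55]), [7, 19, 33, 55])]

theorem rank2 {F : Type*} [Field F] (h : (2 : F) = 0) :
    (H9.wM Lie.chevE6 F [55, 65, 67] - 1).rank = 38 := by
  have h1 := H9.rank_le H37.tabE6 h (L := [55, 65, 67]) (K := ker2) (by decide +kernel)
  have h2 := H9.le_rank H37.tabE6 h (L := [55, 65, 67]) (I := im2) (by decide +kernel)
  change _ + 40 ≤ 78 at h1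
  change 38 ≤ _ at h2
  omega

/-- Conjugacy classes of involutions in the Chevalley group of type E₆ over a finite field F of characteristic two (the matrix group generated by the root elements x_r(t)). In this problem's root numbering for type E₆ (the Chevalley data module; fundamental roots numbered so that p₁–p₃–p₄–p₅–p₆ is the long chain of the diagram and p₂ is joined to p₄; roots indexed by their coefficient vectors in increasing order) let r = 71 be the highest root (1,2,2,3,2,1), α = 68 = (1,1,2,2,1,1), β = 66 = (1,1,1,2,2,1), γ = 55 = (0,1,1,2,2,1), δ = 65 = (1,1,1,2,1,1), ε = 67 = (1,1,2,2,1,0) (α ⊥ β and γ, δ, ε pairwise orthogonal); consider x_r(1), x_α(1)x_β(1) and x_γ(1)x_δ(1)x_ε(1). Then: each invertible matrix equal to one of these three products lies in the group and has order 2; every element of order 2 of the group is conjugate in the group to one of them; and no two of them are conjugate in the group (so, the three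 matrices being distinct, the group has exactly three conjugacy classes of involutions). -/
theorem result {F : Type*} [Field F] [Fintype F] [CharP F 2] :
    (∀ y : GL Cfsg.Lie.chevE6.Idx F, ((y : GL Cfsg.Lie.chevE6.Idx F) : Matrix Cfsg.Lie.chevE6.Idx Cfsg.Lie.chevE6.Idx F) ∈ [Cfsg.Lie.chevE6.x F 71 1, Cfsg.Lie.chevE6.x F 68 1 * Cfsg.Lie.chevE6.x F 66 1, Cfsg.Lie.chevE6.x F 55 1 * Cfsg.Lie.chevE6.x F 65 1 * Cfsg.Lie.chevE6.x F 67 1] → y ∈ Cfsg.Lie.chevE6.group F ∧ orderOf y = 2) ∧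
    (∀ g ∈ Cfsg.Lie.chevE6.group F, orderOf g = 2 → ∃ y ∈ Cfsg.Lie.chevE6.group F, ((y : GL Cfsg.Lie.chevE6.Idx F) : Matrix Cfsg.Lie.chevE6.Idx Cfsg.Lie.chevE6.Idx F) ∈ [Cfsg.Lie.chevE6.x F 71 1, Cfsg.Lie.chevE6.x F 68 1 * Cfsg.Lie.chevE6.x F 66 1, Cfsg.Lie.chevE6.x F 55 1 * Cfsg.Lie.chevE6.x F 65 1 * Cfsg.Lie.chevE6.x F 67 1] ∧ ∃ h ∈ Cfsg.Lie.chevE6.group F, h * g * h⁻¹ = y) ∧
    (∀ y₁ ∈ Cfsg.Lie.chevE6.group F, ∀ y₂ ∈ Cfsg.Lie.chevE6.group F, ((y₁ : GL Cfsg.Lie.chevE6.Idx F) : Matrix Cfsg.Lie.chevE6.Idx Cfsg.Lie.chevE6.Idx F) ∈ [Cfsg.Lie.chevE6.x F 71 1, Cfsg.Lie.chevE6.x F 68 1 * Cfsg.Lie.chevE6.x F 66 1, Cfsg.Lie.chevE6.x F 55 1 * Cfsg.Lie.chevE6.x F 65 1 * Cfsg.Lie.chevE6.x F 67 1] → ((y₂ : GL Cfsg.Lie.chevE6.Idx F) : Matrix Cfsg.Lie.chevE6.Idx Cfsg.Lie.chevE6.Idx F) ∈ [Cfsg.Lie.chevE6.x F 71 1, Cfsg.Lie.chevE6.x F 68 1 * Cfsg.Lie.chevE6.x F 66 1, Cfsg.Lie.chevE6.x F 55 1 * Cfsg.Lie.chevE6.x F 65 1 * Cfsg.Lie.chevE6.x F 67 1] →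
      (∃ h ∈ Cfsg.Lie.chevE6.group F, h * y₁ * h⁻¹ = y₂) → ((y₁ : GL Cfsg.Lie.chevE6.Idx F) : Matrix Cfsg.Lie.chevE6.Idx Cfsg.Lie.chevE6.Idx F) = ((y₂ : GL Cfsg.Lie.chevE6.Idx F) : Matrix Cfsg.Lie.chevE6.Idx Cfsg.Lie.chevE6.Idx F)) := by
  have h2 : (2 : F) = 0 := CharTwo.two_eq_zero
  obtain ⟨E, hE⟩ := (H38.matFacts (D := Lie.chevE6) (by simp) F).exists_isMat H38.rsE6
  have h := compat.two_of_len hE h2 (by decide +kernel)
  have h1 : ∀ L ∈ reps, H9.ltB Lie.chevE6 L = true := by decide +kernel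
  have h3 : ∀ L ∈ reps, H9.orthB Lie.chevE6 H38.tabE6 L = true := by decide +kernel
  have h4 : ∀ L ∈ reps, orderOf (compat.y hE L) = 2 := by
    intro L hL
    refine compat.orderOf_y hE h (h1 L hL) (h3 L hL) ?_
    simp only [reps, List.mem_cons, List.not_mem_nil, or_false] at hL
    rcases hL with rfl | rfl | rfl <;> simp only [rank0 h2, rank1 h2, rank2 h2] <;> omega
  have h5 : ∀ L ∈ reps, ∀ M ∈ reps, IsConj (compat.y hE L) (compat.y hE M) → L = M := by
    intro L hL M hM e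
    have := compat.rank_eq hE (h1 L hL) (h1 M hM) e
    simp only [reps, List.mem_cons, List.not_mem_nil, or_false] at hL hM
    rcases hL with rfl | rfl | rfl <;> rcases hM with rfl | rfl | rfl <;>
      first | rfl | (simp only [rank0 h2, rank1 h2, rank2 h2] at this; omega)
  have h6 := fun g => compat.classify hE H37.tabE6 h (g := g) run (by decide)
  exact compat.final hE (by simp [reps, H9.wM, H9.one1, Lie.ChevalleyDatum.wordMat, mul_assoc]) h1 h4 h6 h5

end Cfsg.Agent.S2175
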