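import Cfsg.Statements.S2181
import Mathlib
import Cfsg.Agent.Lib.Chev.InvolTab

set_option autoImplicit false
open Cfsg

namespace Cfsg.Agent.S2181

theorem compat : H9.Compat H38.rsE7 H38.tabE7 :=
  ⟨by decide, fun _ _ => rfl, fun _ => rfl, fun _ _ => rfl⟩

/-- representatives -/
def reps : List (List ℕ) := [[125], [125, 92], [125, 92, 63], [125, 92, 87], [125, 92, 63, 87]]

/-- the classification -/
def steps : List H9.Step :=
   [.br [] [] [] [] [] [0, 1, 2, 3, 4, 5, 6],
    .br [125] [] [125] [] [125] [1, 2, 3, 4, 5, 6],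
    .br [125, 92] [] [125, 92] [] [125, 92] [1, 2, 3, 4, 6],
    .br [125, 92, 87] [] [125, 92, 87] [] [125, 92, 87] [1, 2, 4, 6],
    .tr [125, 92, 87, 78] [92, 87, 78, 125] [] [(16, [124, 31, 78, 108]), (32, [125, 52, 78, 92]), (39, [125, 82, 48, 71]), (49, [125, 92, 62, 52]), (62, [125, 92, 63, 52]), (41, [125, 92, 63, 80]), (51, [125, 92, 63, 87])] [125, 92, 63, 87],
    .tr [125, 92, 87, 66] [125, 87, 66, 92] [] [(57, [125, 91, 60, 88]), (61, [125, 92, 62, 87]), (62, [125, 92, 63, 87])] [125, 92, 63, 87],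
    .tr [125, 92, 87, 63] [125, 92, 63, 87] [] [] [125, 92, 63, 87],
    .tr [125, 92, 87, 73] [125, 92, 87, 73] [] [(16, [108, 124, 31, 22]), (32, [92, 125, 52, 38]), (6, [92, 98, 52, 101]), (28, [92, 63, 52, 78]), (41, [92, 63, 80, 50]), (51, [92, 63, 87, 59]), (59, [92, 63, 87, 66])] [92, 63, 87, 66],
    .br [125, 92, 63] [] [125, 92, 63] [] [125, 92, 63] [1, 2, 3, 4],
    .br [125, 92, 63, 87] [] [125, 92, 63, 87] [] [125, 92, 63, 87] [1, 2, 4],
    .tr [125, 92, 63, 87, 78] [125, 63, 87, 78] [92] [(16, [108, 63, 31, 78]), (32, [92, 63, 52, 78]), (41, [92, 63, 80, 50]), (51, [92, 63, 87, 59]), (59, [92, 63, 87, 66])] [92, 63, 87, 66],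
    .tr [125, 92, 63, 87, 73] [125, 92, 87, 73] [63] [(16, [108, 124, 31, 22]), (32, [92, 125, 52, 38]), (6, [92, 98, 52, 101]), (28, [92, 63, 52, 78]), (41, [92, 63, 80, 50]), (51, [92, 63, 87, 59]), (59, [92, 63, 87, 66])] [92, 63, 87, 66],
    .tr [125, 92, 63, 87, 66] [92, 63, 87, 66] [125] [] [92, 63, 87, 66],
    .red [92, 63, 87, 66] [92, 63, 87] [67, 61, 60, 37]]

theorem run : H9.runB Lie.chevE7 H38.tabE7 ([] :: reps) steps = true := by decide +kernel

/-- fixed vectors -/
def ker0 : List (ℕ × List ℕ) :=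
  [(1, [1]), (2, [2]), (3, [3]), (4, [4]), (5, [5]), (6, [6]), (40, [40]), (41, [41]), (42, [42]), (43, [43]),
  (44, [44]), (45, [45]), (46, [46]), (47, [47]), (48, [48]), (49, [49]), (50, [50]), (51, [51]), (52, [52]),
  (53, [53]), (54, [54]), (55, [55]), (56, [56]), (57, [57]), (58, [58]), (59, [59]), (60, [60]), (61, [61]),
  (62, [62]), (63, [63]), (64, [64]), (65, [65]), (66, [66]), (67, [67]), (68, [68]), (69, [69]), (70, [70]),
  (71, [71]), (72, [72]), (73, [73]), (74, [74]), (75, [75]), (76, [76]), (77, [77]), (78, [78]), (79, [79]),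
  (80, [80]), (81, [81]), (82, [82]), (83, [83]), (84, [84]), (85, [85]), (86, [86]), (87, [87]), (88, [88]),
  (89, [89]), (90, [90]), (91, [91]), (92, [92]), (93, [93]), (94, [94]), (95, [95]), (96, [96]), (97, [97]),
  (98, [98]), (99, [99]), (100, [100]), (101, [101]), (102, [102]), (103, [103]), (104, [104]), (105, [105]),
  (106, [106]), (107, [107]), (108, [108]), (109, [109]), (110, [110]), (111, [111]), (112, [112]), (113,
  [113]), (114, [114]), (115, [115]), (116, [116]), (117, [117]), (118, [118]), (119, [119]), (120, [120]),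
  (121, [121]), (122, [122]), (123, [123]), (124, [124]), (125, [125]), (126, [126]), (127, [127]), (128,
  [128]), (129, [129]), (130, [130]), (131, [131]), (132, [132])]

/-- commutators -/
def im0 : List ((ℕ × List ℕ) × List ℕ) :=
  [((132, [132]), [0]), ((100, [100]), [8]), ((101, [101]), [9]), ((102, [102]), [10]), ((103, [103]), [11]),
  ((104, [104]), [12]), ((105, [105]), [13]), ((106, [106]), [14]), ((107, [107]), [15]), ((108, [108]),
  [16]), ((109, [109]), [17]), ((110, [110]), [18]), ((111, [111]), [19]), ((112, [112]), [20]), ((113,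
  [113]), [21]), ((114, [114]), [22]), ((115, [115]), [23]), ((116, [116]), [24]), ((117, [117]), [25]),
  ((118, [118]), [26]), ((119, [119]), [27]), ((120, [120]), [28]), ((121, [121]), [29]), ((122, [122]),
  [30]), ((123, [123]), [31]), ((124, [124]), [32]), ((125, [125]), [33]), ((126, [126]), [34]), ((127,
  [127]), [35]), ((128, [128]), [36]), ((129, [129]), [37]), ((130, [130]), [38]), ((131, [131]), [39]), ((6,
  [2, 4, 6]), [0, 7])]

theorem rank0 {F : Type*} [Field F] (h : (2 : F) = 0) :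
    (H9.wM Lie.chevE7 F [125] - 1).rank = 34 := by
  have h1 := H9.rank_le H37.tabE7 h (L := [125]) (K := ker0) (by decide +kernel)
  have h2 := H9.le_rank H37.tabE7 h (L := [125]) (I := im0) (by decide +kernel)
  change _ + 99 ≤ 133 at h1
  change 34 ≤ _ at h2
  omega

/-- fixed vectors -/
def ker1 : List (ℕ × List ℕ) :=
  [(1, [1]), (2, [2]), (3, [3]), (4, [4]), (6, [6]), (45, [45]), (48, [48]), (49, [49]), (52, [52]), (53,
  [53]), (54, [54]), (57, [57]), (58, [58]), (59, [59]), (62, [62]), (63, [63]), (66, [66]), (69, [69]), (70,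
  [70]), (71, [71]), (72, [72]), (73, [73]), (74, [74]), (75, [75]), (76, [76]), (77, [77]), (78, [78]), (79,
  [79]), (80, [80]), (81, [81]), (82, [82]), (83, [83]), (84, [84]), (85, [85]), (86, [86]), (87, [87]), (88,
  [88]), (89, [89]), (90, [90]), (91, [91]), (92, [92]), (93, [93]), (94, [94]), (95, [95]), (96, [96]), (97,
  [97]), (98, [98]), (99, [99]), (104, [104]), (105, [105]), (108, [108]), (109, [109]), (111, [111]), (112,
  [112]), (113, [113]), (114, [114]), (115, [115]), (117, [117]), (118, [118]), (119, [119]), (120, [120]),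
  (121, [121]), (122, [122]), (123, [123]), (124, [124]), (125, [125]), (126, [126]), (127, [127]), (128,
  [128]), (129, [129]), (130, [130]), (131, [131]), (132, [132]), (100, [23, 100]), (101, [29, 101]), (102,
  [32, 102]), (103, [33, 103]), (106, [36, 106]), (107, [37, 107]), (110, [38, 110]), (116, [39, 116])]

/-- commutators -/
def im1 : List ((ℕ × List ℕ) × List ℕ) :=
  [((99, [99]), [5]), ((104, [104]), [12]), ((105, [105]), [13]), ((108, [108]), [16]), ((109, [109]), [17]),
  ((111, [111]), [19]), ((112, [112]), [20]), ((113, [113]), [21]), ((114, [114]), [22]), ((115, [115]),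
  [23]), ((117, [117]), [25]), ((118, [118]), [26]), ((119, [119]), [27]), ((120, [120]), [28]), ((121,
  [121]), [29]), ((122, [122]), [30]), ((123, [123]), [31]), ((124, [124]), [32]), ((125, [125]), [33]),
  ((126, [126]), [34]), ((127, [127]), [35]), ((128, [128]), [36]), ((129, [129]), [37]), ((130, [130]),
  [38]), ((131, [131]), [39]), ((71, [71]), [41]), ((72, [72]), [42]), ((74, [74]), [43]), ((75, [75]), [44]),
  ((78, [78]), [46]), ((79, [79]), [47]), ((83, [83]), [50]), ((84, [84]), [51]), ((88, [88]), [55]), ((89,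
  [89]), [56]), ((92, [92]), [60]), ((93, [93]), [61]), ((95, [95]), [64]), ((96, [96]), [65]), ((97, [97]),
  [67]), ((98, [98]), [68]), ((132, [132]), [0, 5]), ((100, [23, 100]), [8, 23]), ((101, [29, 101]), [9, 29]),
  ((102, [32, 102]), [10, 32]), ((103, [33, 103]), [11, 33]), ((106, [36, 106]), [14, 36]), ((107, [37, 107]),
  [15, 37]), ((110, [38, 110]), [18, 38]), ((116, [39, 116]), [24, 39]), ((6, [2, 4, 6]), [0, 5, 7]), ((4, [1,
  4]), [0, 7, 40])]

theorem rank1 {F : Type*} [Field F] (h : (2 : F) = 0) :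
    (H9.wM Lie.chevE7 F [125, 92] - 1).rank = 52 := by
  have h1 := H9.rank_le H37.tabE7 h (L := [125, 92]) (K := ker1) (by decide +kernel)
  have h2 := H9.le_rank H37.tabE7 h (L := [125, 92]) (I := im1) (by decide +kernel)
  change _ + 81 ≤ 133 at h1
  change 52 ≤ _ at h2
  omega

/-- fixed vectors -/
def ker2 : List (ℕ × List ℕ) :=
  [(1, [1]), (2, [2]), (3, [3]), (4, [4]), (6, [6]), (45, [45]), (48, [48]), (49, [49]), (52, [52]), (53,
  [53]), (54, [54]), (57, [57]), (58, [58]), (59, [59]), (62, [62]), (63, [63]), (66, [66]), (70, [70]), (72,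
  [72]), (73, [73]), (75, [75]), (76, [76]), (77, [77]), (79, [79]), (80, [80]), (81, [81]), (82, [82]), (84,
  [84]), (85, [85]), (86, [86]), (87, [87]), (89, [89]), (90, [90]), (91, [91]), (93, [93]), (94, [94]), (96,
  [96]), (98, [98]), (99, [99]), (105, [105]), (109, [109]), (112, [112]), (114, [114]), (115, [115]), (118,
  [118]), (120, [120]), (121, [121]), (123, [123]), (124, [124]), (125, [125]), (127, [127]), (128, [128]),
  (129, [129]), (130, [130]), (131, [131]), (132, [132]), (71, [42, 71]), (74, [44, 74]), (78, [47, 78]), (83,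
  [51, 83]), (88, [56, 88]), (92, [61, 92]), (95, [65, 95]), (97, [68, 97]), (100, [23, 100]), (101, [29,
  101]), (102, [32, 102]), (103, [33, 103]), (104, [13, 104]), (106, [36, 106]), (107, [37, 107]), (108, [17,
  108]), (110, [38, 110]), (111, [20, 111]), (113, [22, 113]), (116, [39, 116]), (117, [26, 117]), (119, [28,
  119]), (122, [31, 122]), (126, [35, 126])]

/-- commutators -/
def im2 : List ((ℕ × List ℕ) × List ℕ) :=
  [((105, [105]), [13]), ((109, [109]), [17]), ((112, [112]), [20]), ((114, [114]), [22]), ((115, [115]),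
  [23]), ((118, [118]), [26]), ((120, [120]), [28]), ((121, [121]), [29]), ((123, [123]), [31]), ((124,
  [124]), [32]), ((125, [125]), [33]), ((127, [127]), [35]), ((128, [128]), [36]), ((129, [129]), [37]),
  ((130, [130]), [38]), ((131, [131]), [39]), ((72, [72]), [42]), ((75, [75]), [44]), ((79, [79]), [47]),
  ((84, [84]), [51]), ((89, [89]), [56]), ((93, [93]), [61]), ((96, [96]), [65]), ((98, [98]), [68]), ((132,
  [99, 132]), [0]), ((99, [70, 99]), [5]), ((70, [6, 70]), [69]), ((100, [23, 100]), [8, 23]), ((101, [29,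
  101]), [9, 29]), ((102, [32, 102]), [10, 32]), ((103, [33, 103]), [11, 33]), ((104, [13, 104]), [12, 13]),
  ((106, [36, 106]), [14, 36]), ((107, [37, 107]), [15, 37]), ((108, [17, 108]), [16, 17]), ((110, [38, 110]),
  [18, 38]), ((111, [20, 111]), [19, 20]), ((113, [22, 113]), [21, 22]), ((116, [39, 116]), [24, 39]), ((117,
  [26, 117]), [25, 26]), ((119, [28, 119]), [27, 28]), ((122, [31, 122]), [30, 31]), ((126, [35, 126]), [34,
  35]), ((71, [42, 71]), [41, 42]), ((74, [44, 74]), [43, 44]), ((78, [47, 78]), [46, 47]), ((83, [51, 83]),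
  [50, 51]), ((88, [56, 88]), [55, 56]), ((92, [61, 92]), [60, 61]), ((95, [65, 95]), [64, 65]), ((97, [68,
  97]), [67, 68]), ((4, [2, 4]), [0, 5, 7, 69]), ((2, [1, 2]), [5, 40, 69])]

theorem rank2 {F : Type*} [Field F] (h : (2 : F) = 0) :
    (H9.wM Lie.chevE7 F [125, 92, 63] - 1).rank = 53 := by
  have h1 := H9.rank_le H37.tabE7 h (L := [125, 92, 63]) (K := ker2) (by decide +kernel)
  have h2 := H9.le_rank H37.tabE7 h (L := [125, 92, 63]) (I := im2) (by decide +kernel)
  change _ + 80 ≤ 133 at h1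
  change 53 ≤ _ at h2
  omega

/-- fixed vectors -/
def ker3 : List (ℕ × List ℕ) :=
  [(1, [1]), (2, [2]), (4, [4]), (6, [6]), (54, [54]), (59, [59]), (66, [66]), (69, [69]), (70, [70]), (73,
  [73]), (76, [76]), (77, [77]), (78, [78]), (79, [79]), (80, [80]), (81, [81]), (82, [82]), (83, [83]), (84,
  [84]), (85, [85]), (86, [86]), (87, [87]), (88, [88]), (89, [89]), (90, [90]), (91, [91]), (92, [92]), (93,
  [93]), (94, [94]), (95, [95]), (96, [96]), (97, [97]), (98, [98]), (99, [99]), (111, [111]), (112, [112]),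
  (113, [113]), (114, [114]), (117, [117]), (118, [118]), (119, [119]), (120, [120]), (122, [122]), (123,
  [123]), (124, [124]), (125, [125]), (126, [126]), (127, [127]), (128, [128]), (129, [129]), (130, [130]),
  (131, [131]), (132, [132]), (71, [64, 71]), (72, [65, 72]), (74, [67, 74]), (75, [68, 75]), (102, [32,
  102]), (103, [33, 103]), (104, [30, 104]), (105, [31, 105]), (106, [36, 106]), (107, [37, 107]), (108, [34,
  108]), (109, [35, 109]), (110, [38, 110]), (115, [38, 115]), (116, [39, 116]), (121, [39, 121]), (100, [18,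
  23, 38, 100]), (101, [24, 29, 39, 101])]

/-- commutators -/
def im3 : List ((ℕ × List ℕ) × List ℕ) :=
  [((94, [94]), [3]), ((111, [111]), [19]), ((112, [112]), [20]), ((113, [113]), [21]), ((114, [114]), [22]),
  ((117, [117]), [25]), ((118, [118]), [26]), ((119, [119]), [27]), ((120, [120]), [28]), ((122, [122]),
  [30]), ((123, [123]), [31]), ((124, [124]), [32]), ((125, [125]), [33]), ((126, [126]), [34]), ((127,
  [127]), [35]), ((128, [128]), [36]), ((129, [129]), [37]), ((130, [130]), [38]), ((131, [131]), [39]), ((78,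
  [78]), [46]), ((79, [79]), [47]), ((76, [76]), [48]), ((77, [77]), [49]), ((83, [83]), [50]), ((84, [84]),
  [51]), ((81, [81]), [52]), ((82, [82]), [53]), ((88, [88]), [55]), ((89, [89]), [56]), ((86, [86]), [57]),
  ((87, [87]), [58]), ((92, [92]), [60]), ((93, [93]), [61]), ((90, [90]), [62]), ((91, [91]), [63]), ((95,
  [95]), [64]), ((96, [96]), [65]), ((97, [97]), [67]), ((98, [98]), [68]), ((99, [99]), [3, 5]), ((132,
  [132]), [0, 5]), ((102, [32, 102]), [10, 32]), ((103, [33, 103]), [11, 33]), ((104, [30, 104]), [12, 30]),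
  ((105, [31, 105]), [13, 31]), ((106, [36, 106]), [14, 36]), ((107, [37, 107]), [15, 37]), ((108, [34, 108]),
  [16, 34]), ((109, [35, 109]), [17, 35]), ((110, [38, 110]), [18, 38]), ((115, [38, 115]), [23, 38]), ((116,
  [39, 116]), [24, 39]), ((121, [39, 121]), [29, 39]), ((71, [64, 71]), [41, 64]), ((72, [65, 72]), [42, 65]),
  ((74, [67, 74]), [43, 67]), ((75, [68, 75]), [44, 68]), ((6, [2, 4, 6]), [0, 5, 7]), ((4, [1, 4]), [0, 3, 7,
  40]), ((2, [2]), [0, 7, 40, 45]), ((100, [18, 23, 38, 100]), [8, 18, 23, 38]), ((101, [24, 29, 39, 101]),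
  [9, 24, 29, 39])]

theorem rank3 {F : Type*} [Field F] (h : (2 : F) = 0) :
    (H9.wM Lie.chevE7 F [125, 92, 87] - 1).rank = 62 := by
  have h1 := H9.rank_le H37.tabE7 h (L := [125, 92, 87]) (K := ker3) (by decide +kernel)
  have h2 := H9.le_rank H37.tabE7 h (L := [125, 92, 87]) (I := im3) (by decide +kernel)
  change _ + 71 ≤ 133 at h1
  change 62 ≤ _ at h2
  omega

/-- fixed vectors -/
def ker4 : List (ℕ × List ℕ) :=
  [(1, [1]), (2, [2]), (4, [4]), (6, [6]), (54, [54]), (59, [59]), (66, [66]), (70, [70]), (73, [73]), (76,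
  [76]), (77, [77]), (79, [79]), (80, [80]), (81, [81]), (82, [82]), (84, [84]), (85, [85]), (86, [86]), (87,
  [87]), (89, [89]), (90, [90]), (91, [91]), (93, [93]), (94, [94]), (96, [96]), (98, [98]), (99, [99]), (112,
  [112]), (114, [114]), (118, [118]), (120, [120]), (123, [123]), (124, [124]), (125, [125]), (127, [127]),
  (128, [128]), (129, [129]), (130, [130]), (131, [131]), (132, [132]), (72, [65, 72]), (75, [68, 75]), (78,
  [47, 78]), (83, [51, 83]), (88, [56, 88]), (92, [61, 92]), (95, [65, 95]), (97, [68, 97]), (102, [32, 102]),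
  (103, [33, 103]), (105, [31, 105]), (106, [36, 106]), (107, [37, 107]), (109, [35, 109]), (110, [38, 110]),
  (111, [20, 111]), (113, [22, 113]), (115, [38, 115]), (116, [39, 116]), (117, [26, 117]), (119, [28, 119]),
  (121, [39, 121]), (122, [31, 122]), (126, [35, 126]), (71, [42, 64, 65, 71]), (74, [44, 67, 68, 74]), (100,
  [18, 23, 38, 100]), (101, [24, 29, 39, 101]), (104, [13, 30, 31, 104]), (108, [17, 34, 35, 108])]

/-- commutators -/
def im4 : List ((ℕ × List ℕ) × List ℕ) :=
  [((94, [94]), [3]), ((112, [112]), [20]), ((114, [114]), [22]), ((118, [118]), [26]), ((120, [120]), [28]),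
  ((123, [123]), [31]), ((124, [124]), [32]), ((125, [125]), [33]), ((127, [127]), [35]), ((128, [128]),
  [36]), ((129, [129]), [37]), ((130, [130]), [38]), ((131, [131]), [39]), ((79, [79]), [47]), ((76, [76]),
  [48]), ((77, [77]), [49]), ((84, [84]), [51]), ((81, [81]), [52]), ((82, [82]), [53]), ((89, [89]), [56]),
  ((86, [86]), [57]), ((87, [87]), [58]), ((93, [93]), [61]), ((90, [90]), [62]), ((91, [91]), [63]), ((96,
  [96]), [65]), ((98, [98]), [68]), ((70, [6, 70]), [69]), ((132, [99, 132]), [0, 3]), ((99, [6, 99]), [3, 5,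
  69]), ((102, [32, 102]), [10, 32]), ((103, [33, 103]), [11, 33]), ((105, [31, 105]), [13, 31]), ((106, [36,
  106]), [14, 36]), ((107, [37, 107]), [15, 37]), ((109, [35, 109]), [17, 35]), ((110, [38, 110]), [18, 38]),
  ((111, [20, 111]), [19, 20]), ((113, [22, 113]), [21, 22]), ((115, [38, 115]), [23, 38]), ((116, [39, 116]),
  [24, 39]), ((117, [26, 117]), [25, 26]), ((119, [28, 119]), [27, 28]), ((121, [39, 121]), [29, 39]), ((122,
  [31, 122]), [30, 31]), ((126, [35, 126]), [34, 35]), ((72, [65, 72]), [42, 65]), ((75, [68, 75]), [44, 68]),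
  ((78, [47, 78]), [46, 47]), ((83, [51, 83]), [50, 51]), ((88, [56, 88]), [55, 56]), ((92, [61, 92]), [60,
  61]), ((95, [65, 95]), [64, 65]), ((97, [68, 97]), [67, 68]), ((4, [2, 4]), [0, 5, 7, 69]), ((2, [1, 2]),
  [3, 5, 40, 69]), ((1, [1]), [0, 3, 5, 7, 45, 69]), ((100, [18, 23, 38, 100]), [8, 18, 23, 38]), ((101, [24,
  29, 39, 101]), [9, 24, 29, 39]), ((104, [13, 30, 31, 104]), [12, 13, 30, 31]), ((108, [17, 34, 35, 108]),
  [16, 17, 34, 35]), ((71, [42, 64, 65, 71]), [41, 42, 64, 65]), ((74, [44, 67, 68, 74]), [43, 44, 67, 68])]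

theorem rank4 {F : Type*} [Field F] (h : (2 : F) = 0) :
    (H9.wM Lie.chevE7 F [125, 92, 63, 87] - 1).rank = 63 := by
  have h1 := H9.rank_le H37.tabE7 h (L := [125, 92, 63, 87]) (K := ker4) (by decide +kernel)
  have h2 := H9.le_rank H37.tabE7 h (L := [125, 92, 63, 87]) (I := im4) (by decide +kernel)
  change _ + 70 ≤ 133 at h1
  change 63 ≤ _ at h2
  omega

/-- The Chevalley group of type E₇ over a finite field of characteristic two (the matrix group generated by the root elements) has exactly five conjugacy classes of elements of order 2. -/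
theorem result {F : Type*} [Field F] [Fintype F] [CharP F 2] :
    (ConjClasses.mk '' {g : ↥(Cfsg.Lie.chevE7.group F) | orderOf g = 2}).ncard = 5 := by
  have h2 : (2 : F) = 0 := CharTwo.two_eq_zero
  obtain ⟨E, hE⟩ := (H38.matFacts (D := Lie.chevE7) (by simp) F).exists_isMat H38.rsE7
  have h := compat.two_of_len hE h2 (by decide +kernel)
  have h1 : ∀ L ∈ reps, H9.ltB Lie.chevE7 L = true := by decide +kernel
  have h3 : ∀ L ∈ reps, H9.orthB Lie.chevE7 H38.tabE7 L = true := by decide +kernel
  have h4 : ∀ L ∈ reps, orderOf (compat.y hE L) = 2 := by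
    intro L hL
    refine compat.orderOf_y hE h (h1 L hL) (h3 L hL) ?_
    simp only [reps, List.mem_cons, List.not_mem_nil, or_false] at hL
    rcases hL with rfl | rfl | rfl | rfl | rfl <;> simp only [rank0 h2, rank1 h2, rank2 h2, rank3 h2, rank4 h2] <;> omega
  have h5 : ∀ L ∈ reps, ∀ M ∈ reps, IsConj (compat.y hE L) (compat.y hE M) → L = M := by
    intro L hL M hM e
    have := compat.rank_eq hE (h1 L hL) (h1 M hM) e
    simp only [reps, List.mem_cons, List.not_mem_nil, or_false] at hL hM
    rcases hL with rfl | rfl | rfl | rfl | rfl <;> rcases hM with rfl | rfl | rfl | rfl | rfl <;>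
      first | rfl | (simp only [rank0 h2, rank1 h2, rank2 h2, rank3 h2, rank4 h2] at this; omega)
  have h6 := fun g => compat.classify hE H37.tabE7 h (g := g) run (by decide)
  exact compat.ncard_eq hE (by decide) h4 h6 h5

end Cfsg.Agent.S2181
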