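import Cfsg.Statements.S2183
import Cfsg.Agent.Lib.Twist.InvolMat
import Cfsg.Agent.Lib.Twist.BitTab
import Cfsg.Agent.Lib.Twist.D4Mat

set_option autoImplicit false
open Cfsg

namespace Cfsg.Agent.S2183

open Cfsg.Lie

/-- Conjugating elements. -/
def certs : List (List (Fin 4) × List (Fin 4) × List ℕ × ℕ) :=
  [([], [], [2, 0, 2, 3, 2, 0, 1, 2, 3, 2, 1], 1),
   ([1], [1], [0, 1, 0, 2, 3, 2, 1], 1),
   ([0, 2, 3], [0, 2, 3], [2, 3, 2, 0, 1, 0, 3], 0)]

theorem rk0 {K : Type*} [Field K] [CharP K 2] {R : H38.RootSys chevD4}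
    {E : H38.Elts R.toRS K (GL chevD4.Idx K)} (hE : H38.IsMat R E) :
    (H39.mt (H39.w1 hE [14]) - 1).rank = 10 :=
  H39.tabOK_D4.rank_eq (B := 0x4000000040000000200000010000000200100010000000800000010000000100000001) (p := [18, 5, 9, 14, 15, 1, 19, 20, 23, 27])
    (B' := 0x800000020000001000000080000002000000100000008000000400000008000000400000004000000200000008000000400000020000000900000050000002) (p' := [1, 2, 3, 5, 6, 7, 9, 10, 14, 15, 18, 19, 20, 21, 23, 24, 25, 27]) (by decide +kernel)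

theorem rk1 {K : Type*} [Field K] [CharP K 2] {R : H38.RootSys chevD4}
    {E : H38.Elts R.toRS K (GL chevD4.Idx K)} (hE : H38.IsMat R E) :
    (H39.mt (H39.w1 hE [18, 13, 12]) - 1).rank = 12 :=
  H39.tabOK_D4.rank_eq (B := 0x3c0000028000003000000200000000c2020004202000400000001e00000140000018000001000000200) (p := [22, 13, 12, 11, 10, 17, 16, 3, 26, 25, 24, 23])
    (B' := 0x80000004000000220000012000000b8000004000000020000001000000020000001100000090000005c00000010000000800000040000001) (p' := [0, 2, 3, 4, 10, 11, 12, 13, 16, 17, 22, 23, 24, 25, 26, 27]) (by decide +kernel)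

theorem ok : H39.invOK chevD4 28 H39.tabD4 [[18, 13, 12], [5, 10, 11], [14], [9]] [[2], [0]]
    ([0, 1, 0, 2, 1, 0, 3, 1, 0, 2, 1, 3] : List (Fin 4)) certs = true := by decide +kernel

theorem cover : ∀ b : Fin 4 → Bool, (∀ i, b (H39.rho3D4 i) = b i) → (∃ i, b i = false) →
    ∃ c ∈ certs, ∀ i, b i = decide (i ∈ c.1) := by decide +kernel

/-- The twisted group ³D₄(q), q even, realised inside the Chevalley group of type D₄ over the field K with q³ elements, has exactly two conjugacy classes of elements of order 2. -/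
theorem result {K : Type*} [Field K] [Fintype K] [CharP K 2] (q : ℕ) (hK : Fintype.card K = q ^ 3) :
    (ConjClasses.mk '' {g : ↥(Cfsg.Lie.twistedD4 K q) | orderOf g = 2}).ncard = 2 := by
  have hq : IsPrimePow q := (isPrimePow_pow_iff (by norm_num)).mp (hK ▸ FiniteField.isPrimePow_card K)
  obtain ⟨R, E, hE, T, h, hA⟩ := H39.exists_D4 hq hK
  have hg : ∀ w ∈ [[18, 13, 12], [5, 10, 11], [14], [9]], H39.w1 hE w ∈ T.Γ := by
    intro w hw
    simp only [List.mem_cons, List.not_mem_nil, or_false] at hw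
    rw [H39.w1_eq_wd]
    refine H39.wd_mem hA rfl ?_
    rcases hw with rfl | rfl | rfl | rfl
    · exact Or.inr ⟨1, (d4p1, d4p3, d4p4), by simp, by simp; decide⟩
    · exact Or.inr ⟨1, (d4m1, d4m3, d4m4), by simp, by simp; decide⟩
    · exact Or.inl ⟨1, one_pow _, d4p2, by simp, rfl⟩
    · exact Or.inl ⟨1, one_pow _, d4m2, by simp, rfl⟩
  refine H39.ncard_tw hA ![H39.w1 hE [14], H39.w1 hE [18, 13, 12]] (fun i => ?_) (fun i => ?_)
    ![10, 12] (fun i => ?_) (by decide) (by decide) fun t ht h2 h1 => ?_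
  · fin_cases i <;> exact hg _ (by simp)
  · fin_cases i <;> exact (H39.w1_append hE _ _).symm.trans
      (H39.tabOK_D4.w1_eq hE (w' := []) (by decide +kernel))
  · fin_cases i
    · exact rk0 hE
    · exact rk1 hE
  · obtain ⟨g, hg, k, hk, e⟩ := H39.tabOK_D4.invol h.good hg ok h.hρ cover ht h2 h1
    refine ⟨g, hg, ⟨k, hk⟩, e.trans ?_⟩
    obtain rfl | rfl : k = 0 ∨ k = 1 := by simp at hk; omega
    all_goals rfl

end Cfsg.Agent.S2183
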