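import Cfsg.Statements.S2186
import Cfsg.Agent.Lib.Chev.CentMat
import Cfsg.Agent.Lib.Chev.Simple

set_option autoImplicit false
open Cfsg

namespace Cfsg.Agent.S2186

open H38 Cfsg.Lie

lemma aux {ι l : Type} [Fintype l] [DecidableEq l] [Finite ι] {R : RS ι l} {K : Type*} [Field K]
    [Finite K] (p : ℕ) [Fact p.Prime] [CharP K p] {G : Type*} [Group G] {E : Elts R K G}
    (hF : E.Faith) {θ : ι} (h1 : R.Pos θ) (h2 : ∀ s, R.Pos s → R.Cone s θ = ∅) {g : G}
    (hg : g ∈ E.Gp) : IsPGroup p ↥(E.X θ ⊔ (E.X θ).map (MulAut.conj g).toMonoidHom) ∨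
      ∃ h ∈ E.Gp, (E.X θ ⊔ (E.X θ).map (MulAut.conj g).toMonoidHom).map
        (MulAut.conj h).toMonoidHom = E.X θ ⊔ E.X (R.neg θ) := by
  have hB : ∀ b ∈ E.B, (E.X θ).map (MulAut.conj b).toMonoidHom = E.X θ := by
    have key : ∀ b ∈ E.B, ∀ a ∈ E.X θ, b * a * b⁻¹ ∈ E.X θ := by
      intro b hb a ha
      obtain ⟨u, hu, k, hk, rfl⟩ := E.mem_B.mp hb
      rw [← E.XS_singleton] at ha ⊢
      have := E.XS_conj_mem (S := {θ}) (T := {r | R.Pos r}) (fun r hr s hs => by
        obtain rfl : s = θ := hs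
        exact ⟨fun e => (R.pos_neg_iff r).mp (e ▸ h1) hr, by rw [h2 r hr]; exact Set.empty_subset _⟩) hu
        (E.H_conj_mem_XS hk ha)
      convert this using 1; group
    intro b hb
    refine le_antisymm ?_ fun a ha => ⟨b⁻¹ * a * b⁻¹⁻¹, key _ (inv_mem hb) a ha, by simp [mul_assoc]⟩
    rintro _ ⟨a, ha, rfl⟩
    exact key b hb a ha
  obtain ⟨b, hb, n, w, hn, u, hu, rfl⟩ := E.bruhat hg
  have hu' := E.U_le_B (E.mem_XS_mono hu fun _ h => h.1)
  have e1 : ∀ a b : G, ∀ X : Subgroup G, X.map (MulAut.conj (a * b)).toMonoidHom =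
      (X.map (MulAut.conj b).toMonoidHom).map (MulAut.conj a).toMonoidHom := fun a b X => by
    rw [Subgroup.map_map]; congr 1; ext; simp [mul_assoc]
  have e2 : E.X θ ⊔ (E.X θ).map (MulAut.conj (b * n * u)).toMonoidHom =
      (E.X θ ⊔ E.X (w θ)).map (MulAut.conj b).toMonoidHom := by
    rw [e1, e1, hB u hu', Subgroup.map_sup, hB b hb, ← E.XS_singleton, hn.map_conj_XS,
      Set.image_singleton, E.XS_singleton, E.XS_singleton]
  rw [e2]
  by_cases hw : w θ = R.neg θ
  · refine Or.inr ⟨b⁻¹, E.B_le_Gp (inv_mem hb), ?_⟩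
    rw [← e1, inv_mul_cancel, hw, map_one]
    exact Subgroup.map_id _
  · refine Or.inl (IsPGroup.map ?_ _)
    obtain ⟨v, hv, a1, a2⟩ := R.exists_W_pos_pos hw
    obtain ⟨m, hm⟩ := E.exists_rep_of_mem_W hv
    refine ((H64.SBN.isPGroup_U p hF).map (MulAut.conj m⁻¹).toMonoidHom).to_le ?_
    rw [PreElts.U, hm.inv.map_conj_XS]
    refine sup_le ?_ ?_ <;> rw [← E.XS_singleton] <;> refine E.XS_mono ?_
    · rintro _ rfl; exact ⟨_, a1, by simp⟩
    · rintro _ rfl; exact ⟨_, a2, by simp⟩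

/-- Let G be the Chevalley group of type G₂ (over a field with at least four elements), D₄, E₆, E₇ or E₈ over a finite field F of characteristic two, and let X be the root subgroup of the highest root (the last root index) — a long root subgroup, of order |F|. For every g in G, the subgroup generated by X and its conjugate g X g⁻¹ is either a 2-group or is conjugate by an element of G to the subgroup generated by X and the root subgroup of the lowest root (index 0, the negative of the highest root), which is a copy of SL₂(F). -/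
theorem result {F : Type*} [Field F] [Fintype F] [CharP F 2] (D : Cfsg.Lie.ChevalleyDatum) (hD : D ∈ [Cfsg.Lie.chevG2, Cfsg.Lie.chevD4, Cfsg.Lie.chevE6, Cfsg.Lie.chevE7, Cfsg.Lie.chevE8]) (hF : D = Cfsg.Lie.chevG2 → 4 ≤ Fintype.card F) (g : GL D.Idx F) (hg : g ∈ D.group F) :
    IsPGroup 2 ↥(D.rootSubgroup F (D.nroots - 1) ⊔ (D.rootSubgroup F (D.nroots - 1)).map (MulAut.conj g).toMonoidHom) ∨
    ∃ h ∈ D.group F, (D.rootSubgroup F (D.nroots - 1) ⊔ (D.rootSubgroup F (D.nroots - 1)).map (MulAut.conj g).toMonoidHom).map (MulAut.conj h).toMonoidHom = D.rootSubgroup F (D.nroots - 1) ⊔ D.rootSubgroup F 0 := by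
  have hD' : D ∈ [chevG2, chevB2, chevD4, chevF4, chevE6, chevE7, chevE8] := by
    simp only [List.mem_cons, List.not_mem_nil, or_false] at hD ⊢
    tauto
  obtain ⟨R, E, hE⟩ := exists_isMat hD' F
  have h0 : D.nroots - 1 < D.nroots := by
    have := (R.sim ⟨0, by have := H38.rank_pos hD'; omega⟩).2
    omega
  have e : (0 : ℕ) = (R.neg ⟨_, h0⟩ : ℕ) := (R.neg_top rfl).symm
  rw [hE.Gp_eq] at hg ⊢
  rw [e, hE.X_eq, hE.X_eq ⟨_, h0⟩]
  exact aux 2 hE.faith (R.pos_top rfl) (fun s hs => R.cone_top rfl hs) hg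

end Cfsg.Agent.S2186
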