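import Cfsg.Statements.S2189
import Cfsg.Agent.Lib.Chev.OverTypes

set_option autoImplicit false
open Cfsg

namespace Cfsg.Agent.S2189

open H38 Cfsg.Lie

/-- Finite subgroups of an adjoint Chevalley group over an algebraically closed field that contain the group over a finite subfield. Let k be an algebraically closed field of prime characteristic p, G the Chevalley group of type G₂, B₂, D₄, F₄, E₆, E₇ or E₈ over k (the matrix group generated by the root elements x_s(t), t ∈ k), and q = p^a with a ≥ 1. Let L be the subgroup generated by the root elements x_s(t) with t^q = t (the Chevalley group over the field of q elements inside G), and let M be a finite subgroup of G containing L. Then for some r ≥ 1, M contains every root element x_s(t) with t^(q^r) = t and every element of M is a matrix all of whose entries c satisfy c^(q^r) = c (so M lies between the Chevalley group over the field with q^r elements and the group of points of G fixed by the q^r-th power map). -/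
theorem result {k : Type*} [Field k] [IsAlgClosed k] (p : ℕ) [Fact p.Prime] [CharP k p] (D : Cfsg.Lie.ChevalleyDatum) (hD : D ∈ [Cfsg.Lie.chevG2, Cfsg.Lie.chevB2, Cfsg.Lie.chevD4, Cfsg.Lie.chevF4, Cfsg.Lie.chevE6, Cfsg.Lie.chevE7, Cfsg.Lie.chevE8]) (a : ℕ) (ha : 1 ≤ a) (M : Subgroup (GL D.Idx k)) (hMfin : Finite ↥M) (hMG : M ≤ D.group k)
    (hLM : Subgroup.closure {g : GL D.Idx k | ∃ (s : ℕ) (t : k), t ^ (p ^ a) = t ∧ (g : Matrix D.Idx D.Idx k) = D.x k s t} ≤ M) :
    ∃ r : ℕ, 1 ≤ r ∧ Subgroup.closure {g : GL D.Idx k | ∃ (s : ℕ) (t : k), t ^ ((p ^ a) ^ r) = t ∧ (g : Matrix D.Idx D.Idx k) = D.x k s t} ≤ M ∧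
      ∀ g ∈ M, ∀ i j : D.Idx, ((g : Matrix D.Idx D.Idx k) i j) ^ ((p ^ a) ^ r) = (g : Matrix D.Idx D.Idx k) i j := by
    obtain ⟨R, E, hE⟩ := exists_isMat hD k
    have hL := (hE.XA_eq {t | t ^ p ^ a = t}).symm.trans_le hLM
    obtain ⟨A, hA, a1, a2, a3⟩ := hE.exists_subfield_fix p hD (hE.Gp_eq ▸ hMG) fun r =>
      hL (E.x_mem_XA (Set.mem_univ r) (one_pow _))
    obtain ⟨n, hn, b1, b2⟩ := exists_pow_eq p A
    have h0 : D.nroots - 1 < D.nroots := by
      have := (R.sim ⟨0, by have := H38.rank_pos hD; omega⟩).2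
      omega
    obtain ⟨r, rfl⟩ := dvd_of_fix_mem p ha (IsAlgClosed.splits _) b1 fun t ht =>
      (a1 t).mpr ((hE.mem_co' (r := ⟨_, h0⟩)).mpr (hL (E.x_mem_XA (Set.mem_univ _) ht)))
    refine ⟨r, Nat.pos_of_mul_pos_left hn, ?_, fun g hg => ?_⟩ <;> rw [← pow_mul]
    · exact (hE.XA_eq {t | t ^ p ^ (a * r) = t}).trans_le
        ((E.XA_mono (fun t => (b2 t).mpr) le_rfl).trans a2)
    · exact (glMap_eq_iff _ g).mp (a3 (iterateFrobenius k p (a * r))
        (Subfield.ext fun t => (b2 t).symm) g hg)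

end Cfsg.Agent.S2189
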