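import Cfsg.Statements.S2190
import Cfsg.Agent.Lib.Chev.OverTypes

set_option autoImplicit false
open Cfsg

namespace Cfsg.Agent.S2190

open H38 Cfsg.Lie

/-- Subfield subgroups of prime degree are maximal. Let K be a finite field with q^r elements, r a prime, q a power of the characteristic, and G the Chevalley group of type G₂, B₂, D₄, F₄, E₆, E₇ or E₈ over K (the matrix group generated by the root elements). Let M be the subgroup of G consisting of the matrices all of whose entries lie in the subfield with q elements (entries c with c^q = c). Then M is a proper subgroup of G and is maximal: every subgroup of G containing M is M or G. -/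
theorem result {K : Type*} [Field K] [Fintype K] (p : ℕ) [Fact p.Prime] [CharP K p] (D : Cfsg.Lie.ChevalleyDatum) (hD : D ∈ [Cfsg.Lie.chevG2, Cfsg.Lie.chevB2, Cfsg.Lie.chevD4, Cfsg.Lie.chevF4, Cfsg.Lie.chevE6, Cfsg.Lie.chevE7, Cfsg.Lie.chevE8]) (a r : ℕ) (ha : 1 ≤ a) (hr : r.Prime) (hK : Fintype.card K = (p ^ a) ^ r) (M : Subgroup (GL D.Idx K))
    (hM : ∀ g : GL D.Idx K, g ∈ M ↔ g ∈ D.group K ∧ ∀ i j : D.Idx, ((g : Matrix D.Idx D.Idx K) i j) ^ (p ^ a) = (g : Matrix D.Idx D.Idx K) i j) :
    M ≠ D.group K ∧ ∀ H : Subgroup (GL D.Idx K), M ≤ H → H ≤ D.group K → H = M ∨ H = D.group K := by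
    obtain ⟨R, E, hE⟩ := exists_isMat hD K
    have hp : 1 < p := (Fact.out : p.Prime).one_lt
    have h0 : D.nroots - 1 < D.nroots := by
      have := (R.sim ⟨0, by have := H38.rank_pos hD; omega⟩).2
      omega
    replace hM : ∀ g, g ∈ M ↔ g ∈ E.Gp ∧
        Matrix.GeneralLinearGroup.map (iterateFrobenius K p a) g = g := fun g => by
      rw [hM, hE.Gp_eq, glMap_eq_iff]; rfl
    have hx : ∀ s t, E.x s t ∈ M ↔ t ^ p ^ a = t := fun s t => by
      rw [hM, hE.isField hD, (hE.faith.x_inj s).eq_iff]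
      exact and_iff_right (E.x_mem_Gp s t)
    rw [hE.Gp_eq]
    rw [← pow_mul, ← Nat.card_eq_fintype_card] at hK
    refine ⟨fun e => ?_, fun H h1 h2 => ?_⟩
    · classical
      have := Finset.card_le_card (show Finset.univ ⊆ (Polynomial.X ^ p ^ a - Polynomial.X :
        Polynomial K).roots.toFinset from fun t _ => by
          simpa [FiniteField.X_pow_card_pow_sub_X_ne_zero K (show a ≠ 0 by omega) hp, sub_eq_zero]
            using (hx ⟨_, h0⟩ t).mp (e ▸ E.x_mem_Gp _ t))
      have := this.trans ((Multiset.toFinset_card_le _).trans (Polynomial.card_roots' _))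
      rw [FiniteField.X_pow_card_pow_sub_X_natDegree_eq K (by omega) hp, Finset.card_univ,
        ← Nat.card_eq_fintype_card, hK, Nat.pow_le_pow_iff_right hp] at this
      nlinarith [hr.two_le]
    obtain ⟨A, hA, a1, a2, a3⟩ := hE.exists_subfield_fix p hD h2 fun r => h1 ((hx r 1).mpr (one_pow _))
    obtain ⟨n, hn, b1, b2⟩ := exists_pow_eq p A
    have hs : (Polynomial.X ^ p ^ a - Polynomial.X : Polynomial K).Splits := by
      have := (FiniteField.isSplittingField_sub K K).splits
      rw [Algebra.algebraMap_self, Polynomial.map_id, ← Nat.card_eq_fintype_card, hK] at this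
      exact this.of_dvd (FiniteField.X_pow_card_pow_sub_X_ne_zero K (by nlinarith [hr.two_le]) hp)
        (dvd_pow_pow_sub_self_of_dvd (Dvd.intro _ rfl))
    obtain ⟨d, rfl⟩ := dvd_of_fix_mem p ha hs b1 fun t ht =>
      (a1 t).mpr ((hE.mem_co' (r := ⟨_, h0⟩)).mpr (h1 ((hx _ t).mpr ht)))
    have := Module.natCard_eq_pow_finrank (K := A) (V := K)
    rw [hK, b1, ← pow_mul, mul_assoc] at this
    rcases (Nat.dvd_prime hr).mp ⟨_, Nat.eq_of_mul_eq_mul_left ha (Nat.pow_right_injective hp this)⟩
      with rfl | rfl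
    · refine Or.inl (le_antisymm (fun g hg => (hM g).mpr ⟨h2 hg, a3 _ (Subfield.ext fun t => ?_) g hg⟩) h1)
      rw [b2, mul_one]; rfl
    · refine Or.inr (le_antisymm h2 (E.XS_le.mpr fun s _ t => a2 (E.x_mem_XA (Set.mem_univ _)
      ((b2 t).mpr ?_))))
      rw [← hK, Nat.card_eq_fintype_card, FiniteField.pow_card]

end Cfsg.Agent.S2190
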