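import Cfsg.Statements.S2191
import Cfsg.Agent.Lib.Chev.TwTypes

set_option autoImplicit false
open Cfsg

namespace Cfsg.Agent.S2191

open H38 H39 Cfsg.Lie

/-- The symmetry on the roots. -/
def τE6 (r : ℕ) : ℕ :=
  [0, 1, 2, 5, 16, 3, 6, 17, 8, 19, 22, 11, 26, 30, 33, 35, 4, 7, 18, 9, 20, 23, 10, 21, 24, 25, 12,
    27, 31, 34, 13, 28, 32, 14, 29, 15, 56, 42, 57, 39, 43, 58, 37, 40, 44, 59, 46, 47, 50, 61, 48,
    51, 62, 53, 64, 67, 36, 38, 41, 45, 60, 49, 52, 63, 54, 65, 68, 55, 66, 69, 70, 71].getD r 0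

set_option synthInstance.maxSize 1000 in
lemma cert : ∀ r < 72, 0 < chevE6.pairing 71 r → τE6 r ≠ r → ∃ β ∈ [60, 44, 39, 32, 27, 11],
    β < 72 ∧ τE6 β = β ∧ chevE6.pairing 71 β = 0 ∧ chevE6.pairing β r = -1 ∧ ∀ k < 72,
      0 < chevE6.pairing 71 k → chevE6.pairing β k = -1 → k = r ∨ k = τE6 r ∨ τE6 k = k := by
  decide +kernel

/-- In the twisted group ²E₆(q), realised inside the Chevalley group of type E₆ over the field K with q² elements (q a power of the characteristic) as the subgroup generated by the root elements, and products of root elements, that the twisting map fixes, the subgroup of matrices all of whose entries lie in the subfield with q elements (entries c with c^q = c; it contains the subgroup of type F₄ over that subfield) is a proper maximal subgroup. -/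
theorem result {K : Type*} [Field K] [Fintype K] (p : ℕ) [Fact p.Prime] [CharP K p] (q : ℕ) (hq : ∃ a : ℕ, 1 ≤ a ∧ q = p ^ a) (hK : Fintype.card K = q ^ 2) (M : Subgroup (GL Cfsg.Lie.chevE6.Idx K))
    (hM : ∀ g : GL Cfsg.Lie.chevE6.Idx K, g ∈ M ↔ g ∈ Cfsg.Lie.twistedE6 K q ∧ ∀ i j : Cfsg.Lie.chevE6.Idx, ((g : Matrix Cfsg.Lie.chevE6.Idx Cfsg.Lie.chevE6.Idx K) i j) ^ q = (g : Matrix Cfsg.Lie.chevE6.Idx Cfsg.Lie.chevE6.Idx K) i j) :
    M ≠ Cfsg.Lie.twistedE6 K q ∧ ∀ H : Subgroup (GL Cfsg.Lie.chevE6.Idx K), M ≤ H → H ≤ Cfsg.Lie.twistedE6 K q → H = M ∨ H = Cfsg.Lie.twistedE6 K q := by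
    obtain ⟨a, ha, rfl⟩ := hq
    obtain ⟨R, E, hE, T, h6, hA⟩ := exists_E6 ((Fact.out : p.Prime).isPrimePow.pow (by omega)) hK
    have hD : chevE6 ∈ [chevG2, chevB2, chevD4, chevF4, chevE6, chevE7, chevE8] := by simp
    have h : TwF T (hE.fld hD (iterateFrobenius K p a)) (iterateFrobenius K p a) :=
      ⟨hE.fld_isField hD _, h6.hφ, h6.h3, centerless_of T.hG h6.hz, R.connected hD,
        fun i => ⟨_, h6.orth i⟩, fun i j => by
          rw [h6.hρ]; exact (h6.hA _ _).trans (.trans (by revert i j; decide) (h6.hA i j).symm)⟩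
    have hc : Nat.card K = Nat.card (Elts.fixF (iterateFrobenius K p a)) ^ 2 := by
      rw [card_fixF p ha (by decide) hK, Nat.card_eq_fintype_card, hK]
    have ht := h.τ_tab (ρ := fun i => [5, 1, 4, 3, 2, 0].getD i 0) (τ := τE6) (by rw [h6.hρ]; decide)
      (by decide +kernel)
    refine hE.max_of_rat hD _ hA hM (h.rat_ne (by decide) hc (h6.orth 0) fun t =>
      ⟨![t, 0, 0, 0, 0, t ^ p ^ a], rfl, ?_⟩) fun H => e6_max h6 h hc
        (R.isTop (θ := ⟨71, by decide⟩) rfl) (Fin.ext (ht _)) (fun e => ?_) fun r a1 a2 => ?_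
    · rw [h6.hρ]
      exact List.forall_mem_cons.mpr ⟨rfl, List.forall_mem_singleton.mpr (h6.pow_pow t).symm⟩
    · have : R.pair ⟨71, by decide⟩ (R.sim ⟨1, by decide⟩) = 0 := e
      rw [← R.pairing_eq, R.sim_eq] at this
      exact absurd this (by decide +kernel)
    · obtain ⟨β, -, b1, b⟩ := cert r r.2 ((R.pairing_eq ⟨71, by decide⟩ r).symm ▸ a1)
        fun e => a2 (Fin.ext ((ht r).trans e))
      exact ⟨⟨β, b1⟩, Fin.ext ((ht _).trans b.1), (R.pairing_eq _ _).symm.trans b.2.1,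
      (R.pairing_eq _ _).symm.trans b.2.2.1, fun k c1 c2 => (b.2.2.2 k k.2
        (c1.trans_eq (R.pairing_eq _ _).symm) ((R.pairing_eq ⟨β, b1⟩ k).trans c2)).imp Fin.ext
        (Or.imp (fun e => Fin.ext (e.trans (ht r).symm)) fun e => Fin.ext ((ht k).trans e))⟩

end Cfsg.Agent.S2191
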