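import Cfsg.Statements.S2192
import Cfsg.Agent.Lib.Chev.TwTypes

set_option autoImplicit false
open Cfsg

namespace Cfsg.Agent.S2192

open H38 H39 Cfsg.Lie

/-- In the twisted group ³D₄(q), realised inside the Chevalley group of type D₄ over the field K with q³ elements (q a power of the characteristic) as the subgroup generated by the root elements, and products of root elements, that the twisting map fixes, the subgroup of matrices all of whose entries lie in the subfield with q elements (it contains the subgroup of type G₂ over that subfield) is a proper maximal subgroup. -/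
theorem result {K : Type*} [Field K] [Fintype K] (p : ℕ) [Fact p.Prime] [CharP K p] (q : ℕ) (hq : ∃ a : ℕ, 1 ≤ a ∧ q = p ^ a) (hK : Fintype.card K = q ^ 3) (M : Subgroup (GL Cfsg.Lie.chevD4.Idx K))
    (hM : ∀ g : GL Cfsg.Lie.chevD4.Idx K, g ∈ M ↔ g ∈ Cfsg.Lie.twistedD4 K q ∧ ∀ i j : Cfsg.Lie.chevD4.Idx, ((g : Matrix Cfsg.Lie.chevD4.Idx Cfsg.Lie.chevD4.Idx K) i j) ^ q = (g : Matrix Cfsg.Lie.chevD4.Idx Cfsg.Lie.chevD4.Idx K) i j) :
    M ≠ Cfsg.Lie.twistedD4 K q ∧ ∀ H : Subgroup (GL Cfsg.Lie.chevD4.Idx K), M ≤ H → H ≤ Cfsg.Lie.twistedD4 K q → H = M ∨ H = Cfsg.Lie.twistedD4 K q := by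
    obtain ⟨a, ha, rfl⟩ := hq
    obtain ⟨R, E, hE, T, h4, hA⟩ := exists_D4 ((Fact.out : p.Prime).isPrimePow.pow (by omega)) hK
    have hD : chevD4 ∈ [chevG2, chevB2, chevD4, chevF4, chevE6, chevE7, chevE8] := by simp
    have h : TwF T (hE.fld hD (iterateFrobenius K p a)) (iterateFrobenius K p a) :=
      ⟨hE.fld_isField hD _, h4.hφ, h4.h3, centerless_of T.hG h4.hz, R.connected hD,
        fun i => ⟨_, h4.orth i⟩, fun i j => by
          rw [h4.hρ]; exact (h4.hA _ _).trans (.trans (by revert i j; decide) (h4.hA i j).symm)⟩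
    have hc : Nat.card K = Nat.card (Elts.fixF (iterateFrobenius K p a)) ^ 3 := by
      rw [card_fixF p ha (by decide) hK, Nat.card_eq_fintype_card, hK]
    refine hE.max_of_rat hD _ hA hM (h.rat_ne (by decide) hc (h4.orth 0) fun t =>
      ⟨![t, 0, t ^ p ^ a, (t ^ p ^ a) ^ p ^ a], rfl, ?_⟩)
      fun H => d4_max h4 h hc hE.grpRel fun r t => (hE.grpRel_x r t).symm
    rw [h4.hρ]
    exact List.forall_mem_cons.mpr ⟨rfl, List.forall_mem_cons.mpr ⟨rfl,
      List.forall_mem_singleton.mpr (h4.pow_pow t).symm⟩⟩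

end Cfsg.Agent.S2192
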