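import Cfsg.Statements.S2197
import Cfsg.Agent.Lib.Chev.TitsW

set_option autoImplicit false
open Cfsg

namespace Cfsg.Agent.S2197

set_option synthInstance.maxSize 1000 in
theorem hl0 : ∀ a < 66, ∀ b < 66, (66 * a + b) * (66 * a + b - 1) ∣ 17971200 → a = 0 ∧
    (b ≤ 16 ∨ b = 25 ∨ b = 26 ∨ b = 27 ∨ b = 40 ∨ b = 65) := by decide +kernel

/-- The Tits group (the commutator subgroup of ²F₄(2)) has no faithful 2-transitive action on a finite set with more than two points. -/
theorem result {Ω : Type*} [Fintype Ω] [MulAction Cfsg.Lie.TitsGroup Ω] [FaithfulSMul Cfsg.Lie.TitsGroup Ω] (hΩ : 3 ≤ Fintype.card Ω) :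
    ¬ MulAction.IsMultiplyPretransitive Cfsg.Lie.TitsGroup Ω 2 := by
  intro h2
  have hc := H38.TitsW.card_tits
  have hfin : Finite Lie.TitsGroup := Nat.finite_of_card_ne_zero (by rw [hc]; decide)
  obtain ⟨a, b, ha, hb, hab, h5⟩ := H38.TitsW.five
  obtain ⟨e, e', s, t, he, he', hee, h3, hs, het, ht⟩ := H38.TitsW.three
  obtain ⟨A1, A2⟩ := H38.FC.pair (Ω := Ω) Nat.prime_five ha hb hab h5
  obtain ⟨B1, -⟩ := H38.FC.pair (Ω := Ω) Nat.prime_three he he' hee h3
  rw [← H38.FC.fx_conj het] at B1
  have A3 := H38.FC.fx_lt (Ω := Ω) (g := a) fun e => by rw [e, orderOf_one] at ha; omega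
  have p13 : Nat.Prime 13 := by decide
  have htr : MulAction.IsPretransitive Lie.TitsGroup Ω :=
    MulAction.isPretransitive_of_is_two_pretransitive
  have st : ∀ x : Ω, Nat.card (MulAction.stabilizer Lie.TitsGroup x) * Fintype.card Ω = 17971200 :=
    fun x => by
      rw [← hc, ← (MulAction.stabilizer Lie.TitsGroup x).card_mul_index,
        MulAction.index_stabilizer_of_transitive, Nat.card_eq_fintype_card (α := Ω)]
  have st2 : ∀ x y : Ω, x ≠ y → Nat.card (fixingSubgroup Lie.TitsGroup {x, y}) *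
      (Fintype.card Ω * (Fintype.card Ω - 1)) = 17971200 := fun x y h => by
    rw [← hc, ← (fixingSubgroup Lie.TitsGroup {x, y}).card_mul_index, H38.FC.index_two h2 h]
  obtain ⟨x, y, hxy⟩ := Fintype.one_lt_card_iff.mp (show 1 < Fintype.card Ω by omega)
  have hd : Fintype.card Ω * (Fintype.card Ω - 1) ∣ 17971200 := Dvd.intro_left _ (st2 x y hxy)
  have hlt : Fintype.card Ω < 4300 := by
    by_contra h
    have := Nat.le_of_dvd (by decide) hd
    have := Nat.mul_le_mul (show 4300 ≤ Fintype.card Ω by omega)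
      (show 4299 ≤ Fintype.card Ω - 1 by omega)
    omega
  have hl : ∀ n < 4300, n * (n - 1) ∣ 17971200 →
      n ≤ 16 ∨ n = 25 ∨ n = 26 ∨ n = 27 ∨ n = 40 ∨ n = 65 := fun n hn h => by
    have := hl0 (n / 66) (by omega) (n % 66) (by omega) (by rwa [Nat.div_add_mod])
    omega
  have dv : ∀ (g : Lie.TitsGroup) (H : Subgroup Lie.TitsGroup), g ∈ H → orderOf g ∣ Nat.card H :=
    fun g H => H.orderOf_dvd_natCard
  rcases hl _ hlt hd with h | h | h | h | h | h
  · omega
  · have := H38.FC.jordan h2 p13 hs (by omega) (by omega)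
    rw [h, hc] at this
    exact absurd this (by decide)
  · have ht' : t * s * t⁻¹ = s ^ (2 + 1) := by rw [ht]
    have := H38.FC.frob (Ω := Ω) (r := 2) (s := s) (t := t) p13 (by rw [← hs, pow_orderOf_eq_one])
      ht' (by decide)
      fun x hx => by
        have h1 := dv s (MulAction.stabilizer _ x) hx
        have h2 := st x
        rw [hs] at h1
        rw [h] at h2
        omega
    omega
  · have := Fact.mk p13
    obtain ⟨z, hz⟩ := Equiv.Perm.exists_fixed_point_of_prime (p := 13) (n := 1) (α := Ω)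
      (by rw [h]; decide) (σ := MulAction.toPermHom _ Ω s)
      (by rw [← map_pow, pow_one, ← hs, pow_orderOf_eq_one, map_one])
    replace hz : s • z = z := hz
    have h1 : s • t⁻¹ • z = t⁻¹ • z := by
      have : s * t⁻¹ = t⁻¹ * s ^ 3 := by rw [← ht]; group
      rw [← mul_smul, this, mul_smul, show s ^ 3 • z = z from
        pow_mem (show s ∈ MulAction.stabilizer _ z from hz) 3]
    have h4 : t⁻¹ • z = z := by
      by_contra h4
      have h5 := dv s (fixingSubgroup _ {t⁻¹ • z, z}) ((mem_fixingSubgroup_iff _).mpr (by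
        rintro _ (rfl | rfl)
        exacts [h1, hz]))
      have h6 := st2 _ _ h4
      rw [hs] at h5
      rw [h] at h6
      omega
    have h5 := dv t⁻¹ (MulAction.stabilizer _ z) h4
    have h6 := st z
    obtain ⟨g, rfl⟩ := isConj_iff.mp het
    rw [orderOf_inv, ← MulAut.conj_apply, MulEquiv.orderOf_eq, he] at h5
    rw [h] at h6
    omega
  · have := A2 fun x hx => by have := st x; rw [h] at this; omega
    omega
  · have := A2 fun x hx => by have := st x; rw [h] at this; omega
    omega

end Cfsg.Agent.S2197
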