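import Cfsg.Statements.S2205
import Mathlib
import Cfsg.Agent.Lib.Perm24.Sq4


set_option autoImplicit false
open Cfsg

namespace Cfsg.Agent.S2205


/-- A finite group acting faithfully and 2-transitively on a set with p² + 1 points, p a prime, is doubly primitive — a point stabilizer acts primitively on the remaining p² points — unless p = 2 and the group is the Frobenius group of order 20. -/
theorem result {G Ω : Type*} [Group G] [Finite G] [Fintype Ω] [MulAction G Ω] [FaithfulSMul G Ω] (p : ℕ) (hp : p.Prime) (hΩ : Fintype.card Ω = p ^ 2 + 1) (h2 : MulAction.IsMultiplyPretransitive G Ω 2) (a : Ω) :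
    MulAction.IsPreprimitive ↥(MulAction.stabilizer G a) ↥(SubMulAction.ofStabilizer G a) ∨ (p = 2 ∧ Nat.card G = 20) := by
  by_cases hprim : MulAction.IsPreprimitive ↥(MulAction.stabilizer G a) ↥(SubMulAction.ofStabilizer G a)
  · exact Or.inl hprim
  right
  have := Fact.mk hp
  have hΩ' : Nat.card Ω = p ^ 2 + 1 := by rw [Nat.card_eq_fintype_card, hΩ]
  have hG : H24.Sq.T2 G Ω := fun a b c d h h' => MulAction.is_two_pretransitive_iff.1 h2 h h'
  have htr : MulAction.IsPretransitive ↥(MulAction.stabilizer G a) ↥(SubMulAction.ofStabilizer G a) := by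
    refine ⟨fun x y => ?_⟩
    obtain ⟨g, h1, h3⟩ := hG a x a y (fun e => x.2 e.symm) (fun e => y.2 e.symm)
    exact ⟨⟨g, h1⟩, Subtype.ext h3⟩
  obtain ⟨B', hB', hnt⟩ : ∃ B' : Set ↥(SubMulAction.ofStabilizer G a),
      MulAction.IsBlock ↥(MulAction.stabilizer G a) B' ∧ ¬ MulAction.IsTrivialBlock B' := by
    by_contra hcon
    push Not at hcon
    exact hprim ⟨fun {B} hB => hcon B hB⟩
  have hB : H24.Sq.BC G a (Subtype.val '' B') := by
    refine ⟨?_, ?_⟩
    · rintro ⟨x, -, e⟩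
      exact x.2 e
    · rintro g hg _ ⟨u, hu, rfl⟩ ⟨u', hu', e⟩ _ ⟨v, hv, rfl⟩
      have e1 : (⟨g, hg⟩ : MulAction.stabilizer G a) • u = u' := Subtype.ext e.symm
      have e2 := hB'.smul_eq_of_mem (g := ⟨g, hg⟩) hu (e1 ▸ hu')
      exact ⟨(⟨g, hg⟩ : MulAction.stabilizer G a) • v, e2 ▸ Set.smul_mem_smul_set hv, rfl⟩
  rw [MulAction.IsTrivialBlock, not_or, Set.not_subsingleton_iff] at hnt
  obtain ⟨⟨x, hx, y, hy, hxy⟩, hnu⟩ := hnt
  obtain ⟨R, hR, -⟩ := H24.Sq.exists_RT hΩ' hG a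
  have hBc : (Subtype.val '' B').ncard = p := by
    rcases hB.card hΩ' hR ⟨x, hx, rfl⟩ with h | h | h
    · rw [Set.ncard_eq_one] at h
      obtain ⟨z, hz⟩ := h
      have h1 : (x : Ω) ∈ Subtype.val '' B' := ⟨x, hx, rfl⟩
      have h3 : (y : Ω) ∈ Subtype.val '' B' := ⟨y, hy, rfl⟩
      rw [hz] at h1 h3
      exact absurd (Subtype.ext (h1.trans h3.symm)) hxy
    · exact h
    · refine absurd (Set.eq_univ_of_forall (fun w => ?_)) hnu
      have : (w : Ω) ∈ Subtype.val '' B' := by rw [h]; exact w.2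
      obtain ⟨w', hw', e⟩ := this
      exact (Subtype.ext e : w' = w) ▸ hw'
  by_cases hp2 : p = 2
  · exact ⟨hp2, H24.Sq.two_case hΩ' hp2 hG hB hBc⟩
  · exact (H24.Sq.odd_prime hΩ' hp2 hG hB hBc).elim

end Cfsg.Agent.S2205
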