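import Cfsg.Statements.S2214
import Cfsg.Agent.Lib.Chev.FixMat

set_option autoImplicit false
open Cfsg

namespace Cfsg.Agent.S2214

open H38 Cfsg.Lie

/-- Let k be an algebraically closed field of prime characteristic p, G the adjoint Chevalley group of type G₂, B₂, D₄, F₄, E₆, E₇ or E₈ over k (the matrix group generated by the root elements x_s(t), t ∈ k, acting on the Lie algebra), q = p^a with a ≥ 1, and K a subgroup of G containing every root element x_s(t) with t^q = t and consisting of matrices all of whose entries c satisfy c^q = c. Then the centralizer of K in G is trivial, and the normalizer of K in G is exactly the set of elements of G all of whose entries c satisfy c^q = c. -/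
theorem result {k : Type*} [Field k] [IsAlgClosed k] (p : ℕ) [Fact p.Prime] [CharP k p] (D : Cfsg.Lie.ChevalleyDatum) (hD : D ∈ [Cfsg.Lie.chevG2, Cfsg.Lie.chevB2, Cfsg.Lie.chevD4, Cfsg.Lie.chevF4, Cfsg.Lie.chevE6, Cfsg.Lie.chevE7, Cfsg.Lie.chevE8]) (a : ℕ) (ha : 1 ≤ a) (K : Subgroup (GL D.Idx k)) (hKG : K ≤ D.group k)
    (hLK : Subgroup.closure {g : GL D.Idx k | ∃ (s : ℕ) (t : k), t ^ (p ^ a) = t ∧ (g : Matrix D.Idx D.Idx k) = D.x k s t} ≤ K)
    (hKfix : ∀ g ∈ K, ∀ i j : D.Idx, ((g : Matrix D.Idx D.Idx k) i j) ^ (p ^ a) = (g : Matrix D.Idx D.Idx k) i j) :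
    D.group k ⊓ Subgroup.centralizer (K : Set (GL D.Idx k)) = ⊥ ∧
    ∀ g : GL D.Idx k, g ∈ D.group k → (g ∈ Subgroup.normalizer (K : Set (GL D.Idx k)) ↔ ∀ i j : D.Idx, ((g : Matrix D.Idx D.Idx k) i j) ^ (p ^ a) = (g : Matrix D.Idx D.Idx k) i j) := by
  obtain ⟨R, E, hE⟩ := exists_isMat hD k
  have hσ := hE.isField hD (iterateFrobenius k p a)
  have e := hE.XA_eq (Elts.fixF (iterateFrobenius k p a))
  rw [hE.Gp_eq] at hKG ⊢
  replace hLK : E.XA (Elts.fixF (iterateFrobenius k p a)) Set.univ ≤ K := e ▸ hLK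
  have h1 : ∀ r, E.x r 1 ∈ K := fun r => hLK (E.x_mem_XA (Set.mem_univ r) (one_mem _))
  have hK := fun g hg => (glMap_eq_iff (iterateFrobenius k p a) g).mpr (hKfix g hg)
  refine ⟨eq_bot_iff.mpr fun g hg => hE.eq_one_of_comm' hD hg.1 fun r => (hg.2 _ (h1 r)).symm,
    fun g hg => ⟨fun h => (glMap_eq_iff (iterateFrobenius k p a) g).mp
      (hE.fix_of_normalizes hD _ hg fun r => hK _ ((Subgroup.mem_normalizer_iff.mp h _).mp (h1 r))),
      fun h => ?_⟩⟩
  replace h := (glMap_eq_iff (iterateFrobenius k p a) g).mpr h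
  refine Subgroup.mem_normalizer_iff.mpr fun m => ⟨hσ.conj_mem hE.faith hE.R3 hLK hKG hK hg h,
    fun hm => ?_⟩
  simpa [mul_assoc] using hσ.conj_mem hE.faith hE.R3 hLK hKG hK (inv_mem hg) (by rw [map_inv, h]) hm

end Cfsg.Agent.S2214
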