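import Cfsg.Statements.S2221
import Cfsg.Agent.Lib.SymSylow.Over2
import Cfsg.Agent.Lib.SymSylow.Nilp3

set_option autoImplicit false
open Cfsg

namespace Cfsg.Agent.S2221

open Subgroup Equiv Equiv.Perm H61 MulAction
open scoped Pointwise

theorem dec_map {G H : Type*} [Group G] [Group H] {f : G →* H} (hf : Function.Injective f)
    (P : Subgroup G) : (∃ S₁ S₂, S₁ ≠ ⊥ ∧ S₂ ≠ ⊥ ∧ IsInternalDirectProduct S₁ S₂ P) ↔
      ∃ S₁ S₂, S₁ ≠ ⊥ ∧ S₂ ≠ ⊥ ∧ IsInternalDirectProduct S₁ S₂ (P.map f) := by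
  have key : ∀ S₁ S₂, (S₁.map f ≠ ⊥ ∧ S₂.map f ≠ ⊥ ∧
      IsInternalDirectProduct (S₁.map f) (S₂.map f) (P.map f)) ↔
        S₁ ≠ ⊥ ∧ S₂ ≠ ⊥ ∧ IsInternalDirectProduct S₁ S₂ P := fun S₁ S₂ => by
    simp only [IsInternalDirectProduct, ne_eq, ← Subgroup.map_sup, ← map_inf _ _ _ hf,
      map_eq_bot_iff_of_injective _ hf, map_le_map_iff_of_injective hf, (map_injective hf).eq_iff,
      mem_map, forall_exists_index, and_imp, forall_apply_eq_imp_iff₂, ← map_mul, hf.eq_iff]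
  refine ⟨fun ⟨_, _, h⟩ => ⟨_, _, (key _ _).2 h⟩, fun ⟨S₁, S₂, h⟩ =>
    ⟨S₁.comap f, S₂.comap f, (key _ _).1 ?_⟩⟩
  rwa [map_comap_eq_self (h.2.2.1.trans (map_le_range _ _)),
    map_comap_eq_self (h.2.2.2.1.trans (map_le_range _ _))]

variable {α : Type*} [DecidableEq α] [Fintype α]

theorem four {s : Perm α} (h : sign s = 1) (h1 : s ≠ 1) :
    ∃ i k, s i ≠ i ∧ s k ≠ k ∧ k ≠ i ∧ k ≠ s i := by
  obtain ⟨i, hi⟩ := not_forall.1 fun e => h1 (Equiv.ext e)
  by_contra! hc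
  have : s.support ⊆ {i, s i} := fun k hk => by
    by_cases e : k = i
    exacts [by simp [e], by simp [← hc i k hi (mem_support.1 hk) e]]
  have := (card_support_eq_two.1 (le_antisymm ((Finset.card_le_card this).trans Finset.card_le_two)
    (two_le_card_support_of_ne_one h1))).sign_eq
  rw [h] at this
  exact absurd this (by decide)

theorem sign_of_four {s : Perm α} (hs : ∀ x, s (s x) = x) (h : 4 ∣ {x | s x ≠ x}.ncard) :
    sign s = 1 := by
  have h1 := cycleType_of_pow_prime_eq_one (p := 2) ((sq s).trans (Equiv.ext hs))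
  rw [show {x | s x ≠ x} = s.support by ext; simp, Set.ncard_coe_finset, ← sum_cycleType] at h
  rw [sign_of_cycleType]
  rw [h1, Multiset.sum_replicate, smul_eq_mul] at h ⊢
  exact Even.neg_one_pow (by rw [Multiset.card_replicate, Nat.even_iff]; omega)

structure St (P : Subgroup (Perm α)) (τ : α → α) : Prop where
  syl : SylIn 2 P ⊤
  inv : ∀ x, τ (τ x) = x
  eqv : ∀ g ∈ P, ∀ x, g (τ x) = τ (g x)
  mem : ∀ x, swap x (τ x) ∈ P
  fix : ∀ x, τ x = x → ∀ g ∈ P, g x = x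
  pair : ∀ l : List α, l.length + 1 < Fintype.card α → ∃ x ∉ l, τ x ≠ x

variable {P S₁ S₂ K : Subgroup (Perm α)} {τ : α → α}

theorem exists_St (h : SylIn 2 P ⊤) : ∃ τ, St P τ := by
  classical
  have h' : SylIn 2 P (symOn Set.univ) := symOn_univ ▸ h
  have : ∀ x, ∃ y, swap x y ∈ P ∧ ∀ c, x ≠ c → swap x c ∈ P → y = c := fun x => by
    by_cases e : ∃ c, x ≠ c ∧ swap x c ∈ P
    · obtain ⟨c, h1, h2⟩ := e
      exact ⟨c, h2, fun d h3 h4 => swap_unique h.pgrp h1 h3 h2 h4⟩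
    · exact ⟨x, swap_self x ▸ P.one_mem, fun c h1 h2 => absurd ⟨c, h1, h2⟩ e⟩
  choose τ h1 h2 using this
  have h3 : ∀ x, τ x = x → ∀ g ∈ P, g x = x := fun x e g hg =>
    h'.apply_eq_of_unpaired (fun c hc hs => hc (e.symm.trans (h2 x c hc hs))) hg
  refine ⟨τ, h, fun x => ?_, fun g hg x => ?_, h1, h3, fun l hl => ?_⟩
  · by_cases e : τ x = x
    exacts [by rw [e, e], h2 _ _ e (swap_comm x _ ▸ h1 x)]
  · by_cases e : τ x = x
    · rw [e, h3 x e g hg, e]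
    · exact (h2 _ _ (g.injective.ne (Ne.symm e)) (swap_conj_mem hg (h1 x))).symm
  · obtain ⟨x, hx, y, h4, h5⟩ := h.exists_paired l hl
    exact ⟨x, hx, h2 x y h4 h5 ▸ h4.symm⟩

omit [DecidableEq α] [Fintype α] in
theorem mo {a b : α} : b ∈ orbit P a ↔ ∃ g ∈ P, g a = b := mem_orbit_subgroup

omit [DecidableEq α] [Fintype α] in
theorem app {a b : α} {g : Perm α} (hg : g ∈ P) : g b ∈ orbit P a ↔ b ∈ orbit P a :=
  ⟨fun h => by simpa using mem_orbit_of_mem_orbit (⟨g⁻¹, inv_mem hg⟩ : P) h,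
    mem_orbit_of_mem_orbit (⟨g, hg⟩ : P)⟩

def Big (P : Subgroup (Perm α)) (τ : α → α) (x : α) : Prop := ∃ y ∈ orbit P x, y ≠ x ∧ y ≠ τ x

def Cen (P : Subgroup (Perm α)) (τ : α → α) (c : Perm α) (x : α) : Prop :=
  (∀ y ∈ orbit P x, c y = y) ∨ ∀ y ∈ orbit P x, c y = τ y

omit [DecidableEq α] [Fintype α] in
theorem Cen.diag {c : Perm α} {x : α} (hc : Cen P τ c x) : c x = x ∨ c x = τ x :=
  hc.imp (· x (mem_orbit_self x)) (· x (mem_orbit_self x))

def Mv (P S : Subgroup (Perm α)) (τ : α → α) (x : α) : Prop :=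
  ∃ s ∈ S, ∃ y ∈ orbit P x, s y ≠ y ∧ s y ≠ τ y

structure Dec (P S₁ S₂ : Subgroup (Perm α)) : Prop where
  l1 : S₁ ≤ P ⊓ alternatingGroup α
  l2 : S₂ ≤ P ⊓ alternatingGroup α
  comm : ∀ a ∈ S₁, ∀ b ∈ S₂, a * b = b * a
  dis : ∀ a ∈ S₁, a ∈ S₂ → a = 1
  mul : ∀ g ∈ P, sign g = 1 → ∃ a ∈ S₁, ∃ b ∈ S₂, a * b = g

theorem Dec.symm (h : Dec P S₁ S₂) : Dec P S₂ S₁ :=
  ⟨h.l2, h.l1, fun a ha b hb => (h.comm b hb a ha).symm, fun a ha hb => h.dis a hb ha,
    fun g hg e => let ⟨a, ha, b, hb, e⟩ := h.mul g hg e; ⟨b, hb, a, ha, h.comm a ha b hb ▸ e⟩⟩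

theorem Dec.ap (h : Dec P S₁ S₂) {a b : Perm α} (ha : a ∈ S₁) (hb : b ∈ S₂) (x : α) :
    a (b x) = b (a x) := congrArg (· x) (h.comm a ha b hb)

namespace St
variable (h : St P τ)
include h

theorem tau {a b : α} : τ b ∈ orbit P a ↔ b ∈ orbit P a := by
  simpa using app (a := a) (b := b) (h.mem b)

theorem fixT {a b y : α} (hb : b ∉ orbit P a) (hy : y ∈ orbit P a) : swap b (τ b) y = y :=
  swap_apply_of_ne_of_ne (fun e => hb (e ▸ hy)) fun e => hb (h.tau.1 (e ▸ hy))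

theorem res {U : Set α} (hU : ∀ g ∈ P, ∀ x, g x ∈ U ↔ x ∈ U) {g : Perm α} (hg : g ∈ P) :
    ∃ a ∈ P, (∀ x ∈ U, a x = g x) ∧ ∀ x ∉ U, a x = x := by
  classical
  let Q : Subgroup (Perm α) :=
    { carrier := {s | (∃ a ∈ P, ∀ x ∈ U, s x = a x) ∧ ∃ a ∈ P, ∀ x ∉ U, s x = a x}
      one_mem' := ⟨⟨1, P.one_mem, fun _ _ => rfl⟩, 1, P.one_mem, fun _ _ => rfl⟩
      mul_mem' := fun ⟨⟨a, ha, e⟩, b, hb, f⟩ ⟨⟨c, hc, e'⟩, d, hd, f'⟩ =>
        ⟨⟨a * c, mul_mem ha hc, fun x hx => by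
          rw [mul_apply, e' x hx, e _ ((hU c hc x).2 hx), mul_apply]⟩, b * d, mul_mem hb hd,
          fun x hx => by rw [mul_apply, f' x hx, f _ (mt (hU d hd x).1 hx), mul_apply]⟩
      inv_mem' := fun ⟨⟨a, ha, e⟩, b, hb, f⟩ =>
        ⟨⟨a⁻¹, inv_mem ha, fun x hx => by
          rw [Perm.inv_eq_iff_eq, e _ ((hU _ (inv_mem ha) x).2 hx)]; simp⟩, b⁻¹, inv_mem hb,
          fun x hx => by rw [Perm.inv_eq_iff_eq, f _ (mt (hU _ (inv_mem hb) x).1 hx)]; simp⟩ }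
  have hQ : IsPGroup 2 Q := fun ⟨s, ⟨a, ha, e⟩, b, hb, f⟩ => by
    obtain ⟨k, hk⟩ := exists_pow_eq_one_of_mem h.syl.pgrp ha
    obtain ⟨l, hl⟩ := exists_pow_eq_one_of_mem h.syl.pgrp hb
    have e1 : ∀ n : ℕ, ∀ x ∈ U, (s ^ n) x = (a ^ n) x := fun n => by
      induction n with
      | zero => exact fun _ _ => rfl
      | succ n ih =>
        intro x hx
        rw [pow_succ, pow_succ, mul_apply, e x hx, ih _ ((hU a ha x).2 hx), mul_apply]
    have e2 : ∀ n : ℕ, ∀ x ∉ U, (s ^ n) x = (b ^ n) x := fun n => by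
      induction n with
      | zero => exact fun _ _ => rfl
      | succ n ih =>
        intro x hx
        rw [pow_succ, pow_succ, mul_apply, f x hx, ih _ (mt (hU b hb x).1 hx), mul_apply]
    refine ⟨k + l, Subtype.ext (Equiv.ext fun x => ?_)⟩
    change (s ^ _) x = x
    by_cases hx : x ∈ U
    · rw [e1 _ x hx, pow_add, pow_mul, hk, one_pow, one_apply]
    · rw [e2 _ x hx, pow_add, pow_mul', hl, one_pow, one_apply]
  have e1 := fun x (hx : x ∈ U) => ofSubtype_subtypePerm_of_mem (hU g hg) hx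
  have e2 := fun x (hx : x ∉ U) => ofSubtype_subtypePerm_of_not_mem (hU g hg) hx
  exact ⟨_, (h.syl.eq_of_le hQ (fun a ha => ⟨⟨a, ha, fun _ _ => rfl⟩, a, ha, fun _ _ => rfl⟩)
    le_top).le ⟨⟨g, hg, e1⟩, 1, P.one_mem, e2⟩, e1, e2⟩

theorem big_ne {x : α} (hx : Big P τ x) : τ x ≠ x := fun e => by
  obtain ⟨_, hy, h1, -⟩ := hx
  obtain ⟨g, hg, rfl⟩ := mo.1 hy
  exact h1 (h.fix x e g hg)

theorem four_dvd {x : α} (hx : Big P τ x) : 4 ∣ (orbit P x).ncard := by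
  obtain ⟨n, hn⟩ := exists_ncard_orbit h.syl.pgrp x
  have h0 := h.big_ne hx
  obtain ⟨y, hy, h1, h2⟩ := hx
  have := (Set.two_lt_ncard (Set.toFinite _)).2 ⟨x, mem_orbit_self x, τ x,
    h.tau.2 (mem_orbit_self x), y, hy, h0.symm, h1.symm, h2.symm⟩
  rw [hn] at this ⊢
  exact pow_dvd_pow 2 (show 2 ≤ n by by_contra! e; interval_cases n <;> simp at this)

theorem big_app {x : α} {g : Perm α} (hg : g ∈ P) (hx : Big P τ x) : Big P τ (g x) := by
  obtain ⟨y, hy, h1, h2⟩ := hx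
  exact ⟨g y, orbit_eq_iff.2 ((app hg).2 (mem_orbit_self x)) ▸ (app hg).2 hy, g.injective.ne h1,
    h.eqv g hg x ▸ g.injective.ne h2⟩

theorem small {x y : α} (hx : ¬ Big P τ x) (hy : ¬ Big P τ y) (e : τ x = x ↔ τ y = y) :
    y = x ∨ y = τ x := by
  have key : ∀ {x}, ¬ Big P τ x → orbit P x = {x, τ x} := fun hx => Set.ext fun y =>
    ⟨fun hy => by_contra fun e => hx ⟨y, hy, not_or.1 e⟩, by
      rintro (rfl | rfl)
      exacts [mem_orbit_self _, h.tau.2 (mem_orbit_self _)]⟩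
  have := (symOn_univ ▸ h.syl : SylIn 2 P (symOn Set.univ)).orbit_eq_of_ncard_eq
    (Set.mem_univ x) (Set.mem_univ y) (by
      rw [key hx, key hy]
      by_cases e1 : τ x = x
      · simp [e1, e.1 e1]
      · rw [Set.ncard_pair (Ne.symm e1), Set.ncard_pair (Ne.symm (mt e.2 e1))])
  exact (key hx).le (this ▸ mem_orbit_self y)

theorem eq_one {c : Perm α} (hc : sign c = 1) (h1 : ∀ x, c x = x ∨ c x = τ x)
    (h2 : ∀ x, Big P τ x → c x = x) : c = 1 := by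
  by_contra e
  obtain ⟨i, k, h3, h4, h5, h6⟩ := four hc e
  have e1 := (h1 i).resolve_left h3
  exact (h.small (mt (h2 i) h3) (mt (h2 k) h4) (iff_of_false (e1 ▸ h3)
    ((h1 k).resolve_left h4 ▸ h4))).elim h5 (e1 ▸ h6)

theorem trans (h4 : 4 ≤ Fintype.card α) {a b : α} (hb : b ∈ orbit P a) :
    ∃ g ∈ P, sign g = 1 ∧ g a = b := by
  obtain ⟨g, hg, rfl⟩ := mo.1 hb
  rcases Int.units_eq_one_or (sign g) with e | e
  · exact ⟨g, hg, e, rfl⟩
  obtain ⟨x, h1, h2⟩ := h.pair [a, τ a] h4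
  refine ⟨g * swap x (τ x), mul_mem hg (h.mem x), by simp [e, h2.symm], ?_⟩
  rw [mul_apply, swap_apply_of_ne_of_ne] <;> rintro rfl <;> simp [h.inv] at h1

theorem cen {c : Perm α} (hc : c ∈ P) {a : α} (h1 : c a = a ∨ c a = τ a)
    (h2 : ∀ y ∈ orbit P a, ∃ g ∈ P, (∀ x, c (g x) = g (c x)) ∧ (g a = y ∨ g a = τ y)) :
    Cen P τ c a := by
  refine h1.imp (fun e y hy => ?_) fun e y hy => ?_ <;> obtain ⟨g, hg, e1, rfl | e2⟩ := h2 y hy
  · rw [e1, e]
  · rw [← h.inv y, ← e2, h.eqv c hc, e1, e]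
  · rw [e1, e, h.eqv g hg]
  · rw [← h.inv y, ← e2, h.eqv c hc, e1, e, h.eqv g hg]

theorem invol {c : Perm α} (hc : c ∈ P) (h1 : ∀ x, c x = x ∨ c x = τ x) (x : α) : c (c x) = x := by
  rcases h1 x with e | e <;> rw [e]
  exacts [e, by rw [h.eqv c hc, e, h.inv]]

theorem mem1 {U : Set α} (hK : ∀ a ∈ U, ∀ b ∈ U, swap a (τ a) * swap b (τ b) ∈ K) (n : ℕ) :
    ∀ c : Perm α, c.support.card = n → sign c = 1 → (∀ x, c x = x ∨ c x = τ x) →
      (∀ x ∉ U, c x = x) → c ∈ K := by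
  induction n using Nat.strong_induction_on with | _ n ih => ?_
  rintro c rfl h1 h2 h3
  by_cases e : c = 1
  · exact e ▸ K.one_mem
  obtain ⟨i, k, h4, h5, h6, h7⟩ := four h1 e
  have e1 := (h2 i).resolve_left h4
  have e2 := (h2 k).resolve_left h5
  have e3 := h.inv i
  have e4 := h.inv k
  have e5 : c (τ i) = i := ((h2 (τ i)).resolve_left fun e => h4 (e1.trans (c.injective
    (e.trans e1.symm)))).trans e3
  have e6 : c (τ k) = k := ((h2 (τ k)).resolve_left fun e => h5 (e2.trans (c.injective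
    (e.trans e2.symm)))).trans e4
  have key : ∀ x, (c * (swap i (τ i) * swap k (τ k))) x = x ∨
      (c * (swap i (τ i) * swap k (τ k))) x = c x ∧ x ≠ i := fun x => by
    simp only [mul_apply]
    grind
  refine (K.mul_mem_cancel_right (hK i (by_contra fun e => h4 (h3 i e)) k
    (by_contra fun e => h5 (h3 k e)))).1 (ih _ (Finset.card_lt_card ⟨fun x hx => ?_, fun e => ?_⟩) _
      rfl (by simp [h1, (e1 ▸ h4).symm, (e2 ▸ h5).symm]) (fun x => ?_) fun x hx => ?_)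
  · exact mem_support.2 fun e => mem_support.1 hx ((key x).elim id fun f => f.1.trans e)
  · exact ((key i).resolve_left (mem_support.1 (e (mem_support.2 h4)))).2 rfl
  · exact (key x).elim .inl fun f => f.1 ▸ h2 x
  · exact (key x).elim id fun f => f.1.trans (h3 x hx)

theorem mem2 (hno : ∀ x, τ x ≠ x → Big P τ x)
    (hK : ∀ x, ∀ a ∈ orbit P x, ∀ b ∈ orbit P x, swap a (τ a) * swap b (τ b) ∈ K) (n : ℕ) :
    ∀ c ∈ P, c.support.card = n → (∀ x, Cen P τ c x) → c ∈ K := by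
  induction n using Nat.strong_induction_on with | _ n ih => ?_
  rintro c hc rfl h1
  by_cases e : c = 1
  · exact e ▸ K.one_mem
  obtain ⟨a, ha⟩ := not_forall.1 fun f => e (Equiv.ext f)
  have h2 := (h1 a).resolve_left fun f => ha (f a (mem_orbit_self a))
  have h3 := hno a (h2 a (mem_orbit_self a) ▸ ha)
  obtain ⟨d, hd, e1, e2⟩ := h.res (U := orbit P a) (fun g hg x => app hg) hc
  have h4 : ∀ x, d x = x ∨ d x = τ x := fun x => by
    by_cases hx : x ∈ orbit P a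
    exacts [.inr ((e1 x hx).trans (h2 x hx)), .inl (e2 x hx)]
  have h5 : ∀ x ∈ orbit P a, (d⁻¹ * c) x = x := fun x hx => by rw [mul_apply, ← e1 x hx]; simp
  have h6 : ∀ x ∉ orbit P a, (d⁻¹ * c) x = c x := fun x hx => by
    rw [mul_apply, Perm.inv_eq_iff_eq, e2 _ (mt (app hc).1 hx)]
  refine (K.mul_mem_cancel_left (inv_mem (h.mem1 (hK a) _ d rfl (sign_of_four (h.invol hd h4)
    ((h.four_dvd h3).trans (congrArg _ (Set.ext fun x => Iff.symm ?_)).dvd)) h4 e2))).1 (ih _ (Finset.card_lt_card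
      ⟨fun x hx => ?_, fun e => ?_⟩) _ (mul_mem (inv_mem hd) hc) rfl fun x => ?_)
  · refine ⟨fun hx => by_contra fun e => hx (e2 x e), fun hx e => ?_⟩
    obtain ⟨g, hg, rfl⟩ := mo.1 hx
    exact h.big_ne (h.big_app hg h3) ((h2 _ hx).symm.trans ((e1 _ hx).symm.trans e))
  · exact mem_support.2 (h6 x (mt (h5 x) (mem_support.1 hx)) ▸ mem_support.1 hx)
  · exact mem_support.1 (e (mem_support.2 ha)) (h5 a (mem_orbit_self a))
  · by_cases hx : x ∈ orbit P a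
    · exact .inl (orbit_eq_iff.2 hx ▸ h5)
    · have : ∀ y ∈ orbit P x, (d⁻¹ * c) y = c y := fun y hy => h6 y fun e =>
        hx (orbit_eq_iff.2 e ▸ mem_orbit_symm.1 hy)
      exact (h1 x).imp (fun f y hy => (this y hy).trans (f y hy)) fun f y hy =>
        (this y hy).trans (f y hy)

theorem conjT {g : Perm α} (hg : g ∈ P) (a : α) :
    g * swap a (τ a) * g⁻¹ = swap (g a) (τ (g a)) := by
  rw [← swap_apply_apply, h.eqv g hg]

theorem sgn {a b : α} (ha : τ a ≠ a) (hb : τ b ≠ b) : sign (swap a (τ a) * swap b (τ b)) = 1 := by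
  simp [ha.symm, hb.symm]

theorem mv_all (h4 : 4 ≤ Fintype.card α) (d : Dec P S₁ S₂) {x y : α} (hx : Mv P S₁ τ x)
    (hy : y ∈ orbit P x) : ∃ s ∈ S₁, s y ≠ y ∧ s y ≠ τ y := by
  obtain ⟨s, hs, z, hz, h1, h2⟩ := hx
  obtain ⟨g, hg, e, rfl⟩ := h.trans h4 (orbit_eq_iff.2 hz ▸ hy)
  obtain ⟨a, ha, b, hb, rfl⟩ := d.mul g hg e
  refine ⟨a * s * a⁻¹, mul_mem (mul_mem ha hs) (inv_mem ha), ?_⟩
  simp only [mul_apply, coe_inv, symm_apply_apply, d.ap hs hb, ← h.eqv a (d.l1 ha).1,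
    ← h.eqv b (d.l2 hb).1]
  exact ⟨a.injective.ne (b.injective.ne h1), a.injective.ne (b.injective.ne h2)⟩

theorem core (d : Dec P S₁ S₂) {a b : α} (hb : b ∉ orbit P a) {u v s t : Perm α} (hu : u ∈ S₁)
    (hv : v ∈ S₂) (hs : s ∈ S₁) (ht : t ∈ S₂) (u1 : u a ≠ a) (u2 : u a ≠ τ a) (v1 : v a ≠ a)
    (v2 : v a ≠ τ a) (e : s * t = swap a (τ a) * swap b (τ b)) : t a ≠ a := fun e1 => by
  have uP := (d.l1 hu).1
  have vP := (d.l2 hv).1
  have a0 := mem_orbit_self (M := P) a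
  have n1 : τ (v a) ≠ v a := fun f => v1 (by simpa using (h.fix _ f _ (inv_mem vP)).symm)
  have f1 : ∀ y ∈ orbit P a, s (t y) = swap a (τ a) y := fun y hy => by
    rw [← mul_apply, e, mul_apply, h.fixT hb hy]
  have f2 : ∀ y ∈ orbit P a, (u * s * u⁻¹ * s⁻¹) y = swap (u a) (τ (u a)) (swap a (τ a) y) :=
    fun y hy => by
      have : u * s * u⁻¹ * s⁻¹ = u * (s * t) * u⁻¹ * (s * t)⁻¹ := by
        rw [← mul_assoc, mul_assoc _ t, ← d.comm _ (inv_mem hu) t ht]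
        group
      have hy' := (app (h.mem a)).2 hy
      rw [this, e, ← conj_mul, h.conjT uP, h.conjT uP]
      simp only [mul_inv_rev, swap_inv, mul_apply]
      rw [h.fixT hb hy', h.fixT (mt (app uP).1 hb) hy']
  have f3 := d.ap (mul_mem (mul_mem (mul_mem hu hs) (inv_mem hu)) (inv_mem hs)) hv a
  have i1 := h.inv a
  have i2 := h.inv (u a)
  rw [f2 _ a0, f2 _ ((app vP).2 a0), swap_apply_left, swap_apply_of_ne_of_ne v1 v2,
    swap_apply_of_ne_of_ne u2.symm (by grind), h.eqv v vP] at f3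
  have f4 : t (u a) = u a := by rw [← d.ap hu ht, e1]
  have f5 : t (v a) = v a := by
    have := h.eqv t (d.l2 ht).1 (u a)
    grind
  have f6 := f1 a a0
  have f7 := f1 _ ((app vP).2 a0)
  rw [e1, swap_apply_left] at f6
  rw [f5, d.ap hs hv, f6, h.eqv v vP, swap_apply_of_ne_of_ne v1 v2] at f7
  exact n1 f7

theorem not_both (h4 : 4 ≤ Fintype.card α) (d : Dec P S₁ S₂) {a b : α} (hb : b ∉ orbit P a)
    (hb' : τ b ≠ b) (m1 : Mv P S₁ τ a) (m2 : Mv P S₂ τ a) : False := by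
  have a0 := mem_orbit_self (M := P) a
  obtain ⟨u, hu, u1, u2⟩ := h.mv_all h4 d m1 a0
  obtain ⟨v, hv, v1, v2⟩ := h.mv_all h4 d.symm m2 a0
  have ha : τ a ≠ a := fun e => u1 (h.fix a e u (d.l1 hu).1)
  obtain ⟨s, hs, t, ht, e⟩ := d.mul _ (mul_mem (h.mem a) (h.mem b)) (h.sgn ha hb')
  have c1 := h.core d hb hu hv hs ht u1 u2 v1 v2 e
  have c2 := h.core d.symm hb hv hu ht hs v1 v2 u1 u2 (d.comm s hs t ht ▸ e)
  have f1 : ∀ y ∈ orbit P a, s (t y) = swap a (τ a) y := fun y hy => by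
    rw [← mul_apply, e, mul_apply, h.fixT hb hy]
  by_cases e1 : t a = τ a
  · have := f1 a a0
    rw [e1, swap_apply_left, h.eqv s (d.l1 hs).1] at this
    exact c2 (by rw [← h.inv (s a), this, h.inv])
  · have := f1 _ ((app (d.l2 ht).1).2 a0)
    rw [swap_apply_of_ne_of_ne c1 e1, d.ap hs ht, f1 a a0, swap_apply_left] at this
    exact ha (t.injective this)

theorem cen_of (h4 : 4 ≤ Fintype.card α) (d : Dec P S₁ S₂) {x : α} (hx : ¬ Mv P S₂ τ x)
    {s : Perm α} (hs : s ∈ S₂) : Cen P τ s x := by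
  have key : ∀ s ∈ S₂, s x = x ∨ s x = τ x := fun s hs =>
    by_contra fun e => hx ⟨s, hs, x, mem_orbit_self x, not_or.1 e⟩
  refine h.cen (d.l2 hs).1 (key s hs) fun y hy => ?_
  obtain ⟨g, hg, e, rfl⟩ := h.trans h4 hy
  obtain ⟨a, ha, b, hb, rfl⟩ := d.mul g hg e
  refine ⟨a, (d.l1 ha).1, fun x => (d.ap ha hs x).symm, (key b hb).imp (fun e => ?_) fun e => ?_⟩
  · rw [mul_apply, e]
  · rw [mul_apply, e, h.eqv a (d.l1 ha).1, h.inv]

theorem sign_cen (hno : ∀ x, τ x ≠ x → Big P τ x) {c : Perm α} (hc : c ∈ P)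
    (h1 : ∀ x, Cen P τ c x) : sign c = 1 := by
  have key : ∀ x, c x ≠ x → Big P τ x := fun x hx => hno x ((h1 x).diag.resolve_left hx ▸ hx)
  refine sign_of_four (h.invol hc fun x => (h1 x).diag) (dvd_ncard_of_orbits P _ (Set.toFinite _)
    (fun g hg x hx e => ?_) fun x hx => h.four_dvd (key x hx))
  exact h.big_ne (h.big_app hg (key x hx)) ((((h1 x).resolve_left fun f =>
    hx (f x (mem_orbit_self x))) _ ((app hg).2 (mem_orbit_self x))).symm.trans e)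

theorem multi (h4 : 4 ≤ Fintype.card α) (hno : ∀ x, τ x ≠ x → Big P τ x)
    (hb : ∀ a, ∃ b ∉ orbit P a, τ b ≠ b) (d : Dec P S₁ S₂) : S₁ = ⊥ ∨ S₂ = ⊥ := by
  have nb : ∀ a, Mv P S₁ τ a → Mv P S₂ τ a → False := fun a =>
    let ⟨_, h1, h2⟩ := hb a; h.not_both h4 d h1 h2
  have mv : ∀ {S a b}, b ∈ orbit P a → Mv P S τ b → Mv P S τ a := fun e ⟨s, hs, y, hy, f⟩ =>
    ⟨s, hs, y, orbit_eq_iff.2 e ▸ hy, f⟩
  wlog h2 : ∀ x, ¬ Mv P S₂ τ x generalizing S₁ S₂
  · obtain ⟨b, m2⟩ := not_forall_not.1 h2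
    refine (this d.symm (fun a m1 m2 => nb a m2 m1) fun a m1 => ?_).symm
    have ne : ∀ {S a}, S ≤ P ⊓ alternatingGroup α → Mv P S τ a → τ a ≠ a :=
      fun hS ⟨s, hs, y, hy, f, _⟩ e => by
        obtain ⟨g, hg, rfl⟩ := mo.1 hy
        exact f (by rw [h.fix _ e g hg, h.fix _ e s (hS hs).1])
    obtain ⟨s, hs, t, ht, e⟩ := d.mul _ (mul_mem (h.mem a) (h.mem b))
      (h.sgn (ne d.l1 m1) (ne d.l2 m2))
    have := h.sign_cen hno (mul_mem (h.mem a) (d.l1 hs).1) fun x => by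
      suffices ∃ c, Cen P τ c x ∧ ∀ y ∈ orbit P x, (swap a (τ a) * s) y = c y from
        let ⟨c, h1, h2⟩ := this
        h1.imp (fun f y hy => (h2 y hy).trans (f y hy)) fun f y hy => (h2 y hy).trans (f y hy)
      by_cases hx : Mv P S₂ τ x
      · exact ⟨s, h.cen_of h4 d.symm (fun m => nb x m hx) hs, fun y hy => h.fixT
          (fun f => nb x (mv f m1) hx) ((app (d.l1 hs).1).2 hy)⟩
      · refine ⟨t⁻¹, h.cen_of h4 d hx (inv_mem ht), fun y hy => ?_⟩
        rw [eq_mul_inv_of_mul_eq e, mul_assoc, swap_mul_self_mul, mul_apply,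
          h.fixT (fun f => hx (mv f m2)) ((app (d.l2 (inv_mem ht)).1).2 hy)]
    rw [map_mul, sign_swap (ne d.l1 m1).symm, mem_alternatingGroup.1 (d.l1 hs).2] at this
    exact absurd this (by decide)
  have cm : ∀ s ∈ S₂, ∀ g ∈ P, g * s = s * g := fun s hs g hg => Equiv.ext fun y => by
    have y0 := mem_orbit_self (M := P) y
    rcases h.cen_of h4 d (h2 y) hs with f | f <;>
      rw [mul_apply, mul_apply, f y y0, f _ ((app hg).2 y0)]
    exact h.eqv g hg y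
  have hc : ∀ g ∈ P, sign g = 1 → ∀ x ∈ P, sign x = 1 → g * x * g⁻¹ * x⁻¹ ∈ S₁ :=
    fun g hg e x hx f => by
      obtain ⟨a, ha, b, hb, rfl⟩ := d.mul g hg e
      obtain ⟨u, hu, v, hv, rfl⟩ := d.mul x hx f
      have : a * b * (u * v) * (a * b)⁻¹ * (u * v)⁻¹ = a * u * a⁻¹ * u⁻¹ := by
        rw [mul_assoc a, ← cm b hb _ hx, mul_inv_rev a, ← mul_assoc, ← mul_assoc a,
          mul_inv_cancel_right, ← mul_assoc a, mul_assoc _ v, ← d.comm _ (inv_mem ha) v hv]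
        group
      exact this ▸ mul_mem (mul_mem (mul_mem ha hu) (inv_mem ha)) (inv_mem hu)
  refine .inr (eq_bot_iff.2 fun c hc' => d.dis c (h.mem2 hno (fun x a' ha a hb' => ?_) _ c
    (d.l2 hc').1 rfl fun x => h.cen_of h4 d (h2 x) hc') hc')
  obtain ⟨g, hg, rfl⟩ := mo.1 (orbit_eq_iff.2 hb' ▸ ha : a' ∈ orbit P a)
  by_cases e : τ a = a
  · rw [h.fix a e g hg, swap_mul_self]
    exact S₁.one_mem
  obtain ⟨b, b1, b2⟩ := hb a
  obtain ⟨u, hu, u1, u2⟩ := h.res (U := orbit P a) (fun g hg x => app hg) hg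
  have a0 := mem_orbit_self (M := P) a
  obtain ⟨v, hv, v1, v2, v3⟩ : ∃ v ∈ P, sign v = 1 ∧ v a = g a ∧
      swap (v b) (τ (v b)) = swap b (τ b) := by
    rcases Int.units_eq_one_or (sign u) with f | f
    · exact ⟨u, hu, f, u1 a a0, by rw [u2 b b1]⟩
    · exact ⟨u * swap b (τ b), mul_mem hu (h.mem b), by simp [f, b2.symm],
        by rw [mul_apply, h.fixT b1 a0, u1 a a0],
        by rw [mul_apply, swap_apply_left, u2 _ (mt h.tau.1 b1), h.inv, swap_comm]⟩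
  have := hc v hv v1 _ (mul_mem (h.mem a) (h.mem b)) (h.sgn e b2)
  rwa [← conj_mul, h.conjT hv, h.conjT hv, v2, v3, mul_inv_rev, ← mul_assoc, mul_inv_cancel_right,
    swap_inv] at this

theorem single (h6 : 6 ≤ Fintype.card α) (hs : ∀ a b, Big P τ a → Big P τ b → b ∈ orbit P a)
    (d : Dec P S₁ S₂) : S₁ = ⊥ ∨ S₂ = ⊥ := by
  have key : ∀ {S₁ S₂}, Dec P S₁ S₂ → S₁ ≠ ⊥ → ∃ c ∈ S₁, c ≠ 1 ∧ ∀ x, Cen P τ c x :=
    fun {S₁ S₂} d h1 => by
      have := (nontrivial_iff_ne_bot _).2 h1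
      have := (h.syl.pgrp.to_le (d.l1.trans inf_le_left)).center_nontrivial
      obtain ⟨⟨⟨c, hc⟩, hz⟩, h2⟩ := exists_ne (1 : center S₁)
      have cm : ∀ g ∈ P, sign g = 1 → ∀ x, c (g x) = g (c x) := fun g hg e x => by
        obtain ⟨a, ha, b, hb, rfl⟩ := d.mul g hg e
        rw [mul_apply, mul_apply, ← d.ap hc hb]
        exact (congrArg (·.1 (b x)) (mem_center_iff.1 hz ⟨a, ha⟩)).symm
      refine ⟨c, hc, fun e => h2 (Subtype.ext (Subtype.ext e)), fun x => h.cen (d.l1 hc).1 ?_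
        fun y hy => ?_⟩
      · by_contra! e
        have e1 : τ x ≠ x := fun f => e.1 (h.fix x f c (d.l1 hc).1)
        obtain ⟨y, y1, y2⟩ := h.pair [x, τ x, c x, τ (c x)] h6
        have := cm _ (mul_mem (h.mem x) (h.mem y)) (h.sgn e1 y2) x
        have i1 := h.inv y
        simp only [List.mem_cons, not_or] at y1
        rw [mul_apply, mul_apply, swap_apply_of_ne_of_ne (x := x) (by grind) (by grind),
          swap_apply_left, swap_apply_of_ne_of_ne (x := c x) (by grind) (by grind),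
          swap_apply_of_ne_of_ne e.1 e.2] at this
        exact e1 (c.injective this)
      · obtain ⟨g, hg, e, f⟩ := h.trans (by omega) hy
        exact ⟨g, hg, cm g hg e, .inl f⟩
  by_contra! e
  obtain ⟨c, c1, c2, c3⟩ := key d e.1
  obtain ⟨b, b1, b2, b3⟩ := key d.symm e.2
  have k2 : ∀ c, sign c = 1 → c ≠ 1 → (∀ x, Cen P τ c x) → ∀ x, Big P τ x → c x = τ x :=
    fun c h1 h2 h3 x hx => ((h3 x).resolve_left fun f => h2 (h.eq_one h1 (fun x => (h3 x).diag)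
      fun y hy => f y (hs x y hx hy))) x (mem_orbit_self x)
  have s1 := mem_alternatingGroup.1 (d.l1 c1).2
  have s2 := mem_alternatingGroup.1 (d.l2 b1).2
  have := h.eq_one (c := c * b) (by simp [s1, s2]) (fun x => by
    have := h.eqv c (d.l1 c1).1 x
    have := (c3 x).diag
    have := (b3 x).diag
    have := h.inv x
    rw [mul_apply]
    grind) fun x hx => by
      rw [mul_apply, k2 b s2 b2 b3 x hx, h.eqv c (d.l1 c1).1, k2 c s1 c2 c3 x hx, h.inv]
  exact c2 (d.dis c c1 (eq_inv_of_mul_eq_one_left this ▸ inv_mem b1))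

theorem pos {a b d : α} (ha : Big P τ a) (hb : Big P τ b) (hab : b ∉ orbit P a) (hd : τ d ≠ d)
    (hd' : ¬ Big P τ d) : ∃ S₁ S₂, S₁ ≠ ⊥ ∧ S₂ ≠ ⊥ ∧
      IsInternalDirectProduct S₁ S₂ (P ⊓ alternatingGroup α) := by
  have od : ∀ y ∈ orbit P d, y = d ∨ y = τ d := fun y hy => by_contra fun e =>
    hd' ⟨y, hy, not_or.1 e⟩
  have d0 := mem_orbit_self (M := P) d
  have nd : ∀ {a}, Big P τ a → d ∉ orbit P a := fun ha e => by
    obtain ⟨g, hg, rfl⟩ := mo.1 e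
    exact hd' (h.big_app hg ha)
  have T : ∀ {U : Set α} {x y}, x ∈ orbit P y → orbit P y ⊆ U → swap x (τ x) ∈ symOn U :=
    fun e f => swap_mem_symOn (f e) (f (h.tau.2 e))
  have db : ∀ {x}, x ∉ orbit P a → orbit P x ⊆ (orbit P a)ᶜ := fun hx y hy e =>
    hx (orbit_eq_iff.2 e ▸ mem_orbit_symm.1 hy)
  have ne : ∀ {a U}, Big P τ a → orbit P a ⊆ U → orbit P d ⊆ U →
      P ⊓ alternatingGroup α ⊓ symOn U ≠ ⊥ := fun {a U} ha e f g => by
    have a0 := mem_orbit_self (M := P) a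
    have := congrArg (· a) (mem_bot.1 (g.le ⟨⟨mul_mem (h.mem a) (h.mem d),
      h.sgn (h.big_ne ha) hd⟩, mul_mem (T a0 e) (T d0 f)⟩))
    exact h.big_ne ha (by simpa [h.fixT (nd ha) a0] using this)
  refine ⟨_ ⊓ symOn (orbit P a ∪ orbit P d), _ ⊓ symOn (orbit P a)ᶜ, ne ha (by simp) (by simp),
    ne hb (db hab) (db (nd ha)), inf_le_left, inf_le_left,
    fun s ⟨⟨s1, _⟩, s2⟩ t ⟨⟨t1, _⟩, t2⟩ => Equiv.ext fun y => ?_,
    eq_bot_iff.2 fun s ⟨⟨⟨s1, s0⟩, s2⟩, _, s3⟩ => ?_, le_antisymm (sup_le inf_le_left inf_le_left) fun g ⟨g1, g2⟩ => ?_⟩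
  · rw [mul_apply, mul_apply]
    by_cases e : y ∈ orbit P a
    · rw [mem_symOn.1 t2 y (not_not.2 e), mem_symOn.1 t2 _ (not_not.2 ((app s1).2 e))]
    by_cases f : y ∈ orbit P d
    · have := od _ ((app s1).2 d0)
      have := od _ ((app t1).2 d0)
      have := h.eqv s s1 d
      have := h.eqv t t1 d
      have := h.inv d
      have := od y f
      grind
    · rw [mem_symOn.1 s2 y (not_or.2 ⟨e, f⟩),
        mem_symOn.1 s2 _ (not_or.2 ⟨mt (app t1).1 e, mt (app t1).1 f⟩)]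
  · have key : ∀ y ∉ orbit P d, s y = y := fun y f => by
      by_cases e : y ∈ orbit P a
      exacts [mem_symOn.1 s3 y (not_not.2 e), mem_symOn.1 s2 y (not_or.2 ⟨e, f⟩)]
    refine h.eq_one s0 (fun y => ?_) fun y hy => key y fun e => nd hy (mem_orbit_symm.1 e)
    by_cases f : y ∈ orbit P d
    · have := od _ ((app s1).2 f)
      have := od y f
      have := h.inv d
      grind
    · exact .inl (key y f)
  · obtain ⟨u, hu, u1, u2⟩ := h.res (U := orbit P a) (fun g hg x => app hg) g1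
    have m1 : u ∈ symOn (orbit P a ∪ orbit P d) := mem_symOn.2 fun x hx => u2 x (not_or.1 hx).1
    have m2 : u⁻¹ * g ∈ symOn (orbit P a)ᶜ := mem_symOn.2 fun x hx => by
      rw [mul_apply, ← u1 x (not_not.1 hx)]; simp
    have g3 := mem_alternatingGroup.1 g2
    rcases Int.units_eq_one_or (sign u) with f | f
    · exact mul_inv_cancel_left u g ▸ mul_mem_sup ⟨⟨hu, f⟩, m1⟩
        ⟨⟨P.mul_mem (P.inv_mem hu) g1, by simp [f, g3]⟩, m2⟩
    · have : g = u * swap d (τ d) * (swap d (τ d) * (u⁻¹ * g)) := by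
        rw [mul_assoc, swap_mul_self_mul, mul_inv_cancel_left]
      exact this ▸ mul_mem_sup ⟨⟨mul_mem hu (h.mem d), by simp [f, hd.symm]⟩,
        mul_mem m1 (T d0 (by simp))⟩ ⟨⟨mul_mem (h.mem d) (P.mul_mem (P.inv_mem hu) g1),
          by simp [f, g3, hd.symm]⟩, mul_mem (T d0 (db (nd ha))) m2⟩

end St

theorem dec_of (h : IsInternalDirectProduct S₁ S₂ (P ⊓ alternatingGroup α)) : Dec P S₁ S₂ := by
  obtain ⟨h1, h2, h3, h4, h5⟩ := h
  refine ⟨h1, h2, h3, fun a ha hb => mem_bot.1 (h4.le ⟨ha, hb⟩), fun g hg e => ?_⟩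
  have : g ∈ (S₁ ⊔ S₂ : Subgroup _) := h5.ge ⟨hg, e⟩
  rw [← SetLike.mem_coe, coe_mul_of_left_le_normalizer_right _ _ fun a ha =>
    mem_normalizer_fintype fun b hb => by rwa [h3 a ha b hb, mul_inv_cancel_right]] at this
  exact this


/-- Direct decomposability of the Sylow 2-subgroups of the alternating groups. Let n ≥ 4 and let P be a Sylow 2-subgroup of the alternating group of degree n. Then P is the internal direct product of two nontrivial subgroups if and only if n = 4, n = 5, or n ≡ 2, 3 (mod 4) with 4⌊n/4⌋ not a power of 2. In the remaining cases (n ≡ 0, 1 (mod 4) with n ≥ 8, or n ≡ 2, 3 (mod 4) with 4⌊n/4⌋ a power of 2) P is directly indecomposable. -/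
theorem result (n : ℕ) (hn : 4 ≤ n)
    (P : Sylow 2 (alternatingGroup (Fin n))) :
    (∃ S₁ S₂ : Subgroup (alternatingGroup (Fin n)), S₁ ≠ ⊥ ∧ S₂ ≠ ⊥ ∧
        Cfsg.IsInternalDirectProduct S₁ S₂ (P : Subgroup (alternatingGroup (Fin n)))) ↔
      (n = 4 ∨ n = 5 ∨ ((n % 4 = 2 ∨ n % 4 = 3) ∧ ∀ r : ℕ, 4 * (n / 4) ≠ 2 ^ r)) := by
  rw [dec_map (subtype_injective _)]
  have hR := SylIn.of_sylow _ P
  have h4 : 4 ≤ Fintype.card (Fin n) := by simpa
  by_cases h6 : n < 6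
  · refine iff_of_true ?_ (by omega)
    have hc : 2 * Nat.card (P.1.map (alternatingGroup (Fin n)).subtype) = v2 n := by
      rw [card_map_of_injective (subtype_injective _)]
      exact two_mul_card_sylow_alt (by omega) P
    obtain ⟨a, b, c, d, v⟩ := hR.exists_V4 le_rfl h4
    obtain ⟨_, _, _, _, _, _, m1, m2, -⟩ := v
    generalize map (alternatingGroup (Fin n)).subtype P.1 = R at *
    have o : ∀ {a b c d : Fin n}, a ≠ b → a ≠ c → a ≠ d → b ≠ c → b ≠ d →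
        orderOf (swap a b * swap c d) = 2 := fun {a _ _ _} _ _ _ _ _ => orderOf_eq_prime
      (Equiv.ext fun x => by simp only [sq, mul_apply, one_apply]; grind)
      fun e => by have := congrArg (· a) e; simp only [mul_apply, one_apply] at this; grind
    have o1 := o (a := a) (b := b) (c := c) (d := d) ‹_› ‹_› ‹_› ‹_› ‹_›
    have o2 := o (a := a) (b := c) (c := b) (d := d) ‹_› ‹_› ‹_› (Ne.symm ‹_›) ‹_›
    have hn : swap a c * swap b d ∉ zpowers (swap a b * swap c d) := fun e => by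
      rw [mem_zpowers_iff_mem_range_orderOf, o1] at e
      have : ∀ i < 2, ((swap a b * swap c d) ^ i) a ≠ (swap a c * swap b d) a := fun i hi => by
        interval_cases i <;> simp only [pow_zero, pow_one, mul_apply, one_apply] <;> grind
      simp only [Finset.mem_image, Finset.mem_range] at e
      exact e.elim fun i e => this i e.1 (congrArg (· a) e.2)
    have cm : Commute (swap a b * swap c d) (swap a c * swap b d) :=
      Equiv.ext fun x => by simp only [mul_apply]; grind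
    have le := sup_le (zpowers_le.2 m1) (zpowers_le.2 m2)
    refine ⟨_, _, fun e => ?_, fun e => ?_, zpowers_le.2 m1, zpowers_le.2 m2, ?_, ?_,
      eq_of_le_of_card_ge le ?_⟩
    · simp [zpowers_eq_bot.1 e] at o1
    · simp [zpowers_eq_bot.1 e] at o2
    · rintro _ ⟨i, rfl⟩ _ ⟨j, rfl⟩
      exact cm.zpow_zpow i j
    · have : Fact (Nat.card (zpowers (swap a c * swap b d))).Prime :=
        ⟨by rw [Nat.card_zpowers, o2]; decide⟩
      exact subgroupOf_eq_bot.1 ((eq_bot_or_eq_top_of_prime_card _).resolve_right fun e =>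
        hn (zpowers_le.1 (subgroupOf_eq_top.1 e))) |>.eq_bot
    · have h1 := card_dvd_of_le le
      have h2 : Nat.card (zpowers (swap a b * swap c d)) <
          Nat.card ↥(zpowers (swap a b * swap c d) ⊔ zpowers (swap a c * swap b d)) :=
        not_le.1 fun e => hn ((eq_of_le_of_card_ge le_sup_left e).ge (mem_sup_right (mem_zpowers _)))
      have : Nat.card R = 4 := by
        have := v2_vals
        interval_cases n <;> omega
      rw [Nat.card_zpowers, o1] at h2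
      rw [this] at h1 ⊢
      have := Nat.le_of_dvd four_pos h1
      generalize Nat.card ↥(zpowers (swap a b * swap c d) ⊔ zpowers (swap a c * swap b d)) = k at *
      interval_cases k <;> simp at h1 ⊢
  obtain ⟨Q, hQ, e⟩ := hR.exists_eq_inf_alt
  obtain ⟨τ, h⟩ := exists_St hQ
  rw [e]
  have hU : 4 ∣ {x | Big Q τ x}.ncard := dvd_ncard_of_orbits Q _ (Set.toFinite _)
    (fun g hg x hx => h.big_app hg hx) fun x hx => h.four_dvd hx
  have hc := Set.ncard_add_ncard_compl {x | Big Q τ x}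
  rw [Nat.card_fin] at hc
  have hF : ({x | τ x = x}).ncard ≤ 1 := (Set.ncard_le_one (Set.toFinite _)).2 fun a ha b hb =>
    (h.small (mt h.big_ne (not_not.2 hb)) (mt h.big_ne (not_not.2 ha)) (iff_of_true hb ha)).elim id
      fun e => e.trans hb
  have hd : (∃ d, τ d ≠ d ∧ ¬ Big Q τ d) ∧ 2 ≤ {x | Big Q τ x}ᶜ.ncard ∧
      {x | Big Q τ x}ᶜ.ncard ≤ 3 ∨ (∀ d, τ d ≠ d → Big Q τ d) ∧ {x | Big Q τ x}ᶜ.ncard ≤ 1 := by
    by_cases e : ∃ d, τ d ≠ d ∧ ¬ Big Q τ d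
    · obtain ⟨d, h1, h2⟩ := id e
      refine .inl ⟨e, (Set.one_lt_ncard (Set.toFinite _)).2 ⟨d, h2, τ d, fun e => h2 ?_, h1.symm⟩,
        (Set.ncard_le_ncard (t := {d, τ d} ∪ {x | τ x = x}) fun x hx => ?_).trans
          ((Set.ncard_union_le _ _).trans (by rw [Set.ncard_pair h1.symm]; omega))⟩
      · simpa using h.big_app (h.mem d) e
      · exact or_iff_not_imp_right.2 fun f => h.small h2 hx (iff_of_false h1 f)
    · push Not at e
      exact .inr ⟨e, (Set.ncard_le_ncard fun x hx => not_not.1 (mt (e x) hx)).trans hF⟩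
  obtain ⟨a, ha⟩ := (Set.ncard_pos (s := {x | Big Q τ x})).1 (by omega)
  have hs : (∀ a b, Big Q τ a → Big Q τ b → b ∈ orbit Q a) ↔ ∃ r, 4 * (n / 4) = 2 ^ r := by
    rw [show 4 * (n / 4) = {x | Big Q τ x}.ncard by omega]
    refine ⟨fun f => ?_, fun ⟨r, hr⟩ a b ha hb => ?_⟩
    · rw [show {x | Big Q τ x} = orbit Q a from Set.ext fun b => ⟨f a b ha, fun e => by
        obtain ⟨g, hg, rfl⟩ := mo.1 e
        exact h.big_app hg ha⟩]
      exact exists_ncard_orbit hQ.pgrp a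
    · have e : orbit (stabilizer (Perm (Fin n)) {x | Big Q τ x}) a = {x | Big Q τ x} :=
        Set.ext fun b => ⟨fun e => by
          obtain ⟨g, hg, rfl⟩ := mo.1 e
          exact (mem_stabilizer_iff.1 hg).le (Set.smul_mem_smul_set ha), fun hb =>
            mo.2 ⟨swap a b, swap_smul_set (S := {x | Big Q τ x}) (iff_of_true ha hb), swap_apply_left a b⟩⟩
      exact ((hQ.mono (fun g hg => smul_set_eq_of_maps (S := {x | Big Q τ x}) fun x hx =>
        h.big_app hg hx) le_top).orbit_eq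
        a (e ▸ hr)).ge (e.ge hb)
  by_cases e : ∀ a b, Big Q τ a → Big Q τ b → b ∈ orbit Q a
  · refine iff_of_false (fun ⟨_, _, h1, h2, h3⟩ =>
      (h.single (by simpa using h6) e (dec_of h3)).elim h1 h2) ?_
    obtain ⟨r, hr⟩ := hs.1 e
    exact not_or.2 ⟨by omega, not_or.2 ⟨by omega, fun f => f.2 r hr⟩⟩
  have e' := not_exists.1 (mt hs.2 e)
  push Not at e
  obtain ⟨a, b, ha, hb, e⟩ := e
  obtain ⟨⟨d, h1, h2⟩, h3⟩ | ⟨h1, h2⟩ := hd
  · exact iff_of_true (h.pos ha hb e h1 h2) (.inr (.inr ⟨by omega, e'⟩))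
  refine iff_of_false (fun ⟨_, _, h2, h3, h5⟩ =>
    (h.multi h4 h1 (fun x => ?_) (dec_of h5)).elim h2 h3) (by omega)
  by_cases f : a ∈ orbit Q x
  exacts [⟨b, orbit_eq_iff.2 f ▸ e, h.big_ne hb⟩, ⟨a, f, h.big_ne ha⟩]

end Cfsg.Agent.S2221
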