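import Cfsg.Statements.S2222
import Mathlib
import Cfsg.Agent.Lib.SymSylow.Over2

set_option autoImplicit false
open Cfsg

namespace Cfsg.Agent.S2222

/-- In the alternating group of degree n ≥ 5 every subgroup H of odd index is pronormal: for every element g, the subgroups H and gHg⁻¹ are conjugate by an element of the subgroup they generate. -/
theorem result (n : ℕ) (hn : 5 ≤ n)
    (H : Subgroup (alternatingGroup (Fin n))) (hH : Odd H.index) : Cfsg.IsPronormal H := by
  obtain ⟨R, hR⟩ := H61.SylIn.exists_sylIn (p := 2) H
  have hR' : H61.SylIn 2 R ⊤ := hR.of_trans le_top (by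
    rw [Subgroup.relIndex_top_right]
    exact hH.not_two_dvd_nat)
  refine H61.conj_eq_of_sylow hR' hR.le ?_
  obtain ⟨S, rfl⟩ := hR'.exists_sylow_top
  have hS := H61.SylIn.of_sylow _ S
  have hN : ∀ x : alternatingGroup (Fin n), x ∈ Subgroup.normalizer ((S : Subgroup (alternatingGroup (Fin n))) : Set (alternatingGroup (Fin n))) →
      (x : Equiv.Perm (Fin n)) ∈ Subgroup.normalizer ((((S : Subgroup (alternatingGroup (Fin n))).map (alternatingGroup (Fin n)).subtype : Subgroup (Equiv.Perm (Fin n)))) : Set (Equiv.Perm (Fin n))) :=
    fun x hx => Subgroup.le_normalizer_map _ ⟨x, hx, rfl⟩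
  rcases hn.eq_or_lt with rfl | h6
  · obtain ⟨a, h1, h2, h3⟩ := hS.over_le_stabilizer le_rfl (k := 2) le_rfl (by simp)
    by_cases hT : H = ⊤
    · subst hT
      exact le_top.trans (Subgroup.normalizer_eq_top _).ge
    set M := MulAction.stabilizer (alternatingGroup (Fin 5)) a with hM
    have hHM : H ≤ M := fun g hg => h3 (H.map (alternatingGroup (Fin 5)).subtype)
      (Subgroup.map_mono hR.le) (lt_of_le_of_ne (Subgroup.map_subtype_le _) fun h' => hT (by
        rw [← Subgroup.comap_map_eq_self_of_injective (Subgroup.subtype_injective _) H, h']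
        exact Subgroup.subgroupOf_self _)) ⟨g, hg, rfl⟩
    have hNM : Subgroup.normalizer ((S : Subgroup (alternatingGroup (Fin 5))) : Set (alternatingGroup (Fin 5))) ≤ M := by
      intro x hx
      by_contra hxa
      have hxa' : (x : Equiv.Perm (Fin 5)) a ≠ a := hxa
      have h4 := H61.smul_orbit_of_mem_normalizer (hN x hx) a
      have h5 := congrArg Set.ncard h4
      rw [Set.ncard_smul_set, Equiv.Perm.smul_def, h2 _ hxa'] at h5
      have h6 : MulAction.orbit ((S : Subgroup (alternatingGroup (Fin 5))).map (alternatingGroup (Fin 5)).subtype) a = {a} := by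
        ext b
        rw [H61.mem_orbit_subgroup]
        constructor
        · rintro ⟨g, hg, rfl⟩
          exact h1 g hg
        · rintro rfl
          exact ⟨1, Subgroup.one_mem _, rfl⟩
      rw [h6, Set.ncard_compl_of_ncard_eq_add (n := 4) _ (by simp)] at h5
      simp at h5
    have hc : Nat.card (alternatingGroup (Fin 5)) = 60 := by
      rw [nat_card_alternatingGroup]; simp [Nat.factorial]
    have hS4 : Nat.card (S : Subgroup (alternatingGroup (Fin 5))) = 4 := by
      rw [S.card_eq_multiplicity, hc]
      have : Nat.factorization 60 2 = 2 := by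
        rw [Nat.factorization_def _ Nat.prime_two]; decide +kernel
      rw [this]; rfl
    have hMi : M.index = 5 := by
      rw [hM, MulAction.index_stabilizer]
      have := H61.orbit_eq_univ_of_alt_le (G := alternatingGroup (Fin 5)) le_rfl (by simp) a
      rw [this]; simp
    have hSi : (S : Subgroup (alternatingGroup (Fin 5))).index = 15 := by
      have := (S : Subgroup (alternatingGroup (Fin 5))).card_mul_index
      rw [hS4, hc] at this
      omega
    have h7 : (S : Subgroup (alternatingGroup (Fin 5))).relIndex H * H.relIndex M = 3 := by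
      rw [Subgroup.relIndex_mul_relIndex _ _ _ hR.le hHM]
      have := Subgroup.relIndex_mul_index (hR.le.trans hHM)
      rw [hMi, hSi] at this
      omega
    rcases (Nat.dvd_prime Nat.prime_three).1 (Dvd.intro _ h7) with h8 | h8
    · rw [le_antisymm (Subgroup.relIndex_eq_one.1 h8) hR.le]
    · rw [h8] at h7
      have h9 : H = M := le_antisymm hHM (Subgroup.relIndex_eq_one.1 (by omega))
      rw [h9]
      exact hNM.trans Subgroup.le_normalizer
  · intro x hx
    have := hS.normalizer_alt_le (by simp; omega) ⟨x.2, hN x hx⟩
    obtain ⟨y, hy, hyx⟩ := this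
    have : y = x := Subtype.ext hyx
    exact Subgroup.le_normalizer (hR.le (this ▸ hy))

end Cfsg.Agent.S2222
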