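import Cfsg.Statements.S2226
import Cfsg.Agent.Lib.Syl2.PronLin

set_option autoImplicit false
open Cfsg

namespace Cfsg.Agent.S2226


/-- Let F be a finite field with q² elements and d = 2^w ≥ 4 a power of 2 such that the unitary group PSU_d(q) (realised over F) is simple. Then every subgroup H of PSU_d(q) of odd index is pronormal: for every g, H and gHg⁻¹ are conjugate by an element of the subgroup they generate. -/
theorem result {F : Type*} [Field F] [Fintype F] (q : ℕ)
    (hF : Fintype.card F = q ^ 2) (w : ℕ) (hw : 2 ≤ w) (hs : IsSimpleGroup (Cfsg.PSU (2 ^ w) F q))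
    (H : Subgroup (Cfsg.PSU (2 ^ w) F q)) (hH : Odd H.index) : Cfsg.IsPronormal H := by
  have : H11.U.IsSq F q := ⟨hF⟩
  by_cases h2 : ringChar F = 2
  · have := ringChar.of_eq h2
    have key : ∀ d, 0 < d → ∀ H : Subgroup (Cfsg.PSU d F q),
        Odd H.index → Cfsg.IsPronormal H := fun d hd H hH => by
      obtain ⟨n, rfl⟩ : ∃ n, d = n + 1 := ⟨d - 1, by omega⟩
      refine H82.pronormal_of_comap (QuotientGroup.mk'_surjective _)
        (H82.pronormal_SU_char 2 q n ?_)
      rw [Subgroup.index_comap_of_surjective H (QuotientGroup.mk'_surjective _)]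
      exact hH.not_two_dvd_nat
    exact key _ (by positivity) H hH
  have hq : Odd (q ^ 2) := hF ▸ Nat.odd_iff.2 (FiniteField.odd_card_of_char_ne_two h2)
  obtain ⟨w, rfl⟩ : ∃ v, w = v + 2 := ⟨w - 2, by omega⟩
  exact H82.pronormal_PSU_odd q (hq.of_dvd_nat (dvd_pow_self q two_ne_zero)) w hH

end Cfsg.Agent.S2226
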