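import Mathlib
import Cfsg.Statements.S2227
import Cfsg.Agent.Lib.H5.E2Mk
import Cfsg.Agent.Lib.H5.E2Five

set_option autoImplicit false
open Cfsg

namespace Cfsg.Agent.S2227

/-- In the twisted group ²E₆(2) all elements of order 5 are conjugate, and the centralizer of an element of order 5 is isomorphic to the direct product of a cyclic group of order 5 with the alternating group of degree 8. -/
theorem result {K : Type*} [Field K] [Fintype K] (hK : Fintype.card K = 4) :
    (∀ x y : ↥(Cfsg.Lie.twistedE6 K 2), orderOf x = 5 → orderOf y = 5 → IsConj x y) ∧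
      ∀ x : ↥(Cfsg.Lie.twistedE6 K 2), orderOf x = 5 →
        Nonempty (↥(Subgroup.centralizer ({x} : Set ↥(Cfsg.Lie.twistedE6 K 2))) ≃* (Multiplicative (ZMod 5) × ↥(alternatingGroup (Fin 8)))) := by
  obtain ⟨τ, h⟩ := H5.E2.exists_md hK
  obtain ⟨u, ru⟩ := h.ex H5.E2.q5_ok
  refine ⟨fun x y hx hy => (h.conj_five ru hx).symm.trans (h.conj_five ru hy), fun x hx => ?_⟩
  obtain ⟨e⟩ := H5.E2.cent_conj (h.conj_five ru hx)
  exact (h.cent_five ru).map e.trans

end Cfsg.Agent.S2227
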