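import Cfsg.Statements.S2231
import Cfsg.Agent.Lib.SL2.Borel
import Cfsg.Agent.Lib.Tech58.Qd
import Cfsg.Agent.Lib.KInf.Transport

set_option autoImplicit false
open Cfsg

namespace Cfsg.Agent.S2231

theorem comm_of_sylow {G : Type*} [Group G] [Finite G] {p : ℕ} [Fact p.Prime] (P : Sylow p G)
    (hP : ∀ a ∈ (P : Subgroup G), ∀ b ∈ (P : Subgroup G), a * b = b * a) (U : Subgroup G)
    (hU : IsPGroup p U) : ∀ a ∈ U, ∀ b ∈ U, a * b = b * a := fun a ha b hb => by
  obtain ⟨Q, hQ⟩ := hU.exists_le_sylow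
  obtain ⟨g, rfl⟩ := MulAction.exists_smul_eq G P Q
  obtain ⟨a', ha', rfl⟩ := hQ ha
  obtain ⟨b', hb', rfl⟩ := hQ hb
  change MulAut.conj g a' * MulAut.conj g b' = MulAut.conj g b' * MulAut.conj g a'
  rw [← map_mul, ← map_mul, hP a' ha' b' hb']


/-- Let p be an odd prime and K a finite field of characteristic p. Then Qd(p) (the natural semidirect product of an elementary abelian group of order p² by SL₂(p)) is not involved in the projective special linear group PSL₂(K). -/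
theorem result {p : ℕ} [Fact p.Prime] (hp : p ≠ 2) {K : Type*} [Field K] [Fintype K] [CharP K p] : ¬ Cfsg.Involves ↥(Cfsg.qd p) (Matrix.ProjectiveSpecialLinearGroup (Fin 2) K) := by
  intro h
  obtain ⟨L, f, hf⟩ := H57.involves_iff.1 h
  have h1 := comm_of_sylow (H29.unitriSylowPSL K p) (by
    rintro _ ⟨a, ha, rfl⟩ _ ⟨b, hb, rfl⟩
    obtain ⟨a1, a2, a3⟩ := H10.mem_unitriSL_two.1 ha
    obtain ⟨b1, b2, b3⟩ := H10.mem_unitriSL_two.1 hb
    rw [← map_mul, ← map_mul]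
    congr 1
    ext i j
    fin_cases i <;> fin_cases j <;>
      simp [Matrix.mul_apply, Fin.sum_univ_two, a1, a2, a3, b1, b2, b3, add_comm])
  obtain ⟨P⟩ : Nonempty (Sylow p L) := inferInstance
  refine absurd (comm_of_sylow (P.mapSurjective hf) (by
    rintro _ ⟨a, ha, rfl⟩ _ ⟨b, hb, rfl⟩
    rw [← map_mul, ← map_mul]
    exact congrArg f (Subtype.ext (h1 _ (P.isPGroup'.map L.subtype) _ ⟨a, ha, rfl⟩ _ ⟨b, hb, rfl⟩)))
    _ ((H10.unitriSylowSL (Fin 3) (ZMod p) p).isPGroup'.comap_subtype (K := Cfsg.qd p))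
    (H58.Qd.tv 1) (H10.mem_unitriSL.2 ⟨fun i j hij => ?_, fun i => ?_⟩)
    (H58.Qd.tr 0 1) (H10.mem_unitriSL.2 ⟨fun i j hij => ?_, fun i => ?_⟩)) fun h2 => ?_
  rotate_right
  · have h3 := H58.Qd.tv_comm_tr (p := p) 0 1
    rw [h2, mul_inv_cancel_right, mul_inv_cancel, ← H58.Qd.tr_zero] at h3
    exact zero_ne_one (H58.Qd.aff_inj.1 h3).2.2.2.2.1
  all_goals
    fin_cases i <;> try fin_cases j
    all_goals first | rfl | exact absurd hij (by decide)

end Cfsg.Agent.S2231
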