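import Cfsg.Statements.S2232
import Mathlib
import Cfsg.Agent.Lib.MinDeg8.U3More
import Cfsg.Agent.Lib.Tech58.Qd
import Cfsg.Agent.Lib.KInf.Transport

set_option autoImplicit false
open Cfsg

namespace Cfsg.Agent.S2232

/-- Let p be an odd prime, q a power of p and K a finite field with q² elements. Then Qd(p) (the natural semidirect product of an elementary abelian group of order p² by SL₂(p)) is not involved in the projective special unitary group PSU₃(q) realised over K. -/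
theorem result {p : ℕ} [Fact p.Prime] (hp : p ≠ 2) {K : Type*} [Field K] [Fintype K] [CharP K p] (n : ℕ) (hn : 1 ≤ n) (hK : Fintype.card K = (p ^ n) ^ 2) : ¬ Cfsg.Involves ↥(Cfsg.qd p) (Cfsg.PSU 3 K (p ^ n)) := by
  haveI : H11.U.IsSq K (p ^ n) := ⟨hK⟩
  intro h
  obtain ⟨L, f, hf⟩ := H57.involves_iff.1 h
  let π := QuotientGroup.mk' (Subgroup.center (Cfsg.SU 3 K (p ^ n)))
  let M := L.comap π
  let ψ : M →* Cfsg.qd p := f.comp (π.subgroupComap L)
  have hψ : Function.Surjective ψ :=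
    hf.comp (π.subgroupComap_surjective_of_surjective L (QuotientGroup.mk'_surjective _))
  clear_value ψ M
  let W := (H58.Qd.V p).comap ψ
  obtain ⟨P⟩ : Nonempty (Sylow p W) := inferInstance
  have hF := P.normalizer_sup_eq_top
  have hPV : ((P : Subgroup W).map W.subtype).map ψ = H58.Qd.V p := by
    have h1 := (P.mapSurjective (ψ.subgroupComap_surjective_of_surjective (H58.Qd.V p) hψ)).is_maximal'
      (H58.Qd.isPGroup_V.to_subgroup ⊤) le_top
    refine le_antisymm ?_ fun v hv => ?_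
    · rintro _ ⟨_, ⟨x, -, rfl⟩, rfl⟩
      exact x.2
    · obtain ⟨x, hx, e⟩ : (⟨v, hv⟩ : H58.Qd.V p) ∈ (P.mapSurjective
        (ψ.subgroupComap_surjective_of_surjective (H58.Qd.V p) hψ) : Subgroup (H58.Qd.V p)) := by
        rw [← h1]; trivial
      exact ⟨x.1, ⟨x, hx, rfl⟩, congrArg Subtype.val e⟩
  have hP : IsPGroup p ((P : Subgroup W).map W.subtype) := P.isPGroup'.map _
  generalize (P : Subgroup W).map W.subtype = R at hF hPV hP
  have hN : (Subgroup.normalizer (R : Set M)).map ψ = ⊤ := by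
    have h1 := congrArg (Subgroup.map ψ) hF
    rw [Subgroup.map_sup, Subgroup.map_top_of_surjective _ hψ, sup_eq_left.2] at h1
    · exact h1
    · exact (Subgroup.map_comap_le _ _).trans (hPV ▸ Subgroup.map_mono Subgroup.le_normalizer)
  obtain ⟨e, he, hle⟩ := H8.U3.exists_le_Fx p (hP.map M.subtype)
  have hR : R.map M.subtype ≠ ⊥ := fun h0 => by
    rw [Subgroup.map_eq_bot_iff_of_injective _ M.subtype_injective] at h0
    have := H58.Qd.card_V (p := p)
    rw [← hPV, h0, Subgroup.map_bot, Subgroup.card_bot] at this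
    exact (Nat.one_lt_pow two_ne_zero (Fact.out : p.Prime).one_lt).ne this
  have hS : ∀ g ∈ Subgroup.normalizer (R : Set M), g.1 ∈ H8.U3.St (p ^ n) e := fun g hg =>
    H8.U3.normalizer_le_St he hle hR (Subgroup.le_normalizer_map _ ⟨g, hg, rfl⟩)
  let Q := (Subgroup.normalizer (R : Set M) ⊓ (H8.U3.Fx (p ^ n) e).subgroupOf M).map ψ
  have hQ : IsPGroup p Q := ((H8.U3.isPGroup_Fx p he).comap_subtype.to_inf_right).map ψ
  have h1 : H58.Qd.tv 1 ∈ Q := by
    obtain ⟨g, hg, e1⟩ : H58.Qd.tv 1 ∈ (Subgroup.normalizer (R : Set M)).map ψ := by rw [hN]; trivial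
    have h2 : H58.Qd.tv 1 ^ ((p ^ n) ^ 2 - 1) ∈ Q :=
      ⟨g ^ ((p ^ n) ^ 2 - 1), ⟨pow_mem hg _, H8.U3.pow_mem_Fx he.1 (hS g hg)⟩, by rw [map_pow, e1]⟩
    have h3 : H58.Qd.tv (1 : ZMod p) ^ ((p ^ n) ^ 2 - 1) * H58.Qd.tv 1 = 1 := by
      rw [← pow_succ, Nat.sub_add_cancel (Nat.one_le_iff_ne_zero.2 (by simp [(Fact.out : p.Prime).ne_zero]))]
      exact orderOf_dvd_iff_pow_eq_one.1 ((orderOf_dvd_of_pow_eq_one H58.Qd.tv_one_pow_p).trans
        ((dvd_pow_self p (by omega)).trans (dvd_pow_self _ two_ne_zero)))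
    rw [eq_inv_of_mul_eq_one_left h3] at h2
    exact inv_mem_iff.1 h2
  have h2 : ∀ x ∈ Q, H58.Qd.wy p * x * (H58.Qd.wy p)⁻¹ ∈ Q := by
    rintro _ ⟨x, hx, rfl⟩
    obtain ⟨g, hg, e1⟩ : H58.Qd.wy p ∈ (Subgroup.normalizer (R : Set M)).map ψ := by rw [hN]; trivial
    obtain ⟨l, hl⟩ := hS g hg
    obtain ⟨w, f', hfr⟩ := he.exists_fr
    exact ⟨g * x * g⁻¹, ⟨Subgroup.mul_mem _ (Subgroup.mul_mem _ hg hx.1) (Subgroup.inv_mem _ hg), hfr.conj_mem_Fx' hl hx.2⟩, by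
      rw [map_mul, map_mul, map_inv, e1]⟩
  have h3 := H58.Qd.dg_mem h1 h2 (-1) (by simp)
  have h4 : H58.Qd.dg (-1 : ZMod p) (by simp) ^ 2 = 1 := by
    rw [sq, H58.Qd.one_eq_aff, H58.Qd.dg, H58.Qd.aff_mul, H58.Qd.aff_inj]; simp
  obtain ⟨k, hk⟩ := hQ ⟨_, h3⟩
  have h5 : H58.Qd.dg (-1 : ZMod p) (by simp) ^ p ^ k = 1 := congrArg Subtype.val hk
  have h6 := pow_gcd_eq_one.2 ⟨h4, h5⟩
  rw [Nat.Coprime.gcd_eq_one (((Nat.coprime_primes Nat.prime_two Fact.out).2 hp.symm).pow_right k), pow_one,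
    H58.Qd.one_eq_aff, H58.Qd.dg, H58.Qd.aff_inj] at h6
  haveI : Fact (2 < p) := ⟨lt_of_le_of_ne (Fact.out : p.Prime).two_le hp.symm⟩
  exact ZMod.neg_one_ne_one h6.1

end Cfsg.Agent.S2232
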