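import Cfsg.Statements.S2239
import Cfsg.Agent.Lib.Suzuki.Subgroups

set_option autoImplicit false
open Cfsg

namespace Cfsg.Agent.S2239

theorem aux {a b : ℕ} (ha : 2 < a) (hb : 2 < b)
    (h : a ^ 2 * (a ^ 2 + 1) * (a - 1) = b ^ 2 * (b ^ 2 + 1) * (b - 1)) : a = b := by
  have key : ∀ a b : ℕ, 2 < a → a < b →
      a ^ 2 * (a ^ 2 + 1) * (a - 1) < b ^ 2 * (b ^ 2 + 1) * (b - 1) := by
    intro a b ha hab
    have h1 : a ^ 2 < b ^ 2 := Nat.pow_lt_pow_left hab two_ne_zero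
    exact Nat.mul_lt_mul'' (Nat.mul_lt_mul'' h1 (by omega)) (by omega)
  rcases lt_trichotomy a b with h' | h' | h'
  · exact absurd h (key a b ha h').ne
  · exact h'
  · exact absurd h (key b a hb h').ne'

/-- Subfield subgroups of the Suzuki group: let q = 2^(2m+1) and s = 2^(2k+1) with m, k ≥ 1 and 2k+1 dividing 2m+1 (so q is a power of s), both groups realised as stabilisers in SL₄ of the Suzuki–Tits ovoid. Then Sz(q) has a subgroup isomorphic to Sz(s), and any two subgroups of Sz(q) isomorphic to Sz(s) are conjugate. -/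
theorem result {F : Type*} [Field F] [Fintype F] {m : ℕ} (hm : 1 ≤ m) (hF : Fintype.card F = 2 ^ (2 * m + 1)) {K : Type*} [Field K] [Fintype K] {k : ℕ} (hk : 1 ≤ k) (hK : Fintype.card K = 2 ^ (2 * k + 1)) (hdiv : 2 * k + 1 ∣ 2 * m + 1) :
    (∃ S : Subgroup ↥(Cfsg.Sz F m), Nonempty (↥S ≃* ↥(Cfsg.Sz K k))) ∧
    ∀ S₁ S₂ : Subgroup ↥(Cfsg.Sz F m), Nonempty (↥S₁ ≃* ↥(Cfsg.Sz K k)) → Nonempty (↥S₂ ≃* ↥(Cfsg.Sz K k)) →
      ∃ g : ↥(Cfsg.Sz F m), S₂ = S₁.map (MulAut.conj g).toMonoidHom := by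
  haveI : H14.Sz.SzF F m := ⟨hm, hF⟩
  haveI : H14.Sz.SzF K k := ⟨hk, hK⟩
  let S := H14.Sz.stdModel F m
  let S' := H14.Sz.stdModel K k
  refine ⟨?_, ?_⟩
  · obtain ⟨φ⟩ := H14.Sz.exists_ringHom hK hF hdiv
    exact ⟨_, ⟨(MonoidHom.ofInjective (S.embed_injective S' φ)).symm⟩⟩
  · rintro S₁ S₂ ⟨e₁⟩ ⟨e₂⟩
    obtain ⟨x, F₁, h1, rfl⟩ := S.eq_subGrp_of_not_solvable (M := S₁) fun h =>
      S'.not_isSolvable (Group.isSolvable_of_surjective (f := e₁.toMonoidHom) e₁.surjective)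
    obtain ⟨y, F₂, h2, rfl⟩ := S.eq_subGrp_of_not_solvable (M := S₂) fun h =>
      S'.not_isSolvable (Group.isSolvable_of_surjective (f := e₂.toMonoidHom) e₂.surjective)
    have h3 := Nat.card_congr (e₁.trans e₂.symm).toEquiv
    rw [H14.Sz.Model.card_subGrp _ h1, H14.Sz.Model.card_subGrp _ h2] at h3
    obtain rfl := H14.Sz.subfield_eq_of_card_eq (aux h1 h2 h3)
    refine ⟨y * x⁻¹, ?_⟩
    rw [← H14.Sz.Model.conj_subGrp, H14.Sz.Model.conj_conj, inv_mul_cancel_right]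

end Cfsg.Agent.S2239
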