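import Cfsg.Statements.S2240
import Cfsg.Agent.Lib.Suzuki.Subgroups

set_option autoImplicit false
open Cfsg

namespace Cfsg.Agent.S2240

open H14.Sz in
theorem conj_u_zero {G : Type*} [Group G] {F : Type*} [Field F] [Fintype F] {m : ℕ} [SzF F m]
    (S : Model G F m) {g : G} (hg : g ∈ S.B) :
    ∃ c : F, c ≠ 0 ∧ ∀ b, g * S.u 0 b * g⁻¹ = S.u 0 (c * b) := by
  obtain ⟨a, d, k, rfl⟩ := S.mem_B_iff.1 hg
  refine ⟨th F k * k, mul_ne_zero (th_ne_zero k.ne_zero) k.ne_zero, fun b => ?_⟩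
  have : S.u a d * S.h k * S.u 0 b * (S.u a d * S.h k)⁻¹ =
      S.u a d * (S.h k * S.u 0 b * (S.h k)⁻¹) * (S.u a d)⁻¹ := by group
  rw [this, S.h_conj_u, S.u_conj_u]
  simp

open H14.Sz in
theorem card_eq_of {G : Type*} [Group G] {F : Type*} [Field F] [Fintype F] {m : ℕ} [SzF F m]
    (S : Model G F m) {E : Subgroup G} {F₀ : Subfield F} (h1 : E ≤ S.Z)
    (h : ∀ b, S.u 0 b ∈ E ↔ b ∈ F₀) : Nat.card E = Nat.card F₀ := by
  refine (Nat.card_congr (Equiv.ofBijective (fun b : F₀ => (⟨S.u 0 b, (h b).2 b.2⟩ : E))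
    ⟨fun b c hbc => Subtype.ext (S.u_inj.1 (congrArg Subtype.val hbc)).2, ?_⟩)).symm
  rintro ⟨g, hg⟩
  obtain ⟨b, rfl⟩ := h1 hg
  exact ⟨⟨b, (h b).1 hg⟩, rfl⟩

/-- Elementary abelian TI-subgroups of the Suzuki group: let q = 2^(2m+1) with m ≥ 1, the group realised as the stabiliser in SL₄ of the Suzuki–Tits ovoid, and n ≥ 2. There is an elementary abelian 2-subgroup E of order 2^n that is a TI-subgroup (every conjugate of E meeting E nontrivially is E itself) if and only if n divides 2m + 1. -/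
theorem result {F : Type*} [Field F] [Fintype F] {m : ℕ} (hm : 1 ≤ m) (hF : Fintype.card F = 2 ^ (2 * m + 1)) (n : ℕ) (hn : 2 ≤ n) :
    (∃ E : Subgroup ↥(Cfsg.Sz F m), Cfsg.IsElementaryAbelian 2 E ∧ Nat.card ↥E = 2 ^ n ∧
      ∀ x : ↥(Cfsg.Sz F m), E ⊓ E.map (MulAut.conj x).toMonoidHom ≠ ⊥ → x ∈ Subgroup.normalizer (E : Set ↥(Cfsg.Sz F m))) ↔ n ∣ 2 * m + 1 := by
  haveI : H14.Sz.SzF F m := ⟨hm, hF⟩
  let S := H14.Sz.stdModel F m
  haveI := S.finite
  constructor
  · rintro ⟨E, ⟨hc, h2⟩, hcard, hTI⟩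
    have hP : IsPGroup 2 E := IsPGroup.of_card hcard
    obtain ⟨x, hx⟩ := S.exists_conj_U_ge hP
    have hne : E ≠ ⊥ := by
      rintro rfl
      rw [Subgroup.card_bot] at hcard
      exact absurd hcard (Nat.one_lt_two_pow (by omega)).ne
    obtain ⟨⟨s, hs⟩, hs1⟩ := Subgroup.ne_bot_iff_exists_ne_one.1 hne
    obtain ⟨b, hb⟩ := (S.conj x).mem_Z_iff.2 ⟨hx hs, by rw [← sq]; exact h2 s hs⟩
    have hb0 : b ≠ 0 := by rintro rfl; exact hs1 (Subtype.ext (hb.trans (S.conj x).u_zero))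
    obtain ⟨k, hk⟩ := (S.conj x).exists_h_conj_u_zero hb0
    set T := (S.conj x).conj ((S.conj x).h k) with hT
    have e1 : T.u 0 1 = s := by rw [hT, H14.Sz.Model.conj_u, hk, hb]
    have hZ : E ≤ T.Z := by
      rw [hT, H14.Sz.Model.conj_Z_of_mem_B _ ((S.conj x).h_mem_B k)]
      exact fun g hg => (S.conj x).mem_Z_iff.2 ⟨hx hg, by rw [← sq]; exact h2 g hg⟩
    have hmul : ∀ a c : F, T.u 0 a ∈ E → T.u 0 c ∈ E → T.u 0 (a * c) ∈ E := by
      intro a c ha hc
      by_cases ha0 : a = 0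
      · rw [ha0, zero_mul, T.u_zero]; exact E.one_mem
      obtain ⟨l, hl⟩ := T.exists_h_conj_u_zero ha0
      have h3 := hTI (T.h l) (by
        intro h0
        have : T.u 0 a ∈ E ⊓ E.map (MulAut.conj (T.h l)).toMonoidHom :=
          ⟨ha, _, e1 ▸ hs, hl⟩
        rw [h0, Subgroup.mem_bot, T.u_eq_one] at this
        exact ha0 this.2)
      have h4 := (Subgroup.mem_normalizer_iff.1 h3 _).1 hc
      rw [T.h_conj_u, T.u_inj] at hl
      rw [T.h_conj_u, mul_zero, ← mul_one (H14.Sz.th F l * l), hl.2] at h4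
      exact h4
    let R : Subring F :=
      { carrier := {b | T.u 0 b ∈ E}
        mul_mem' := fun {a c} ha hc => hmul a c ha hc
        one_mem' := show T.u 0 1 ∈ E from e1 ▸ hs
        add_mem' := fun {a c} ha hc => show T.u 0 (a + c) ∈ E from
          T.u_zero_mul a c ▸ E.mul_mem ha hc
        zero_mem' := show T.u 0 0 ∈ E from T.u_zero ▸ E.one_mem
        neg_mem' := fun {a} ha => by
          haveI := H14.Sz.charP_two_of_card hF
          rw [CharTwo.neg_eq]; exact ha }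
    let F₀ : Subfield F :=
      { R with
        inv_mem' := fun a ha => by
          by_cases ha0 : a = 0
          · rw [ha0, inv_zero]; exact R.zero_mem
          have h5 : a⁻¹ = a ^ (Fintype.card F - 2) := by
            have h8 := H14.Sz.eight_le_card (F := F)
            apply inv_eq_of_mul_eq_one_left
            rw [← pow_succ, show Fintype.card F - 2 + 1 = Fintype.card F - 1 by omega]
            exact FiniteField.pow_card_sub_one_eq_one a ha0
          rw [h5]; exact R.pow_mem ha _ }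
    have h6 := card_eq_of T (F₀ := F₀) hZ fun _ => Iff.rfl
    obtain ⟨j, hj1, hj2⟩ := H14.Sz.subfield_card F₀
    rw [hcard, hj2] at h6
    rw [Nat.pow_right_injective le_rfl h6]
    exact hj1
  · intro hdiv
    obtain ⟨n, rfl⟩ : ∃ n', n = n' + 1 := ⟨n - 1, by omega⟩
    letI : Fintype (GaloisField 2 (n + 1)) := Fintype.ofFinite _
    have hK : Fintype.card (GaloisField 2 (n + 1)) = 2 ^ (n + 1) := by
      rw [← Nat.card_eq_fintype_card, GaloisField.card 2 _ (by omega)]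
    obtain ⟨φ⟩ := H14.Sz.exists_ringHom hK hF hdiv
    let E : Subgroup (Cfsg.Sz F m) :=
      { carrier := {g | ∃ b ∈ φ.fieldRange, g = S.u 0 b}
        mul_mem' := by
          rintro _ _ ⟨a, ha, rfl⟩ ⟨b, hb, rfl⟩
          exact ⟨a + b, add_mem ha hb, S.u_zero_mul a b⟩
        one_mem' := ⟨0, zero_mem _, S.u_zero.symm⟩
        inv_mem' := by
          rintro _ ⟨a, ha, rfl⟩
          exact ⟨a, ha, by rw [S.u_inv]; simp⟩ }
    have hE : ∀ b, S.u 0 b ∈ E ↔ b ∈ φ.fieldRange :=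
      fun b => ⟨fun ⟨c, hc, e⟩ => (S.u_inj.1 e).2 ▸ hc, fun hb => ⟨b, hb, rfl⟩⟩
    have hZ : E ≤ S.Z := by rintro _ ⟨b, -, rfl⟩; exact S.u_mem_Z b
    refine ⟨E, ⟨⟨⟨fun x y => Subtype.ext (S.commute_of_mem_Z (S.Z_le_U (hZ x.2)) (hZ y.2))⟩⟩,
      fun a ha => by rw [sq]; exact (S.mem_Z_iff.1 (hZ ha)).2⟩, ?_, fun x hx => ?_⟩
    · rw [card_eq_of S hZ hE, ← hK, ← Nat.card_eq_fintype_card]
      exact (Nat.card_congr φ.rangeRestrictFieldEquiv.toEquiv).symm
    · obtain ⟨⟨y, hy1, z, hz, rfl⟩, hy⟩ := Subgroup.ne_bot_iff_exists_ne_one.1 hx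
      have hz1 : z ≠ 1 := by rintro rfl; exact hy (Subtype.ext (map_one _))
      have hB : x ∈ S.B := S.mem_B_of_conj_mem_U (S.Z_le_U (hZ hz)) hz1
        (S.U_le_B (S.Z_le_U (hZ hy1)))
      obtain ⟨c, hc0, hc⟩ := conj_u_zero S hB
      obtain ⟨b, hb, rfl⟩ := hz
      have hb0 : b ≠ 0 := by rintro rfl; exact hz1 S.u_zero
      have h1 : c * b ∈ φ.fieldRange := (hE _).1 (hc b ▸ hy1)
      have h2 : c ∈ φ.fieldRange := by
        have := div_mem h1 hb
        rwa [mul_div_cancel_right₀ _ hb0] at this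
      rw [Subgroup.mem_normalizer_iff]
      intro g
      constructor
      · rintro ⟨d, hd, rfl⟩
        rw [hc]; exact (hE _).2 (mul_mem h2 hd)
      · intro hg
        have h3 : g ∈ S.Z := by
          have := S.conj_mem_Z (S.B.inv_mem hB) (hZ hg)
          simpa [mul_assoc] using this
        obtain ⟨d, rfl⟩ := h3
        rw [hc, hE] at hg
        have := div_mem hg h2
        rw [mul_div_cancel_left₀ _ hc0] at this
        exact (hE _).2 this

end Cfsg.Agent.S2240
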