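import Cfsg.Statements.S2245
import Mathlib
import Cfsg.Agent.Lib.SymSylow.Over2

set_option autoImplicit false
open Cfsg

namespace Cfsg.Agent.S2245

/-- For n ≥ 5 with n ≠ 6, a Sylow 2-subgroup of the alternating group A_n lies in exactly one maximal subgroup of A_n if and only if n = 2^k + 1 for some k ≥ 2; the same holds for the symmetric group S_n. -/
theorem result (n : ℕ) (hn : 5 ≤ n) (h6 : n ≠ 6) :
    ((∀ R : Sylow 2 ↥(alternatingGroup (Fin n)), (∃! M : Subgroup ↥(alternatingGroup (Fin n)), IsCoatom M ∧ (R : Subgroup ↥(alternatingGroup (Fin n))) ≤ M) ↔ ∃ k : ℕ, 2 ≤ k ∧ n = 2 ^ k + 1) ∧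
    (∀ R : Sylow 2 (Equiv.Perm (Fin n)), (∃! M : Subgroup (Equiv.Perm (Fin n)), IsCoatom M ∧ (R : Subgroup (Equiv.Perm (Fin n))) ≤ M) ↔ ∃ k : ℕ, 2 ≤ k ∧ n = 2 ^ k + 1)) := by
  have h5 : 5 ≤ Fintype.card (Fin n) := by simpa using hn
  constructor
  · intro R
    simpa using H61.existsUnique_coatom_sylow_iff le_rfl h5 R
  · intro R
    have h := H61.SylIn.of_sylow_top R
    rw [H61.existsUnique_coatom_iff]
    constructor
    · rintro ⟨M, h1, h2, h3⟩
      simpa using h.card_of_unique_over le_top h5 (lt_top_iff_ne_top.2 h1)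
        fun H hH hH' => h3 H hH hH'.ne
    · rintro ⟨k, hk, hn'⟩
      obtain ⟨a, h1, -, h3⟩ := h.over_le_stabilizer le_top hk (by simpa using hn')
      refine ⟨MulAction.stabilizer _ a, fun h' => ?_, fun g hg => h1 g hg,
        fun H hH hH' => h3 H hH (lt_top_iff_ne_top.2 hH')⟩
      obtain ⟨b, hb⟩ := H61.exists_not_mem_list [a] (by simp; omega)
      have h4 : Equiv.swap a b ∈ MulAction.stabilizer (Equiv.Perm (Fin n)) a := by
        rw [h']; trivial
      have h5 : Equiv.swap a b a = a := h4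
      exact hb (by simpa using h5)

end Cfsg.Agent.S2245
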