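import Cfsg.Statements.S2251
import Cfsg.Agent.Lib.Suzuki.Subgroups

set_option autoImplicit false
open Cfsg

namespace Cfsg.Agent.S2251

/-- The subgroups of the Suzuki group: with q = 2^(2m+1), m ≥ 1, r = 2^m and the group realised as the stabiliser in SL₄ of the Suzuki–Tits ovoid, every proper subgroup is contained in the normalizer of a Sylow 2-subgroup, or in the normalizer of a cyclic subgroup of order q − 1, q + 2r + 1 or q − 2r + 1, or in a subgroup isomorphic to a smaller Suzuki group Sz(s) with s = 2^(2k+1) ≥ 8 and 2k+1 a proper divisor of 2m+1. -/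
theorem result {F : Type*} [Field F] [Fintype F] {m : ℕ} (hm : 1 ≤ m) (hF : Fintype.card F = 2 ^ (2 * m + 1)) (M : Subgroup ↥(Cfsg.Sz F m)) (hM : M ≠ ⊤) :
    (∃ P : Sylow 2 ↥(Cfsg.Sz F m), M ≤ Subgroup.normalizer ((P : Subgroup ↥(Cfsg.Sz F m)) : Set ↥(Cfsg.Sz F m))) ∨
    (∃ U : Subgroup ↥(Cfsg.Sz F m), IsCyclic ↥U ∧ Nat.card ↥U ∈ ({2 ^ (2 * m + 1) - 1, 2 ^ (2 * m + 1) + 2 ^ (m + 1) + 1, 2 ^ (2 * m + 1) - 2 ^ (m + 1) + 1} : Set ℕ) ∧
      M ≤ Subgroup.normalizer (U : Set ↥(Cfsg.Sz F m))) ∨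
    (∃ (K : Type) (_ : Field K) (_ : Fintype K) (k : ℕ), 1 ≤ k ∧ k < m ∧ Fintype.card K = 2 ^ (2 * k + 1) ∧ 2 * k + 1 ∣ 2 * m + 1 ∧
      ∃ S : Subgroup ↥(Cfsg.Sz F m), Nonempty (↥S ≃* ↥(Cfsg.Sz K k)) ∧ M ≤ S) := by
  haveI : H14.Sz.SzF F m := ⟨hm, hF⟩
  let S := H14.Sz.stdModel F m
  rcases S.subgroup_classification M with ⟨x, hx⟩ | ⟨x, hx⟩ | ⟨A, hA, hx⟩ | ⟨x, F₀, h1, rfl⟩
  · refine Or.inl ⟨(S.conj x).sylow, ?_⟩
    rw [H14.Sz.Model.coe_sylow, H14.Sz.Model.normalizer_U]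
    exact hx
  · refine Or.inr (Or.inl ⟨(S.conj x).H, inferInstance, ?_, hx⟩)
    rw [H14.Sz.Model.card_H, hF]
    exact Or.inl rfl
  · refine Or.inr (Or.inl ⟨A, hA.isCyclic, ?_, hx⟩)
    rcases hA.card_cases with h | h
    · rw [h, hF]; exact Or.inr (Or.inl rfl)
    · rw [h, hF]; exact Or.inr (Or.inr rfl)
  · obtain ⟨k, hk1, hk2, hk3⟩ := H14.Sz.subfield_card' F₀ h1
    letI : Fintype (GaloisField 2 (2 * k + 1)) := Fintype.ofFinite _
    haveI := H14.Sz.Model.szF_galoisField hk1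
    refine Or.inr (Or.inr ⟨GaloisField 2 (2 * k + 1), inferInstance, inferInstance, k, hk1, ?_,
      H14.Sz.card_eq, hk2, _, (S.conj x).nonempty_subGrp_equiv
        (H14.Sz.stdModel (GaloisField 2 (2 * k + 1)) k) hk3, le_rfl⟩)
    have h2 := Nat.le_of_dvd (by omega) hk2
    by_contra h3
    have h4 : k = m := by omega
    subst h4
    apply hM
    rw [H14.Sz.subfield_eq_of_card_eq (F₀ := F₀) (F₁ := ⊤) (by
      rw [hk3, ← hF, ← Nat.card_eq_fintype_card]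
      exact (Nat.card_congr Subfield.topEquiv.toEquiv).symm)]
    exact (S.conj x).subGrp_top

end Cfsg.Agent.S2251
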