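import Cfsg.Statements.S2254
import Cfsg.Agent.Lib.SymSylow.Nilp3

set_option autoImplicit false
open Cfsg

namespace Cfsg.Agent.S2254

/-- Let n ≡ 3 (mod 4). Then every nilpotent subgroup of the symmetric group on n letters has order at most 3 times the order of a Sylow 2-subgroup of the symmetric group on n − 3 letters; the bound is attained by a nilpotent subgroup isomorphic to the direct product of such a Sylow 2-subgroup with a cyclic group of order 3; and any two nilpotent subgroups attaining the bound are conjugate. -/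
theorem result  (n : ℕ) (hn : n % 4 = 3)
    (P : Sylow 2 (Equiv.Perm (Fin (n - 3)))) :
    (∀ N : Subgroup (Equiv.Perm (Fin n)), Group.IsNilpotent N → Nat.card N ≤ 3 * Nat.card P) ∧
    (∃ M : Subgroup (Equiv.Perm (Fin n)), Group.IsNilpotent M ∧ Nat.card M = 3 * Nat.card P ∧
      Nonempty (M ≃* (↥(P : Subgroup (Equiv.Perm (Fin (n - 3)))) × Multiplicative (ZMod 3)))) ∧
    (∀ N₁ N₂ : Subgroup (Equiv.Perm (Fin n)), Group.IsNilpotent N₁ → Group.IsNilpotent N₂ →
      Nat.card N₁ = 3 * Nat.card P → Nat.card N₂ = 3 * Nat.card P →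
      ∃ g : Equiv.Perm (Fin n), N₂ = N₁.map (MulAut.conj g).toMonoidHom) := by
  obtain ⟨m, rfl⟩ : ∃ m, n = m + 3 := ⟨n - 3, by omega⟩
  have hm : m % 4 = 0 := by omega
  have hP : Nat.card P = H61.v2 m := H61.card_sylow_perm P
  have hc : Nat.card (Fin (m + 3)) = m + 3 := by simp
  refine ⟨fun N hN => ?_, ?_, fun N₁ N₂ h₁ h₂ c₁ c₂ => ?_⟩
  · have h := H61.two_mul_card_le_nilF (G := N) (Ω := Fin (m + 3))
    rw [hc, H61.nilF, if_pos hn, H61.v2_add_three hm] at h
    omega
  · obtain ⟨f, hf, -⟩ := H61.exists_prod_hom (m := m + 3 - 3) (n := m + 3) rfl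
    let φ := f.comp (((P : Subgroup (Equiv.Perm (Fin (m + 3 - 3)))).subtype).prodMap
      (MonoidHom.id (Multiplicative (ZMod 3))))
    have hφ : Function.Injective φ :=
      hf.comp (Subtype.val_injective.prodMap Function.injective_id)
    have e := MonoidHom.ofInjective hφ
    have := P.isPGroup'.isNilpotent
    refine ⟨φ.range, Group.nilpotent_of_mulEquiv e, ?_, ⟨e.symm⟩⟩
    rw [← Nat.card_congr e.toEquiv, Nat.card_prod, Nat.card_congr Multiplicative.toAdd,
      Nat.card_zmod, mul_comm]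
  · have key : ∀ N : Subgroup (Equiv.Perm (Fin (m + 3))), Group.IsNilpotent N →
        Nat.card N = 3 * Nat.card P → ∃ (S : Set (Fin (m + 3))) (O T : Subgroup _), S.ncard = 3 ∧
        H61.SylIn 3 O (⊤ ⊓ H61.symOn S) ∧ H61.SylIn 2 T (⊤ ⊓ H61.symOn Sᶜ) ∧ N = O ⊔ T := by
      intro N hN c
      obtain ⟨A, hA, h3, h2⟩ := H61.sym_extremal (G := N) hm hc (by rw [c, hP])
      obtain ⟨k1, k2, k3, k4⟩ := H61.exists_split_extremal A h3 h2
      have hA' : (A : Set (Fin (m + 3))).ncard = 3 := hA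
      refine ⟨A, _, _, hA', H61.sylIn_three hA' (le_inf le_top inf_le_right) k1, ?_, k4⟩
      obtain ⟨T, hT, hle⟩ := H61.SylIn.exists_le (K := ⊤ ⊓ H61.symOn (A : Set (Fin (m + 3)))ᶜ) k2
        (le_inf le_top inf_le_right)
      have h4 := H61.card_dvd_of_le_symOn (hT.le.trans inf_le_right)
      have h5 := Set.ncard_add_ncard_compl (A : Set (Fin (m + 3)))
      obtain ⟨e, he⟩ := IsPGroup.iff_card.mp hT.pgrp
      rw [he, show (A : Set (Fin (m + 3)))ᶜ.ncard = m by omega] at h4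
      have h6 := H61.le_v2_of_dvd h4
      rw [Subgroup.eq_of_le_of_card_ge hle (by omega)]
      exact hT
    obtain ⟨S₁, O₁, T₁, a₁, b₁, d₁, rfl⟩ := key N₁ h₁ c₁
    obtain ⟨S₂, O₂, T₂, a₂, b₂, d₂, rfl⟩ := key N₂ h₂ c₂
    obtain ⟨g, hg⟩ := H61.exists_image_eq (a₁.trans a₂.symm)
    obtain ⟨k, -, hk⟩ := H61.conj_of_image (Subgroup.mem_top g) hg b₁ b₂ d₁ d₂
    exact ⟨k, hk⟩

end Cfsg.Agent.S2254
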