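import Cfsg.Statements.S2255
import Cfsg.Agent.Lib.SymSylow.Nilp3

set_option autoImplicit false
open Cfsg

namespace Cfsg.Agent.S2255

/-- Let n be a natural number not congruent to 3 modulo 4, with n ∉ {5, 6, 9}. Then every nilpotent subgroup of the alternating group on n letters has order at most the order of a Sylow 2-subgroup of the alternating group (so the nilpotent subgroups of largest order are exactly the Sylow 2-subgroups). -/
theorem result  (n : ℕ) (hn : n % 4 ≠ 3)
    (h5 : n ≠ 5) (h6 : n ≠ 6) (h9 : n ≠ 9)
    (N : Subgroup (alternatingGroup (Fin n))) (hN : Group.IsNilpotent N)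
    (P : Sylow 2 (alternatingGroup (Fin n))) :
    Nat.card N ≤ Nat.card P := by
  have hev : H61.EvenAct N (Fin n) := by
    have h : ∀ g : N, Equiv.Perm.sign ((g : alternatingGroup (Fin n)) : Equiv.Perm (Fin n)) = 1 :=
      fun g => Equiv.Perm.mem_alternatingGroup.mp g.1.2
    intro _ _ g
    convert h g
    rfl
  have h := H61.four_mul_card_le_nilA hev
  rw [Nat.card_eq_fintype_card (α := Fin n), Fintype.card_fin] at h
  by_cases h1 : n ≤ 1
  · rw [H61.nilA, if_pos h1] at h
    have : 0 < Nat.card P := Nat.card_pos
    omega
  · rw [H61.nilA_eq (by omega) (by omega) h5 h6 h9, H61.nilF, if_neg hn] at h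
    have := H61.two_mul_card_sylow_alt (by omega) P
    omega

end Cfsg.Agent.S2255
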