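import Cfsg.Statements.S2256
import Cfsg.Agent.Lib.SymSylow.Nilp3

set_option autoImplicit false
open Cfsg

namespace Cfsg.Agent.S2256

/-- Let n ≡ 3 (mod 4) with n ≥ 7. Then every nilpotent subgroup of the alternating group on n letters has order at most 3 times the order of a Sylow 2-subgroup of the alternating group on n − 3 letters; the bound is attained by a nilpotent subgroup isomorphic to the direct product of such a Sylow 2-subgroup with a cyclic group of order 3; and any two nilpotent subgroups of the alternating group attaining the bound are conjugate in it. -/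
theorem result  (n : ℕ) (hn : n % 4 = 3) (h7 : 7 ≤ n)
    (P : Sylow 2 (alternatingGroup (Fin (n - 3)))) :
    (∀ N : Subgroup (alternatingGroup (Fin n)), Group.IsNilpotent N → Nat.card N ≤ 3 * Nat.card P) ∧
    (∃ M : Subgroup (alternatingGroup (Fin n)), Group.IsNilpotent M ∧ Nat.card M = 3 * Nat.card P ∧
      Nonempty (M ≃* (↥(P : Subgroup (alternatingGroup (Fin (n - 3)))) × Multiplicative (ZMod 3)))) ∧
    (∀ N₁ N₂ : Subgroup (alternatingGroup (Fin n)), Group.IsNilpotent N₁ → Group.IsNilpotent N₂ →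
      Nat.card N₁ = 3 * Nat.card P → Nat.card N₂ = 3 * Nat.card P →
      ∃ g : alternatingGroup (Fin n), N₂ = N₁.map (MulAut.conj g).toMonoidHom) := by
  obtain ⟨m, rfl⟩ : ∃ m, n = m + 3 := ⟨n - 3, by omega⟩
  have hm : m % 4 = 0 := by omega
  have hP : 2 * Nat.card P = H61.v2 m := H61.two_mul_card_sylow_alt (by omega) P
  have hc : Nat.card (Fin (m + 3)) = m + 3 := by simp
  have hinj := (alternatingGroup (Fin (m + 3))).subtype_injective
  have tr : ∀ N : Subgroup (alternatingGroup (Fin (m + 3))), Group.IsNilpotent N →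
      Group.IsNilpotent (N.map (alternatingGroup (Fin (m + 3))).subtype) ∧
      H61.EvenAct (N.map (alternatingGroup (Fin (m + 3))).subtype) (Fin (m + 3)) ∧
      Nat.card (N.map (alternatingGroup (Fin (m + 3))).subtype) = Nat.card N := fun N hN =>
    ⟨Group.nilpotent_of_mulEquiv (N.equivMapOfInjective _ hinj),
      @H61.evenAct_of_le _ _ _ _ (Subgroup.map_subtype_le _), Subgroup.card_map_of_injective hinj⟩
  refine ⟨fun N hN => ?_, ?_, fun N₁ N₂ h₁ h₂ c₁ c₂ => ?_⟩
  · obtain ⟨t1, t2, t3⟩ := tr N hN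
    have h := H61.four_mul_card_le_nilA t2
    rw [hc, H61.nilA_eq (by omega) (by omega) (by omega) (by omega) (by omega), H61.nilF,
      if_pos hn, H61.v2_add_three hm] at h
    omega
  · obtain ⟨f, hf, hs⟩ := H61.exists_prod_hom (m := m + 3 - 3) (n := m + 3) rfl
    let φ := (f.comp (((alternatingGroup (Fin (m + 3 - 3))).subtype.comp
      (P : Subgroup (alternatingGroup (Fin (m + 3 - 3)))).subtype).prodMap
      (MonoidHom.id (Multiplicative (ZMod 3))))).codRestrict (alternatingGroup (Fin (m + 3)))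
      fun x => Equiv.Perm.mem_alternatingGroup.mpr
        ((hs _).trans (Equiv.Perm.mem_alternatingGroup.mp x.1.1.2))
    have hφ : Function.Injective φ := fun a b hab =>
      (hf.comp ((Subtype.val_injective.comp Subtype.val_injective).prodMap Function.injective_id))
        (congrArg Subtype.val hab)
    have e := MonoidHom.ofInjective hφ
    have := P.isPGroup'.isNilpotent
    refine ⟨φ.range, Group.nilpotent_of_mulEquiv e, ?_, ⟨e.symm⟩⟩
    rw [← Nat.card_congr e.toEquiv, Nat.card_prod, Nat.card_congr Multiplicative.toAdd,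
      Nat.card_zmod, mul_comm]
  · have key : ∀ N : Subgroup (alternatingGroup (Fin (m + 3))), Group.IsNilpotent N →
        Nat.card N = 3 * Nat.card P → ∃ (S : Set (Fin (m + 3))) (O T : Subgroup _), S.ncard = 3 ∧
        H61.SylIn 3 O (alternatingGroup _ ⊓ H61.symOn S) ∧
        H61.SylIn 2 T (alternatingGroup _ ⊓ H61.symOn Sᶜ) ∧
        N.map (alternatingGroup (Fin (m + 3))).subtype = O ⊔ T := by
      intro N hN c
      obtain ⟨t1, t2, t3⟩ := tr N hN
      have hNA := Subgroup.map_subtype_le N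
      obtain ⟨A, hA, h3, h2⟩ := H61.alt_extremal t2 hm hc (by omega)
      obtain ⟨k1, k2, k3, k4⟩ := H61.exists_split_extremal A h3 h2
      have hA' : (A : Set (Fin (m + 3))).ncard = 3 := hA
      refine ⟨A, _, _, hA', H61.sylIn_three hA' (inf_le_inf_right _ hNA) k1, ?_, k4⟩
      obtain ⟨T, hT, hle⟩ := H61.SylIn.exists_le
        (K := alternatingGroup _ ⊓ H61.symOn (A : Set (Fin (m + 3)))ᶜ) k2 (inf_le_inf_right _ hNA)
      have h5 := Set.ncard_add_ncard_compl (A : Set (Fin (m + 3)))
      have h4 := H61.two_mul_card_dvd_of_le_symOn (hT.le.trans inf_le_right)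
        (hT.le.trans inf_le_left) (by omega)
      obtain ⟨e, he⟩ := IsPGroup.iff_card.mp hT.pgrp
      rw [he, show (A : Set (Fin (m + 3)))ᶜ.ncard = m by omega, ← pow_succ'] at h4
      have h6 := H61.le_v2_of_dvd h4
      rw [Subgroup.eq_of_le_of_card_ge hle (by omega)]
      exact hT
    obtain ⟨S₁, O₁, T₁, a₁, b₁, d₁, e₁⟩ := key N₁ h₁ c₁
    obtain ⟨S₂, O₂, T₂, a₂, b₂, d₂, e₂⟩ := key N₂ h₂ c₂
    obtain ⟨g, hgA, hg⟩ := H61.exists_image_eq_alt (a₁.trans a₂.symm) (by omega)
    obtain ⟨k, hkA, hk⟩ := H61.conj_of_image hgA hg b₁ b₂ d₁ d₂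
    refine ⟨⟨k, hkA⟩, Subgroup.map_injective hinj ?_⟩
    rw [e₂, hk, ← e₁, Subgroup.map_map, Subgroup.map_map]
    congr 1

end Cfsg.Agent.S2256
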