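import Cfsg.Statements.S2257
import Cfsg.Agent.Lib.MatConj.Sol2

set_option autoImplicit false
open Cfsg

namespace Cfsg.Agent.S2257

open H65 H64.SL2 MatrixGroups


/-- Let G = PSL_2(F) with F a field of order q = 2^p, p prime, and for x ∈ G call the solubilizer of x the set of y ∈ G such that x and y generate a solvable subgroup. Then the solubilizer of an involution has 3q(q − 1) elements; that of a non-identity element of order dividing q − 1 has 2q(q − 1) elements; and that of a non-identity element of order dividing q + 1 has 2(q + 1) elements. -/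
theorem result (p : ℕ) (hp : p.Prime) {F : Type*} [Field F] [Fintype F]
    (hF : Fintype.card F = 2 ^ p) (x : Matrix.ProjectiveSpecialLinearGroup (Fin 2) F) :
    (orderOf x = 2 → Nat.card {y : Matrix.ProjectiveSpecialLinearGroup (Fin 2) F // Group.IsSolvable ↥(Subgroup.closure ({x, y} : Set (Matrix.ProjectiveSpecialLinearGroup (Fin 2) F)))} = 3 * 2 ^ p * (2 ^ p - 1)) ∧
    (x ≠ 1 → orderOf x ∣ 2 ^ p - 1 → Nat.card {y : Matrix.ProjectiveSpecialLinearGroup (Fin 2) F // Group.IsSolvable ↥(Subgroup.closure ({x, y} : Set (Matrix.ProjectiveSpecialLinearGroup (Fin 2) F)))} = 2 * 2 ^ p * (2 ^ p - 1)) ∧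
    (x ≠ 1 → orderOf x ∣ 2 ^ p + 1 → Nat.card {y : Matrix.ProjectiveSpecialLinearGroup (Fin 2) F // Group.IsSolvable ↥(Subgroup.closure ({x, y} : Set (Matrix.ProjectiveSpecialLinearGroup (Fin 2) F)))} = 2 * (2 ^ p + 1)) := by
  classical
  obtain ⟨g, rfl⟩ := proj_surjective x
  have h2 : (2 : F) = 0 := two_eq_zero_of_even (hF ▸ dvd_pow_self 2 hp.ne_zero)
  have : CharP F 2 := (CharP.charP_iff_prime_eq_zero Nat.prime_two).2 h2
  have h4 : (4 : F) = 0 := by linear_combination 2 * h2
  have hc : ∀ g : SL(2, F), Nat.card {y // Sol (proj g) y} =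
      Nat.card {y // Sol (proj g) (proj y)} := fun g => by
    rw [card_sol_proj, Subgroup.card_eq_one.2 (center_eq_bot_of_two_eq_zero h2), one_mul]
  have ho : ¬ 2 ∣ Fintype.card F + 1 := by
    rw [Nat.dvd_add_right (hF ▸ dvd_pow_self 2 hp.ne_zero)]; decide
  have h0 : proj g ≠ 1 → orderOf (proj g) ∣ Fintype.card F - 1 ∨
      orderOf (proj g) ∣ Fintype.card F + 1 → ¬ orderOf (proj g) ∣ 2 := fun h1 h h' => by
    rw [((Nat.dvd_prime Nat.prime_two).1 h').resolve_left (by simpa using h1)] at h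
    have := Fintype.card_pos (α := F)
    omega
  have ht : ¬ orderOf (proj g) ∣ 2 → tr g ≠ 0 := fun h h' =>
    h (orderOf_dvd_of_pow_eq_one (proj_sq h'))
  rw [← hF]
  refine ⟨fun h => ?_, fun h1 h => ?_, fun h1 h => ?_⟩
  · have h1 : proj g ≠ 1 := fun e => by simp [e] at h
    have h3 : tr g = 0 := tr_eq_zero_of_sq (by rw [← sq]; exact orderOf_dvd_iff_pow_eq_one.1 h.dvd) h1
    have h5 : tr (mk (1 : F) 1 0 1 (by simp)) = 0 := by simp only [ent]; linear_combination h2
    have h6 : IsConj g (mk 1 1 0 1 (by simp)) :=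
      (isConj_comp_of_two_eq_zero h2 fun e => h1 (proj_eq_one_iff.2 e)).symm.trans (by
        rw [h3.trans h5.symm]
        exact isConj_comp_of_two_eq_zero h2 (by simp [mem_center_iff_entries, ent]))
    refine (card_sol_conj (proj.map_isConj h6)).trans ((hc _).trans ?_)
    rw [card_sol_unip one_ne_zero (fun v => v.1 ≠ v.2 ∧ (v.1 = 0 ∨ v.2 = 0)) (fun _ h => h.1)
      fun y hy => ?_]
    · have : Nat.card {v : F × F // v.1 ≠ v.2 ∧ (v.1 = 0 ∨ v.2 = 0)} = 2 * (Fintype.card F - 1) := by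
        rw [two_mul, ← Fintype.card_units, ← Fintype.card_sum, ← Nat.card_eq_fintype_card]
        refine (Nat.card_eq_of_bijective (Sum.elim (fun a : Fˣ => ⟨(0, a), by simp [a.ne_zero.symm]⟩)
          fun a : Fˣ => ⟨(a, 0), by simp⟩) ⟨?_, ?_⟩).symm
        · rintro (a | a) (b | b) hab <;>
            simp only [Sum.elim_inl, Sum.elim_inr, Subtype.mk.injEq, Prod.mk.injEq] at hab
          exacts [congrArg _ (Units.ext hab.2), absurd hab.2 a.ne_zero, absurd hab.1 a.ne_zero,
            congrArg _ (Units.ext hab.1)]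
        · rintro ⟨⟨s, t⟩, h1, h2⟩
          rcases h2 with h2 | h2
          · exact ⟨.inl (Units.mk0 t fun e => h1 (h2.trans e.symm)), Subtype.ext (Prod.ext h2.symm rfl)⟩
          · exact ⟨.inr (Units.mk0 s fun e => h1 (e.trans h2.symm)), Subtype.ext (Prod.ext rfl h2.symm)⟩
      rw [this]
      ring
    have h7 : tr y ≠ tr (mk (1 : F) 1 0 1 (by simp) * y) := fun e => hy (by
      simp only [ent] at e; linear_combination -e)
    refine ⟨fun h8 => ⟨h7, ?_⟩, fun h8 => sol_of_tr (h8.2.elim (fun e => Or.inl ⟨h5, e⟩)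
      fun e => Or.inr (Or.inl ⟨h5, e⟩))⟩
    rcases sol_cases 2 (Or.inl rfl) h8 with h9 | (h9 | h9 | h9) | ⟨h9, -⟩
    · refine absurd (sub_eq_zero.1 (pow_eq_zero_iff two_ne_zero |>.1 ?_)) h7
      rw [Red, h5] at h9
      linear_combination h9 + h4 - tr y * tr (mk (1 : F) 1 0 1 (by simp) * y) * h2
    exacts [Or.inl h9.2, Or.inr h9.2, Or.inl h9.1, absurd h9 (by decide)]
  · have h3 := h0 h1 (Or.inl h)
    rw [mul_assoc]
    exact (hc g).trans (card_sol_split 2 (Or.inl rfl) (h4 ▸ pow_ne_zero 2 (ht h3))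
      (by_contra fun hs => h3 (dvd_two_of_dvd h (orderOf_proj_dvd_add hs))) (ht h3) (by simp))
  · have h3 := h0 h1 (Or.inr h)
    exact (hc g).trans (card_sol_nonsplit 2 (Or.inl rfl) (fun hs => h3 (dvd_two_of_dvd
      (orderOf_proj_dvd_sub (h4 ▸ pow_ne_zero 2 (ht h3)) hs) h)) (ht h3) (by simp))

end Cfsg.Agent.S2257
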