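import Cfsg.Statements.S2258
import Cfsg.Agent.Lib.MatConj.Sol2

set_option autoImplicit false
open Cfsg

namespace Cfsg.Agent.S2258

open H65 H64.SL2 MatrixGroups

theorem card_sq_add_sq {F : Type*} [Field F] [Fintype F] [DecidableEq F] (h : ¬ IsSquare (-1 : F))
    (κ : F) : (Finset.univ.filter fun v : F × F => v.1 ^ 2 + v.2 ^ 2 = κ).card =
      if κ = 0 then 1 else Fintype.card F + 1 := by
  have h2 : (2 : F) ≠ 0 := fun e => h ⟨1, by linear_combination -e⟩
  have h0 : ∀ a b : F, a ^ 2 + b ^ 2 = 0 → a = 0 ∧ b = 0 := fun a b e => by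
    have hb : b = 0 := by_contra fun hb => h ⟨a / b, by field_simp; linear_combination -e⟩
    exact ⟨by simpa [hb] using e, hb⟩
  split_ifs with hκ
  · refine Finset.card_eq_one.2 ⟨0, Finset.eq_singleton_iff_unique_mem.2 ⟨by simp [hκ], fun v hv => ?_⟩⟩
    have := h0 _ _ ((Finset.mem_filter.1 hv).2.trans hκ)
    exact Prod.ext this.1 this.2
  have hs : ¬ Split (comp (0 : F)) := fun ⟨a, ha⟩ => h ⟨a, by
    rw [tr_comp] at ha; linear_combination -ha⟩
  obtain ⟨a, b, hab⟩ := exists_binary_form_eq (a := (1 : F)) (b := 0) (c := 1) (by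
    simpa using show (4 : F) ≠ 0 from fun e => h2 (by
      have : (2 : F) * 2 = 0 := by linear_combination e
      simpa using this)) κ
  rw [← Nat.card_eq_fintype_card, ← card_centralizer_of_not_split hs, ← Nat.card_eq_finsetCard]
  have key : ∀ z : Subgroup.centralizer {comp (0 : F)},
      (a * z.1 0 0 - b * z.1 1 0, a * z.1 1 0 + b * z.1 0 0) ∈
        Finset.univ.filter fun v : F × F => v.1 ^ 2 + v.2 ^ 2 = κ := fun z => by
    have h1 := Subgroup.mem_centralizer_singleton_iff.1 z.2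
    have h3 := det_eq z.1
    simp only [comp, ent] at h1
    simp only [Finset.mem_filter, Finset.mem_univ, true_and]
    linear_combination hab + (a ^ 2 + b ^ 2) * (h3 + z.1 1 0 * h1.1 - z.1 0 0 * h1.2.1)
  refine (Nat.card_eq_of_bijective (fun z => ⟨_, key z⟩) ⟨fun y z hyz => ?_, fun v => ?_⟩).symm
  · have h1 := Subgroup.mem_centralizer_singleton_iff.1 z.2
    have h3 := Subgroup.mem_centralizer_singleton_iff.1 y.2
    simp only [comp, ent, Subtype.mk.injEq, Prod.mk.injEq] at h1 h3 hyz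
    have h4 : y.1 0 0 = z.1 0 0 := mul_left_cancel₀ hκ (by
      linear_combination a * hyz.1 + b * hyz.2 - (y.1 0 0 - z.1 0 0) * hab)
    have h5 : y.1 1 0 = z.1 1 0 := mul_left_cancel₀ hκ (by
      linear_combination a * hyz.2 - b * hyz.1 - (y.1 1 0 - z.1 1 0) * hab)
    exact Subtype.ext (ext' h4 (by linear_combination h3.1 - h1.1 - h5) h5
      (by linear_combination h3.2.1 - h1.2.1 + h4))
  · obtain ⟨⟨u, v⟩, hv⟩ := v
    have h1 : u ^ 2 + v ^ 2 = κ := (Finset.mem_filter.1 hv).2
    refine ⟨⟨mk ((a * u + b * v) / κ) (-((a * v - b * u) / κ)) ((a * v - b * u) / κ)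
      ((a * u + b * v) / κ) (by
        field_simp; linear_combination (u ^ 2 + v ^ 2) * hab + κ * h1),
      Subgroup.mem_centralizer_singleton_iff.2 (by simp [comp, ent])⟩, Subtype.ext (Prod.ext ?_ ?_)⟩
    · simp only [ent]; field_simp; linear_combination u * hab
    · simp only [ent]; field_simp; linear_combination v * hab

theorem card_fiber {F : Type*} [Field F] [Fintype F] [DecidableEq F] (h2 : (2 : F) ≠ 0) (s t : F) :
    (Finset.univ.filter fun y : SL(2, F) => (tr y, tr (comp 0 * y)) = (s, t)).card =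
      (Finset.univ.filter fun v : F × F => v.1 ^ 2 + v.2 ^ 2 = s ^ 2 + t ^ 2 - 4).card := by
  refine Finset.card_bij (fun y _ => (y 0 0 - y 1 1, y 0 1 + y 1 0)) (fun y hy => ?_)
    (fun y hy z hz h => ?_) fun v hv => ⟨mk ((s + v.1) / 2) ((t + v.2) / 2) ((v.2 - t) / 2)
      ((s - v.1) / 2) ?_, ?_, ?_⟩
  · simp only [Finset.mem_filter, Finset.mem_univ, true_and, Prod.mk.injEq, comp, ent] at hy ⊢
    rw [← hy.1, ← hy.2]
    linear_combination (-4) * det_eq y
  · simp only [Finset.mem_filter, Finset.mem_univ, true_and, Prod.mk.injEq, comp, ent] at hy hz h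
    refine ext' (mul_left_cancel₀ h2 ?_) (mul_left_cancel₀ h2 ?_) (mul_left_cancel₀ h2 ?_)
      (mul_left_cancel₀ h2 ?_)
    · linear_combination hy.1 - hz.1 + h.1
    · linear_combination hy.2 - hz.2 + h.2
    · linear_combination hz.2 - hy.2 + h.2
    · linear_combination hy.1 - hz.1 - h.1
  · field_simp
    linear_combination -(Finset.mem_filter.1 hv).2
  · simp only [Finset.mem_filter, Finset.mem_univ, true_and, Prod.mk.injEq, comp, ent]
    constructor <;> field_simp <;> ring
  · simp only [ent]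
    ext <;> simp only <;> field_simp <;> ring

theorem card_pairs {F : Type*} [Field F] [Fintype F] [DecidableEq F] (h2 : (2 : F) ≠ 0)
    (h4 : (4 : F) = 1) : (Finset.univ.filter fun v : F × F => (v.1 ^ 2 + v.2 ^ 2 - 4 = 0 ∨
      (v.1 * v.2 = 0 ∨ v.1 ^ 2 = 1 ∧ v.2 ^ 2 = 1)) ∧
        ¬ v.1 ^ 2 + v.2 ^ 2 - 4 = 0).card + 1 = 2 * Fintype.card F := by
  have hm : (-1 : F) ≠ 1 := fun e => h2 (by linear_combination -e)
  have e1 := Finset.card_union_add_card_inter ((Finset.univ : Finset F) ×ˢ ({0} : Finset F))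
    (({0} : Finset F) ×ˢ (Finset.univ : Finset F))
  have e2 := Finset.card_filter_add_card_filter_not (s := ((Finset.univ : Finset F) ×ˢ ({0} : Finset F)) ∪
    (({0} : Finset F) ×ˢ (Finset.univ : Finset F))) fun v : F × F => v.1 ^ 2 + v.2 ^ 2 - 4 = 0
  have e3 : (((Finset.univ : Finset F) ×ˢ ({0} : Finset F)) ∪
      (({0} : Finset F) ×ˢ (Finset.univ : Finset F))).filter
      (fun v : F × F => v.1 ^ 2 + v.2 ^ 2 - 4 = 0) = (({1, -1} : Finset F) ×ˢ ({0} : Finset F)) ∪
        (({0} : Finset F) ×ˢ ({1, -1} : Finset F)) := by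
    ext ⟨s, t⟩
    simp only [Finset.mem_filter, Finset.mem_union, Finset.mem_product, Finset.mem_univ,
      Finset.mem_singleton, Finset.mem_insert, true_and, and_true, h4, sub_eq_zero,
      ← sq_eq_one_iff]
    constructor
    · rintro ⟨rfl | rfl, h⟩
      exacts [Or.inl ⟨by simpa using h, rfl⟩, Or.inr ⟨rfl, by simpa using h⟩]
    · rintro (⟨h, rfl⟩ | ⟨rfl, h⟩) <;> simp [h]
  have e4 : (Finset.univ.filter fun v : F × F => (v.1 ^ 2 + v.2 ^ 2 - 4 = 0 ∨ (v.1 * v.2 = 0 ∨ v.1 ^ 2 = 1 ∧ v.2 ^ 2 = 1)) ∧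
      ¬ v.1 ^ 2 + v.2 ^ 2 - 4 = 0) = (((Finset.univ : Finset F) ×ˢ ({0} : Finset F)) ∪
        (({0} : Finset F) ×ˢ (Finset.univ : Finset F))).filter
          (fun v : F × F => ¬ v.1 ^ 2 + v.2 ^ 2 - 4 = 0) ∪
          ({1, -1} : Finset F) ×ˢ ({1, -1} : Finset F) := by
    ext ⟨s, t⟩
    simp only [Finset.mem_filter, Finset.mem_union, Finset.mem_product, Finset.mem_univ,
      Finset.mem_singleton, Finset.mem_insert, true_and, and_true, mul_eq_zero,
      ← sq_eq_one_iff]
    have : s ^ 2 = 1 ∧ t ^ 2 = 1 → ¬ s ^ 2 + t ^ 2 - 4 = 0 := fun h e =>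
      h2 (by linear_combination h.1 + h.2 - e)
    tauto
  rw [e3, Finset.card_union_of_disjoint (by simp [Finset.disjoint_left])] at e2
  rw [e4, Finset.card_union_of_disjoint (by
    simp only [Finset.disjoint_left, Finset.mem_filter, Finset.mem_union, Finset.mem_product,
      Finset.mem_singleton, Finset.mem_insert, ← sq_eq_one_iff]
    rintro ⟨s, t⟩ ⟨⟨-, h⟩ | ⟨h, -⟩, -⟩ h'
    exacts [by simpa [show t = 0 from h] using h'.2, by simpa [show s = 0 from h] using h'.1])]
  rw [Finset.product_inter_product] at e1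
  simp only [Finset.card_product, Finset.card_pair hm.symm, Finset.card_singleton,
    Finset.univ_inter, Finset.inter_univ, Finset.card_univ] at e1 e2 ⊢
  omega

set_option maxHeartbeats 400000 in


/-- Let G = PSL_2(F) with F a field of order q = 3^p, p an odd prime, and for x ∈ G call the solubilizer of x the set of y ∈ G such that x and y generate a solvable subgroup. Then the solubilizer of an involution has q(q + 1) elements; that of an element of order 3 has q(q + 5)/2 elements; that of an element of order neither 1 nor 2 dividing q − 1 has q(q − 1) elements; and that of an element of order neither 1 nor 2 dividing q + 1 has q + 1 elements. -/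
theorem result (p : ℕ) (hp : p.Prime) (hodd : Odd p) {F : Type*} [Field F] [Fintype F]
    (hF : Fintype.card F = 3 ^ p) (x : Matrix.ProjectiveSpecialLinearGroup (Fin 2) F) :
    (orderOf x = 2 → Nat.card {y : Matrix.ProjectiveSpecialLinearGroup (Fin 2) F // Group.IsSolvable ↥(Subgroup.closure ({x, y} : Set (Matrix.ProjectiveSpecialLinearGroup (Fin 2) F)))} = 3 ^ p * (3 ^ p + 1)) ∧
    (orderOf x = 3 → 2 * Nat.card {y : Matrix.ProjectiveSpecialLinearGroup (Fin 2) F // Group.IsSolvable ↥(Subgroup.closure ({x, y} : Set (Matrix.ProjectiveSpecialLinearGroup (Fin 2) F)))} = 3 ^ p * (3 ^ p + 5)) ∧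
    (x ≠ 1 → orderOf x ≠ 2 → orderOf x ∣ 3 ^ p - 1 → Nat.card {y : Matrix.ProjectiveSpecialLinearGroup (Fin 2) F // Group.IsSolvable ↥(Subgroup.closure ({x, y} : Set (Matrix.ProjectiveSpecialLinearGroup (Fin 2) F)))} = 3 ^ p * (3 ^ p - 1)) ∧
    (x ≠ 1 → orderOf x ≠ 2 → orderOf x ∣ 3 ^ p + 1 → Nat.card {y : Matrix.ProjectiveSpecialLinearGroup (Fin 2) F // Group.IsSolvable ↥(Subgroup.closure ({x, y} : Set (Matrix.ProjectiveSpecialLinearGroup (Fin 2) F)))} = 3 ^ p + 1) := by
  classical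
  obtain ⟨g, rfl⟩ := proj_surjective x
  have : CharP F 3 := by
    obtain ⟨r, hr⟩ := CharP.exists F
    obtain ⟨n, h1, h2⟩ := FiniteField.card F r
    rwa [← (Nat.prime_dvd_prime_iff_eq h1 Nat.prime_three).1
      (h1.dvd_of_dvd_pow (hF ▸ h2 ▸ dvd_pow_self r n.ne_zero))]
  have := Fact.mk Nat.prime_three
  have h3 : (3 : F) = 0 := CharP.cast_eq_zero F 3
  have h2 : (2 : F) ≠ 0 := fun e => one_ne_zero (α := F) (by linear_combination h3 - e)
  have h4 : (4 : F) = 1 := by linear_combination h3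
  have hm : (-1 : F) ≠ 1 := fun e => h2 (by linear_combination -e)
  have hsq : ¬ IsSquare (-1 : F) := by
    obtain ⟨k, rfl⟩ := hodd
    rw [FiniteField.isSquare_neg_one_iff, hF, pow_succ, pow_mul, Nat.mul_mod, Nat.pow_mod]
    simp
  have hcube : ∀ t : F, (t ^ 2) ^ 3 = t ^ 2 → t = 0 ∨ t ^ 2 = 1 := fun t h => by
    have : t ^ 2 * ((t ^ 2 - 1) * (t ^ 2 + 1)) = 0 := by linear_combination h
    simp only [mul_eq_zero, pow_eq_zero_iff two_ne_zero] at this
    exact this.imp_right fun h => sub_eq_zero.1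
      (h.resolve_right fun e => hsq ⟨t, by linear_combination -e⟩)
  have hc : ∀ g : SL(2, F), Nat.card {y // Sol (proj g) (proj y)} =
      2 * Nat.card {y // Sol (proj g) y} := fun g => by
    rw [card_sol_proj]
    congr 1
    refine le_antisymm card_center_le_two (Finite.one_lt_card_iff_nontrivial.2
      ⟨⟨⟨-1, neg_one_mem_center⟩, 1, fun e => neg_one_ne_one h2 (congrArg Subtype.val e)⟩⟩)
  have hq : 3 ∣ Fintype.card F := hF ▸ dvd_pow_self 3 hp.ne_zero
  have h0 : proj g ≠ 1 → orderOf (proj g) ≠ 2 → orderOf (proj g) ∣ Fintype.card F - 1 ∨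
      orderOf (proj g) ∣ Fintype.card F + 1 → ¬ orderOf (proj g) ∣ 2 ∧ tr g ≠ 0 ∧ tr g ^ 2 ≠ 1 :=
    fun h1 h5 h => by
      have h6 : ¬ orderOf (proj g) ∣ 2 := fun h' =>
        h5 (((Nat.dvd_prime Nat.prime_two).1 h').resolve_left (by simpa using h1))
      refine ⟨h6, fun e => h6 (orderOf_dvd_of_pow_eq_one (proj_sq e)), fun e => ?_⟩
      rw [orderOf_eq_prime (proj_cube e) h1] at h
      have := Fintype.card_pos (α := F)
      omega
  rw [← hF]
  refine ⟨fun h => ?_, fun h => ?_, fun h1 h5 h => ?_, fun h1 h5 h => ?_⟩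
  · have h1 : proj g ≠ 1 := fun e => by simp [e] at h
    have h5 : tr g = 0 := tr_eq_zero_of_sq
      (by rw [← sq]; exact orderOf_dvd_iff_pow_eq_one.1 h.dvd) h1
    have h6 := isConj_comp (g := g) (by rw [h5, h4]; simp)
    rw [h5] at h6
    refine (card_sol_conj (proj.map_isConj h6.symm)).trans (Nat.eq_of_mul_eq_mul_left two_pos ?_)
    let Q : F × F → Prop := fun v => v.1 * v.2 = 0 ∨ v.1 ^ 2 = 1 ∧ v.2 ^ 2 = 1
    have h7 : ∀ y : SL(2, F), Sol (proj (comp 0)) (proj y) ↔
        tr y ^ 2 + tr (comp 0 * y) ^ 2 - 4 = 0 ∨ Q (tr y, tr (comp 0 * y)) := fun y => by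
      have h8 : tr y ^ 2 + tr (comp 0 * y) ^ 2 - 4 = 0 ↔ Red (comp 0) y := by
        rw [Red, tr_comp, sub_eq_zero]; simp
      rw [h8]
      constructor
      · intro h9
        rcases sol_cases 3 (Or.inr rfl) h9 with h9 | (h9 | h9 | h9) | ⟨-, h9⟩
        · exact Or.inl h9
        · exact Or.inr (Or.inl (mul_eq_zero_of_left h9.2 _))
        · exact Or.inr (Or.inl (mul_eq_zero_of_right _ h9.2))
        · exact Or.inr (Or.inl (mul_eq_zero_of_left h9.1 _))
        · rcases hcube _ (h9 _ (Or.inr (Or.inl rfl))) with e | e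
          · exact Or.inr (Or.inl (mul_eq_zero_of_left e _))
          exact Or.inr ((hcube _ (h9 _ (Or.inr (Or.inr rfl)))).imp (mul_eq_zero_of_right _)
            fun e' => ⟨e, e'⟩)
      · rintro (h9 | h9 | h9)
        · have hs : ¬ Split (comp (0 : F)) := fun ⟨a, ha⟩ => hsq ⟨a, by
            rw [tr_comp] at ha; linear_combination -ha⟩
          exact (Sol.of_le (K := Subgroup.centralizer {comp 0}) (Group.isSolvable_of_comm
            fun a b => Subtype.ext (commute_of_mem_centralizer (not_mem_center_of_tr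
              (tr_sq_ne_four_of_not_split hs)) a.2 b.2)) (Subgroup.mem_centralizer_singleton_iff.2 rfl)
            (Subgroup.mem_centralizer_singleton_iff.2 (commute_of_red hs h9))).map proj
        · exact sol_of_tr ((mul_eq_zero.1 h9).elim (fun e => Or.inl ⟨tr_comp _, e⟩)
            fun e => Or.inr (Or.inl ⟨tr_comp _, e⟩))
        · exact sol_of_233 (proj_sq (tr_comp _)) (proj_cube h9.1) (map_mul proj _ y ▸ proj_cube h9.2)
    rw [← hc, Nat.card_congr (Equiv.subtypeEquivRight h7), Nat.card_eq_fintype_card,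
      Fintype.card_subtype, Finset.card_eq_sum_card_fiberwise
        (f := fun y => (tr y, tr (comp 0 * y)))
        (t := Finset.univ.filter fun v => v.1 ^ 2 + v.2 ^ 2 - 4 = 0 ∨ Q v)
        fun y hy => by simpa using hy,
      Finset.sum_congr rfl (g := fun v => if v.1 ^ 2 + v.2 ^ 2 - 4 = 0 then 1 else
        Fintype.card F + 1) fun v hv => ?_]
    swap
    · rw [← card_sq_add_sq hsq, ← card_fiber h2, Finset.filter_filter]
      refine congrArg _ (Finset.filter_congr fun y _ => and_iff_right_of_imp fun e => ?_)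
      simpa [← e] using hv
    rw [Finset.sum_ite, Finset.sum_const, Finset.sum_const, Finset.filter_filter,
      Finset.filter_filter, Finset.filter_congr (q := fun v : F × F => v.1 ^ 2 + v.2 ^ 2 = 4)
        fun v _ => by rw [and_iff_right_of_imp Or.inl, sub_eq_zero], card_sq_add_sq hsq,
      if_neg (h4 ▸ one_ne_zero)]
    have h8 : (Finset.univ.filter fun v : F × F => (v.1 ^ 2 + v.2 ^ 2 - 4 = 0 ∨ Q v) ∧
        ¬ v.1 ^ 2 + v.2 ^ 2 - 4 = 0).card + 1 = 2 * Fintype.card F := card_pairs h2 h4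
    simp only [smul_eq_mul]
    nlinarith
  · have h1 : proj g ≠ 1 := fun e => by simp [e] at h
    have h5 : tr g ^ 2 = 4 := h4 ▸ sub_eq_zero.1 (tr_eq_trace g ▸ (H29.psl_pow_three_eq_one_iff.1
      (orderOf_dvd_iff_pow_eq_one.1 h.dvd)).resolve_right h1)
    obtain ⟨g', h6, h7⟩ : ∃ g' : SL(2, F), tr g' = 2 ∧ proj g' = proj g :=
      (tr_eq_two_or_of_sq h5).elim (fun e => ⟨g, e, rfl⟩) fun e => ⟨-g, e, proj_neg g⟩
    obtain ⟨c, h8, h9⟩ := exists_conj_upper (g := g') (a := 1) (by rw [h6]; ring)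
    have h10 : (c * g' * c⁻¹) 1 1 = 1 := by
      simpa only [h8, h9, one_mul, mul_zero, sub_zero] using det_eq (c * g' * c⁻¹)
    obtain ⟨e, h11⟩ : ∃ e, IsConj (proj g) (proj (mk 1 e 0 1 (by simp))) :=
      ⟨(c * g' * c⁻¹) 0 1, by
        rw [← h7]
        refine proj.map_isConj (isConj_iff.2 ⟨c, ?_⟩)
        exact ext' h9 rfl h8 h10⟩
    have he : e ≠ 0 := by
      rintro rfl
      rw [show mk (1 : F) 0 0 1 (by simp) = 1 by simp [ent], map_one, isConj_one_left] at h11
      exact h1 h11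
    refine (congrArg _ (card_sol_conj h11)).trans ((hc _).symm.trans ?_)
    have h12 : tr (mk (1 : F) e 0 1 (by simp)) = 2 := by simp only [ent]; ring
    rw [card_sol_unip he (fun v => v.1 ≠ v.2 ∧ (v.1 = 0 ∨ v.1 ^ 2 = 1) ∧ (v.2 = 0 ∨ v.2 ^ 2 = 1))
      (fun _ h => h.1) fun y hy => ?_]
    · have : Nat.card {v : F × F //
          v.1 ≠ v.2 ∧ (v.1 = 0 ∨ v.1 ^ 2 = 1) ∧ (v.2 = 0 ∨ v.2 ^ 2 = 1)} = 6 := by
        have e1 : ({0, 1, -1} : Finset F).offDiag.card = 6 := by
          rw [Finset.offDiag_card, Finset.card_eq_three.2 ⟨0, 1, -1, by simp, by simp, hm.symm, rfl⟩]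
        rw [← e1, ← Nat.card_eq_finsetCard]
        refine Nat.card_congr (Equiv.subtypeEquivRight fun v => ?_)
        simp only [Finset.mem_offDiag, Finset.mem_insert, Finset.mem_singleton, sq_eq_one_iff]
        exact ⟨fun h => ⟨h.2.1, h.2.2, h.1⟩, fun h => ⟨h.2.2, h.1, h.2.1⟩⟩
      rw [this, ← mul_add]
      have := Fintype.card_pos (α := F)
      congr 1
      omega
    have h13 : tr y ≠ tr (mk (1 : F) e 0 1 (by simp) * y) := fun e' => hy (by
      simp only [ent] at e'
      exact mul_left_cancel₀ he (by linear_combination -e'))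
    generalize mk (1 : F) e 0 1 (by simp) = x at *
    have h14 : proj x ^ 3 = 1 := proj_cube (by rw [h12]; linear_combination h4)
    constructor
    · intro h15
      rcases sol_cases 3 (Or.inr rfl) h15 with h16 | (h16 | h16 | h16) | ⟨-, h16⟩
      · refine absurd (sub_eq_zero.1 (pow_eq_zero_iff two_ne_zero |>.1 ?_)) h13
        rw [Red, h12] at h16
        linear_combination h16
      · exact absurd (h12 ▸ h16.1) h2
      · exact absurd (h12 ▸ h16.1) h2
      · exact absurd (h16.1.trans h16.2.symm) h13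
      · exact ⟨h13, hcube _ (h16 _ (Or.inr (Or.inl rfl))), hcube _ (h16 _ (Or.inr (Or.inr rfl)))⟩
    · rintro ⟨-, h15 | h15, h16 | h16⟩
      · exact absurd (h15.trans h16.symm) h13
      · exact (sol_of_233 (proj_sq h15) h14
          (map_mul proj y x ▸ proj_cube (tr_mul_comm x y ▸ h16))).symm
      · refine (sol_of_233 (x := proj (x * y)) (y := (proj y)⁻¹) (proj_sq h16)
          (by rw [inv_pow, proj_cube h15, inv_one]) (by simpa using h14)).of_mem ?_
          (by simpa using inv_mem (mem_right (proj (x * y)) (proj y)⁻¹))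
        simpa using mul_mem (mem_left (proj (x * y)) (proj y)⁻¹) (mem_right _ _)
      · have h17 : tr (x * y⁻¹) = 0 := by
          have : (tr y - tr (x * y)) * (tr y + tr (x * y)) = 0 := by linear_combination h15 - h16
          rw [tr_mul_inv, h12]
          linear_combination -(mul_eq_zero.1 this).resolve_left (sub_ne_zero.2 h13) + tr y * h3
        refine (sol_of_233 (x := proj (x * y⁻¹)) (y := proj y) (proj_sq h17)
          (proj_cube h15) (by simpa using h14)).of_mem ?_ (mem_right _ _)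
        simpa using mul_mem (mem_left (proj (x * y⁻¹)) (proj y)) (mem_right _ _)
  · obtain ⟨h6, h7, h8⟩ := h0 h1 h5 (Or.inl h)
    refine Nat.eq_of_mul_eq_mul_left two_pos ((hc g).symm.trans (card_sol_split 3 (Or.inr rfl)
      (h4 ▸ h8) (by_contra fun hs => h6 (dvd_two_of_dvd h (orderOf_proj_dvd_add hs))) h7
      fun _ e => (hcube _ e).elim h7 h8))
  · obtain ⟨h6, h7, h8⟩ := h0 h1 h5 (Or.inr h)
    refine Nat.eq_of_mul_eq_mul_left two_pos ((hc g).symm.trans (card_sol_nonsplit 3 (Or.inr rfl)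
      (fun hs => h6 (dvd_two_of_dvd (orderOf_proj_dvd_sub (h4 ▸ h8) hs) h)) h7
      fun _ e => (hcube _ e).elim h7 h8))

end Cfsg.Agent.S2258
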