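import Cfsg.Statements.S2259
import Cfsg.Agent.Lib.Suzuki.Classes
import Cfsg.Agent.Lib.Suzuki.LieModel

set_option autoImplicit false
open Cfsg

namespace Cfsg.Agent.S2259

open H14.Sz H14.Sz.Model

section
variable {G : Type*} [Group G] {F : Type*} [Field F] [Fintype F] {m : ℕ} [hz : SzF F m]
  (S : Model G F m)

theorem mem_normalizer_map_conj {K : Subgroup G} {g x : G} :
    x ∈ Subgroup.normalizer ((K.map (MulAut.conj g).toMonoidHom : Subgroup G) : Set G) ↔
      g⁻¹ * x * g ∈ Subgroup.normalizer (K : Set G) := by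
  rw [← mem_map_conj, Subgroup.map_equiv_normalizer_eq]

theorem closure_le_iff {x y : G} {N : Subgroup G} :
    Subgroup.closure ({x, y} : Set G) ≤ N ↔ x ∈ N ∧ y ∈ N := by
  rw [Subgroup.closure_le, Set.insert_subset_iff, Set.singleton_subset_iff]; rfl

theorem solvable_iff {A₁ A₂ : Subgroup G} (h1 : S.IsTorus A₁) (h2 : S.IsTorus A₂)
    (c1 : Nat.card A₁ = Fintype.card F + 2 ^ (m + 1) + 1)
    (c2 : Nat.card A₂ = Fintype.card F - 2 ^ (m + 1) + 1) (x y : G) :
    Group.IsSolvable (Subgroup.closure ({x, y} : Set G)) ↔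
      (∃ g, x ∈ (S.conj g).B ∧ y ∈ (S.conj g).B) ∨
      (∃ g, g⁻¹ * x * g ∈ Subgroup.normalizer (S.H : Set G) ∧
        g⁻¹ * y * g ∈ Subgroup.normalizer (S.H : Set G)) ∨
      (∃ g, g⁻¹ * x * g ∈ Subgroup.normalizer (A₁ : Set G) ∧
        g⁻¹ * y * g ∈ Subgroup.normalizer (A₁ : Set G)) ∨
      (∃ g, g⁻¹ * x * g ∈ Subgroup.normalizer (A₂ : Set G) ∧
        g⁻¹ * y * g ∈ Subgroup.normalizer (A₂ : Set G)) := by
  simp only [← mem_normalizer_map_conj, ← closure_le_iff, ← conj_H]
  constructor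
  · intro h
    rcases S.le_of_isSolvable h with h | h | ⟨A, hA, h⟩
    · exact Or.inl h
    · exact Or.inr (Or.inl h)
    · rcases hA.card_cases with c | c
      · obtain ⟨g, rfl⟩ := h1.conj_of_card_eq hA (c1.trans c.symm)
        exact Or.inr (Or.inr (Or.inl ⟨g, h⟩))
      · obtain ⟨g, rfl⟩ := h2.conj_of_card_eq hA (c2.trans c.symm)
        exact Or.inr (Or.inr (Or.inr ⟨g, h⟩))
  · rintro (⟨g, h⟩ | ⟨g, h⟩ | ⟨g, h⟩ | ⟨g, h⟩)
    · exact isSolvable_of_le h (S.conj g).isSolvable_B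
    · exact isSolvable_of_le h (S.conj g).isSolvable_normalizer_H
    · exact isSolvable_of_le h (h1.map_conj g).isSolvable_normalizer
    · exact isSolvable_of_le h (h2.map_conj g).isSolvable_normalizer

/-- The part of the solubiliser outside `B` attached to `K`. -/
def part (K : Subgroup G) (x : G) : Set G :=
  {y | y ∈ (S.B : Set G)ᶜ ∧ ∃ g, g⁻¹ * x * g ∈ Subgroup.normalizer (K : Set G) ∧
      g⁻¹ * y * g ∈ Subgroup.normalizer (K : Set G)}

theorem disjoint_part {K K' : Subgroup G} (hK : SelfCent K) (hK' : SelfCent K') {j j' : ℕ}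
    (hj : Nat.card (Subgroup.normalizer (K : Set G)) = 2 ^ j * Nat.card K)
    (hj' : Nat.card (Subgroup.normalizer (K' : Set G)) = 2 ^ j' * Nat.card K')
    (hc : Nat.Coprime (Nat.card K) (Nat.card K')) {x : G} (hx : x ∈ S.U) (hx1 : x ≠ 1) :
    Disjoint (part S K x) (part S K' x) := by
  rw [Set.disjoint_left]
  rintro y ⟨hy, g, a1, a2⟩ ⟨-, g', a3, a4⟩
  obtain ⟨z, b1, b2, b3⟩ := S.exists_conj_mem_closure hK hj hx hx1 hy a1 a2
  have e : ∀ g : G, orderOf (g⁻¹ * z * g) = orderOf z := fun g => by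
    rw [show g⁻¹ * z * g = MulAut.conj g⁻¹ z by simp, MulEquiv.orderOf_eq]
  have b4 : g'⁻¹ * z * g' ∈ K' := hK'.mem_of_odd hj' (b3 _ g' a3 a4) (by
    have := hK.odd_orderOf b2
    rwa [e] at this ⊢)
  have d1 := Subgroup.orderOf_dvd_natCard _ b2
  have d2 := Subgroup.orderOf_dvd_natCard _ b4
  rw [e] at d1 d2
  exact b1 (orderOf_eq_one_iff.1 (Nat.eq_one_of_dvd_coprimes hc d1 d2))

theorem ncard_two {A₁ A₂ : Subgroup G} (h1 : S.IsTorus A₁) (h2 : S.IsTorus A₂)
    (c1 : Nat.card A₁ = Fintype.card F + 2 ^ (m + 1) + 1)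
    (c2 : Nat.card A₂ = Fintype.card F - 2 ^ (m + 1) + 1) {x : G} (hx : x ∈ S.U) (hx1 : x ≠ 1) :
    {y | Group.IsSolvable (Subgroup.closure ({x, y} : Set G))}.ncard =
      Fintype.card F ^ 2 * (Fintype.card F - 1) + (part S S.H x).ncard + (part S A₁ x).ncard +
        (part S A₂ x).ncard := by
  haveI := S.finite
  have e : {y | Group.IsSolvable (Subgroup.closure ({x, y} : Set G))} =
      (S.B : Set G) ∪ part S S.H x ∪ part S A₁ x ∪ part S A₂ x := by
    ext y
    simp only [Set.mem_ofPred_eq, solvable_iff S h1 h2 c1 c2, part, Set.mem_union,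
      Set.mem_compl_iff, SetLike.mem_coe]
    have : (∃ g, x ∈ (S.conj g).B ∧ y ∈ (S.conj g).B) ↔ y ∈ S.B := by
      constructor
      · rintro ⟨g, a1, a2⟩
        have := S.mem_B_of_conj_mem_U (g := g⁻¹) hx hx1 (by simpa using S.mem_conj_B.1 a1)
        rwa [S.conj_B_of_mem_B (S.B.inv_mem_iff.1 this)] at a2
      · intro h; exact ⟨1, by rw [conj_one]; exact ⟨S.U_le_B hx, h⟩⟩
    rw [this]
    by_cases hy : y ∈ S.B
    · simp only [hy, true_or]
    · simp only [hy, false_or, not_false_eq_true, true_and, or_assoc]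
  have hc : ∀ {A : Subgroup G}, S.IsTorus A → Nat.Coprime (Nat.card S.H) (Nat.card A) :=
    fun hA => by
      rw [card_H]
      exact ((coprime_q_sq_add_one_sub_one F).coprime_dvd_left hA.card_dvd).symm
  have hB : ∀ K, Disjoint (S.B : Set G) (part S K x) := fun K =>
    Set.disjoint_left.2 fun y hy hy' => hy'.1 hy
  rw [e, Set.ncard_union_eq, Set.ncard_union_eq, Set.ncard_union_eq (hB _), ← S.card_B]
  · rfl
  · exact Set.disjoint_union_left.2 ⟨hB _, disjoint_part S S.selfCent_H h1.selfCent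
      S.card_normalizer_H' h1.card_normalizer' (hc h1) hx hx1⟩
  · exact Set.disjoint_union_left.2 ⟨Set.disjoint_union_left.2 ⟨hB _,
      disjoint_part S S.selfCent_H h2.selfCent
      S.card_normalizer_H' h2.card_normalizer' (hc h2) hx hx1⟩,
      disjoint_part S h1.selfCent h2.selfCent h1.card_normalizer' h2.card_normalizer'
        (by rw [c1, c2]; exact S.tori_coprime) hx hx1⟩

theorem part_involution {K : Subgroup G} (hK : SelfCent K) {j : ℕ}
    (hj : Nat.card (Subgroup.normalizer (K : Set G)) = 2 ^ (j + 1) * Nat.card K)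
    {x : G} (hx : x ∈ S.U) (hx1 : x ≠ 1) (hx2 : x * x = 1) :
    (part S K x).ncard = Fintype.card F ^ 2 * (Nat.card K - 1) := by
  haveI := S.finite
  have h := S.ncard_part hK hj hx hx1
  have e : {n | n ∈ Subgroup.normalizer (K : Set G) ∧ IsConj x n} =
      {s | s ∈ Subgroup.normalizer (K : Set G) ∧ s * s = 1 ∧ s ≠ 1} := by
    ext n
    refine and_congr_right fun _ => ⟨fun h => ?_, fun h => S.isConj_of_involution hx2 hx1 h.1 h.2⟩
    obtain ⟨c, rfl⟩ := isConj_iff.1 h
    refine ⟨?_, by simpa using hx1⟩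
    calc c * x * c⁻¹ * (c * x * c⁻¹) = c * (x * x) * c⁻¹ := by group
      _ = 1 := by rw [hx2]; group
  rw [e, hK.ncard_involution hj, S.card_centralizer_of_involution hx2 hx1] at h
  apply Nat.eq_of_mul_eq_mul_right hK.odd.pos
  exact h.trans (by ring)

theorem part_four {K : Subgroup G} (hK : SelfCent K)
    (hj : Nat.card (Subgroup.normalizer (K : Set G)) = 2 ^ 2 * Nat.card K)
    {x : G} (hx : x ∈ S.U) (hx4 : orderOf x = 4) :
    (part S K x).ncard = 2 * Fintype.card F * (Nat.card K - 1) := by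
  haveI := S.finite
  have hx1 : x ≠ 1 := by rintro rfl; rw [orderOf_one] at hx4; exact absurd hx4 (by decide)
  have h := S.ncard_part hK hj hx hx1
  have e := S.two_mul_ncard_isConj hx4 (Subgroup.normalizer (K : Set G))
  rw [hK.ncard_order_four hj] at e
  rw [Nat.eq_of_mul_eq_mul_left two_pos e, S.card_centralizer_of_orderOf_four hx4] at h
  apply Nat.eq_of_mul_eq_mul_right hK.odd.pos
  exact h.trans (by ring)

theorem part_four_H {x : G} (hx4 : orderOf x = 4) : (part S S.H x).ncard = 0 := by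
  rw [show part S S.H x = ∅ from ?_, Set.ncard_empty]
  rw [Set.eq_empty_iff_forall_notMem]
  rintro y ⟨-, g, h, -⟩
  have e : orderOf (g⁻¹ * x * g) = 4 := by
    rw [show g⁻¹ * x * g = MulAut.conj g⁻¹ x by simp, MulEquiv.orderOf_eq, hx4]
  rcases S.selfCent_H.mem_or_pow S.card_normalizer_H' h with h | h
  · have := S.selfCent_H.odd_orderOf h
    rw [e] at this
    exact absurd this (by decide)
  · have := orderOf_dvd_of_pow_eq_one h
    rw [e] at this
    exact absurd this (by decide)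

theorem orderOf_conj' (g z : G) : orderOf (g⁻¹ * z * g) = orderOf z := by
  rw [show g⁻¹ * z * g = MulAut.conj g⁻¹ z by simp, MulEquiv.orderOf_eq]

theorem ncard_H {x : G} (hx : x ∈ S.H) (hx1 : x ≠ 1) :
    {y | Group.IsSolvable (Subgroup.closure ({x, y} : Set G))}.ncard =
      2 * Fintype.card F ^ 2 * (Fintype.card F - 1) := by
  haveI := S.finite
  obtain ⟨A₁, A₂, h1, h2, c1, c2, -⟩ := S.exists_tori
  have ho := S.odd_orderOf_of_mem_H hx
  have hA : ∀ {A : Subgroup G}, S.IsTorus A → ∀ g, g⁻¹ * x * g ∉ Subgroup.normalizer (A : Set G) := by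
    intro A hA g h
    have a1 := hA.selfCent.mem_of_odd hA.card_normalizer' h (by rwa [orderOf_conj'])
    have a2 := (hA.free a1 (conj_ne_one hx1)).conj g
    exact a2 S.inf (by simpa [mul_assoc] using (S.mem_H_iff.1 hx).1)
  have e : {y | Group.IsSolvable (Subgroup.closure ({x, y} : Set G))} =
      ((S.B : Set G) ∪ (S.conj S.w).B) ∪ (fun a => a * S.w) '' S.H := by
    ext y
    simp only [Set.mem_ofPred_eq, solvable_iff S h1 h2 c1 c2, Set.mem_union, SetLike.mem_coe,
      hA h1, hA h2, false_and, exists_false, or_false]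
    constructor
    · rintro (⟨g, a1, a2⟩ | ⟨g, a1, a2⟩)
      · left
        rw [mem_conj_B'] at a1 a2
        rcases S.fix_of_mem_H hx hx1 a1 with h | h
        · left; rwa [h] at a2
        · right; rwa [mem_conj_B', w_smul_inf, ← h]
      · have a3 := S.selfCent_H.mem_of_odd S.card_normalizer_H' a1 (by rwa [orderOf_conj'])
        have a4 := S.selfCent_H.TI (g := g⁻¹) hx hx1 (by simpa using a3)
        have a5 : y ∈ Subgroup.normalizer (S.H : Set G) := by
          have := Subgroup.mul_mem _ (Subgroup.mul_mem _ (Subgroup.inv_mem _ a4) a2) a4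
          simpa [mul_assoc] using this
        rcases S.mem_normalizer_H.1 a5 with h | ⟨k, rfl⟩
        · exact Or.inl (Or.inl (S.H_le_B h))
        · exact Or.inr ⟨_, S.h_mem_H k, rfl⟩
    · rintro ((h | h) | ⟨_, ⟨k, rfl⟩, rfl⟩)
      · exact Or.inl ⟨1, by rw [conj_one]; exact ⟨S.H_le_B hx, h⟩⟩
      · exact Or.inl ⟨S.w, by rw [mem_conj_B', w_smul_inf]; exact (S.mem_H_iff.1 hx).2, h⟩
      · exact Or.inr ⟨1, by simpa using Subgroup.le_normalizer hx,
          by simpa using S.mem_normalizer_H.2 (Or.inr ⟨k, rfl⟩)⟩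
  have e2 : (S.B : Set G) ∩ (S.conj S.w).B = S.H := by
    ext y
    rw [Set.mem_inter_iff, SetLike.mem_coe, SetLike.mem_coe, SetLike.mem_coe, mem_conj_B',
      w_smul_inf, mem_H_iff, mem_B]
  have e3 := Set.ncard_union_add_ncard_inter (S.B : Set G) (S.conj S.w).B
  rw [e2] at e3
  rw [e, Set.ncard_union_eq, Set.ncard_image_of_injective _ (mul_left_injective _), e3]
  · have b1 : (S.B : Set G).ncard = _ := S.card_B
    have b2 : ((S.conj S.w).B : Set G).ncard = _ := (S.conj S.w).card_B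
    rw [b1, b2]; ring
  · rw [Set.disjoint_left]
    rintro _ (h | h) ⟨_, ⟨k, rfl⟩, rfl⟩
    · exact S.h_w_not_mem_B k h
    · have := S.mem_conj_B'.1 h
      rw [w_smul_inf, mul_smul, w_smul_zero, h_smul_inf] at this
      exact S.inf_ne_pt _ _ this

theorem ncard_free {x : G} (hx : S.Free x) :
    {y | Group.IsSolvable (Subgroup.closure ({x, y} : Set G))}.ncard =
      4 * Nat.card (Subgroup.centralizer ({x} : Set G)) := by
  have hx' : x ∈ Subgroup.centralizer ({x} : Set G) := Subgroup.mem_centralizer_singleton_iff.2 rfl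
  have e : {y | Group.IsSolvable (Subgroup.closure ({x, y} : Set G))} =
      Subgroup.normalizer (Subgroup.centralizer ({x} : Set G) : Set G) := by
    ext y
    constructor
    · intro h
      rcases S.le_of_isSolvable h with ⟨g, h⟩ | ⟨g, h⟩ | ⟨A, hA, h⟩
      · exact absurd (closure_le_iff.1 h).1 (hx.not_mem_conj_B g)
      · exact absurd ((S.conj g).H_le_B ((S.conj g).selfCent_H.mem_of_odd
          (S.conj g).card_normalizer_H' (closure_le_iff.1 h).1 hx.odd_orderOf))
          (hx.not_mem_conj_B g)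
      · rw [hA.centralizer_eq (hA.selfCent.mem_of_odd hA.card_normalizer' (closure_le_iff.1 h).1
          hx.odd_orderOf) hx.ne_one]
        exact (closure_le_iff.1 h).2
    · intro h
      exact isSolvable_of_le (closure_le_iff.2 ⟨Subgroup.le_normalizer hx', h⟩)
        hx.isTorus.isSolvable_normalizer
  rw [e, ← hx.isTorus.card_normalizer]
  rfl

end

/-- Let G be the Suzuki group Sz(q), q = 2^(2m+1) with 2m + 1 prime and m ≥ 1, realised inside Sp_4(F) for F the field of order q, write r = 2^(m+1) (so r² = 2q), and for x ∈ G call the solubilizer of x the set of y ∈ G such that x and y generate a solvable subgroup. Then the solubilizer of an involution has q²(4q − 3) elements; that of an element of order 4 has q²(q + 3) elements; that of a non-identity element of order dividing q − 1 has 2q²(q − 1) elements; that of a non-identity element of order dividing q + r + 1 has 4(q + r + 1) elements; and that of a non-identity element of order dividing q − r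 + 1 has 4(q − r + 1) elements. -/
theorem result {F : Type*} [Field F] [Fintype F] {m : ℕ} (hm : 1 ≤ m)
    (hp : (2 * m + 1).Prime) (hF : Fintype.card F = 2 ^ (2 * m + 1)) (x : ↥(Cfsg.Lie.Sz F (2 ^ (m + 1)))) :
    (orderOf x = 2 → Nat.card {y : ↥(Cfsg.Lie.Sz F (2 ^ (m + 1))) // Group.IsSolvable ↥(Subgroup.closure ({x, y} : Set (↥(Cfsg.Lie.Sz F (2 ^ (m + 1))))))} = (2 ^ (2 * m + 1)) ^ 2 * (4 * 2 ^ (2 * m + 1) - 3)) ∧
    (orderOf x = 4 → Nat.card {y : ↥(Cfsg.Lie.Sz F (2 ^ (m + 1))) // Group.IsSolvable ↥(Subgroup.closure ({x, y} : Set (↥(Cfsg.Lie.Sz F (2 ^ (m + 1))))))} = (2 ^ (2 * m + 1)) ^ 2 * (2 ^ (2 * m + 1) + 3)) ∧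
    (x ≠ 1 → orderOf x ∣ 2 ^ (2 * m + 1) - 1 →
      Nat.card {y : ↥(Cfsg.Lie.Sz F (2 ^ (m + 1))) // Group.IsSolvable ↥(Subgroup.closure ({x, y} : Set (↥(Cfsg.Lie.Sz F (2 ^ (m + 1))))))} = 2 * (2 ^ (2 * m + 1)) ^ 2 * (2 ^ (2 * m + 1) - 1)) ∧
    (x ≠ 1 → orderOf x ∣ 2 ^ (2 * m + 1) + 2 ^ (m + 1) + 1 → Nat.card {y : ↥(Cfsg.Lie.Sz F (2 ^ (m + 1))) // Group.IsSolvable ↥(Subgroup.closure ({x, y} : Set (↥(Cfsg.Lie.Sz F (2 ^ (m + 1))))))} = 4 * (2 ^ (2 * m + 1) + 2 ^ (m + 1) + 1)) ∧
    (x ≠ 1 → orderOf x ∣ 2 ^ (2 * m + 1) - 2 ^ (m + 1) + 1 → Nat.card {y : ↥(Cfsg.Lie.Sz F (2 ^ (m + 1))) // Group.IsSolvable ↥(Subgroup.closure ({x, y} : Set (↥(Cfsg.Lie.Sz F (2 ^ (m + 1))))))} = 4 * (2 ^ (2 * m + 1) - 2 ^ (m + 1) + 1)) := by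
  haveI : SzF F m := ⟨hm, hF⟩
  let S := lieModel F m
  rw [← hF]
  have h8 := eight_le_card (F := F)
  have hr := r_le_q (F := F)
  obtain ⟨A₁, A₂, h1, h2, c1, c2, -⟩ := S.exists_tori
  have hT : ∀ {A : Subgroup _} (g), S.IsTorus A → (S.conj g).IsTorus A := by
    rintro A g ⟨y, hy, rfl⟩
    refine ⟨y, free_iff.2 fun a => ?_, rfl⟩
    rw [conj_conj]; exact hy.not_mem_conj_B _
  have hfree : ∀ n, n ∣ Fintype.card F ^ 2 + 1 → x ≠ 1 → orderOf x ∣ n → S.Free x :=
    fun n hn hx1 hx => S.free_of_orderOf_dvd hx1 (hx.trans hn)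
  have hx' : x ∈ Subgroup.centralizer {x} := Subgroup.mem_centralizer_singleton_iff.2 rfl
  refine ⟨fun hx => ?_, fun hx => ?_, fun hx1 hx => ?_, fun hx1 hx => ?_, fun hx1 hx => ?_⟩
  · have hx2 : x * x = 1 := by rw [← sq]; exact orderOf_dvd_iff_pow_eq_one.1 hx.dvd
    have hx1 : x ≠ 1 := by rintro rfl; rw [orderOf_one] at hx; exact absurd hx (by decide)
    obtain ⟨g, hg⟩ := S.exists_conj_Z_mem hx2
    have hU := (S.conj g).Z_le_U hg
    refine (ncard_two (S.conj g) (hT g h1) (hT g h2) c1 c2 hU hx1).trans ?_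
    rw [part_involution _ (S.conj g).selfCent_H (S.conj g).card_normalizer_H' hU hx1 hx2,
      part_involution _ h1.selfCent h1.card_normalizer' hU hx1 hx2,
      part_involution _ h2.selfCent h2.card_normalizer' hU hx1 hx2, card_H, c1, c2,
      ← mul_add, ← mul_add, ← mul_add]
    congr 1
    omega
  · have hx1 : x ≠ 1 := by rintro rfl; rw [orderOf_one] at hx; exact absurd hx (by decide)
    obtain ⟨g, hU⟩ := S.exists_conj_U_mem (x := x) (n := 2) (by
      rw [show 2 ^ 2 = orderOf x from hx.symm, pow_orderOf_eq_one])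
    refine (ncard_two (S.conj g) (hT g h1) (hT g h2) c1 c2 hU hx1).trans ?_
    rw [part_four_H _ hx, part_four _ h1.selfCent h1.card_normalizer' hU hx,
      part_four _ h2.selfCent h2.card_normalizer' hU hx, c1, c2, add_zero, add_assoc, ← mul_add,
      show Fintype.card F + 2 ^ (m + 1) + 1 - 1 + (Fintype.card F - 2 ^ (m + 1) + 1 - 1) =
        2 * Fintype.card F by omega]
    obtain ⟨n, hn⟩ : ∃ n, Fintype.card F = n + 1 := ⟨Fintype.card F - 1, by omega⟩
    rw [hn, Nat.add_sub_cancel]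
    ring
  · rcases S.mem_conj_H_or_free ((odd_q_sub_one F).of_dvd_nat hx) hx1 with ⟨g, hg⟩ | h
    · exact ncard_H (S.conj g) hg hx1
    · exact absurd (orderOf_eq_one_iff.1 (Nat.eq_one_of_dvd_coprimes
        (coprime_q_sq_add_one_sub_one F) h.orderOf_dvd hx)) hx1
  · have h := hfree _ (Dvd.intro _ tori_prod) hx1 hx
    refine (ncard_free S h).trans ?_
    rcases h.isTorus.card_cases with c | c
    · rw [c]
    · exact absurd (orderOf_eq_one_iff.1 (Nat.eq_one_of_dvd_coprimes S.tori_coprime hx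
        (c ▸ Subgroup.orderOf_dvd_natCard _ hx'))) hx1
  · have h := hfree _ (Dvd.intro_left _ tori_prod) hx1 hx
    refine (ncard_free S h).trans ?_
    rcases h.isTorus.card_cases with c | c
    · exact absurd (orderOf_eq_one_iff.1 (Nat.eq_one_of_dvd_coprimes S.tori_coprime
        (c ▸ Subgroup.orderOf_dvd_natCard _ hx') hx)) hx1
    · rw [c]

end Cfsg.Agent.S2259
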