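import Cfsg.Statements.S2268
import Mathlib


set_option autoImplicit false
open Cfsg

namespace Cfsg.Agent.S2268

/-- Let G be a finite group with an abelian Sylow p-subgroup P and let Q ≤ P. Then N_G(Q) = (N_G(Q) ∩ N_G(P))·C_G(Q), so that N_G(Q)/C_G(Q) is a homomorphic image of the subgroup (N_G(Q) ∩ N_G(P))/C_G(P) of N_G(P)/C_G(P); in particular the order of N_G(Q)/C_G(Q) divides the order of N_G(P)/C_G(P). -/
theorem result {G : Type*} [Group G] [Finite G] {p : ℕ} [Fact p.Prime]
    (P : Sylow p G) (hP : IsMulCommutative (P : Subgroup G)) (Q : Subgroup G) (hQ : Q ≤ (P : Subgroup G)) :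
    Subgroup.normalizer (Q : Set G) =
      (Subgroup.normalizer (Q : Set G) ⊓ Subgroup.normalizer ((P : Subgroup G) : Set G)) ⊔ Subgroup.centralizer (Q : Set G) ∧
    ((Subgroup.centralizer (Q : Set G)).subgroupOf (Subgroup.normalizer (Q : Set G))).index ∣ ((Subgroup.centralizer ((P : Subgroup G) : Set G)).subgroupOf (Subgroup.normalizer ((P : Subgroup G) : Set G))).index := by
  set H := Subgroup.normalizer (Q : Set G) with hH
  set C := Subgroup.centralizer (Q : Set G) with hC
  set M := H ⊓ Subgroup.normalizer ((P : Subgroup G) : Set G) with hM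
  have hCH : C ≤ H := Subgroup.centralizer_le_normalizer _
  have hPC : (P : Subgroup G) ≤ C :=
    (P : Subgroup G).le_centralizer.trans (Subgroup.centralizer_le hQ)
  have hPH := hPC.trans hCH
  have h1 := Sylow.normalizer_sup_eq_top' (N := C.subgroupOf H) (P.subtype hPH)
    (fun x hx => hPC hx)
  have h2 : Subgroup.normalizer ((P.subtype hPH : Subgroup H) : Set H) = M.subgroupOf H := by
    rw [Sylow.coe_subtype, ← Subgroup.subgroupOf_normalizer_eq hPH, hM,
      Subgroup.inf_subgroupOf_left]
  have h3 : M.subgroupOf H ⊔ C.subgroupOf H = ⊤ := h2 ▸ h1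
  constructor
  · have h4 := congrArg (Subgroup.map H.subtype) h3
    rw [Subgroup.map_sup, Subgroup.map_subgroupOf_eq_of_le inf_le_left,
      Subgroup.map_subgroupOf_eq_of_le hCH, ← MonoidHom.range_eq_map, Subgroup.range_subtype] at h4
    exact h4.symm
  · have h5 : Subgroup.centralizer ((P : Subgroup G) : Set G) ≤ C := Subgroup.centralizer_le hQ
    have h6 : Subgroup.centralizer ((P : Subgroup G) : Set G) ≤ M :=
      le_inf (h5.trans hCH) (Subgroup.centralizer_le_normalizer _)
    rw [← Subgroup.relIndex_top_right, ← h3, Subgroup.relIndex_sup_right,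
      Subgroup.relIndex_subgroupOf inf_le_left]
    refine (Subgroup.relIndex_dvd_of_le_left M h5).trans ?_
    exact Dvd.intro _ (Subgroup.relIndex_mul_relIndex _ _ _ h6 inf_le_right)

end Cfsg.Agent.S2268
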