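import Cfsg.Statements.S2269
import Mathlib
import Cfsg.Agent.Lib.Misc62.Automizer

set_option autoImplicit false
open Cfsg

namespace Cfsg.Agent.S2269

theorem aux {G : Type*} [Group G] [Finite G] [IsSimpleGroup G] (hG : Nat.card G = 60)
    (P : Sylow 2 G) (hP : IsMulCommutative (P : Subgroup G)) :
    Nat.card (P : Subgroup G) = 4 ∧ ((Subgroup.centralizer ((P : Subgroup G) : Set G)).subgroupOf
      (Subgroup.normalizer ((P : Subgroup G) : Set G))).index = 3 := by
  have hc : Nat.card (P : Subgroup G) = 4 := by
    rw [P.card_eq_multiplicity, hG, show 60 = 2 ^ 2 * 15 by norm_num,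
      Nat.factorization_mul (by norm_num) (by norm_num), Nat.Prime.factorization_pow Nat.prime_two]
    simp [Nat.factorization_eq_zero_of_not_dvd]
  have hi : (P : Subgroup G).index = 15 := by
    have := (P : Subgroup G).card_mul_index
    rw [hc, hG] at this
    omega
  refine ⟨hc, ?_⟩
  set i := ((Subgroup.centralizer ((P : Subgroup G) : Set G)).subgroupOf
      (Subgroup.normalizer ((P : Subgroup G) : Set G))).index with hi'
  have h1 : i ∣ 15 := by
    rw [← hi]
    exact (Subgroup.relIndex_dvd_of_le_left _ (P : Subgroup G).le_centralizer).trans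
      (Subgroup.relIndex_dvd_index_of_le Subgroup.le_normalizer)
  have h2 : i ∣ 24 := by
    rw [hi', ← Subgroup.normalizerMonoidHom_ker, Subgroup.index_ker]
    refine (Subgroup.card_subgroup_dvd_card _).trans ?_
    have := Subgroup.card_dvd_of_injective (MulAut.toPerm (P : Subgroup G))
      (fun a b h => MulEquiv.ext fun x => congrFun (congrArg (fun e => e.toFun) h) x)
    rwa [Nat.card_perm, hc] at this
  have h3 : i ≠ 1 := by
    intro h
    have h4 := Subgroup.relIndex_eq_one.1 h
    have h5 := (MonoidHom.ker_transferSylow_isComplement' P h4).card_mul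
    rw [hc, hG] at h5
    rcases (MonoidHom.transferSylow P h4).normal_ker.eq_bot_or_eq_top with h6 | h6
    · rw [h6, Subgroup.card_bot] at h5
      omega
    · rw [h6, Subgroup.card_top, hG] at h5
      omega
  have h4 : i ∣ 3 := Nat.dvd_gcd h1 h2
  exact ((Nat.dvd_prime Nat.prime_three).1 h4).resolve_left h3

/-- Let n ≥ 5 and let P be an abelian Sylow p-subgroup of the alternating group A_n. Then N(P)/C(P) (taken in A_n) has even order, or P is cyclic, except when n = 5 and p = 2, where P is a four-group and N(P)/C(P) has order 3. -/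
theorem result (n : ℕ) (hn : 5 ≤ n) {p : ℕ} [Fact p.Prime]
    (P : Sylow p (alternatingGroup (Fin n))) (hP : IsMulCommutative (P : Subgroup (alternatingGroup (Fin n)))) :
    (¬ (n = 5 ∧ p = 2) → 2 ∣ ((Subgroup.centralizer ((P : Subgroup (alternatingGroup (Fin n))) : Set (alternatingGroup (Fin n)))).subgroupOf (Subgroup.normalizer ((P : Subgroup (alternatingGroup (Fin n))) : Set (alternatingGroup (Fin n))))).index ∨ IsCyclic (P : Subgroup (alternatingGroup (Fin n)))) ∧
    ((n = 5 ∧ p = 2) → ((Subgroup.centralizer ((P : Subgroup (alternatingGroup (Fin n))) : Set (alternatingGroup (Fin n)))).subgroupOf (Subgroup.normalizer ((P : Subgroup (alternatingGroup (Fin n))) : Set (alternatingGroup (Fin n))))).index = 3 ∧ IsKleinFour (P : Subgroup (alternatingGroup (Fin n)))) := by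
  classical
  have hp' : p.Prime := Fact.out
  constructor
  · intro h5
    by_cases hp : p = 2
    · subst hp
      left
      have h6 : 6 ≤ n := by omega
      let φ := Equiv.Perm.viaEmbeddingHom (Fin.castLEEmb h6)
      have hφ : Function.Injective φ := Equiv.Perm.viaEmbeddingHom_injective _
      have hs : ∀ σ, Equiv.Perm.sign (φ σ) = Equiv.Perm.sign σ := fun σ => by
        simp only [φ, Equiv.Perm.viaEmbeddingHom_apply, Equiv.Perm.viaEmbedding]
        convert Equiv.Perm.sign_extendDomain σ _
      let a : Equiv.Perm (Fin 6) := Equiv.swap 0 1 * Equiv.swap 1 2 * Equiv.swap 2 3 * Equiv.swap 4 5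
      let b : Equiv.Perm (Fin 6) := Equiv.swap 0 2 * Equiv.swap 4 5
      refine H62.two_dvd_automizer_of_isConj_inv P hP
        (x := ⟨φ a, by rw [Equiv.Perm.mem_alternatingGroup, hs]; decide⟩) (k := 2) ?_ ?_
        (isConj_iff.2 ⟨⟨φ b, by rw [Equiv.Perm.mem_alternatingGroup, hs]; decide⟩, ?_⟩)
      · apply Subtype.ext
        change φ a ^ 2 ^ 2 = 1
        rw [← map_pow, show a ^ 2 ^ 2 = 1 by decide, map_one]
      · intro h
        have h1 : φ a ^ 2 = 1 := congrArg Subtype.val h
        rw [← map_pow, ← map_one φ, hφ.eq_iff] at h1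
        revert h1
        decide
      · apply Subtype.ext
        change φ b * φ a * (φ b)⁻¹ = (φ a)⁻¹
        rw [← map_inv, ← map_mul, ← map_mul, ← map_inv]
        exact congrArg φ (by decide)
    · have hodd : Odd p := hp'.odd_of_ne_two hp
      by_cases hpn : p + 2 ≤ n
      · left
        obtain ⟨x, hx⟩ := (Equiv.Perm.exists_with_cycleType_iff (Fin n) (m := {p})).2
          ⟨by simp; omega, by simpa using hp'.two_le⟩
        have ho : orderOf x = p := by rw [← Equiv.Perm.lcm_cycleType, hx]; simp
        have hxa : x ∈ alternatingGroup (Fin n) := by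
          rw [Equiv.Perm.mem_alternatingGroup, Equiv.Perm.sign_of_cycleType, hx]
          simp only [Multiset.sum_singleton, Multiset.card_singleton]
          exact Even.neg_one_pow (hodd.add_one)
        refine H62.two_dvd_automizer_of_isConj_inv P hP (x := ⟨x, hxa⟩) (k := 1)
          (Subtype.ext ?_) (fun h => hp ?_) (alternatingGroup.isConj_of
          (Equiv.Perm.isConj_iff_cycleType_eq.2 (Equiv.Perm.cycleType_inv x).symm) ?_)
        · change x ^ p ^ 1 = 1
          rw [pow_one, ← ho, pow_orderOf_eq_one]
        · have := orderOf_dvd_of_pow_eq_one (show x ^ 2 = 1 from congrArg Subtype.val h)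
          rw [ho] at this
          exact (Nat.prime_dvd_prime_iff_eq hp' Nat.prime_two).1 this
        · rw [← Equiv.Perm.sum_cycleType, hx]
          simpa using hpn
      · right
        obtain ⟨k, hk⟩ := P.2.exists_card_eq
        have h1 : p ^ k ∣ n.factorial := by
          rw [← hk]
          refine (Subgroup.card_subgroup_dvd_card _).trans
            ((Subgroup.card_subgroup_dvd_card _).trans ?_)
          rw [Nat.card_perm, Nat.card_eq_fintype_card, Fintype.card_fin]
        have h3 : 3 ≤ p := by have := hp'.two_le; omega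
        have h2 : k ≤ 1 := by
          by_contra h2
          exact H62.not_sq_dvd_factorial hp' (n := n) (by omega)
            ((pow_dvd_pow p (by omega)).trans h1)
        exact isCyclic_of_card_dvd_prime (p := p) (by
          rw [show Nat.card (P : Subgroup (alternatingGroup (Fin n))) = p ^ k from hk]
          exact (pow_dvd_pow p h2).trans (by rw [pow_one]))
  · rintro ⟨rfl, rfl⟩
    have hG : Nat.card (alternatingGroup (Fin 5)) = 60 := by
      rw [nat_card_alternatingGroup]; simp [Nat.factorial]
    obtain ⟨hc, hi⟩ := aux hG P hP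
    refine ⟨hi, ?_⟩
    · refine ⟨hc, ?_⟩
      have : Nontrivial (P : Subgroup (alternatingGroup (Fin 5))) :=
        Finite.one_lt_card_iff_nontrivial.1 (by rw [hc]; norm_num)
      rw [Monoid.exponent_eq_prime_iff Nat.prime_two]
      intro g hg
      refine orderOf_eq_prime ?_ hg
      have h1 : g ^ 4 = 1 := by rw [← hc]; exact pow_card_eq_one'
      have key : ∀ σ : Equiv.Perm (Fin 5), Equiv.Perm.sign σ = 1 → σ ^ 4 = 1 → σ ^ 2 = 1 := by
        decide +kernel
      apply Subtype.ext
      apply Subtype.ext
      exact key g.1.1 g.1.2 (congrArg (fun x => x.1.1) h1)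

end Cfsg.Agent.S2269
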