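import Cfsg.Statements.S2270
import Mathlib
import Cfsg.Agent.Lib.Misc62.Automizer

set_option autoImplicit false
open Cfsg

namespace Cfsg.Agent.S2270

/-- Let n ≥ 3, p an odd prime, and P an abelian Sylow p-subgroup of the symmetric group S_n (with p dividing n!, so that P ≠ 1). Then N(P)/C(P) has even order. -/
theorem result (n : ℕ) (hn : 3 ≤ n) {p : ℕ} [Fact p.Prime] (hp : p ≠ 2) (hpn : p ≤ n)
    (P : Sylow p (Equiv.Perm (Fin n))) (hP : IsMulCommutative (P : Subgroup (Equiv.Perm (Fin n)))) :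
    2 ∣ ((Subgroup.centralizer ((P : Subgroup (Equiv.Perm (Fin n))) : Set (Equiv.Perm (Fin n)))).subgroupOf (Subgroup.normalizer ((P : Subgroup (Equiv.Perm (Fin n))) : Set (Equiv.Perm (Fin n))))).index := by
  have hp' : p.Prime := Fact.out
  obtain ⟨x, hx⟩ := (Equiv.Perm.exists_with_cycleType_iff (Fin n) (m := {p})).2
    ⟨by simpa using hpn, by simpa using hp'.two_le⟩
  have ho : orderOf x = p := by rw [← Equiv.Perm.lcm_cycleType, hx]; simp
  refine H62.two_dvd_automizer_of_isConj_inv P hP (x := x) (k := 1)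
    (by rw [pow_one, ← ho, pow_orderOf_eq_one]) (fun h => hp ?_)
    (Equiv.Perm.isConj_iff_cycleType_eq.2 (Equiv.Perm.cycleType_inv x).symm)
  have := orderOf_dvd_of_pow_eq_one h
  rw [ho] at this
  exact (Nat.prime_dvd_prime_iff_eq hp' Nat.prime_two).1 this

end Cfsg.Agent.S2270
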