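import Cfsg.Statements.S2280
import Cfsg.Agent.Lib.SLGen.Four
import Cfsg.Agent.S2278
-- import your own Cfsg.Agent.* helpers here

set_option autoImplicit false
open Cfsg

namespace Cfsg.Agent.S2280
open H64.SLGen Matrix in

/-- Let F be a finite field and n ≥ 3. Then SL_n(F) is generated by three conjugate regular unipotent elements: there are u with u − 1 nilpotent and (u − 1)^(n−1) ≠ 0, and g, h, such that u, g u g⁻¹ and h u h⁻¹ generate SL_n(F). -/
theorem result {F : Type*} [Field F] [Fintype F] (n : ℕ) (hn : 3 ≤ n) :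
    ∃ u g h : Matrix.SpecialLinearGroup (Fin n) F, (IsNilpotent ((u : Matrix (Fin n) (Fin n) F) - 1) ∧ ((u : Matrix (Fin n) (Fin n) F) - 1) ^ (n - 1) ≠ 0) ∧
      Subgroup.closure ({u, g * u * g⁻¹, h * u * h⁻¹} : Set (Matrix.SpecialLinearGroup (Fin n) F)) = ⊤ := by
  by_cases h3 : n = 3
  · subst h3
    obtain ⟨u, g, h1, h2, h⟩ := Cfsg.Agent.S2278.result (F := F)
    refine ⟨u, g, 1, ⟨h1, h2⟩, eq_top_iff.mpr (h ▸ Subgroup.closure_mono ?_)⟩
    intro x hx
    rcases hx with rfl | rfl <;> simp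
  obtain ⟨m, rfl⟩ : ∃ m, n = m + 4 := ⟨n - 4, by omega⟩
  obtain ⟨a, -, hgen⟩ := exists_generator (F := F)
  obtain ⟨v, P, hP, hv, hH⟩ := exists_four m (0 : F) zero_ne_one
  let g : Matrix.SpecialLinearGroup (Fin (m + 4)) F := ⟨P, by rw [hP, sub_zero]⟩
  have hg : g * jordan F (m + 4) * g⁻¹ = v := by
    rw [mul_inv_eq_iff_eq_mul]; exact Subtype.ext hv.symm
  have hx0 : e F (m + 4) 1 ⬝ᵥ (a • e F (m + 4) (m + 3)) = 0 := by
    rw [dotProduct_smul, e_dot_e_ne (by omega), smul_zero]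
  let x := tv _ _ hx0
  refine ⟨jordan F (m + 4), g, x, jordan_regular (by omega), ?_⟩
  rw [hg]
  set H := Subgroup.closure {jordan F (m + 4), v, x * jordan F (m + 4) * x⁻¹}
  have hC : jordan F (m + 4) ∈ H := Subgroup.subset_closure (by simp)
  have hx : x * jordan F (m + 4) * x⁻¹ ∈ H := Subgroup.subset_closure (by simp)
  obtain ⟨h1, -⟩ := hH H hC (Subgroup.subset_closure (by simp))
  refine eq_top_of_paramRing (hι := by simp) (h1 := h1) (hgen _ ?_)
  refine mem_paramRing_of (i := ⟨m + 3, by omega⟩) (j := ⟨0, by omega⟩) (by simp) ?_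
  rw [← e_eq_single, ← e_eq_single]
  refine Tr.of_mem (H.mul_mem (H.inv_mem hC) hx)
    (by rw [dotProduct_smul, e_dot_e_ne (by simp), smul_zero]) ?_
  have h1 : jordan F (m + 4) * tv (a • e F (m + 4) (m + 3)) (e F (m + 4) 0)
      (by rw [dotProduct_smul, e_dot_e_ne (by simp), smul_zero]) * x = x * jordan F (m + 4) := by
    refine Subtype.ext ?_
    change (jordan F (m + 4)).1 * (1 + vecMulVec _ _) * (1 + vecMulVec _ _) =
      (1 + vecMulVec _ _) * (jordan F (m + 4)).1
    simp only [mul_add, add_mul, mul_one, one_mul, mul_vecMulVec, vecMulVec_mul, mulVec_smul,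
      jordan_mulVec_e, e_vecMul_jordan (show 0 + 1 < m + 4 by omega), add_mulVec, vv_mulVec,
      e_of_le (show m + 4 ≤ m + 3 + 1 by omega), add_zero, vecMulVec_add,
      e_dot_e_ne (show 0 ≠ m + 3 by omega), zero_smul, smul_zero, zero_vecMulVec]
    abel
  rw [← h1]
  simp only [mul_assoc, inv_mul_cancel_left, mul_inv_cancel, mul_one]
  rfl

end Cfsg.Agent.S2280
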