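import Cfsg.Statements.S2281
import Mathlib
import Cfsg.Agent.Base
import Cfsg.Agent.Lib.Lang.RegU

set_option autoImplicit false
open Cfsg

namespace Cfsg.Agent.S2281


/-- Let F be a finite field and n ≥ 2, excluding the case n = 2 with F of two elements (where the group is not quasisimple). Then the symplectic group Sp_2n(F) is generated by three conjugate regular unipotent elements: there are u ∈ Sp_2n(F) with u − 1 nilpotent and (u − 1)^(2n−1) ≠ 0, and g, h ∈ Sp_2n(F), such that u, g u g⁻¹ and h u h⁻¹ generate Sp_2n(F). -/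
theorem result {F : Type*} [Field F] [Fintype F] (n : ℕ) (hn : 2 ≤ n) (h22 : ¬ (n = 2 ∧ Fintype.card F = 2)) :
    ∃ u g h : Matrix.symplecticGroup (Fin n) F,
      IsNilpotent ((u : Matrix (Fin n ⊕ Fin n) (Fin n ⊕ Fin n) F) - 1) ∧
      ((u : Matrix (Fin n ⊕ Fin n) (Fin n ⊕ Fin n) F) - 1) ^ (2 * n - 1) ≠ 0 ∧
      Subgroup.closure ({u, g * u * g⁻¹, h * u * h⁻¹} : Set (Matrix.symplecticGroup (Fin n) F)) = ⊤ := by
  obtain ⟨m, rfl⟩ : ∃ k, n = k + 1 := ⟨n - 1, by omega⟩
  have key : H37.GenCl.Three (H63.St.Sp.E m F) (2 * m + 2) := by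
    by_cases h : m = 1 ∧ (2 : F) = 0
    · obtain ⟨rfl, h2⟩ := h
      refine H37.GenCl.three_sp4 (H63.St.Sp.gen 1 F) (fun _ => rfl) rfl (fun _ => trivial)
        (H63.St.Sp.A 1 F).V0_eq h2 ?_
      by_contra h1
      push Not at h1
      classical
      have : (Finset.univ : Finset F) ⊆ {0, 1} := by
        intro t _
        by_cases ht : t = 0
        · simp [ht]
        · simp [h1 t ht]
      have := Finset.card_le_card this
      have h3 : ({0, 1} : Finset F).card ≤ 2 := Finset.card_le_two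
      rw [Finset.card_univ] at this
      have := Fintype.one_lt_card (α := F)
      exact h22 ⟨rfl, by omega⟩
    · exact H37.GenCl.three_sp (H63.St.Sp.gen m F) (fun _ => rfl) rfl (fun _ => trivial)
        (H63.St.Sp.A m F).V0_eq (by omega) fun h1 h2 => h ⟨h1, h2⟩
  obtain ⟨u, g, h, h1, h2, h3⟩ := key
  obtain ⟨h4, h5⟩ := H37.GenCl.mat_reg _ h1 h2
  exact ⟨u, g, h, h4, h5, h3⟩

end Cfsg.Agent.S2281
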