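import Cfsg.Statements.S2282
import Mathlib
import Cfsg.Agent.Base
import Cfsg.Agent.Lib.Lang.RegU3
import Cfsg.Agent.Lib.Stein.SUM

set_option autoImplicit false
open Cfsg

namespace Cfsg.Agent.S2282


/-- Let F be a field with q² elements, n ≥ 3 odd with (n, q) ≠ (3, 2), and SU_n(q) the special unitary group of the standard Hermitian form Σ u_i v_i^q. Then SU_n(q) is generated by three conjugate regular unipotent elements: there are u ∈ SU_n(q) with u − 1 nilpotent and (u − 1)^(n−1) ≠ 0, and g, h ∈ SU_n(q), such that u, g u g⁻¹ and h u h⁻¹ generate SU_n(q). -/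
theorem result {F : Type*} [Field F] [Fintype F] (q : ℕ) (hF : Fintype.card F = q ^ 2) (n : ℕ) (hn : 3 ≤ n) (hodd : Odd n) (h32 : ¬ (n = 3 ∧ q = 2)) :
    ∃ u g h : ↥(Cfsg.SU n F q), (IsNilpotent (((u : Matrix.SpecialLinearGroup (Fin n) F) : Matrix (Fin n) (Fin n) F) - 1) ∧ (((u : Matrix.SpecialLinearGroup (Fin n) F) : Matrix (Fin n) (Fin n) F) - 1) ^ (n - 1) ≠ 0) ∧
      Subgroup.closure ({u, g * u * g⁻¹, h * u * h⁻¹} : Set ↥(Cfsg.SU n F q)) = ⊤ := by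
  have : H11.U.IsSq F q := ⟨hF⟩
  obtain ⟨k, hk⟩ := hodd
  obtain ⟨m, rfl⟩ : ∃ m, k = m + 1 := ⟨k - 1, by omega⟩
  have e : n = m + 1 + (m + 1) + 1 := by omega
  have hg := H63.St.SU.gen F q (H63.St.SU.ιo e) (by tauto)
  rcases Nat.eq_zero_or_pos m with rfl | hm
  · obtain ⟨u, g, h1, h2, h3⟩ := H37.U3.two (H63.St.SU.C F q (H63.St.SU.ιo e)) hg (by tauto)
    refine ⟨u, g, g, ?_, by simpa using h3⟩
    rw [show n - 1 = 2 by omega]
    exact H37.GenCl.mat_reg _ h1 h2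
  · obtain ⟨u, g, h, h1, h2, h3⟩ := H37.GenCl.three_su (H63.St.SU.C F q (H63.St.SU.ιo e)) hg hm
    refine ⟨u, g, h, ?_, h3⟩
    rw [show n - 1 = 2 * m + 3 - 1 by omega]
    exact H37.GenCl.mat_reg _ h1 h2

end Cfsg.Agent.S2282
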