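import Cfsg.Statements.S2337
import Cfsg.Agent.Lib.Suzuki.Table
import Cfsg.Agent.Lib.Suzuki.LieModel

set_option autoImplicit false
open Cfsg

namespace Cfsg.Agent.S2337

/-- For the Suzuki group Sz(q), q = 2^(2m+1) with m ≥ 1 (realised inside Sp₄ over the field with q elements), every irreducible complex representation of degree at least 2 has degree at least 2^m·(q − 1). -/
theorem result {F : Type*} [Field F] [Fintype F] (m : ℕ) (hm : 1 ≤ m) (hF : Fintype.card F = 2 ^ (2 * m + 1)) :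
    (∀ (k : ℕ) (ρ : Representation ℂ (Cfsg.Lie.Sz F (2 ^ (m + 1))) (Fin k → ℂ)), ρ.IsIrreducible → 2 ≤ k → 2 ^ m * (2 ^ (2 * m + 1) - 1) ≤ k) := by
  haveI : H14.Sz.SzF F m := ⟨hm, hF⟩
  let S := H14.Sz.lieModel F m
  haveI := S.finite
  haveI := Fintype.ofFinite (Cfsg.Lie.Sz F (2 ^ (m + 1)))
  intro k ρ hρ hk
  have h1 : k ∈ charDegrees (Cfsg.Lie.Sz F (2 ^ (m + 1))) :=
    ⟨⟨ρ.character, k, ρ, hρ, rfl⟩, by rw [H87.deg_character]; simp⟩
  rw [S.charDegrees_eq] at h1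
  rw [← hF]
  have h8 := H14.Sz.eight_le_card (F := F)
  have hr := H14.Sz.Model.r_le_q (F := F)
  have h2 := H14.Sz.Model.r_sq (F := F)
  have h3 : 2 ≤ 2 ^ m := Nat.le_self_pow (by omega) 2
  rw [pow_succ 2 m] at hr h2 h1
  have h4 : 4 * 2 ^ m ≤ Fintype.card F := by nlinarith
  have h5 : 2 ^ m * (Fintype.card F - 1) ≤ Fintype.card F ^ 2 := by
    rw [sq]; exact Nat.mul_le_mul (by omega) (by omega)
  rcases h1 with rfl | rfl | rfl | rfl | rfl | rfl
  · omega
  · exact h5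
  · exact le_rfl
  · omega
  · rw [mul_comm]; exact Nat.mul_le_mul_left _ (by omega)
  · rw [mul_comm]; exact Nat.mul_le_mul_left _ (by omega)

end Cfsg.Agent.S2337
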