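import Cfsg.Statements.S2338
import Cfsg.Agent.Lib.MinDeg2.G2c
import Cfsg.Agent.Lib.Chev.Main
import Cfsg.Agent.Lib.Chev.Simple
import Cfsg.Agent.Lib.CrossChar.Triv

set_option autoImplicit false
open Cfsg

namespace Cfsg.Agent.S2338

lemma excl {q i : ℤ} (h9 : q = 9 ∨ 12 ≤ q) (b1 : 0 ≤ i) (b2 : i ≤ 2) :
    ¬ q ^ 3 + q - i ∣ |3 * i ^ 2 + (i ^ 3 - 5 * i) * q + (2 - 3 * i ^ 2) * q ^ 2| := fun a6 => by
  rcases h9 with rfl | h9
  · interval_cases i <;> simp at a6
  have q6 := mul_le_mul_of_nonneg_left h9 (sq_nonneg q)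
  have q7 := mul_le_mul_of_nonneg_left h9 (show 0 ≤ q by omega)
  have a7 := Int.le_of_dvd (abs_pos.mpr (by interval_cases i <;> intro <;> linarith)) a6
  interval_cases i <;> rcases le_abs'.mp a7 with a | a <;> linarith

lemma arith {q n m f : ℕ} (hq : 3 < q) (hf : q = 3 ^ f) (h1 : (q * q - 1) * (q * q) + 2 * q * (q - 1) ≤ n)
    (h2 : n = m + (q - 1) * q ^ 3) (h3 : n ∣ (∑ i ∈ Finset.range 6, q ^ i) * (q * m)) :
    q ^ 4 + q ^ 2 + 1 ≤ n := by
  by_contra hn
  obtain ⟨j, hj⟩ := Nat.exists_eq_add_of_le (not_le.mp hn).le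
  have h9 : q = 9 ∨ 12 ≤ q := by
    rcases f with _ | _ | f
    · omega
    · omega
    · have := Nat.one_le_pow f 3 (by omega)
      rw [pow_succ, pow_succ] at hf; omega
  have q1 : 1 ≤ q * q := Nat.mul_pos (by omega) (by omega)
  have q0 : 1 ≤ q := by omega
  have a1 : (n : ℤ) ∣ (q ^ 6 - 1) * q ^ 4 := by
    zify [q0] at h2 h3
    refine (dvd_add_right h3).mp ⟨(∑ i ∈ Finset.range 6, (q : ℤ) ^ i) * q, ?_⟩
    rw [h2]; simp only [Finset.sum_range_succ]; ring
  have a2 : n ∣ (q * q - 1) * j * q ^ 4 := by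
    zify [q1] at hj ⊢
    refine (dvd_iff_dvd_of_dvd_sub ⟨((q : ℤ) * q - 1) * q ^ 4, ?_⟩).mp a1
    linear_combination ((q : ℤ) * q - 1) * q ^ 4 * hj
  have a3 : j ≤ 2 * q + 1 := by zify [q1, q0] at h1 hj ⊢; nlinarith
  obtain ⟨k, -, hk⟩ := (Nat.dvd_prime_pow Nat.prime_three).mp
    ((Nat.gcd_dvd_right n (q ^ 4)).trans (by rw [hf, ← pow_mul]))
  rcases lt_or_ge k f with h | h
  · have a4 := Nat.le_of_dvd (Nat.mul_pos (Nat.mul_pos (by nlinarith [Nat.sub_add_cancel q1]) (by omega))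
      (Nat.gcd_pos_of_pos_right _ (by positivity))) (dvd_mul_gcd_of_dvd_mul a2)
    have a5 : 3 * n.gcd (q ^ 4) ≤ q := by
      rw [hk, hf, ← pow_succ']; exact Nat.pow_le_pow_right (by omega) h
    have a6 : 3 * n ≤ (q * q - 1) * (2 * q + 1) * q :=
      calc _ ≤ (q * q - 1) * j * (3 * n.gcd (q ^ 4)) := by linarith
        _ ≤ _ := by gcongr
    have : (4 : ℤ) ≤ q := by omega
    zify [q1, q0] at h1 a6
    nlinarith [mul_le_mul_of_nonneg_left this (show (0 : ℤ) ≤ q ^ 3 by positivity)]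
  obtain ⟨s, hs⟩ : q ∣ n := (hf.dvd.trans (pow_dvd_pow 3 h)).trans (hk ▸ Nat.gcd_dvd_left n (q ^ 4))
  obtain ⟨i, hi⟩ : ∃ i : ℤ, s = q ^ 3 + q - i := ⟨_, (sub_sub_cancel _ _).symm⟩
  have q4 : (9 : ℤ) ≤ q := by omega
  have a4 : (j : ℤ) = 1 + q * i := by zify at hj hs; linear_combination -hj - hs - q * hi
  have a5 : 0 ≤ i ∧ i ≤ 2 := ⟨by nlinarith [show (1 : ℤ) ≤ j by omega], by
    nlinarith [show (j : ℤ) ≤ 2 * q + 1 by omega]⟩
  have a6 : (q ^ 3 + q - i : ℤ) ∣ |3 * i ^ 2 + (i ^ 3 - 5 * i) * q + (2 - 3 * i ^ 2) * q ^ 2| := by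
    refine (dvd_abs _ _).mpr ((dvd_iff_dvd_of_dvd_sub ⟨3 * i + (i ^ 2 - 2) * q - 2 * i * q ^ 2 + q ^ 3 +
      i * q ^ 4 - q ^ 5 + q ^ 7, by ring⟩).mp (.trans ⟨q, ?_⟩ a1))
    rw [← hi, hs]; push_cast; ring
  exact excl (h9.imp (by omega) (by omega)) a5.1 a5.2 a6

open H38.MD H38.MD.G2 Cfsg.Lie in
/-- Lower bounds for the degrees of non-linear irreducible complex representations of the Chevalley group of type G₂ over a finite field with q elements: the degree is at least q³ + 1 when q ≡ 1 (mod 3) and q > 4, at least q³ − 1 when q ≡ 2 (mod 3) and q > 2, and at least q⁴ + q² + 1 when q ≡ 0 (mod 3) and q > 3. -/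
theorem result {F : Type*} [Field F] [Fintype F] (k : ℕ) (ρ : Representation ℂ (Cfsg.Lie.chevG2.group F) (Fin k → ℂ)) (hρ : ρ.IsIrreducible) (hk : 2 ≤ k) :
    (Fintype.card F % 3 = 1 → 4 < Fintype.card F → Fintype.card F ^ 3 + 1 ≤ k) ∧
    (Fintype.card F % 3 = 2 → 2 < Fintype.card F → Fintype.card F ^ 3 - 1 ≤ k) ∧
    (Fintype.card F % 3 = 0 → 3 < Fintype.card F → Fintype.card F ^ 4 + Fintype.card F ^ 2 + 1 ≤ k) := by
  classical
  have hD : chevG2 ∈ [chevG2, chevB2, chevD4, chevF4, chevE6, chevE7, chevE8] := by simp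
  obtain ⟨R, E, hE⟩ := H38.exists_isMat hD F
  have hX : ∀ r t, hE.grp.x r t = hE.grpRel.x r t := fun r t => (hE.grpRel_x r t).symm
  have hψ := AddChar.FiniteField.primitiveChar_to_Complex_isPrimitive F
  have hk' : Module.finrank ℂ (Fin k → ℂ) = k := by simp
  obtain ⟨c, hc⟩ := IsCyclic.exists_ofOrder_eq_natCard (α := Fˣ)
  rw [Nat.card_units, Nat.card_eq_fintype_card] at hc
  have c1 : ∀ m, m ≠ 0 → m + 1 < Fintype.card F → (c : F) ^ m ≠ 1 := fun m a b e =>
    pow_ne_one_of_lt_orderOf (x := c) a (by omega) (Units.ext (by simpa using e))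
  have n1 : 2 < Fintype.card F → ∀ r (hr : r < 12), dm hE.grpRel ρ
      (AddChar.FiniteField.primitiveChar_to_Complex F) [r] [] < Module.finrank ℂ (Fin k → ℂ) := fun hq r hr => by
    refine Submodule.finrank_lt fun a => ?_
    rcases (hE.simple hD fun _ => ⟨c, c.ne_zero, by simpa using c1 1 one_ne_zero hq⟩).1.eq_bot_or_eq_top_of_normal
      ρ.ker inferInstance with b | b
    · refine one_ne_zero (hE.grp_faith.x_inj ⟨r, hr⟩ (a₁ := 1) (a₂ := 0) ?_)
      rw [hX, hX, hE.grpRel.x_zero hr, ← Subgroup.mem_bot, ← b]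
      exact LinearMap.ext fun v => (mem_Ea_zero ρ _).mp ((mem_Bx.mp (a.ge trivial)).1 r (by simp)) 1
    · have := H63.CrossChar.finrank_le_one_of_trivial ρ hρ fun g => (b ▸ trivial : g ∈ ρ.ker)
      omega
  have := Fact.mk Nat.prime_three
  obtain ⟨f, hp, hf⟩ := FiniteField.card F (ringChar F)
  have h3 : ((3 : ℕ) : F) = 0 ↔ 3 ∣ Fintype.card F := by
    rw [ringChar.spec, ← prime_dvd_char_iff_dvd_card, Nat.prime_dvd_prime_iff_eq hp Nat.prime_three,
      Nat.prime_dvd_prime_iff_eq Nat.prime_three hp, eq_comm]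
  have n2 := fun (a : Fintype.card F % 3 ≠ 0) (b : 4 < Fintype.card F) =>
    count_ne hX hψ (fun e => a (Nat.mod_eq_zero_of_dvd (h3.mp (by simpa using e)))) c.ne_zero
      (c1 3 (by omega) b) (n1 (by omega) 11 (by omega))
  have q1 : 1 ≤ Fintype.card F := Fintype.card_pos
  have q2 := Nat.mul_pos q1 q1
  have q3 := Nat.one_le_pow 3 _ q1
  have : Finite (chevG2.group F) := inferInstance
  refine ⟨fun a b => ?_, fun a b => ?_, fun a b => ?_⟩
  · have q4 : (5 : ℤ) ≤ Fintype.card F := by omega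
    have q5 := mul_le_mul_of_nonneg_left q4 (sq_nonneg (Fintype.card F : ℤ))
    rcases n2 (by omega) b with e | ⟨e1, e2, e3⟩
    · rw [hk'] at e; zify [q1] at e ⊢; nlinarith
    have e4 := no_zero hX hψ (c := c ^ ((Fintype.card F - 1) / 3))
      (fun e => by have := h3.mp (by simpa using e); omega)
      (by rw [← pow_mul, Nat.div_mul_cancel (by omega), FiniteField.pow_card_sub_one_eq_one _ c.ne_zero])
      (c1 _ (by omega) (by omega)) e1 e2
    rcases (Nat.one_le_iff_ne_zero.mpr e4).eq_or_lt with e5 | e5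
    · have e6 := (hecke_bound hE.grp_faith hE.grp_top
        (fix_U hX c.ne_zero (by simpa using c1 1 one_ne_zero (by omega)) e5.symm) (fun i => by
          have : ∀ i : Fin chevG2.rank, ∃ r : Fin chevG2.nroots,
            chevG2.pairing r (chevG2.simple i) = 1 := by decide +kernel
          simpa only [← R.pairing_eq, R.sim_eq] using this i) (by decide)).resolve_left (by omega)
      rw [H39.cardWG2, Nat.card_eq_fintype_card, poin, hk'] at e6
      simp only [Finset.sum_range_succ, Finset.sum_range_zero] at e6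
      by_contra e7
      have e8 := e6.trans (Nat.mul_le_mul_right _ (Nat.lt_succ_iff.mp (not_le.mp e7)))
      zify at e8
      have p := fun k => mul_le_mul_of_nonneg_left q4 (show (0 : ℤ) ≤ Fintype.card F ^ k by positivity)
      linarith [p 0, p 1, p 2, p 3, p 4, p 5]
    · rw [hk'] at e3; zify [q1] at e3 e5 ⊢; nlinarith
  · have q4 : (5 : ℤ) ≤ Fintype.card F := by omega
    have q5 := mul_le_mul_of_nonneg_left q4 (sq_nonneg (Fintype.card F : ℤ))
    rcases n2 (by omega) (by omega) with e | ⟨-, -, e⟩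
    · rw [hk'] at e; zify [q1, q3] at e ⊢; nlinarith
    · replace e := le_add_self.trans e
      rw [hk'] at e; zify [q1, q3] at e ⊢; nlinarith
  have q4 : (4 : ℤ) ≤ Fintype.card F := by omega
  have q5 := mul_le_mul_of_nonneg_left q4 (sq_nonneg (Fintype.card F : ℤ))
  have e0 := h3.mpr (Nat.dvd_of_mod_eq_zero a)
  rcases count_three hX hψ e0 c.ne_zero (c1 2 (by omega) b) (n1 (by omega) 9 (by omega))
    (p := Fintype.card F / 3 - 1) (by omega) with e | e | e | ⟨e1, e2⟩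
  · rw [hk'] at e; zify [q1, q2] at e ⊢; nlinarith
  · rw [hk'] at e; zify [q1, q2] at e ⊢; nlinarith
  · rw [hk'] at e; zify [q1, q2] at e ⊢; nlinarith
  · rw [(Nat.prime_dvd_prime_iff_eq hp Nat.prime_three).mp ((ringChar.spec F 3).mp e0)] at hf
    exact hk' ▸ arith b hf e1 e2 (dvd_P hX hE.grp_faith hE.grp_top hρ)

end Cfsg.Agent.S2338
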