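import Cfsg.Statements.S2342
import Cfsg.Agent.Lib.MinDeg2.Tw3

set_option autoImplicit false
open Cfsg

namespace Cfsg.Agent.S2342

/-- The heights. -/
def L : List ℕ := [1, 4, 5]

lemma arith {q n A : ℕ} (hq : 2 ≤ q) (hA : (q * A : ℤ) = q ^ 5 - q ^ 3 + q)
    (h : 2 * (q ^ 2 - 1) * q ^ 5 ≤ q ^ 2 * n ∨
    (n ∣ (L.map fun k => q ^ (5 - k) + q ^ (4 + k)).sum * (q - 1) * q ^ 5 ∧
      (q - 1) * (L.map fun k => q ^ k).sum ≤ q * n)) : q * A ≤ n := by
  by_contra hn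
  have h2 : (2 : ℤ) ≤ q := by exact_mod_cast hq
  have p : ∀ k, 2 * (q : ℤ) ^ k ≤ q * q ^ k := fun k => by gcongr
  obtain ⟨j, hj⟩ := Nat.exists_eq_add_of_le (not_le.mp hn).le
  have hj' : (n : ℤ) + j = q * A := by exact_mod_cast hj.symm
  rcases h with h | ⟨h1, h3⟩
  · zify [Nat.one_le_pow 2 q (by omega)] at h hn
    have : (q : ℤ) ^ 2 * n ≤ q ^ 2 * (q * A) := by gcongr; omega
    rw [hA] at this
    linarith [p 0, p 1, p 2, p 3, p 4, p 5, p 6]
  have e1 : (L.map fun k => q ^ (5 - k) + q ^ (4 + k)).sum * (q - 1) =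
      A * (q ^ (1 + 4 + 1) - 1) := by
    simp only [L, List.map_cons, List.map_nil, List.sum_cons, List.sum_nil, Nat.reduceAdd, Nat.reduceSub]
    zify [Nat.one_le_pow 6 q (by omega), show 1 ≤ q by omega]
    refine mul_left_cancel₀ (show (q : ℤ) ≠ 0 by omega) ?_
    rw [← mul_assoc _ (A : ℤ), hA]
    ring
  have e0 : (q - 1) * (L.map fun k => q ^ k).sum + q * 1 = q * (q * A) := by
    simp only [L, List.map_cons, List.map_nil, List.sum_cons, List.sum_nil]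
    zify [show 1 ≤ q by omega]
    rw [hA]
    ring
  have e2 : j ≤ 1 := by
    rw [hj, mul_add] at e0
    exact Nat.le_of_mul_le_mul_left (show q * j ≤ q * 1 by omega) (by omega)
  rw [e1] at h1
  have e3 : j ≠ 0 := by omega
  obtain ⟨x, hx⟩ : ∃ x : ℤ, x = q := ⟨_, rfl⟩
  have e4 := H38.MD.excl (M := (x - 1))
    (M' := (x + 1) * ((x ^ 2 + x + 1) * ((x ^ 2 - x + 1) * 1))) [1, 2, -2] hq hj.symm h1 (by rw [← hx]; ring) (by
      rw [← hx] at hA ⊢
      exact (mul_dvd_mul ⟨x ^ 4 - x ^ 3 + 1, by rw [hA]; ring⟩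
      (mul_dvd_mul ⟨x ^ 3 - x ^ 2 - x + 2, by rw [hA]; ring⟩
      (mul_dvd_mul ⟨x ^ 3 + x ^ 2 - x - 2, by rw [hA]; ring⟩
      dvd_rfl))))
    (by rw [← hx] at p h2 ⊢; simp only [Nat.reduceAdd]; linarith [p 0, p 1, p 2, p 3, p 4]) e3
    (by interval_cases j <;> simp_all)
  have e5 : (j : ℤ) ^ (5 + 1) * |([1, 2, -2].map ((j : ℤ) + ·)).prod| * 2 ≤ q ^ 4 :=
    le_trans (b := 2 ^ 4) (by interval_cases j <;> decide +kernel) (by gcongr)
  have e6 := mul_le_mul_of_nonneg_right e5 (show (0 : ℤ) ≤ q ^ 1 by positivity)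
  have e7 : (j : ℤ) ≤ 1 := by omega
  linarith [p 0, p 1, p 2, p 3, p 4, p 5]

/-- For the twisted group ³D₄(q), realised over the field with q³ elements (q a prime power), every irreducible complex representation of degree at least 2 has degree at least q(q⁴ − q² + 1). -/
theorem result {K : Type*} [Field K] [Fintype K] (q : ℕ) (hq : IsPrimePow q) (hK : Fintype.card K = q ^ 3) :
    (∀ (k : ℕ) (ρ : Representation ℂ (Cfsg.Lie.twistedD4 K q) (Fin k → ℂ)), ρ.IsIrreducible → 2 ≤ k → q * (q ^ 4 - q ^ 2 + 1) ≤ k) := by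
  intro k ρ hρ hk
  have h2 := hq.two_le
  have h3 : q ^ 2 ≤ q ^ 4 := Nat.pow_le_pow_right (by omega) (by omega)
  refine arith h2 (by push_cast [h3]; ring) ((H38.MD.twD4 hq hK ρ hρ hk).imp_right fun a => ⟨a.1, ?_⟩)
  convert a.2 using 2
  simp only [L, List.map_cons, List.map_nil, List.sum_cons, List.sum_nil]
  ring

end Cfsg.Agent.S2342
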