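import Cfsg.Statements.S2343
import Mathlib
import Cfsg.Agent.Lib.Ree.MinDeg

set_option autoImplicit false
open Cfsg

namespace Cfsg.Agent.S2343

/-- For the Ree group ²G₂(q), q = 3^(2m+1) with m ≥ 1 (realised over the field with q elements), every irreducible complex representation of degree at least 2 has degree at least q² − q + 1. -/
theorem result {K : Type*} [Field K] [Fintype K] (m : ℕ) (hm : 1 ≤ m) (hK : Fintype.card K = 3 ^ (2 * m + 1)) :
    (∀ (k : ℕ) (ρ : Representation ℂ (Cfsg.Lie.twistedG2 K (3 ^ m)) (Fin k → ℂ)), ρ.IsIrreducible → 2 ≤ k → (3 ^ (2 * m + 1)) ^ 2 - 3 ^ (2 * m + 1) + 1 ≤ k) := by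
  have := H40.Ree.charP_three hK
  have hq := H40.Ree.three_lt_card hm hK
  rw [← H40.Ree.natCard_eq hK]
  set S := H40.Ree.lieModel hK
  intro k ρ hρ hk
  have h := S.le_finrank ρ fun e => ?_
  · simpa using h
  have := S.isSimpleGroup hq
  have h1 : ρ.ker = ⊤ := (MonoidHom.normal_ker ρ).eq_bot_or_eq_top.resolve_left fun h =>
    one_ne_zero (S.u_eq_one.1 (Subgroup.mem_bot.1 (h ▸ e : S.u 0 0 1 ∈ ⊥))).2.2
  have h2 : ∀ g v, ρ g v = v := fun g v => by
    rw [show ρ g = 1 from (h1 ▸ Subgroup.mem_top g : g ∈ ρ.ker)]; rfl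
  let W : Subrepresentation ρ := ⟨LinearMap.ker (LinearMap.proj ⟨0, by omega⟩), fun g v hv => by rwa [h2]⟩
  rcases hρ.eq_bot_or_eq_top W with h | h
  · have : (Pi.single ⟨1, by omega⟩ 1 : Fin k → ℂ) ∈ W.toSubmodule := by simp [W]
    rw [h] at this
    simpa using congrFun (show (Pi.single ⟨1, by omega⟩ 1 : Fin k → ℂ) = 0 from this) ⟨1, by omega⟩
  · have : (Pi.single ⟨0, by omega⟩ 1 : Fin k → ℂ) ∈ W.toSubmodule := by rw [h]; trivial
    simp [W] at this

end Cfsg.Agent.S2343
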