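import Mathlib
import Cfsg.Statements.S2347
import Cfsg.Agent.Lib.CrossChar.Sp
import Cfsg.Agent.Lib.CrossChar.WeilSp
import Cfsg.Agent.Lib.CrossChar.Triv
import Cfsg.Agent.Lib.Sp.Simple
-- import your own Cfsg.Agent.* helpers here

set_option autoImplicit false
open Cfsg

namespace Cfsg.Agent.S2347

/-- Smallest degree of a non-linear irreducible complex representation of the symplectic group Sp_{2n} over a finite field of odd order q, n ≥ 2: every irreducible complex representation of degree at least 2 has degree at least (q^n − 1)/2, and there is an irreducible complex representation of exactly that degree (a Weil representation). -/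
theorem result {F : Type*} [Field F] [Fintype F] [DecidableEq F] (n : ℕ) (hn : 2 ≤ n) (hodd : Odd (Fintype.card F)) :
    (∀ (k : ℕ) (ρ : Representation ℂ (Matrix.symplecticGroup (Fin n) F) (Fin k → ℂ)), ρ.IsIrreducible → 2 ≤ k → (Fintype.card F ^ n - 1) / 2 ≤ k) ∧
    (∃ ρ : Representation ℂ (Matrix.symplecticGroup (Fin n) F) (Fin ((Fintype.card F ^ n - 1) / 2) → ℂ), ρ.IsIrreducible) := by
  have h2' : ringChar F ≠ 2 := by
    intro h3
    have := FiniteField.even_card_of_char_two h3
    rcases hodd with ⟨k, hk⟩
    omega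
  have h2 : (2 : F) ≠ 0 := fun h =>
    h2' (CharP.ringChar_of_prime_eq_zero Nat.prime_two (by exact_mod_cast h))
  refine ⟨fun k ρ hρ hk => ?_, (H63.CrossChar.exists_weil_sp h2 (by omega)).1⟩
  have hchar : ringChar ℂ ≠ ringChar F := by
    rw [ringChar.eq_zero]; exact (CharP.char_is_prime F _).ne_zero.symm
  have := H63.CrossChar.sp_bound (F := F) (ι := Fin n) h2 (by simpa using hn) hchar
    (LinearMap.toMatrixAlgEquiv'.toMonoidHom.comp ρ)
    ⟨⟨1, Matrix.transpose_one⟩, fun h => by
      have h1 : H63.CrossChar.siegel ⟨1, Matrix.transpose_one⟩ ∈ MonoidHom.ker ρ :=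
        (map_eq_one_iff _ LinearMap.toMatrixAlgEquiv'.injective).mp h
      rcases H11.Sp.normal_le_center_or (MonoidHom.ker ρ) with h3 | h3
      · obtain ⟨a, ha⟩ := H11.Sp.mem_center_iff.mp (h3 h1)
        have := congrFun (congrFun ha (Sum.inl ⟨0, by omega⟩)) (Sum.inr ⟨0, by omega⟩)
        rw [H63.CrossChar.coe_siegel] at this
        simp at this
      · rw [H11.Sp.commutator_eq_top_of_two_ne_zero hn (ringChar F)
          ((CharP.char_is_prime F _).odd_of_ne_two h2')] at h3
        have := H63.CrossChar.finrank_le_one_of_trivial ρ hρ fun g => h3 (Subgroup.mem_top g)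
        simp at this
        omega⟩
  rw [Fintype.card_fin] at this
  omega

end Cfsg.Agent.S2347
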