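import Cfsg.Statements.S2354
import Cfsg.Agent.Lib.Suzuki.Structure
import Cfsg.Agent.Lib.Suzuki.LieModel

set_option autoImplicit false
open Cfsg

namespace Cfsg.Agent.S2354

open H14.Sz Polynomial
open scoped Matrix

variable {G : Type*} [Group G] {F : Type*} [Field F] [Fintype F] {m : ℕ} [SzF F m]

theorem step_mulVec (S : Model G F m) (b : F) (y : Fin 4 → F) :
    S.mat (S.u 0 b * S.w) *ᵥ y =
      ![y 3 + b * y 1 + b ^ 2 ^ (m + 1) * y 0, y 2 + b * y 0, y 1, y 0] := by
  rw [map_mul, S.mat_u, S.mat_w, ← Matrix.mulVec_mulVec]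
  ext i
  fin_cases i <;>
    simp [uM, wM, Matrix.mulVec, dotProduct, Fin.sum_univ_four, nrm_zero_left, th_apply]

theorem key (S : Model G F m) (γ : ℕ × Bool → F) (L : List (ℕ × Bool))
    (hL : FreeGroup.IsReduced L) (T : Set (ℕ × Bool)) (hγ : Set.InjOn γ T)
    (hT : ∀ l ∈ L, ∀ b, (l.1, b) ∈ T) (c : F) (hc : ∀ l ∈ L.head?, c + γ l ≠ 0) :
    ∃ v : Fin 4 → F[X], v 0 ≠ 0 ∧ (v 0).natDegree = L.length * 2 ^ (m + 1) ∧
      (∀ i, (v i).natDegree ≤ L.length * 2 ^ (m + 1)) ∧
      ∀ t : F, S.mat (S.u 0 (c * t) * (L.map fun l =>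
        S.u 0 (γ l * t) * S.w * S.u 0 (γ (l.1, !l.2) * t)).prod) *ᵥ ![1, 0, 0, 0] =
          fun i => (v i).eval t := by
  induction L generalizing c with
  | nil =>
    refine ⟨![1, 0, 0, 0], by simp, by simp, fun i => by fin_cases i <;> simp, fun t => ?_⟩
    rw [List.map_nil, List.prod_nil, mul_one, S.mat_u, uM_mulVec_e0]
    ext i; fin_cases i <;> simp
  | cons l L ih =>
    have hL' : FreeGroup.IsReduced L := hL.infix (List.suffix_cons l L).isInfix
    obtain ⟨v, h0, h1, h2, h3⟩ := ih hL' (fun l' hl' => hT l' (List.mem_cons_of_mem _ hl'))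
      (γ (l.1, !l.2)) (by
        intro l' hl' e
        cases L with
        | nil => simp at hl'
        | cons a L =>
          have : a = l' := by simpa using hl'
          subst this
          have e2 : γ (l.1, !l.2) = γ a := by grind
          have e3 := hγ (hT l (by simp) _) (hT a (by simp) a.2) e2
          have e4 := (FreeGroup.isReduced_cons_cons.1 hL).1 (Prod.ext_iff.1 e3).1
          have e5 := congrArg Prod.snd e3
          simp only [e4] at e5
          cases a.2 <;> simp_all)
    have hd : c + γ l ≠ 0 := hc l (by simp)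
    set d := c + γ l with hd'
    set σ := 2 ^ (m + 1) with hσ
    have hσ2 : 2 ≤ σ := by
      rw [hσ, pow_succ]; have := Nat.one_le_two_pow (n := m); omega
    set k := L.length * σ with hk
    have hlen : (l :: L).length * σ = k + σ := by rw [List.length_cons, hk]; ring
    have e1 : (C (d ^ σ) * X ^ σ * v 0).natDegree = k + σ := by
      rw [natDegree_mul (mul_ne_zero (C_ne_zero.2 (pow_ne_zero _ hd)) (pow_ne_zero _ X_ne_zero)) h0,
        natDegree_C_mul_X_pow _ _ (pow_ne_zero _ hd), h1, add_comm]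
    have e2 : ∀ i, (C d * X * v i).natDegree ≤ k + 1 := fun i => by
      refine natDegree_mul_le.trans ?_
      rw [natDegree_C_mul_X _ hd]
      have := h2 i; omega
    have e3 : (v 3 + C d * X * v 1).natDegree < k + σ := by
      refine (natDegree_add_le _ _).trans_lt ?_
      have := h2 3; have := e2 1; omega
    have e4 : (v 3 + C d * X * v 1 + C (d ^ σ) * X ^ σ * v 0).natDegree = k + σ := by
      rw [natDegree_add_eq_right_of_natDegree_lt (e1 ▸ e3), e1]
    refine ⟨![v 3 + C d * X * v 1 + C (d ^ σ) * X ^ σ * v 0, v 2 + C d * X * v 0, v 1, v 0],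
      ?_, ?_, ?_, fun t => ?_⟩
    · intro e
      have e' : v 3 + C d * X * v 1 + C (d ^ σ) * X ^ σ * v 0 = 0 := e
      rw [e', natDegree_zero] at e4
      omega
    · rw [hlen]; exact e4
    · rw [hlen]
      intro i
      fin_cases i
      · exact e4.le
      · refine (natDegree_add_le (v 2) (C d * X * v 0)).trans ?_
        have := h2 2; have := e2 0; omega
      · exact (h2 1).trans (by omega)
      · exact (h2 0).trans (by omega)
    · have e5 : S.u 0 (c * t) * ((l :: L).map fun l =>
          S.u 0 (γ l * t) * S.w * S.u 0 (γ (l.1, !l.2) * t)).prod =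
          S.u 0 (d * t) * S.w * (S.u 0 (γ (l.1, !l.2) * t) * (L.map fun l =>
            S.u 0 (γ l * t) * S.w * S.u 0 (γ (l.1, !l.2) * t)).prod) := by
        rw [List.map_cons, List.prod_cons, hd', add_mul, ← S.u_zero_mul]
        simp only [mul_assoc]
      rw [e5, map_mul, ← Matrix.mulVec_mulVec, h3, step_mulVec]
      ext i
      fin_cases i <;> simp [mul_pow, hσ]

theorem main (S : Model G F m) (w : FreeGroup ℕ) (hw : w ≠ 1) (M : ℕ)
    (hM : ∀ l ∈ w.toWord, l.1 < M) (h1 : M ≤ m) (h2 : w.toWord.length ≤ m) :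
    ∃ f : ℕ → G, FreeGroup.lift f w ≠ 1 := by
  by_contra hcon
  push Not at hcon
  have hq : Fintype.card F = 2 ^ (2 * m + 1) := card_eq
  have hm : m < 2 ^ m := Nat.lt_two_pow_self
  have hq' : Fintype.card F = 2 ^ m * 2 ^ (m + 1) := by rw [hq, ← pow_add]; congr 1; ring
  have hq2 : 2 * M < Fintype.card F := by
    rw [hq', pow_succ]
    have := Nat.one_le_two_pow (n := m)
    nlinarith
  let γ : ℕ × Bool → F := fun l => (Fintype.equivFin F).symm
    ⟨(2 * l.1 + l.2.toNat) % Fintype.card F, Nat.mod_lt _ Fintype.card_pos⟩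
  have hγ : Set.InjOn γ {l | l.1 < M} := by
    rintro ⟨i, b⟩ hi ⟨j, c⟩ hj e
    have e2 := congrArg Fin.val ((Fintype.equivFin F).symm.injective e)
    simp only [Set.mem_ofPred_eq] at hi hj e2
    have := Bool.toNat_le b
    have := Bool.toNat_le c
    rw [Nat.mod_eq_of_lt (by omega), Nat.mod_eq_of_lt (by omega)] at e2
    cases b <;> cases c <;> simp at e2 ⊢ <;> omega
  obtain ⟨l, L, hL⟩ := List.exists_cons_of_ne_nil (mt FreeGroup.toWord_eq_nil_iff.1 hw)
  obtain ⟨v, h0, h3, -, h4⟩ := key S γ w.toWord FreeGroup.isReduced_toWord _ hγ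
    (fun l hl _ => hM l hl) (γ l + 1) (by
      rw [hL]
      intro l' hl'
      have : l = l' := by simpa using hl'
      subst this
      grind)
  have h5 : ∀ t : F, (v 0 - 1).eval t = 0 := by
    intro t
    have e1 := hcon fun i => S.u 0 (γ (i, true) * t) * S.w * S.u 0 (γ (i, false) * t)
    rw [← FreeGroup.mk_toWord (x := w), FreeGroup.lift_mk] at e1
    have e2 : (w.toWord.map fun l => S.u 0 (γ l * t) * S.w * S.u 0 (γ (l.1, !l.2) * t)).prod = 1 := by
      rw [← e1]
      congr 2
      funext ⟨i, b⟩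
      cases b
      · simp only [cond_false, mul_inv_rev, S.u_inv, S.w_inv, mul_assoc]
        simp
      · rfl
    have e3 := congrFun (h4 t) 0
    rw [e2, mul_one, S.mat_u, uM_mulVec_e0] at e3
    rw [eval_sub, ← e3]; simp
  have hpos : 0 < w.toWord.length * 2 ^ (m + 1) := by rw [hL]; simp
  have h6 : (v 0 - 1).natDegree = w.toWord.length * 2 ^ (m + 1) := by
    rw [← C_1, natDegree_sub_C, h3]
  have h7 := eq_zero_of_natDegree_lt_card_of_eval_eq_zero (v 0 - 1) Function.injective_id h5 (by
    rw [h6, hq']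
    exact Nat.mul_lt_mul_of_pos_right (by omega) (by positivity))
  rw [h7, natDegree_zero] at h6
  omega

/-- A non-trivial law holds in only finitely many Suzuki groups: for every non-trivial element w of the free group on countably many generators there is N such that for q = 2^(2m+1) with m ≥ N some substitution of elements of the Suzuki group over the field with q elements into w is not the identity. -/
theorem result (w : FreeGroup ℕ) (hw : w ≠ 1) :
    ∃ N : ℕ, ∀ (F : Type*) [Field F] [Fintype F] (m : ℕ), 1 ≤ m → N ≤ m →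
      Fintype.card F = 2 ^ (2 * m + 1) →
      ∃ f : ℕ → ↥(Cfsg.Lie.Sz F (2 ^ (m + 1))), FreeGroup.lift f w ≠ 1 := by
  refine ⟨(w.toWord.map Prod.fst).sum + 1 + w.toWord.length, fun F _ _ m hm hN hF => ?_⟩
  haveI : H14.Sz.SzF F m := ⟨hm, hF⟩
  refine main (H14.Sz.lieModel F m) w hw ((w.toWord.map Prod.fst).sum + 1) ?_ (by omega) (by omega)
  intro l hl
  exact Nat.lt_succ_of_le (List.le_sum_of_mem (List.mem_map_of_mem hl))

end Cfsg.Agent.S2354
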