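import Mathlib
import Cfsg.Statements.S2355
import Cfsg.Agent.Lib.Law.Central
import Cfsg.Agent.Lib.Cls63.Embed
import Cfsg.Agent.S0281
-- import your own Cfsg.Agent.* helpers here

set_option autoImplicit false
open Cfsg

namespace Cfsg.Agent.S2355

open H63.Law H63.Emb

theorem card_le_of_quot {G H κ F : Type*} [Group G] [Group H] [Fintype κ] [Fintype F]
    (e : G ≃* H ⧸ Subgroup.center H) (f : H → Matrix κ κ F) (hf : Function.Injective f)
    {a b : ℕ} (ha : Fintype.card F ≤ a) (hb : Fintype.card κ ≤ b) (ha1 : 1 ≤ a) :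
    Nat.card G ≤ a ^ (b * b) := by
  classical
  have : Finite (Matrix κ κ F) := inferInstanceAs (Finite (κ → κ → F))
  have : Finite H := Finite.of_injective f hf
  have h1 : Nat.card G ≤ Nat.card H := by
    rw [Nat.card_congr e.toEquiv]
    exact Nat.card_le_card_of_surjective _ (QuotientGroup.mk'_surjective _)
  have h2 : Nat.card H ≤ Nat.card (κ → κ → F) := Nat.card_le_card_of_injective f hf
  have h3 : Nat.card (κ → κ → F) = Fintype.card F ^ (Fintype.card κ * Fintype.card κ) := by
    simp [pow_mul]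
  calc Nat.card G ≤ Fintype.card F ^ (Fintype.card κ * Fintype.card κ) := by omega
    _ ≤ a ^ (Fintype.card κ * Fintype.card κ) := Nat.pow_le_pow_left ha _
    _ ≤ a ^ (b * b) := Nat.pow_le_pow_right ha1 (Nat.mul_le_mul hb hb)

theorem exists_field_of_sq {F : Type} [Field F] [Fintype F] {q : ℕ} (hF : Fintype.card F = q ^ 2) :
    ∃ (K : Type) (_ : Field K) (_ : Fintype K), Fintype.card K = q := by
  have h1 : IsPrimePow (q ^ 2) := hF ▸ FiniteField.isPrimePow_card F
  have h2 : IsPrimePow q := (isPrimePow_pow_iff two_ne_zero).mp h1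
  obtain ⟨p, k, hp, hk, rfl⟩ := (isPrimePow_nat_iff q).mp h2
  have : Fact p.Prime := ⟨hp⟩
  let _ : Fintype (GaloisField p k) := Fintype.ofFinite _
  refine ⟨GaloisField p k, inferInstance, inferInstance, ?_⟩
  rw [← Nat.card_eq_fintype_card, GaloisField.card p k hk.ne']

/-- A non-trivial law is satisfied by only finitely many finite simple groups that are alternating or classical, up to isomorphism: for every non-trivial element w of the free group on countably many generators there is a bound N such that every alternating group of degree ≥ 5 and every simple classical group (linear, symplectic, unitary or orthogonal, in this problem's sense) in which w is a law has order at most N. -/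
theorem result (w : FreeGroup ℕ) (hw : w ≠ 1) :
    ∃ N : ℕ, ∀ (G : Type*) [Group G] [Finite G],
      (Cfsg.IsAlternating G ∨ Cfsg.IsPSL G ∨ Cfsg.IsPSp G ∨ Cfsg.IsPSU G ∨ Cfsg.IsPOmegaOdd G ∨
          Cfsg.IsPOmegaPlus G ∨ Cfsg.IsPOmegaMinus G) →
      (∀ f : ℕ → G, FreeGroup.lift f w = 1) → Nat.card G ≤ N := by
  obtain ⟨N1, hN1⟩ := not_isCLaw_SL_two.{0} w hw
  obtain ⟨N2, hN2⟩ := not_isCLaw_alternating w hw
  have hSL : ∀ (F : Type) [Field F] [Fintype F] (m : ℕ), 2 ≤ m →
      IsCLaw w (Matrix.SpecialLinearGroup (Fin m) F) → Fintype.card F ≤ N1 ∧ m ≤ N2 := by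
    intro F _ _ m hm h
    constructor
    · by_contra hc
      obtain ⟨φ, hφ⟩ := exists_SL_to_SL (F := F) hm
      exact hN1 F (by omega) (h.of_injective φ hφ)
    · by_contra hc
      exact hN2 m (by omega) (h.of_injective altToSL altToSL_injective)
  have hsq : N1 ≤ N1 ^ 2 + 1 := by nlinarith
  refine ⟨(N1 ^ 2 + 1) ^ ((2 * N2 + 2) * (2 * N2 + 2)) + N2.factorial, fun G _ _ hG hlaw => ?_⟩
  rcases hG with ⟨n, -, ⟨e⟩⟩ | hG
  · have hn : n ≤ N2 := by
      by_contra hc
      exact hN2 n (by omega) ((isCLaw_of_law hlaw).of_injective e.symm.toMonoidHom e.symm.injective)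
    have h1 : Nat.card G ≤ n.factorial := by
      rw [Nat.card_congr e.toEquiv]
      have := Nat.card_le_card_of_injective _ (alternatingGroup (Fin n)).subtype_injective
      simpa [Fintype.card_perm] using this
    exact le_add_left (h1.trans (Nat.factorial_le hn))
  refine le_add_right ?_
  rcases hG with ⟨F, _, _, n, hn, -, ⟨e⟩⟩ | ⟨F, _, _, n, hn, -, ⟨e⟩⟩ | ⟨F, _, _, n, q, hF, hn, -, ⟨e⟩⟩ |
    ⟨F, _, _, n, hn, -, ⟨e⟩⟩ | ⟨F, _, _, n, hn, ⟨e⟩⟩ | ⟨F, _, _, n, a, b, hn, -, ⟨e⟩⟩
  · obtain ⟨h1, h2⟩ := hSL F n hn (isCLaw_of_quotient e hlaw)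
    exact card_le_of_quot e Subtype.val Subtype.val_injective (by omega) (by simp; omega) (by omega)
  · obtain ⟨φ, hφ⟩ := exists_SL_to_Sp (F := F) n
    obtain ⟨h1, h2⟩ := hSL F n hn ((isCLaw_of_quotient e hlaw).of_injective φ hφ)
    exact card_le_of_quot e Subtype.val Subtype.val_injective (by omega) (by simp; omega) (by omega)
  · have h := isCLaw_of_quotient e hlaw
    have h2 : n ≤ N2 := by
      by_contra hc
      obtain ⟨φ, hφ⟩ := exists_alt_to_SU (F := F) n q
      exact hN2 n (by omega) (h.of_injective φ hφ)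
    have h1 : q ≤ N1 := by
      by_contra hc
      obtain ⟨K, _, _, hK⟩ := exists_field_of_sq hF
      obtain ⟨e2⟩ := Cfsg.Agent.S0281.result hF hK
      obtain ⟨φ, hφ⟩ := exists_SU_to_SU (F := F) (show 2 ≤ n by omega) q
      exact hN1 K (by omega) ((h.of_injective φ hφ).of_injective e2.symm.toMonoidHom
        e2.symm.injective)
    have h3 : q ^ 2 ≤ N1 ^ 2 := Nat.pow_le_pow_left h1 2
    exact card_le_of_quot e (fun x => x.1.1) (fun x y hxy => Subtype.ext (Subtype.ext hxy))
      (by omega) (by simp; omega) (by omega)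
  · obtain ⟨φ, hφ⟩ := exists_SL_to_OmegaOdd (F := F) hn
    obtain ⟨h1, h2⟩ := hSL F n (by omega) ((isCLaw_of_quotient e hlaw).of_injective φ hφ)
    exact card_le_of_quot e (fun x => x.1.1.1)
      (fun x y hxy => Subtype.ext (Subtype.ext (Units.ext hxy)))
      (by omega) (by simp; omega) (by omega)
  · obtain ⟨φ, hφ⟩ := exists_SL_to_OmegaPlus (F := F) (show 3 ≤ n by omega)
    obtain ⟨h1, h2⟩ := hSL F n (by omega) ((isCLaw_of_quotient e hlaw).of_injective φ hφ)
    exact card_le_of_quot e (fun x => x.1.1.1)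
      (fun x y hxy => Subtype.ext (Subtype.ext (Units.ext hxy)))
      (by omega) (by simp; omega) (by omega)
  · obtain ⟨φ, hφ⟩ := exists_SL_to_OmegaMinus (F := F) (show 3 ≤ n - 1 by omega) a b
    obtain ⟨h1, h2⟩ := hSL F (n - 1) (by omega) ((isCLaw_of_quotient e hlaw).of_injective φ hφ)
    exact card_le_of_quot e (fun x => x.1.1.1)
      (fun x y hxy => Subtype.ext (Subtype.ext (Units.ext hxy)))
      (by omega) (by simp; omega) (by omega)

end Cfsg.Agent.S2355
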