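import Cfsg.Statements.S2356
import Mathlib
import Cfsg.Agent.Lib.MinDeg8.U3More

set_option autoImplicit false
open Cfsg

namespace Cfsg.Agent.S2356

open H8.U3 H11.U in
theorem ex_iff {F : Type*} [Field F] [Fintype F] {q : ℕ} [IsSq F q] (h2 : (2 : F) ≠ 0) {w u : Fin 3 → F}
    (hw : hermForm 3 F q w w = 1) (hu : hermForm 3 F q u u = 1) (h : ¬ Commute (rf q w) (rf q u)) :
    (∃ y : SU 3 F q, y ≠ 1 ∧ y * y = 1 ∧ Commute (rf q w) y ∧ Commute y (rf q u)) ↔
      hermForm 3 F q u w * cj q (hermForm 3 F q u w) ≠ 1 := by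
  have h' := h
  rw [commute_rf_rf h2 hw hu, not_or, not_exists] at h'
  rw [← exists_perp_norm_iff hu hw h'.1]
  constructor
  · rintro ⟨y, hy, hy2, a1, a2⟩
    obtain ⟨z, hz, rfl⟩ := exists_rf h2 hy hy2
    refine ⟨z, hz, ?_, ?_⟩
    · refine ((commute_rf_rf h2 hw hz).1 a1).resolve_left fun h0 => h ?_
      rwa [← (rf_eq_iff h2 hw hz).2 h0]
    · refine ((commute_rf_rf h2 hu hz).1 a2.symm).resolve_left fun h0 => h ?_
      rwa [← (rf_eq_iff h2 hu hz).2 h0]
  · rintro ⟨z, hz, a1, a2⟩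
    exact ⟨rf q z, rf_ne_one h2 hz, rf_mul_self hz, (commute_rf_rf h2 hw hz).2 (Or.inr a1),
      ((commute_rf_rf h2 hu hz).2 (Or.inr a2)).symm⟩

open H8.U3 H11.U in
theorem prop_iff {F : Type*} [Field F] [Fintype F] {q : ℕ} [IsSq F q] {e w f : Fin 3 → F}
    (h : Fr q e w f) (a s c : F) : (∃ k : F, a • e + s • w + c • f = k • w) ↔ (a, c) = 0 := by
  constructor
  · rintro ⟨k, hk⟩
    obtain ⟨e1, -, e2⟩ := h.comb_inj (a' := 0) (b' := k) (c' := 0) (hk.trans (by simp))
    rw [e1, e2]; rfl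
  · intro h0
    obtain ⟨rfl, rfl⟩ := Prod.ext_iff.1 h0
    exact ⟨s, by simp⟩

/-- Let q be odd, F the field with q² elements, S = SU_3(F) (determinant-one isometries of the standard Hermitian form) and t an involution of S. Then: exactly q(q−1) involutions other than t commute with t; exactly q(q−2)(q²−1) involutions do not commute with t but commute with some involution commuting with t; exactly (q+1)(q²−1) involutions x do not commute with t and admit no involution commuting with both t and x; and every involution can be reached from t in at most three steps, each step going to an involution that commutes with the previous one (the commuting involution graph is connected of diameter 3). -/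
theorem result {F : Type*} [Field F] [Fintype F] {q : ℕ} (hq : Odd q)
    (hF : Fintype.card F = q ^ 2) (t : ↥(Cfsg.SU 3 F q)) (ht : t ≠ 1) (ht2 : t * t = 1) :
    Nat.card {x : ↥(Cfsg.SU 3 F q) // x ≠ 1 ∧ x * x = 1 ∧ x ≠ t ∧ Commute t x} = q * (q - 1) ∧
    Nat.card {x : ↥(Cfsg.SU 3 F q) // x ≠ 1 ∧ x * x = 1 ∧ ¬ Commute t x ∧
        ∃ y : ↥(Cfsg.SU 3 F q), y ≠ 1 ∧ y * y = 1 ∧ Commute t y ∧ Commute y x} = q * (q - 2) * (q ^ 2 - 1) ∧
    Nat.card {x : ↥(Cfsg.SU 3 F q) // x ≠ 1 ∧ x * x = 1 ∧ ¬ Commute t x ∧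
        ∀ y : ↥(Cfsg.SU 3 F q), y ≠ 1 → y * y = 1 → ¬ (Commute t y ∧ Commute y x)} = (q + 1) * (q ^ 2 - 1) ∧
    ∀ x : ↥(Cfsg.SU 3 F q), x ≠ 1 → x * x = 1 →
      ∃ y z : ↥(Cfsg.SU 3 F q), y ≠ 1 ∧ y * y = 1 ∧ z ≠ 1 ∧ z * z = 1 ∧
        Commute t y ∧ Commute y z ∧ Commute z x := by
  classical
  haveI : H11.U.IsSq F q := ⟨hF⟩
  have h2 := H8.U3.two_ne_zero_of_odd F hq
  have hq2 := H11.U.two_le_q F q
  have hq3 : q ≠ 2 := by rintro rfl; exact absurd hq (by decide)
  obtain ⟨w, hw, rfl⟩ := H8.U3.exists_rf h2 ht ht2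
  obtain ⟨e, f, h⟩ := H8.U3.exists_fr_of_norm hw
  have hN := H11.U.card_norm_eq (F := F) (q := q) one_ne_zero (map_one _)
  have hsq := H8.U3.sq_sub_one_eq q
  refine ⟨?_, ?_, ?_, fun x hx hx2 => ?_⟩
  · have h1 := H8.U3.card_rf (q := q) h2 fun x => x ≠ H8.U3.rf q w ∧ Commute (H8.U3.rf q w) x
    rw [h.card_vec (fun s => s = 0) (fun _ x => x.1 * H11.U.cj q x.2 + x.2 * H11.U.cj q x.1 = 1)
      (fun _ _ => H8.U3.card_pairs_ne (map_one _) one_ne_zero), Nat.card_unique, one_mul, hsq,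
      ← mul_assoc] at h1
    · exact (Nat.eq_of_mul_eq_mul_right (Nat.succ_pos q) h1).symm
    · intro a s c
      constructor
      · rintro ⟨a1, a2, a3⟩
        rw [H8.U3.commute_rf_rf h2 hw a1, ← H8.U3.rf_eq_iff h2 hw a1, h.form_w] at a3
        have hs := a3.resolve_left a2
        rw [h.form_form, hs] at a1
        exact ⟨hs, by simpa using a1⟩
      · rintro ⟨rfl, a2⟩
        have a1 : hermForm 3 F q (a • e + (0 : F) • w + c • f) (a • e + (0 : F) • w + c • f) = 1 := by
          rw [h.form_form]; simpa using a2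
        refine ⟨a1, ?_, (H8.U3.commute_rf_rf h2 hw a1).2 (Or.inr (h.form_w _ _ _))⟩
        rw [Ne, H8.U3.rf_eq_iff h2 hw a1, prop_iff h]
        intro h0
        obtain ⟨rfl, rfl⟩ := Prod.ext_iff.1 h0
        simp at a2
  · have h1 := H8.U3.card_rf (q := q) h2 fun x => ¬ Commute (H8.U3.rf q w) x ∧
      ∃ y : SU 3 F q, y ≠ 1 ∧ y * y = 1 ∧ Commute (H8.U3.rf q w) y ∧ Commute y x
    have h3 : Nat.card {s : F // s ≠ 0 ∧ s * H11.U.cj q s ≠ 1} = (q - 2) * (q + 1) := by
      rw [Nat.card_eq_fintype_card, Fintype.card_subtype] at hN ⊢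
      have a1 := Finset.card_filter_add_card_filter_not (s := Finset.univ.erase (0 : F))
        (fun s => s * H11.U.cj q s = 1)
      rw [Finset.card_erase_of_mem (Finset.mem_univ _), Finset.card_univ, hF,
        show (Finset.univ.erase (0 : F)).filter (fun s => s * H11.U.cj q s = 1) =
          Finset.univ.filter (fun s => s * H11.U.cj q s = 1) by
          ext s; simp; rintro hs rfl; simp at hs, hN,
        show (Finset.univ.erase (0 : F)).filter (fun s => ¬ s * H11.U.cj q s = 1) =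
          Finset.univ.filter (fun s => s ≠ 0 ∧ s * H11.U.cj q s ≠ 1) by ext s; simp, hsq] at a1
      obtain ⟨k, rfl⟩ : ∃ k, q = k + 2 := ⟨q - 2, by omega⟩
      simp only [Nat.add_sub_cancel, show k + 2 - 1 = k + 1 by omega] at a1 ⊢
      linarith
    rw [h.card_vec (fun s => s ≠ 0 ∧ s * H11.U.cj q s ≠ 1)
      (fun s x => x.1 * H11.U.cj q x.2 + x.2 * H11.U.cj q x.1 = 1 - s * H11.U.cj q s)
      (fun s hs => H8.U3.card_pairs_ne (by rw [map_sub, map_one, H11.U.cj_norm]) (sub_ne_zero.2 hs.2.symm)),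
      h3] at h1
    · refine Nat.eq_of_mul_eq_mul_right (Nat.succ_pos q) (h1.symm.trans ?_)
      rw [Nat.succ_eq_add_one]; ring
    · intro a s c
      constructor
      · rintro ⟨a1, a2, a3⟩
        rw [ex_iff h2 hw a1 a2, h.form_w] at a3
        rw [H8.U3.commute_rf_rf h2 hw a1, h.form_w, not_or] at a2
        rw [h.form_form] at a1
        exact ⟨⟨a2.2, a3⟩, by linear_combination a1⟩
      · rintro ⟨⟨a2, a3⟩, a4⟩
        have a1 : hermForm 3 F q (a • e + s • w + c • f) (a • e + s • w + c • f) = 1 := by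
          rw [h.form_form]; linear_combination a4
        have a5 : ¬ Commute (H8.U3.rf q w) (H8.U3.rf q (a • e + s • w + c • f)) := by
          rw [H8.U3.commute_rf_rf h2 hw a1, h.form_w, prop_iff h, not_or]
          refine ⟨fun h0 => a3 ?_, a2⟩
          obtain ⟨rfl, rfl⟩ := Prod.ext_iff.1 h0
          simp at a4
          linear_combination a4
        exact ⟨a1, a5, by rwa [ex_iff h2 hw a1 a5, h.form_w]⟩
  · have h1 := H8.U3.card_rf (q := q) h2 fun x => ¬ Commute (H8.U3.rf q w) x ∧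
      ∀ y : SU 3 F q, y ≠ 1 → y * y = 1 → ¬ (Commute (H8.U3.rf q w) y ∧ Commute y x)
    rw [h.card_vec (fun s => s * H11.U.cj q s = 1)
      (fun _ x => x ≠ 0 ∧ x.1 * H11.U.cj q x.2 + x.2 * H11.U.cj q x.1 = 0)
      (fun _ _ => H8.U3.card_pairs_zero), hN, mul_comm] at h1
    · exact (Nat.eq_of_mul_eq_mul_right (Nat.succ_pos q) h1).symm
    · intro a s c
      constructor
      · rintro ⟨a1, a2, a3⟩
        have a4 := (ex_iff h2 hw a1 a2).not.1 (fun ⟨y, b1, b2, b3⟩ => a3 y b1 b2 b3)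
        rw [h.form_w, not_not] at a4
        rw [H8.U3.commute_rf_rf h2 hw a1, prop_iff h, not_or] at a2
        rw [h.form_form] at a1
        exact ⟨a4, a2.1, by linear_combination a1 - a4⟩
      · rintro ⟨a2, a3, a4⟩
        have a1 : hermForm 3 F q (a • e + s • w + c • f) (a • e + s • w + c • f) = 1 := by
          rw [h.form_form]; linear_combination a4 + a2
        have a5 : ¬ Commute (H8.U3.rf q w) (H8.U3.rf q (a • e + s • w + c • f)) := by
          rw [H8.U3.commute_rf_rf h2 hw a1, h.form_w, prop_iff h, not_or]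
          exact ⟨a3, by rintro rfl; simp at a2⟩
        refine ⟨a1, a5, fun y b1 b2 b3 => ?_⟩
        exact (ex_iff h2 hw a1 a5).1 ⟨y, b1, b2, b3⟩ (by rwa [h.form_w])
  · by_cases h1 : Commute (H8.U3.rf q w) x
    · exact ⟨_, _, ht, ht2, ht, ht2, Commute.refl _, Commute.refl _, h1⟩
    obtain ⟨u, hu, rfl⟩ := H8.U3.exists_rf h2 hx hx2
    by_cases h3 : hermForm 3 F q u w * H11.U.cj q (hermForm 3 F q u w) = 1
    swap
    · obtain ⟨y, b1, b2, b3, b4⟩ := (ex_iff h2 hw hu h1).2 h3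
      exact ⟨_, y, ht, ht2, b1, b2, Commute.refl _, b3, b4⟩
    rw [H8.U3.commute_rf_rf h2 hw hu, not_or, not_exists] at h1
    have a1 : hermForm 3 F q (u - hermForm 3 F q u w • w) w = 0 := by
      rw [H11.U.form_sub_left, H11.U.form_smul_left, hw, mul_one, sub_self]
    have a2 : hermForm 3 F q (u - hermForm 3 F q u w • w) (u - hermForm 3 F q u w • w) = 0 := by
      rw [H11.U.form_sub_right, H11.U.form_smul_right, a1, H11.U.form_sub_left, H11.U.form_smul_left, hu,
        ← H11.U.cj_form u w, h3]; ring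
    obtain ⟨f', h'⟩ := H8.U3.exists_fr_of_perp ⟨sub_ne_zero.2 (h1.1 _), a2⟩ hw a1
    have a3 : u = (1 : F) • (u - hermForm 3 F q u w • w) + hermForm 3 F q u w • w + (0 : F) • f' := by simp
    generalize u - hermForm 3 F q u w • w = e' at h' a3
    obtain ⟨c, hc⟩ := H11.U.exists_norm_eq (F := F) (q := q) (c := -1) (by simp)
    have hc0 : H11.U.cj q c ≠ 0 := by rintro h0; rw [h0] at hc; simp at hc
    have a4 : hermForm 3 F q ((-c / 2) • e' + (0 : F) • w + c • f') ((-c / 2) • e' + (0 : F) • w + c • f') = 1 := by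
      rw [h'.form_form, map_div₀, map_neg, map_ofNat]
      field_simp
      linear_combination (-2 : F) * hc
    have a5 : hermForm 3 F q u ((-c / 2) • e' + (0 : F) • w + c • f') = H11.U.cj q c := by
      rw [a3, h'.form_form]; simp
    have a6 := h'.form_w (-c / 2) 0 c
    generalize (-c / 2) • e' + (0 : F) • w + c • f' = v at a4 a5 a6
    by_cases h4 : Commute (H8.U3.rf q v) (H8.U3.rf q u)
    · exact ⟨_, _, ht, ht2, H8.U3.rf_ne_one h2 a4, H8.U3.rf_mul_self a4, Commute.refl _,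
        (H8.U3.commute_rf_rf h2 hw a4).2 (Or.inr a6), h4⟩
    · obtain ⟨y, b1, b2, b3, b4⟩ := (ex_iff h2 a4 hu h4).2 (by
        rw [a5, H11.U.cj_cj, mul_comm, hc]
        exact fun h0 => h2 (by linear_combination -h0))
      exact ⟨_, y, H8.U3.rf_ne_one h2 a4, H8.U3.rf_mul_self a4, b1, b2,
        (H8.U3.commute_rf_rf h2 hw a4).2 (Or.inr a6), b3, b4⟩

end Cfsg.Agent.S2356
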