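import Cfsg.Statements.S2359
import Mathlib
import Cfsg.Agent.Lib.Ree.TorusT

set_option autoImplicit false
open Cfsg

namespace Cfsg.Agent.S2359

/-- Let R be the small Ree group over the field with q = 3^(2m+1) ≥ 27 elements. If H is a cyclic subgroup of R of order (q−1)/2, then the centralizer of H in R is cyclic of order q−1, and every non-trivial subgroup of H has the same centralizer as H. If H is a cyclic subgroup of order (q+1)/4, then the centralizer of H is abelian of order q+1 with no element of order 4 (so it is the direct product of H and a group of order 4 whose non-identity elements all have order 2), and every non-trivial subgroup of H has the same centralizer as H. -/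
theorem result {K : Type*} [Field K] [Fintype K] {m : ℕ} (hm : 1 ≤ m)
    (hK : Fintype.card K = 3 ^ (2 * m + 1)) (H : Subgroup ↥(Cfsg.Lie.twistedG2 K (3 ^ m))) (hH : IsCyclic H) :
    (Nat.card H = (3 ^ (2 * m + 1) - 1) / 2 →
      IsCyclic ↥(Subgroup.centralizer (H : Set ↥(Cfsg.Lie.twistedG2 K (3 ^ m)))) ∧
        Nat.card ↥(Subgroup.centralizer (H : Set ↥(Cfsg.Lie.twistedG2 K (3 ^ m)))) = 3 ^ (2 * m + 1) - 1 ∧
        ∀ A : Subgroup ↥(Cfsg.Lie.twistedG2 K (3 ^ m)), A ≤ H → A ≠ ⊥ →
          Subgroup.centralizer (A : Set ↥(Cfsg.Lie.twistedG2 K (3 ^ m))) = Subgroup.centralizer (H : Set ↥(Cfsg.Lie.twistedG2 K (3 ^ m)))) ∧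
    (Nat.card H = (3 ^ (2 * m + 1) + 1) / 4 →
      IsMulCommutative ↥(Subgroup.centralizer (H : Set ↥(Cfsg.Lie.twistedG2 K (3 ^ m)))) ∧
        Nat.card ↥(Subgroup.centralizer (H : Set ↥(Cfsg.Lie.twistedG2 K (3 ^ m)))) = 3 ^ (2 * m + 1) + 1 ∧
        (∀ x ∈ Subgroup.centralizer (H : Set ↥(Cfsg.Lie.twistedG2 K (3 ^ m))), orderOf x ≠ 4) ∧
        ∀ A : Subgroup ↥(Cfsg.Lie.twistedG2 K (3 ^ m)), A ≤ H → A ≠ ⊥ →
          Subgroup.centralizer (A : Set ↥(Cfsg.Lie.twistedG2 K (3 ^ m))) = Subgroup.centralizer (H : Set ↥(Cfsg.Lie.twistedG2 K (3 ^ m)))) := by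
  have := H40.Ree.charP_three hK
  have hq := H40.Ree.three_lt_card hm hK
  rw [← H40.Ree.natCard_eq hK]
  set S := H40.Ree.lieModel hK
  have h8 := S.card_mod_eight
  constructor
  · intro hc
    obtain ⟨g, rfl⟩ := S.isTor_H.eq_cj_of_card_eq (B := H) (by rw [hc, S.card_H0])
    have h := S.isTor_H.cj g
    have := S.comm_H
    have := S.isCyclic_H
    have h1 := h.centralizer_eq inferInstance le_rfl (by
      intro e; rw [e, Subgroup.card_bot] at hc; omega)
    rw [h1]
    exact ⟨H40.Tor.isCyclic_cj g _, by rw [H40.Tor.card_cj, S.card_H],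
      fun A hA hA1 => h.centralizer_eq inferInstance hA hA1⟩
  · intro hc
    obtain ⟨g, rfl⟩ := S.isTor_T0.eq_cj_of_card_eq (B := H) (by rw [hc, S.card_A0])
    have h := S.isTor_T0.cj g
    have := S.comm_T0
    have h1 := h.centralizer_eq inferInstance le_rfl (by
      intro e; rw [e, Subgroup.card_bot] at hc; omega)
    rw [h1]
    refine ⟨inferInstance, by rw [H40.Tor.card_cj, S.card_T0], fun x _ hx => ?_,
      fun A hA hA1 => h.centralizer_eq inferInstance hA hA1⟩
    have h2 := S.sq_eq_one_of_two_pow (x := x) (n := 2) (by rw [show 2 ^ 2 = 4 from rfl, ← hx, pow_orderOf_eq_one])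
    have := orderOf_dvd_of_pow_eq_one (by rw [sq, h2] : x ^ 2 = 1)
    rw [hx] at this
    omega

end Cfsg.Agent.S2359
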