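import Cfsg.Statements.S2361
import Mathlib
import Cfsg.Agent.Lib.Ree.Solv

set_option autoImplicit false
open Cfsg

namespace Cfsg.Agent.S2361

/-- Let R be the small Ree group over the field with q = 3^(2m+1) ≥ 27 elements. Every solvable subgroup of R lies in the normalizer of a Sylow 2-subgroup, of a Sylow 3-subgroup, or of a cyclic subgroup of order (q−1)/2, (q+1)/4, q − 3^(m+1) + 1 or q + 3^(m+1) + 1. -/
theorem result {K : Type*} [Field K] [Fintype K] {m : ℕ} (hm : 1 ≤ m)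
    (hK : Fintype.card K = 3 ^ (2 * m + 1)) (S : Subgroup ↥(Cfsg.Lie.twistedG2 K (3 ^ m)))
    (hS : Group.IsSolvable S) :
    ∃ A : Subgroup ↥(Cfsg.Lie.twistedG2 K (3 ^ m)), S ≤ Subgroup.normalizer (A : Set ↥(Cfsg.Lie.twistedG2 K (3 ^ m))) ∧
      ((∃ P : Sylow 2 ↥(Cfsg.Lie.twistedG2 K (3 ^ m)), A = P) ∨
       (∃ P : Sylow 3 ↥(Cfsg.Lie.twistedG2 K (3 ^ m)), A = P) ∨
       (IsCyclic A ∧ (Nat.card A = (3 ^ (2 * m + 1) - 1) / 2 ∨ Nat.card A = (3 ^ (2 * m + 1) + 1) / 4 ∨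
          Nat.card A = 3 ^ (2 * m + 1) - 3 ^ (m + 1) + 1 ∨ Nat.card A = 3 ^ (2 * m + 1) + 3 ^ (m + 1) + 1))) := by
  have := H40.Ree.charP_three hK
  have hq := H40.Ree.three_lt_card hm hK
  have hr := H40.Ree.r_mul_r m
  rw [← H40.Ree.natCard_eq hK] at hr ⊢
  set M := H40.Ree.lieModel hK
  have h8 := M.card_mod_eight
  rcases H40.Ree.exists_le_normalizer_of_solvable S with h | ⟨p, R, hp, hR, -, h2, hN⟩
  · obtain ⟨P, hP⟩ := h.exists_le_sylow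
    exact ⟨P, hP.trans Subgroup.le_normalizer, Or.inl ⟨P, rfl⟩⟩
  have h1 : R ≠ ⊥ := by rintro rfl; simp at h2
  have key : ∀ T A : Subgroup ↥(Cfsg.Lie.twistedG2 K (3 ^ m)), H40.Tor.IsTor T A → R ≤ A →
      S ≤ Subgroup.normalizer (A : Set ↥(Cfsg.Lie.twistedG2 K (3 ^ m))) := fun T A h hA => by
    rw [h.normalizer_eq le_rfl fun e => h1 (le_bot_iff.1 (e ▸ hA)), ← h.normalizer_eq hA h1]
    exact hN
  rcases M.local_cases hp hR h2 with ⟨g, rfl⟩ | ⟨g, h⟩ | ⟨g, rfl⟩ | ⟨g, h⟩ | ⟨g, h⟩ | ⟨T, h, h', hd⟩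
  · exact ⟨_, hN, Or.inl ⟨(M.conj g).sylow2, rfl⟩⟩
  · exact ⟨(M.conj g).U, by rw [H40.Ree.Model.normalizer_U]; exact hN.trans ((M.conj g).normalizer_le_B h h1),
      Or.inr (Or.inl ⟨(M.conj g).sylow3, rfl⟩)⟩
  · refine ⟨(M.conj g).A0, ?_, Or.inr (Or.inr ⟨(M.conj g).isTor_T0.cyc, Or.inr (Or.inl (M.conj g).card_A0)⟩)⟩
    rw [(M.conj g).isTor_T0.normalizer_eq le_rfl (by
      intro e
      have := (M.conj g).card_A0
      rw [e, Subgroup.card_bot] at this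
      omega), ← (M.conj g).normalizer_V4 hq]
    exact hN
  · exact ⟨_, key _ _ (M.isTor_H.cj g) h, Or.inr (Or.inr ⟨(M.isTor_H.cj g).cyc,
      Or.inl (by rw [H40.Tor.card_cj, M.card_H0])⟩)⟩
  · exact ⟨_, key _ _ (M.isTor_T0.cj g) h, Or.inr (Or.inr ⟨(M.isTor_T0.cj g).cyc,
      Or.inr (Or.inl (by rw [H40.Tor.card_cj, M.card_A0]))⟩)⟩
  · exact ⟨_, key _ _ h h', Or.inr (Or.inr ⟨h.cyc, Or.inr (Or.inr
      (M.card_torM hq hr h (fun e => h1 (le_bot_iff.1 (e ▸ h'))) hd).1)⟩)⟩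

end Cfsg.Agent.S2361
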