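import Cfsg.Statements.S2411
import Mathlib
import Cfsg.Agent.Base
import Cfsg.Agent.Lib.Lang.GenCl
import Cfsg.Agent.Lib.Stein.SpM

set_option autoImplicit false
open Cfsg

namespace Cfsg.Agent.S2411


/-- The projective symplectic group `PSp_{2m}(q)` with `m ≥ 2` (and `q > 2` if `m = 2`) is generated by two of its elements. -/
theorem result {F : Type*} [Field F] [Fintype F] (m : ℕ) (hm : 2 ≤ m) (hF : m = 2 → 2 < Fintype.card F) :
    ∃ a b : Cfsg.PSp m F, Subgroup.closure ({a, b} : Set (Cfsg.PSp m F)) = ⊤ := by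
  obtain ⟨m, rfl⟩ : ∃ k, m = k + 1 := ⟨m - 1, by omega⟩
  refine H37.GenCl.two_gen_map (QuotientGroup.mk' _) (QuotientGroup.mk'_surjective _) ?_
  refine H37.GenCl.gen_sp (H63.St.Sp.gen m F) (by omega) (fun _ => rfl) (fun _ => trivial)
    (H63.St.Sp.A m F).V0_eq fun h => ?_
  by_contra h1
  push Not at h1
  have h2 := hF (by omega)
  classical
  have : (Finset.univ : Finset F) ⊆ {0, 1} := by
    intro t _
    by_cases ht : t = 0
    · simp [ht]
    · simp [h1 t ht]
  have := Finset.card_le_card this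
  have h3 : ({0, 1} : Finset F).card ≤ 2 := Finset.card_le_two
  rw [Finset.card_univ] at this
  omega

end Cfsg.Agent.S2411
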