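import Cfsg.Statements.S2412
import Mathlib
import Cfsg.Agent.Base
import Cfsg.Agent.Lib.Lang.GenCl
import Cfsg.Agent.Lib.Stein.SUM

set_option autoImplicit false
open Cfsg

namespace Cfsg.Agent.S2412


/-- The projective special unitary group `PSU_n(q)` with `n ≥ 3`, realised over the field with `q²` elements, `(n, q) ≠ (3, 2)`, is generated by two of its elements. -/
theorem result {F : Type*} [Field F] [Fintype F] {q : ℕ} (hq : IsPrimePow q) (hF : Fintype.card F = q ^ 2) (n : ℕ) (hn : 3 ≤ n) (h32 : n = 3 → q ≠ 2) :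
    ∃ a b : Cfsg.PSU n F q, Subgroup.closure ({a, b} : Set (Cfsg.PSU n F q)) = ⊤ := by
  have : H11.U.IsSq F q := ⟨hF⟩
  refine H37.GenCl.two_gen_map (QuotientGroup.mk' _) (QuotientGroup.mk'_surjective _) ?_
  have h0 : n ≠ 3 ∨ q ≠ 2 := by tauto
  rcases Nat.even_or_odd' n with ⟨k, hk | hk⟩
  · obtain ⟨m, rfl⟩ : ∃ m, k = m + 1 := ⟨k - 1, by omega⟩
    have e : n = m + 1 + (m + 1) := by omega
    refine H37.GenCl.gen_even (H63.St.SU.gen F q (H63.St.SU.ιe e) h0) (by omega)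
      (H11.U.exists_cj_ne F q) (fun c hc => ?_) rfl (H63.St.SU.A F q (H63.St.SU.ιe e)).V0_eq
    obtain ⟨s, hs⟩ := H37.GenCl.exists_sub_cj (q := q) (c := c) (by
      change Cfsg.hermForm n F q 0 0 = _ at hc
      rw [H11.U.form_zero_left] at hc
      linear_combination -hc)
    exact ⟨s, hs.trans (congrArg _ (one_mul _).symm)⟩
  · obtain ⟨m, rfl⟩ : ∃ m, k = m + 1 := ⟨k - 1, by omega⟩
    have e : n = m + 1 + (m + 1) + 1 := by omega
    exact H37.GenCl.gen_snc (H63.St.SU.C F q (H63.St.SU.ιo e))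
      (H63.St.SU.gen F q (H63.St.SU.ιo e) h0) fun hm => h32 (by omega)

end Cfsg.Agent.S2412
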