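import Cfsg.Statements.S2445
import Mathlib
import Cfsg.Agent.Base
import Cfsg.Agent.Lib.Ore.SpM

set_option autoImplicit false
open Cfsg

namespace Cfsg.Agent.S2445


/-- In the symplectic group Sp(2m,F) over a finite field F (m ≥ 1), other than Sp(2,2), Sp(2,3) and Sp(4,2), every element is a commutator a·b·a⁻¹·b⁻¹ of two elements of Sp(2m,F). -/
theorem result {F : Type*} [Field F] [Fintype F] (m : ℕ) (hm : 1 ≤ m) (h1 : m = 1 → 4 ≤ Fintype.card F)
    (h2 : m = 2 → 3 ≤ Fintype.card F) : ∀ g : Matrix.symplecticGroup (Fin m) F, ∃ a b : Matrix.symplecticGroup (Fin m) F, g = a * b * a⁻¹ * b⁻¹ := by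
  refine fun g => H37.Ore.sp_comm ?_ g
  rw [Nat.card_eq_fintype_card]
  have h := Fintype.one_lt_card (α := F)
  rcases Nat.lt_trichotomy m 2 with h3 | h3 | h3
  · exact Or.inl (h1 (by omega))
  · refine Or.inr ?_
    calc 5 ≤ 3 ^ 2 := by norm_num
      _ ≤ Fintype.card F ^ 2 := Nat.pow_le_pow_left (h2 h3) _
      _ = _ := by rw [h3]
  · refine Or.inr ?_
    calc 5 ≤ 2 ^ 3 := by norm_num
      _ ≤ Fintype.card F ^ 3 := Nat.pow_le_pow_left h _
      _ ≤ _ := Nat.pow_le_pow_right (by omega) h3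

end Cfsg.Agent.S2445
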