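import Cfsg.Statements.S2450
import Cfsg.Agent.Lib.SL2Elt.Nonsplit
-- import your own Cfsg.Agent.* helpers here

set_option autoImplicit false
open Cfsg

namespace Cfsg.Agent.S2450

open Polynomial in
theorem exists_quadratic_sq_ne {F : Type*} [Field F] [Fintype F] (h4 : 4 ≤ Fintype.card F)
    {α β γ : F} (hα : α ≠ 0) : ∃ t : F, (α * t ^ 2 + β * t + γ) ^ 2 ≠ γ ^ 2 := by
  classical
  by_contra h
  push Not at h
  have key : ∀ δ : F, (Finset.univ.filter fun t : F => α * t ^ 2 + β * t + δ = 0).card ≤ 2 := by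
    intro δ
    have h1 : (C α * X ^ 2 + C β * X + C δ : F[X]) ≠ 0 := by
      intro e
      have := degree_quadratic (b := β) (c := δ) hα
      rw [e] at this
      simp at this
    calc _ ≤ (C α * X ^ 2 + C β * X + C δ : F[X]).roots.toFinset.card := by
          apply Finset.card_le_card
          intro t ht
          simp only [Finset.mem_filter, Finset.mem_univ, true_and] at ht
          simp only [Multiset.mem_toFinset, mem_roots h1, IsRoot.def, eval_add, eval_mul, eval_C,
            eval_pow, eval_X]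
          exact ht
      _ ≤ _ := Multiset.toFinset_card_le _
      _ ≤ _ := card_roots' _
      _ ≤ 2 := natDegree_quadratic_le
  by_cases h2 : (2 : F) = 0
  · have : (Finset.univ.filter fun t : F => α * t ^ 2 + β * t + 0 = 0) = Finset.univ := by
      apply Finset.filter_true_of_mem
      intro t _
      have h3 : (α * t ^ 2 + β * t + 0) ^ 2 = 0 := by
        linear_combination h t - (α * t ^ 2 + β * t) * γ * h2
      exact pow_eq_zero_iff two_ne_zero |>.1 h3
    have h3 := key 0
    rw [this, Finset.card_univ] at h3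
    omega
  · have h5 := H64.SL2.odd_card_of_two_ne_zero h2
    have : (Finset.univ : Finset F) ⊆ (Finset.univ.filter fun t : F => α * t ^ 2 + β * t + 0 = 0) ∪
        (Finset.univ.filter fun t : F => α * t ^ 2 + β * t + 2 * γ = 0) := by
      intro t _
      simp only [Finset.mem_union, Finset.mem_filter, Finset.mem_univ, true_and]
      rw [← mul_eq_zero]
      linear_combination h t
    have h6 := (Finset.card_le_card this).trans (Finset.card_union_le _ _)
    have h7 := key 0
    have h8 := key (2 * γ)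
    rw [Finset.card_univ] at h6
    omega

/-- The Arad–Herzog conjecture for PSL(2,q): let F be a finite field with q ≥ 4 elements. For any two non-identity elements a, b of PSL(2,F), the set of products of a conjugate of a with a conjugate of b is not a single conjugacy class. -/
theorem result {F : Type*} [Field F] [Fintype F] (h4 : 4 ≤ Fintype.card F)
    (a b : Matrix.ProjectiveSpecialLinearGroup (Fin 2) F) (ha : a ≠ 1) (hb : b ≠ 1) (c : Matrix.ProjectiveSpecialLinearGroup (Fin 2) F) :
    {g : Matrix.ProjectiveSpecialLinearGroup (Fin 2) F | ∃ u v : Matrix.ProjectiveSpecialLinearGroup (Fin 2) F, g = (u * a * u⁻¹) * (v * b * v⁻¹)} ≠ {g | IsConj c g} := by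
  intro h
  obtain ⟨a, rfl⟩ := H64.SL2.proj_surjective a
  obtain ⟨b, rfl⟩ := H64.SL2.proj_surjective b
  obtain ⟨c, rfl⟩ := H64.SL2.proj_surjective c
  rw [Ne, H64.SL2.proj_eq_one_iff] at ha hb
  obtain ⟨u, hu⟩ := H64.SL2.exists_conj_10_ne_zero ha
  obtain ⟨v, hv⟩ := H64.SL2.exists_conj_10_ne_zero hb
  have key : ∀ t : F, H64.SL2.tr c ^ 2 = H64.SL2.tr (H64.SL2.mk 1 t 0 1 (by ring) * (u * a * u⁻¹) *
      (H64.SL2.mk 1 t 0 1 (by ring))⁻¹ * (v * b * v⁻¹)) ^ 2 := by
    intro t
    apply H64.SL2.tr_sq_eq_of_isConj_proj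
    change _ ∈ {g | IsConj (H64.SL2.proj c) g}
    rw [← h]
    refine ⟨H64.SL2.proj (H64.SL2.mk 1 t 0 1 (by ring) * u), H64.SL2.proj v, ?_⟩
    simp only [← map_mul, ← map_inv]
    congr 1
    group
  generalize u * a * u⁻¹ = A at *
  generalize v * b * v⁻¹ = B at *
  obtain ⟨t, ht⟩ := exists_quadratic_sq_ne h4 (α := -(A 1 0 * B 1 0))
    (β := A 1 0 * (B 0 0 - B 1 1) + (A 1 1 - A 0 0) * B 1 0)
    (γ := A 0 0 * B 0 0 + A 0 1 * B 1 0 + A 1 0 * B 0 1 + A 1 1 * B 1 1)
    (neg_ne_zero.2 (mul_ne_zero hu hv))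
  apply ht
  have h0 := key 0
  have h1 := key t
  rw [h0] at h1
  simp only [H64.SL2.ent] at h1
  linear_combination -h1

end Cfsg.Agent.S2450
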