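import Cfsg.Statements.S2455
import Cfsg.Agent.Lib.SL2Elt.Nonsplit
-- import your own Cfsg.Agent.* helpers here

set_option autoImplicit false
open Cfsg

namespace Cfsg.Agent.S2455

/-- A strong covering result in the direction of Thompson's conjecture (non-identity elements) for PSL(2,q), q odd: let F be a finite field of odd characteristic p with at least 5 elements and let x ∈ PSL(2,F) have order greater than 2 and not divisible by p (so x is not unipotent). Then every non-identity element of PSL(2,F) is a product of two conjugates of x. -/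
theorem result {F : Type*} [Field F] [Fintype F] (p : ℕ) [Fact p.Prime] [CharP F p] (hp : p ≠ 2) (h5 : 5 ≤ Fintype.card F)
    (x : Matrix.ProjectiveSpecialLinearGroup (Fin 2) F) (hx2 : 2 < orderOf x) (hxp : ¬ p ∣ orderOf x) : ∀ g : Matrix.ProjectiveSpecialLinearGroup (Fin 2) F, g ≠ 1 → ∃ u v : Matrix.ProjectiveSpecialLinearGroup (Fin 2) F, g = (u * x * u⁻¹) * (v * x * v⁻¹) := by
  intro g hg
  obtain ⟨x, rfl⟩ := H64.SL2.proj_surjective x
  obtain ⟨g, rfl⟩ := H64.SL2.proj_surjective g
  have hp' : p.Prime := Fact.out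
  have h2 := H64.SL2.two_ne_zero_of_char (F := F) p hp
  have hx : H64.SL2.tr x ^ 2 ≠ 4 := by
    intro h
    have h1 := H64.SL2.orderOf_proj_dvd_iff.2 (H64.SL2.pow_char_mem_center p h)
    rcases (Nat.dvd_prime hp').1 h1 with h3 | h3
    · omega
    · exact hxp (h3 ▸ dvd_rfl)
  have hx0 : H64.SL2.tr x ≠ 0 := by
    intro h
    have h1 : orderOf (H64.SL2.proj x) ∣ 2 := by
      rw [H64.SL2.orderOf_proj_dvd_iff, pow_two, H64.SL2.mul_self_eq_neg_one_of_tr h]
      exact H64.SL2.neg_one_mem_center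
    have := Nat.le_of_dvd two_pos h1
    omega
  have hne : H64.SL2.tr x ≠ - H64.SL2.tr x := by
    intro h
    apply hx0
    apply mul_left_cancel₀ h2
    linear_combination h
  rw [Ne, H64.SL2.proj_eq_one_iff] at hg
  by_cases ht : H64.SL2.tr g ^ 2 = 4
  · rcases H64.SL2.tr_eq_two_or_of_sq ht with h | h
    · obtain ⟨u, h1, h3⟩ := H64.SL2.exists_tr_eq_and_tr_inv_mul_eq_of_tr_eq_two h hg hne
      exact H64.SL2.exists_proj_eq_mul_conj hx h1 (Or.inr h3)
    · obtain ⟨u, h1, h3⟩ := H64.SL2.exists_tr_eq_and_tr_inv_mul_eq_of_tr_eq_two h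
        (fun h' => hg (H64.SL2.neg_mem_center_iff.1 h')) hne
      rw [← H64.SL2.proj_neg g]
      exact H64.SL2.exists_proj_eq_mul_conj hx h1 (Or.inr h3)
  · obtain ⟨u, h1, h3⟩ := H64.SL2.exists_tr_eq_and_tr_inv_mul_eq ht (H64.SL2.tr x) (H64.SL2.tr x)
    exact H64.SL2.exists_proj_eq_mul_conj hx h1 (Or.inl h3)

end Cfsg.Agent.S2455
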