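import Cfsg.Statements.S2456
import Cfsg.Agent.Lib.SL2Elt.Nonsplit
-- import your own Cfsg.Agent.* helpers here

set_option autoImplicit false
open Cfsg

namespace Cfsg.Agent.S2456

/-- A strong covering result in the direction of Thompson's conjecture (non-identity elements) for PSL(2,q), q even: let F be a finite field of characteristic 2 with q ≥ 4 elements and let x ∈ PSL(2,F) have order greater than 2 and not dividing q + 1. Then every non-identity element of PSL(2,F) is a product of two conjugates of x. -/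
theorem result {F : Type*} [Field F] [Fintype F] [CharP F 2] (h4 : 4 ≤ Fintype.card F)
    (x : Matrix.ProjectiveSpecialLinearGroup (Fin 2) F) (hx2 : 2 < orderOf x) (hxq : ¬ orderOf x ∣ Fintype.card F + 1) : ∀ g : Matrix.ProjectiveSpecialLinearGroup (Fin 2) F, g ≠ 1 → ∃ u v : Matrix.ProjectiveSpecialLinearGroup (Fin 2) F, g = (u * x * u⁻¹) * (v * x * v⁻¹) := by
  intro g hg
  obtain ⟨x, rfl⟩ := H64.SL2.proj_surjective x
  obtain ⟨g, rfl⟩ := H64.SL2.proj_surjective g
  have h2 : (2 : F) = 0 := CharTwo.two_eq_zero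
  have hx : H64.SL2.tr x ^ 2 ≠ 4 := by
    intro h
    have h1 := H64.SL2.orderOf_proj_dvd_iff.2 (H64.SL2.pow_char_mem_center 2 h)
    have := Nat.le_of_dvd two_pos h1
    omega
  have hs : H64.SL2.Split x := by
    by_contra hs
    apply hxq
    rw [H64.SL2.orderOf_proj_dvd_iff, ← Nat.card_eq_fintype_card,
      H64.SL2.pow_eq_one_of_not_split hs]
    exact Subgroup.one_mem _
  rw [Ne, H64.SL2.proj_eq_one_iff] at hg
  by_cases ht : H64.SL2.tr g ^ 2 = 4
  · have h : H64.SL2.tr g = 2 := by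
      rcases H64.SL2.tr_eq_two_or_of_sq ht with h | h
      · exact h
      · rwa [H64.SL2.neg_eq_self_of_two_eq_zero h2] at h
    obtain ⟨c, h1, h3⟩ := H64.SL2.exists_conj_upper (g := g) (a := 1) (by rw [h]; ring)
    obtain ⟨a, ha⟩ := hs
    have ha0 : a ≠ 0 := by rintro rfl; simp at ha
    set u : Matrix.SpecialLinearGroup (Fin 2) F := H64.SL2.mk a 0 0 a⁻¹ (by field_simp; ring) with hu
    have hu1 : H64.SL2.tr u = H64.SL2.tr x := by
      rw [hu]
      apply mul_right_cancel₀ ha0
      conv_lhs => simp only [H64.SL2.ent]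
      field_simp
      linear_combination ha
    have h4 : (c * g * c⁻¹) 1 1 = 1 := by
      have := H64.SL2.det_eq (c * g * c⁻¹)
      rw [h1, h3] at this
      linear_combination this
    refine H64.SL2.exists_proj_eq_mul_conj (u := c⁻¹ * u * c⁻¹⁻¹) hx
      (by rw [H64.SL2.tr_conj, hu1]) (Or.inl ?_)
    have : (c⁻¹ * u * c⁻¹⁻¹)⁻¹ * g = c⁻¹ * (u⁻¹ * (c * g * c⁻¹)) * c⁻¹⁻¹ := by group
    rw [this, H64.SL2.tr_conj, ← hu1, hu]
    generalize c * g * c⁻¹ = g' at *
    simp only [H64.SL2.ent, h1, h3, h4]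
    ring
  · obtain ⟨u, h1, h3⟩ := H64.SL2.exists_tr_eq_and_tr_inv_mul_eq ht (H64.SL2.tr x) (H64.SL2.tr x)
    exact H64.SL2.exists_proj_eq_mul_conj hx h1 (Or.inl h3)

end Cfsg.Agent.S2456
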