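import Cfsg.Statements.S2457
import Cfsg.Agent.Lib.Suzuki.Table2
import Cfsg.Agent.Lib.Suzuki.LieModel
import Cfsg.Agent.Lib.BS.ClassMul

set_option autoImplicit false
open Cfsg

namespace Cfsg.Agent.S2457

open H14.Sz H14.Sz.Model
open scoped ComplexConjugate

section
variable {G : Type*} [Group G] [Fintype G] {F : Type*} [Field F] [Fintype F] {m : ℕ}
  [hz : SzF F m] {S : Model G F m} {A₁ A₂ : Subgroup G} (hT : S.ToriPair A₁ A₂) {W : G → ℂ}
  (hW : IsIrrCharacter G W) (hne : bar W ≠ W)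

local notation "q" => Fintype.card F

/-- The summand of the class multiplication formula. -/
noncomputable def term (x g : G) (χ : G → ℂ) : ℂ := χ x * χ x * conj (χ g) / χ 1

theorem neg_le_re {z : ℂ} {c : ℝ} (h : ‖z‖ ≤ c) : -c ≤ z.re :=
  (neg_le_neg h).trans (neg_le_of_abs_le (Complex.abs_re_le_norm z))

include hW hne in
theorem sum_rest_sq (x : G) : ∑ χ ∈ S.rest W, ‖χ.1 x‖ ^ 2 =
    Nat.card (Subgroup.centralizer ({x} : Set G)) - 1 - ‖S.St x‖ ^ 2 - 2 * ‖W x‖ ^ 2 := by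
  have h := H6.column_orthogonality_self x
  simp only [Complex.mul_conj'] at h
  have h' : ∑ χ : IrrCharacter G, ‖(χ : G → ℂ) x‖ ^ 2 =
      (Nat.card (Subgroup.centralizer ({x} : Set G)) : ℝ) := by exact_mod_cast h
  rw [sum_split (S := S) hW hne (fun χ => ‖χ x‖ ^ 2)] at h'
  rw [← h']
  simp [bar]
  ring

include hT hW hne in
theorem rest_bound (x g : G) (c : ℝ)
    (h0 : ∀ μ : S.H →* ℂˣ, S.chiH μ x ≠ 0 → -c * ((q : ℝ) ^ 2 + 1) ≤ (S.chiH μ g).re)
    (h1 : ∀ μ : A₁ →* ℂˣ, S.chi1 W A₁ μ x ≠ 0 →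
      -c * (((q : ℝ) - 1) * (q - 2 * 2 ^ m + 1)) ≤ (S.chi1 W A₁ μ g).re)
    (h2 : ∀ μ : A₂ →* ℂˣ, S.chi2 W A₂ μ x ≠ 0 →
      -c * (((q : ℝ) - 1) * (q + 2 * 2 ^ m + 1)) ≤ (S.chi2 W A₂ μ g).re) :
    -c * (Nat.card (Subgroup.centralizer ({x} : Set G)) - 1 - ‖S.St x‖ ^ 2 - 2 * ‖W x‖ ^ 2) ≤
      (∑ χ ∈ S.rest W, term x g χ).re := by
  rw [← sum_rest_sq hW hne, Finset.mul_sum, Complex.re_sum]
  refine Finset.sum_le_sum fun χ hχ => ?_
  by_cases h : χ.1 x = 0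
  · simp [term, h]
  obtain ⟨d, hd0, hd⟩ := H6.irr_one_pos χ.2
  have key : -c * d ≤ (χ.1 g).re := by
    rcases hT.rest_cases hW hne hχ with ⟨μ, -, e⟩ | ⟨μ, -, e⟩ | ⟨μ, -, e⟩ <;> rw [e] at h hd ⊢
    · rw [chiH_one] at hd
      have : (d : ℝ) = (q : ℝ) ^ 2 + 1 := by exact_mod_cast hd.symm
      rw [this]; exact h0 μ h
    · rw [hT.chi1_one hW hne, pow_succ'] at hd
      have : (d : ℝ) = ((q : ℝ) - 1) * (q - 2 * 2 ^ m + 1) := by exact_mod_cast hd.symm
      rw [this]; exact h1 μ h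
    · rw [hT.chi2_one hW hne, pow_succ'] at hd
      have : (d : ℝ) = ((q : ℝ) - 1) * (q + 2 * 2 ^ m + 1) := by exact_mod_cast hd.symm
      rw [this]; exact h2 μ h
  have e1 : χ.1 x * χ.1 x = ((‖χ.1 x‖ ^ 2 : ℝ) : ℂ) := by
    nth_rewrite 2 [← hT.conj_rest hW hne hχ x]
    rw [Complex.mul_conj']; push_cast; rfl
  have hd' : (0 : ℝ) < d := by exact_mod_cast hd0
  rw [term, e1, hT.conj_rest hW hne hχ, hd, Complex.div_natCast_re, Complex.re_ofReal_mul,
    le_div_iff₀ hd']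
  nlinarith [sq_nonneg ‖χ.1 x‖]

include hT hW hne in
theorem re_sum_eq (x g : G) {a : ℝ} {b : ℝ} (ha : S.St x * S.St x = a) (hb : W x * W x = b) :
    (∑ χ : IrrCharacter G, term x g χ).re = 1 + a * (S.St g).re / (q : ℝ) ^ 2 +
      b * (2 * (W g).re) / (2 ^ m * ((q : ℝ) - 1)) + (∑ χ ∈ S.rest W, term x g χ).re := by
  rw [sum_split (S := S) hW hne (term x g)]
  have e1 : term x g (fun _ => 1) = 1 := by simp [term]
  have e2 : term x g S.St = ((a * (S.St g).re / (q : ℝ) ^ 2 : ℝ) : ℂ) := by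
    rw [term, ha, St_one, conj_St]
    push_cast
    rw [Complex.conj_eq_iff_re.1 (S.conj_St g)]
  have e3 : term x g W + term x g (bar W) =
      ((b * (2 * (W g).re) / (2 ^ m * ((q : ℝ) - 1)) : ℝ) : ℂ) := by
    rw [term, term, bar_apply, bar_apply, bar_apply, ← map_mul, hb, Complex.conj_conj,
      hT.W_one hW hne, Complex.conj_ofReal]
    simp only [map_mul, map_pow, map_sub, map_natCast, map_one, map_ofNat]
    rw [← add_div, ← mul_add, add_comm, Complex.add_conj]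
    push_cast
    rfl
  rw [e1, e2, add_assoc _ (term x g W), e3]
  simp only [Complex.add_re, Complex.ofReal_re, Complex.one_re]

omit [Fintype G] in
theorem nums : ∃ s : ℝ, 2 ≤ s ∧ (2 : ℝ) ^ m = s ∧ (q : ℝ) = 2 * s ^ 2 := by
  refine ⟨2 ^ m, ?_, rfl, ?_⟩
  · have := hz.hm
    exact_mod_cast Nat.le_self_pow (by omega) 2
  · rw [card_eq]; push_cast; ring

include hT hW hne in
theorem St_W_bound {g : G} (hg : g ∈ S.U ∨ g ∈ S.H ∨ g ∈ A₁ ∨ g ∈ A₂) (h1 : g ≠ 1) :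
    -1 ≤ (S.St g).re ∧ -(2 : ℝ) ^ m ≤ (W g).re ∧ (∀ μ, -2 ≤ (S.chiH μ g).re) ∧
      (∀ μ, -(2 * 2 ^ m + 1 : ℝ) ≤ (S.chi2 W A₂ μ g).re) ∧
      (g ∉ A₁ → ∀ μ, -1 ≤ (S.chi1 W A₁ μ g).re) := by
  obtain ⟨s, hs, hs1, -⟩ := nums (F := F)
  have hs2 : (2 : ℂ) ^ m = s := by exact_mod_cast hs1
  rw [hs1]
  rcases hg with hg | hg | hg | hg
  · rw [S.St_U hg h1]
    rcases involution_or_four hg h1 with h | h
    · simp only [hT.W_involution hW hne h h1, S.chiH_U _ hg h1, hT.chi1_involution hW hne _ hg h1 h,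
        hT.chi2_involution hW hne _ hg h1 h, hs2]
      simp
      exact ⟨by norm_num, fun _ => by linarith⟩
    · have e := congrArg Complex.re (hT.W_four_add hW hne h)
      simp only [S.chiH_U _ hg h1, hT.chi1_four hW hne _ hg h1 h, hT.chi2_four hW hne _ hg h1 h]
      simp at e ⊢
      refine ⟨by linarith, by norm_num, by linarith⟩
  · simp only [S.St_H hg h1, hT.W_H hW hne hg h1, hT.chi1_H hW hne _ hg h1,
      hT.chi2_H hW hne _ hg h1]
    refine ⟨by simp, by simp; linarith, fun μ => neg_le_re (S.norm_chiH_H μ hg h1),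
      fun _ => by simp; linarith, fun _ _ => by simp⟩
  · simp only [S.St_free (hT.t1.free hg h1), hT.W_A₁ hW hne hg h1,
      S.chiH_free _ (hT.t1.free hg h1), hT.chi2_A₁ hW hne _ hg h1]
    refine ⟨by simp, by simp; linarith, fun μ => by simp, fun _ => by simp; linarith,
      fun h => absurd hg h⟩
  · simp only [S.St_free (hT.t2.free hg h1), hT.W_A₂ hW hne hg h1,
      S.chiH_free _ (hT.t2.free hg h1), hT.chi1_A₂ hW hne _ hg h1]
    refine ⟨by simp, by simp; linarith, fun μ => by simp, fun μ => le_trans (by linarith)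
      (neg_le_re (hT.norm_chi2_A₂ hW hne μ hg h1)), fun _ _ => by simp⟩

include hT hW hne in
theorem pos_H {x g : G} (hx : x ∈ S.H) (hx1 : x ≠ 1)
    (hg : g ∈ S.U ∨ g ∈ S.H ∨ g ∈ A₁ ∨ g ∈ A₂) (h1 : g ≠ 1) :
    0 < (∑ χ : IrrCharacter G, term x g χ).re := by
  obtain ⟨b1, b2, b3, b4, b5⟩ := St_W_bound hT hW hne hg h1
  have h8 := eight_le_card (F := F)
  have hb := rest_bound hT hW hne x g (2 / ((q : ℝ) ^ 2 + 1))
    (fun μ _ => by rw [neg_mul, div_mul_cancel₀ _ (by positivity)]; exact b3 μ)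
    (fun μ h => absurd (hT.chi1_H hW hne μ hx hx1) h)
    (fun μ h => absurd (hT.chi2_H hW hne μ hx hx1) h)
  rw [re_sum_eq hT hW hne x g (a := 1) (b := 0) (by simp [S.St_H hx hx1])
    (by simp [hT.W_H hW hne hx hx1])]
  rw [S.centralizer_eq_H hx hx1, card_H, S.St_H hx hx1, hT.W_H hW hne hx hx1,
    Nat.cast_sub (by omega)] at hb
  have hq : (8 : ℝ) ≤ q := by exact_mod_cast h8
  generalize (q : ℝ) = Q at *
  simp only [norm_one, norm_zero, Nat.cast_one] at hb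
  have e1 : -(1 / 64) ≤ 1 * (S.St g).re / Q ^ 2 := by
    rw [le_div_iff₀ (by positivity)]; nlinarith
  have e2 : 2 / (Q ^ 2 + 1) * (Q - 1 - 1 - 1 ^ 2 - 2 * 0 ^ 2) ≤ 1 / 2 := by
    rw [div_mul_eq_mul_div, div_le_iff₀ (by positivity)]; nlinarith
  simp only [zero_mul, zero_div]
  linarith

include hT hW hne in
theorem pos_A₂ {x g : G} (hx : x ∈ A₂) (hx1 : x ≠ 1)
    (hg : g ∈ S.U ∨ g ∈ S.H ∨ g ∈ A₁ ∨ g ∈ A₂) (h1 : g ≠ 1) :
    0 < (∑ χ : IrrCharacter G, term x g χ).re := by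
  obtain ⟨b1, b2, b3, b4, b5⟩ := St_W_bound hT hW hne hg h1
  obtain ⟨s, hs, hs1, hq⟩ := nums (F := F)
  have hr := r_le_q (F := F)
  have hf := hT.t2.free hx hx1
  have p1 : 0 < 2 * s ^ 2 - 1 := by nlinarith
  have p2 : 0 < 2 * s ^ 2 + 2 * s + 1 := by positivity
  have hb := rest_bound hT hW hne x g ((2 * s + 1) / ((2 * s ^ 2 - 1) * (2 * s ^ 2 + 2 * s + 1)))
    (fun μ h => absurd (S.chiH_free μ hf) h)
    (fun μ h => absurd (hT.chi1_A₂ hW hne μ hx hx1) h)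
    (fun μ _ => by
      rw [hq, hs1, neg_mul, div_mul_cancel₀ _ (by positivity), ← hs1]; exact b4 μ)
  rw [re_sum_eq hT hW hne x g (a := 1) (b := 1) (by simp [S.St_free hf])
    (by simp [hT.W_A₂ hW hne hx hx1])]
  rw [hT.t2.centralizer_eq hx hx1, hT.c2, S.St_free hf, hT.W_A₂ hW hne hx hx1] at hb
  push_cast [hr] at hb
  rw [pow_succ _ m, hs1, hq] at hb
  rw [hs1] at b2
  rw [hs1, hq]
  simp only [norm_neg, norm_one] at hb
  have e1 : -(1 / 64) ≤ 1 * (S.St g).re / (2 * s ^ 2) ^ 2 := by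
    have : 8 ≤ 2 * s ^ 2 := by nlinarith
    rw [le_div_iff₀ (by positivity)]; nlinarith
  have e2 : -(2 / 7) ≤ 1 * (2 * (W g).re) / (s * (2 * s ^ 2 - 1)) := by
    rw [le_div_iff₀ (by positivity)]; nlinarith
  have e3 : (2 * s + 1) / ((2 * s ^ 2 - 1) * (2 * s ^ 2 + 2 * s + 1)) *
      (2 * s ^ 2 - s * 2 + 1 - 1 - 1 ^ 2 - 2 * 1 ^ 2) ≤ 1 / 2 := by
    rw [div_mul_eq_mul_div, div_le_iff₀ (by positivity)]; nlinarith
  linarith

include hT hW hne in
theorem pos_A₁ {x g : G} (hx : x ∈ A₁) (hx1 : x ≠ 1)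
    (hg : g ∈ S.U ∨ g ∈ S.H ∨ g ∈ A₁ ∨ g ∈ A₂) (h1 : g ≠ 1) :
    0 < (∑ χ : IrrCharacter G, term x g χ).re := by
  obtain ⟨b1, b2, b3, b4, b5⟩ := St_W_bound hT hW hne hg h1
  obtain ⟨s, hs, hs1, hq⟩ := nums (F := F)
  have hf := hT.t1.free hx hx1
  have p1 : 0 < 2 * s ^ 2 - 1 := by nlinarith
  have p2 : 0 < 2 * s ^ 2 - 2 * s + 1 := by nlinarith
  have hb : ∀ c : ℝ, (∀ μ, -c ≤ (S.chi1 W A₁ μ g).re) →
      -(c / ((2 * s ^ 2 - 1) * (2 * s ^ 2 - 2 * s + 1)) * (2 * s ^ 2 + 2 * s - 3)) ≤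
        (∑ χ ∈ S.rest W, term x g χ).re := by
    intro c hc
    have hb := rest_bound hT hW hne x g (c / ((2 * s ^ 2 - 1) * (2 * s ^ 2 - 2 * s + 1)))
      (fun μ h => absurd (S.chiH_free μ hf) h)
      (fun μ _ => by rw [hq, hs1, neg_mul, div_mul_cancel₀ _ (by positivity)]; exact hc μ)
      (fun μ h => absurd (hT.chi2_A₁ hW hne μ hx hx1) h)
    rw [hT.t1.centralizer_eq hx hx1, hT.c1, S.St_free hf, hT.W_A₁ hW hne hx hx1] at hb
    push_cast at hb
    rw [pow_succ _ m, hs1, hq] at hb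
    simp only [norm_neg, norm_one] at hb
    convert hb using 1
    ring
  rw [re_sum_eq hT hW hne x g (a := 1) (b := 1) (by simp [S.St_free hf])
    (by simp [hT.W_A₁ hW hne hx hx1])]
  rw [hs1] at b2
  rw [hs1, hq]
  have e1 : -(1 / 64) ≤ 1 * (S.St g).re / (2 * s ^ 2) ^ 2 := by
    have : 8 ≤ 2 * s ^ 2 := by nlinarith
    rw [le_div_iff₀ (by positivity)]; nlinarith
  by_cases hg1 : g ∈ A₁
  · have := hb 4 fun μ => neg_le_re (hT.norm_chi1_A₁ hW hne μ hg1 h1)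
    rw [hT.W_A₁ hW hne hg1 h1, Complex.one_re]
    have e3 : 4 / ((2 * s ^ 2 - 1) * (2 * s ^ 2 - 2 * s + 1)) * (2 * s ^ 2 + 2 * s - 3) <
        63 / 64 + 1 * (2 * 1) / (s * (2 * s ^ 2 - 1)) := by
      rw [div_mul_eq_mul_div, div_add_div _ _ (by norm_num) (by positivity),
        div_lt_div_iff₀ (by positivity) (by positivity)]
      obtain ⟨t, rfl⟩ : ∃ t, s = t + 2 := ⟨s - 2, by ring⟩
      have ht : 0 ≤ t := by linarith
      rw [← sub_pos]
      ring_nf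
      positivity
    linarith
  · have := hb 1 (b5 hg1)
    have e2 : -(2 / 7) ≤ 1 * (2 * (W g).re) / (s * (2 * s ^ 2 - 1)) := by
      rw [le_div_iff₀ (by positivity)]; nlinarith
    have e3 : 1 / ((2 * s ^ 2 - 1) * (2 * s ^ 2 - 2 * s + 1)) * (2 * s ^ 2 + 2 * s - 3) ≤
        1 / 2 := by
      rw [div_mul_eq_mul_div, div_le_iff₀ (by positivity)]; nlinarith
    linarith

include hT hW hne in
theorem pos_four {x g : G} (hx : x ∈ S.U) (hx4 : orderOf x = 4)
    (hg : g ∈ S.U ∨ g ∈ S.H ∨ g ∈ A₁ ∨ g ∈ A₂) (h1 : g ≠ 1) :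
    0 < (∑ χ : IrrCharacter G, term x g χ).re := by
  have hx1 : x ≠ 1 := by rintro rfl; rw [orderOf_one] at hx4; exact absurd hx4 (by decide)
  obtain ⟨b1, b2, b3, b4, b5⟩ := St_W_bound hT hW hne hg h1
  obtain ⟨s, hs, hs1, hq⟩ := nums (F := F)
  have hs2 : (2 : ℂ) ^ m = s := by exact_mod_cast hs1
  have p1 : 0 < 2 * s ^ 2 - 1 := by nlinarith
  have p2 : 0 < 2 * s ^ 2 - 2 * s + 1 := by nlinarith
  have p3 : 0 < 2 * s ^ 2 + 2 * s + 1 := by positivity
  rw [re_sum_eq hT hW hne x g (a := 0) (b := -s ^ 2) (by simp [S.St_U hx hx1])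
    (by rw [← sq, hT.W_four_sq hW hne hx4, hs2]; push_cast; rfl), hs1, hq, zero_mul, zero_div,
    add_zero]
  by_cases hg1 : g ∈ A₁
  · have hf := hT.t1.free hg1 h1
    have e1 : ∑ χ ∈ S.rest W, term x g χ = ∑ χ ∈ S.rest W,
        -(((2 * s ^ 2 - 1) * (2 * s ^ 2 - 2 * s + 1) : ℝ) : ℂ)⁻¹ * (χ.1 x * conj (χ.1 g)) := by
      refine Finset.sum_congr rfl fun χ hχ => ?_
      rcases hT.rest_cases hW hne hχ with ⟨μ, -, e⟩ | ⟨μ, -, e⟩ | ⟨μ, -, e⟩ <;> rw [e, term]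
      · simp [S.chiH_free μ hf]
      · have hq' : (q : ℂ) = 2 * s ^ 2 := by exact_mod_cast hq
        rw [hT.chi1_four hW hne μ hx hx1 hx4, hT.chi1_one hW hne, pow_succ', hs2, hq']
        push_cast
        ring
      · simp [hT.chi2_A₁ hW hne μ hg1 h1]
    have e2 := H6.column_orthogonality_not_isConj (g := x) (h := g) (fun h => by
      obtain ⟨c, rfl⟩ := isConj_iff.1 h
      have := hf.odd_orderOf
      rw [show c * x * c⁻¹ = MulAut.conj c x from rfl, MulEquiv.orderOf_eq, hx4] at this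
      exact absurd this (by decide))
    rw [sum_split (S := S) hW hne (fun χ => χ x * conj (χ g)), S.St_U hx hx1, bar_apply, bar_apply,
      hT.W_A₁ hW hne hg1 h1] at e2
    have e3 : ∑ χ ∈ S.rest W, χ.1 x * conj (χ.1 g) = -1 := by
      have := hT.W_four_add hW hne hx4
      simp only [map_one] at e2
      linear_combination e2 - this
    rw [e1, ← Finset.mul_sum, e3, hT.W_A₁ hW hne hg1 h1, mul_neg_one, neg_neg, ← Complex.ofReal_inv,
      Complex.ofReal_re, Complex.one_re]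
    have e4 : -1 < -s ^ 2 * (2 * 1) / (s * (2 * s ^ 2 - 1)) := by
      rw [lt_div_iff₀ (by positivity)]; nlinarith
    have e5 : 0 < ((2 * s ^ 2 - 1) * (2 * s ^ 2 - 2 * s + 1))⁻¹ := by positivity
    linarith
  · have hb := rest_bound hT hW hne x g ((2 * s + 1) / ((2 * s ^ 2 - 1) * (2 * s ^ 2 + 2 * s + 1)))
      (fun μ _ => le_trans (by
        rw [hq, neg_mul, neg_le_neg_iff, div_mul_eq_mul_div, le_div_iff₀ (by positivity)]
        obtain ⟨t, rfl⟩ : ∃ t, s = t + 2 := ⟨s - 2, by ring⟩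
        have ht : 0 ≤ t := by linarith
        rw [← sub_nonneg]
        ring_nf
        positivity) (b3 μ))
      (fun μ _ => le_trans (by
        rw [hq, hs1, neg_mul, neg_le_neg_iff, div_mul_eq_mul_div, le_div_iff₀ (by positivity)]
        obtain ⟨t, rfl⟩ : ∃ t, s = t + 2 := ⟨s - 2, by ring⟩
        have ht : 0 ≤ t := by linarith
        rw [← sub_nonneg]
        ring_nf
        positivity) (b5 hg1 μ))
      (fun μ _ => by
        rw [hq, hs1, neg_mul, div_mul_cancel₀ _ (by positivity), ← hs1]; exact b4 μ)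
    have n1 : ‖W x‖ ^ 2 = s ^ 2 := by
      have := hT.W_four_norm hW hne hx4
      rw [Complex.mul_conj', hs2] at this
      exact_mod_cast this
    rw [S.card_centralizer_of_orderOf_four hx4, S.St_U hx hx1, n1] at hb
    push_cast at hb
    rw [hq, norm_zero] at hb
    have e1 : (W g).re ≤ 0 := by
      rcases hg with hg | hg | hg | hg
      · rcases involution_or_four hg h1 with h | h
        · rw [hT.W_involution hW hne h h1, hs2]; simp; linarith
        · have e := congrArg Complex.re (hT.W_four_add hW hne h)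
          simp at e
          exact e.le
      · simp [hT.W_H hW hne hg h1]
      · exact absurd hg hg1
      · simp [hT.W_A₂ hW hne hg h1]
    have e2 : 0 ≤ -s ^ 2 * (2 * (W g).re) / (s * (2 * s ^ 2 - 1)) :=
      div_nonneg (by nlinarith [sq_nonneg s]) (by positivity)
    have e3 : (2 * s + 1) / ((2 * s ^ 2 - 1) * (2 * s ^ 2 + 2 * s + 1)) *
        (2 * (2 * s ^ 2) - 1 - 0 ^ 2 - 2 * s ^ 2) < 1 := by
      rw [div_mul_eq_mul_div, div_lt_iff₀ (by positivity)]; nlinarith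
    linarith

end

/-- A strong covering result in the direction of Thompson's conjecture (non-identity elements) for the Suzuki groups: let q = 2^(2m+1) ≥ 8, F the field with q elements and Sz(q) the Suzuki group over F. For every element x of Sz(q) of order greater than 2, every non-identity element of Sz(q) is a product of two conjugates of x. -/
theorem result {F : Type*} [Field F] [Fintype F] (m : ℕ) (hm : 1 ≤ m) (hF : Fintype.card F = 2 ^ (2 * m + 1))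
    (x : Cfsg.Lie.Sz F (2 ^ (m + 1))) (hx2 : 2 < orderOf x) : ∀ g : Cfsg.Lie.Sz F (2 ^ (m + 1)), g ≠ 1 → ∃ u v : Cfsg.Lie.Sz F (2 ^ (m + 1)), g = (u * x * u⁻¹) * (v * x * v⁻¹) := by
  haveI : SzF F m := ⟨hm, hF⟩
  let S := lieModel F m
  haveI := S.finite
  haveI := Fintype.ofFinite (Cfsg.Lie.Sz F (2 ^ (m + 1)))
  obtain ⟨A₁, A₂, hT⟩ := S.exists_toriPair
  obtain ⟨W, hW, hne⟩ := S.exists_nonreal
  intro g hg
  obtain ⟨x', hx', hx⟩ := hT.exists_conj_mem x
  obtain ⟨g', hg', hg2⟩ := hT.exists_conj_mem g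
  have hg1 : g' ≠ 1 := by rintro rfl; exact hg (isConj_one_left.1 hg')
  have ho : orderOf x' = orderOf x := by
    obtain ⟨c, rfl⟩ := isConj_iff.1 hx'
    exact (MulAut.conj c).orderOf_eq x
  have hx1 : x' ≠ 1 := by rintro rfl; rw [orderOf_one] at ho; omega
  have key : 0 < (∑ χ : IrrCharacter (Cfsg.Lie.Sz F (2 ^ (m + 1))), term x' g' χ).re := by
    rcases hx with hx | hx | hx | hx
    · rcases involution_or_four hx hx1 with h | h
      · have := Nat.le_of_dvd two_pos (orderOf_dvd_of_pow_eq_one (show x' ^ 2 = 1 by rw [sq, h]))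
        omega
      · exact pos_four hT hW hne hx h hg2 hg1
    · exact pos_H hT hW hne hx hx1 hg2 hg1
    · exact pos_A₁ hT hW hne hx hx1 hg2 hg1
    · exact pos_A₂ hT hW hne hx hx1 hg2 hg1
  have h0 : H31.classCoeff x' x' g' ≠ 0 := by
    intro h
    have e := H31.classCoeff_eq x' x' g'
    rw [h, Nat.cast_zero, eq_comm, mul_eq_zero, div_eq_zero_iff, mul_self_eq_zero] at e
    rcases e with (e | e) | e
    · exact Subgroup.index_ne_zero_of_finite (Nat.cast_eq_zero.1 e)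
    · exact H6.card_ne_zero e
    · exact key.ne' (congrArg Complex.re e)
  obtain ⟨⟨⟨a, b⟩, h1, h2, h3⟩⟩ := (Nat.card_ne_zero.1 h0).1
  obtain ⟨u, hu⟩ := isConj_iff.1 (hx'.trans h1)
  obtain ⟨v, hv⟩ := isConj_iff.1 (hx'.trans h2)
  obtain ⟨c, hc⟩ := isConj_iff.1 hg'.symm
  refine ⟨c * u, c * v, ?_⟩
  rw [← hc, ← h3, ← hu, ← hv]
  group

end Cfsg.Agent.S2457
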