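import Cfsg.Statements.S2459
import Cfsg.Agent.Lib.Sour.SL33
-- import your own Cfsg.Agent.* helpers here

set_option autoImplicit false
open Cfsg

namespace Cfsg.Agent.S2459

open Module Polynomial H64.Sour

section aux
variable {K : Type*} [Field K]

theorem exists_sl_conj [Finite K] {n : Type*} [Fintype n] [DecidableEq n]
    (D : Matrix.SpecialLinearGroup n K) (B : Matrix n n K) {π h : K[X]} (hπ : Irreducible π)
    (hm : π.Monic) (hsq : Squarefree (π * h)) (hD : (D : Matrix n n K).charpoly = π * h)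
    (hB : B.charpoly = π * h) :
    ∃ u : Matrix.SpecialLinearGroup n K, ((u * D * u⁻¹ : Matrix.SpecialLinearGroup n K) :
      Matrix n n K) = B := by
  obtain ⟨x, hx⟩ := H65.isConj_of_charpoly_eq_of_squarefree hsq hsq
    (hD ▸ (D : Matrix n n K).aeval_self_charpoly) (hB ▸ B.aeval_self_charpoly) (hD.trans hB.symm)
  have h0 : (x : Matrix n n K).det ≠ 0 := (x.isUnit.map Matrix.detMonoidHom).ne_zero
  obtain ⟨Z, h1, h2⟩ := exists_commute_det (Matrix.toLin' (D : Matrix n n K)) hπ hm
    (by rw [Matrix.charpoly_toLin', hD])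
    (fun h1 => hπ.not_isUnit (hsq _ (mul_dvd_mul_left π h1))) ((x : Matrix n n K).det)⁻¹
  have h3 : (D : Matrix n n K) * LinearMap.toMatrix' Z = LinearMap.toMatrix' Z * D := by
    have := congrArg LinearMap.toMatrix' h1.eq
    simpa [LinearMap.toMatrix'_mul] using this
  let u : Matrix.SpecialLinearGroup n K := ⟨(x : Matrix n n K) * LinearMap.toMatrix' Z, by
    rw [Matrix.det_mul, LinearMap.det_toMatrix', h2, mul_inv_cancel₀ h0]⟩
  refine ⟨u, ?_⟩
  have h4 : ((u * D : Matrix.SpecialLinearGroup n K) : Matrix n n K) = B * u := by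
    change (x : Matrix n n K) * LinearMap.toMatrix' Z * D = B * (x * LinearMap.toMatrix' Z)
    rw [mul_assoc, ← h3, ← mul_assoc, hx.eq, mul_assoc]
  rw [Matrix.SpecialLinearGroup.coe_mul, h4, mul_assoc, ← Matrix.SpecialLinearGroup.coe_mul,
    mul_inv_cancel, Matrix.SpecialLinearGroup.coe_one, mul_one]

theorem dec_id {V : Type*} [AddCommGroup V] [Module K V] [FiniteDimensional K V]
    (h : finrank K V = 2) {a b : K} (ha0 : a ≠ 0) (ha1 : a ≠ 1) (hb0 : b ≠ 0) (hb1 : b ≠ 1)
    (c : V) (r : Dual K V) :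
    Dec (1 : End K V) c r ((X - C a) * (X - C b)) ((X - C a) * (X - C b)) := by
  have : Nontrivial V := Module.nontrivial_of_finrank_pos (R := K) (by omega)
  obtain ⟨x, hx0⟩ := exists_ne (0 : V)
  obtain ⟨φ, hx⟩ := exists_dual_one (K := K) hx0
  have hd : φ ((1 : End K V) x) = 1 := hx
  have h5 := ((det_schur_one hx hd (by simp [hx])).trans (map_one _)).symm
  have h6 := finrank_ker_add_one x φ hx
  exact Dec.step hx (by simp [hx]) ha0 (by simp [hx])
    (dec_one (by omega) hb0 hb0 (by rw [← h5, mul_one]) (fun h => (hb1 h).elim)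
      fun h => (hb1 h).elim)
    (Or.inr ⟨ha1, rfl⟩) (Or.inr ⟨ha1, rfl⟩)

theorem big_case (hK : Big K) {a : K} (ha0 : a ≠ 0) (ha1 : a ≠ 1) (g : Matrix (Fin 3) (Fin 3) K)
    (hd : g.det = 1) (hg : ∀ μ : K, g ≠ μ • 1) :
    ∃ A : Matrix (Fin 3) (Fin 3) K, A.charpoly = (X - C 1) * ((X - C a) * (X - C a⁻¹)) ∧
      (A * g).charpoly = (X - C 1) * ((X - C a) * (X - C a⁻¹)) := by
  suffices h : ∃ c r, Dec (Matrix.toLin' g) c r ((X - C 1) * ((X - C a) * (X - C a⁻¹)))
      ((X - C 1) * ((X - C a) * (X - C a⁻¹))) by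
    obtain ⟨c, r, A, B, -, rfl, h1, h2, -⟩ := h
    refine ⟨LinearMap.toMatrix' A, ?_, ?_⟩
    · rw [← h1, ← Matrix.charpoly_toLin', Matrix.toLin'_toMatrix']
    · rw [← h2, ← Matrix.charpoly_toLin', Matrix.toLin'_mul, Matrix.toLin'_toMatrix']; rfl
  have hd' : LinearMap.det (Matrix.toLin' g) = 1 := by rw [LinearMap.det_toLin', hd]
  have hns : NS (Matrix.toLin' g) := fun μ => by
    by_contra! h
    exact hg μ ((H65.toLin'_eq_smul_one_iff _ _).1 (LinearMap.ext h))
  by_cases hr2 : R2 (Matrix.toLin' g)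
  · simpa only [pow_one] using dec_ss hK (n := 1) (by simp) hd' hns hr2 ha0 ha1 (inv_ne_zero ha0)
      (by simpa using ha1)
  · obtain ⟨ψ, v, h1, h2, h3, h4⟩ := transvection_of_not_R2 hr2 hd' (by
      intro h
      obtain ⟨w, hw⟩ := hns 1
      simp [h] at hw)
    rw [h4]
    obtain ⟨φ, hφ⟩ := exists_dual_one (K := K) h2
    have h5 : φ (LinearMap.transvection ψ v v) = 1 := by
      simp [LinearMap.transvection.apply, h3, hφ]
    have h6 : schur (LinearMap.transvection ψ v) v φ (by simp [h5]) = 1 := by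
      refine LinearMap.ext fun w => Subtype.ext ?_
      have hw : φ w = 0 := w.2
      rw [schur_apply, h5]
      simp [LinearMap.transvection.apply, h3, hφ, hw]
    have h7 := finrank_ker_add_one v φ hφ
    refine ⟨v, φ, Dec.step hφ (by simp [h5]) one_ne_zero (by simp [h5]) (c₁ := cvec _ v φ hφ)
      (r₁ := rvec _ φ) ?_ (Or.inl ⟨rfl, by simp [hφ], rfl⟩) (Or.inl ⟨rfl, by simp [hφ], rfl⟩)⟩
    rw [h6]
    exact dec_id (by simpa using h7) ha0 ha1 (inv_ne_zero ha0) (by simpa using ha1) _ _

end aux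

/-- A form of Thompson's conjecture for PSL(3,q), q > 2 (covering the non-identity elements), with a semisimple class: for F a finite field of characteristic p with more than 2 elements there is an element x of PSL(3,F) of order prime to p such that every non-identity element of PSL(3,F) is a product of two conjugates of x. -/
theorem result {F : Type*} [Field F] [Fintype F] (p : ℕ) [Fact p.Prime] [CharP F p] (h3 : 3 ≤ Fintype.card F) :
    ∃ x : Matrix.ProjectiveSpecialLinearGroup (Fin 3) F, ¬ p ∣ orderOf x ∧ ∀ g : Matrix.ProjectiveSpecialLinearGroup (Fin 3) F, g ≠ 1 → ∃ u v : Matrix.ProjectiveSpecialLinearGroup (Fin 3) F, g = (u * x * u⁻¹) * (v * x * v⁻¹) := by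

  classical
  suffices h : ∃ (h : F[X]) (D D' : Matrix (Fin 3) (Fin 3) F) (k : ℕ), D * D' = 1 ∧ D.det = 1 ∧
      Squarefree ((X - C 1) * h) ∧ D.charpoly = (X - C 1) * h ∧
      D'.charpoly = (X - C 1) * h ∧ D ^ k = 1 ∧ (k : F) ≠ 0 ∧
      ∀ g : Matrix (Fin 3) (Fin 3) F, g.det = 1 → (∀ μ : F, g ≠ μ • 1) →
        ∃ A : Matrix (Fin 3) (Fin 3) F, A.charpoly = (X - C 1) * h ∧
          (A * g).charpoly = (X - C 1) * h by
    obtain ⟨h, D₀, D', k, h7, h8, h1, h2, h3, h4, h5, h6⟩ := h
    let D : Matrix.SpecialLinearGroup (Fin 3) F := ⟨D₀, h8⟩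
    replace h4 : D ^ k = 1 := Subtype.ext (by rw [Matrix.SpecialLinearGroup.coe_pow]; exact h4)
    replace h3 : ((D⁻¹ : Matrix.SpecialLinearGroup (Fin 3) F) :
        Matrix (Fin 3) (Fin 3) F).charpoly = (X - C 1) * h := by
      have : ((D⁻¹ : Matrix.SpecialLinearGroup (Fin 3) F) : Matrix (Fin 3) (Fin 3) F) = D' := by
        rw [← mul_one (D⁻¹ : Matrix.SpecialLinearGroup (Fin 3) F).1, ← h7, ← mul_assoc]
        change ((D⁻¹ * D : Matrix.SpecialLinearGroup (Fin 3) F) : Matrix (Fin 3) (Fin 3) F) * D' = _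
        rw [inv_mul_cancel, Matrix.SpecialLinearGroup.coe_one, one_mul]
      rw [this, h3]
    refine ⟨QuotientGroup.mk D, fun hp => h5 ?_, fun g hg => ?_⟩
    · rw [CharP.cast_eq_zero_iff F p]
      refine hp.trans (orderOf_dvd_of_pow_eq_one ?_)
      rw [← QuotientGroup.mk_pow, h4, QuotientGroup.mk_one]
    · induction g using QuotientGroup.induction_on with
      | H g =>
        obtain ⟨A, k1, k2⟩ := h6 g g.2 fun μ hμ => hg (by
          rw [QuotientGroup.eq_one_iff, Subgroup.mem_center_iff]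
          intro y
          apply Subtype.ext
          simp [hμ])
        obtain ⟨u, hu⟩ := exists_sl_conj D⁻¹ A (irreducible_X_sub_C 1) (monic_X_sub_C 1) h1 h3 k1
        obtain ⟨v, hv⟩ := exists_sl_conj D _ (irreducible_X_sub_C 1) (monic_X_sub_C 1) h1 h2 k2
        rw [← hu, ← Matrix.SpecialLinearGroup.coe_mul] at hv
        have h7 : g = (u * D * u⁻¹) * (v * D * v⁻¹) := by
          rw [Subtype.ext hv]; group
        exact ⟨QuotientGroup.mk u, QuotientGroup.mk v, by rw [h7]; rfl⟩
  rcases h3.eq_or_lt with h3 | h3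
  · let σ : F ≃+* ZMod 3 := FiniteField.ringEquivOfCardEq (by rw [← h3, ZMod.card])
    have hirr : Irreducible (X ^ 2 + 1 : F[X]) := by
      refine irreducible_of_degree_le_three_of_not_isRoot ?_ fun x hx => ?_
      · have : (X ^ 2 + 1 : F[X]).natDegree = 2 := by compute_degree!
        simp [this]
      · have h1 : σ x ^ 2 + 1 = 0 := by simpa using congrArg σ hx
        revert h1
        generalize σ x = y
        revert y
        decide
    have h2 : (2 : F) ≠ 0 := fun h => by
      have h1 : (2 : ZMod 3) = 0 := by simpa [map_ofNat] using congrArg σ h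
      revert h1; decide
    refine ⟨X ^ 2 + 1, !![1, 0, 0; 0, 0, -1; 0, 1, 0], !![1, 0, 0; 0, 0, 1; 0, -1, 0], 4,
      by simp [Matrix.one_fin_three], by simp [Matrix.det_fin_three], ?_, ?_,
      ?_, ?_, ?_, fun g hd hg => ?_⟩
    · refine squarefree_mul_iff.2 ⟨?_, (irreducible_X_sub_C 1).squarefree, hirr.squarefree⟩
      rw [(irreducible_X_sub_C 1).isRelPrime_iff_not_dvd, dvd_iff_isRoot]
      simpa [one_add_one_eq_two] using h2
    · rw [charpoly_three]
      simp [Matrix.det_fin_three]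
      ring
    · rw [charpoly_three]
      simp [Matrix.det_fin_three]
      ring
    · simp [pow_succ, Matrix.one_fin_three]
    · have : ((4 : ℕ) : F) = 2 * 2 := by norm_num
      rw [this]; exact mul_ne_zero h2 h2
    · obtain ⟨A, -, k1, k2⟩ := sl33 (g.map σ) (by
        rw [show g.map σ = (σ : F →+* ZMod 3).mapMatrix g from rfl, ← RingHom.map_det, hd, map_one])
        (fun h => hg 1 (by
          ext i j
          apply σ.injective
          have := congrFun (congrFun h i) j
          rw [Matrix.map_apply] at this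
          rw [this, one_smul, Matrix.one_apply, Matrix.one_apply]
          split_ifs <;> simp))
      refine ⟨A.map (σ.symm : ZMod 3 →+* F), ?_, ?_⟩
      · rw [Matrix.charpoly_map, k1]; simp
      · have : A.map (σ.symm : ZMod 3 →+* F) * g = (A * g.map σ).map (σ.symm : ZMod 3 →+* F) := by
          rw [Matrix.map_mul, Matrix.map_map]
          congr 1
          ext i j
          simp
        rw [this, Matrix.charpoly_map, k2]; simp
  · have hK := big_of_card (K := F) h3
    obtain ⟨a, ha0, ha1, ha2⟩ := hK.exists_sq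
    have hab : a ≠ a⁻¹ := fun h => ha2 (by nth_rewrite 2 [h]; exact mul_inv_cancel₀ ha0)
    refine ⟨(X - C a) * (X - C a⁻¹), Matrix.diagonal ![1, a, a⁻¹], Matrix.diagonal ![1, a⁻¹, a],
      Fintype.card F - 1, ?_, by simp [Fin.prod_univ_three, ha0], ?_, ?_, ?_, ?_, ?_,
      fun g hd hg => big_case hK ha0 ha1 g hd hg⟩
    · rw [Matrix.diagonal_mul_diagonal, ← Matrix.diagonal_one]
      congr 1
      funext i
      fin_cases i <;> simp [ha0]
    · refine squarefree_mul_iff.2 ⟨?_, (irreducible_X_sub_C 1).squarefree, squarefree_mul_iff.2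
        ⟨(isCoprime_X_sub_C_of_isUnit_sub (isUnit_iff_ne_zero.2 (sub_ne_zero.2 hab))).isRelPrime,
          (irreducible_X_sub_C a).squarefree, (irreducible_X_sub_C _).squarefree⟩⟩
      rw [(irreducible_X_sub_C 1).isRelPrime_iff_not_dvd, dvd_iff_isRoot]
      simp [sub_eq_zero, ha1, ha1.symm]
    · simp [Matrix.charpoly_diagonal, Fin.prod_univ_three, mul_assoc]
    · simp only [Matrix.charpoly_diagonal, Fin.prod_univ_three]
      simp
      ring
    · skip
      rw [Matrix.diagonal_pow, ← Matrix.diagonal_one]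
      congr 1
      funext i
      fin_cases i <;> simp [FiniteField.pow_card_sub_one_eq_one a ha0]
    · rw [Nat.cast_sub Fintype.card_pos, FiniteField.cast_card_eq_zero]
      simp

end Cfsg.Agent.S2459
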