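import Cfsg.Statements.S2460
import Mathlib
import Cfsg.Agent.Lib.EG.Mat
import Cfsg.Agent.S1056
import Cfsg.Agent.S1083
import Cfsg.Agent.S0301
import Cfsg.Agent.S0304
import Cfsg.Agent.Lib.Sp.Simple
import Cfsg.Agent.Lib.Orth12.Bridge

set_option autoImplicit false
open Cfsg

namespace Cfsg.Agent.S2460

/-- A form of Thompson's conjecture for the simple groups PSp(4,q), q ≥ 3 (covering the non-identity elements), with a semisimple class: for F a finite field of characteristic p with at least 3 elements there is an element x of PSp(4,F) of order prime to p such that every non-identity element of PSp(4,F) is a product of two conjugates of x. -/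
theorem result {F : Type*} [Field F] [Fintype F] (p : ℕ) [Fact p.Prime] [CharP F p] (h3 : 3 ≤ Fintype.card F) :
    ∃ x : Cfsg.PSp 2 F, ¬ p ∣ orderOf x ∧ ∀ g : Cfsg.PSp 2 F, g ≠ 1 → ∃ u v : Cfsg.PSp 2 F, g = (u * x * u⁻¹) * (v * x * v⁻¹) := by
  obtain ⟨R, E, hE⟩ := H38.exists_isMat (D := Lie.chevB2) (by simp) F
  have := (S1056.result (H62.EG.exists_ne h3)).1
  obtain ⟨e⟩ := S1083.result (H62.EG.exists_ne h3)
  obtain ⟨e'⟩ : Nonempty (POmega F (quadFormOdd 2 F) ≃* PSp 2 F) := by
    by_cases hp : ringChar F = 2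
    · have : CharP F 2 := hp ▸ ringChar.charP F
      obtain ⟨e⟩ := S0304.result (F := F) 2
      obtain ⟨d, hd⟩ := H39.exists_unit_sq_ne (K := F) (by
        have := FiniteField.even_card_of_char_two hp
        omega)
      exact ⟨(H12.pcommCongr e).trans (H10.quotCenterCongr ((MulEquiv.subgroupCongr
        (H11.Sp.commutator_eq_top_of_sq (F := F) ⟨d, d.ne_zero, fun h => hd (Units.ext h)⟩)).trans
          Subgroup.topEquiv))⟩
    · exact S0301.result (Nat.odd_iff.2 (FiniteField.odd_card_of_char_ne_two hp))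
  exact H62.EG.Sq.transfer (e.trans e') (H62.EG.out_split (by simp) hE p h3 (i := (0 : Fin 2))
    (j := (1 : Fin 2)) (k1 := (0 : Fin 2)) (k2 := (1 : Fin 2)) (k3 := (1 : Fin 2))
    (by decide : (0 : Fin 2) ≠ 1) (by decide : ∀ k : Fin 2, k = 0 ∨ k = 1)
    (w0 := ([0, 1, 0, 1] : List (Fin 2))) (w1 := ([1] : List (Fin 2))) (w2 := [])
    (w3 := ([0] : List (Fin 2))) (.of_decide (by decide +kernel)) ![0, 1] ![1, 2]
    (by decide +kernel) (by decide +kernel) (by decide +kernel) (by decide +kernel))

end Cfsg.Agent.S2460
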