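import Cfsg.Statements.S2461
import Mathlib
import Cfsg.Agent.Lib.EG.Mat
import Cfsg.Agent.S1055

set_option autoImplicit false
open Cfsg

namespace Cfsg.Agent.S2461

/-- A form of Thompson's conjecture for the simple Chevalley groups G₂(q), q ≥ 3 (covering the non-identity elements), with a semisimple class: for F a finite field of characteristic p with at least 3 elements there is an element x of the Chevalley group of type G₂ over F of order prime to p such that every non-identity element of that group is a product of two conjugates of x. -/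
theorem result {F : Type*} [Field F] [Fintype F] (p : ℕ) [Fact p.Prime] [CharP F p] (h3 : 3 ≤ Fintype.card F) :
    ∃ x : Cfsg.Lie.chevG2.group F, ¬ p ∣ orderOf x ∧ ∀ g : Cfsg.Lie.chevG2.group F, g ≠ 1 → ∃ u v : Cfsg.Lie.chevG2.group F, g = (u * x * u⁻¹) * (v * x * v⁻¹) := by
  obtain ⟨R, E, hE⟩ := H38.exists_isMat (D := Lie.chevG2) (by simp) F
  have := (S1055.result (H62.EG.exists_ne h3)).1
  exact H62.EG.out_split (by simp) hE p h3 (i := (1 : Fin 2)) (j := (0 : Fin 2))
    (k1 := (0 : Fin 2)) (k2 := (0 : Fin 2)) (k3 := (1 : Fin 2)) (by decide : (1 : Fin 2) ≠ 0)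
    (by decide : ∀ k : Fin 2, k = 1 ∨ k = 0)
    (w0 := ([0, 1, 0, 1, 0, 1] : List (Fin 2))) (w1 := ([0, 1] : List (Fin 2))) (w2 := [])
    (w3 := ([1, 0] : List (Fin 2))) (.of_decide (by decide +kernel)) ![1, 0] ![2, 3]
    (by decide +kernel) (by decide +kernel) (by decide +kernel) (by decide +kernel)

end Cfsg.Agent.S2461
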