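import Cfsg.Statements.S2463
import Mathlib
import Cfsg.Agent.Lib.EG.F4
import Cfsg.Agent.Lib.EG.Ti

set_option autoImplicit false
open Cfsg

namespace Cfsg.Agent.S2463

theorem aux {Q M : Type*} [Group Q] [Group M] {N : Subgroup Q} (e : M ≃* N)
    (h : ∃ x : N, ¬ 2 ∣ orderOf x ∧ ∀ g ≠ 1, H62.EG.Sq x g) :
    ∃ x : M, ¬ 2 ∣ orderOf x ∧ ∀ g ≠ 1, H62.EG.Sq x g := H62.EG.Sq.transfer e.symm h

/-- A form of Thompson's conjecture for the simple groups of type ²F₄ (covering the non-identity elements) with a semisimple class: if M is a large Ree group ²F₄(2^(2m+1)) with m ≥ 1, or the Tits group, then there is an element x of M of odd order such that every non-identity element of M is a product of two conjugates of x. -/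
theorem result {M : Type*} [Group M] [Finite M] (hM : Cfsg.Lie.Iso2F4 M ∨ Cfsg.Lie.IsoTits M) :
    ∃ x : M, Odd (orderOf x) ∧ ∀ g : M, g ≠ 1 → ∃ u v : M, g = (u * x * u⁻¹) * (v * x * v⁻¹) := by
  have key : ∃ x : M, ¬ 2 ∣ orderOf x ∧ ∀ g ≠ 1, H62.EG.Sq x g := by
    rcases hM with ⟨K, _, _, m, hm, hK, ⟨e⟩⟩ | ⟨⟨e⟩⟩
    · exact H62.EG.Sq.transfer e.symm (H62.EG.sq_F4 hm hK)
    · exact aux e H62.Ti.sq_tits
  obtain ⟨x, h1, h2⟩ := key
  exact ⟨x, Nat.odd_iff.2 (Nat.two_dvd_ne_zero.1 h1), h2⟩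

end Cfsg.Agent.S2463
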