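import Cfsg.Statements.S2467
import Cfsg.Agent.Lib.EltOrd.Alt
-- import your own Cfsg.Agent.* helpers here

set_option autoImplicit false
open Cfsg

namespace Cfsg.Agent.S2467

theorem exists_even (c : Multiset ℕ) (h : Odd (c.sum + c.card)) : ∃ a ∈ c, Even a := by
  induction c using Multiset.induction_on with
  | empty => simp at h
  | cons a s ih =>
    by_cases ha : Even a
    · exact ⟨a, by simp, ha⟩
    · rw [Multiset.sum_cons, Multiset.card_cons] at h
      have : Odd (s.sum + s.card) := by
        rw [Nat.odd_iff] at h ⊢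
        rw [Nat.even_iff] at ha
        omega
      obtain ⟨b, hb, hb'⟩ := ih this
      exact ⟨b, by simp [hb], hb'⟩

/-- Adjacency of 2 and an odd prime in the prime graph of the alternating groups: let r be an odd prime at most n, with n ≥ 4. The alternating group of degree n has an element of order 2r if and only if r + 4 ≤ n. -/
theorem result (n r : ℕ) (hn : 4 ≤ n) (hr : r.Prime) (hr2 : r ≠ 2) (hrn : r ≤ n) :
    (2 * r ∈ Set.range (orderOf : alternatingGroup (Fin n) → ℕ)) ↔ r + 4 ≤ n := by
  rw [H64.mem_range_orderOf_alt_iff]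
  have hro := hr.odd_of_ne_two hr2
  have hr3 : 3 ≤ r := by have := hr.two_le; omega
  constructor
  · rintro ⟨c, h1, h2, h3, h4⟩
    obtain ⟨a, ha, hra⟩ := H64.exists_mem_of_prime_dvd_lcm hr c (h4 ▸ Dvd.intro_left _ rfl)
    obtain ⟨b, hb, hsb⟩ := H64.exists_mem_of_prime_dvd_lcm Nat.prime_two c (h4 ▸ Dvd.intro _ rfl)
    have ha0 : 0 < a := by have := h2 a ha; omega
    have hb0 : 0 < b := by have := h2 b hb; omega
    obtain ⟨s, rfl⟩ := Multiset.exists_cons_of_mem hb
    rw [Multiset.sum_cons, Multiset.card_cons] at h3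
    rw [Multiset.sum_cons] at h1
    have h5 : Odd (s.sum + s.card) := by
      rw [Nat.odd_iff]
      rw [Nat.even_iff] at h3
      omega
    obtain ⟨e, he, he2⟩ := exists_even s h5
    have he0 : 2 ≤ e := h2 e (by simp [he])
    have hb2 : 2 ≤ b := h2 b (by simp)
    have hes := Multiset.single_le_sum (fun x _ => Nat.zero_le x) e he
    have hc : Nat.Coprime 2 r := (Nat.coprime_primes Nat.prime_two hr).2 (Ne.symm hr2)
    by_cases hae : Even a
    · have h6 : 2 * r ≤ a := Nat.le_of_dvd ha0 (hc.mul_dvd_of_dvd_of_dvd hae.two_dvd hra)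
      rcases Multiset.mem_cons.1 ha with h | h
      · omega
      · have := Multiset.single_le_sum (fun x _ => Nat.zero_le x) a h
        omega
    · have h6 : r ≤ a := Nat.le_of_dvd ha0 hra
      rcases Multiset.mem_cons.1 ha with h | h
      · exact absurd (h ▸ even_iff_two_dvd.2 hsb) hae
      · have := H64.add_le_sum_of_mem_of_ne h he (fun h' => hae (h' ▸ he2))
        omega
  · intro h
    refine ⟨{r, 2, 2}, by simp; omega, ?_, ?_, ?_⟩
    · intro a ha
      simp only [Multiset.insert_eq_cons, Multiset.mem_cons, Multiset.mem_singleton] at ha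
      rcases ha with rfl | rfl | rfl <;> omega
    · simp only [Multiset.insert_eq_cons, Multiset.sum_cons, Multiset.sum_singleton,
        Multiset.card_cons, Multiset.card_singleton]
      rw [Nat.even_iff]
      rw [Nat.odd_iff] at hro
      omega
    · have hc : Nat.Coprime r 2 := (Nat.coprime_primes hr Nat.prime_two).2 hr2
      simp only [Multiset.insert_eq_cons, Multiset.lcm_cons, Multiset.lcm_singleton, normalize_eq]
      have : lcm 2 2 = 2 := by decide
      rw [this, mul_comm]
      exact hc.lcm_eq_mul

end Cfsg.Agent.S2467
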