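import Cfsg.Statements.S2471
import Cfsg.Agent.Lib.SL2Elt.Order
-- import your own Cfsg.Agent.* helpers here

set_option autoImplicit false
open Cfsg

namespace Cfsg.Agent.S2471

/-- In PSL(2,q) with q odd, the characteristic p is isolated from 2 in the prime graph: for F a finite field of odd characteristic p with at least 5 elements, PSL(2,F) has no element of order 2p. -/
theorem result {F : Type*} [Field F] [Fintype F] (p : ℕ) [Fact p.Prime] [CharP F p] (hp : p ≠ 2) (h5 : 5 ≤ Fintype.card F) (g : Matrix.ProjectiveSpecialLinearGroup (Fin 2) F) :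
    orderOf g ≠ 2 * p := by
  intro h
  obtain ⟨g, rfl⟩ := H64.SL2.proj_surjective g
  have hp' : p.Prime := Fact.out
  have hq := H64.SL2.char_dvd_card (F := F) p
  change orderOf (H64.SL2.proj g) = _ at h
  by_cases ht : H64.SL2.tr g ^ 2 = 4
  · have h1 := H64.SL2.orderOf_proj_dvd_iff.2 (H64.SL2.pow_char_mem_center p ht)
    rw [h] at h1
    have := Nat.le_of_dvd hp'.pos h1
    have := hp'.pos
    omega
  · have h1 : p ∣ orderOf g := (Dvd.intro_left 2 h.symm).trans (orderOf_map_dvd _ g)
    by_cases hs : H64.SL2.Split g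
    · have h3 := h1.trans (orderOf_dvd_of_pow_eq_one (H64.SL2.pow_eq_one_of_split ht hs))
      rw [Nat.card_eq_fintype_card] at h3
      have h4 := Nat.dvd_sub hq h3
      rw [Nat.sub_sub_self (by omega)] at h4
      exact hp'.one_lt.ne' (Nat.dvd_one.1 h4)
    · have h3 := h1.trans (orderOf_dvd_of_pow_eq_one (H64.SL2.pow_eq_one_of_not_split hs))
      rw [Nat.card_eq_fintype_card] at h3
      exact hp'.one_lt.ne' (Nat.dvd_one.1 ((Nat.dvd_add_right hq).1 h3))

end Cfsg.Agent.S2471
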