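import Cfsg.Statements.S2474
import Cfsg.Agent.Lib.MatConj.OBlk

set_option autoImplicit false
open Cfsg

namespace Cfsg.Agent.S2474

open H65 Module Polynomial

section

universe v

variable {F : Type*} [Field F] [Fintype F] [DecidableEq F] [NeZero (2 : F)] (p : ℕ) [Fact p.Prime]
  [CharP F p] {n : ℕ}

include p in
omit [DecidableEq F] [Fintype F] in
theorem transfer {V : Type v} [AddCommGroup V] [Module F V] [FiniteDimensional F V] {f : End F V}
    {alt : Bool} (h : Pres alt f) {N : ℕ} (hN : Odd N) (hf : f ^ N = 1) :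
    ∃ (U : Type v) (_ : AddCommGroup U) (_ : Module F U) (_ : FiniteDimensional F U) (g : End F U)
      (k : ℕ), (∀ alt, Pres alt g) ∧ g ^ N = 1 ∧ finrank F U = 2 * k ∧ 2 * k ≤ finrank F V ∧
        ∀ j, finrank F V ≤ 2 * k + 2 * (j / 2) + 1 →
          orderOf f ∣ orderOf ((jb F j).prodMap g : End F (_ × U)) := by
  obtain ⟨U, U', _, _, _, _, _, _, u, g, e, -, b2, b3, b4, b5⟩ := h.split_one
  have h1 : g ^ N = 1 := by
    rw [← (e.pow N).eq_one_iff, ← one_smul F (1 : End F _), prodMap_pow_eq_smul_iff] at hf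
    exact hf.2.trans (one_smul _ _)
  have h2 := b2.swap (isUnit_sq_sub_one b4 (isUnit_add_one_of_odd two_ne_zero hN h1))
  obtain ⟨B, hB, -⟩ := h2 true
  obtain ⟨k, hk⟩ := hB.even_finrank
  refine ⟨U', _, _, ‹_›, g, k, h2, h1, by omega, by omega, fun j hj => ?_⟩
  rw [← e.orderOf_eq, orderOf_prodMap, orderOf_prodMap]
  refine lcm_dvd_lcm (orderOf_dvd_orderOf_jb p fun a ha => pow_eq_zero_of_le ?_
    (pow_finrank_eq_zero_of_isNilpotent b3)) dvd_rfl
  have := Nat.odd_iff.1 ((three_le_char (F := F) p).2.pow (n := a))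
  omega

include p in
theorem odd_iff (hn : 0 < n) {N : ℕ} (hN : Odd N) :
    N ∈ Set.range (orderOf : Cfsg.POmega F (Cfsg.quadFormOdd n F) → ℕ) ↔
      N ∈ Set.range (orderOf : Cfsg.PSp n F → ℕ) := by
  constructor
  · rw [mem_range_pomega_odd_iff hn]
    rintro ⟨A, δ, -, h, rfl⟩
    obtain ⟨U, _, _, _, g, k, h1, -, h3, h4, h5⟩ := transfer p h.pres hN (pow_orderOf_eq_one _)
    simp only [finrank_fintype_fun_eq_card, Fintype.card_sum, Fintype.card_fin,
      Fintype.card_unique] at h4 h5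
    refine ((pres_cyc_even (n - k)).prodMap (h1 true)).mem_range_psp (by
      rw [finrank_prod, finrank_adjoinRoot_X_pow]; omega) hn fun l c hc hl => ?_
    refine hN.coprime_two_right.dvd_of_dvd_mul_right ((h5 (2 * (n - k)) (by omega)).trans
      (orderOf_dvd_of_pow_eq_one ?_))
    rw [pow_mul _ l, hl, sq, smul_mul_smul_comm, hc, one_smul, one_mul]
  · rintro ⟨x, rfl⟩
    obtain ⟨A, rfl⟩ := QuotientGroup.mk_surjective x
    obtain ⟨c, hc⟩ := (psp_mk_pow_eq_one_iff A _).1 (pow_orderOf_eq_one _)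
    have : Nonempty (Fin n) := ⟨⟨0, hn⟩⟩
    obtain ⟨U, _, _, _, g, k, h1, h2, h3, h4, h5⟩ := transfer p (pres_symplectic (A ^ 2)) hN (by
      rw [SubmonoidClass.coe_pow, toLin'_pow', pow_right_comm, hc, sq, smul_mul_smul_comm,
        (pres_symplectic A).mul_self_eq_one hc, one_smul, one_mul])
    simp only [finrank_fintype_fun_eq_card, Fintype.card_sum, Fintype.card_fin] at h4 h5
    obtain ⟨δ, s, h⟩ := ((pres_cyc_odd two_ne_zero (n - k)).prodMap (h1 false)).exists_od
    obtain ⟨a, ha⟩ := exists_orderOf_unipotent p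
      (isNilpotent_cyc_add_one_sub_one (F := F) (2 * (n - k) + 1))
    have h6 := hN.mul ((three_le_char (F := F) p).2.pow (n := a))
    have h7 : ((jb F (2 * (n - k) + 1)).prodMap g : End F (_ × U)) ^
        (orderOf (A : Cfsg.PSp n F) * p ^ a) = 1 := by
      rw [prodMap_pow_eq_one_iff, pow_mul g, h2, pow_mul', ← ha, pow_orderOf_eq_one]
      simp
    obtain rfl := h.spin_eq_one h6 h7
    refine h.mem_range_pomega_odd (h.det_eq_one h6 h7) hn (by
      rw [finrank_prod, finrank_adjoinRoot_X_pow]; omega) (Dvd.dvd.trans ?_ (h5 _ (by omega)))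
    refine hN.coprime_two_right.dvd_of_dvd_mul_left (orderOf_psp_dvd (c := 1) ?_)
    rw [orderOf_toLin'_sp, one_smul, pow_mul, ← SubmonoidClass.coe_pow, ← SubmonoidClass.coe_pow,
      pow_orderOf_eq_one]
    rfl

theorem two_mul_char (hn : 2 ≤ n) :
    2 * p ∈ Set.range (orderOf : Cfsg.POmega F (Cfsg.quadFormOdd n F) → ℕ) ∧
      2 * p ∈ Set.range (orderOf : Cfsg.PSp n F → ℕ) := by
  have hc := (three_le_char (F := F) p).2.coprime_two_left
  constructor
  · obtain ⟨δ, h1, h2⟩ := od_jb (F := F) (n - 1)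
    refine (one_mul (1 : ℤˣ) ▸ (od_neg_one 1).1.prodMap h1).mem_range_pomega_odd (by
      rw [LinearMap.det_prodMap, h2, (od_neg_one 1).2, one_mul]) (by omega) (by
        rw [finrank_prod, finrank_adjoinRoot_X_pow]; simp; omega) ?_
    have := (prodMap_pow_eq_one_iff (-1 : End F (F × F)) (jb F (2 * (n - 1) + 1)) _).1
      (pow_orderOf_eq_one _)
    exact hc.mul_dvd_of_dvd_of_dvd (two_dvd_of_neg_one_pow this.1)
      (char_dvd_of_jb_pow p (by omega) this.2)
  · have := nontrivial_adjoinRoot_X_pow (F := F) (e := 2 * (n - 1)) (by omega)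
    refine ((pres_symplectic (1 : Matrix.symplecticGroup (Fin 1) F)).neg.prodMap
      (pres_cyc_even (n - 1))).mem_range_psp (by
        rw [finrank_prod, finrank_adjoinRoot_X_pow]; simp; omega) (by omega) fun k c _ hk => ?_
    rw [prodMap_pow_eq_smul_iff] at hk
    obtain rfl := unipotent_pow_eq_smul (isNilpotent_cyc_add_one_sub_one _) hk.2
    simp only [one_smul, OneMemClass.coe_one, Matrix.toLin'_one] at hk
    exact hc.mul_dvd_of_dvd_of_dvd (two_dvd_of_neg_one_pow hk.1)
      (char_dvd_of_jb_pow p (by omega) hk.2)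

/-- the arithmetic condition for `2 s` to be an element order -/
def P (q n s : ℕ) : Prop :=
  (∃ m D, 0 < m ∧ m < n ∧ (D = q ^ m - 1 ∨ D = q ^ m + 1) ∧ s ∣ D) ∨
    ∃ D, (D = q ^ n - 1 ∨ D = q ^ n + 1) ∧ 2 ∣ D ∧ 2 * s ∣ D / 2

variable {s : ℕ} (hs : s.Prime) (h2 : s ≠ 2) (hsp : s ≠ p) (hn : 0 < n)

include hs h2 hsp hn in
theorem omega_iff : 2 * s ∈ Set.range (orderOf : Cfsg.POmega F (Cfsg.quadFormOdd n F) → ℕ) ↔
    P (Fintype.card F) n s := by
  classical
  have ho := H12.odd_card_iff.2 (two_ne_zero (α := F))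
  constructor
  · rw [mem_range_pomega_odd_iff hn]
    rintro ⟨A, δ, hd, h, hA⟩
    have h3 : ∀ k, A ^ k = 1 → 2 * s ∣ k := fun k hk => hA ▸ orderOf_dvd_of_pow_eq_one (by
      rw [← toLin'_pow', hk, toLin'_eq_one_iff])
    obtain ⟨α, hα, a0⟩ := exists_ev_of_prime_dvd (AlgebraicClosure F) p h.pres.det_ne_zero hs hsp
      fun k hk => (dvd_mul_left _ _).trans (h3 k hk)
    obtain ⟨m, D, O, a1, a2, a3, a4⟩ := h.pres.exists_orb hα
      (mt orderOf_dvd_iff_pow_eq_one.2 (not_orderOf_dvd_two hs h2 a0))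
    by_cases hm : m < n
    · exact Or.inl ⟨m, D, a1.pos, hm, a1.eq, a0.trans (orderOf_dvd_of_pow_eq_one a1.pow)⟩
    simp only [Fintype.card_sum, Fintype.card_fin, Fintype.card_unique] at a3
    have a5 := Nat.le_mul_of_pos_right (2 * m) a4
    obtain rfl : m = n := by omega
    have a6 : (ev _ A).count α = 1 := by nlinarith
    obtain ⟨T, hT⟩ := Multiset.le_iff_exists_add.1 (nsmul_add_nsmul_le (fun γ h => (a2 γ h).ge)
      (O' := ∅) (c' := 0) (by simp) (by simp))
    rw [a6, one_smul, zero_smul, add_zero] at hT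
    have c4 := congrArg Multiset.card hT
    have c5 := congrArg Multiset.prod hT
    simp only [card_ev, Fintype.card_sum, Fintype.card_fin, Fintype.card_unique, Multiset.card_add,
      Finset.card_val, a1.card] at c4
    obtain ⟨γ, rfl⟩ := Multiset.card_eq_one.1 (show T.card = 1 by omega)
    obtain rfl : 1 = γ := by simpa [prod_ev, hd, a1.prod_eq_one] using c5
    have c6 := h.of_orb_one a1 (k := 1) hT
    rw [Units.val_one, Int.cast_one, one_mul] at c6
    have c7 := a1.two_dvd ho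
    have c8 := a1.D_pos Fintype.one_lt_card
    refine Or.inr ⟨D, a1.eq, c7, h3 _ ?_⟩
    simpa using pow_eq_smul_of_ev (L := AlgebraicClosure F) p (A := A) (J := 0) (c := 1)
      (M := D / 2) (by omega) (fun γ hγ => by
        rcases Multiset.mem_add.1 (hT ▸ hγ) with h | h
        exacts [by simpa using a1.pow_eq_one c6 h, by simp [Multiset.mem_singleton.1 h]])
      fun γ => by
        by_cases h : γ ∈ O
        · rw [a2 γ h, a6, pow_zero]
        · rw [hT, Multiset.count_add, Multiset.count_eq_zero.2 h, zero_add, pow_zero]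
          exact Multiset.count_le_card _ _
  · rintro (⟨m, D, h0, hm, hD, h⟩ | ⟨D, hD, h, h'⟩)
    · obtain ⟨t, δ, s', t1, t2, t3, -⟩ := exists_od_torus h0 hD
      obtain ⟨c, rfl⟩ := h
      have hc : c ≠ 0 := by
        rintro rfl
        have := Nat.one_lt_pow h0.ne' (Fintype.one_lt_card (α := F))
        omega
      have t4 : orderOf (Matrix.toLin' t ^ c) = s := by
        rw [orderOf_pow_of_dvd hc (t3 ▸ dvd_mul_left _ _), t3, Nat.mul_div_cancel _ hc.bot_lt]
      obtain ⟨δ', h1, h2'⟩ := od_jb (F := F) (n - m - 1)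
      have t5 := (t1.pow c).prodMap ((od_neg_one 1).1.prodMap h1)
      rw [(t1.pow c).spin_eq_one (hs.odd_of_ne_two h2) (t4 ▸ pow_orderOf_eq_one _), one_mul,
        one_mul] at t5
      refine t5.mem_range_pomega_odd (by
        rw [LinearMap.det_prodMap, LinearMap.det_prodMap, map_pow, t2, h2', (od_neg_one 1).2]; simp) hn
        (by rw [finrank_prod, finrank_prod, finrank_adjoinRoot_X_pow]; simp; omega) ?_
      rw [orderOf_prodMap, orderOf_prodMap, t4]
      exact ((Nat.coprime_primes Nat.prime_two hs).2 h2.symm).mul_dvd_of_dvd_of_dvd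
        (((two_dvd_of_neg_one_pow (pow_orderOf_eq_one _)).trans (Nat.dvd_lcm_left _ _)).trans
          (Nat.dvd_lcm_right _ _)) (Nat.dvd_lcm_left _ _)
    · obtain ⟨t, δ, s', t1, t2, t3, -⟩ := exists_od_torus hn hD
      have t5 := (t1.pow 2).prodMap (od_line 1)
      rw [Int.units_sq, one_mul] at t5
      refine t5.mem_range_pomega_odd (by rw [LinearMap.det_prodMap, map_pow, t2]; simp) hn
        (by rw [finrank_prod]; simp; omega) ?_
      rw [orderOf_prodMap, orderOf_pow_of_dvd two_ne_zero (t3 ▸ h), t3]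
      exact h'.trans (Nat.dvd_lcm_left _ _)

include hs h2 hsp hn in
omit [DecidableEq F] in
theorem psp_iff : 2 * s ∈ Set.range (orderOf : Cfsg.PSp n F → ℕ) ↔ P (Fintype.card F) n s := by
  classical
  have ho := H12.odd_card_iff.2 (two_ne_zero (α := F))
  have hc := (Nat.coprime_primes Nat.prime_two hs).2 h2.symm
  constructor
  · rintro ⟨x, hx⟩
    obtain ⟨A, rfl⟩ := QuotientGroup.mk_surjective x
    obtain ⟨α, hα, a0⟩ := exists_ev_of_prime_dvd (AlgebraicClosure F) p (det_sp_ne_zero A) hs hsp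
      fun k hk => (dvd_mul_left _ _).trans (hx ▸ orderOf_psp_dvd (c := 1) (by rw [hk, one_smul]))
    obtain ⟨m, D, O, a1, a2, a3, a4⟩ := (pres_symplectic A).exists_orb hα
      (mt orderOf_dvd_iff_pow_eq_one.2 (not_orderOf_dvd_two hs h2 a0))
    by_cases hm : m < n
    · exact Or.inl ⟨m, D, a1.pos, hm, a1.eq, a0.trans (orderOf_dvd_of_pow_eq_one a1.pow)⟩
    simp only [Fintype.card_sum, Fintype.card_fin] at a3
    have a5 := Nat.le_mul_of_pos_right (2 * m) a4
    obtain rfl : m = n := by omega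
    have a6 : (ev _ A.1).count α = 1 := by nlinarith
    have hT := eq_nsmul_of_card_le (fun γ h => (a2 γ h).ge) (by
      rw [card_ev, a1.card, a6]; simp [two_mul])
    rw [a6, one_smul] at hT
    have c7 := a1.two_dvd ho
    have c8 := a1.D_pos Fintype.one_lt_card
    obtain ⟨c, hc⟩ := a1.pow_half ho
    refine Or.inr ⟨D, a1.eq, c7, hx ▸ orderOf_psp_dvd (c := c) ?_⟩
    simpa using pow_eq_smul_of_ev (L := AlgebraicClosure F) p (A := A.1) (J := 0) (c := c)
      (M := D / 2) (by omega) (fun γ hγ => hc γ (by rwa [hT] at hγ))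
      fun γ => by rw [hT, pow_zero]; exact Multiset.nodup_iff_count_le_one.1 O.nodup γ
  · rintro (⟨m, D, h0, hm, hD, h⟩ | ⟨D, hD, h, h'⟩)
    · obtain ⟨t, ht⟩ := exists_sp_orderOf h0 le_rfl (hD.imp (· ▸ h) (· ▸ h))
      have : Nonempty (Fin (n - m)) := ⟨⟨0, by omega⟩⟩
      have : Nonempty (Fin m) := ⟨⟨0, h0⟩⟩
      refine ((pres_symplectic t).prodMap (pres_symplectic
        (1 : Matrix.symplecticGroup (Fin (n - m)) F)).neg).mem_range_psp (by
          rw [finrank_prod]; simp; omega) hn fun k c hc' hk => ?_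
      rw [prodMap_pow_eq_smul_iff] at hk
      have h3 : s ∣ k := hc.symm.dvd_of_dvd_mul_right (by
        rw [← ht, ← orderOf_toLin'_sp, orderOf_dvd_iff_pow_eq_one, pow_mul, hk.1, sq,
          smul_mul_smul_comm, hc', one_smul, one_mul])
      refine hc.mul_dvd_of_dvd_of_dvd (two_dvd_of_neg_one_pow (F := F)
        (V := Fin (n - m) ⊕ Fin (n - m) → F) ?_) h3
      rw [← ht, ← orderOf_toLin'_sp, orderOf_dvd_iff_pow_eq_one, hk.1] at h3
      obtain rfl : c = 1 := eq_one_of_isNilpotent_smul_one_sub_one (by rw [h3, sub_self]; simp)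
      simpa [← End.one_eq_id] using hk.2
    · obtain ⟨t, ht, -⟩ := exists_torus hn hD
      refine (pres_symplectic t).mem_range_psp (by simp [two_mul]) hn fun k c hc hk => h'.trans
        (Nat.div_dvd_iff_dvd_mul h two_pos |>.2 (ht ▸ orderOf_dvd_of_pow_eq_one ?_))
      rw [mul_comm, pow_mul, hk, sq, smul_mul_smul_comm, hc, one_smul, one_mul]

end


/-- For q odd and n ≥ 3 the simple groups PΩ(2n+1,q) and PSp(2n,q) (which have the same order but different sets of element orders) have the same prime graph: for all distinct primes r, s, one of them has an element of order r·s if and only if the other does. -/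
theorem result {F : Type*} [Field F] [Fintype F] (hodd : Odd (Fintype.card F)) (n : ℕ) (hn : 3 ≤ n) (r s : ℕ) (hr : r.Prime) (hs : s.Prime) (hrs : r ≠ s) :
    (r * s ∈ Set.range (orderOf : Cfsg.POmega F (Cfsg.quadFormOdd n F) → ℕ)) ↔ (r * s ∈ Set.range (orderOf : Cfsg.PSp n F → ℕ)) := by
  classical
  obtain ⟨p, _⟩ := CharP.exists F
  have := Fact.mk (CharP.char_is_prime F p)
  have : NeZero (2 : F) := ⟨H12.two_ne_zero_of_odd hodd⟩
  wlog h : s ≠ 2 generalizing r s
  · rw [mul_comm]
    exact this s r hs hr hrs.symm (by omega)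
  by_cases h' : r = 2
  · subst h'
    by_cases h'' : s = p
    · subst h''
      exact iff_of_true (two_mul_char s (by omega)).1 (two_mul_char s (by omega)).2
    · rw [omega_iff p hs h h'' (by omega), psp_iff p hs h h'' (by omega)]
  · exact odd_iff p (by omega) ((hr.odd_of_ne_two h').mul (hs.odd_of_ne_two h))

end Cfsg.Agent.S2474
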