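import Cfsg.Statements.S2487
import Mathlib
import Cfsg.Agent.Lib.Small30.SylMeet

set_option autoImplicit false
open scoped Pointwise
open Cfsg

namespace Cfsg.Agent.S2487

/-- Let m ≥ 4 and let G be the full isometry group of the hyperbolic quadratic form x₁y₁ + ⋯ + x_m y_m on the 2m-dimensional space over the field with 2 elements (the orthogonal group O⁺(2m,2), which contains Ω⁺(2m,2) with index 2). Then any two Sylow 2-subgroups of G have a non-trivial intersection: for a Sylow 2-subgroup H and every x ∈ G, H ∩ H^x ≠ 1. -/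
theorem result {F : Type*} [Field F] [Fintype F] (hF : Fintype.card F = 2) {m : ℕ} (hm : 4 ≤ m)
    (H : Sylow 2 (Cfsg.isometryGroup F (Cfsg.quadFormPlus m F)))
    (x : Cfsg.isometryGroup F (Cfsg.quadFormPlus m F)) :
    (H : Subgroup (Cfsg.isometryGroup F (Cfsg.quadFormPlus m F))) ⊓ MulAut.conj x • (H : Subgroup _) ≠ ⊥ := by
  classical
  obtain ⟨k, rfl⟩ : ∃ k, m = k + 2 := ⟨m - 2, by omega⟩
  have hK : ∀ c : F, c ≠ 0 → c = 1 := fun c hc => by
    have := FiniteField.pow_card_sub_one_eq_one c hc
    rwa [hF, pow_one] at this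
  have h2 : (2 : F) = 0 := by
    have := FiniteField.cast_card_eq_zero F
    rw [hF] at this
    exact_mod_cast this
  haveI : CharP F 2 := CharTwo.of_one_ne_zero_of_two_eq_zero one_ne_zero h2
  have hG : H12.Good (H12.QPlus F (k + 2)) :=
    H12.good_of_finrank_ne (H12.nondeg_QPlus _) (by rw [H12.finrank_plus]; omega)
  have hidx : (commutator (Cfsg.isometryGroup F (Cfsg.quadFormPlus (k + 2) F))).index = 2 := by
    have h := H12.index_Om_even (H12.nondeg_QPlus (F := F) (k + 2)) hG h2
      (by rw [H12.finrank_plus]; omega)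
    refine Eq.trans ?_ h
    rw [← Subgroup.index_map_equiv _ (H12.plusIso F (k + 2))]
    congr 1
    rw [commutator_def, Subgroup.map_commutator,
      Subgroup.map_top_of_surjective _ (H12.plusIso F (k + 2)).surjective]
    rfl
  exact H30.SylMeet.meet _ hidx
    ((H62.LB.sbnElts 2 ((H62.CC.TD.smD k).grp_faith F) ((H62.CC.TD.smD k).grp_top F)
      ((H62.CC.TD.smD k).grp_R3 F)).congr (H62.CC.TD.omegaEquiv hG))
    (H30.SylMeet.congr_le _ _ (H30.SylMeet.B_le_U hK _ _ _)) H x

end Cfsg.Agent.S2487
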