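import Cfsg.Statements.S2493
import Cfsg.Agent.Lib.AltCov.Mult

set_option autoImplicit false
open Cfsg

namespace Cfsg.Agent.S2493

open Subgroup H40.Alt Equiv Equiv.Perm H72.AC
open scoped commutatorElement

section
variable {α : Type*} [DecidableEq α] [Fintype α]

theorem fac (n : ℕ) : ∀ (g : Perm α) (y : α), g.support.card = n → ∃ s t : Perm α, s * s = 1 ∧
    t * t = 1 ∧ g = s * t ∧ s y = y ∧ (∀ z, g z = z → s z = z ∧ t z = z) ∧
      t.support.card = s.support.card + if sign g = 1 then 0 else 2 := by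
  induction n using Nat.strong_induction_on with | _ n ih => ?_
  rintro g y rfl
  by_cases h1 : g = 1
  · exact ⟨1, 1, by simp [h1]⟩
  wlog hy : g y ≠ y generalizing y
  · obtain ⟨x, hx⟩ := not_forall.1 fun h => h1 (Equiv.ext h)
    obtain ⟨s, t, h1, h2, h3, -, h4, h5⟩ := this x hx
    exact ⟨s, t, h1, h2, h3, (h4 y (not_not.1 hy)).1, h4, h5⟩
  have hw : g⁻¹ y ≠ y := fun e => hy (inv_eq_iff_eq.1 e).symm
  obtain ⟨a, b, ha, hb, e, h2, h3, h4⟩ := ih _ (support_inv g ▸ card_support_swap_mul hw)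
    (swap y (g⁻¹ y) * g⁻¹) (g⁻¹ y) rfl
  obtain ⟨h5, h6⟩ := h3 y (by simp)
  have hd : Disjoint a (swap y (g⁻¹ y)) := fun z => by
    by_cases e1 : z = y
    · exact .inl (e1 ▸ h5)
    by_cases e2 : z = g⁻¹ y
    exacts [.inl (e2 ▸ h2), .inr (swap_apply_of_ne_of_ne e1 e2)]
  refine ⟨b, a * swap y (g⁻¹ y), hb, ?_, ?_, h6, fun z hz => ?_, ?_⟩
  · rw [mul_assoc, ← mul_assoc _ a, ← hd.commute.eq, mul_assoc, swap_mul_self, mul_one, ha]
  · rw [← inv_inj, ← mul_assoc, mul_inv_rev, mul_inv_rev, inv_eq_of_mul_eq_one_left ha,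
      inv_eq_of_mul_eq_one_left hb, ← e, swap_inv, swap_mul_self_mul]
  · have e1 : z ≠ y := fun e => hy (e ▸ hz)
    have e2 : z ≠ g⁻¹ y := fun e => e1 (hz.symm.trans (eq_inv_iff_eq.1 e))
    have := h3 z (by rw [mul_apply, inv_eq_iff_eq.2 hz.symm, swap_apply_of_ne_of_ne e1 e2])
    exact ⟨this.2, by rw [mul_apply, swap_apply_of_ne_of_ne e1 e2, this.1]⟩
  · rw [hd.card_support_mul, card_support_swap hw.symm, h4, map_mul, sign_swap hw.symm, sign_inv]
    rcases Int.units_eq_one_or (sign g) with h | h <;> simp [h]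

theorem ct_eq {s t : Perm α} (hs : s * s = 1) (ht : t * t = 1)
    (h : s.support.card = t.support.card) : s.cycleType = t.cycleType := by
  have h1 := cycleType_of_pow_prime_eq_one (p := 2) ((sq s).trans hs)
  have h2 := cycleType_of_pow_prime_eq_one (p := 2) ((sq t).trans ht)
  rw [← sum_cycleType, ← sum_cycleType, h1, h2, Multiset.sum_replicate,
    Multiset.sum_replicate] at h
  rw [h1, h2, Nat.eq_of_mul_eq_mul_right two_pos h]

theorem four {s : Perm α} (h : sign s = 1) (h1 : s ≠ 1) :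
    ∃ i k, s i ≠ i ∧ s k ≠ k ∧ k ≠ i ∧ k ≠ s i := by
  obtain ⟨i, hi⟩ := not_forall.1 fun e => h1 (Equiv.ext e)
  by_contra! hc
  have : s.support ⊆ {i, s i} := fun k hk => by
    by_cases e : k = i
    exacts [by simp [e], by simp [← hc i k hi (mem_support.1 hk) e]]
  have := (card_support_eq_two.1 (le_antisymm ((Finset.card_le_card this).trans Finset.card_le_two)
    (two_le_card_support_of_ne_one h1))).sign_eq
  rw [h] at this
  exact absurd this (by decide)

theorem split {s : Perm α} (hs : s * s = 1) {p q : α} (hp : s p = p) (hq : s q ≠ q) :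
    ∃ u : Perm α, u * u = 1 ∧ s = u * swap q (s q) ∧ u p = p ∧ u q = q ∧ u (s q) = s q ∧
      s.support.card = u.support.card + 2 ∧ (s * swap p q).cycleType = u.cycleType + {3} := by
  have h0 : s (s q) = q := by rw [← mul_apply, hs, one_apply]
  have h1 : p ≠ q := fun e => hq (e ▸ hp)
  have h2 : p ≠ s q := fun e => h1 (s.injective (hp.trans e))
  have e1 : (s * swap q (s q)) p = p := by rw [mul_apply, swap_apply_of_ne_of_ne h1 h2, hp]
  have e2 : (s * swap q (s q)) q = q := by simp [h0]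
  have e3 : (s * swap q (s q)) (s q) = s q := by simp
  have e4 : s = s * swap q (s q) * swap q (s q) := (mul_swap_mul_self ..).symm
  have e5 : s * swap q (s q) * (s * swap q (s q)) = 1 := by
    conv_lhs => lhs; rw [mul_swap_eq_swap_mul, h0]
    rw [mul_assoc, ← mul_assoc s, hs, one_mul, swap_comm, swap_mul_self]
  generalize s * swap q (s q) = u at *
  generalize s q = r at *
  subst e4
  have d1 : Disjoint u (swap q r) := fun z => by grind
  have d2 : Disjoint u (swap q r * swap q p) := fun z => by rw [mul_apply]; grind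
  refine ⟨u, e5, rfl, e1, e2, e3, ?_, ?_⟩
  · rw [d1.card_support_mul, card_support_swap hq.symm]
  · rw [mul_assoc, swap_comm p, d2.cycleType_mul,
      (isThreeCycle_swap_mul_swap_same hq.symm h1.symm h2.symm).cycleType]

omit [Fintype α] in
theorem klein {q r p w : α} (_ : q ≠ r) (_ : q ≠ p) (_ : q ≠ w) (_ : r ≠ p) (_ : r ≠ w)
    (_ : p ≠ w) : swap q r * swap p w = swap q p * swap r w * (swap r p * swap q w) := by
  ext z
  simp only [mul_apply]
  grind

theorem good (h5 : 5 ≤ Fintype.card α) {g : Perm α} (hg : sign g = 1) : ∃ a y : Perm α, ∃ i k,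
    sign a = 1 ∧ a i ≠ i ∧ a (a i) = i ∧ a k ≠ k ∧ a (a k) = k ∧ k ≠ i ∧ k ≠ a i ∧
      g = a * y * a⁻¹ * y⁻¹ := by
  have pt : ∀ a b c d : α, ∃ u, u ≠ a ∧ u ≠ b ∧ u ≠ c ∧ u ≠ d := fun a b c d => by
    obtain ⟨u, -, hu⟩ := Finset.exists_mem_notMem_of_card_lt_card (s := {a, b, c, d})
      (t := .univ) (Finset.card_le_four.trans_lt h5)
    exact ⟨u, by simpa only [Finset.mem_insert, Finset.mem_singleton, not_or] using hu⟩
  have dt : ∀ {i j k l : α} {y : Perm α}, i ≠ j → k ≠ l → k ≠ i → k ≠ j → l ≠ i → l ≠ j →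
      g = swap i j * swap k l * (swap (y k) (y l) * swap (y i) (y j)) → _ :=
    fun {i j k l y} _ _ _ _ _ _ h => (⟨swap i j * swap k l, y, i, k, by simp [*], by
      simp only [mul_apply]
      refine ⟨by grind, by grind, by grind, by grind, ‹_›, by grind, h.trans ?_⟩
      simp only [swap_apply_apply, mul_inv_rev, swap_inv]
      group⟩ : ∃ a y : Perm α, ∃ i k, sign a = 1 ∧ a i ≠ i ∧ a (a i) = i ∧ a k ≠ k ∧
        a (a k) = k ∧ k ≠ i ∧ k ≠ a i ∧ g = a * y * a⁻¹ * y⁻¹)
  by_cases h1 : g = 1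
  · obtain ⟨i⟩ := Fintype.card_pos_iff.1 (by omega : 0 < Fintype.card α)
    obtain ⟨j, -, -, -, _⟩ := pt i i i i
    obtain ⟨k, -, -, _, _⟩ := pt i i i j
    obtain ⟨l, -, _, _, _⟩ := pt i i j k
    exact dt (i := i) (j := j) (k := k) (l := l) (y := 1) (by grind) (by grind) ‹_› ‹_› ‹_› ‹_›
      (by simp [h1, mul_assoc])
  obtain ⟨p, hp⟩ := not_forall.1 fun e => h1 (Equiv.ext e)
  obtain ⟨s, t, hs, ht, rfl, sp, -, hc⟩ := fac _ g p rfl
  rw [if_pos hg, add_zero] at hc
  have tp : t p ≠ p := fun e => hp (by rw [mul_apply, e, sp, one_apply])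
  obtain ⟨q, sq, tq⟩ := Finset.not_subset.1 fun h : s.support ⊆ t.support =>
    mem_support.1 (Finset.eq_of_subset_of_card_le h hc.le ▸ mem_support.2 tp) sp
  rw [notMem_support] at tq
  rw [mem_support] at sq
  have inv : ∀ {s : Perm α}, s * s = 1 → ∀ i, s (s i) = i := fun h i => by
    rw [← mul_apply, h, one_apply]
  rcases Int.units_eq_one_or (sign s) with h | h
  · obtain ⟨i, k, h0, h2, h3, h4⟩ := four h fun e => sq (by rw [e, one_apply])
    obtain ⟨y, rfl⟩ := isConj_iff.1 (isConj_iff_cycleType_eq.2 (ct_eq hs ht hc.symm))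
    exact ⟨s, y, i, k, h, h0, inv hs i, h2, inv hs k, h3, h4, by
      rw [inv_eq_of_mul_eq_one_left hs]; group⟩
  obtain ⟨u, hu, eu, u1, u2, u3, u4, u5⟩ := split hs sp sq
  obtain ⟨v, hv, ev, v1, v2, v3, v4, v5⟩ := split ht tq tp
  have pq : p ≠ q := fun e => sq (e ▸ sp)
  by_cases h2 : u = 1
  · obtain rfl : v = 1 := by
      rw [h2, support_one] at u4
      exact card_support_eq_zero.1 (by rw [Finset.card_empty] at u4; omega)
    have e1 : p ≠ s q := fun e => pq (s.injective (sp.trans e))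
    have e2 : q ≠ t p := fun e => pq (t.injective (tq.trans e)).symm
    rw [h2] at eu
    rw [one_mul] at eu ev
    by_cases e : t p = s q
    · obtain ⟨k, -, k1, k2, k3⟩ := pt p p q (s q)
      obtain ⟨l, l1, l2, l3, l4⟩ := pt p q (s q) k
      refine dt (y := swap p q) sq.symm l4.symm k2 k3 l2 l3 ?_
      rw [swap_apply_of_ne_of_ne k1 k2, swap_apply_of_ne_of_ne l1 l2, swap_apply_right,
        swap_apply_of_ne_of_ne e1.symm sq, mul_assoc, swap_mul_self_mul, ← eu, ← e, ← ev]
    · refine dt (y := swap p (t p)) pq.symm (Ne.symm e) sq e1.symm e2.symm tp ?_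
      rw [swap_apply_left, swap_apply_right, swap_apply_of_ne_of_ne pq.symm e2,
        swap_apply_of_ne_of_ne e1.symm (Ne.symm e), ← klein sq.symm pq.symm e2 e1.symm (Ne.symm e) tp.symm,
        ← eu, ← ev]
  have su : sign u = 1 := by
    rw [eu, map_mul, sign_swap sq.symm] at h
    simpa using h
  obtain ⟨i, k, h1, h2, h3, h4⟩ := four su h2
  obtain ⟨y, hy⟩ := isConj_iff.1 (isConj_iff_cycleType_eq.2 (u5.trans
    ((congrArg (· + {3}) (ct_eq hu hv (by omega))).trans v5.symm)))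
  have key : ∀ i, u i ≠ i → (s * swap p q) i = u i := fun i hi => by
    rw [eu, mul_apply, mul_apply, swap_apply_of_ne_of_ne, swap_apply_of_ne_of_ne] <;> grind
  have k2 : ∀ i, u i ≠ i → (s * swap p q) ((s * swap p q) i) = i := fun i hi => by
    rw [key i hi, key _ fun e => hi (u.injective e), inv hu]
  refine ⟨s * swap p q, y, i, k, by simp [h, pq], key i h1 ▸ h1, k2 i h1, key k h2 ▸ h2, k2 k h2,
    h3, key i h1 ▸ h4, ?_⟩
  rw [mul_assoc, mul_assoc, ← mul_assoc y, ← conj_inv, hy, mul_inv_rev, swap_inv,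
    inv_eq_of_mul_eq_one_left ht, swap_comm q, mul_assoc, swap_mul_self_mul]

end

theorem comm_cent {G : Type*} [Group G] {a b c d : G} (hc : c ∈ center G) (hd : d ∈ center G) :
    ⁅c * a, d * b⁆ = ⁅a, b⁆ := by
  have e : ∀ {c : G}, c ∈ center G → ∀ x, c * x * c⁻¹ = x := fun h x => by
    rw [← mem_center_iff.1 h, mul_inv_cancel_right]
  calc ⁅c * a, d * b⁆ = c * (a * d * a⁻¹ * (a * b * a⁻¹)) * c⁻¹ * b⁻¹ * d⁻¹ := by group
    _ = d * ⁅a, b⁆ * d⁻¹ := by rw [e hc, mem_center_iff.1 hd a]; group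
    _ = _ := e hd _

theorem v4 {α : Type*} [DecidableEq α] {i j k l : α} {a : Perm α} (_ : j ≠ i) (_ : l ≠ k)
    (_ : k ≠ i) (_ : k ≠ j) (_ : l ≠ i) (_ : l ≠ j) (_ : a i = j) (_ : a j = i) (_ : a k = l)
    (_ : a l = k) : ⁅swap j k * swap j l, swap i j * swap k l⁆ = swap i k * swap j l ∧
      Commute (swap i j * swap k l) (swap i k * swap j l) ∧ (swap i j * swap k l) ^ 2 = 1 ∧
      Disjoint (swap i j * swap k l * a) (swap j k * swap j l) ∧
      Disjoint (swap i j * swap k l * a) (swap i j * swap k l) := by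
  refine ⟨Equiv.ext fun z => ?_, Equiv.ext fun z => ?_, Equiv.ext fun z => ?_, fun z => ?_,
    fun z => ?_⟩ <;>
  simp only [commutatorElement_def, mul_inv_rev, swap_inv, sq, mul_apply, one_apply] <;> grind (splits := 40)

theorem sq_ne {ι : Type} [DecidableEq ι] [Fintype ι] {H : Type*} [Group H] (π : H →* AA ι)
    (hs : Function.Surjective π) (hk : π.ker = center H) (h2 : ∀ c ∈ center H, c ^ 2 = 1)
    (hp : commutator H = ⊤) (hZ : center H ≠ ⊥) {x : H} (h1 : (π x).1.cycleType = {2, 2}) :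
    x ^ 2 ≠ 1 := fun hx2 => by
  choose a ha using fun i => hs (xa i)
  have h3 : ∀ i, (a i ^ 4) ^ 3 = 1 := fun i => by
    have : a i ^ 3 ∈ π.ker := by rw [MonoidHom.mem_ker, map_pow, ha, xa_pow_three]
    rw [← pow_mul, show 4 * 3 = 3 * 2 * 2 from rfl, pow_mul, pow_mul, h2 (a i ^ 3) (hk ▸ this),
      one_pow]
  have h4 : ∀ i, π (a i ^ 4) = xa i := fun i => by rw [map_pow, ha, pow_succ, xa_pow_three, one_mul]
  obtain ⟨φ, hφ⟩ := carm_hom (fun i => a i ^ 4) h3 fun i j hij => by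
    have h5 : xp i * xp j = swap (.inl i) (.inr false) * swap (.inl j) (.inr true) := by
      ext k
      simp only [xp, mul_apply]
      grind
    obtain ⟨r, hr⟩ := isConj_iff.1 (isConj_iff_cycleType_eq.2 (h1.trans
      (cycleType_swap_mul_swap_of_nodup (x := .inl i) (y := .inr false) (z := .inl j)
        (t := .inr true) (by simp [hij])).symm))
    obtain ⟨s, hs'⟩ : ∃ s : AA ι, s * π x * s⁻¹ = xa i * xa j := by
      rcases Int.units_eq_one_or (sign r) with h | h
      · exact ⟨⟨r, h⟩, Subtype.ext (hr.trans h5.symm)⟩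
      · refine ⟨⟨swap (.inl i) (.inr false) * r, by simp [h]⟩, Subtype.ext ?_⟩
        change swap _ _ * r * (π x).1 * (swap _ _ * r)⁻¹ = xp i * xp j
        rw [mul_inv_rev, mul_assoc, mul_assoc, ← mul_assoc _ r⁻¹, ← mul_assoc r, ← mul_assoc r, hr,
          h5]
        ext k
        simp only [mul_apply, swap_inv]
        grind
    obtain ⟨g, rfl⟩ := hs s
    have h6 : (g * x * g⁻¹)⁻¹ * (a i ^ 4 * a j ^ 4) ∈ center H := hk ▸ (by
      rw [MonoidHom.mem_ker, map_mul, map_inv, map_mul, map_mul, map_inv, hs', map_mul, h4, h4,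
        inv_mul_cancel])
    have h7 : Commute (g * x * g⁻¹) _ := mem_center_iff.1 h6 _
    rw [← mul_inv_cancel_left (g * x * g⁻¹) (a i ^ 4 * a j ^ 4), h7.mul_pow, h2 _ h6, conj_pow, hx2]
    group
  have hid : ∀ s, π (φ s) = s := DFunLike.congr_fun (hom_ext (φ := π.comp φ) (ψ := .id _) fun i => by
    rw [MonoidHom.comp_apply, hφ, h4]; rfl)
  have hc : ∀ g, g * (φ (π g))⁻¹ ∈ center H := fun g => by
    rw [← hk, MonoidHom.mem_ker, map_mul, map_inv, hid, mul_inv_cancel]
  have : commutator H ≤ φ.range := commutator_le.2 fun g _ h _ => ⟨⁅π g, π h⁆, by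
    rw [map_commutatorElement, ← comm_cent (hc g) (hc h), inv_mul_cancel_right,
      inv_mul_cancel_right]⟩
  refine hZ (eq_bot_iff.2 fun z hz => ?_)
  obtain ⟨s, rfl⟩ := this (hp ▸ mem_top z)
  rw [← hk, MonoidHom.mem_ker, hid] at hz
  rw [hz, map_one]
  exact one_mem _


/-- Let n ≥ 5 and let G be a finite perfect group whose centre has order 2 with G/Z(G) isomorphic to the alternating group of degree n (the double cover of the alternating group). Then every element of G is a commutator. -/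
theorem result {G : Type*} [Group G] [Finite G] (hperf : commutator G = ⊤) {n : ℕ} (hn : 5 ≤ n)
    (hZ : Nat.card (Subgroup.center G) = 2) (e : G ⧸ Subgroup.center G ≃* alternatingGroup (Fin n))
    (g : G) :
    ∃ a b : G, a * b * a⁻¹ * b⁻¹ = g := by
  obtain ⟨m, rfl⟩ : ∃ m, n = m + 2 := ⟨n - 2, by omega⟩
  let π : G →* AA (Fin m) := (e.trans (aaEquiv m).symm).toMonoidHom.comp (QuotientGroup.mk' _)
  have hs : Function.Surjective π :=
    (e.trans (aaEquiv m).symm).surjective.comp (QuotientGroup.mk'_surjective _)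
  have hk : π.ker = center G := by
    rw [← MonoidHom.comap_ker, (MonoidHom.ker_eq_bot_iff _).2 (MulEquiv.injective _),
      MonoidHom.comap_bot, QuotientGroup.ker_mk']
  have h2 : ∀ c ∈ center G, c ^ 2 = 1 := fun c hc =>
    congrArg Subtype.val (hZ ▸ pow_card_eq_one' (x := (⟨c, hc⟩ : center G)))
  have hne := fun x => sq_ne π hs hk h2 hperf (fun h => by simp [h] at hZ) (x := x)
  obtain ⟨a, y, i, k, ha, h1, h3, h4, h5, h6, h7, hg⟩ := good (by simpa using hn) (π g).2
  have h8 : a k ≠ i := fun e => h7 (by rw [← e, h5])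
  have h9 : a k ≠ a i := fun e => h6 (a.injective e)
  generalize hj : a i = j at *
  generalize hl : a k = l at *
  wlog hy : sign y = 1 generalizing y
  · refine this (y * swap i j) (hg.trans ?_) (by
      simp [h1.symm, (Int.units_eq_one_or _).resolve_left hy])
    have : swap i j * a⁻¹ * swap i j = a⁻¹ := by
      rw [← inv_inj, mul_inv_rev, mul_inv_rev, swap_inv, inv_inv, mul_swap_eq_swap_mul a, hj, h3,
        swap_comm j, swap_mul_self_mul]
    rw [mul_inv_rev, swap_inv]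
    conv_lhs => rw [← this]
    group
  obtain ⟨Y, hY⟩ := hs ⟨y, hy⟩
  obtain ⟨A, hA⟩ := hs ⟨swap i j * swap k l * a, by simp [ha, h1.symm, h4.symm]⟩
  obtain ⟨X, hX⟩ := hs ⟨swap i j * swap k l, by simp [h1.symm, h4.symm]⟩
  obtain ⟨U, hU⟩ := hs ⟨swap j k * swap j l, by simp [h7.symm, h9.symm]⟩
  obtain ⟨v1, v2, v3, v5, v6⟩ := v4 h1 h4 h6 h7 h8 h9 hj h3 hl h5
  have hc : ∀ {x y}, π x * π y = π y * π x → ⁅x, y⁆ ∈ center G := fun h => by
    rw [← hk, MonoidHom.mem_ker, map_commutatorElement, commutatorElement_eq_one_iff_mul_comm, h]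
  have hC : (π ⁅U, X⁆).1 = swap i k * swap j l := by rw [map_commutatorElement, hU, hX, ← v1]; rfl
  have c1 : Commute A ⁅U, X⁆ := (mem_centralizer_singleton_iff.1 (commutator_le_cent
    (K := (centralizer {π A}).comap π) (fun k hk => hc (mem_centralizer_singleton_iff.1 hk))
    (commutator_mem_commutator
      (mem_centralizer_singleton_iff.2 (by rw [hU, hA]; exact Subtype.ext v5.commute.symm))
      (mem_centralizer_singleton_iff.2 (by rw [hX, hA]; exact Subtype.ext v6.commute.symm))))).symm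
  have c2 : ⁅X * A, ⁅U, X⁆⁆ ∈ center G := hc (by
    rw [map_mul]
    exact (Commute.mul_left (Subtype.ext (by rw [Subgroup.coe_mul, Subgroup.coe_mul, hX, hC]; exact v2))
      (c1.map π)).eq)
  have c3 : ⁅X * A, ⁅U, X⁆⁆ ≠ 1 := fun h => by
    have h : Commute X ⁅U, X⁆ := by
      simpa using (commutatorElement_eq_one_iff_commute.1 h).mul_left c1.inv_left
    have h' : Commute (U * X * U⁻¹) X⁻¹ := by
      simpa [commutatorElement_def] using (h.mul_right (Commute.refl X)).symm.inv_right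
    have hX2 : X ^ 2 ∈ center G := by
      rw [← hk, MonoidHom.mem_ker, map_pow, hX]
      exact Subtype.ext v3
    refine hne _ (hC ▸ cycleType_swap_mul_swap_of_nodup (by simp [Ne.symm, *])) ?_
    rw [commutatorElement_def, h'.mul_pow, conj_pow, mem_center_iff.1 hX2 U]
    group
  have c4 : g * ⁅X * A, Y⁆⁻¹ ∈ center G := by
    rw [← hk, MonoidHom.mem_ker, map_mul, map_inv, mul_inv_eq_one, map_commutatorElement, map_mul,
      hX, hA, hY]
    refine Subtype.ext (hg.trans ?_)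
    change _ = ⁅swap i j * swap k l * (swap i j * swap k l * a), y⁆
    rw [← mul_assoc, ← sq, v3, one_mul, commutatorElement_def]
  by_cases h : g * ⁅X * A, Y⁆⁻¹ = 1
  · exact ⟨_, _, (mul_inv_eq_one.1 h).symm⟩
  obtain ⟨z, -, hz⟩ := (Nat.card_eq_two_iff' (1 : center G)).1 hZ
  have := congrArg Subtype.val ((hz ⟨_, c4⟩ fun e => h (congrArg Subtype.val e)).trans
    (hz ⟨_, c2⟩ fun e => c3 (congrArg Subtype.val e)).symm)
  refine ⟨X * A, Y * ⁅U, X⁆, Eq.trans ?_ (mul_inv_eq_iff_eq_mul.1 this).symm⟩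
  dsimp only
  clear this
  generalize X * A = a, ⁅U, X⁆ = c at c2
  calc _ = a * Y * a⁻¹ * ⁅a, c⁆ * Y⁻¹ := by group
    _ = _ := by rw [mem_center_iff.1 c2]; group

end Cfsg.Agent.S2493
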