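import Cfsg.Statements.S2495
import Cfsg.Agent.Lib.MatConj.PSLIrr
import Cfsg.Agent.Lib.Zsig.Basic

set_option autoImplicit false
open Cfsg

namespace Cfsg.Agent.S2495

open H65 Polynomial

theorem gcd_dvd_iff {m N : ℕ} (hm : m ≠ 0) (hN : N ≠ 0) :
    (2 * m).gcd N ∣ m ↔ padicValNat 2 N < padicValNat 2 (2 * m) := by
  rw [← Nat.factorization_le_iff_dvd (Nat.gcd_ne_zero_right hN) hm,
    Nat.factorization_gcd (by omega) hN, Nat.factorization_mul two_ne_zero hm,
    ← Nat.factorization_def _ Nat.prime_two, ← Nat.factorization_def _ Nat.prime_two,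
    Nat.factorization_mul two_ne_zero hm, Nat.prime_two.factorization]
  refine ⟨fun h => ?_, fun h r => ?_⟩
  · have := h 2
    simp only [Finsupp.inf_apply, Finsupp.add_apply, Finsupp.single_eq_same] at this ⊢
    omega
  · simp only [Finsupp.inf_apply, Finsupp.add_apply, Finsupp.single_eq_same, Finsupp.single_apply] at h ⊢
    split_ifs with h2
    · subst h2; omega
    · omega


/-- Let q be an odd prime power, n ≥ 4 even, and L = PSL(n,q). Then L has an element of order q^(n/2) + 1 if and only if the 2-part of n exceeds the 2-part of q − 1. -/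
theorem result {F : Type*} [Field F] [Fintype F] {q : ℕ} (hF : Fintype.card F = q) (hodd : Odd q)
    {n : ℕ} (hn : 4 ≤ n) (heven : Even n) :
    (∃ g : Matrix.ProjectiveSpecialLinearGroup (Fin n) F, orderOf g = q ^ (n / 2) + 1) ↔
      padicValNat 2 (q - 1) < padicValNat 2 n := by
  subst hF
  obtain ⟨m, rfl⟩ := heven
  rw [← two_mul] at *
  rw [Nat.mul_div_cancel_left _ two_pos]
  have hq := Fintype.one_lt_card (α := F)
  have hsum : ∑ i ∈ Finset.range (2 * m), Fintype.card F ^ i =
      (Fintype.card F ^ m + 1) * ∑ i ∈ Finset.range m, Fintype.card F ^ i := by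
    rw [two_mul, Finset.sum_range_add, add_mul, one_mul, Finset.mul_sum, add_comm]
    simp only [pow_add]
  have hd : (2 * m).gcd (Fintype.card F - 1) ∣ ∑ i ∈ Finset.range (2 * m), Fintype.card F ^ i :=
    gcd_geom_sum hq.le (2 * m) ▸ Nat.gcd_dvd_left _ _
  have key : Fintype.card F ^ m + 1 ∣ (∑ i ∈ Finset.range (2 * m), Fintype.card F ^ i) /
      (2 * m).gcd (Fintype.card F - 1) ↔
      padicValNat 2 (Fintype.card F - 1) < padicValNat 2 (2 * m) := by
    rw [← gcd_dvd_iff (by omega) (by omega), Nat.dvd_div_iff_mul_dvd hd, hsum,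
      mul_comm _ (_ + 1), Nat.mul_dvd_mul_iff_left (Nat.succ_pos _)]
    constructor
    · exact fun h => (Nat.dvd_gcd h (Nat.gcd_dvd_right _ _)).trans
        (gcd_geom_sum hq.le m ▸ Nat.gcd_dvd_left _ _)
    · exact fun h => (Nat.dvd_gcd h (Nat.gcd_dvd_right _ _)).trans
        (gcd_geom_sum hq.le m ▸ Nat.gcd_dvd_left _ _)
  rw [← key]
  constructor
  · rintro ⟨x, hx⟩
    obtain ⟨x, rfl⟩ := QuotientGroup.mk_surjective x
    obtain ⟨p, hp⟩ := CharP.exists F
    have : Fact p.Prime := ⟨CharP.char_is_prime F p⟩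
    obtain ⟨r, hr, h1, h2⟩ := H69.Zsig.zsigmondy hq (n := 2 * m) (by omega)
      (fun h => by rw [h.1] at hodd; exact absurd hodd (by decide)) (by omega)
    have h3 : r ∣ Fintype.card F ^ m + 1 := by
      rw [mul_comm, pow_mul, ← one_pow 2, Nat.sq_sub_sq] at h1
      exact ((Nat.Prime.dvd_mul hr).1 h1).resolve_right (h2 m (by omega) (by omega))
    obtain ⟨t, π, e, h4, hm, h5, h6, h7, h8⟩ := exists_model_unit (isUnit_toLin'_sl x)
    obtain ⟨i, hi⟩ := exists_dvd_natDegree p h4 h6 h8 hr (fun h => H10.not_char_dvd_pow_sub_one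
      (F := F) p (k := 2 * m) (by omega) (by rwa [Nat.card_eq_fintype_card, ← h])) (hx ▸ h3)
    have h9 : 2 * m ≤ (π i).natDegree := Nat.le_of_not_lt fun h => h2 _ (h4 i).natDegree_pos h hi
    have h10 : π i ∣ x.1.charpoly := by
      rw [← Matrix.charpoly_toLin', h8.charpoly_eq_prod fun i => (hm i).pow _]
      exact (dvd_pow_self _ (h5 i).ne').trans (Finset.dvd_prod_of_mem _ (Finset.mem_univ i))
    have h11 := eq_of_monic_of_dvd_of_natDegree_le (hm i) x.1.charpoly_monic h10
      (by rwa [Matrix.charpoly_natDegree_eq_dim, Fintype.card_fin])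
    rw [← hx]
    refine orderOf_psl_dvd_of_irreducible (h11 ▸ h4 i) ?_
    rw [Fintype.card_fin, ← gcd_geom_sum hq.le]
    exact dvd_div_gcd_mul _ _
  · intro h
    have : Nonempty (Fin (2 * m)) := ⟨⟨0, by omega⟩⟩
    obtain ⟨x, hx⟩ := exists_psl_singer (F := F) (n := Fin (2 * m))
    rw [Fintype.card_fin] at hx
    exact exists_orderOf_eq_of_dvd (h.trans hx)

end Cfsg.Agent.S2495
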