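import Cfsg.Statements.S2496
import Cfsg.Agent.Lib.MatConj.UEig
import Cfsg.Agent.Lib.Zsig.Basic

set_option autoImplicit false
open Cfsg

namespace Cfsg.Agent.S2496

open H65 H66

theorem gcd_dvd_iff {m N : ℕ} (hm : m ≠ 0) (hN : N ≠ 0) :
    (2 * m).gcd N ∣ m ↔ padicValNat 2 N < padicValNat 2 (2 * m) := by
  rw [← Nat.factorization_le_iff_dvd (Nat.gcd_ne_zero_right hN) hm,
    Nat.factorization_gcd (by omega) hN, Nat.factorization_mul two_ne_zero hm,
    ← Nat.factorization_def _ Nat.prime_two, ← Nat.factorization_def _ Nat.prime_two,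
    Nat.factorization_mul two_ne_zero hm, Nat.prime_two.factorization]
  refine ⟨fun h => ?_, fun h r => ?_⟩
  · have := h 2
    simp only [Finsupp.inf_apply, Finsupp.add_apply, Finsupp.single_eq_same] at this ⊢
    omega
  · simp only [Finsupp.inf_apply, Finsupp.add_apply, Finsupp.single_eq_same, Finsupp.single_apply] at h ⊢
    split_ifs with h2
    · subst h2; omega
    · omega

theorem gcd_sum (q n : ℕ) :
    (∑ i ∈ Finset.range n, (-q : ℤ) ^ i).natAbs.gcd (q + 1) = n.gcd (q + 1) := by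
  have h : ((q + 1 : ℕ) : ℤ) ∣ ∑ i ∈ Finset.range n, (-q : ℤ) ^ i - n := by
    rw [← ZMod.intCast_zmod_eq_zero_iff_dvd]
    have : (-q : ZMod (q + 1)) = 1 := by
      rw [neg_eq_iff_add_eq_zero, ← Nat.cast_succ, ZMod.natCast_self]
    simp [this]
  obtain ⟨t, ht⟩ := h
  rw [← Int.gcd_natCast_natCast n, ← Int.gcd_add_mul_left_left _ _ t, add_comm (n : ℤ),
    ← eq_add_of_sub_eq ht]
  rfl


/-- Let q be an odd prime power, n ≥ 4 even, and U = PSU(n,q) (realised over the field with q² elements). Then U has an element of order q^(n/2) + (−1)^(n/2) — that is, q^(n/2) + 1 when n/2 is even and q^(n/2) − 1 when n/2 is odd — if and only if the 2-part of n exceeds the 2-part of q + 1. -/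
theorem result {F : Type*} [Field F] [Fintype F] {q : ℕ} (hF : Fintype.card F = q ^ 2) (hodd : Odd q)
    {n : ℕ} (hn : 4 ≤ n) (heven : Even n) :
    (∃ g : Cfsg.PSU n F q, orderOf g = if Even (n / 2) then q ^ (n / 2) + 1 else q ^ (n / 2) - 1) ↔
      padicValNat 2 (q + 1) < padicValNat 2 n := by
  obtain ⟨m, rfl⟩ := heven
  rw [← two_mul] at *
  rw [Nat.mul_div_cancel_left _ two_pos]
  have : H11.U.IsSq F q := ⟨hF⟩
  obtain ⟨p, a, hp, _, hq, ha⟩ := H11.U.exists_char_pow F q
  have := Fact.mk hp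
  have hq2 := H11.U.two_le_q F q
  obtain ⟨σ, hσ, hσσ, hne⟩ := exists_conjHom hF
  have hpow : ∀ (A : Cfsg.SU (2 * m) F q) (k : ℕ), (A : Cfsg.PSU (2 * m) F q) ^ k = 1 ↔
      ∃ c : F, (A.1.1 : Matrix (Fin (2 * m)) (Fin (2 * m)) F) ^ k = c • 1 := fun A k => by
    rw [← QuotientGroup.mk_pow, QuotientGroup.eq_one_iff, H11.U.mem_center_SU_iff (by omega)]
    rfl
  have hN : (if Even m then q ^ m + 1 else q ^ m - 1) = ((-q : ℤ) ^ m + 1).natAbs := by
    have := Nat.one_le_pow m q (by omega)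
    split_ifs with h
    · rw [h.neg_pow, ← Nat.cast_pow]; omega
    · rw [(Nat.not_even_iff_odd.1 h).neg_pow, ← Nat.cast_pow]; omega
  have hsum : (∑ i ∈ Finset.range (2 * m), (-q : ℤ) ^ i).natAbs =
      (if Even m then q ^ m + 1 else q ^ m - 1) * (∑ i ∈ Finset.range m, (-q : ℤ) ^ i).natAbs := by
    rw [hN, ← Int.natAbs_mul, two_mul, Finset.sum_range_add, add_mul, one_mul, Finset.mul_sum,
      add_comm]
    simp only [pow_add]
  have h0 : 0 < (∑ i ∈ Finset.range (2 * m), (-q : ℤ) ^ i).natAbs :=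
    Nat.pos_of_mul_pos_right ((uu_pos hq2 (by omega)).trans_eq
      (sum_mul_eq_uu (by omega) (2 * m)).symm)
  have key : (if Even m then q ^ m + 1 else q ^ m - 1) ∣
      (∑ i ∈ Finset.range (2 * m), (-q : ℤ) ^ i).natAbs /
        (∑ i ∈ Finset.range (2 * m), (-q : ℤ) ^ i).natAbs.gcd (q + 1) ↔
      padicValNat 2 (q + 1) < padicValNat 2 (2 * m) := by
    rw [← gcd_dvd_iff (by omega) (by omega), Nat.dvd_div_iff_mul_dvd (Nat.gcd_dvd_left _ _),
      gcd_sum, hsum, mul_comm, Nat.mul_dvd_mul_iff_left (Nat.pos_of_mul_pos_right (hsum ▸ h0))]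
    constructor
    · exact fun h => (Nat.dvd_gcd h (Nat.gcd_dvd_right _ _)).trans
        (gcd_sum q m ▸ Nat.gcd_dvd_left _ _)
    · exact fun h => (Nat.dvd_gcd h (Nat.gcd_dvd_right _ _)).trans
        (gcd_sum q m ▸ Nat.gcd_dvd_left _ _)
  rw [← key]
  constructor
  · rintro ⟨x, hx⟩
    obtain ⟨x, rfl⟩ := QuotientGroup.mk_surjective x
    obtain ⟨r, hr, hrp, h1, h2⟩ : ∃ r, r.Prime ∧ r ≠ p ∧
        r ∣ (if Even m then q ^ m + 1 else q ^ m - 1) ∧ 2 * m ≤ orderOf (-q : ZMod r) := by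
      have h5 : ∀ r k, r ∣ q ^ k - 1 → 0 < k → r ≠ p := by
        rintro _ k h hk rfl
        exact hp.not_dvd_one (by
          have := Nat.dvd_sub (dvd_pow (hq ▸ dvd_pow_self _ ha.ne') hk.ne') h
          rwa [Nat.sub_sub_self (Nat.one_le_pow k q (by omega))] at this)
      have h6 : ∀ r k, r ∣ q ^ k - 1 → 0 < k → 0 < orderOf (-q : ZMod r) := fun r k h hk =>
        (isOfFinOrder_iff_pow_eq_one.2 ⟨2 * k, by omega, by
          rw [pow_mul, neg_sq, ← pow_mul, pow_mul', orderOf_dvd_iff_pow_eq_one.1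
            ((dvd_pow_sub_one_iff (by omega) r k).1 h), one_pow]⟩).orderOf_pos
      split_ifs with h
      · obtain ⟨r, hr, h1, h2⟩ := H69.Zsig.zsigmondy hq2 (n := 2 * m) (by omega)
          (fun h => by rw [h.1] at hodd; exact absurd hodd (by decide)) (by omega)
        have h3 : r ∣ q ^ m + 1 := by
          rw [mul_comm, pow_mul, ← one_pow 2, Nat.sq_sub_sq] at h1
          exact ((Nat.Prime.dvd_mul hr).1 h1).resolve_right (h2 m (by omega) (by omega))
        refine ⟨r, hr, h5 _ _ h1 (by omega), h3, Nat.le_of_not_lt fun h4 => ?_⟩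
        have h7 := h6 _ _ h1 (by omega)
        have h8 := (dvd_uu_iff (by omega) r _).2 (dvd_refl (orderOf (-q : ZMod r)))
        generalize orderOf (-q : ZMod r) = k at *
        rcases Nat.even_or_odd k with h9 | h9
        · exact h2 k h7 h4 (uu_even h9 ▸ h8)
        rw [uu_odd h9] at h8
        have h10 : r ∣ q ^ (2 * k) - 1 := by
          rw [mul_comm, pow_mul, ← one_pow 2, Nat.sq_sub_sq]
          exact h8.mul_right _
        rw [dvd_pow_sub_one_iff (by omega)] at h1 h10
        have h11 := Nat.dvd_gcd h1 h10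
        rw [Nat.gcd_mul_left, ← dvd_pow_sub_one_iff (by omega)] at h11
        refine h2 _ (Nat.mul_pos two_pos (Nat.gcd_pos_of_pos_right _ h7)) ?_ h11
        refine Nat.mul_lt_mul_of_pos_left ((Nat.gcd_le_left _ (by omega)).lt_of_ne fun e => ?_)
          two_pos
        exact Nat.not_even_iff_odd.2 h9 (even_iff_two_dvd.2
          (h.two_dvd.trans (e ▸ Nat.gcd_dvd_right m k)))
      · have h' := Nat.odd_iff.1 (Nat.not_even_iff_odd.1 h)
        obtain ⟨r, hr, h1, h2⟩ := H69.Zsig.zsigmondy hq2 (n := m) (by omega)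
          (fun h => by rw [h.1] at hodd; exact absurd hodd (by decide)) (by omega)
        refine ⟨r, hr, h5 _ _ h1 (by omega), h1, Nat.le_of_not_lt fun h4 => ?_⟩
        have h7 := h6 _ _ h1 (by omega)
        have h8 := (dvd_uu_iff (by omega) r _).2 (dvd_refl (orderOf (-q : ZMod r)))
        generalize orderOf (-q : ZMod r) = k at *
        have h12 : ∀ j, 0 < j → r ∣ q ^ j - 1 → m ∣ j := fun j hj h => by
          rw [dvd_pow_sub_one_iff (by omega)] at h1 h
          have h11 := (dvd_pow_sub_one_iff (by omega) _ _).2 (Nat.dvd_gcd h1 h)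
          by_contra e
          exact h2 _ (Nat.gcd_pos_of_pos_right _ hj) ((Nat.gcd_le_left _ (by omega)).lt_of_ne
            fun e' => e (e' ▸ Nat.gcd_dvd_right m j)) h11
        rcases Nat.even_or_odd k with h9 | h9
        · have h10 := Nat.Coprime.mul_dvd_of_dvd_of_dvd
            (Nat.coprime_two_left.2 (Nat.not_even_iff_odd.1 h)) h9.two_dvd
            (h12 k h7 (uu_even h9 ▸ h8))
          exact h4.not_ge (Nat.le_of_dvd h7 h10)
        rw [uu_odd h9] at h8
        have h10 : r ∣ q ^ (k * 2) - 1 := by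
          rw [pow_mul, ← one_pow 2, Nat.sq_sub_sq]
          exact h8.mul_right _
        obtain ⟨t, rfl⟩ := (Nat.coprime_two_right.2
          (Nat.not_even_iff_odd.1 h)).dvd_of_dvd_mul_right (h12 _ (by omega) h10)
        obtain rfl : t = 1 := by
          rcases t with _ | _ | t
          · simp at h7
          · rfl
          · nlinarith
        rw [mul_one] at h8
        have h13 := Nat.dvd_sub h8 h1
        rw [show q ^ m + 1 - (q ^ m - 1) = 2 by have := Nat.one_le_pow m q (by omega); omega,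
          Nat.prime_dvd_prime_iff_eq hr Nat.prime_two] at h13
        exact h2 1 one_pos (by omega) (by
          rw [h13, pow_one]; exact (Nat.Odd.sub_odd hodd odd_one).two_dvd)
    have hx' := (mem_SU_iff hσ _).1 x.2
    obtain ⟨α, hα, h3⟩ := exists_ev_of_prime_dvd (AlgebraicClosure F) p
      (det_ne_zero_of_unitary hx') hr hrp fun k hk => (hx ▸ h1).trans
        (orderOf_dvd_of_pow_eq_one ((hpow x k).2 ⟨1, hk.trans (one_smul _ _).symm⟩))
    rw [← hx]
    refine orderOf_dvd_of_pow_eq_one ((hpow _ _).2 (pow_eq_smul_of_full_orbit hq hF hσ hx' x.1.2 hα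
      h3 (by rwa [Fintype.card_fin]) (Nat.div_pos (Nat.gcd_le_left _ h0)
        (Nat.gcd_pos_of_pos_left _ h0)) ?_))
    rw [Fintype.card_fin]
    exact dvd_div_gcd_mul _ _
  · intro h
    have : Nonempty (Fin (2 * m)) := ⟨⟨0, by omega⟩⟩
    obtain ⟨s, h2, h3, h4⟩ := exists_unitary_singer (n := Fin (2 * m)) hq hF hσ hσσ hne
    let x : Cfsg.SU (2 * m) F q := ⟨⟨s, h3⟩, (mem_SU_iff hσ _).mpr h2⟩
    obtain ⟨c, hc⟩ := (hpow x _).mp (pow_orderOf_eq_one _)
    exact exists_orderOf_eq_of_dvd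
      (h.trans (dvd_of_dvd_mul_div_gcd h0 (by simpa using h4 _ c hc)))

end Cfsg.Agent.S2496
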