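import Mathlib
import Cfsg.Statements.S2504
import Cfsg.Agent.Lib.SN.Abelian

set_option autoImplicit false
open Cfsg

namespace Cfsg.Agent.S2504

/-- The largest order of an abelian subgroup of the alternating group of degree n is 3^k when n = 3k, 4·3^(k−1) when n = 3k + 1, and 16·3^(k−2) when n = 3k + 2, for every k ≥ 2 (so for all degrees n ≥ 6). -/
theorem result (k : ℕ) (hk : 2 ≤ k) :
    IsGreatest {c : ℕ | ∃ A : Subgroup (alternatingGroup (Fin (3 * k))), IsMulCommutative A ∧ Nat.card A = c} (3 ^ k) ∧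
    IsGreatest {c : ℕ | ∃ A : Subgroup (alternatingGroup (Fin (3 * k + 1))), IsMulCommutative A ∧ Nat.card A = c}
      (4 * 3 ^ (k - 1)) ∧
    IsGreatest {c : ℕ | ∃ A : Subgroup (alternatingGroup (Fin (3 * k + 2))), IsMulCommutative A ∧ Nat.card A = c}
      (16 * 3 ^ (k - 2)) := by
  obtain ⟨j, rfl⟩ := Nat.exists_eq_add_of_le' hk
  have hb : ∀ n c, H5.SN.Ab True n c → H5.SN.fA n = c →
      IsGreatest {c : ℕ | ∃ A : Subgroup (alternatingGroup (Fin n)), IsMulCommutative A ∧
        Nat.card A = c} c := fun n c h hc => by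
    refine ⟨h.alt, ?_⟩
    rintro _ ⟨A, h1, rfl⟩
    have := H5.SN.card_le_fA (H5.SN.comm_map_subtype h1)
    rwa [Fintype.card_fin, hc, Subgroup.card_map_of_injective (Subgroup.subtype_injective _)]
      at this
  refine ⟨hb _ _ ?_ (H5.SN.fA_three _), hb _ _ ?_ ?_, ?_, ?_⟩
  · simpa using (H5.SN.ab_zero True).add_three (j + 2)
  · have := (H5.SN.ab_four True).add_three (j + 1)
    rwa [show 4 + 3 * (j + 1) = 3 * (j + 2) + 1 by ring] at this
  · rw [show 3 * (j + 2) + 1 = 3 * (j + 1) + 4 by ring, H5.SN.fA_four]; rfl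
  · have := ((H5.SN.ab_four True).add (H5.SN.ab_four True)).add_three j
    rw [show 4 + 4 + 3 * j = 3 * (j + 2) + 2 by ring] at this
    exact this.alt
  · rintro _ ⟨A, h1, rfl⟩
    by_contra hlt
    rw [not_le, Nat.add_sub_cancel] at hlt
    have hc : Nat.card (A.map (Subgroup.subtype _)) = Nat.card A :=
      Subgroup.card_map_of_injective (Subgroup.subtype_injective _)
    have hE := H5.SN.ext_of_large (H5.SN.comm_map_subtype h1) (Subgroup.map_subtype_le _)
      (by simp) (by rw [Fintype.card_fin, H5.SN.fA_two, hc, pow_add]; omega)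
    obtain ⟨h2, h3⟩ := hE.card_eq
    rw [Fintype.card_fin] at h3
    have := H5.SN.pow_le_of_three_four (j := j) (h3.symm.trans (by ring))
    omega

end Cfsg.Agent.S2504
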