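import Mathlib
import Cfsg.Statements.S2505
import Cfsg.Agent.Lib.SN.Abelian

set_option autoImplicit false
open Cfsg

namespace Cfsg.Agent.S2505

/-- The largest order of an abelian subgroup of the symmetric group of degree n is 3^k when n = 3k, 4·3^(k−1) when n = 3k + 1, and 2·3^k when n = 3k + 2, for every k ≥ 1. -/
theorem result (k : ℕ) (hk : 1 ≤ k) :
    IsGreatest {c : ℕ | ∃ A : Subgroup (Equiv.Perm (Fin (3 * k))), IsMulCommutative A ∧ Nat.card A = c} (3 ^ k) ∧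
    IsGreatest {c : ℕ | ∃ A : Subgroup (Equiv.Perm (Fin (3 * k + 1))), IsMulCommutative A ∧ Nat.card A = c}
      (4 * 3 ^ (k - 1)) ∧
    IsGreatest {c : ℕ | ∃ A : Subgroup (Equiv.Perm (Fin (3 * k + 2))), IsMulCommutative A ∧ Nat.card A = c}
      (2 * 3 ^ k) := by
  obtain ⟨j, rfl⟩ := Nat.exists_eq_add_of_le' hk
  have hb : ∀ n c, H5.SN.Ab False n c → H5.SN.fA n = c →
      IsGreatest {c : ℕ | ∃ A : Subgroup (Equiv.Perm (Fin n)), IsMulCommutative A ∧
        Nat.card A = c} c := fun n c h hc => by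
    refine ⟨?_, ?_⟩
    · obtain ⟨A, h1, h2, -⟩ := h
      exact ⟨A, h1, h2⟩
    · rintro _ ⟨A, h1, rfl⟩
      have := H5.SN.card_le_fA h1
      rwa [Fintype.card_fin, hc] at this
  refine ⟨hb _ _ ?_ (H5.SN.fA_three _), hb _ _ ?_ ?_, hb _ _ ?_ (H5.SN.fA_two _)⟩
  · simpa using (H5.SN.ab_zero False).add_three (j + 1)
  · have := (H5.SN.ab_four False).add_three j
    rwa [show 4 + 3 * j = 3 * (j + 1) + 1 by ring] at this
  · rw [show 3 * (j + 1) + 1 = 3 * j + 4 by ring, H5.SN.fA_four]; rfl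
  · have := H5.SN.ab_two.add_three (j + 1)
    rwa [add_comm] at this

end Cfsg.Agent.S2505
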