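import Mathlib
import Cfsg.Statements.S2506
import Cfsg.Agent.Lib.SN.Abelian

set_option autoImplicit false
open scoped Pointwise
open Cfsg

namespace Cfsg.Agent.S2506

/-- In the alternating group of any degree, any two abelian subgroups of the largest possible order (among abelian subgroups) are conjugate. -/
theorem result (n : ℕ)
    (A B : Subgroup (alternatingGroup (Fin n))) (hA : IsMulCommutative A) (hB : IsMulCommutative B)
    (hAmax : ∀ C : Subgroup (alternatingGroup (Fin n)), IsMulCommutative C → Nat.card C ≤ Nat.card A)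
    (hBmax : ∀ C : Subgroup (alternatingGroup (Fin n)), IsMulCommutative C → Nat.card C ≤ Nat.card B) :
    ∃ g : alternatingGroup (Fin n), B = MulAut.conj g • A := by
  have hAB : Nat.card A = Nat.card B := le_antisymm (hBmax A hA) (hAmax B hB)
  have hc : ∀ C : Subgroup (alternatingGroup (Fin n)),
      Nat.card (C.map (Subgroup.subtype _)) = Nat.card C := fun C =>
    Subgroup.card_map_of_injective (Subgroup.subtype_injective _)
  have hge : ∀ c, H5.SN.Ab True n c → c ≤ Nat.card A := fun c h => by
    obtain ⟨C, h1, rfl⟩ := h.alt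
    exact hAmax C h1
  by_cases hn2 : n ≤ 2
  · have : Subsingleton (alternatingGroup (Fin n)) := by
      rcases Nat.lt_or_ge n 2 with h | h
      · have : Subsingleton (Fin n) := by
          interval_cases n <;> infer_instance
        infer_instance
      · obtain rfl : n = 2 := by omega
        refine (Nat.card_eq_one_iff_unique.mp ?_).1
        rw [nat_card_alternatingGroup]; simp
    exact ⟨1, Subsingleton.elim _ _⟩
  have hlarge : 8 * H5.SN.fA n ≤ 9 * Nat.card A →
      ∃ g : alternatingGroup (Fin n), B = MulAut.conj g • A := fun h => by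
    have hEA := H5.SN.ext_of_large (H5.SN.comm_map_subtype hA) (Subgroup.map_subtype_le _)
      (by simp; omega) (by rw [Fintype.card_fin, hc]; exact h)
    have hEB := H5.SN.ext_of_large (H5.SN.comm_map_subtype hB) (Subgroup.map_subtype_le _)
      (by simp; omega) (by rw [Fintype.card_fin, hc, ← hAB]; exact h)
    have : Nonempty (Fin n) := ⟨⟨0, by omega⟩⟩
    obtain ⟨g, hg, h1⟩ := hEA.exists_conj hEB (by rw [hc, hc, hAB])
    refine ⟨⟨g, hg⟩, (Subgroup.eq_of_le_of_card_ge ?_ ?_).symm⟩
    · rintro _ ⟨a, ha, rfl⟩
      obtain ⟨b, hb, hb'⟩ := h1 a ⟨a, ha, rfl⟩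
      have : (MulDistribMulAction.toMonoidEnd _ _ (MulAut.conj (⟨g, hg⟩ :
          alternatingGroup (Fin n)))) a = b := Subtype.ext hb'.symm
      exact this ▸ hb
    · rw [← hAB]
      exact le_of_eq (Subgroup.card_map_of_injective (MulAut.conj (⟨g, hg⟩ :
          alternatingGroup (Fin n))).injective).symm
  by_cases hn5 : n = 5
  · subst hn5
    have h5 := hge 5 (H5.SN.ab_five True)
    by_cases h6 : Nat.card A = 5
    · have : Fact (Nat.Prime 5) := ⟨by norm_num⟩
      have hs : ∀ C : Subgroup (alternatingGroup (Fin 5)), Nat.card C = 5 →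
          Nat.card C = 5 ^ (Nat.card (alternatingGroup (Fin 5))).factorization 5 := fun C hC => by
        rw [nat_card_alternatingGroup]
        have : (Nat.card (Fin 5)).factorial / 2 = 5 * 12 := by simp [Nat.factorial]
        rw [this, Nat.factorization_mul (by norm_num) (by norm_num),
          Nat.Prime.factorization (by norm_num : Nat.Prime 5), Finsupp.add_apply,
          Nat.factorization_eq_zero_of_not_dvd (by norm_num : ¬ 5 ∣ 12)]
        simp [hC]
      obtain ⟨g, hg⟩ := MulAction.exists_smul_eq (alternatingGroup (Fin 5))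
        (Sylow.ofCard A (hs A h6)) (Sylow.ofCard B (hs B (hAB ▸ h6)))
      exact ⟨g, (congrArg (fun P : Sylow 5 (alternatingGroup (Fin 5)) =>
        (P : Subgroup (alternatingGroup (Fin 5)))) hg).symm⟩
    · exact hlarge (by have : H5.SN.fA 5 = 6 := rfl; omega)
  apply hlarge
  obtain ⟨k, hk⟩ : ∃ k, n = 3 * k ∨ n = 3 * k + 4 ∨ n = 3 * k + 8 := by
    rcases (by omega : n % 3 = 0 ∨ n % 3 = 1 ∨ n % 3 = 2) with h | h | h
    · exact ⟨n / 3, by omega⟩
    · exact ⟨(n - 4) / 3, by omega⟩
    · exact ⟨(n - 8) / 3, by omega⟩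
  rcases hk with hk | hk | hk
  · have := hge (1 * 3 ^ k) (by
      have := (H5.SN.ab_zero True).add_three k
      rwa [zero_add, ← hk] at this)
    have h1 := H5.SN.fA_three k
    rw [← hk] at h1
    omega
  · have := hge (4 * 3 ^ k) (by
      have := (H5.SN.ab_four True).add_three k
      rwa [add_comm, ← hk] at this)
    have h1 := H5.SN.fA_four k
    rw [← hk] at h1
    omega
  · have := hge (4 * 4 * 3 ^ k) (by
      have := ((H5.SN.ab_four True).add (H5.SN.ab_four True)).add_three k
      rwa [show 4 + 4 + 3 * k = n by omega] at this)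
    have h1 := H5.SN.fA_two (k + 2)
    rw [show 3 * (k + 2) + 2 = n by omega, pow_add] at h1
    omega

end Cfsg.Agent.S2506
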