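import Cfsg.Statements.S2510
import Cfsg.Agent.Lib.MatConj.LinSpec

set_option autoImplicit false
open Cfsg

namespace Cfsg.Agent.S2510

/-- Let F be a finite field with q = p^a elements, n ≥ 2 (with q ≥ 4 when n = 2), L = PSL(n, F), and let r be a prime dividing q − 1 and not dividing n. Then for every m the direct product L × L × L × (ℤ/r)^m has the same set of element orders as L × L × L; and if n − 1 ≠ p^j for every j ≥ 0 (so never when n = 2, since 1 = p^0), then already L × L × (ℤ/r)^m has the same set of element orders as L × L. -/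
theorem result {F : Type*} [Field F] [Fintype F] (p a n r m : ℕ) (hp : p.Prime) (ha : 1 ≤ a) (hF : Fintype.card F = p ^ a)
    (hn : 2 ≤ n) (hn2 : n = 2 → 4 ≤ Fintype.card F) (hr : r.Prime) (hrq : r ∣ Fintype.card F - 1) (hrn : ¬ r ∣ n) :
    Set.range (orderOf : Matrix.ProjectiveSpecialLinearGroup (Fin n) F × Matrix.ProjectiveSpecialLinearGroup (Fin n) F × Matrix.ProjectiveSpecialLinearGroup (Fin n) F × Multiplicative (Fin m → ZMod r) → ℕ) =
      Set.range (orderOf : Matrix.ProjectiveSpecialLinearGroup (Fin n) F × Matrix.ProjectiveSpecialLinearGroup (Fin n) F × Matrix.ProjectiveSpecialLinearGroup (Fin n) F → ℕ) ∧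
    ((¬ ∃ j : ℕ, n - 1 = p ^ j) →
      Set.range (orderOf : Matrix.ProjectiveSpecialLinearGroup (Fin n) F × Matrix.ProjectiveSpecialLinearGroup (Fin n) F × Multiplicative (Fin m → ZMod r) → ℕ) =
        Set.range (orderOf : Matrix.ProjectiveSpecialLinearGroup (Fin n) F × Matrix.ProjectiveSpecialLinearGroup (Fin n) F → ℕ)) := by
  classical
  have := Fact.mk hp
  have := Fact.mk hr
  have hpq : p ∣ Fintype.card F := hF ▸ dvd_pow_self p (by omega)
  have : CharP F p := by
    obtain ⟨p', hp'⟩ := CharP.exists F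
    obtain ⟨k, hk1, hk2⟩ := FiniteField.card F p'
    have : p = p' := (Nat.prime_dvd_prime_iff_eq hp hk1).mp (hp.dvd_of_dvd_pow (hk2 ▸ hpq))
    exact this ▸ hp'
  have : Nonempty (Fin n) := ⟨⟨0, by omega⟩⟩
  obtain ⟨l, hl⟩ : ∃ l : F, orderOf l = r := by
    obtain ⟨l, hl⟩ := exists_prime_orderOf_dvd_card (G := Fˣ) r (by rwa [Fintype.card_units])
    exact ⟨l, by rwa [orderOf_units]⟩
  set M := ∑ i ∈ Finset.range n, Fintype.card F ^ i with hM
  have hM0 : 0 < M := Finset.sum_pos (fun i _ => pow_pos Fintype.card_pos _) ⟨0, by simp; omega⟩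
  set N := M / M.gcd (Fintype.card F - 1)
  obtain ⟨J, hJ⟩ : ∃ J, Nat.clog p n = J + 1 :=
    ⟨Nat.clog p n - 1, by have := Nat.clog_pos hp.one_lt (show 1 < n by omega); omega⟩
  have hJ1 : n ≤ p ^ (J + 1) := hJ ▸ Nat.le_pow_clog hp.one_lt n
  have hJ2 : p ^ J < n := by
    have := Nat.pow_pred_clog_lt_self hp.one_lt (show 1 < n by omega)
    rwa [hJ] at this
  have hrn' : ¬ r ∣ Fintype.card (Fin n) := by simpa using hrn
  have h1 : ∀ x : Matrix.ProjectiveSpecialLinearGroup (Fin n) F,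
      (∃ x' : Matrix.ProjectiveSpecialLinearGroup (Fin n) F,
        orderOf x ∣ orderOf x' ∧ r ∣ orderOf x') ∨ orderOf x ∣ N * p ^ (J + 1) := by
    intro x
    refine (H65.psl_commute_or_orderOf_dvd p hr hl hrn' (N := N) (J := J + 1) ?_
      (by simpa using hJ1) x).imp_left ?_
    · simpa using H65.dvd_div_gcd_mul M _
    · rintro ⟨z, hz1, hz2⟩
      exact H65.exists_dvd_orderOf_of_commute hr hz1 hz2
  have hNP : N.Coprime (p ^ (J + 1)) :=
    (Nat.Coprime.coprime_dvd_left (Nat.div_dvd_of_dvd (Nat.gcd_dvd_left _ _))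
      (H65.coprime_geom_sum_char hpq (by omega))).pow_right _
  have hs : ∃ s : Matrix.ProjectiveSpecialLinearGroup (Fin n) F, N ∣ orderOf s := by
    obtain ⟨s, hs⟩ := H65.exists_singer_sl (F := F) (n := Fin n)
    refine ⟨s, H65.dvd_of_dvd_mul_div_gcd hM0 ?_⟩
    obtain ⟨c, hc⟩ := (H65.psl_mk_pow_eq_one_iff s _).mp (pow_orderOf_eq_one _)
    simpa using hs _ c hc
  obtain ⟨u, hu⟩ := H65.exists_sl_unipotent (F := F) (n := Fin n) ![n - 1, 1]
    (by simp; omega)
  have hu' : ∃ z, orderOf z = r ∧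
      Commute (u : Matrix.ProjectiveSpecialLinearGroup (Fin n) F) z := by
    have h2 : H65.Similar (Matrix.toLin' (u : Matrix (Fin n) (Fin n) F))
        (H65.piEnd fun k => H65.cyc ((Polynomial.X : Polynomial F) ^ ![n - 1, 1] k) + 1) := by
      have := hu.add_one
      rw [sub_add_cancel] at this
      exact this
    have := H65.nontrivial_adjoinRoot_X_pow (F := F) (e := ![n - 1, 1] 0) (by simp; omega)
    have := H65.nontrivial_adjoinRoot_X_pow (F := F) (e := ![n - 1, 1] 1) (by simp)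
    exact H65.exists_commute_of_similar_piEnd h2 (i₀ := 0) (i₁ := 1) (by simp) hr hl hrn'
  refine ⟨H65.spec_cube (H65.multiplicative_zmod_pow_eq_one m r) N _ h1 hNP hs ?_ ?_,
    fun hj => H65.spec_square (H65.multiplicative_zmod_pow_eq_one m r) N _ h1 hNP hs ?_⟩
  · obtain ⟨v, hv⟩ := H65.exists_sl_unipotent (F := F) (n := Fin n) (fun _ : Unit => n) (by simp)
    exact ⟨v, by rw [H65.orderOf_psl_mk_unipotent p hv (fun _ => hJ1) ⟨(), hJ2⟩]⟩
  · obtain ⟨z, hz, -⟩ := hu'
    exact ⟨z, by rw [hz]⟩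
  · obtain ⟨z, hz1, hz2⟩ := hu'
    obtain ⟨x', h2, h3⟩ := H65.exists_dvd_orderOf_of_commute hr hz1 hz2
    refine ⟨x', ?_, h3⟩
    rw [H65.orderOf_psl_mk_unipotent p hu (J := J) ?_ ⟨0, ?_⟩] at h2
    · exact h2
    · intro k
      fin_cases k
      · simp; omega
      · simpa using Nat.one_le_pow _ _ hp.pos
    · have : n - 1 ≠ p ^ J := fun h => hj ⟨J, h⟩
      simp; omega

end Cfsg.Agent.S2510
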