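import Cfsg.Statements.S2512
import Cfsg.Agent.Lib.MatConj.SpSpec

set_option autoImplicit false
open Cfsg

namespace Cfsg.Agent.S2512

open H65 Polynomial Module

theorem lt_of_lt_clog {p k j : ℕ} (hp : 1 < p) (h : j < Nat.clog p k) : p ^ j < k := by
  by_contra h1
  exact h.not_ge ((Nat.clog_le_iff_le_pow hp).mpr (not_lt.mp h1))

theorem sq_eq_one_of_pow {F : Type*} [Field F] {n : ℕ} (hn : 1 ≤ n)
    (A : Matrix.symplecticGroup (Fin n) F) {k : ℕ} {c : F}
    (hc : Matrix.toLin' (A : Matrix (Fin n ⊕ Fin n) (Fin n ⊕ Fin n) F) ^ k = c • 1) :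
    c ^ 2 = 1 := by
  rw [← H11.Sp.smul_one_mem_iff (m := n) hn, ← (toLin'_eq_smul_one_iff _ _).mp
    ((toLin'_pow' _ _).trans hc)]
  exact Submonoid.pow_mem _ A.2 _

theorem half_dvd {F : Type*} [Field F] {n : ℕ} (hn : 1 ≤ n)
    (s : Matrix.symplecticGroup (Fin n) F) {M : ℕ} (hM : 2 ∣ M) (hs : ∀ k : ℕ,
      Matrix.toLin' (s : Matrix (Fin n ⊕ Fin n) (Fin n ⊕ Fin n) F) ^ k = 1 ↔ M ∣ k) :
    M / 2 ∣ orderOf (s : Cfsg.PSp n F) := by
  obtain ⟨c, hc⟩ := (psp_mk_pow_eq_one_iff s _).mp (pow_orderOf_eq_one _)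
  have h := (hs (orderOf (s : Cfsg.PSp n F) * 2)).mp (by
    rw [pow_mul, hc, _root_.smul_pow, sq_eq_one_of_pow hn s hc, one_pow, one_smul])
  obtain ⟨M, rfl⟩ := hM
  rw [Nat.mul_div_cancel_left _ two_pos]
  exact Nat.dvd_of_mul_dvd_mul_left two_pos (by rwa [mul_comm 2 (orderOf (s : Cfsg.PSp n F))])

theorem dichotomy {F : Type*} [Field F] [Fintype F] (p : ℕ) [Fact p.Prime] [CharP F p] {n : ℕ}
    (hodd : Odd (Fintype.card F)) (hn : 2 ≤ n) (x : Cfsg.PSp n F) :
    (∃ x' : Cfsg.PSp n F, orderOf x ∣ orderOf x' ∧ 2 ∣ orderOf x') ∨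
      orderOf x ∣ p ^ Nat.clog p (2 * n) ∨ ∃ M, (M = Fintype.card F ^ n - 1 ∨
        M = Fintype.card F ^ n + 1) ∧ orderOf x ∣ M / 2 ∧ Odd (M / 2) := by
  have hp : p.Prime := Fact.out
  have h2 := two_ne_zero_of_odd_card hodd
  have : Nonempty (Fin n) := ⟨⟨0, by omega⟩⟩
  have hV : finrank F (Fin n ⊕ Fin n → F) = 2 * n := by simp [two_mul]
  by_cases hx : 2 ∣ orderOf x
  · exact Or.inl ⟨x, dvd_rfl, hx⟩
  have hcop : (orderOf x).Coprime 2 := ((Nat.Prime.coprime_iff_not_dvd Nat.prime_two).mpr hx).symm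
  obtain ⟨A, rfl⟩ := QuotientGroup.mk_surjective x
  obtain ⟨m, hm⟩ : ∃ m, orderOf (A : Cfsg.PSp n F) = 2 * m + 1 :=
    ⟨orderOf (A : Cfsg.PSp n F) / 2, by omega⟩
  obtain ⟨c, hc⟩ := (psp_mk_pow_eq_one_iff A _).mp (pow_orderOf_eq_one _)
  have hc2 : c ^ 2 = 1 := sq_eq_one_of_pow (by omega) A hc
  set f := Matrix.toLin' (A : Matrix (Fin n ⊕ Fin n) (Fin n ⊕ Fin n) F) with hf
  let B := H66.sympBilin n F
  have hB : GoodForm true B := ⟨(H66.sympBilin_nondegenerate n).1, fun _ => H66.sympBilin_isAlt n,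
    fun h => absurd h (by decide)⟩
  have hfB : ∀ x y, B (f x) (f y) = B x y := (H66.mem_symplecticGroup_iff _).mp A.2
  obtain ⟨g, hg⟩ : ∃ g, g = c • f := ⟨_, rfl⟩
  have hgB : ∀ x y, B (g x) (g y) = B x y := fun x y => by
    simp only [hg, LinearMap.smul_apply, map_smul, smul_eq_mul, hfB]
    linear_combination B x y * hc2
  have hg1 : g ^ (2 * m + 1) = 1 := by
    rw [hg, _root_.smul_pow, ← hm, hc, smul_smul, hm, ← pow_succ, add_assoc, ← two_mul 1, ← mul_add,
      pow_mul, hc2, one_pow, one_smul]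
  have hord : ∀ k, g ^ k = 1 → orderOf (A : Cfsg.PSp n F) ∣ k := fun k hk => by
    apply orderOf_dvd_of_pow_eq_one
    rw [psp_mk_pow_eq_one_iff]
    refine ⟨c ^ k, ?_⟩
    rw [← hk, hg, _root_.smul_pow, smul_smul, ← mul_pow, ← sq, hc2, one_pow, one_smul]
  have ha : ∀ x y, B ((g + g ^ (2 * m)) x) y = B x ((g + g ^ (2 * m)) y) := by
    intro x y
    have h3 : ∀ y, g ((g ^ (2 * m)) y) = y := fun y => by
      rw [← End.mul_apply, ← pow_succ', hg1, End.one_apply]
    rw [LinearMap.add_apply, LinearMap.add_apply, map_add, map_add, LinearMap.add_apply, add_comm,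
      ← hgB ((g ^ (2 * m)) x), h3, ← hgB x ((g ^ (2 * m)) y), h3]
  have hcomm : ∀ T : F[X], Commute g (aeval (g + g ^ (2 * m)) T) := fun T => by
    have := congrArg (aeval g) (mul_comm X (T.comp (X + X ^ (2 * m))))
    simpa [aeval_comp, commute_iff_eq] using this
  rcases primary_or_idempotent (g + g ^ (2 * m)) with ⟨ρ, hρ, hρm, hnil⟩ | ⟨T, hT, hT0, hT1⟩
  swap
  · left
    set e := aeval (g + g ^ (2 * m)) T with he
    have h3 : (1 - (2 : F) • e) * (1 - (2 : F) • e) = 1 := by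
      simp only [mul_sub, sub_mul, mul_one, one_mul, smul_mul_assoc, mul_smul_comm, hT]
      module
    have h4 : ∀ x y, B ((1 - (2 : F) • e) x) y = B x ((1 - (2 : F) • e) y) := fun x y => by
      simp [he, form_aeval_of_selfAdjoint ha]
    let Z : Matrix.symplecticGroup (Fin n) F := ⟨LinearMap.toMatrix' (1 - (2 : F) • e),
      (H66.mem_symplecticGroup_iff _).mpr fun u v => by
        rw [← Matrix.toLin'_apply, ← Matrix.toLin'_apply, Matrix.toLin'_toMatrix', h4,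
          ← End.mul_apply, h3, End.one_apply]⟩
    have hZ : Matrix.toLin' (Z : Matrix (Fin n ⊕ Fin n) (Fin n ⊕ Fin n) F) = 1 - (2 : F) • e :=
      Matrix.toLin'_toMatrix' _
    have := Fact.mk Nat.prime_two
    refine exists_dvd_orderOf_of_commute Nat.prime_two (z := (Z : Cfsg.PSp n F))
      (orderOf_eq_prime ((psp_mk_pow_eq_one_iff _ _).mpr ⟨1, by rw [hZ, sq, h3, one_smul]⟩)
        fun h => ?_) (Commute.map ?_ (QuotientGroup.mk' _))
    · obtain ⟨c', hc'⟩ := (psp_mk_pow_eq_one_iff Z 1).mp (by rw [h, one_pow])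
      rw [pow_one, hZ] at hc'
      rw [hc', smul_mul_smul_comm, mul_one] at h3
      have h5 : c' * c' = 1 := by
        simpa using congrFun (LinearMap.congr_fun h3 1) (Classical.arbitrary _)
      rcases mul_self_eq_one_iff.mp h5 with rfl | rfl
      · exact hT0 (by simpa [h2] using hc')
      · refine hT1 (smul_right_injective _ h2 ?_)
        change (2 : F) • e = (2 : F) • 1
        linear_combination (norm := module) -hc'
    · apply Subtype.ext
      apply Matrix.toLin'.injective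
      have h5 : Commute f (1 - (2 : F) • e) := by
        have h6 : f = c • g := by rw [hg, smul_smul, ← sq, hc2, one_smul]
        rw [h6]
        exact ((Commute.one_right g).sub_right ((hcomm T).smul_right _)).smul_left _
      rw [Submonoid.coe_mul, Submonoid.coe_mul, Matrix.toLin'_mul, Matrix.toLin'_mul, hZ]
      exact h5.eq
  obtain ⟨hd, hj⟩ := aeval_pow_eq_zero_of_selfAdjoint h2 hB ha hρ hρm hnil hV
  by_cases hρ4 : ρ ∣ X ^ 2 - 4
  · right; left
    obtain ⟨S, hS⟩ := hρ4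
    have h3 : IsNilpotent (aeval (g + g ^ (2 * m)) (X ^ 2 - 4 : F[X])) := by
      rw [hS, map_mul]
      refine Commute.isNilpotent_mul_right ?_ hnil
      rw [Commute, SemiconjBy, ← map_mul, ← map_mul, mul_comm ρ]
    have h4 : (g ^ 2 - 1) ^ 2 = g ^ 2 * aeval (g + g ^ (2 * m)) (X ^ 2 - 4 : F[X]) := by
      have h5 : ((X ^ 2 - 1) ^ 2 : F[X]) = X ^ 2 * ((X + X ^ (2 * m)) ^ 2 - 4) -
          (X ^ (2 * m + 1) + 2 * X ^ 2 + 1) * (X ^ (2 * m + 1) - 1) := by ring
      have h6 := congrArg (aeval g) h5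
      simpa [hg1, map_ofNat] using h6
    have h5 : IsNilpotent (g ^ 2 - (1 : F) • 1) := by
      rw [one_smul]
      refine IsNilpotent.of_pow (m := 2) ?_
      rw [h4]
      exact ((hcomm _).pow_left 2).isNilpotent_mul_left h3
    have h6 := pow_mul_pow_eq_smul_of_isNilpotent p h5 (J := Nat.clog p (2 * n))
      (hV ▸ Nat.le_pow_clog hp.one_lt _)
    rw [one_pow, one_smul] at h6
    exact hcop.dvd_of_dvd_mul_left (hord _ h6)
  obtain ⟨M, hM, hgM⟩ : ∃ M, (M = Fintype.card F ^ ρ.natDegree - 1 ∨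
      M = Fintype.card F ^ ρ.natDegree + 1) ∧ (g ^ M - 1) ^ (n / ρ.natDegree) = 0 := by
    rcases pow_sub_one_pow_eq_zero hg1 hρ hρ4 hj with h | h
    exacts [⟨_, Or.inl rfl, h⟩, ⟨_, Or.inr rfl, h⟩]
  have hd0 := hρ.natDegree_pos
  generalize ρ.natDegree = d at *
  obtain ⟨s, hs⟩ := exists_symplectic_orderOf hd0 hM
  have hM2 : 2 ∣ M := by
    obtain ⟨k, hk⟩ := hodd.pow (n := d)
    omega
  rcases hd.lt_or_eq with hd | rfl
  · left
    have := nontrivial_adjoinRoot_X_pow (F := F) (e := 2 * (n - d)) (by omega)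
    obtain ⟨x', hx'⟩ := ((pres_symplectic s).prodMap (pres_cyc_even (n - d))).exists_psp (n := n)
      (by simp [finrank_adjoinRoot_X_pow]; omega)
    obtain ⟨c', hc'⟩ := (hx' _).mp (pow_orderOf_eq_one x')
    rw [prodMap_pow_eq_smul_iff] at hc'
    obtain rfl := unipotent_pow_eq_smul (isNilpotent_cyc_add_one_sub_one _) hc'.2
    simp only [one_smul] at hc'
    have h3 := (hs _).mp hc'.1
    have h4 := pow_dvd_of_cyc_pow_eq_one p (J := Nat.clog p (2 * (n - d)))
      (fun j hj => lt_of_lt_clog hp.one_lt hj) hc'.2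
    refine ⟨x', (hord (M * p ^ Nat.clog p (2 * (n - d))) ?_).trans
      (Nat.Coprime.mul_dvd_of_dvd_of_dvd (Nat.Coprime.pow_right _ ?_) h3 h4), hM2.trans h3⟩
    · rw [pow_mul, pow_char_pow_eq_one_iff (F := F)]
      refine pow_eq_zero_of_le (le_trans ?_ (Nat.le_pow_clog hp.one_lt _)) hgM
      apply Nat.div_le_of_le_mul
      obtain ⟨e, rfl⟩ : ∃ e, n = d + e := ⟨n - d, by omega⟩
      rw [Nat.add_sub_cancel_left]
      nlinarith
    · obtain ⟨k, -, hk⟩ := FiniteField.card F p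
      have h5 : p ∣ Fintype.card F ^ d := dvd_pow (hk ▸ dvd_pow_self p k.ne_zero) hd0.ne'
      have h6 : 1 ≤ Fintype.card F ^ d := Nat.one_le_pow _ _ Fintype.card_pos
      rw [Nat.coprime_comm, hp.coprime_iff_not_dvd]
      intro h7
      apply hp.not_dvd_one
      rcases hM with rfl | rfl
      · simpa [Nat.sub_sub_self h6] using Nat.dvd_sub h5 h7
      · exact (Nat.dvd_add_right h5).mp h7
  · rw [Nat.div_self hd0, pow_one, sub_eq_zero] at hgM
    have h3 : orderOf (A : Cfsg.PSp d F) ∣ M / 2 :=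
      hcop.dvd_of_dvd_mul_left (by rw [Nat.mul_div_cancel' hM2]; exact hord _ hgM)
    rcases Nat.even_or_odd (M / 2) with h4 | h4
    · left
      have h5 := half_dvd hd0 s hM2 hs
      exact ⟨s, h3.trans h5, h4.two_dvd.trans h5⟩
    · exact Or.inr (Or.inr ⟨M, hM, h3, h4⟩)


/-- Let F be a finite field of odd order q = p^a, n ≥ 2 (with q ≥ 3 automatic), and L = PSp(2n, F). Then for every m the direct product L × L × L × (ℤ/2)^m has the same set of element orders as L × L × L; and if 2n − 1 is not a power of p, then already L × L × (ℤ/2)^m has the same set of element orders as L × L. -/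
theorem result {F : Type*} [Field F] [Fintype F] (p a n m : ℕ) (hp : p.Prime) (ha : 1 ≤ a) (hF : Fintype.card F = p ^ a) (hodd : Odd (Fintype.card F))
    (hn : 2 ≤ n) :
    Set.range (orderOf : Cfsg.PSp n F × Cfsg.PSp n F × Cfsg.PSp n F × Multiplicative (Fin m → ZMod 2) → ℕ) = Set.range (orderOf : Cfsg.PSp n F × Cfsg.PSp n F × Cfsg.PSp n F → ℕ) ∧
    ((¬ ∃ j : ℕ, 2 * n - 1 = p ^ j) →
      Set.range (orderOf : Cfsg.PSp n F × Cfsg.PSp n F × Multiplicative (Fin m → ZMod 2) → ℕ) = Set.range (orderOf : Cfsg.PSp n F × Cfsg.PSp n F → ℕ)) := by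
  have := Fact.mk hp
  have hpq : p ∣ Fintype.card F := hF ▸ dvd_pow_self p (by omega)
  have : CharP F p := by
    obtain ⟨p', hp'⟩ := CharP.exists F
    obtain ⟨k, hk1, hk2⟩ := FiniteField.card F p'
    have : p = p' := (Nat.prime_dvd_prime_iff_eq hp hk1).mp (hp.dvd_of_dvd_pow (hk2 ▸ hpq))
    exact this ▸ hp'
  have h2 := two_ne_zero_of_odd_card hodd
  obtain ⟨k, hk⟩ := hodd.pow (n := n)
  obtain ⟨M, hM, hM2, hMu⟩ : ∃ M, (M = Fintype.card F ^ n - 1 ∨ M = Fintype.card F ^ n + 1) ∧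
      2 ∣ M ∧ ∀ M', (M' = Fintype.card F ^ n - 1 ∨ M' = Fintype.card F ^ n + 1) → Odd (M' / 2) →
        M' = M := by
    rcases Nat.even_or_odd' k with ⟨l, rfl | rfl⟩
    · refine ⟨_, Or.inr rfl, by omega, fun M' h ⟨j, hj⟩ => by omega⟩
    · refine ⟨_, Or.inl rfl, by omega, fun M' h ⟨j, hj⟩ => by omega⟩
  have h1 : ∀ x : Cfsg.PSp n F, (∃ x' : Cfsg.PSp n F, orderOf x ∣ orderOf x' ∧ 2 ∣ orderOf x') ∨
      orderOf x ∣ M / 2 * p ^ Nat.clog p (2 * n) := fun x => by
    rcases dichotomy p hodd hn x with h | h | ⟨M', h, h', h''⟩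
    · exact Or.inl h
    · exact Or.inr (h.mul_left _)
    · exact Or.inr (hMu M' h h'' ▸ h'.mul_right _)
  have hNP : (M / 2).Coprime (p ^ Nat.clog p (2 * n)) := by
    refine Nat.Coprime.pow_right _ (Nat.Coprime.coprime_dvd_left (Nat.div_dvd_of_dvd hM2) ?_)
    have h5 : p ∣ Fintype.card F ^ n := dvd_pow hpq (by omega)
    have h6 : 1 ≤ Fintype.card F ^ n := Nat.one_le_pow _ _ Fintype.card_pos
    rw [Nat.coprime_comm, hp.coprime_iff_not_dvd]
    intro h7
    apply hp.not_dvd_one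
    rcases hM with rfl | rfl
    · simpa [Nat.sub_sub_self h6] using Nat.dvd_sub h5 h7
    · exact (Nat.dvd_add_right h5).mp h7
  have hs : ∃ s : Cfsg.PSp n F, M / 2 ∣ orderOf s := by
    obtain ⟨s, hs⟩ := exists_symplectic_orderOf (F := F) (d := n) (by omega) hM
    exact ⟨s, half_dvd (by omega) s hM2 hs⟩
  have hu : ∃ u : Cfsg.PSp n F, 2 ∣ orderOf u ∧
      ∀ J, (∀ j < J, p ^ j < 2 * (n - 1)) → p ^ J ∣ orderOf u := by
    have := nontrivial_adjoinRoot_X_pow (F := F) (e := 2 * (n - 1)) (by omega)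
    have := nontrivial_adjoinRoot_X_pow (F := F) (e := 2 * 1) (by omega)
    have : Nonempty (Fin 1 ⊕ Fin 1) := ⟨Sum.inl 0⟩
    obtain ⟨x', hx'⟩ := ((pres_symplectic (F := F) (m := 1) 1).neg.prodMap
      (pres_cyc_even (n - 1))).exists_psp (n := n) (by simp [finrank_adjoinRoot_X_pow]; omega)
    obtain ⟨c', hc'⟩ := (hx' _).mp (pow_orderOf_eq_one x')
    rw [prodMap_pow_eq_smul_iff] at hc'
    obtain rfl := unipotent_pow_eq_smul (isNilpotent_cyc_add_one_sub_one _) hc'.2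
    simp only [one_smul] at hc'
    refine ⟨x', ?_, fun J hJ => pow_dvd_of_cyc_pow_eq_one p hJ hc'.2⟩
    by_contra h3
    have h4 := hc'.1
    rw [← neg_one_smul F, _root_.smul_pow, (Nat.odd_iff.mpr (by omega) : Odd (orderOf x')).neg_one_pow] at h4
    have h5 := congrFun (LinearMap.congr_fun h4 1) (Sum.inl 0)
    simp [← End.one_eq_id] at h5
    exact h2 (by linear_combination -h5)
  obtain ⟨u, hu, hu'⟩ := hu
  refine ⟨spec_cube (multiplicative_zmod_pow_eq_one m 2) _ _ h1 hNP hs ?_ ⟨u, hu⟩,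
    fun hj => spec_square (multiplicative_zmod_pow_eq_one m 2) _ _ h1 hNP hs
      ⟨u, hu' _ fun j hj' => ?_, hu⟩⟩
  · have := nontrivial_adjoinRoot_X_pow (F := F) (e := 2 * n) (by omega)
    obtain ⟨x', hx'⟩ := (pres_cyc_even (F := F) n).exists_psp (n := n) (finrank_adjoinRoot_X_pow _)
    obtain ⟨c', hc'⟩ := (hx' _).mp (pow_orderOf_eq_one x')
    obtain rfl := unipotent_pow_eq_smul (isNilpotent_cyc_add_one_sub_one _) hc'
    exact ⟨x', pow_dvd_of_cyc_pow_eq_one p (fun j hj => lt_of_lt_clog hp.one_lt hj)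
      (hc'.trans (one_smul _ _))⟩
  · have h3 := lt_of_lt_clog hp.one_lt hj'
    have h4 : 2 * n - 1 ≠ p ^ j := fun h => hj ⟨j, h⟩
    obtain ⟨l, hl⟩ := (Odd.of_dvd_nat hodd hpq).pow (n := j)
    omega

end Cfsg.Agent.S2512
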