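import Cfsg.Statements.S2513
import Cfsg.Agent.Lib.MatConj.LinSpec

set_option autoImplicit false
open Cfsg

namespace Cfsg.Agent.S2513

theorem exists_exponent {F : Type*} [Field F] [Fintype F] (hF : Fintype.card F = 2) (n k : ℕ)
    (hn : 2 ≤ n) (hk : (n + 3) / 2 ≤ k) :
    ∃ g : Fin k → Matrix.ProjectiveSpecialLinearGroup (Fin n) F,
      ∀ x : Matrix.ProjectiveSpecialLinearGroup (Fin n) F, x ^ orderOf g = 1 := by
  classical
  have : CharP F 2 := by
    obtain ⟨p', hp'⟩ := CharP.exists F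
    obtain ⟨k, hk1, hk2⟩ := FiniteField.card F p'
    have : 2 = p' := (Nat.prime_dvd_prime_iff_eq Nat.prime_two hk1).mp
      (Nat.prime_two.dvd_of_dvd_pow (by rw [← hk2, hF]))
    exact this ▸ hp'
  have : Nonempty (Fin n) := ⟨⟨0, by omega⟩⟩
  have hone : ∀ c : F, c ≠ 0 → c = 1 := fun c hc => by
    simpa [hF] using FiniteField.pow_card_sub_one_eq_one c hc
  obtain ⟨J, hJ⟩ : ∃ J, Nat.clog 2 n = J + 1 :=
    ⟨Nat.clog 2 n - 1, by have := Nat.clog_pos one_lt_two (show 1 < n by omega); omega⟩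
  have hJ1 : n ≤ 2 ^ (J + 1) := hJ ▸ Nat.le_pow_clog one_lt_two n
  have hJ2 : 2 ^ J < n := by
    have := Nat.pow_pred_clog_lt_self one_lt_two (show 1 < n by omega)
    rwa [hJ] at this
  obtain ⟨v, hv⟩ := H65.exists_sl_unipotent (F := F) (n := Fin n) (fun _ : Unit => n) (by simp)
  have hv' := H65.orderOf_psl_mk_unipotent 2 hv (fun _ => hJ1) ⟨(), hJ2⟩
  have hs : ∀ i, ∃ s : Matrix.ProjectiveSpecialLinearGroup (Fin n) F,
      1 ≤ i → i ≤ n → 2 ^ i - 1 ∣ orderOf s := by
    intro i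
    by_cases hi : 1 ≤ i ∧ i ≤ n
    · obtain ⟨A, hA⟩ := H65.exists_gl_orderOf_eq (F := F) (n := Fin n) i hi.1 (by simpa using hi.2)
      let s : Matrix.SpecialLinearGroup (Fin n) F := ⟨A, hone _ (Matrix.GeneralLinearGroup.det_ne_zero A)⟩
      refine ⟨s, fun _ _ => ?_⟩
      rw [← hF, ← hA, ← orderOf_units]
      apply orderOf_dvd_of_pow_eq_one
      obtain ⟨c, hc⟩ := (H65.psl_mk_pow_eq_one_iff s _).mp (pow_orderOf_eq_one _)
      have hc0 : c ≠ 0 := by
        rintro rfl
        have := congrArg Matrix.det hc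
        rw [Matrix.det_pow, s.2, zero_smul, Matrix.det_zero] at this
        simp at this
      rw [hone c hc0, one_smul] at hc
      exact hc
    · exact ⟨1, fun h1 h2 => absurd ⟨h1, h2⟩ hi⟩
  choose s hs using hs
  let g : Fin k → Matrix.ProjectiveSpecialLinearGroup (Fin n) F :=
    fun j => if (j : ℕ) = 0 then v else s (n / 2 + j)
  have h1 : 2 ^ (J + 1) ∣ orderOf g := by
    have := orderOf_apply_dvd_orderOf (x := g) ⟨0, by omega⟩
    simpa [g, hv'] using this
  have h2 : ∀ i, n / 2 < i → i ≤ n → 2 ^ i - 1 ∣ orderOf g := by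
    intro i hi1 hi2
    have := orderOf_apply_dvd_orderOf (x := g) ⟨i - n / 2, by omega⟩
    have h3 : i - n / 2 ≠ 0 := by omega
    have h4 : n / 2 + (i - n / 2) = i := by omega
    simp only [g, h3, if_false, h4] at this
    exact (hs i (by omega) hi2).trans this
  have h3 : ∀ i, 1 ≤ i → i ≤ n → 2 ^ i - 1 ∣ orderOf g := by
    intro i hi1 hi2
    have h4 := Nat.div_add_mod n i
    have h5 := Nat.mod_lt n (show 0 < i by omega)
    have h6 : i * 1 ≤ i * (n / i) := Nat.mul_le_mul_left _ (Nat.div_pos hi2 hi1)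
    exact (Nat.pow_sub_one_dvd_pow_sub_one 2 (dvd_mul_right i (n / i))).trans
      (h2 _ (by omega) (by omega))
  refine ⟨g, fun x => ?_⟩
  obtain ⟨x, rfl⟩ := QuotientGroup.mk_surjective x
  obtain ⟨M, hM⟩ := h1
  rw [H65.psl_mk_pow_eq_one_iff]
  refine ⟨1, ?_⟩
  rw [one_smul, ← H65.toLin'_eq_one_iff, H65.toLin'_pow', hM, mul_comm]
  refine H65.pow_eq_one_of_forall_dvd 2 ?_ (fun i hi1 hi2 => ?_) (by simpa using hJ1)
  · rw [LinearMap.isUnit_iff_isUnit_det, LinearMap.det_toLin', x.2]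
    exact isUnit_one
  · have h4 := h3 i hi1 (by simpa using hi2)
    rw [hM] at h4
    rw [hF]
    refine Nat.Coprime.dvd_of_dvd_mul_left ?_ h4
    apply Nat.Coprime.pow_right
    rw [Nat.coprime_two_right]
    exact Nat.Even.sub_odd (Nat.one_le_pow _ _ two_pos) ((Nat.even_pow' (by omega)).mpr even_two)
      odd_one

/-- Let F be the field with two elements, n ≥ 2, L = PSL(n, F) and k₀ = ⌊(n + 3)/2⌋. Then for every k ≥ k₀ the direct product of k copies of L has the same set of element orders as the direct product of k₀ copies of L. -/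
theorem result {F : Type*} [Field F] [Fintype F] (hF : Fintype.card F = 2) (n k : ℕ) (hn : 2 ≤ n) (hk : (n + 3) / 2 ≤ k) :
    Set.range (orderOf : (Fin k → Matrix.ProjectiveSpecialLinearGroup (Fin n) F) → ℕ) = Set.range (orderOf : (Fin ((n + 3) / 2) → Matrix.ProjectiveSpecialLinearGroup (Fin n) F) → ℕ) := by
  obtain ⟨g, hg⟩ := exists_exponent hF n k hn hk
  obtain ⟨g', hg'⟩ := exists_exponent hF n _ hn le_rfl
  exact Set.Subset.antisymm
    (H65.range_orderOf_subset fun a => ⟨g', orderOf_dvd_of_pow_eq_one (funext fun i => hg' (a i))⟩)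
    (H65.range_orderOf_subset fun a => ⟨g, orderOf_dvd_of_pow_eq_one (funext fun i => hg (a i))⟩)

end Cfsg.Agent.S2513
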