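import Cfsg.Statements.S2514
import Cfsg.Agent.Lib.MatConj.Orders

set_option autoImplicit false
open Cfsg

namespace Cfsg.Agent.S2514

open H65

theorem exists_max {G : Type*} [Group G] [Finite G] (x : G) : ∃ y : G, orderOf x ∣ orderOf y ∧
    ∀ m ∈ Set.range (orderOf : G → ℕ), orderOf y ∣ m → m = orderOf y := by
  obtain ⟨y, hy, h⟩ := Set.exists_max_image {y : G | orderOf x ∣ orderOf y} orderOf
    (Set.toFinite _) ⟨x, dvd_rfl⟩
  refine ⟨y, hy, ?_⟩
  rintro _ ⟨z, rfl⟩ hz
  exact le_antisymm (h z (dvd_trans hy hz)) (Nat.le_of_dvd (orderOf_pos z) hz)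


/-- For a finite group X write μ(X) for the set of element orders of X that are maximal under divisibility. Let G and H be finite groups and k ≥ 1 such that μ(H) ⊆ μ(G) and μ(G) has fewer than k elements outside μ(H). Then the direct product of k copies of G has the same set of element orders as the direct product of k − 1 copies of G with H. -/
theorem result {G H : Type*} [Group G] [Finite G] [Group H] [Finite H] (k : ℕ) (hk : 1 ≤ k)
    (hsub : {n : ℕ | n ∈ Set.range (orderOf : H → ℕ) ∧ ∀ m ∈ Set.range (orderOf : H → ℕ), n ∣ m → m = n} ⊆ {n : ℕ | n ∈ Set.range (orderOf : G → ℕ) ∧ ∀ m ∈ Set.range (orderOf : G → ℕ), n ∣ m → m = n})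
    (hfew : ({n : ℕ | n ∈ Set.range (orderOf : G → ℕ) ∧ ∀ m ∈ Set.range (orderOf : G → ℕ), n ∣ m → m = n} \ {n : ℕ | n ∈ Set.range (orderOf : H → ℕ) ∧ ∀ m ∈ Set.range (orderOf : H → ℕ), n ∣ m → m = n}).ncard < k) :
    Set.range (orderOf : (Fin k → G) → ℕ) = Set.range (orderOf : (Fin (k - 1) → G) × H → ℕ) := by
  obtain ⟨k, rfl⟩ : ∃ k', k = k' + 1 := ⟨k - 1, by omega⟩
  change _ = Set.range (orderOf : (Fin k → G) × H → ℕ)
  apply Set.Subset.antisymm <;> apply range_orderOf_subset
  · intro x
    choose y hy hy' using fun i => exists_max (x i)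
    have key : ∀ (i : Fin (k + 1)) (h : H), (orderOf (y i) = orderOf h ∨
        ∃ j, j ≠ i ∧ orderOf (y i) = orderOf (y j)) →
        ∃ b : (Fin k → G) × H, orderOf x ∣ orderOf b := by
      intro i h hi
      refine ⟨(fun j => y (i.succAbove j), h), ?_⟩
      have h1 := pow_orderOf_eq_one ((fun j => y (i.succAbove j), h) : (Fin k → G) × H)
      generalize orderOf ((fun j => y (i.succAbove j), h) : (Fin k → G) × H) = M at h1
      have h2 : ∀ j, j ≠ i → orderOf (y j) ∣ M := by
        intro j hj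
        obtain ⟨j, rfl⟩ := Fin.exists_succAbove_eq hj
        exact orderOf_dvd_of_pow_eq_one (congrFun (congrArg Prod.fst h1) j)
      have h3 : orderOf h ∣ M := orderOf_dvd_of_pow_eq_one (congrArg Prod.snd h1)
      apply orderOf_dvd_of_pow_eq_one
      funext j
      apply orderOf_dvd_iff_pow_eq_one.mp ((hy j).trans ?_)
      by_cases hj : j = i
      · subst hj
        rcases hi with hi | ⟨l, hl, hi⟩
        · rwa [hi]
        · exact hi ▸ h2 l hl
      · exact h2 j hj
    by_cases h : ∃ i h, orderOf (y i) = orderOf (h : H)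
    · obtain ⟨i, h, hi⟩ := h
      exact key i h (Or.inl hi)
    · push Not at h
      by_contra h1
      have h2 : Function.Injective fun i => orderOf (y i) := by
        intro i j hij
        by_contra h3
        exact h1 (key i 1 (Or.inr ⟨j, Ne.symm h3, hij⟩))
      refine hfew.not_ge (le_trans ?_ (Set.ncard_le_ncard (s := Set.range fun i => orderOf (y i))
        ?_ ((Set.finite_range (orderOf : G → ℕ)).subset fun n hn => hn.1.1)))
      · rw [Set.ncard_range_of_injective h2]
        simp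
      · rintro _ ⟨i, rfl⟩
        exact ⟨⟨⟨_, rfl⟩, hy' i⟩, fun ⟨⟨z, hz⟩, _⟩ => h i z hz.symm⟩
  · rintro ⟨x, h⟩
    obtain ⟨h', h1, h2⟩ := exists_max h
    obtain ⟨⟨g, hg⟩, -⟩ := hsub (a := orderOf h') ⟨⟨_, rfl⟩, h2⟩
    refine ⟨Fin.cons g x, ?_⟩
    have h3 := pow_orderOf_eq_one (Fin.cons g x : Fin (k + 1) → G)
    generalize orderOf (Fin.cons g x : Fin (k + 1) → G) = M at h3
    apply orderOf_dvd_of_pow_eq_one
    refine Prod.ext (funext fun i => congrFun h3 i.succ) ?_
    exact orderOf_dvd_iff_pow_eq_one.mp (h1.trans (hg ▸ orderOf_dvd_of_pow_eq_one (congrFun h3 0)))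

end Cfsg.Agent.S2514
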