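import Cfsg.Statements.S2515
import Mathlib
import Cfsg.Agent.Lib.Ree.SpecH

set_option autoImplicit false
open Cfsg

namespace Cfsg.Agent.S2515

/-- Let q = 3^α with α ≥ 3 odd. There is a finite group H having a non-trivial normal 3-subgroup and whose element orders maximal under divisibility are exactly 6, 9, q − 1 and (q + 1)/2. -/
theorem result (α : ℕ) (hα : 3 ≤ α) (hodd : Odd α) :
    ∃ (H : Type) (_ : Group H) (_ : Fintype H), (∃ P : Subgroup H, P.Normal ∧ P ≠ ⊥ ∧ IsPGroup 3 ↥P) ∧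
      {n : ℕ | n ∈ Set.range (orderOf : H → ℕ) ∧ ∀ m ∈ Set.range (orderOf : H → ℕ), n ∣ m → m = n} = ({6, 9, 3 ^ α - 1, (3 ^ α + 1) / 2} : Set ℕ) := by
  obtain ⟨m, rfl⟩ := hodd
  have : Fact (Nat.Prime 3) := ⟨Nat.prime_three⟩
  have := Fintype.ofFinite (GaloisField 3 (2 * m + 1))
  have hK' := GaloisField.card 3 (2 * m + 1) (by omega)
  have hK := Nat.card_eq_fintype_card.symm.trans hK'
  have hq := H40.Ree.three_lt_card (by omega) hK
  let S := H40.Ree.lieModel hK
  have := S.finite_HV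
  have h8 := S.card_mod_eight
  have h27 := S.le_card hq
  have h3 := (H40.Ree.Model.card_three_ne (K := GaloisField 3 (2 * m + 1))).2
  refine ⟨S.HV, inferInstance, Fintype.ofFinite _, S.exists_normal_HV, ?_⟩
  simp only [S.mem_spec_HV]
  rw [← hK']
  generalize Nat.card (GaloisField 3 (2 * m + 1)) = q at h8 h27 h3
  ext n
  simp only [Set.mem_ofPred_eq, Set.mem_insert_iff, Set.mem_singleton_iff]
  constructor
  · rintro ⟨h | h | h | h, h'⟩
    · exact Or.inl (h' _ (Or.inl dvd_rfl) h).symm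
    · exact Or.inr (Or.inl (h' _ (Or.inr (Or.inl dvd_rfl)) h).symm)
    · exact Or.inr (Or.inr (Or.inl (h' _ (Or.inr (Or.inr (Or.inl dvd_rfl))) h).symm))
    · exact Or.inr (Or.inr (Or.inr (h' _ (Or.inr (Or.inr (Or.inr dvd_rfl))) h).symm))
  · have l1 : ¬ q - 1 ∣ 6 := fun h => by have := Nat.le_of_dvd (by omega) h; omega
    have l2 : ¬ q - 1 ∣ 9 := fun h => by have := Nat.le_of_dvd (by omega) h; omega
    have l3 : ¬ q - 1 ∣ (q + 1) / 2 := fun h => by have := Nat.le_of_dvd (by omega) h; omega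
    have l4 : ¬ (q + 1) / 2 ∣ 6 := fun h => by have := Nat.le_of_dvd (by omega) h; omega
    have l5 : ¬ (q + 1) / 2 ∣ 9 := fun h => by have := Nat.le_of_dvd (by omega) h; omega
    have l6 : ¬ (q + 1) / 2 ∣ q - 1 := fun h => by
      have := Nat.le_of_dvd (by omega) (Nat.dvd_sub (dvd_mul_right ((q + 1) / 2) 2) h); omega
    rintro (rfl | rfl | rfl | rfl)
    all_goals refine ⟨by simp, ?_⟩
    all_goals rintro k (h | h | h | h) h'
    all_goals first | exact Nat.dvd_antisymm h h' | (have := h'.trans h; first | contradiction | omega)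

end Cfsg.Agent.S2515
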