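import Cfsg.Statements.S2516
import Cfsg.Agent.Base

set_option autoImplicit false
open Cfsg

namespace Cfsg.Agent.S2516

open Polynomial


/-- Let F be a field of characteristic p > 0, V a non-zero finite-dimensional F-vector space, G a finite group and ρ a representation of G on V; form the semidirect product V ⋊ G. For g ∈ G of order k, the coset Vg contains an element of order pk if and only if the minimal polynomial of ρ(g) does not divide 1 + X + ⋯ + X^(k−1). -/
theorem result {F : Type*} [Field F] (p : ℕ) [Fact p.Prime] [CharP F p] {V : Type*} [AddCommGroup V] [Module F V] [FiniteDimensional F V] [Nontrivial V]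
    {G : Type*} [Group G] [Finite G] (ρ : Representation F G V) (g : G) :
    (∃ x : Multiplicative V ⋊[(MulAutMultiplicative V).symm.toMonoidHom.comp
        ((DistribMulAction.toAddAut ((V →ₗ[F] V)ˣ) V).comp ρ.asGroupHom)] G,
        x.right = g ∧ orderOf x = p * orderOf g) ↔
      ¬ (minpoly F (ρ g) ∣ ∑ i ∈ Finset.range (orderOf g), (Polynomial.X : Polynomial F) ^ i) := by
  have hp : p.Prime := Fact.out
  have hk := orderOf_pos g
  have key : ∀ (x : Multiplicative V ⋊[(MulAutMultiplicative V).symm.toMonoidHom.comp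
      ((DistribMulAction.toAddAut ((V →ₗ[F] V)ˣ) V).comp ρ.asGroupHom)] G) (m : ℕ),
      (x ^ m).left.toAdd = (∑ i ∈ Finset.range m, ρ x.right ^ i) x.left.toAdd ∧
        (x ^ m).right = x.right ^ m := by
    intro x m
    induction m with
    | zero => exact ⟨rfl, (pow_zero _).symm⟩
    | succ m ih =>
      rw [pow_succ, SemidirectProduct.mul_left, SemidirectProduct.mul_right, ih.2, pow_succ,
        toAdd_mul, ih.1, Finset.sum_range_succ, LinearMap.add_apply, ← map_pow]
      exact ⟨rfl, rfl⟩
  have hS : aeval (ρ g) (∑ i ∈ Finset.range (orderOf g), (X : F[X]) ^ i) =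
      ∑ i ∈ Finset.range (orderOf g), ρ g ^ i := by simp
  rw [minpoly.dvd_iff, hS]
  constructor
  · rintro ⟨x, rfl, hx⟩ h
    have h1 : x ^ orderOf x.right = 1 := by
      obtain ⟨h1, h2⟩ := key x (orderOf x.right)
      refine SemidirectProduct.ext (Multiplicative.toAdd.injective ?_) ?_
      · rw [h1, h]; rfl
      · rw [h2, pow_orderOf_eq_one]; rfl
    have h2 := Nat.le_of_dvd hk (hx ▸ orderOf_dvd_of_pow_eq_one h1)
    have := hp.one_lt
    nlinarith
  · intro h
    obtain ⟨v, hv⟩ := DFunLike.ne_iff.mp h
    let x : Multiplicative V ⋊[(MulAutMultiplicative V).symm.toMonoidHom.comp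
      ((DistribMulAction.toAddAut ((V →ₗ[F] V)ˣ) V).comp ρ.asGroupHom)] G :=
      ⟨Multiplicative.ofAdd v, g⟩
    refine ⟨x, rfl, ?_⟩
    have h1 : x ^ orderOf g = SemidirectProduct.inl
        (Multiplicative.ofAdd ((∑ i ∈ Finset.range (orderOf g), ρ g ^ i) v)) := by
      obtain ⟨h1, h2⟩ := key x (orderOf g)
      refine SemidirectProduct.ext (Multiplicative.toAdd.injective h1) ?_
      rw [h2]
      exact pow_orderOf_eq_one g
    have h2 : orderOf (x ^ orderOf g) = p := by
      rw [h1, orderOf_injective _ SemidirectProduct.inl_injective, orderOf_ofAdd_eq_addOrderOf]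
      refine addOrderOf_eq_prime ?_ hv
      rw [← Nat.cast_smul_eq_nsmul F, CharP.cast_eq_zero, zero_smul]
    have h3 : orderOf g ∣ orderOf x := orderOf_map_dvd SemidirectProduct.rightHom x
    rw [orderOf_pow_of_dvd hk.ne' h3] at h2
    rw [← h2, Nat.div_mul_cancel h3]

end Cfsg.Agent.S2516
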