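import Cfsg.Statements.S2517
import Cfsg.Agent.Lib.MatConj.Aff
import Cfsg.Agent.Lib.Spec.Basic

set_option autoImplicit false
open Cfsg

namespace Cfsg.Agent.S2517

open H65 H12 Module Polynomial

section

variable {F : Type*} [Field F] [Fintype F] [DecidableEq F] [NeZero (2 : F)] {a b : F}
  {V : Type*} [AddCommGroup V] [Module F V] [FiniteDimensional F V] {f : End F V} {δ s : ℤˣ} {N : ℕ}

theorem spin_neg (h : Aniso a b) {δ : ℤˣ} (hδ : spinFun (negO (QMinus 3 a b)) = δ) : δ = -1 := by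
  have hQ := nondeg_QMinus h 3
  have hG := good_of_two_ne_zero hQ two_ne_zero
  have ho := odd_card_iff.2 (two_ne_zero (α := F))
  refine (Int.units_eq_one_or δ).resolve_left fun e => ?_
  have := (negO_mem_Om_QMinus ho h 3).1 ((mem_Om_iff hQ hG _).2 ⟨(detO_eq_one_iff hQ hG two_ne_zero _).1
    (show LinearMap.det (-1 : End F ((Fin 3 ⊕ Fin 3) ⊕ Fin 2 → F)) = 1 by
      simp [det_neg_end]; norm_num),
    Units.ext (hδ.trans (congrArg _ e))⟩)
  have h4 : Fintype.card F % 4 = 1 ∨ Fintype.card F % 4 = 3 := by grind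
  rcases h4 with e | e <;> simp [Nat.pow_mod, e] at this

variable (a b) in
/-- the spectrum of the affine group -/
abbrev S : Set ℕ := Set.range (orderOf : AffOm (QMinus 3 a b) → ℕ)

variable (hab : Aniso a b)
include hab

theorem mem_S (h : OD f (-1) 1) (hd : LinearMap.det f = 1) (hV : finrank F V = 8) (v : V)
    (hN : ∀ k, f ^ k = 1 → gs f k v = 0 → N ∣ k) : N ∈ S a b := by
  have hQ := nondeg_QMinus hab 3
  obtain ⟨-, δ, h1, -⟩ := od_of_omega hQ 1
  obtain ⟨x, hx⟩ := h.exists_omega hd hQ (by simpa) (Or.inr (spin_neg hab h1 ▸ h1))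
  obtain ⟨e, he⟩ := id hx
  let y : AffOm (QMinus 3 a b) := ⟨Multiplicative.ofAdd (e v), x⟩
  have : Finite (AffOm (QMinus 3 a b)) := Finite.of_equiv _ SemidirectProduct.equivProd.symm
  obtain ⟨h2, h3⟩ := (affOm_pow_eq_one_iff y _).1 (pow_orderOf_eq_one y)
  exact exists_orderOf_eq_of_dvd (g := y) (hN _ ((hx.pow _).eq_one_iff.2 h2)
    (e.map_eq_zero_iff.1 ((gs_intertwine e.toLinearMap he _ v).trans h3)))

theorem mem_S_jb (h : OD f δ 1) (hd : LinearMap.det f = 1) {j : ℕ}
    (hV : finrank F V + 2 * j + 2 = 8)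
    (hN : ∀ k, f ^ k = 1 → jb F (2 * j + 2) ^ k = 1 → N ∣ k) : N ∈ S a b := by
  obtain ⟨δ', h1, h2⟩ := od_jb (F := F) j
  refine mem_S hab (f := ((jb F (2 * j + 1)).prodMap (1 : End F F)).prodMap f)
    (by simpa [mul_left_comm δ', mul_comm δ', mul_assoc, ← mul_assoc δ] using
      (h1.prodMap (od_line (-(δ * δ')))).prodMap h)
    (by rw [LinearMap.det_prodMap, LinearMap.det_prodMap, h2, hd]; simp)
    (by rw [finrank_prod, finrank_prod, finrank_adjoinRoot_X_pow, finrank_self]; omega) ((1, 0), 0)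
    fun k hk hk' => hN k ((prodMap_pow_eq_one_iff _ _ _).1 hk).2 (jb_succ_pow_eq_one_of_gs ?_)
  rw [gs_prodMap, gs_prodMap] at hk'
  exact congrArg (·.1.1) hk'

theorem mem_S_six (h : OD f δ s) (hd : LinearMap.det f = 1) (hV : finrank F V = 6)
    (hN : ∀ k, f ^ k = 1 → N ∣ k) : N ∈ S a b := by
  obtain ⟨t, h1, h2⟩ := od_plane (F := F) (-δ) s
  exact mem_S hab (f := t.prodMap f) (by simpa using h2.prodMap h) (by rw [LinearMap.det_prodMap, h1, hd, one_mul])
    (by simp [hV]) 0 fun k hk _ => hN k ((prodMap_pow_eq_one_iff _ _ _).1 hk).2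

theorem mem_S_torus {m D j : ℕ} (hm : 0 < m)
    (hD : D = Fintype.card F ^ m - 1 ∨ D = Fintype.card F ^ m + 1) (hj : m + j = 2)
    (hN : ∀ k, D ∣ k → jb F (2 * j + 2) ^ k = 1 → N ∣ k) : N ∈ S a b := by
  obtain ⟨A, δ, s, h, h0, rfl, -⟩ := exists_od_torus hm hD
  obtain ⟨t, h1, h2⟩ := od_plane (F := F) 1 s
  exact mem_S_jb hab (j := j) (f := t.prodMap (Matrix.toLin' A)) (by simpa using h2.prodMap h)
    (by rw [LinearMap.det_prodMap, h1, h0, one_mul]) (by simp; omega) fun k hk =>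
      hN k (orderOf_dvd_of_pow_eq_one ((prodMap_pow_eq_one_iff _ _ _).1 hk).2)

theorem mem_S_four (hN : ∀ k, Fintype.card F ^ 2 - 1 ∣ k → Fintype.card F ^ 2 + 1 ∣ k → N ∣ k) :
    N ∈ S a b := by
  obtain ⟨A, h1, h2, h3⟩ := exists_od_torus' (F := F) le_rfl (Or.inl rfl)
  obtain ⟨B, h4, h5, h6⟩ := exists_od_torus' (F := F) le_rfl (Or.inr rfl)
  have h := h1.prodMap h4
  have := Nat.odd_iff.1 ((odd_card_iff.2 (two_ne_zero (α := F))).pow (n := 2))
  rw [← pow_add, Odd.neg_one_pow (Nat.odd_iff.2 (by omega)), neg_mul_neg, one_mul] at h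
  exact mem_S hab h (by rw [LinearMap.det_prodMap, h2, h5, one_mul]) (by simp) 0 fun k hk _ =>
    hN k (h3 ▸ orderOf_dvd_of_pow_eq_one ((prodMap_pow_eq_one_iff _ _ _).1 hk).1)
      (h6 ▸ orderOf_dvd_of_pow_eq_one ((prodMap_pow_eq_one_iff _ _ _).1 hk).2)

theorem mem_S_plus {B : Matrix (Fin 8) (Fin 8) F} (h : OD (Matrix.toLin' B) 1 1)
    (hB : ∀ γ ∈ ev (AlgebraicClosure F) B, γ ^ 2 ≠ 1) : orderOf (Matrix.toLin' B) ∈ S a b := by
  classical
  have hq := Fintype.one_lt_card (α := F)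
  have ho := odd_card_iff.2 (two_ne_zero (α := F))
  have h4 : Fintype.card F % 4 = 1 ∨ Fintype.card F % 4 = 3 := by grind
  have h5 : Fintype.card F ^ 2 % 4 = 1 ∧ Fintype.card F ^ 4 % 4 = 1 ∧
      Fintype.card F ^ 3 % 4 = Fintype.card F % 4 := by
    rcases h4 with e | e <;> simp [Nat.pow_mod, e]
  have hR : (ev (AlgebraicClosure F) B).card = 8 := by simp [card_ev]
  choose! m D O a1 a2 a3 a4 using fun γ hγ => h.pres.exists_orb hγ (hB γ hγ)
  simp only [Fintype.card_fin] at a3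
  have fin := @pow_eq_one_of_ev_jb F _ _ (AlgebraicClosure F) _ _ _ _ _ _ _ B
  have tw := fun α β hα hβ c c' e => h.of_two_orb (a1 α hα) (a1 β hβ) (c := c) (c' := c') e
  generalize ev (AlgebraicClosure F) B = R at *
  have key : ∀ {α β c c' k}, α ∈ R → β ∈ R →
      R = c • (O α).val + c' • (O β).val → α ^ k = 1 → β ^ k = 1 →
        ∀ γ ∈ R, γ ^ k = 1 :=
    fun hα hβ e h1 h2 γ hγ => (Multiset.mem_add.1 (e ▸ hγ)).elim
      (fun h => (a1 _ hα).pow_eq_one h1 (Multiset.mem_of_mem_nsmul h))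
      fun h => (a1 _ hβ).pow_eq_one h2 (Multiset.mem_of_mem_nsmul h)
  have one : ∀ {α c}, α ∈ R → R.count α = c → 2 * m α * c = 8 →
      R = c • (O α).val + 0 • (O α).val := fun hα h1 h2 => by
    rw [zero_smul, add_zero]
    exact eq_nsmul_of_card_le (fun γ h => h1 ▸ (a2 _ hα γ h).ge) (by rw [(a1 _ hα).card, h2, hR])
  have two : ∀ {α β}, α ∈ R → β ∈ R → β ∉ O α →
      2 * m α * R.count α + 2 * m β * R.count β ≤ 8 ∧
      (2 * m α * R.count α + 2 * m β * R.count β = 8 →
        R = R.count α • (O α).val + R.count β • (O β).val) := fun hα hβ e => by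
    have hd := (a1 _ hα).disjoint (a1 _ hβ) hq.le e
    rw [← (a1 _ hα).card, ← (a1 _ hβ).card]
    exact ⟨(card_mul_count_add_le (a2 _ hα) (a2 _ hβ) hd).trans hR.le, fun e => eq_nsmul_add_nsmul
      (fun γ h => (a2 _ hα γ h).ge) (fun γ h => (a2 _ hβ γ h).ge) hd (hR.trans e.symm).le⟩
  have cnt : ∀ {c}, (∀ γ ∈ R, R.count γ ≤ c) → ∀ γ, R.count γ ≤ c := fun H γ =>
    (em (γ ∈ R)).elim (H γ) fun hγ => by simp [hγ]
  have pw : ∀ {α k}, α ∈ R → D α ∣ k → α ^ k = 1 := fun hα ⟨c, hc⟩ => by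
    rw [hc, pow_mul, (a1 _ hα).pow, one_pow]
  by_cases H3 : ∃ α ∈ R, 3 ≤ m α
  · obtain ⟨α, hα, H3⟩ := H3
    have b1 := a3 α hα
    have b2 := a4 α hα
    have b3 : R.count α = 1 := by nlinarith
    rw [b3] at b1
    have b4 := (a1 α hα).eq
    by_cases H4 : m α = 4
    · have e := one hα b3 (by omega)
      obtain ⟨c1, c2⟩ := tw α α hα hα _ _ e
      rw [mul_one, mul_zero, add_zero, eq_comm, neg_one_pow_eq_one_iff_even (by decide),
        Nat.even_iff] at c2
      rw [H4] at b4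
      refine mem_S_four hab fun k h1 h2 => orderOf_dvd_of_pow_eq_one (fin
        (fun γ hγ => ?_) (c := 1) (fun γ => by
          simpa [e] using Multiset.nodup_iff_count_le_one.1 (O α).nodup γ) (jb_one_pow k))
      obtain ⟨c, rfl⟩ : D α / 2 ∣ k := by
        obtain ⟨r, hr⟩ := ho.pow (n := 2)
        rw [show Fintype.card F ^ 4 = (Fintype.card F ^ 2) ^ 2 by ring, hr] at b4 h5
        rw [hr, Nat.add_sub_cancel] at h1
        obtain ⟨k, rfl⟩ := (dvd_mul_right _ _).trans h1
        rw [hr, show 2 * r + 1 + 1 = 2 * (r + 1) by ring, mul_dvd_mul_iff_left two_ne_zero] at h2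
        rw [mul_dvd_mul_iff_left two_ne_zero] at h1
        rw [show D α / 2 = 2 * (r * (r + 1)) by
          rw [show (2 * r + 1) ^ 2 = 4 * (r * (r + 1)) + 1 by ring] at b4; omega]
        exact mul_dvd_mul_left _ (Nat.Coprime.mul_dvd_of_dvd_of_dvd (by simp) h1 h2)
      have : α ^ (D α / 2) = 1 := by simpa using c1
      rw [pow_mul, key hα hα e this this γ hγ, one_pow]
    · replace H4 : m α = 3 := by omega
      obtain ⟨β, hβ, c1⟩ : ∃ β ∈ R, β ∉ O α := by
        by_contra! e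
        have := Multiset.card_le_card (Multiset.le_iff_count.2 fun γ => show R.count γ ≤
          (O α).val.count γ by
            by_cases hγ : γ ∈ R
            · rw [a2 α hα γ (e γ hγ), b3, Multiset.count_eq_one_of_mem (O α).nodup (e γ hγ)]
            · simp [hγ])
        rw [hR, Finset.card_val, (a1 α hα).card] at this
        omega
      obtain ⟨c2, e⟩ := two hα hβ c1
      have c3 := a4 β hβ
      have c4 := (a1 β hβ).pos
      have c5 := (a1 β hβ).eq
      rw [b3, H4] at c2 e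
      have c6 : m β = 1 := by nlinarith
      have c7 : R.count β = 1 := by nlinarith
      rw [c6, c7] at e
      replace e := e rfl
      have c8 := (tw α β hα hβ _ _ e).2
      rw [mul_one, mul_one, eq_comm, neg_one_pow_eq_one_iff_even (by decide), Nat.even_iff] at c8
      rw [c6, pow_one] at c5
      rw [H4] at b4
      have c9 : D β ∣ D α := by
        rcases b4 with e | e <;> rcases c5 with e' | e'
        · simpa [e, e'] using Nat.sub_dvd_pow_sub_pow (Fintype.card F) 1 3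
        · omega
        · omega
        · simpa [e, e'] using Odd.nat_add_dvd_pow_add_pow (Fintype.card F) 1 (n := 3) (by decide)
      obtain ⟨A, δ, s, d1, d2, d3, -⟩ := exists_od_torus three_pos b4
      refine mem_S_six hab d1 d2 (by simp) fun k hk => orderOf_dvd_of_pow_eq_one
        (fin (key hα hβ e ?_ ?_) (c := 1) (cnt fun γ hγ => ?_) (jb_one_pow k))
      · exact pw hα (d3 ▸ orderOf_dvd_of_pow_eq_one hk)
      · exact pw hβ (c9.trans (d3 ▸ orderOf_dvd_of_pow_eq_one hk))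
      · rcases Multiset.mem_add.1 (e ▸ hγ) with h | h
        exacts [(a2 α hα γ (by simpa using h)).trans_le b3.le,
          (a2 β hβ γ (by simpa using h)).trans_le c7.le]
  push Not at H3
  have H2 : ∀ γ ∈ R, D γ ∣ Fintype.card F ^ 2 - 1 ∨
      (m γ = 2 ∧ D γ = Fintype.card F ^ 2 + 1) := fun γ hγ => by
    have c1 := (a1 γ hγ).pos
    have c2 := (a1 γ hγ).eq
    have c3 := (a1 γ hγ).dvd
    have := H3 γ hγ
    by_cases e : m γ = 2
    · rw [e] at c2
      exact c2.imp dvd_of_eq fun h => ⟨e, h⟩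
    · exact Or.inl (by rwa [show m γ = 1 by omega] at c3)
  by_cases H1 : ∀ γ, R.count γ ≤ 1
  · exact mem_S_four hab fun k h1 h2 => orderOf_dvd_of_pow_eq_one (fin
      (fun γ hγ => pw hγ ((H2 γ hγ).elim (·.trans h1) (·.2 ▸ h2))) H1 (jb_one_pow k))
  push Not at H1
  obtain ⟨β, hβ'⟩ := H1
  have hβ := Multiset.count_pos.1 (one_pos.trans hβ')
  by_cases H0 : ∀ γ ∈ R, D γ ∣ Fintype.card F ^ 2 - 1
  · by_cases H4 : ∀ γ, R.count γ ≤ 3
    · exact mem_S_torus hab two_pos (Or.inl rfl) (j := 0) rfl fun k h1 h2 =>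
        orderOf_dvd_of_pow_eq_one (fin (fun γ hγ => pw hγ ((H0 γ hγ).trans h1)) H4
          (jb_odd_pow_eq_one (j := 1) h2))
    push Not at H4
    obtain ⟨α, hα'⟩ := H4
    have hα := Multiset.count_pos.1 (three_pos.trans hα')
    have c1 := a3 α hα
    have c2 := (a1 α hα).pos
    have c3 : m α = 1 := by nlinarith
    have e := one hα rfl (by rw [c3] at c1 ⊢; omega)
    exact mem_S_torus hab one_pos (c3 ▸ (a1 α hα).eq) (j := 1) rfl fun k h1 h2 =>
      orderOf_dvd_of_pow_eq_one (fin (key hα hα e (pw hα h1) (pw hα h1))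
        (cnt fun γ hγ => by nlinarith [a3 γ hγ, (a1 γ hγ).pos]) h2)
  push Not at H0
  obtain ⟨α, hα, H0⟩ := H0
  obtain ⟨c1, c2⟩ := (H2 α hα).resolve_left H0
  have c3 := a3 α hα
  have c4 := a4 α hα
  rw [c1] at c3
  by_cases c5 : R.count α = 2
  · have e := one hα c5 (by rw [c1])
    exact mem_S_torus hab two_pos (Or.inr c2) (j := 0) rfl fun k h1 h2 =>
      orderOf_dvd_of_pow_eq_one (fin (key hα hα e (pw hα h1) (pw hα h1))
        (fun γ => by
          simpa [e] using Multiset.nodup_iff_count_le_one.1 (O α).nodup γ) h2)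
  replace c5 : R.count α = 1 := by omega
  obtain ⟨c6, e⟩ := two hα hβ fun e => by have := a2 α hα β e; omega
  have c7 := (a1 β hβ).pos
  rw [c1, c5] at c6 e
  have c8 : m β = 1 := by nlinarith
  rw [c8] at c6 e
  have c9 := (tw α β hα hβ _ _ (e (by omega))).2
  rw [show R.count β = 2 by omega, eq_comm, neg_one_pow_eq_one_iff_even (by decide),
    Nat.even_iff] at c9
  omega

theorem mem_S_eight (h : OD f δ 1) (hd : LinearMap.det f = 1) (hV : finrank F V = 8)
    (hu : IsUnit (f - 1)) : orderOf f ∈ S a b := by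
  obtain rfl | rfl := Int.units_eq_one_or δ
  swap
  · exact mem_S hab h hd hV 0 fun k hk _ => orderOf_dvd_of_pow_eq_one hk
  obtain ⟨U, U', _, _, _, _, _, _, w, g, δ₁, δ₂, e, b1, b2, b3, b4, b5, b6, b7, b8⟩ := h.split_neg_one
  obtain ⟨i, hi⟩ := b7.1 hd
  have c1 : ∀ k, (-w) ^ k = 1 → g ^ k = 1 → orderOf f ∣ k := fun k h h' => by
    rw [← e.orderOf_eq]
    exact orderOf_dvd_of_pow_eq_one ((prodMap_pow_eq_one_iff _ _ _).2 ⟨h, h'⟩)
  have c2 := b1.pres.pow_eq_zero_of_even two_ne_zero b4 (b7.1 hd)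
  rw [mul_one] at b2
  rcases i with _ | _ | i
  · have := finrank_zero_iff.1 hi
    obtain rfl : δ₁ = 1 := by simpa using b1.neg.spin_eq_one odd_one (Subsingleton.elim _ _)
    obtain rfl : δ₂ = 1 := by simpa using b3
    obtain ⟨B, hB⟩ := exists_matrix_similar g (n := Fin 8) (by simp; omega)
    have c3 : IsUnit (g - 1) := isUnit_of_prodMap (f := -w - 1) (by
      rw [show (-w - 1).prodMap (g - 1) = ((-w).prodMap g : End F (U × U')) - 1 from
        LinearMap.ext fun _ => rfl]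
      exact e.sub_one.isUnit_iff.2 hu)
    have : Finite (AffOm (QMinus 3 a b)) := Finite.of_equiv _ SemidirectProduct.equivProd.symm
    refine H74.Spec.mem_range_orderOf_of_dvd (mem_S_plus hab (b2.of_similar hB) fun γ hγ e =>
      (sq_eq_one_iff.1 e).elim (fun e => one_not_mem_ev (hB.sub_one.isUnit_iff.1 c3) (e ▸ hγ))
        fun e => neg_one_not_mem_ev (hB.add_one.isUnit_iff.1 b5) (e ▸ hγ)) ?_
    rw [← hB.orderOf_eq]
    exact c1 _ (Subsingleton.elim _ _) (pow_orderOf_eq_one g)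
  · have c3 : w = 1 := by simpa [hi, sub_eq_zero] using c2
    have c4 : ∀ k, 2 ∣ k → g ^ k = 1 → orderOf f ∣ k := fun k h =>
      c1 k (by rw [c3, (even_iff_two_dvd.2 h).neg_one_pow])
    have := Module.nontrivial_of_finrank_pos (R := F) (M := U') (by omega)
    by_cases c5 : 2 ∣ orderOf g
    · exact mem_S_six hab b2 b6 (by omega) fun k hk =>
        c4 k (c5.trans (orderOf_dvd_of_pow_eq_one hk)) hk
    · refine mem_S_six hab b2.neg (by rw [det_neg_end, b6, show finrank F U' = 6 by omega]; norm_num)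
        (by omega) fun k hk => ?_
      have c6 : 2 ∣ k := (Nat.prime_two.dvd_mul.1 (two_dvd_of_neg_one_pow (F := F) (V := U') (by
        have := congrArg (· ^ orderOf g) hk
        simp only [← pow_mul] at this
        rwa [neg_pow, pow_mul' g, pow_orderOf_eq_one, one_pow, mul_one, one_pow] at this))).resolve_right c5
      exact c4 k c6 ((even_iff_two_dvd.2 c6).neg_pow g ▸ hk)
  · refine mem_S_jb hab (f := (-1 : End F (F × F)).prodMap g) (j := i)
      (by simpa using (od_neg_one δ₁).1.prodMap b2)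
      (by rw [LinearMap.det_prodMap, b6, (od_neg_one 1).2, one_mul]) (by simp; omega) fun k hk hk' => ?_
    rw [prodMap_pow_eq_one_iff] at hk
    refine c1 k ?_ hk.2
    rw [(even_iff_two_dvd.2 (two_dvd_of_neg_one_pow hk.1)).neg_pow]
    exact pow_eq_one_of_jb (pow_eq_zero_of_le (by omega) (c2.resolve_right (by omega)))
      (jb_odd_pow_eq_one (j := i + 1) hk')

omit hab in
theorem even_of_isUnit (h : OD f δ s) (hd : LinearMap.det f = 1) (hu : IsUnit (f - 1)) :
    Even (finrank F V) := by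
  have := h.pres.neg.det_eq_one (neg_add_eq_sub f 1 ▸ neg_sub f 1 ▸ hu.neg)
  rwa [det_neg_end, hd, mul_one, neg_one_pow_eq_one_iff_even fun e =>
    two_ne_zero (α := F) (by linear_combination -e)] at this

end


/-- Let F be a finite field of odd order q, let Ω₉ be the simple orthogonal group PΩ(9, F), and let Ω₈⁻ be the commutator subgroup of the isometry group of a minus-type non-singular quadratic form on V = F⁸ (the simple group PΩ⁻(8, F), acting on its natural module V). Then Ω₉ and the semidirect product V ⋊ Ω₈⁻ have exactly the same set of element orders. -/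
theorem result {F : Type*} [Field F] [Fintype F] (hF : Odd (Fintype.card F)) (a b : F)
    (hab : ∀ z₁ z₂ : F, z₁ ^ 2 + a * z₁ * z₂ + b * z₂ ^ 2 = 0 → z₁ = 0 ∧ z₂ = 0) :
    Set.range (orderOf : Cfsg.POmega F (Cfsg.quadFormOdd 4 F) → ℕ) =
      Set.range (orderOf :
        (Multiplicative (((Fin 3 ⊕ Fin 3) ⊕ Fin 2) → F)) ⋊[
          (MulAutMultiplicative (((Fin 3 ⊕ Fin 3) ⊕ Fin 2) → F)).symm.toMonoidHom.comp
           ((DistribMulAction.toAddAut (LinearMap.GeneralLinearGroup F (((Fin 3 ⊕ Fin 3) ⊕ Fin 2) → F))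
              (((Fin 3 ⊕ Fin 3) ⊕ Fin 2) → F)).comp
            (Matrix.GeneralLinearGroup.toLin.toMonoidHom.comp
              ((Cfsg.isometryGroup F (Cfsg.quadFormMinus 3 F a b)).subtype.comp
                (Cfsg.Omega F (Cfsg.quadFormMinus 3 F a b)).subtype)))]
          ↥(Cfsg.Omega F (Cfsg.quadFormMinus 3 F a b)) → ℕ) := by
  classical
  have : NeZero (2 : F) := ⟨two_ne_zero_of_odd hF⟩
  change _ = Set.range (orderOf : AffOm (quadFormMinus 3 F a b) → ℕ)
  rw [← coe_QMinus]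
  refine Set.Subset.antisymm (fun N hN => ?_) ?_
  · obtain ⟨A, δ, hd, h, rfl⟩ := (mem_range_pomega_odd_iff (by omega) N).1 hN
    obtain ⟨U, U', _, _, _, _, _, _, u, g, δ₁, δ₂, e, b1, b2, -, b4, b5, b6, b7⟩ := h.split_one
    rw [LinearMap.det_toLin', hd] at b6
    obtain ⟨i, hi⟩ := even_of_isUnit b2 b6 b5
    have c1 := pow_finrank_eq_zero_of_isNilpotent b4
    simp only [finrank_fintype_fun_eq_card, Fintype.card_sum, Fintype.card_fin,
      Fintype.card_unique] at b7
    rw [← e.orderOf_eq]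
    by_cases hi' : i = 4
    · rw [show finrank F U = 1 by omega, pow_one, sub_eq_zero] at c1
      simpa [orderOf_prodMap, c1] using mem_S_eight hab b2 b6 (by omega) b5
    · exact mem_S_jb hab b2 b6 (j := 3 - i) (by omega) fun k hk hk' => orderOf_dvd_of_pow_eq_one
        ((prodMap_pow_eq_one_iff _ _ _).2 ⟨pow_eq_one_of_jb (pow_eq_zero_of_le (by omega) c1)
          (jb_odd_pow_eq_one (j := 3 - i + 1) hk'), hk⟩)
  · rintro _ ⟨y, rfl⟩
    obtain ⟨hd, δ, -, h⟩ := od_of_omega (nondeg_QMinus hab 3) y.right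
    obtain ⟨U, U', _, _, _, _, _, _, u, g, δ₁, δ₂, e, b1, b2, -, b4, b5, b6, b7⟩ := h.split_one
    rw [LinearMap.det_toLin', hd] at b6
    obtain ⟨i, hi⟩ := even_of_isUnit b2 b6 b5
    have c1 := pow_finrank_eq_zero_of_isNilpotent b4
    simp only [finrank_fintype_fun_eq_card, Fintype.card_sum, Fintype.card_fin] at b7
    obtain ⟨δ', h1, h2⟩ := od_jb (F := F) (4 - i)
    refine (one_mul (1 : ℤˣ) ▸ h1.prodMap b2).mem_range_pomega_odd (by
      rw [LinearMap.det_prodMap, h2, b6, one_mul]) (by omega) (by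
        rw [finrank_prod, finrank_adjoinRoot_X_pow]; omega) (orderOf_dvd_of_pow_eq_one ?_)
    obtain ⟨h3, h4⟩ := (prodMap_pow_eq_one_iff (jb F (2 * (4 - i) + 1)) g _).1 (pow_orderOf_eq_one _)
    have h5 := e.gs_eq_zero (LinearMap.ext fun v => by
      rw [gs_prodMap, gs_eq_zero_of_isUnit b5 h4,
        gs_eq_zero_of_jb (pow_eq_zero_of_le (by omega) c1) h3]
      rfl)
    exact (affOm_pow_eq_one_iff y _).2 ⟨pow_eq_one_of_gs h5, by rw [h5]; rfl⟩

end Cfsg.Agent.S2517
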