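import Cfsg.Statements.S2519
import Cfsg.Agent.Lib.LieSpec.G2

set_option autoImplicit false
open Cfsg

namespace Cfsg.Agent.S2519

/-- Let F be a finite field of odd order q = p^a ≥ 5. The element orders of the Chevalley group G₂(F) that are maximal under divisibility are exactly p(q + 1), p(q − 1), q² − 1, q² + q + 1, q² − q + 1, together with p² when p is 3 or 5. -/
theorem result {F : Type*} [Field F] [Fintype F] (p a : ℕ) (hp : p.Prime) (hp2 : p ≠ 2) (ha : 1 ≤ a) (hF : Fintype.card F = p ^ a) (hq5 : 5 ≤ Fintype.card F) :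
    {n : ℕ | n ∈ Set.range (orderOf : ↥(Cfsg.Lie.chevG2.group F) → ℕ) ∧ ∀ m ∈ Set.range (orderOf : ↥(Cfsg.Lie.chevG2.group F) → ℕ), n ∣ m → m = n} =
      ({p * (p ^ a + 1), p * (p ^ a - 1), p ^ (2 * a) - 1, p ^ (2 * a) + p ^ a + 1, p ^ (2 * a) - p ^ a + 1} : Set ℕ) ∪
        (if p = 3 ∨ p = 5 then ({p ^ 2} : Set ℕ) else ∅) := by
  have hs : ∀ n ∈ ({p * (p ^ a + 1), p * (p ^ a - 1), p ^ (2 * a) - 1, p ^ (2 * a) + p ^ a + 1,
      p ^ (2 * a) - p ^ a + 1} : Set ℕ) ∪ (if p = 3 ∨ p = 5 then ({p ^ 2} : Set ℕ) else ∅),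
      n ∈ Set.range (orderOf : ↥(Cfsg.Lie.chevG2.group F) → ℕ) := by
    obtain ⟨h1, h2, h3, h4, h5⟩ := H61.g2_mem hp ha hF
    rintro n ((rfl | rfl | rfl | rfl | rfl) | h)
    iterate 5 assumption
    split_ifs at h with e
    · obtain rfl : n = p ^ 2 := h
      rcases e with rfl | rfl
      · exact H61.g2_word hp hF [(0, 1), (8, 1)] 9 (by decide +kernel)
      · exact H61.g2_word hp hF [(0, 1), (8, 1)] 25 (by decide +kernel)
    · exact h.elim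
  have hd : ∀ g : Cfsg.Lie.chevG2.group F, ∃ n ∈ ({p * (p ^ a + 1), p * (p ^ a - 1), p ^ (2 * a) - 1,
      p ^ (2 * a) + p ^ a + 1, p ^ (2 * a) - p ^ a + 1} : Set ℕ) ∪
      (if p = 3 ∨ p = 5 then ({p ^ 2} : Set ℕ) else ∅), orderOf g ∣ n := fun g => by
    rcases H61.g2_orderOf_dvd hp ha hF g with e | e | e | e | e | ⟨e, -⟩ | ⟨h, e⟩
    iterate 5 exact ⟨_, by simp, e⟩
    exacts [absurd e hp2, ⟨_, by simp [h], e⟩]
  have key : ∀ n ∈ ({p * (p ^ a + 1), p * (p ^ a - 1), p * p, p ^ (2 * a) - 1,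
      p ^ (2 * a) + p ^ a + 1, p ^ (2 * a) - p ^ a + 1} : Set ℕ),
      ∀ k ∈ ({p * (p ^ a + 1), p * (p ^ a - 1), p * p, p ^ (2 * a) - 1,
      p ^ (2 * a) + p ^ a + 1, p ^ (2 * a) - p ^ a + 1} : Set ℕ), n ∣ k → k = n := by
    have h1 : p ∣ p ^ a := dvd_pow_self p (by omega)
    rw [hF] at hq5
    rw [mul_comm 2, pow_mul]
    obtain ⟨t, ht⟩ : ∃ t, p ^ a = t + 1 := ⟨p ^ a - 1, by omega⟩
    rw [ht] at h1 hq5 ⊢
    have h2 := Nat.le_of_dvd (by omega) h1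
    have h3 : ∀ {n}, p ∣ n → ¬ p ∣ n + 1 := fun h e =>
      hp.one_lt.ne' (Nat.dvd_one.1 ((Nat.dvd_add_right h).1 e))
    have e1 : (t + 1) ^ 2 - 1 = t * t + 2 * t := by rw [Nat.sub_eq_iff_eq_add (by nlinarith)]; ring
    have e2 : (t + 1) ^ 2 - (t + 1) = t * (t + 1) := by
      rw [Nat.sub_eq_iff_eq_add (by nlinarith)]; ring
    rw [e1, e2, Nat.add_sub_cancel]
    have n1 : ¬ p ∣ t := fun h => h3 h h1
    have n2 := h3 h1
    have n3 : ¬ p ∣ t * t + 2 * t := fun h => h3 h (by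
      rw [show t * t + 2 * t + 1 = (t + 1) * (t + 1) by ring]; exact dvd_mul_of_dvd_left h1 _)
    have n4 : ¬ p ∣ (t + 1) ^ 2 + (t + 1) + 1 := h3 (dvd_add (dvd_pow h1 two_ne_zero) h1)
    have n5 : ¬ p ∣ t * (t + 1) + 1 := h3 (dvd_mul_of_dvd_right h1 t)
    have h4 : ∀ {n j}, ¬ p ∣ n → n ∣ p * j → 0 < j → n ≤ j := fun h h' h0 => Nat.le_of_dvd h0
      (((Nat.Prime.coprime_iff_not_dvd hp).2 h).symm.dvd_of_dvd_mul_left h')
    have h5 : ∀ {j}, j ∣ p → ¬ p ∣ j → j = 1 := fun h h' =>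
      ((Nat.dvd_prime hp).1 h).resolve_right fun e => h' (e ▸ dvd_rfl)
    have := hp.pos
    have b1 : 4 * t ≤ t * t := Nat.mul_le_mul_right t (by omega)
    have b2 : p * 4 ≤ p * t := Nat.mul_le_mul_left p (by omega)
    have b3 : (t + 1) ^ 2 = t * t + 2 * t + 1 := by ring
    have b4 : t * (t + 1) = t * t + t := by ring
    have b5 : p * (t + 1 + 1) = p * t + 2 * p := by ring
    rintro n (rfl | rfl | rfl | rfl | rfl | rfl) k (rfl | rfl | rfl | rfl | rfl | rfl) h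
    all_goals first
      | rfl
      | exact absurd (dvd_of_mul_right_dvd h) ‹_›
      | exact absurd (Nat.dvd_of_mul_dvd_mul_left hp.pos h) ‹_›
      | (have := h5 (Nat.dvd_of_mul_dvd_mul_left hp.pos h) ‹_›; omega)
      | (have := h4 ‹_› h (by omega); omega)
      | exact Nat.eq_of_dvd_of_lt_two_mul (by omega) h (by omega)
  have sub : ∀ n ∈ ({p * (p ^ a + 1), p * (p ^ a - 1), p ^ (2 * a) - 1, p ^ (2 * a) + p ^ a + 1,
      p ^ (2 * a) - p ^ a + 1} : Set ℕ) ∪ (if p = 3 ∨ p = 5 then ({p ^ 2} : Set ℕ) else ∅),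
      n ∈ ({p * (p ^ a + 1), p * (p ^ a - 1), p * p, p ^ (2 * a) - 1,
      p ^ (2 * a) + p ^ a + 1, p ^ (2 * a) - p ^ a + 1} : Set ℕ) := by
    rintro n ((rfl | rfl | rfl | rfl | rfl) | h)
    iterate 5 simp
    split_ifs at h
    · simp [show n = p ^ 2 from h, sq]
    · exact h.elim
  ext n
  constructor
  · rintro ⟨⟨g, rfl⟩, h⟩
    obtain ⟨n, hn, e⟩ := hd g
    exact h n (hs n hn) e ▸ hn
  · refine fun hn => ⟨hs n hn, ?_⟩
    rintro _ ⟨g, rfl⟩ h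
    obtain ⟨k, hk, e⟩ := hd g
    exact Nat.dvd_antisymm (key n (sub n hn) k (sub k hk) (h.trans e) ▸ e) h

end Cfsg.Agent.S2519
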