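import Cfsg.Statements.S2520
import Cfsg.Agent.Lib.LieSpec.G2

set_option autoImplicit false
open Cfsg

namespace Cfsg.Agent.S2520

/-- Let F be a finite field with q = 2^a ≥ 4 elements and G₂(F) the Chevalley group of type G₂ over it. Every element order of G₂(F) maximal under divisibility lies in the set {8, 12, 2(q + 1), 2(q − 1), q² − 1, q² + q + 1, q² − q + 1}, and every member of that set is an element order of G₂(F). -/
theorem result {F : Type*} [Field F] [Fintype F] (a : ℕ) (ha : 2 ≤ a) (hF : Fintype.card F = 2 ^ a) :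
    {n : ℕ | n ∈ Set.range (orderOf : ↥(Cfsg.Lie.chevG2.group F) → ℕ) ∧ ∀ m ∈ Set.range (orderOf : ↥(Cfsg.Lie.chevG2.group F) → ℕ), n ∣ m → m = n} ⊆ ({8, 12, 2 * (2 ^ a + 1), 2 * (2 ^ a - 1), 2 ^ (2 * a) - 1, 2 ^ (2 * a) + 2 ^ a + 1, 2 ^ (2 * a) - 2 ^ a + 1} : Set ℕ) ∧
    ({8, 12, 2 * (2 ^ a + 1), 2 * (2 ^ a - 1), 2 ^ (2 * a) - 1, 2 ^ (2 * a) + 2 ^ a + 1, 2 ^ (2 * a) - 2 ^ a + 1} : Set ℕ) ⊆ Set.range (orderOf : ↥(Cfsg.Lie.chevG2.group F) → ℕ) := by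
  have hs : ({8, 12, 2 * (2 ^ a + 1), 2 * (2 ^ a - 1), 2 ^ (2 * a) - 1, 2 ^ (2 * a) + 2 ^ a + 1,
      2 ^ (2 * a) - 2 ^ a + 1} : Set ℕ) ⊆ Set.range (orderOf : ↥(Cfsg.Lie.chevG2.group F) → ℕ) := by
    obtain ⟨h1, h2, h3, h4, h5⟩ := H61.g2_mem Nat.prime_two (by omega) hF
    simp only [Set.insert_subset_iff, Set.singleton_subset_iff]
    exact ⟨H61.g2_word Nat.prime_two hF [(0, 1), (8, 1)] 8 (by decide +kernel),
      H61.g2_word Nat.prime_two hF [(0, 1), (2, 1), (9, 1)] 12 (by decide +kernel), h1, h2, h3, h4, h5⟩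
  refine ⟨?_, hs⟩
  rintro _ ⟨⟨g, rfl⟩, h⟩
  rcases H61.g2_orderOf_dvd Nat.prime_two (by omega) hF g with e | e | e | e | e | ⟨-, e | e⟩ | ⟨e, -⟩
  all_goals first | omega | (rw [← h _ (hs (by simp)) e]; simp)

end Cfsg.Agent.S2520
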