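import Cfsg.Statements.S2521
import Cfsg.Agent.Base

set_option autoImplicit false
open Cfsg

namespace Cfsg.Agent.S2521



/-- Let B be a finite group that is the semidirect product of a nilpotent normal subgroup U by an abelian subgroup T (U ∩ T = 1, UT = B), and let t ∈ T have centralizer exactly T. Then every element of the coset tU is conjugate to t in B: for each u ∈ U there is b ∈ B with b t b⁻¹ = t u. -/
theorem result {B : Type*} [Group B] [Finite B] (U T : Subgroup B) [U.Normal] (hU : Group.IsNilpotent ↥U) (hT : IsMulCommutative ↥T)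
    (hcompl : Subgroup.IsComplement' U T) (t : B) (ht : t ∈ T) (hreg : Subgroup.centralizer ({t} : Set B) = T) (u : B) (hu : u ∈ U) :
    ∃ b : B, b * t * b⁻¹ = t * u := by
  let f : U → U := fun b => ⟨t⁻¹ * b * t * (b : B)⁻¹, U.mul_mem
    (by simpa using (inferInstance : U.Normal).conj_mem _ b.2 t⁻¹) (U.inv_mem b.2)⟩
  have hf : Function.Injective f := by
    intro b b' h
    have h1 : t⁻¹ * b * t * (b : B)⁻¹ = t⁻¹ * b' * t * (b' : B)⁻¹ := congrArg Subtype.val h
    have h2 : (b' : B)⁻¹ * b ∈ T := by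
      rw [← hreg, Subgroup.mem_centralizer_singleton_iff]
      calc (b' : B)⁻¹ * b * t = (b' : B)⁻¹ * t * (t⁻¹ * b * t * (b : B)⁻¹) * b := by group
        _ = _ := by rw [h1]; group
    have h3 := Subgroup.disjoint_def.mp hcompl.disjoint (U.mul_mem (U.inv_mem b'.2) b.2) h2
    exact Subtype.ext (inv_mul_eq_one.mp h3).symm
  obtain ⟨b, hb⟩ := Finite.surjective_of_injective hf ⟨u, hu⟩
  refine ⟨b, ?_⟩
  have h1 : t⁻¹ * b * t * (b : B)⁻¹ = u := congrArg Subtype.val hb
  rw [← h1]
  group

end Cfsg.Agent.S2521
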