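import Cfsg.Statements.S2523
import Mathlib
import Cfsg.Agent.Base
import Cfsg.Agent.Lib.EG.ClsD
import Cfsg.Agent.Lib.EG.ClsBC
import Cfsg.Agent.Lib.EG.PSL
import Cfsg.Agent.Lib.EG.Exc

set_option autoImplicit false
open Cfsg

namespace Cfsg.Agent.S2523


/-- Let F be a finite field with at least 9 elements and let G be one of PSL(n, F) (n ≥ 2), PSp(2m, F) (m ≥ 2), PΩ(2m+1, F) (m ≥ 3, here q odd), PΩ⁺(2m, F) (m ≥ 4), or the Chevalley group of type G₂, F₄, E₆, E₇ or E₈ over F. Then G is the square of one of its conjugacy classes (Thompson's conjecture on products of conjugacy classes, not his conjecture on class sizes): there is a conjugacy class C of G with C·C = G, i.e. every element of G is a product of two elements of C. -/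
theorem result {F : Type*} [Field F] [Fintype F] (hF : 9 ≤ Fintype.card F) {G : Type*} [Group G] [Finite G]
    (hG : (∃ n : ℕ, 2 ≤ n ∧ Nonempty (G ≃* Matrix.ProjectiveSpecialLinearGroup (Fin n) F)) ∨
      (∃ m : ℕ, 2 ≤ m ∧ Nonempty (G ≃* Cfsg.PSp m F)) ∨
      (∃ m : ℕ, 3 ≤ m ∧ Odd (Fintype.card F) ∧ Nonempty (G ≃* Cfsg.POmega F (Cfsg.quadFormOdd m F))) ∨
      (∃ m : ℕ, 4 ≤ m ∧ Nonempty (G ≃* Cfsg.POmega F (Cfsg.quadFormPlus m F))) ∨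
      Nonempty (G ≃* ↥(Cfsg.Lie.chevG2.group F)) ∨ Nonempty (G ≃* ↥(Cfsg.Lie.chevF4.group F)) ∨
      Nonempty (G ≃* ↥(Cfsg.Lie.chevE6.group F)) ∨ Nonempty (G ≃* ↥(Cfsg.Lie.chevE7.group F)) ∨ Nonempty (G ≃* ↥(Cfsg.Lie.chevE8.group F))) :
    ∃ c : G, ∀ g : G, ∃ x y : G, g = (x * c * x⁻¹) * (y * c * y⁻¹) := by
  have hK : 9 ≤ Nat.card F := by simpa using hF
  rcases hG with ⟨n, hn, ⟨e⟩⟩ | ⟨n, hn, ⟨e⟩⟩ | ⟨n, hn, h, ⟨e⟩⟩ | ⟨n, hn, ⟨e⟩⟩ | ⟨⟨e⟩⟩ | ⟨⟨e⟩⟩ | ⟨⟨e⟩⟩ |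
    ⟨⟨e⟩⟩ | ⟨⟨e⟩⟩
  · obtain ⟨m, rfl⟩ := Nat.exists_eq_add_of_le' hn
    exact H37.EG.sq_quot (H37.EG.sqz_SL hK m) e
  · obtain ⟨m, rfl⟩ := Nat.exists_eq_add_of_le' hn
    exact H37.EG.sq_quot (H37.EG.sqz_Sp hK m) e
  · obtain ⟨m, rfl⟩ := Nat.exists_eq_add_of_le' (show 2 ≤ n by omega)
    refine H37.EG.sq_quot (H37.EG.sqz_odd hK (fun h2 => ?_) m) e
    have : CharP F 2 := CharTwo.of_one_ne_zero_of_two_eq_zero one_ne_zero h2
    have := FiniteField.even_card_of_char_two (ringChar.eq F 2)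
    rw [Nat.odd_iff] at h
    omega
  · obtain ⟨m, rfl⟩ := Nat.exists_eq_add_of_le' (show 2 ≤ n by omega)
    exact H37.EG.sq_quot (H37.EG.sqz_plus hK (by omega)) e
  · exact H37.EG.sq_G2 hF e
  · exact H37.EG.sq_F4 hF e
  · exact H37.EG.sq_E6 hF e
  · exact H37.EG.sq_E7 hF e
  · exact H37.EG.sq_E8 hF e

end Cfsg.Agent.S2523
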