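import Cfsg.Statements.S2524
import Cfsg.Agent.Lib.MinRep.SpOddB

set_option autoImplicit false
open Cfsg

namespace Cfsg.Agent.S2524

/-- Let F be a finite field of odd order q and G = Sp(2n, F) with n ≥ 2. Then G has exactly four irreducible complex characters of degree (q^n + 1)/2 or (q^n − 1)/2 (two of each), and every other non-principal irreducible character has degree at least (q^n − 1)(q^n − q)/(2(q + 1)). -/
theorem result {F : Type*} [Field F] [Fintype F] (hodd : Odd (Fintype.card F)) (n : ℕ) (hn : 2 ≤ n) :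
    Nat.card {χ : Cfsg.IrrCharacter ↥(Matrix.symplecticGroup (Fin n) F) // (χ : ↥(Matrix.symplecticGroup (Fin n) F) → ℂ) 1 = (((Fintype.card F) ^ n + 1 : ℕ) : ℂ) / 2} = 2 ∧
    Nat.card {χ : Cfsg.IrrCharacter ↥(Matrix.symplecticGroup (Fin n) F) // (χ : ↥(Matrix.symplecticGroup (Fin n) F) → ℂ) 1 = (((Fintype.card F) ^ n - 1 : ℕ) : ℂ) / 2} = 2 ∧
    ∀ χ : Cfsg.IrrCharacter ↥(Matrix.symplecticGroup (Fin n) F),
      (χ : ↥(Matrix.symplecticGroup (Fin n) F) → ℂ) 1 ≠ 1 →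
      (χ : ↥(Matrix.symplecticGroup (Fin n) F) → ℂ) 1 ≠ (((Fintype.card F) ^ n + 1 : ℕ) : ℂ) / 2 →
      (χ : ↥(Matrix.symplecticGroup (Fin n) F) → ℂ) 1 ≠ (((Fintype.card F) ^ n - 1 : ℕ) : ℂ) / 2 →
      (((Fintype.card F) ^ n - 1 : ℕ) : ℝ) * (((Fintype.card F) ^ n - Fintype.card F : ℕ) : ℝ) / (2 * ((Fintype.card F : ℕ) + 1 : ℝ)) ≤ ‖(χ : ↥(Matrix.symplecticGroup (Fin n) F) → ℂ) 1‖ := by
  classical
  obtain ⟨m, rfl⟩ := Nat.exists_eq_add_of_le' hn
  have hq := Nat.odd_iff.1 hodd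
  have h2 := H20.MR.two_ne_zero_of_odd hq
  obtain ⟨δ, hδ⟩ := FiniteField.exists_nonsquare (F := F) fun h => by
    have := FiniteField.even_card_iff_char_two.1 h; omega
  obtain ⟨s, hs⟩ := H20.MR.exists_simil (m + 2) (δ := δ) (by rintro rfl; exact hδ IsSquare.zero)
  obtain ⟨⟨ρ₁, i₁⟩, ρ₂, i₂⟩ := H63.CrossChar.exists_weil_sp h2 (n := m + 2) (by omega)
  have o := H20.MD.symp_spPQ (F := F) (m + 2)
  have e := H20.MD.spEG (F := F) (m + 2)
  have j₁ := (H6.isIrreducible_comp_surjective ρ₁ e.symm.toMonoidHom e.symm.surjective).2 i₁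
  have j₂ := (H6.isIrreducible_comp_surjective ρ₂ e.symm.toMonoidHom e.symm.surjective).2 i₂
  obtain ⟨t, ht⟩ : Odd (Fintype.card F ^ (m + 2)) := hodd.pow
  have k₁ : (Fintype.card F ^ (m + 2) - 1) / 2 = t := by omega
  have k₂ : (Fintype.card F ^ (m + 2) + 1) / 2 = t + 1 := by omega
  have h3 : 3 ≤ Fintype.card F := by have := Fintype.one_lt_card (α := F); omega
  have h4 : Fintype.card F ≤ Fintype.card F ^ (m + 1) := Nat.le_self_pow (by omega) _
  have h5 : 2 ≤ t ∧ 2 * (Fintype.card F + 1) * (t + 1) < (Fintype.card F ^ (m + 2) - 1) *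
      (Fintype.card F ^ (m + 2) - Fintype.card F) ∧ t + 1 < (Fintype.card F - 1) * Fintype.card F ^ (m + 1) := by
    rw [pow_succ] at ht ⊢
    generalize Fintype.card F ^ (m + 1) = y at *
    obtain ⟨p, hp⟩ := Nat.exists_eq_add_of_le' h3
    rw [hp] at ht h4 ⊢
    have h6 : (p + 3) * (p + 3) ≤ y * (p + 3) := Nat.mul_le_mul_right _ h4
    obtain ⟨z, hz⟩ := Nat.exists_eq_add_of_le (show p + 3 + (p + 6) ≤ 2 * t + 1 by nlinarith)
    rw [ht, show 2 * t + 1 - (p + 3) = p + 6 + z by omega, Nat.add_sub_cancel, show p + 3 - 1 = p + 2 by omega]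
    refine ⟨by nlinarith, by nlinarith, by nlinarith⟩
  have m₁ := H20.MR.sp_odd_main o hq (H97.finrank_sp _) hδ hs (by omega) (by omega) (by omega)
    (by rw [k₁]; nlinarith [h5.2.1]) (by rw [k₂]; exact h5.2.1) (by omega) j₁ j₂
  have m₂ := H20.MR.sp_odd_main o hq (H97.finrank_sp _) hδ hs (by omega) (by omega) (by omega)
    (by rw [k₂]; exact h5.2.1) (by rw [k₁]; nlinarith [h5.2.1]) (by omega) j₂ j₁
  have c₁ : ((Fintype.card F ^ (m + 2) - 1 : ℕ) : ℂ) / 2 = (t : ℕ) := by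
    rw [ht, Nat.add_sub_cancel]; push_cast; ring
  have c₂ : ((Fintype.card F ^ (m + 2) + 1 : ℕ) : ℂ) / 2 = (t + 1 : ℕ) := by rw [ht]; push_cast; ring
  rw [k₁] at m₁
  rw [k₂] at m₁ m₂
  rw [c₁, c₂, H20.MR.card_irr_congr e, H20.MR.card_irr_congr e]
  refine ⟨m₂.1, m₁.1, ?_⟩
  rintro ⟨_, k, ρ, i, rfl⟩
  have := H6.finrank_pos_of_isIrreducible ρ
  simp only [Representation.char_one, Module.finrank_fin_fun, Complex.norm_natCast] at this ⊢
  intro a b c
  rw [div_le_iff₀ (by positivity), mul_comm (k : ℝ)]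
  exact_mod_cast m₁.2 k _ ((H6.isIrreducible_comp_surjective ρ e.symm.toMonoidHom e.symm.surjective).2 i)
    (by have : k ≠ 1 := fun h => a (by simp [h]); omega) (fun h => c (by rw [h])) fun h => b (by rw [h])

end Cfsg.Agent.S2524
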