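import Cfsg.Statements.S2525
import Cfsg.Agent.Lib.LieSpec.F4
import Cfsg.Agent.S1062

set_option autoImplicit false
open Cfsg

namespace Cfsg.Agent.S2525

/-- Let F be a finite field with q = 2^n elements and G = F₄(F). For an odd prime r let e(r, q) be the multiplicative order of q modulo r. Two distinct primes r, s dividing the order of G are non-adjacent in the prime graph of G (no element of order rs) if and only if, up to swapping r and s, either r = 2 and e(s, q) ∈ {8, 12}, or r, s are both odd with k = e(r, q) < l = e(s, q) and one of: l ∈ {8, 12}; l = 6 and k ∈ {3, 4}; l = 4 and k = 3. -/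
theorem result {F : Type*} [Field F] [Fintype F] (n : ℕ) (hn : 1 ≤ n) (hF : Fintype.card F = 2 ^ n)
    (r s : ℕ) (hr : r.Prime) (hs : s.Prime) (hrs : r ≠ s) (hrG : r ∣ Nat.card ↥(Cfsg.Lie.chevF4.group F)) (hsG : s ∣ Nat.card ↥(Cfsg.Lie.chevF4.group F)) :
    (¬ ∃ x : ↥(Cfsg.Lie.chevF4.group F), orderOf x = r * s) ↔
      ((r = 2 ∧ orderOf ((Fintype.card F : ℕ) : ZMod s) ∈ ({8, 12} : Finset ℕ)) ∨ (s = 2 ∧ orderOf ((Fintype.card F : ℕ) : ZMod r) ∈ ({8, 12} : Finset ℕ)) ∨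
       (r ≠ 2 ∧ s ≠ 2 ∧
         ((orderOf ((Fintype.card F : ℕ) : ZMod r) < orderOf ((Fintype.card F : ℕ) : ZMod s) ∧ (orderOf ((Fintype.card F : ℕ) : ZMod s) ∈ ({8, 12} : Finset ℕ) ∨ (orderOf ((Fintype.card F : ℕ) : ZMod s) = 6 ∧ orderOf ((Fintype.card F : ℕ) : ZMod r) ∈ ({3, 4} : Finset ℕ)) ∨ (orderOf ((Fintype.card F : ℕ) : ZMod s) = 4 ∧ orderOf ((Fintype.card F : ℕ) : ZMod r) = 3))) ∨
          (orderOf ((Fintype.card F : ℕ) : ZMod s) < orderOf ((Fintype.card F : ℕ) : ZMod r) ∧ (orderOf ((Fintype.card F : ℕ) : ZMod r) ∈ ({8, 12} : Finset ℕ) ∨ (orderOf ((Fintype.card F : ℕ) : ZMod r) = 6 ∧ orderOf ((Fintype.card F : ℕ) : ZMod s) ∈ ({3, 4} : Finset ℕ)) ∨ (orderOf ((Fintype.card F : ℕ) : ZMod r) = 4 ∧ orderOf ((Fintype.card F : ℕ) : ZMod s) = 3)))))) := by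
  have h2 := Nat.prime_two
  have he : ∀ r : ℕ, r.Prime → r ≠ 2 → r ∣ Nat.card (Cfsg.Lie.chevF4.group F) →
      orderOf ((2 ^ n : ℕ) : ZMod r) ∈ [1, 2, 3, 4, 6, 8, 12] := fun r hr h2 h => by
    have key : ∀ k, 0 < k → r ∣ (2 ^ n) ^ k - 1 → orderOf ((2 ^ n : ℕ) : ZMod r) ∣ k := fun k hk h => by
      rw [← ZMod.natCast_eq_zero_iff, Nat.cast_sub (Nat.one_le_pow _ _ (by positivity)),
        sub_eq_zero] at h
      exact orderOf_dvd_of_pow_eq_one (by simpa using h)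
    rw [Cfsg.Agent.S1062.result hF] at h
    simp only [hr.dvd_mul] at h
    generalize orderOf ((2 ^ n : ℕ) : ZMod r) = e at *
    rcases h with (((h | h) | h) | h) | h
    · exact absurd ((Nat.prime_dvd_prime_iff_eq hr Nat.prime_two).1
        (hr.dvd_of_dvd_pow (hr.dvd_of_dvd_pow h))) h2
    all_goals
      have h1 := key _ (by norm_num) h
      have h2 := Nat.le_of_dvd (by norm_num) h1
      clear key
      interval_cases e <;> simp_all
  have two : ∀ s : ℕ, s.Prime → s ≠ 2 → s ∣ Nat.card (Cfsg.Lie.chevF4.group F) →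
      ((¬ ∃ x : Cfsg.Lie.chevF4.group F, orderOf x = 2 * s) ↔
        orderOf ((2 ^ n : ℕ) : ZMod s) ∈ ({8, 12} : Finset ℕ)) := fun s hs hs2 hsG => by
    obtain ⟨h3, h4, h6, -⟩ := H61.ord_iff hs hs2 (2 ^ n) rfl
    refine ((Iff.intro (fun ⟨g, hg⟩ => ?_) (H61.f4_prime_mul h2 hn hF rfl hs hs2)).not).trans ?_
    swap
    · obtain ⟨o, e, h1, ho, h⟩ := H61.f4_dvd h2 hF rfl g
      have h5 : (s : ℤ) ∣ o := Int.natCast_dvd_natCast.2 ((((Nat.coprime_primes hs h2).2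
        hs2).pow_right e).dvd_of_dvd_mul_right (h1 ▸ hg ▸ dvd_mul_left s 2))
      rcases h with h | h | h | ⟨rfl, -⟩
      exacts [.inl (h5.trans h), .inr (.inl (h5.trans h)), .inr (.inr (h5.trans h)),
        absurd (by omega) ho]
    · rw [h3, h4, h6]
      have := he s hs hs2 hsG
      generalize orderOf ((2 ^ n : ℕ) : ZMod s) = e at *
      fin_cases this <;> simp
  rw [hF]
  by_cases hr2 : r = 2
  · subst hr2; simpa [hrs.symm] using two s hs hrs.symm hsG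
  by_cases hs2 : s = 2
  · subst hs2; simpa [hrs, mul_comm r] using two r hr hrs hrG
  obtain ⟨h3, h4, h6, h8, h12⟩ := H61.ord_iff hr hr2 (2 ^ n) rfl
  obtain ⟨g3, g4, g6, g8, g12⟩ := H61.ord_iff hs hs2 (2 ^ n) rfl
  refine ((Iff.intro (fun ⟨g, hg⟩ => ?_) fun h : ∃ T, _ ∧ _ ∧ _ => h.elim fun T h =>
    H61.f4_primes h2 hn hF rfl hr hs hrs hr2 hs2 (T := T) h.1 h.2.1 h.2.2).not).trans ?_
  · simp only [List.mem_cons, List.not_mem_nil, or_false, exists_eq_or_imp, exists_eq_left,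
      h3, h4, h6, h8, h12, g3, g4, g6, g8, g12]
    clear h3 h4 h6 h8 h12 g3 g4 g6 g8 g12
    have h1 := he r hr hr2 hrG
    have h2 := he s hs hs2 hsG
    generalize orderOf ((2 ^ n : ℕ) : ZMod s) = e at *
    generalize orderOf ((2 ^ n : ℕ) : ZMod r) = e' at *
    simp only [hr2, hs2, false_and, false_or, ne_eq, not_false_eq_true, true_and]
    revert e e'
    decide
  obtain ⟨o, e, h1, ho, h⟩ := H61.f4_dvd h2 hF rfl g
  have h5 : (r : ℤ) ∣ o := Int.natCast_dvd_natCast.2 ((((Nat.coprime_primes hr h2).2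
    hr2).pow_right e).dvd_of_dvd_mul_right (h1 ▸ hg ▸ dvd_mul_right r s))
  have h7 : (s : ℤ) ∣ o := Int.natCast_dvd_natCast.2 ((((Nat.coprime_primes hs h2).2
    hs2).pow_right e).dvd_of_dvd_mul_right (h1 ▸ hg ▸ dvd_mul_left s r))
  rcases h with h | h | h | ⟨-, h | h⟩ <;> exact ⟨_, by simp, h5.trans h, h7.trans h⟩

end Cfsg.Agent.S2525
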