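import Cfsg.Statements.S2557
import Cfsg.Agent.Lib.Wall2.Count
-- import your own Cfsg.Agent.* helpers here

set_option autoImplicit false
open Cfsg

namespace Cfsg.Agent.S2557

/-- The number of conjugacy classes of Sp(2n,q), q even: for F a finite field of even order q and n ≥ 1, the number k of conjugacy classes of Sp(2n,F) satisfies q^n ≤ k ≤ 15.2·q^n. -/
theorem result {F : Type*} [Field F] [Fintype F] (heven : Even (Fintype.card F)) (n : ℕ) (hn : 1 ≤ n) :
    Fintype.card F ^ n ≤ Nat.card (ConjClasses (Matrix.symplecticGroup (Fin n) F)) ∧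
      5 * Nat.card (ConjClasses (Matrix.symplecticGroup (Fin n) F)) ≤ 76 * Fintype.card F ^ n := by
  exact ⟨H64.Wall.le_card_sp n, H64.Wall2.card_sp_le heven n⟩
end Cfsg.Agent.S2557
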