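import Cfsg.Statements.S2773
import Cfsg.Agent.Lib.GNT.Main

set_option autoImplicit false
universe u
open Cfsg

namespace Cfsg.Agent.S2773

/-- For every nontrivial finite 3-group S there is a nontrivial characteristic subgroup K of S such that, in every finite group G containing S as a Sylow 3-subgroup, S ∩ G' is the product of S ∩ (C_G(Z(S)))' and S ∩ (N_G(K))' (derived subgroups; product taken elementwise). -/
theorem result {S : Type u} [Group S] [Finite S] [Nontrivial S] (hS : IsPGroup 3 S) : ∃ K : Subgroup S, K ≠ ⊥ ∧ K.Characteristic ∧ ∀ (G : Type u) [Group G] [Finite G] (τ : S →* G), Function.Injective τ → (∃ P : Sylow 3 G, (P : Subgroup G) = τ.range) → ∀ g : G, g ∈ τ.range ⊓ commutator G ↔ ∃ a ∈ τ.range ⊓ ⁅Subgroup.centralizer ((τ.range ⊓ Subgroup.centralizer (τ.range : Set G) : Subgroup G) : Set G), Subgroup.centralizer ((τ.range ⊓ Subgroup.centralizer (τ.range : Set G) : Subgroup G) : Set G)⁆, ∃ b ∈ τ.range ⊓ ⁅Subgroup.normalizer ((K.map τ : Subgroup G) : Set G), Subgroup.normalizer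 ((K.map τ : Subgroup G) : Set G)⁆, g = a * b := by
  refine ⟨H90.GNT.kw 3 S, H90.GNT.kk_ne_bot top_ne_bot, H90.GNT.kw_char S, ?_⟩
  rintro G _ _ τ hτ ⟨P, hP⟩ g
  have := Fact.mk Nat.prime_three
  rw [H90.GNT.kw, H90.GNT.map_kk hτ, ← MonoidHom.range_eq_map, ← hP]
  constructor
  · intro hg
    have h1 : (P : Subgroup G) ≤ Subgroup.normalizer (H90.GNT.kk 3 (P : Subgroup G) : Set G) :=
      Subgroup.le_normalizer.trans ((H90.GNT.normalizer_le_jb _).trans (H90.GNT.normalizer_jb_le _))
    obtain ⟨a, ha, b, hb, e⟩ := (H24.mem_sup_of_le_normalizer (inf_le_left.trans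
      (H69.le_normalizer_inf Subgroup.le_normalizer (H69.le_normalizer_commutator
        (h1.trans Subgroup.le_normalizer) (h1.trans Subgroup.le_normalizer))))).1
      (H90.GNT.gn_transfer' (by norm_num) P hg)
    exact ⟨a, ha, b, hb, e.symm⟩
  · rintro ⟨a, ha, b, hb, rfl⟩
    exact ⟨Subgroup.mul_mem _ ha.1 hb.1, Subgroup.mul_mem _
      (Subgroup.commutator_mono le_top le_top ha.2) (Subgroup.commutator_mono le_top le_top hb.2)⟩

end Cfsg.Agent.S2773
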