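import Cfsg.Statements.S2774
import Cfsg.Agent.Lib.GNT.Main

set_option autoImplicit false
open Cfsg

namespace Cfsg.Agent.S2774

/-- Let p be an odd prime and S a nontrivial Sylow p-subgroup of a finite group G. Then S ∩ G' is generated by the subgroups S ∩ (N_G(K))' as K ranges over the nontrivial characteristic subgroups of S (derived subgroups of the normalizers). -/
theorem result {G : Type*} [Group G] [Finite G] {p : ℕ} [Fact p.Prime] (hp : p ≠ 2) (S : Sylow p G) (hS : (S : Subgroup G) ≠ ⊥) : (S : Subgroup G) ⊓ commutator G = ⨆ K : {K : Subgroup ↥(S : Subgroup G) // K ≠ ⊥ ∧ K.Characteristic}, (S : Subgroup G) ⊓ ⁅Subgroup.normalizer ((((K : Subgroup ↥(S : Subgroup G))).map (S : Subgroup G).subtype : Subgroup G) : Set G), Subgroup.normalizer ((((K : Subgroup ↥(S : Subgroup G))).map (S : Subgroup G).subtype : Subgroup G) : Set G)⁆ := by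
  refine le_antisymm ((H90.GNT.gn_transfer' hp S).trans (sup_le ?_ ?_))
    (iSup_le fun K => inf_le_inf_left _ (Subgroup.commutator_mono le_top le_top))
  · have := (Subgroup.nontrivial_iff_ne_bot _).2 hS
    refine le_iSup_of_le ⟨Subgroup.center S, S.isPGroup'.bot_lt_center.ne', inferInstance⟩
      (inf_le_inf_left _ ?_)
    rw [H24.map_center_subtype]
    exact Subgroup.commutator_mono (Subgroup.centralizer_le_normalizer _)
      (Subgroup.centralizer_le_normalizer _)
  · have := (Subgroup.nontrivial_iff_ne_bot _).2 hS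
    refine le_iSup_of_le ⟨H90.GNT.kw p S, H90.GNT.kk_ne_bot top_ne_bot, H90.GNT.kw_char _⟩ ?_
    rw [← H90.GNT.iF_kw]
    exact le_rfl

end Cfsg.Agent.S2774
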