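import Cfsg.Statements.S2896
import Mathlib
import Cfsg.Agent.Lib.LocStruct.ParChar
import Cfsg.Agent.Lib.Comp.FStar

set_option autoImplicit false
open Cfsg

namespace Cfsg.Agent.S2896

open Subgroup H69
open scoped commutatorElement Pointwise


/-- Let p be a prime dividing the order of the finite group G, S a Sylow p-subgroup of G and X a subgroup of S. (i) If some nontrivial element z of the centre of X has F*(C_G(z)) = O_p(C_G(z)), then F*(N_G(X)) = O_p(N_G(X)). (ii) G has parabolic characteristic p if and only if F*(C_G(z)) = O_p(C_G(z)) for every nontrivial z ∈ Ω₁(Z(S)). (iii) If F*(C_G(z)) = O_p(C_G(z)) for every element z of S of order p, then G has local characteristic p. -/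
theorem result {G : Type*} [Group G] [Finite G] {p : ℕ} [Fact p.Prime] (hdiv : p ∣ Nat.card G) (S : Sylow p G) (X : Subgroup G) (hX : X ≤ (S : Subgroup G)) : (∀ z : G, z ≠ 1 → z ∈ X → (∀ x ∈ X, x * z = z * x) → Cfsg.generalizedFittingSubgroup ↥(Subgroup.centralizer ({z} : Set G)) = Cfsg.pCore p ↥(Subgroup.centralizer ({z} : Set G)) → Cfsg.generalizedFittingSubgroup ↥(Subgroup.normalizer (X : Set G)) = Cfsg.pCore p ↥(Subgroup.normalizer (X : Set G))) ∧ (Cfsg.IsOfParabolicCharacteristic p G ↔ ∀ z : G, z ≠ 1 → z ∈ Cfsg.omegaOne p ((S : Subgroup G) ⊓ Subgroup.centralizer ((S : Subgroup G) : Set G)) → Cfsg.generalizedFittingSubgroup ↥(Subgroup.centralizer ({z} : Set G)) = Cfsg.pCore p ↥(Subgroup.centralizer ({z} : Set G))) ∧ ((∀ z : G, z ∈ (S : Subgroup G) → orderOf z = p → Cfsg.generalizedFittingSubgroup ↥(Subgroup.centralizer ({z} : Set G)) = Cfsg.pCore p ↥(Subgroup.centralizer ({z} : Set G))) → Cfsg.IsOfLocalCharacteristic p G) := by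
  have hS := isSylowIn_top S
  simp only [H23.fStar_eq_pCore_iff, ← H70.charP_iff]
  refine ⟨fun z _ hz hc h => charP_normalizer_of_centralizer (S.isPGroup'.to_le hX) hz hc h, ?_,
    fun h => ⟨hdiv, fun T hT hT1 => ?_⟩⟩
  · rw [isOfParabolicCharacteristic_iff hS]
    exact ⟨fun h z h1 h2 => h z h2 h1, fun h z h1 h2 => h z h2 h1⟩
  · obtain ⟨g, -, hg⟩ := hS.exists_le_cj hT le_top
    obtain ⟨z, hz, hzp⟩ := exists_orderOf_eq_prime (hT.to_le inf_le_left) (center_ne_bot hT hT1)
    refine H70.charP_iff.1 (charP_normalizer_of_centralizer hT hz.1 hz.2 ?_)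
    obtain ⟨y, hy, rfl⟩ := mem_cj'.1 (hg hz.1)
    rw [← cj_centralizer_singleton]
    refine (h y hy ?_).conj g
    rw [← hzp]
    exact SemiconjBy.orderOf_eq g (by rw [SemiconjBy]; group)

end Cfsg.Agent.S2896
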