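import Cfsg.Statements.S2897
import Mathlib
import Cfsg.Agent.Lib.LocStruct.ParChar

set_option autoImplicit false
open Cfsg

namespace Cfsg.Agent.S2897

open Subgroup H69
open scoped commutatorElement Pointwise


/-- Let p be a prime dividing the order of the finite group G, suppose G has parabolic characteristic p, let S be a Sylow p-subgroup of G and G₁ a normal subgroup of G. If Ω₁(Z(S ∩ G₁)) is nontrivial and contained in Ω₁(Z(S)), then G₁ has parabolic characteristic p. -/
theorem result {G : Type*} [Group G] [Finite G] {p : ℕ} [Fact p.Prime] (hdiv : p ∣ Nat.card G) (hG : Cfsg.IsOfParabolicCharacteristic p G) (S : Sylow p G) (G₁ : Subgroup G) [G₁.Normal] (hne : Cfsg.omegaOne p (((S : Subgroup G) ⊓ G₁) ⊓ Subgroup.centralizer (((S : Subgroup G) ⊓ G₁ : Subgroup G) : Set G)) ≠ ⊥) (hle : Cfsg.omegaOne p (((S : Subgroup G) ⊓ G₁) ⊓ Subgroup.centralizer (((S : Subgroup G) ⊓ G₁ : Subgroup G) : Set G)) ≤ Cfsg.omegaOne p ((S : Subgroup G) ⊓ Subgroup.centralizer ((S : Subgroup G) : Set G))) : Cfsg.IsOfParabolicCharacteristic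 p ↥G₁ := by
  have hS := isSylowIn_top S
  have h1 : IsSylowIn p ((S : Subgroup G) ⊓ G₁) G₁ := hS.inf_normal le_top le_normalizer_of_normal
  rw [isOfParabolicCharacteristic_iff h1.subgroupOf_top]
  rw [isOfParabolicCharacteristic_iff hS] at hG
  intro z hz hz1
  have h2 : (z : G) ∈ H68.oz p ((S : Subgroup G) ⊓ G₁) := by
    have := H68.map_oz (p := p) G₁.subtype_injective (((S : Subgroup G) ⊓ G₁).subgroupOf G₁)
    rw [subgroupOf_map_subtype, inf_eq_left.2 h1.le] at this
    exact this.le (mem_map_of_mem _ hz)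
  have h3 := hG z (hle h2) fun h => hz1 (Subtype.ext h)
  rw [← H70.charP_map_iff G₁.subtype_injective, ← H69.centralizer_zpowers, map_subtype_centralizer,
    MonoidHom.map_zpowers, H69.centralizer_zpowers]
  exact h3.of_normal inf_le_right
    (H69.le_normalizer_inf le_normalizer_of_normal (H69.le_normalizer_of_le le_rfl))

end Cfsg.Agent.S2897
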