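import Cfsg.Statements.S2898
import Mathlib
import Cfsg.Agent.Lib.LocStruct.ParChar

set_option autoImplicit false
open Cfsg

namespace Cfsg.Agent.S2898

open Subgroup H69
open scoped commutatorElement Pointwise


/-- Let G be a finite group of even order with parabolic characteristic 2. If the centre of G ⧸ O(G) is trivial, then O(G) = 1. -/
theorem result {G : Type*} [Group G] [Finite G] (h2 : 2 ∣ Nat.card G) (hG : Cfsg.IsOfParabolicCharacteristic 2 G) [hN : (Cfsg.oddCore G).Normal] (hZ : Subgroup.center (G ⧸ Cfsg.oddCore G) = ⊥) : Cfsg.oddCore G = ⊥ := by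
  obtain ⟨S⟩ : Nonempty (Sylow 2 G) := inferInstance
  have hS := isSylowIn_top S
  rw [isOfParabolicCharacteristic_iff hS] at hG
  have hodd : (Nat.card (Cfsg.oddCore G)).Coprime 2 := H1.coprime_card_pPrimeCore
  have k1 : ∀ z ∈ H68.oz 2 (S : Subgroup G), z ≠ 1 →
      Cfsg.oddCore G ⊓ centralizer ({z} : Set G) = ⊥ := by
    intro z hz hz1
    refine eq_bot_iff.2 fun x hx => mem_bot.2 ?_
    have hx2 : (orderOf x).Coprime 2 := H1.coprime_orderOf_of_mem_pPrimeCore hx.1
    refine (hG z hz hz1).eq_one hx.2 hx2 (H70.le_centralizer_singleton_iff.2 ?_)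
    refine le_centralizer_of_commutator_eq_bot (A := Cfsg.oddCore G ⊓ centralizer ({z} : Set G))
      (le_bot_iff.1 (le_trans ?_ (H1.inf_pPrimeCore_eq_bot
        (H70.isPGroup_pCoreOf 2 (centralizer ({z} : Set G)))).le)) hx
    refine le_inf (commutator_le_right_of_le_normalizer
      (inf_le_right.trans (H70.le_normalizer_pCoreOf 2 _))) ?_
    exact (commutator_mono inf_le_left le_rfl).trans (commutator_le_left _ _)
  by_contra hne
  have k2 : 𝐂(Cfsg.oddCore G) ≤ Cfsg.oddCore G := by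
    refine H1.le_pPrimeCore_of_not_dvd fun hd => hne ?_
    have h1 := hS.inf_normal (N := 𝐂(Cfsg.oddCore G)) le_top le_normalizer_of_normal
    obtain ⟨⟨z, hz⟩, hz1⟩ := (Subgroup.ne_bot_iff_exists_ne_one).1
      (H68.oz_inf_ne_bot hS.isP inf_le_left
        (H69.le_normalizer_inf (H69.le_normalizer_of_le le_rfl) le_normalizer_of_normal)
        (h1.dvd_card_iff.1 hd))
    rw [← k1 z hz.1 fun h => hz1 (Subtype.ext h)]
    exact (inf_eq_left.2 (H70.le_centralizer_singleton_iff.2 hz.2.2)).symm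
  have hS1 : (S : Subgroup G) ≠ ⊥ := hS.dvd_card_iff.1 (by rwa [card_top])
  obtain ⟨⟨z, hz⟩, hz1⟩ := (Subgroup.ne_bot_iff_exists_ne_one).1 (H68.oz_ne_bot hS.isP hS1)
  have hz1' : z ≠ 1 := fun h => hz1 (Subtype.ext h)
  have hz2 : z * z = 1 := by rw [← sq]; exact (H68.mem_oz.1 hz).2.2
  have k3 : ∀ x ∈ Cfsg.oddCore G, z * x * z⁻¹ = x⁻¹ := fun x hx =>
    inverts_of_fpf (le_normalizer_of_normal (mem_top z)) (by rw [hz2]; exact one_mem _)
      (k1 z hz hz1') hx
  have k4 : (z : G ⧸ Cfsg.oddCore G) ∈ center (G ⧸ Cfsg.oddCore G) := by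
    rw [mem_center_iff]
    intro q
    induction q using QuotientGroup.induction_on with
    | H g =>
      rw [← QuotientGroup.mk_mul, ← QuotientGroup.mk_mul, QuotientGroup.eq]
      refine k2 fun x hx => ?_
      have h1 := k3 _ (hN.conj_mem x hx g)
      have h2 := k3 _ (inv_mem hx)
      rw [inv_inv] at h2
      calc x * ((g * z)⁻¹ * (z * g)) = z⁻¹ * (z * x * z⁻¹) * z * ((g * z)⁻¹ * (z * g)) := by group
        _ = z⁻¹ * g⁻¹ * (g * x * g⁻¹)⁻¹ * (z * g) := by rw [k3 x hx]; group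
        _ = (g * z)⁻¹ * (z * g) * x := by rw [← h1]; group
  rw [hZ, mem_bot, QuotientGroup.eq_one_iff] at k4
  refine hz1' (H70.eq_one_of_coprime_of_pow (p := 2) (k := 1)
    (H1.coprime_orderOf_of_mem_pPrimeCore k4) ?_)
  rw [pow_one, sq, hz2]

end Cfsg.Agent.S2898
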