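import Cfsg.Statements.S2905
import Mathlib
import Cfsg.Agent.Lib.LocStruct.YMin
import Cfsg.Agent.Lib.Core.CoprimeSylow

set_option autoImplicit false
open Cfsg

namespace Cfsg.Agent.S2905

open Subgroup H69
open scoped commutatorElement Pointwise


/-- Let P be a finite p-minimal group (a Sylow p-subgroup S is not normal and lies in a unique maximal subgroup M of P) and let F be the normal core of M. Then: every subnormal subgroup N of P contained in M satisfies N ∩ S ≤ O_p(P); if O^p(P) has a normal Sylow p-subgroup then the order of P has at most two prime divisors; every normal subgroup N of P either contains O^p(P) or is contained in F; and O^p(P)F ⧸ F is a minimal normal subgroup of P ⧸ F. -/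
theorem result {P : Type*} [Group P] [Finite P] {p : ℕ} [Fact p.Prime] (hP : Cfsg.IsPMinimal p P) (S : Sylow p P) (M : Subgroup P) (hM : IsCoatom M) (hSM : (S : Subgroup P) ≤ M) [hF : M.normalCore.Normal] : (∀ N : Subgroup P, N.IsSubnormal → N ≤ M → N ⊓ (S : Subgroup P) ≤ Cfsg.pCore p P) ∧ ((∀ T : Sylow p ↥(Cfsg.pResidual p P), (T : Subgroup ↥(Cfsg.pResidual p P)).Normal) → (Nat.card P).primeFactors.card ≤ 2) ∧ (∀ N : Subgroup P, N.Normal → Cfsg.pResidual p P ≤ N ∨ N ≤ M.normalCore) ∧ (∀ N : Subgroup P, N.Normal → M.normalCore ≤ N → N ≤ Cfsg.pResidual p P ⊔ M.normalCore → N = M.normalCore ∨ N = Cfsg.pResidual p P ⊔ M.normalCore) ∧ M.normalCore < Cfsg.pResidual p P ⊔ M.normalCore := by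
  have h := ym_top_of ((H68.isPMinimal_iff_minOver S).1 hP) hM hSM
  have hS := S.isPGroup'
  have hn : ∀ (N : Subgroup P) [N.Normal], (⊤ : Subgroup P) ≤ 𝐍(N) := fun N _ =>
    normalizer_eq_top N |>.ge
  have h3 : ∀ N : Subgroup P, N.Normal → Cfsg.pResidual p P ≤ N ∨ N ≤ M.normalCore := by
    intro N hN
    rcases h.res_le_or_le hS le_top (hn N) with h1 | h1
    · left; rwa [res_top] at h1
    · right; exact normal_le_normalCore.2 h1
  have h5 : ¬ Cfsg.pResidual p P ≤ M := by
    rw [← res_top]; exact h.not_res_le p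
  refine ⟨fun N hN hNM => ?_, fun hcl => ?_, h3, fun N hN h1 h2 => ?_,
    lt_of_le_of_ne le_sup_right fun e => h5 ((le_sup_left.trans e.ge).trans (normalCore_le _))⟩
  · obtain ⟨N', h1, h2, h4⟩ := h.exists_normal_ge_of_sn (sn_top_iff.2 hN) hNM
    rw [← H70.pCoreOf_top]
    exact h.le_pCoreOf hS h2 h4 (hS.to_le inf_le_right) (inf_le_left.trans h1)
  · by_contra hc
    set R := 𝐑(p, (⊤ : Subgroup P)) with hR
    have hRn : (⊤ : Subgroup P) ≤ 𝐍(R) := le_normalizer_res ⊤
    have hcl' : IsPClosed p R := by rw [hR, res_top]; exact hcl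
    have hT := isPClosed_iff_isSylowIn.1 hcl'
    set T := pCoreOf p R with hTdef
    have hTn : (⊤ : Subgroup P) ≤ 𝐍(T) := le_normalizer_pCoreOf_of_le hRn
    haveI : T.Normal := normal_iff_top_le_normalizer.2 hTn
    have hTS : T ≤ S := (isSylowIn_top S).le_of_le_normalizer hT.isP le_top (le_top.trans hTn)
    let f := QuotientGroup.mk' T
    have hf : Function.Surjective f := QuotientGroup.mk'_surjective T
    have hk : f.ker = T := QuotientGroup.ker_mk' T
    haveI : R.Normal := normal_iff_top_le_normalizer.2 hRn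
    haveI : (R.map f).Normal := Normal.map inferInstance f hf
    have hnd : ¬ p ∣ Nat.card (R.map f) := by
      rw [(hT.map f).dvd_card_iff, not_not, Subgroup.map_eq_bot_iff, hk]
    have hcop : (Nat.card ((S : Subgroup P).map f)).Coprime (Nat.card (R.map f)) := by
      obtain ⟨k, hk⟩ := IsPGroup.iff_card.1 (hS.map f)
      rw [hk]
      exact Nat.Coprime.pow_left k ((Nat.Prime.coprime_iff_not_dvd Fact.out).2 hnd)
    haveI := (hS.map f).isNilpotent
    have key : R.map f ≤ M.map f := by
      refine H2.le_of_forall_invariant_sylowIn_le (le_top.trans (normalizer_eq_top _).ge) hcop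
        (Or.inl inferInstance) fun r _ U hU hSU => ?_
      have hn2 : (S : Subgroup P) ≤ 𝐍(U.comap f) := le_normalizer_of_cj_le fun g hg => by
        rw [comap_cj, cj_eq_of_mem_normalizer (hSU (mem_map_of_mem f hg))]
      by_cases he : (S : Subgroup P) ⊔ U.comap f = ⊤
      · exfalso
        apply hc
        have hp1 : IsPiSubgroup ({p, r} : Set ℕ) (S : Subgroup P) :=
          H1.isPiSubgroup_mono (H1.isPiSubgroup_singleton_iff.2 hS) (by simp)
        have hp2 : IsPiSubgroup ({p, r} : Set ℕ) (U.comap f) :=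
          H1.isPiSubgroup_comap (H1.isPiSubgroup_mono
            (H1.isPiSubgroup_singleton_iff.2 (H68.SylowIn.toH69 hU).isP) (by simp))
            (by rw [hk]; exact H1.isPiSubgroup_of_le hp1 hTS)
        have hp3 := H1.isPiSubgroup_sup_of_le_normalizer hp1 hp2 hn2
        rw [he, H1.isPiSubgroup_iff, card_top] at hp3
        refine le_trans (Finset.card_le_card (t := {p, r}) fun q hq => ?_) Finset.card_le_two
        have := hp3 q (Nat.prime_of_mem_primeFactors hq) (Nat.dvd_of_mem_primeFactors hq)
        simpa using this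
      · rw [← map_comap_eq_self_of_surjective hf U]
        exact map_mono (le_sup_right.trans (h.uniq _ le_sup_left (lt_top_iff_ne_top.2 he)))
    rw [map_le_iff_le_comap, comap_map_eq, hk, sup_eq_left.2 (hTS.trans hSM)] at key
    exact h.not_res_le p key
  · rcases h3 N hN with h4 | h4
    · exact Or.inr (le_antisymm h2 (sup_le h4 h1))
    · exact Or.inl (le_antisymm h4 h1)

end Cfsg.Agent.S2905
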