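import Cfsg.Statements.S2906
import Mathlib
import Cfsg.Agent.Lib.LocStruct.YMin
import Cfsg.Agent.Lib.LocEven.FStarP
import Cfsg.Agent.Lib.Comp.FStar

set_option autoImplicit false
open Cfsg

namespace Cfsg.Agent.S2906

open Subgroup H69
open scoped commutatorElement Pointwise


/-- Let P be a finite p-minimal group with O_p(P) = 1, S a Sylow p-subgroup of P and K a component of P. Then O^p(P) = F*(P) = E(P) is generated by the S-conjugates of K, and the subgroup K·N_S(K) is again p-minimal. -/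
theorem result {P : Type*} [Group P] [Finite P] {p : ℕ} [Fact p.Prime] (hP : Cfsg.IsPMinimal p P) (hOp : Cfsg.pCore p P = ⊥) (S : Sylow p P) (K : Subgroup P) (hK : Cfsg.IsComponent K) : Cfsg.pResidual p P = Cfsg.generalizedFittingSubgroup P ∧ Cfsg.generalizedFittingSubgroup P = Cfsg.layer P ∧ Cfsg.layer P = ⨆ s : ↥(S : Subgroup P), K.map (MulAut.conj (s : P)).toMonoidHom ∧ Cfsg.IsPMinimal p ↥(K ⊔ ((S : Subgroup P) ⊓ Subgroup.normalizer (K : Set P))) := by
  obtain ⟨M, hM, hSM⟩ := H68.minOver_exists ((H68.isPMinimal_iff_minOver S).1 hP)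
  have h := ym_top_of ((H68.isPMinimal_iff_minOver S).1 hP) hM hSM
  have hS := S.isPGroup'
  have hO : pCoreOf p (⊤ : Subgroup P) = ⊥ := by rw [H70.pCoreOf_top, hOp]
  have hKM : ¬ K ≤ M := by
    intro hc
    obtain ⟨N, h1, h2, h3⟩ := h.exists_normal_ge_of_sn (sn_top_iff.2 hK.1) hc
    have h4 : N ≤ frattini P := H1.le_frattini_iff.2 fun X hX =>
      h.le_of_maximal hS h2 h3 hX.lt_top (by rw [hO]; simp) fun Z hZ _ => hX.2 Z hZ
    haveI : Group.IsNilpotent (frattini P) := frattini_nilpotent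
    exact H23.IsComponent.not_le_of_isSolvable hK inferInstance (h1.trans h4)
  have hres : ∀ W : Subgroup P, ¬ W ≤ M → 𝐑(p, (⊤ : Subgroup P)) ≤ ncl W S := by
    intro W hW
    rw [← h.eq_of_not_le (X := ncl W S ⊔ S) le_sup_right le_top
      fun e => hW ((le_ncl _ _).trans (le_sup_left.trans e))]
    exact res_sup_le hS (le_normalizer_ncl _ _)
  have hE : ncl K S ≤ Cfsg.layer P :=
    ncl_le_iff.2 fun g _ => H23.IsComponent.le_layer (H23.IsComponent.map_conj hK g)
  have hLR : Cfsg.layer P ≤ 𝐑(p, (⊤ : Subgroup P)) := by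
    rw [← H68.res_eq_of_perfect (p := p) H23.commutator_layer_self]
    exact res_mono le_top
  have hF : Cfsg.fittingSubgroup P ≤ 𝐑(p, (⊤ : Subgroup P)) := fun x hx =>
    mem_res (mem_top x) (H1.coprime_orderOf_of_mem_pPrimeCore
      (H23.fitting_le_pPrimeCore_of_pCore_eq_bot hOp hx))
  have e1 : 𝐑(p, (⊤ : Subgroup P)) = Cfsg.layer P := le_antisymm ((hres K hKM).trans hE) hLR
  have e2 : Cfsg.generalizedFittingSubgroup P = Cfsg.layer P := by
    rw [H23.fStar_def, sup_eq_left]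
    exact hF.trans e1.le
  have key : ∀ K₀ : Subgroup P, K₀ < K → (S : Subgroup P) ⊓ 𝐍(K) ≤ 𝐍(K₀) → K₀ ≤ M := by
    intro K₀ h1 h2
    by_contra hc
    have h3 : ncl K₀ S ≤ K₀ ⊔ 𝐂(K) := ncl_le_iff.2 fun g hg => by
      rcases H23.IsComponent.eq_or_commutator_eq_bot (H23.IsComponent.map_conj hK g) hK with e | e
      · rw [cj_eq_of_mem_normalizer (h2 ⟨hg, cj_eq_self_iff.1 e⟩)]
        exact le_sup_left
      · exact ((cj_mono g h1.le).trans (le_centralizer_of_commutator_eq_bot e)).trans le_sup_right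
    have h4 : K ≤ K₀ ⊔ 𝐂(K) :=
      (((H23.IsComponent.le_layer hK).trans hLR).trans (hres K₀ hc)).trans h3
    have h5 := H23.commutator_le_of_le_sup_centralizer h1.le (h4.trans (sup_le
      (le_normalizer_of_le le_rfl) (le_normalizer_of_le_centralizer (centralizer_anti h1.le))))
      le_rfl h4
    rw [H23.IsComponent.commutator_self hK] at h5
    exact h1.not_ge h5
  refine ⟨by rw [e2, ← e1, res_top], e2, le_antisymm (hLR.trans (hres K hKM)) hE, ?_⟩
  have hTK := (sn_top_iff.2 hK.1).isSylowIn_inf (isSylowIn_top S)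
  have hS₀ : IsSylowIn p ((S : Subgroup P) ⊓ 𝐍(K)) (K ⊔ ((S : Subgroup P) ⊓ 𝐍(K))) :=
    isSylowIn_of_not_dvd_relIndex (hS.to_le inf_le_left) le_sup_right
      (not_dvd_relIndex_of_sup hTK (inf_le_inf_left _ (le_normalizer_of_le le_rfl)) inf_le_right
        (sup_comm _ _))
  refine H68.isPMinimal_of (M := M) hS₀ (fun hc => hKM fun x hx => ?_)
    (fun hc => hKM (le_sup_left.trans hc)) fun X h1 h2 => ?_
  · have h1 : K ≤ 𝐍((S : Subgroup P) ⊓ 𝐍(K)) := le_sup_left.trans hc
    have h2 : ((S : Subgroup P) ⊓ 𝐍(K)) ⊓ K ≤ ⊥ := by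
      rw [← hO]
      exact (inf_le_pCoreOf (hS.to_le inf_le_left) h1).trans (sn_top_iff.2 hK.1).pCoreOf_le
    have h3 : (S : Subgroup P) ⊓ 𝐍(K) ≤ 𝐂(K) :=
      le_centralizer_of_commutator_eq_bot (le_bot_iff.1 ((le_inf
        (commutator_le_left_of_le_normalizer h1)
        (commutator_le_right_of_le_normalizer inf_le_right)).trans h2))
    refine key (zpowers x) (lt_of_le_of_ne (zpowers_le.2 hx) fun e => ?_)
      (le_normalizer_of_le_centralizer (h3.trans (centralizer_anti (zpowers_le.2 hx))))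
      (mem_zpowers x)
    refine H23.IsComponent.not_le_centralizer hK ?_
    rw [← e]
    exact le_centralizer_iff_isMulCommutative.2 inferInstance
  · have h3 : X = ((S : Subgroup P) ⊓ 𝐍(K)) ⊔ (K ⊓ X) := by
      rw [← dedekind_right inf_le_right h1, sup_comm, inf_eq_right.2 h2.le]
    rw [h3]
    refine sup_le (inf_le_left.trans hSM) (key _ (lt_of_le_of_ne inf_le_left fun e => ?_)
      (le_normalizer_inf inf_le_right (le_normalizer_of_le h1)))
    exact h2.not_ge (sup_le (e.ge.trans inf_le_right) h1)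

end Cfsg.Agent.S2906
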