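import Mathlib
import Cfsg.Statements.S2907
import Cfsg.Agent.Lib.PGroup.Extra

set_option autoImplicit false
open Cfsg
open scoped commutatorElement

namespace Cfsg.Agent.S2907

/-- Let X be a finite semi-extraspecial p-group and x an element of X outside the centre. Then the index of C_X(x) in X equals the order of Z(X), and the commutators [x, y], y ∈ X, form exactly the centre Z(X). -/
theorem result {X : Type*} [Group X] [Finite X] {p : ℕ} [Fact p.Prime] (hX : Cfsg.IsSemiExtraspecial p X) (x : X) (hx : x ∉ Subgroup.center X) : (Subgroup.centralizer ({x} : Set X)).index = Nat.card ↥(Subgroup.center X) ∧ {z : X | ∃ y : X, z = x * y * x⁻¹ * y⁻¹} = (Subgroup.center X : Set X) := by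
  have hpp : p.Prime := Fact.out
  have hc : ∀ a b : X, ⁅a, b⁆ ∈ Subgroup.center X := fun a b =>
    hX.1.2.2 ▸ Subgroup.commutator_mem_commutator (Subgroup.mem_top a) (Subgroup.mem_top b)
  let f : X →* X := MonoidHom.mk' (fun y => ⁅x, y⁆) fun a b =>
    H5.commutator_mul_right_of_commute (Subgroup.mem_center_iff.1 (hc x b) a)
  have hker : f.ker = Subgroup.centralizer ({x} : Set X) := by
    ext y
    rw [MonoidHom.mem_ker, Subgroup.mem_centralizer_singleton_iff]
    exact commutatorElement_eq_one_iff_mul_comm.trans eq_comm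
  have hle : f.range ≤ Subgroup.center X := by
    rintro _ ⟨y, rfl⟩
    exact hc x y
  have hr : f.range = Subgroup.center X := by
    by_contra hne
    have h1 : f.range.subgroupOf (Subgroup.center X) ≠ ⊤ := fun h =>
      hne (le_antisymm hle (Subgroup.subgroupOf_eq_top.1 h))
    obtain ⟨Y, hY, hYle⟩ := (eq_top_or_exists_le_coatom _).resolve_left h1
    have hY' : (Y.map (Subgroup.center X).subtype).subgroupOf (Subgroup.center X) = Y :=
      Subgroup.comap_map_eq_self_of_injective (Subgroup.subtype_injective _) Y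
    obtain ⟨hn, hE⟩ := hX.2 (Y.map (Subgroup.center X).subtype) (Subgroup.map_subtype_le Y)
      (hY'.symm ▸ hY)
    have h2 : f.range ≤ Y.map (Subgroup.center X).subtype := fun y hy =>
      ⟨⟨y, hle hy⟩, hYle hy, rfl⟩
    set W := Y.map (Subgroup.center X).subtype
    have h3 : (Subgroup.center X).map (QuotientGroup.mk' W) ≤ Subgroup.center (X ⧸ W) := by
      rintro _ ⟨y, hy, rfl⟩
      rw [Subgroup.mem_center_iff]
      intro g
      obtain ⟨g, rfl⟩ := QuotientGroup.mk'_surjective W g
      rw [← map_mul, ← map_mul, Subgroup.mem_center_iff.1 hy g]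
    have h4 : (Subgroup.center X).map (QuotientGroup.mk' W) ≠ ⊥ := by
      rw [Ne, Subgroup.map_eq_bot_iff, QuotientGroup.ker_mk']
      intro h
      exact hY.1 (hY' ▸ Subgroup.subgroupOf_eq_top.2 h)
    have h5 : (Subgroup.center X).map (QuotientGroup.mk' W) = Subgroup.center (X ⧸ W) := by
      refine Subgroup.eq_of_le_of_card_ge h3 ?_
      rcases (Nat.dvd_prime hpp).1 (hE.2 ▸ Subgroup.card_dvd_of_le h3) with h | h
      · exact absurd (Subgroup.card_eq_one.1 h) h4
      · rw [h, hE.2]
    have h6 : QuotientGroup.mk' W x ∈ Subgroup.center (X ⧸ W) := by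
      rw [Subgroup.mem_center_iff]
      intro g
      obtain ⟨g, rfl⟩ := QuotientGroup.mk'_surjective W g
      rw [eq_comm, ← commutatorElement_eq_one_iff_mul_comm, ← map_commutatorElement,
        QuotientGroup.mk'_apply, QuotientGroup.eq_one_iff]
      exact h2 ⟨g, rfl⟩
    rw [← h5] at h6
    obtain ⟨y, hy, hyx⟩ := h6
    rw [QuotientGroup.mk'_apply, QuotientGroup.mk'_apply, QuotientGroup.eq] at hyx
    exact hx ((Subgroup.mul_mem_cancel_left _ (inv_mem hy)).1 (Subgroup.map_subtype_le Y hyx))
  refine ⟨by rw [← hker, Subgroup.index_ker, hr], ?_⟩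
  rw [← hr]
  ext z
  exact ⟨fun ⟨y, hy⟩ => ⟨y, hy.symm⟩, fun ⟨y, hy⟩ => ⟨y, hy.symm⟩⟩

end Cfsg.Agent.S2907
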