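import Mathlib
import Cfsg.Statements.S2908
import Cfsg.Agent.Lib.Core.Coprime
import Cfsg.Agent.Lib.Thompson.Replacement
import Cfsg.Agent.Lib.LocStruct.Conj
import Cfsg.Agent.Base

set_option autoImplicit false
open Cfsg

namespace Cfsg.Agent.S2908

open Subgroup H69
open scoped commutatorElement

/-- Let P be a p-subgroup of a finite group, normalized by a p-subgroup A and by a subgroup B of order prime to p that commutes elementwise with A. If [P, B] ≤ [P, A], then B centralizes P. -/
theorem result {G : Type*} [Group G] [Finite G] {p : ℕ} [Fact p.Prime] (P A B : Subgroup G) (hP : IsPGroup p ↥P) (hA : IsPGroup p ↥A) (hB : ¬ p ∣ Nat.card ↥B) (hnA : A ≤ Subgroup.normalizer (P : Set G)) (hnB : B ≤ Subgroup.normalizer (P : Set G)) (hAB : ⁅A, B⁆ = ⊥) (hcomm : ⁅P, B⁆ ≤ ⁅P, A⁆) : ⁅P, B⁆ = ⊥ := by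
  have hcop : (Nat.card B).Coprime (Nat.card P) :=
    H2.coprime_card_of_isPGroup ((Nat.coprime_comm.1 ((Fact.out : p.Prime).coprime_iff_not_dvd.2 hB))) hP
  have hsol : Group.IsSolvable P := by have := hP.isNilpotent; infer_instance
  set Q := ⁅P, B⁆ with hQ
  have hQP : Q ≤ P := commutator_le_left_of_le_normalizer hnB
  have hAB' : A ≤ centralizer (B : Set G) := commutator_eq_bot_iff_le_centralizer.1 hAB
  have hPQ : P ≤ normalizer (Q : Set G) := normalizer_commutator_ge_left P B
  have hBQ : B ≤ normalizer (Q : Set G) := normalizer_commutator_ge_right P B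
  have hAQ : A ≤ normalizer (Q : Set G) :=
    le_normalizer_commutator hnA (hAB'.trans (centralizer_le_normalizer _))
  have hPA : IsPGroup p ↥(P ⊔ A) := hP.to_sup_of_normal_left' hA hnA
  have hPAQ : P ⊔ A ≤ normalizer (Q : Set G) := sup_le hPQ hAQ
  set R := ⁅Q, P ⊔ A⁆ with hR
  have hBPA : B ≤ normalizer ((P ⊔ A : Subgroup G) : Set G) :=
    le_normalizer_sup hnB ((le_centralizer_iff.1 hAB').trans (centralizer_le_normalizer _))
  have hBR : B ≤ normalizer (R : Set G) := le_normalizer_commutator hBQ hBPA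
  have hPAR : P ⊔ A ≤ normalizer (R : Set G) := normalizer_commutator_ge_right _ _
  set C := P ⊓ centralizer (B : Set G) with hC
  have hAC : A ≤ normalizer (C : Set G) :=
    le_normalizer_inf hnA (le_normalizer_centralizer (hAB'.trans (centralizer_le_normalizer _)))
  have h1 : ⁅P, A⁆ ≤ R ⊔ C := by
    rw [commutator_le]
    intro x hx a ha
    obtain ⟨q, hq, c, hc, rfl⟩ := H2.exists_commutator_mul_centralizer hnB hcop (Or.inr hsol) hx
    have hd : ⁅c, a⁆ ∈ C := commutator_le_left_of_le_normalizer hAC (commutator_mem_commutator hc ha)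
    have e : ⁅q * c, a⁆ = ⁅q, ⁅c, a⁆⁆ * ⁅c, a⁆ * ⁅q, a⁆ := by
      simp only [commutatorElement_def]; group
    rw [e]
    exact mul_mem (mul_mem (mem_sup_left (commutator_mem_commutator hq (mem_sup_left hd.1)))
      (mem_sup_right hd)) (mem_sup_left (commutator_mem_commutator hq (mem_sup_right ha)))
  have h2 : ⁅R ⊔ C, B⁆ ≤ R := by
    refine H2.commutator_sup_le le_normalizer ((inf_le_left.trans le_sup_left).trans hPAR)
      (commutator_le_left_of_le_normalizer hBR) ?_
    rw [commutator_eq_bot_iff_le_centralizer.2 inf_le_right]; exact bot_le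
  have h3 : Q ≤ R := by
    calc Q = ⁅Q, B⁆ := (H2.commutator_commutator_eq hnB hcop).symm
      _ ≤ ⁅R ⊔ C, B⁆ := commutator_mono (hcomm.trans h1) le_rfl
      _ ≤ R := h2
  exact H24.eq_bot_of_le_commutator_of_isPGroup (hP.to_le hQP) hPA hPAQ h3

end Cfsg.Agent.S2908
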