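import Cfsg.Statements.S2909
import Mathlib
import Cfsg.Agent.Lib.LocStruct.YMin
import Cfsg.Agent.Lib.LocStruct.ResAct
import Cfsg.Agent.Lib.Core.CoprimeAbelian
import Cfsg.Agent.S2908

set_option autoImplicit false
open Cfsg

namespace Cfsg.Agent.S2909

open Subgroup H69
open scoped commutatorElement Pointwise


/-- Let p be a prime, E a normal p-subgroup of the finite group G, and U a non-cyclic elementary abelian p-subgroup of G such that either C_E(U) = C_E(u) for every nontrivial u ∈ U, or [E, U] = [E, ⟨u⟩] for every nontrivial u ∈ U. If R is a subgroup of order prime to p normalized by U, then [R, U] centralizes E. -/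
theorem result {G : Type*} [Group G] [Finite G] {p : ℕ} [Fact p.Prime] (E : Subgroup G) [E.Normal] (hE : IsPGroup p ↥E) (U : Subgroup G) (hU : Cfsg.IsElementaryAbelian p U) (hnc : ¬ IsCyclic ↥U) (hcond : (∀ u ∈ U, u ≠ 1 → E ⊓ Subgroup.centralizer (U : Set G) = E ⊓ Subgroup.centralizer ({u} : Set G)) ∨ (∀ u ∈ U, u ≠ 1 → ⁅E, U⁆ = ⁅E, Subgroup.zpowers u⁆)) (R : Subgroup G) (hR : ¬ p ∣ Nat.card ↥R) (hRU : U ≤ Subgroup.normalizer (R : Set G)) : ⁅R, U⁆ ≤ Subgroup.centralizer (E : Set G) := by
  have hp : p.Prime := Fact.out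
  have hUp : IsPGroup p U := fun x => ⟨1, by
    apply Subtype.ext; simpa using hU.2 x x.2⟩
  have hRp : (Nat.card R).Coprime p := ((Nat.Prime.coprime_iff_not_dvd hp).2 hR).symm
  have hcop : (Nat.card U).Coprime (Nat.card R) := (H2.coprime_card_of_isPGroup hRp hUp).symm
  have hEn : ∀ X : Subgroup G, X ≤ 𝐍(E) := fun X => by rw [normalizer_eq_top]; exact le_top
  have hCn : ∀ X : Subgroup G, X ≤ 𝐍(𝐂(E)) := fun X => H69.le_normalizer_centralizer (hEn X)
  have hUU : U ≤ 𝐂(U) := fun a ha => mem_centralizer_iff_commute.2 fun b hb => by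
    have := hU.1.is_comm.comm (⟨b, hb⟩ : U) ⟨a, ha⟩
    exact congrArg Subtype.val this
  suffices h : R ≤ H2.relCentralizer U 𝐂(E) from (H2.le_relCentralizer_iff.1 h).2
  refine H2.le_of_forall_centralizer_le hU.1 hnc hRU hcop fun u hu hu1 => ?_
  refine H2.le_relCentralizer_iff.2 ⟨hCn _, ?_⟩
  set X := R ⊓ centralizer ({u} : Set G) with hX
  have huU : zpowers u ≤ U := (zpowers_le).2 hu
  have hXu : X ≤ 𝐂(zpowers u) := by rw [H69.centralizer_zpowers]; exact inf_le_right
  have hUu : U ≤ 𝐂(zpowers u) := hUU.trans (H69.centralizer_anti huU)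
  have hUX : U ≤ 𝐍(X) := by
    refine H69.le_normalizer_inf hRU ?_
    rw [← H69.centralizer_zpowers]
    exact H69.le_normalizer_of_le hUu
  have hBX : ⁅X, U⁆ ≤ X := H69.commutator_le_left_of_le_normalizer hUX
  have hBR : ⁅X, U⁆ ≤ R := hBX.trans inf_le_left
  have hBp : ¬ p ∣ Nat.card (⁅X, U⁆ : Subgroup G) := fun h => hR (h.trans (card_dvd_of_le hBR))
  have hBp' : (Nat.card (⁅X, U⁆ : Subgroup G)).Coprime p :=
    ((Nat.Prime.coprime_iff_not_dvd hp).2 hBp).symm
  have hup : IsPGroup p (zpowers u) := hUp.to_le huU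
  have huB : zpowers u ≤ 𝐂(⁅X, U⁆) := le_centralizer_iff.1 (hBX.trans hXu)
  rcases hcond with h | h
  · have hC := h u hu hu1
    refine H2.thompson_PxQ hup hBp' hE huB (hEn _) (hEn _) ?_
    rw [H69.centralizer_zpowers, ← hC, le_centralizer_iff]
    apply H69.le_centralizer_of_commutator_eq_bot
    have hXC : X ≤ 𝐍(E ⊓ 𝐂(U)) := by
      rw [hC, ← H69.centralizer_zpowers]
      exact H69.le_normalizer_inf (hEn _) (H69.le_normalizer_of_le hXu)
    have hCU : ⁅E ⊓ 𝐂(U), U⁆ = ⊥ := H69.commutator_eq_bot_of_le_centralizer inf_le_right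
    rw [← le_bot_iff]
    have hb : ∀ Y : Subgroup G, Y ≤ 𝐍((⊥ : Subgroup G)) := fun Y => by
      rw [normalizer_eq_top]; exact le_top
    refine H2.three_subgroups_le (hb _) (hb _) (hb _) ?_ ?_
    · rw [commutator_comm U, hCU]; simp
    · rw [← hCU]
      exact commutator_mono (H69.commutator_le_left_of_le_normalizer hXC) le_rfl
  · have hD := h u hu hu1
    have hXD : X ≤ 𝐍(⁅E, U⁆) := by
      rw [hD]
      exact H69.le_normalizer_commutator (hEn _) (H69.le_normalizer_of_le_centralizer hXu)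
    have h3 : ⁅⁅X, U⁆, E⁆ ≤ ⁅E, U⁆ := by
      refine H2.three_subgroups_le hXD (le_normalizer_commutator_right _ _)
        (le_normalizer_commutator_left _ _) ?_ ?_
      · rw [commutator_comm U]
        exact H69.commutator_le_left_of_le_normalizer hXD
      · exact commutator_mono (H69.commutator_le_left_of_le_normalizer (hEn _)) le_rfl
    have := Cfsg.Agent.S2908.result E (zpowers u) ⁅X, U⁆ hE hup hBp (hEn _) (hEn _)
      (H69.commutator_eq_bot_of_le_centralizer huB) (by rw [commutator_comm, ← hD]; exact h3)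
    apply H69.le_centralizer_of_commutator_eq_bot
    rw [commutator_comm]; exact this

end Cfsg.Agent.S2909
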