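import Cfsg.Statements.S2910
import Mathlib
import Cfsg.Agent.Lib.LocStruct.Conj
import Cfsg.Agent.Lib.PGroup.Critical
import Cfsg.Agent.Lib.Transfer.NormalComplement

set_option autoImplicit false
open Cfsg

namespace Cfsg.Agent.S2910

open Subgroup H69
open scoped commutatorElement Pointwise


/-- Let p be an odd prime dividing the order of the finite group G and P a Sylow p-subgroup of G. If Ω₁(P) (generated by the elements of order dividing p) is contained in the centre of G, then G has a normal p-complement. In particular, if G is quasisimple then Ω₁(P) is not central in G. -/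
theorem result {G : Type*} [Group G] [Finite G] {p : ℕ} [Fact p.Prime] (hp : p ≠ 2) (hdiv : p ∣ Nat.card G) (P : Sylow p G) (hZ : Cfsg.omegaOne p (P : Subgroup G) ≤ Subgroup.center G) : Cfsg.HasNormalPComplement p G ∧ ¬ Cfsg.IsQuasisimple G := by
  have h1 : Cfsg.HasNormalPComplement p G := by
    rw [H4.hasNormalPComplement_iff_forall_le_sylow P]
    intro Q hQ g hg hc
    have hQp : IsPGroup p Q := P.isPGroup'.to_le hQ
    have ha := H5.aut_eq_one_of_omega hp hQp (Q.normalizerMonoidHom ⟨g, hg⟩)
      (Nat.Coprime.coprime_dvd_left ((orderOf_map_dvd _ _).trans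
        (by rw [← orderOf_coe])) hc) (fun x hx => by
          apply Subtype.ext
          have hz : (x : G) ∈ center G := hZ (subset_closure ⟨hQ x.2, by
            have := congrArg Subtype.val hx; simpa using this⟩)
          have := mem_center_iff.1 hz g
          change g * x * g⁻¹ = x
          rw [this, mul_inv_cancel_right])
    rw [mem_centralizer_iff]
    intro x hx
    have := congrArg (fun a : MulAut Q => ((a ⟨x, hx⟩ : Q) : G)) ha
    change g * x * g⁻¹ = x at this
    rw [mul_inv_eq_iff_eq_mul] at this
    exact this.symm
  refine ⟨h1, fun hq => ?_⟩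
  have := hq.1
  have := H4.pResidual_normal p G
  have hQ : IsPGroup p (G ⧸ pResidual p G) := H4.isPGroup_quotient_pResidual
  have hperf : Group.IsPerfect (G ⧸ pResidual p G) := inferInstance
  have hsub : Subsingleton (G ⧸ pResidual p G) := by
    by_contra hn
    rw [not_subsingleton_iff_nontrivial] at hn
    have := hQ.isNilpotent
    exact Group.IsPerfect.not_isSolvable (G ⧸ pResidual p G) inferInstance
  have htop : pResidual p G = ⊤ := QuotientGroup.subgroup_eq_top_of_subsingleton _ hsub
  apply H4.hasNormalPComplement_iff_not_dvd.1 h1
  rw [htop, card_top]; exact hdiv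

end Cfsg.Agent.S2910
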