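import Mathlib
import Cfsg.Statements.S2912
import Cfsg.Agent.Lib.LocStruct.SylowIn
import Cfsg.Agent.Lib.PGroup.Extra
import Cfsg.Agent.Lib.BG4.Rank1
import Cfsg.Agent.Lib.Sig.EA
import Cfsg.Agent.Lib.Core.CoprimeAbelian
-- import your own Cfsg.Agent.* helpers here

set_option autoImplicit false
open Cfsg

namespace Cfsg.Agent.S2912

open H69 H5 Subgroup
open scoped commutatorElement IsMulCommutative

theorem indep_fix {M ι : Type*} [CommGroup M] [DecidableEq ι] (f : ι → M →* M)
    (hc : ∀ i j a, f i (f j a) = f j (f i a)) (s : Finset ι)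
    (hf : ∀ i j, i ≠ j → ∀ a, f i a = a → f j a = a → a = 1) :
    ∀ a : ι → M, (∀ i, f i (a i) = a i) → ∏ i ∈ s, a i = 1 → ∀ i ∈ s, a i = 1 := by
  induction s using Finset.induction_on with
  | empty => simp
  | insert j s hj ih =>
    intro a ha hprod
    rw [Finset.prod_insert hj] at hprod
    have h1 : ∏ i ∈ s, (f j (a i) / a i) = 1 := by
      have h2 := congrArg (f j) hprod
      rw [map_mul, ha, map_one, map_prod] at h2
      rw [Finset.prod_div_distrib, eq_inv_of_mul_eq_one_right h2, eq_inv_of_mul_eq_one_right hprod,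
        div_self']
    have h3 := ih (fun i => f j (a i) / a i) (fun i => by rw [map_div, hc, ha]) h1
    have h4 : ∀ i ∈ s, a i = 1 := fun i hi =>
      hf i j (fun h => hj (h ▸ hi)) _ (ha i) (div_eq_one.1 (h3 i hi))
    intro i hi
    rcases Finset.mem_insert.1 hi with rfl | hi
    · rwa [Finset.prod_eq_one h4, mul_one] at hprod
    · exact h4 i hi

theorem card_pow_le {G : Type*} [Group G] [Finite G] {p : ℕ} (hp : p.Prime) {Q V : Subgroup G}
    {z x y : G} (h : WES p Q z) (hV : IsMulCommutative V) (hQV : Q ≤ 𝐍(V))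
    (hz : V ⊓ centralizer {z} = ⊥) (hx : x ∈ Q) (hy : y ∈ Q) (hxy : ⁅y, x⁆ ≠ 1) :
    Nat.card ↥(V ⊓ centralizer {x}) ^ p ≤ Nat.card V := by
  classical
  let φ := H2.conjAut hQV
  have hφ : ∀ (a : Q) (v : V), (φ a v : G) = a * v * (a : G)⁻¹ := H2.coe_conjAut_apply hQV
  let X : Q := ⟨x, hx⟩
  let Y : Q := ⟨y, hy⟩
  have hcz := h.comm y hy x hx
  let C : Q := ⟨⁅y, x⁆, h.zpowers_le hcz⟩
  have hC : ∀ a : Q, Commute a C := fun a => Subtype.ext (h.commute hcz a.2).eq
  have hYX : ∀ i : ℕ, Y ^ i * X * (Y ^ i)⁻¹ = C ^ i * X := by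
    intro i
    induction i with
    | zero => simp
    | succ i ih =>
      have h1 : Y * X * Y⁻¹ = C * X := Subtype.ext (by
        simp [X, Y, C, commutatorElement_def])
      calc Y ^ (i + 1) * X * (Y ^ (i + 1))⁻¹ = Y * (Y ^ i * X * (Y ^ i)⁻¹) * Y⁻¹ := by group
        _ = C ^ i * (Y * X * Y⁻¹) := by
          rw [ih, ← mul_assoc, ((hC Y).pow_right i).eq]; group
        _ = _ := by rw [h1]; group
  let f : Fin p → V →* V := fun i => (φ (C ^ (i : ℕ) * X)).toMonoidHom
  have hoC : orderOf C = p := by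
    refine @orderOf_eq_prime _ _ _ _ ⟨hp⟩ (Subtype.ext (h.pow_eq_one hcz)) ?_
    exact fun h0 => hxy (congrArg Subtype.val h0)
  have key := indep_fix f (fun i j a => by
    have : C ^ (i : ℕ) * X * (C ^ (j : ℕ) * X) = C ^ (j : ℕ) * X * (C ^ (i : ℕ) * X) :=
      (((Commute.refl C).pow_pow _ _).mul_right ((hC X).symm.pow_left _)).mul_left
        (((hC X).pow_right _).mul_right (Commute.refl X))
    simp only [f, MulEquiv.coe_toMonoidHom]
    rw [← MulAut.mul_apply, ← MulAut.mul_apply, ← map_mul, ← map_mul, this]) Finset.univ (by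
    intro i j hij a h1 h2
    simp only [f, MulEquiv.coe_toMonoidHom] at h1 h2
    have h3 : φ (C ^ (i : ℕ) * (C ^ (j : ℕ))⁻¹) a = a := by
      have : C ^ (i : ℕ) * (C ^ (j : ℕ))⁻¹ = (C ^ (i : ℕ) * X) * (C ^ (j : ℕ) * X)⁻¹ := by group
      rw [this, map_mul, map_inv, MulAut.mul_apply, MulAut.inv_apply,
        (MulEquiv.symm_apply_eq _).2 h2.symm, h1]
    have h4 : ((C ^ (i : ℕ) * (C ^ (j : ℕ))⁻¹ : Q) : G) ≠ 1 := by
      intro h0
      have h5 : C ^ (i : ℕ) = C ^ (j : ℕ) := mul_inv_eq_one.1 (Subtype.ext h0)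
      exact hij (Fin.ext (pow_injOn_Iio_orderOf (by rw [hoC]; exact i.2)
        (by rw [hoC]; exact j.2) h5))
    obtain ⟨k, hk⟩ := exists_zpow_eq_of_prime hp h.ord
      (mul_mem (pow_mem hcz i) (inv_mem (pow_mem hcz j))) h4 (mem_zpowers z)
    have h6 := congrArg Subtype.val h3
    rw [hφ] at h6
    have h7 : Commute ((C ^ (i : ℕ) * (C ^ (j : ℕ))⁻¹ : Q) : G) a :=
      mul_inv_eq_iff_eq_mul.1 h6
    have h8 : (a : G) ∈ V ⊓ centralizer {z} :=
      ⟨a.2, mem_centralizer_singleton_iff.2 (hk ▸ (h7.zpow_left k).symm.eq)⟩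
    rw [hz] at h8
    exact Subtype.ext h8)
  let U := (V ⊓ centralizer {x}).subgroupOf V
  let F : (Fin p → U) →* V := MonoidHom.mk' (fun u => ∏ i : Fin p, φ (Y ^ (i : ℕ)) (u i))
    (fun u v => by simp [Finset.prod_mul_distrib])
  have hF : Function.Injective F := by
    rw [injective_iff_map_eq_one]
    intro u hu
    funext i
    have := key (fun i => φ (Y ^ (i : ℕ)) (u i)) (fun i => by
      have h1 : φ X (u i) = u i := Subtype.ext (by
        rw [hφ, mul_inv_eq_iff_eq_mul]
        exact (mem_centralizer_singleton_iff.1 (u i).2.2).symm)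
      simp only [f, MulEquiv.coe_toMonoidHom]
      rw [← hYX, ← MulAut.mul_apply, ← map_mul, inv_mul_cancel_right, map_mul, MulAut.mul_apply,
        h1]) hu i (Finset.mem_univ _)
    exact Subtype.ext ((map_eq_one_iff _ (φ _).injective).1 this)
  have := Nat.card_le_card_of_injective F hF
  rwa [Nat.card_fun, Nat.card_eq_fintype_card (α := Fin p), Fintype.card_fin,
    card_subgroupOf inf_le_left] at this

theorem main {G : Type*} [Group G] [Finite G] {p r : ℕ} [hp : Fact p.Prime] [hr : Fact r.Prime]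
    {z : G} {n : ℕ} (hmin : ∀ k : ℕ, 1 ≤ k → p ∣ r ^ k - 1 → n ≤ k)
    (hpr : p ≠ r) (w : ℕ) :
    ∀ Q V : Subgroup G, WES p Q z → Nat.card Q = p ^ (2 * w + 1) → IsElementaryAbelian r V →
      V ≠ ⊥ → Q ≤ 𝐍(V) → V ⊓ centralizer {z} = ⊥ → r ^ (n * p ^ w) ≤ Nat.card V := by
  have hcard : ∀ V : Subgroup G, IsElementaryAbelian r V → V ≠ ⊥ →
      ∃ k, 1 ≤ k ∧ Nat.card V = r ^ k := by
    intro V hV hne
    have : IsPGroup r V := isPGroup_iff_mem.2 fun x hx => ⟨1, by simpa using hV.2 x hx⟩
    obtain ⟨k, hk⟩ := IsPGroup.iff_card.1 this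
    refine ⟨k, Nat.one_le_iff_ne_zero.2 ?_, hk⟩
    rintro rfl
    exact hne (card_eq_one.1 (by simpa using hk))
  induction w with
  | zero =>
    intro Q V h _ hV hne hQV hz
    obtain ⟨k, hk1, hk⟩ := hcard V hV hne
    rw [hk, pow_zero, mul_one]
    refine Nat.pow_le_pow_right hr.out.pos (hmin k hk1 ?_)
    have hZV : zpowers z ≤ 𝐍(V) := h.zpowers_le.trans hQV
    let φ := H2.conjAut hZV
    letI : MulAction (zpowers z) V := MulAction.compHom V φ
    have h1 := (h.isPGroup.to_le h.zpowers_le).card_modEq_card_fixedPoints V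
    have h2 : MulAction.fixedPoints (zpowers z) V = {1} := by
      ext v
      simp only [MulAction.mem_fixedPoints, Set.mem_singleton_iff]
      refine ⟨fun hv => ?_, fun hv a => by rw [hv]; exact map_one (φ a)⟩
      have h3 : (φ ⟨z, mem_zpowers z⟩ v : G) = v := congrArg Subtype.val (hv ⟨z, mem_zpowers z⟩)
      rw [H2.coe_conjAut_apply, mul_inv_eq_iff_eq_mul] at h3
      have h4 : (v : G) ∈ V ⊓ centralizer {z} := ⟨v.2, mem_centralizer_singleton_iff.2 h3.symm⟩
      rw [hz] at h4
      exact Subtype.ext h4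
    rw [h2, hk] at h1
    simp only [Nat.card_unique] at h1
    exact (Nat.modEq_iff_dvd' (Nat.one_le_pow _ _ hr.out.pos)).1 h1.symm
  | succ w ih =>
    intro Q V h hQ hV hne hQV hz
    have hzc : ∀ a ∈ zpowers z, a ≠ 1 → V ⊓ centralizer {a} = ⊥ := by
      intro a ha ha1
      obtain ⟨k, hk⟩ := exists_zpow_eq_of_prime hp.out h.ord ha ha1 (mem_zpowers z)
      rw [eq_bot_iff, ← hz]
      refine inf_le_inf_left _ fun v hv => mem_centralizer_singleton_iff.2 ?_
      have : Commute v a := mem_centralizer_singleton_iff.1 hv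
      exact hk ▸ (this.zpow_right k).eq
    have hsub : ∀ x ∈ Q, ∀ y ∈ Q, ⁅x, y⁆ ≠ 1 →
        Nat.card ↥(Q ⊓ centralizer {x} ⊓ centralizer {y}) = p ^ (2 * w + 1) := by
      intro x hx y hy hxy
      have h1 := h.card_sub hp.out hx hy hxy
      rw [hQ, show 2 * (w + 1) + 1 = 2 * w + 1 + 1 + 1 by ring, pow_succ, pow_succ] at h1
      exact (Nat.eq_of_mul_eq_mul_right hp.out.pos (Nat.eq_of_mul_eq_mul_right hp.out.pos h1)).symm
    by_cases hex : ∃ x ∈ Q, x ≠ 1 ∧ V ⊓ centralizer {x} ≠ ⊥
    · obtain ⟨x, hx, hx1, hxV⟩ := hex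
      obtain ⟨y, hy, hyx⟩ : ∃ y ∈ Q, ¬ Commute y x := by
        by_contra hc
        push Not at hc
        exact hxV (hzc x (h.mem_zpowers_of_commute hx hc) hx1)
      have hxy : ⁅x, y⁆ ≠ 1 := fun h0 => hyx (commutatorElement_eq_one_iff_commute.1 h0).symm
      have h1 := card_pow_le hp.out h hV.1 hQV hz hx hy
        (fun h0 => hyx (commutatorElement_eq_one_iff_commute.1 h0))
      have h2 := ih _ (V ⊓ centralizer {x}) (h.sub hp.out hx hy hxy) (hsub x hx y hy hxy)
        (H43.ea_of_le hV inf_le_left) hxV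
        (le_normalizer_inf (inf_le_left.trans (inf_le_left.trans hQV))
          (inf_le_left.trans (inf_le_right.trans le_normalizer)))
        (by rw [eq_bot_iff, ← hz]; exact inf_le_inf_right _ inf_le_left)
      rw [pow_succ, ← mul_assoc, pow_mul]
      exact (Nat.pow_le_pow_left h2 p).trans h1
    push Not at hex
    have hcyc : ∀ B ≤ Q, IsMulCommutative B → IsCyclic B := fun B hB hc =>
      H2.isCyclic_of_semiregular_of_comm hc hV.1 hne (hB.trans hQV) fun a ha => hex a (hB ha)
    have hQz : Q ≠ zpowers z := by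
      intro h0
      rw [h0, h.card_zpowers] at hQ
      have := Nat.pow_right_injective hp.out.two_le ((pow_one p).trans hQ)
      omega
    obtain ⟨x, hx, y, hy, hxy⟩ := h.exists_commutator_eq hp.out hQz
    have hz1 : z ≠ 1 := by
      intro h0
      have := h.ord
      rw [h0, orderOf_one] at this
      exact hp.out.one_lt.ne this
    by_cases hp2 : p ≠ 2
    · exfalso
      obtain ⟨A, hAQ, -, hA, hAc⟩ := H48.exists_normal_p2_of_not_isCyclic hp2 h.isPGroup (by
        intro hc
        have := hc.isMulCommutative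
        apply hz1
        rw [← hxy, commutatorElement_eq_one_iff_mul_comm]
        exact congrArg Subtype.val (mul_comm (⟨x, hx⟩ : Q) ⟨y, hy⟩))
      exact H43.ea_not_isCyclic hA hAc.ge (hcyc A hAQ hA.1)
    push Not at hp2
    rcases Nat.eq_zero_or_pos w with rfl | hw
    · subst hp2
      have hn : n ≤ 1 := hmin 1 le_rfl (by
        rw [pow_one]
        exact even_iff_two_dvd.1 (hr.out.even_sub_one (Ne.symm hpr)))
      obtain ⟨k, hk1, hk⟩ := hcard V hV hne
      rw [hk]
      refine Nat.pow_le_pow_right hr.out.pos ?_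
      by_contra hc
      have hk' : k = 1 := by omega
      rw [hk', pow_one] at hk
      have := isCyclic_of_prime_card hk
      let φ := H2.conjAut hQV
      have h1 : φ ⁅(⟨x, hx⟩ : Q), ⟨y, hy⟩⁆ = 1 := by
        rw [map_commutatorElement, commutatorElement_eq_one_iff_mul_comm]
        exact (IsCyclic.mulAutMulEquiv V).injective (by rw [map_mul, map_mul, mul_comm])
      apply hne
      rw [eq_bot_iff, ← hz]
      intro v hv
      refine ⟨hv, mem_centralizer_singleton_iff.2 ?_⟩
      have h2 := H2.coe_conjAut_apply hQV ⁅(⟨x, hx⟩ : Q), ⟨y, hy⟩⁆ ⟨v, hv⟩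
      have h3 : ((⁅(⟨x, hx⟩ : Q), ⟨y, hy⟩⁆ : Q) : G) = z := hxy
      rw [show H2.conjAut hQV = φ from rfl, h1, h3] at h2
      exact (eq_mul_inv_iff_mul_eq.1 h2)
    · exfalso
      have hxy1 : ⁅x, y⁆ ≠ 1 := hxy ▸ hz1
      obtain ⟨u, hu, huz⟩ : ∃ u ∈ Q ⊓ centralizer {x} ⊓ centralizer {y}, u ∉ zpowers z := by
        by_contra hc
        push Not at hc
        have h1 := card_le_of_le (show Q ⊓ centralizer {x} ⊓ centralizer {y} ≤ zpowers z from hc)
        rw [hsub x hx y hy hxy1, h.card_zpowers] at h1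
        have := (Nat.pow_le_pow_iff_right hp.out.one_lt).1 (h1.trans_eq (pow_one p).symm)
        omega
      have hux : Commute u x := mem_centralizer_singleton_iff.1 hu.1.2
      have huy : Commute u y := mem_centralizer_singleton_iff.1 hu.2
      have hB : closure {x, u} ≤ Q := by
        rw [closure_le]; rintro a (rfl | rfl); exacts [hx, hu.1.1]
      obtain ⟨g, hg⟩ := (hcyc _ hB (isMulCommutative_closure (by
        rintro a (rfl | rfl) b (rfl | rfl); exacts [rfl, hux.symm, hux, rfl]))).exists_generator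
      obtain ⟨i, hi⟩ := hg ⟨x, subset_closure (by simp)⟩
      obtain ⟨j, hj⟩ := hg ⟨u, subset_closure (by simp)⟩
      have hi' : (g : G) ^ i = x := congrArg Subtype.val hi
      have hj' : (g : G) ^ j = u := congrArg Subtype.val hj
      have hg2 := h.pow_mem (hB g.2)
      clear hi hj hg
      generalize (g : G) = g at hi' hj' hg2
      subst hp2
      rcases Int.even_or_odd' j with ⟨m, hm | hm⟩
      · apply huz
        rw [← hj', hm, zpow_mul]
        exact zpow_mem (by simpa using hg2) m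
      · have h1 : Commute (g ^ (2 * m)) y := by
          rw [zpow_mul]
          exact (h.commute (by simpa using hg2) hy).symm.zpow_left m
        have h2 : Commute g y := by
          have : g = (g ^ (2 * m))⁻¹ * u := by rw [← hj', hm]; group
          rw [this]
          exact h1.inv_left.mul_left huy
        exact hxy1 (commutatorElement_eq_one_iff_commute.2 (hi' ▸ h2.zpow_left i))

/-- Let p and r be distinct primes, let E be an extraspecial subgroup of order p^(2w+1) of a finite group, and let A be an elementary abelian r-subgroup normalized by E on which E acts faithfully (C_E(A) = 1). If n ≥ 1 is least with p dividing rⁿ − 1 (the smallest dimension of a faithful representation of a group of order p over the field with r elements), then the order of A is at least r^(n·p^w). -/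
theorem result {G : Type*} [Group G] [Finite G] {p r : ℕ} [Fact p.Prime] [hr : Fact r.Prime] (hpr : p ≠ r) (E A : Subgroup G) (w : ℕ) (hE : Cfsg.IsExtraspecial p ↥E) (hEcard : Nat.card ↥E = p ^ (2 * w + 1)) (hA : Cfsg.IsElementaryAbelian r A) (hnorm : E ≤ Subgroup.normalizer (A : Set G)) (hfaith : E ⊓ Subgroup.centralizer (A : Set G) = ⊥) (n : ℕ) (hn : 1 ≤ n) (hdiv : p ∣ r ^ n - 1) (hmin : ∀ k : ℕ, 1 ≤ k → p ∣ r ^ k - 1 → n ≤ k) : r ^ (n * p ^ w) ≤ Nat.card ↥A := by
  obtain ⟨z, h, -⟩ := exists_wes hE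
  have hp : p.Prime := Fact.out
  have hZA : zpowers z ≤ 𝐍(A) := h.zpowers_le.trans hnorm
  have hle : ⁅A, zpowers z⁆ ≤ A := commutator_le_left_of_le_normalizer hZA
  have hAr : IsPGroup r A := isPGroup_iff_mem.2 fun x hx => ⟨1, by simpa using hA.2 x hx⟩
  refine (main hmin hpr w E ⁅A, zpowers z⁆ h hEcard
    (H43.ea_of_le hA hle) ?_
    (le_normalizer_commutator hnorm (h.le_normalizer h.zpowers_le (mem_zpowers z))) ?_).trans
    (card_le_of_le hle)
  · intro h0
    rw [commutator_comm] at h0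
    have h1 : z ∈ E ⊓ 𝐂(A) := ⟨h.mem, le_centralizer_of_commutator_eq_bot h0 (mem_zpowers z)⟩
    rw [hfaith, mem_bot] at h1
    have := h.ord
    rw [h1, orderOf_one] at this
    exact hp.one_lt.ne this
  · rw [← centralizer_zpowers]
    refine H2.commutator_inf_centralizer_eq_bot hA.1 hZA ?_
    obtain ⟨k, hk⟩ := IsPGroup.iff_card.1 hAr
    rw [h.card_zpowers, hk]
    exact ((Nat.coprime_primes hp hr.out).2 hpr).pow_right k

end Cfsg.Agent.S2912
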