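import Cfsg.Statements.S2922
import Mathlib
import Cfsg.Agent.Lib.LocEven.CharP
import Cfsg.Agent.Lib.Comp.FStar

set_option autoImplicit false
open Cfsg

namespace Cfsg.Agent.S2922

/-- Let p be a prime, X a finite group, B a p-subgroup of X and C a normal subgroup of B. If N_X(C) has characteristic p (its generalized Fitting subgroup is O_p(N_X(C))), then N_X(B) and C_X(B) have characteristic p. -/
theorem result {X : Type*} [Group X] [Finite X] {p : ℕ} [Fact p.Prime] (B C : Subgroup X) (hB : IsPGroup p ↥B) (hCB : C ≤ B) (hCn : (C.subgroupOf B).Normal) (hC : Cfsg.generalizedFittingSubgroup ↥(Subgroup.normalizer (C : Set X)) = Cfsg.pCore p ↥(Subgroup.normalizer (C : Set X))) : Cfsg.generalizedFittingSubgroup ↥(Subgroup.normalizer (B : Set X)) = Cfsg.pCore p ↥(Subgroup.normalizer (B : Set X)) ∧ Cfsg.generalizedFittingSubgroup ↥(Subgroup.centralizer (B : Set X)) = Cfsg.pCore p ↥(Subgroup.centralizer (B : Set X)) := by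
  have h0 : H70.CharP p (Subgroup.normalizer (C : Set X)) :=
    H70.charP_iff.2 (H23.fStar_eq_pCore_iff.1 hC)
  have hBN : B ≤ Subgroup.normalizer (C : Set X) :=
    (Subgroup.normal_subgroupOf_iff_le_normalizer hCB).1 hCn
  have h1 := h0.inf_centralizer hB hBN
  have hCB' : Subgroup.centralizer (B : Set X) ≤ Subgroup.normalizer (C : Set X) :=
    (Subgroup.centralizer_le (show (C : Set X) ⊆ B from hCB)).trans (Subgroup.centralizer_le_normalizer _)
  rw [inf_eq_right.2 hCB'] at h1
  refine ⟨H23.fStar_eq_pCore_iff.2 (H70.charP_iff.1 ?_), H23.fStar_eq_pCore_iff.2 (H70.charP_iff.1 h1)⟩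
  refine H70.CharP.of_centralizer (H := ⊤) hB (by simpa using h1) Subgroup.le_normalizer ?_ (by simp)
  simpa using Subgroup.centralizer_le_normalizer (B : Set X)

end Cfsg.Agent.S2922
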