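import Cfsg.Statements.S2924
import Mathlib
import Cfsg.Agent.Base
import Cfsg.Agent.Lib.LocEven.CharP
import Cfsg.Agent.Lib.PComp.Core
import Cfsg.Agent.Lib.Comp.PConstrained
import Cfsg.Agent.Lib.Invol.Dihedral
import Cfsg.Agent.Lib.Inv73.Basic
import Cfsg.Agent.Lib.LargeExtra.Basic
import Cfsg.Agent.Lib.Core.CoprimeAbelian
import Cfsg.Agent.Lib.Transfer.NormalComplement

set_option autoImplicit false
open Cfsg

namespace Cfsg.Agent.S2924

open Subgroup H70 H44
open scoped commutatorElement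

variable {G : Type*} [Group G] [Finite G]

theorem eq_bot_of_charP {p : ℕ} [Fact p.Prime] {L N : Subgroup G} (h : CharP p L) (hNL : N ≤ L)
    (hn : L ≤ normalizer (N : Set G)) (hc : (Nat.card N).Coprime p) : N = ⊥ := by
  rw [eq_bot_iff]
  intro x hx
  have hi : N ⊓ pCoreOf p L = ⊥ :=
    H4.inf_eq_bot_of_not_dvd_card ((Nat.Prime.coprime_iff_not_dvd Fact.out).1 hc.symm) (isPGroup_pCoreOf p L)
  refine h.eq_one (hNL hx) (H4.coprime_orderOf_of_mem_of_coprime_card hc hx) fun u hu => ?_
  have h3 : u * x * u⁻¹ * x⁻¹ ∈ N ⊓ pCoreOf p L :=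
    ⟨N.mul_mem (H68.conj_mem_of_mem_normalizer (hn (pCoreOf_le p L hu)) hx) (N.inv_mem hx), by
      rw [mul_assoc, mul_assoc, ← mul_assoc x]
      exact mul_mem hu (H68.conj_mem_of_mem_normalizer (le_normalizer_pCoreOf p L (hNL hx)) (inv_mem hu))⟩
  rw [hi, mem_bot, mul_inv_eq_one, mul_inv_eq_iff_eq_mul] at h3
  exact mem_centralizer_singleton_iff.2 h3

theorem relIndex_dvd_of_cocyclic {p : ℕ} {U B : Subgroup G} (hU : IsElementaryAbelian p U) (hB : B ≤ U)
    {a : G} (ha : a ∈ U) (hBa : B ⊔ zpowers a = U) : B.relIndex U ∣ p := by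
  have h1 := H1.card_sup_mul_card_inf_of_le_normalizer (H := zpowers a) (N := B)
    (zpowers_le.2 (centralizer_le_normalizer _ fun y hy =>
      congrArg Subtype.val (hU.1.is_comm.comm (⟨y, hB hy⟩ : U) ⟨a, ha⟩)))
  rw [sup_comm, hBa, ← H1.card_mul_relIndex_of_le hB, Nat.card_zpowers] at h1
  refine Dvd.dvd.trans ?_ (orderOf_dvd_of_pow_eq_one (hU.2 a ha))
  refine Dvd.intro (Nat.card (zpowers a ⊓ B : Subgroup G)) ?_
  refine Nat.eq_of_mul_eq_mul_left (Nat.card_pos (α := B)) ?_
  rw [← mul_assoc, h1, mul_comm]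

/-- A group without components having an involution that inverts the core and whose centralizer has
characteristic 2 is 2-constrained. -/
theorem layer_quotient_eq_bot (hE : layer G = ⊥) {z : G} (hz : z * z = 1)
    (hc : CharP 2 (centralizer ({z} : Set G))) : layer (G ⧸ pPrimeCore 2 G) = ⊥ := by
  set O := pPrimeCore 2 G with hO
  have hO1 : O ⊓ centralizer ({z} : Set G) = ⊥ := eq_bot_of_charP hc inf_le_right
    (le_normalizer_inf (by rw [normalizer_eq_top]; exact le_top) le_normalizer)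
    (coprime_of_le_pPrimeCore inf_le_left)
  have hinv : ∀ n ∈ O, z * n * z⁻¹ = n⁻¹ := fun n hn =>
    H73.inverts_of_fpf hz (fun m hm => (inferInstance : O.Normal).conj_mem m hm z)
      (fun m hm h => mem_bot.1 (hO1.le ⟨hm, mem_centralizer_singleton_iff.2 h⟩)) n hn
  set f := QuotientGroup.mk' O with hf
  have hfs : Function.Surjective f := QuotientGroup.mk'_surjective O
  set D := centralizer (O : Set G) with hD
  rw [H23.layer_eq_bot_iff] at hE ⊢
  intro K hK
  haveI : (D.map f).Normal := Normal.map inferInstance f hfs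
  rcases H23.IsComponent.le_or_commutator_eq_bot hK (Normal.isSubnormal this) with h | h
  · refine hE _ (H23.isComponent_commutator_of_map (E := K.comap f ⊓ D) f
      ((hK.1.comap f).inf (Normal.isSubnormal inferInstance)) ?_ ?_)
    · rw [hf, QuotientGroup.ker_mk']
      exact le_trans inf_le_right (le_trans (le_centralizer_iff.1 le_rfl) (H23.centralizer_anti inf_le_right))
    · rw [map_comap_inf_of_le h]; exact hK.2
  · have h1 : ⁅zpowers (f z), K⁆ ≤ D.map f := by
      rw [commutator_le]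
      rintro _ ⟨k, rfl⟩ g -
      obtain ⟨g, rfl⟩ := hfs g
      refine ⟨⁅z ^ k, g⁆, fun n hn => ?_, by simp [map_commutatorElement]⟩
      have hn' : g⁻¹ * n * g ∈ O := (inferInstance : O.Normal).conj_mem' n hn g
      rcases (H95.mem_zpowers_iff_of_sq hz).1 (zpow_mem_zpowers z k) with h0 | h0
      · simp [h0]
      · rw [h0, commutatorElement_def]
        have a1 := hinv _ hn'
        have a2 := hinv _ hn
        have hzi : z⁻¹ = z := inv_eq_of_mul_eq_one_right hz
        rw [hzi] at a1 a2 ⊢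
        calc n * (z * g * z * g⁻¹) = z * (z * n * z) * g * z * g⁻¹ := by
              rw [← mul_assoc z, ← mul_assoc z, hz]; group
          _ = z * g * (g⁻¹ * n * g)⁻¹ * z * g⁻¹ := by
              rw [a2]; group
          _ = z * g * z * g⁻¹ * n := by
              rw [← a1]
              calc z * g * (z * (g⁻¹ * n * g) * z) * z * g⁻¹
                  = z * g * z * g⁻¹ * n * g * (z * z) * g⁻¹ := by group
                _ = _ := by rw [hz]; group
    have h2 : ⁅zpowers (f z), K⁆ = ⊥ := H23.commutator_eq_bot_of_perfect (H23.IsComponent.commutator_self hK)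
      (H23.commutator_eq_bot_of_le h1 le_rfl (H23.commutator_eq_bot_symm h))
    have h3 : K ≤ (centralizer ({z} : Set G)).map f := by
      rw [← centralizer_zpowers, H23.map_centralizer_of_isPGroup (p := 2) hfs (coprime_ker_mk' 2)
        (H9.isPGroup_zpowers_of_mul_self hz), MonoidHom.map_zpowers]
      exact commutator_eq_bot_iff_le_centralizer.1 (H23.commutator_eq_bot_symm h2)
    have h4 : CharP 2 ((centralizer ({z} : Set G)).map f) := by
      have := (charP_top_iff.2 (charP_iff.1 hc)).map (f := f.comp (centralizer ({z} : Set G)).subtype) (by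
        rw [injective_iff_map_eq_one]
        intro a ha
        exact Subtype.ext (mem_bot.1 (hO1.le ⟨(QuotientGroup.eq_one_iff _).1 ha, a.2⟩)))
      rwa [← map_map, ← MonoidHom.range_eq_map, range_subtype] at this
    haveI : Fact (Nat.Prime 2) := ⟨Nat.prime_two⟩
    have hs : Group.IsSolvable (pCoreOf 2 ((centralizer ({z} : Set G)).map f)) :=
      haveI := (isPGroup_pCoreOf 2 ((centralizer ({z} : Set G)).map f)).isNilpotent
      inferInstance
    exact H23.IsComponent.not_le_of_isSolvable hK hs ((le_inf h3 (commutator_eq_bot_iff_le_centralizer.1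
      (H23.IsComponent.commutator_eq_bot_of_isSolvable hK hs (h3.trans (le_normalizer_pCoreOf _ _))))).trans h4)

/-- Balance in a 2-constrained group. -/
theorem le_core (h : layer (G ⧸ pPrimeCore 2 G) = ⊥) {y : G} (hy : y * y = 1) {A : Subgroup G}
    (hA : A ≤ centralizer ({y} : Set G)) (hn : centralizer ({y} : Set G) ≤ normalizer (A : Set G))
    (hc : (Nat.card A).Coprime 2) : A ≤ pPrimeCore 2 G := by
  set f := QuotientGroup.mk' (pPrimeCore 2 G) with hf
  have hfs : Function.Surjective f := QuotientGroup.mk'_surjective _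
  have h1 : CharP 2 (⊤ : Subgroup (G ⧸ pPrimeCore 2 G)) :=
    charP_top_iff.2 (H23.centralizer_pCore_le_iff.2 ⟨H1.pPrimeCore_quotient_pPrimeCore, h⟩)
  have h2 := h1.inf_centralizer ((H9.isPGroup_zpowers_of_mul_self hy).map f) le_top
  rw [top_inf_eq, ← H23.map_centralizer_of_isPGroup (p := 2) hfs (coprime_ker_mk' 2)
    (H9.isPGroup_zpowers_of_mul_self hy), centralizer_zpowers] at h2
  have h3 := eq_bot_of_charP h2 (map_mono hA) (map_normalizer_le f hn) (coprime_card_map hc f)
  rwa [Subgroup.map_eq_bot_iff, hf, QuotientGroup.ker_mk'] at h3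


/-- Let X be a finite group and Y an elementary abelian 2-subgroup of X of order at least 8 such that C_X(x) has no components (E(C_X(x)) = 1) for every nontrivial x ∈ Y, and F*(C_X(z)) = O₂(C_X(z)) for some nontrivial z ∈ Y. Then the subgroup generated by the cores O(C_X(y)), y ∈ Y nontrivial, has odd order and is normalized by N_X(Y). -/
theorem result {X : Type*} [Group X] [Finite X] (Y : Subgroup X) (hY : Cfsg.IsElementaryAbelian 2 Y) (h8 : 8 ≤ Nat.card ↥Y) (hE : ∀ x ∈ Y, x ≠ 1 → Cfsg.layer ↥(Subgroup.centralizer ({x} : Set X)) = ⊥) (hz : ∃ z ∈ Y, z ≠ 1 ∧ Cfsg.generalizedFittingSubgroup ↥(Subgroup.centralizer ({z} : Set X)) = Cfsg.pCore 2 ↥(Subgroup.centralizer ({z} : Set X))) : Odd (Nat.card ↥(⨆ y : {y : X // y ∈ Y ∧ y ≠ 1}, (Cfsg.oddCore ↥(Subgroup.centralizer ({(y : X)} : Set X))).map (Subgroup.centralizer ({(y : X)} : Set X)).subtype)) ∧ Subgroup.normalizer (Y : Set X) ≤ Subgroup.normalizer ((⨆ y : {y : X // y ∈ Y ∧ y ≠ 1}, (Cfsg.oddCore ↥(Subgroup.centralizer ({(y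 : X)} : Set X))).map (Subgroup.centralizer ({(y : X)} : Set X)).subtype : Subgroup X) : Set X) := by
  obtain ⟨z, hzY, hz1, hz⟩ := hz
  replace hz : CharP 2 (centralizer ({z} : Set X)) := charP_iff.2 (H23.fStar_eq_pCore_iff.1 hz)
  have hsq : ∀ y ∈ Y, y * y = 1 := fun y hy => by rw [← pow_two]; exact hY.2 y hy
  have hcomm : ∀ x ∈ Y, Y ≤ centralizer ({x} : Set X) := fun x hx y hy =>
    mem_centralizer_singleton_iff.2 (congrArg Subtype.val (hY.1.is_comm.comm (⟨y, hy⟩ : Y) ⟨x, hx⟩))
  let θ : X → Subgroup X := fun y => coreOf 2 (centralizer ({y} : Set X))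
  have hθn : ∀ y ∈ Y, Y ≤ normalizer (θ y : Set X) := fun y hy => (hcomm y hy).trans (le_normalizer_coreOf _ _)
  have hzc : ∀ y ∈ Y, CharP 2 (centralizer ({z} : Set X) ⊓ centralizer ({y} : Set X)) := fun y hy =>
    hz.inf_centralizer_singleton (k := 1) (by rw [pow_one]; exact hY.2 y hy) (hcomm z hzY hy)
  have cs : ∀ (H : Subgroup X) (a : X) (ha : a ∈ H),
      centralizer ({⟨a, ha⟩} : Set H) = (centralizer ({a} : Set X)).subgroupOf H := by
    intro H a ha
    ext g
    rw [mem_subgroupOf, mem_centralizer_singleton_iff, mem_centralizer_singleton_iff, Subtype.ext_iff]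
    rfl
  have ab : ∀ y ∈ Y, θ y ≤ centralizer (θ y : Set X) := by
    intro y hy
    have h1 : θ y ⊓ centralizer ({z} : Set X) = ⊥ := eq_bot_of_charP (hzc y hy)
      (le_inf inf_le_right (inf_le_left.trans (coreOf_le _ _)))
      (le_normalizer_inf (inf_le_right.trans (le_normalizer_coreOf _ _)) (inf_le_left.trans le_normalizer))
      (coprime_of_le_coreOf inf_le_left)
    intro a ha b hb
    exact H73.commute_of_inverts (t := z) (fun n hn => H73.inverts_of_fpf (hsq z hzY)
      (fun m hm => H68.conj_mem_of_mem_normalizer (hθn y hy hzY) hm)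
      (fun m hm h => mem_bot.1 (h1.le ⟨hm, mem_centralizer_singleton_iff.2 h⟩)) n hn) hb ha
  have bal : ∀ x ∈ Y, x ≠ 1 → ∀ y ∈ Y, θ y ⊓ centralizer ({x} : Set X) ≤ θ x := by
    intro x hx hx1 y hy
    have h1 := layer_quotient_eq_bot (hE x hx hx1) (z := ⟨z, hcomm x hx hzY⟩) (Subtype.ext (hsq z hzY)) (by
      rw [cs, ← inf_subgroupOf_right, charP_subgroupOf_iff inf_le_right]
      exact hzc x hx)
    have h2 := le_core h1 (y := ⟨y, hcomm x hx hy⟩) (Subtype.ext (hsq y hy))
      (A := (θ y).subgroupOf (centralizer ({x} : Set X)))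
      (by rw [cs]; exact comap_mono (coreOf_le _ _))
      (by rw [cs]; exact (comap_mono (le_normalizer_coreOf _ _)).trans (le_normalizer_comap _))
      ((coprime_card_coreOf 2 _).coprime_dvd_left (card_comap_dvd_of_injective _ _ (subtype_injective _)))
    rw [← subgroupOf_map_subtype]
    exact map_mono h2
  haveI : Fact (Nat.Prime 2) := ⟨Nat.prime_two⟩
  have hYp : IsPGroup 2 Y := isPGroup_iff_mem.2 fun y hy => ⟨1, by rw [pow_one]; exact hY.2 y hy⟩
  have hcop : ∀ y, (Nat.card Y).Coprime (Nat.card (θ y)) := fun y =>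
    (H2.coprime_card_of_isPGroup (coprime_card_coreOf 2 _) hYp).symm
  have comm : ∀ y ∈ Y, ∀ y' ∈ Y, θ y ≤ centralizer (θ y' : Set X) := by
    intro y hy y' hy'
    refine H2.le_of_forall_cocyclic hY.1 (hθn y hy) (hcop y) ?_
    rintro B hB ⟨a, ha, hBa⟩
    rw [le_centralizer_iff]
    refine H2.le_of_forall_cocyclic hY.1 (hθn y' hy') (hcop y') ?_
    rintro B' hB' ⟨a', ha', hBa'⟩
    have h1 : B ⊓ B' ≠ ⊥ := fun h0 => by
      have b1 := Nat.le_of_dvd two_pos (relIndex_dvd_of_cocyclic hY hB ha hBa)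
      have b2 := Nat.le_of_dvd two_pos (relIndex_dvd_of_cocyclic hY hB' ha' hBa')
      have b3 := relIndex_inf_le (H := B) (K := B') (L := Y)
      rw [h0, relIndex_bot_left] at b3
      nlinarith
    obtain ⟨⟨x, hx⟩, hx1⟩ := ne_bot_iff_exists_ne_one.1 h1
    have hx1' : x ≠ 1 := fun h => hx1 (Subtype.ext h)
    have hxY := hB hx.1
    refine ((inf_le_inf_left _ (centralizer_le (Set.singleton_subset_iff.2 hx.2))).trans
      (bal x hxY hx1' y' hy')).trans ((ab x hxY).trans (H23.centralizer_anti ?_))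
    exact (inf_le_inf_left _ (centralizer_le (Set.singleton_subset_iff.2 hx.1))).trans (bal x hxY hx1' y hy)
  change Odd (Nat.card (⨆ y : {y : X // y ∈ Y ∧ y ≠ 1}, θ y : Subgroup X)) ∧
    normalizer (Y : Set X) ≤ normalizer ((⨆ y : {y : X // y ∈ Y ∧ y ≠ 1}, θ y : Subgroup X) : Set X)
  set W : Subgroup X := ⨆ y : {y : X // y ∈ Y ∧ y ≠ 1}, θ y with hW
  constructor
  · rw [← Nat.coprime_two_right, ← coreOf_eq_self_iff]
    refine le_antisymm (coreOf_le _ _) (iSup_le fun y => le_coreOf (le_iSup (fun y : {y : X // y ∈ Y ∧ y ≠ 1} => θ y) y)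
      (iSup_le fun y' => (comm _ y'.2.1 _ y.2.1).trans (centralizer_le_normalizer _)) (coprime_card_coreOf 2 _))
  · refine H68.le_normalizer_of_forall_cj_le fun g hg => ?_
    rw [hW, H68.cj_iSup]
    refine iSup_le fun y => le_iSup_of_le ⟨g * y * g⁻¹, H68.conj_mem_of_mem_normalizer hg y.2.1,
      by simpa using y.2.2⟩ (le_of_eq ?_)
    rw [H68.cj, map_coreOf_of_injective (MulAut.conj g).injective, ← centralizer_zpowers]
    change coreOf 2 (H68.cj g _) = _
    rw [H68.cj_centralizer, H68.cj, MonoidHom.map_zpowers, centralizer_zpowers]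
    rfl

end Cfsg.Agent.S2924
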