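import Cfsg.Statements.S2925
import Mathlib
import Cfsg.Agent.Base
import Cfsg.Agent.Lib.LocEven.SylowControl
import Cfsg.Agent.Lib.Comp.Component

set_option autoImplicit false
open Cfsg

namespace Cfsg.Agent.S2925

/-- Let K be a component of the finite group X and T a Sylow 2-subgroup of X. If some abelian normal subgroup Y of T does not normalize K, then K ⧸ Z(K) has abelian Sylow 2-subgroups. -/
theorem result {X : Type*} [Group X] [Finite X] (K : Subgroup X) (hK : Cfsg.IsComponent K) (T : Sylow 2 X) (Y : Subgroup X) (hYT : Y ≤ (T : Subgroup X)) (hYn : (Y.subgroupOf (T : Subgroup X)).Normal) (hYab : IsMulCommutative ↥Y) (hnot : ¬ Y ≤ Subgroup.normalizer (K : Set X)) (P : Sylow 2 (↥K ⧸ Subgroup.center ↥K)) : IsMulCommutative ↥(P : Subgroup (↥K ⧸ Subgroup.center ↥K)) := by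
  obtain ⟨y, hy, hyK⟩ := SetLike.not_le_iff_exists.1 hnot
  have hYn' := (Subgroup.normal_subgroupOf_iff_le_normalizer hYT).1 hYn
  have hc : ⁅H68.cj y K, K⁆ = ⊥ := H23.IsComponent.commutator_eq_bot_of_ne (H23.IsComponent.map_conj hK y) hK
    fun h => hyK (H68.mem_normalizer_iff_cj.2 h)
  have hC := Subgroup.commutator_eq_bot_iff_le_centralizer.1 hc
  have h1 : H68.SylowIn 2 ((T : Subgroup X) ⊓ layer X ⊓ K) K :=
    ((H68.sylowIn_top T).inf_of_normal_le (by rw [Subgroup.normalizer_eq_top]) le_top).inf_of_normal_le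
      (H23.IsComponent.layer_le_normalizer hK) (H23.IsComponent.le_layer hK)
  have h2 := ((H70.sylowIn_subgroupOf_top_iff h1.le).2 h1).map (QuotientGroup.mk' (Subgroup.center K))
  rw [Subgroup.map_top_of_surjective _ (QuotientGroup.mk'_surjective _)] at h2
  obtain ⟨g, -, hg⟩ := h2.exists_cj_eq (H68.sylowIn_top P)
  rw [← hg]
  have : IsMulCommutative ((((T : Subgroup X) ⊓ layer X ⊓ K).subgroupOf K).map
      (QuotientGroup.mk' (Subgroup.center K))) := by
    refine ⟨⟨?_⟩⟩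
    rintro ⟨_, s, hs, rfl⟩ ⟨_, t, ht, rfl⟩
    apply Subtype.ext
    change QuotientGroup.mk' _ s * QuotientGroup.mk' _ t = QuotientGroup.mk' _ t * QuotientGroup.mk' _ s
    rw [← map_mul, ← map_mul, QuotientGroup.mk'_apply, QuotientGroup.mk'_apply, QuotientGroup.eq,
      Subgroup.mem_center_iff]
    have key : ∀ u : K, (u : X) ∈ (T : Subgroup X) → (u : X) * (y * (u : X)⁻¹ * y⁻¹) ∈ Y := fun u hu => by
      have := Y.mul_mem (H68.conj_mem_of_mem_normalizer (hYn' hu) hy) (Y.inv_mem hy)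
      rwa [show (u : X) * y * (u : X)⁻¹ * y⁻¹ = u * (y * (u : X)⁻¹ * y⁻¹) by group] at this
    have a1 := congrArg Subtype.val (hYab.is_comm.comm (⟨_, key s hs.1.1⟩ : Y) ⟨_, key t ht.1.1⟩)
    have ha : y * (s : X)⁻¹ * y⁻¹ ∈ H68.cj y K := H68.conj_mem_cj.2 (K.inv_mem s.2)
    have hb : y * (t : X)⁻¹ * y⁻¹ ∈ H68.cj y K := H68.conj_mem_cj.2 (K.inv_mem t.2)
    simp only [Subgroup.coe_mul] at a1
    generalize y * (s : X)⁻¹ * y⁻¹ = a at ha a1
    generalize y * (t : X)⁻¹ * y⁻¹ = b at hb a1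
    have a2 : ((s : X) * t)⁻¹ * (t * s) = a * b * (b * a)⁻¹ := by
      rw [mul_assoc, ← mul_assoc a, ← hC ha t t.2, mul_assoc (t : X) b, ← mul_assoc b, ← hC hb s s.2] at a1
      calc ((s : X) * t)⁻¹ * (t * s) = ((s : X) * t)⁻¹ * (t * (s * b * a)) * (b * a)⁻¹ := by group
        _ = _ := by rw [← a1]; group
    intro k
    apply Subtype.ext
    have := hC (a2 ▸ (H68.cj y K).mul_mem (mul_mem ha hb) (inv_mem (mul_mem hb ha)) :
      ((s : X) * t)⁻¹ * (t * s) ∈ H68.cj y K) k k.2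
    simpa using this
  infer_instance

end Cfsg.Agent.S2925
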