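import Mathlib
import Cfsg.Statements.S2928
import Cfsg.Agent.Lib.SN.FStar

set_option autoImplicit false
open Cfsg

namespace Cfsg.Agent.S2928

/-- Let n ≥ 8 and let H be a subgroup of the symmetric group of degree n whose generalized Fitting subgroup F*(H) is quasisimple. If H contains a Sylow 2-subgroup of the alternating group of degree n, then F*(H) is isomorphic to an alternating group of degree m for some m ∈ {n − 3, n − 2, n − 1, n}. -/
theorem result (n : ℕ) (hn : 8 ≤ n) (H : Subgroup (Equiv.Perm (Fin n))) (hF : Cfsg.IsQuasisimple ↥(Cfsg.generalizedFittingSubgroup ↥H)) (hS : ∃ P : Sylow 2 ↥(alternatingGroup (Fin n)), ((P : Subgroup ↥(alternatingGroup (Fin n))).map (alternatingGroup (Fin n)).subtype) ≤ H) : ∃ m : ℕ, (m = n - 3 ∨ m = n - 2 ∨ m = n - 1 ∨ m = n) ∧ Nonempty (↥(Cfsg.generalizedFittingSubgroup ↥H) ≃* ↥(alternatingGroup (Fin m))) := by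
  obtain ⟨P, hP⟩ := hS
  obtain ⟨D, hD, hc⟩ := (H5.SN.qs_fStar hF).of_two (by simpa using hn) (fun h =>
    (H61.SylIn.of_sylow _ P).idx (h.trans (Subgroup.relIndex_dvd_of_le_left _ hP)))
  have h1 := Set.ncard_le_card D
  rw [Nat.card_eq_fintype_card] at h1
  rw [Fintype.card_fin] at hc h1
  obtain ⟨e⟩ := H5.SN.nonempty_altOn_equiv D
  exact ⟨D.ncard, by omega, ⟨(Subgroup.equivMapOfInjective _ _ (Subgroup.subtype_injective H)).trans
    ((MulEquiv.subgroupCongr hD).trans e)⟩⟩

end Cfsg.Agent.S2928
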