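import Mathlib
import Cfsg.Statements.S2930
import Cfsg.Agent.Lib.SN.Min3
import Cfsg.Agent.Lib.Comp.FStar
import Cfsg.Agent.Lib.SymSylow.Over2
import Cfsg.Agent.Lib.Perm29.AutAlt

set_option autoImplicit false
open Cfsg

namespace Cfsg.Agent.S2930

/-- Let X be a finite 3-minimal group (a Sylow 3-subgroup is not normal and lies in a unique maximal subgroup) whose generalized Fitting subgroup is isomorphic to an alternating group of degree n ≥ 5. Then X = F*(X), and n = 6, n = 9, or n = 3ᵃ + 1 for some a ≥ 2. -/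
theorem result {X : Type*} [Group X] [Finite X] (hX : Cfsg.IsPMinimal 3 X) (n : ℕ) (hn : 5 ≤ n) (hF : Nonempty (↥(Cfsg.generalizedFittingSubgroup X) ≃* ↥(alternatingGroup (Fin n)))) : Cfsg.generalizedFittingSubgroup X = ⊤ ∧ (n = 6 ∨ n = 9 ∨ ∃ a : ℕ, 2 ≤ a ∧ n = 3 ^ a + 1) := by
  classical
  have : Fact (Nat.Prime 3) := ⟨Nat.prime_three⟩
  obtain ⟨e⟩ := hF
  set F := Cfsg.generalizedFittingSubgroup X with hFdef
  have hFn : F.Normal := inferInstance
  have hodd : ∀ x : X, Odd (orderOf x) → x ∈ F := fun x hx => by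
    let ψ : X →* MulAut (alternatingGroup (Fin n)) :=
      (MulAut.congr e).toMonoidHom.comp (MulAut.conjNormal : X →* MulAut F)
    obtain ⟨g, hg⟩ := H5.SN.exists_perm_of_odd hn (ψ x) (hx.of_dvd_nat (orderOf_map_dvd ψ x))
    have h1 : g ^ orderOf x = 1 := H29.eq_one_of_centralizes_alt (by simp; omega) fun y hy => by
      have h2 : MulAut.conjNormal (H := alternatingGroup (Fin n)) (g ^ orderOf x) = 1 := by
        rw [map_pow, hg, ← map_pow, pow_orderOf_eq_one, map_one]
      have h3 := congrArg (fun φ : MulAut (alternatingGroup (Fin n)) => (φ ⟨y, hy⟩).1) h2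
      simpa only [MulAut.conjNormal_apply, MulAut.one_apply] using h3
    have h2 : g ∈ alternatingGroup (Fin n) := by
      have h3 := congrArg Equiv.Perm.sign h1
      rw [map_pow, map_one] at h3
      rcases Int.units_eq_one_or (Equiv.Perm.sign g) with h | h
      · exact h
      · rw [h, hx.neg_one_pow] at h3; exact absurd h3 (by decide)
    have h3 : ((e.symm ⟨g, h2⟩ : F) : X)⁻¹ * x ∈ F := by
      refine H23.centralizer_fStar_le (Subgroup.mem_centralizer_iff.mpr fun f hf => ?_)
      have h4 : e (MulAut.conjNormal x ⟨f, hf⟩) =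
          e (e.symm ⟨g, h2⟩ * ⟨f, hf⟩ * (e.symm ⟨g, h2⟩)⁻¹) := by
        have h5 := congrArg (fun φ : MulAut (alternatingGroup (Fin n)) => φ (e ⟨f, hf⟩)) hg
        simp only [ψ, MonoidHom.comp_apply, MulEquiv.coe_toMonoidHom, MulAut.congr_apply,
          MulEquiv.trans_apply, MulEquiv.symm_apply_apply] at h5
        rw [← h5, map_mul, map_mul, map_inv, MulEquiv.apply_symm_apply]
        exact Subtype.ext (by simp)
      have h5 := congrArg Subtype.val (e.injective h4)
      simp only [MulAut.conjNormal_apply, Subgroup.coe_mul, Subgroup.coe_inv] at h5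
      set y : X := (e.symm ⟨g, h2⟩).1
      calc f * (y⁻¹ * x) = y⁻¹ * (y * f * y⁻¹) * x := by group
        _ = y⁻¹ * x * f := by rw [← h5]; group
    simpa using F.mul_mem (e.symm ⟨g, h2⟩).2 h3
  obtain ⟨S⟩ : Nonempty (Sylow 3 X) := inferInstance
  have hSF : (S : Subgroup X) ≤ F := fun x hx => hodd x (by
    obtain ⟨k, hk⟩ := S.isPGroup' ⟨x, hx⟩
    have h1 : orderOf x ∣ 3 ^ k := orderOf_dvd_of_pow_eq_one (congrArg Subtype.val hk)
    exact (Odd.pow (by decide)).of_dvd_nat h1)
  obtain ⟨M, hM, hSM, hMx⟩ := (H61.existsUnique_coatom_iff _).mp (hX S).2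
  have htop : F = ⊤ := by
    by_contra hne
    have h1 := Sylow.normalizer_sup_eq_top' S hSF
    have h2 : Subgroup.normalizer (S : Set X) ≤ M := hMx _ Subgroup.le_normalizer fun h =>
      (hX S).1 (Subgroup.normalizer_eq_top_iff.mp h)
    exact hM (top_le_iff.mp (h1 ▸ sup_le h2 (hMx _ hSF hne)))
  refine ⟨htop, ?_⟩
  let e' : X ≃* alternatingGroup (Fin n) :=
    (Subgroup.topEquiv.symm.trans (MulEquiv.subgroupCongr htop.symm)).trans e
  let j : X →* Equiv.Perm (Fin n) := (alternatingGroup (Fin n)).subtype.comp e'.toMonoidHom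
  have hj : Function.Injective j := (Subgroup.subtype_injective _).comp e'.injective
  have hr : (⊤ : Subgroup X).map j = alternatingGroup (Fin n) := by
    rw [← Subgroup.map_map, Subgroup.map_top_of_surjective _ e'.surjective, ← MonoidHom.range_eq_map,
      Subgroup.range_subtype]
  have hle : ∀ H : Subgroup X, H.map j ≤ alternatingGroup (Fin n) := fun H =>
    hr ▸ Subgroup.map_mono le_top
  have := H5.SN.three_minimal (S := (S : Subgroup X).map j) (M := M.map j)
    ⟨hle _, S.isPGroup'.map _, by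
      rw [← hr, Subgroup.relIndex_map_map_of_injective _ _ hj, Subgroup.relIndex_top_right]
      exact S.not_dvd_index⟩
    (lt_of_le_of_ne (hle _) fun h => hM (Subgroup.map_injective hj (h.trans hr.symm)))
    (Subgroup.map_mono hSM) (fun H h1 h2 => by
      have h3 : (H.comap j).map j = H := Subgroup.map_comap_eq_self (by
        rw [MonoidHom.range_eq_map, hr]; exact h2.le)
      rw [← h3]
      refine Subgroup.map_mono (hMx _ (Subgroup.map_le_iff_le_comap.mp h1) fun h => h2.ne ?_)
      rw [← h3, h, hr]) (by simpa using hn)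
  simpa using this

end Cfsg.Agent.S2930
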