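import Cfsg.Statements.S2931
import Mathlib
import Cfsg.Agent.Lib.Small30.Syl8
import Cfsg.Agent.Lib.ClGeo.Heart

set_option autoImplicit false
open Cfsg

namespace Cfsg.Agent.S2931

theorem tr {A B : Type*} [Group A] [Group B] [Finite B] (e : B ≃* A) (Q : Sylow 2 B) :
    ∃ R : Sylow 2 A, Nonempty ((R : Subgroup A) ≃* (Q : Subgroup B)) :=
  ⟨Q.mapSurjective (f := e.toMonoidHom) e.surjective, ⟨(e.subgroupMap (Q : Subgroup B)).symm⟩⟩

/-- The Sylow 2-subgroups of the alternating group of degree 8 and of PSp₄(3) are isomorphic, and so are the Sylow 2-subgroups of the symmetric group of degree 8 and of the full isometry group of a non-degenerate quadratic form of minus type in dimension 6 over the field with 2 elements. -/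
theorem result (F : Type) [Field F] [Fintype F] (hF : Fintype.card F = 3) (K : Type) [Field K] [Fintype K] (hK : Fintype.card K = 2) (a b : K) (hab : ∀ z₁ z₂ : K, z₁ ^ 2 + a * z₁ * z₂ + b * z₂ ^ 2 = 0 → z₁ = 0 ∧ z₂ = 0) (P : Sylow 2 ↥(alternatingGroup (Fin 8))) (Q : Sylow 2 (Cfsg.PSp 2 F)) (P' : Sylow 2 (Equiv.Perm (Fin 8))) (Q' : Sylow 2 ↥(Cfsg.isometryGroup K (Cfsg.quadFormMinus 2 K a b))) : Nonempty (↥(P : Subgroup ↥(alternatingGroup (Fin 8))) ≃* ↥(Q : Subgroup (Cfsg.PSp 2 F))) ∧ Nonempty (↥(P' : Subgroup (Equiv.Perm (Fin 8))) ≃* ↥(Q' : Subgroup ↥(Cfsg.isometryGroup K (Cfsg.quadFormMinus 2 K a b)))) := by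
  haveI : Fact (Nat.Prime 3) := ⟨Nat.prime_three⟩
  constructor
  · obtain ⟨E⟩ := H30.U42.equiv
    let f : ZMod 3 ≃+* F := FiniteField.ringEquivOfCardEq (by rw [hF, ZMod.card])
    let e : Cfsg.PSp 2 F ≃* Cfsg.SU 4 H30.F4 2 :=
      (E.trans (H10.quotCenterCongr (H10.spCongr f))).symm.trans
        ((QuotientGroup.quotientMulEquivOfEq H30.U42.center_SU4).trans QuotientGroup.quotientBot)
    haveI : Finite (Cfsg.PSp 2 F) := Finite.of_equiv _ e.symm.toEquiv
    obtain ⟨R, ⟨g⟩⟩ := tr e Q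
    obtain ⟨k⟩ := H30.Syl8.sylA P R
    exact ⟨k.trans g⟩
  · let f : K ≃+* ZMod 2 := FiniteField.ringEquivOfCardEq (by rw [hK, ZMod.card])
    have h : ∀ z₁ z₂ : ZMod 2, z₁ ^ 2 + f a * z₁ * z₂ + f b * z₂ ^ 2 = 0 → z₁ = 0 ∧ z₂ = 0 := by
      intro z₁ z₂ hz
      obtain ⟨x, rfl⟩ := f.surjective z₁
      obtain ⟨y, rfl⟩ := f.surjective z₂
      have := hab x y (f.injective (by simpa using hz))
      simp [this.1, this.2]
    have hab' : f a = 1 ∧ f b = 1 := by
      revert h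
      generalize f a = s
      generalize f b = t
      revert s t
      decide
    let e : Cfsg.isometryGroup K (Cfsg.quadFormMinus 2 K a b) ≃* H30.Syl8.O6 :=
      H30.isoCongr f (fun v => by
        have := H30.quadFormMinus_map f 2 a b v
        rwa [hab'.1, hab'.2] at this)
    obtain ⟨R, ⟨g⟩⟩ := tr e Q'
    obtain ⟨k⟩ := H30.Syl8.sylS P' R
    exact ⟨k.trans g⟩

end Cfsg.Agent.S2931
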