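import Cfsg.Statements.S2939
import Mathlib
import Cfsg.Agent.Lib.LocEven.SylowControl

set_option autoImplicit false
open Cfsg

namespace Cfsg.Agent.S2939

open Subgroup H68 H70 Relation

variable {G : Type*} [Group G] {p : ℕ}

/-- One factor of a fusion factorization. -/
def Step (p : ℕ) (𝓕 : Set (Subgroup G)) (S : Subgroup G) (A : Set G) (w w' : G) : Prop :=
  ∃ Y ∈ sylowMembers p 𝓕 S, w⁻¹ * w' ∈ Y ∧ conjRight w' A ⊆ (S : Set G) ∩ (Y : Set G)

theorem conjRight_subset_iff {w : G} {A : Set G} {B : Subgroup G} :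
    conjRight w A ⊆ (B : Set G) ↔ A ⊆ (cj w B : Set G) := by
  constructor
  · intro h a ha
    exact mem_cj.2 (h ⟨a, ha, rfl⟩)
  · rintro h _ ⟨a, ha, rfl⟩
    exact mem_cj.1 (h ha)

theorem prod_take (n : ℕ) (c : Fin (n + 1) → G) (h0 : c 0 = 1) (k : ℕ) (hk : k < n + 1) :
    ((List.ofFn fun i : Fin n => (c i.castSucc)⁻¹ * c i.succ).take k).prod = c ⟨k, hk⟩ := by
  induction k with
  | zero => simpa using h0.symm
  | succ k ih =>
    rw [List.prod_take_succ _ _ (by simpa using hk), ih (by omega)]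
    simp only [List.getElem_ofFn, Fin.castSucc_mk, Fin.succ_mk, mul_inv_cancel_left]

theorem steps_iff {𝓕 : Set (Subgroup G)} {S : Subgroup G} {A : Set G} {w : G} :
    ReflTransGen (Step p 𝓕 S A) 1 w ↔ ∃ (n : ℕ) (Y : Fin n → Subgroup G) (y : Fin n → G),
      (∀ i : Fin n, Y i ∈ sylowMembers p 𝓕 S ∧ y i ∈ Y i) ∧ w = (List.ofFn y).prod ∧
      ∀ i : Fin n, conjRight (((List.ofFn y).take (i.val + 1)).prod) A ⊆ (S : Set G) ∩ (Y i : Set G) := by
  rw [reflTransGen_iff_fin]
  constructor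
  · rintro ⟨n, c, h0, h1, h2⟩
    choose Y a1 a2 a3 using h2
    refine ⟨n, Y, fun i => (c i.castSucc)⁻¹ * c i.succ, fun i => ⟨a1 i, a2 i⟩, ?_, fun i => ?_⟩
    · have := prod_take n c h0 n (Nat.lt_succ_self n)
      rw [List.take_of_length_le (by simp)] at this
      rw [this, ← h1]; rfl
    · rw [prod_take n c h0 _ (by omega)]
      exact a3 i
  · rintro ⟨n, Y, y, h1, h2, h3⟩
    refine ⟨n, fun i => ((List.ofFn y).take i).prod, by simp, ?_, fun i => ⟨Y i, (h1 i).1, ?_, h3 i⟩⟩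
    · rw [h2]
      exact congrArg List.prod (List.take_of_length_le (by simp))
    · simp only [Fin.val_castSucc, Fin.val_succ]
      rw [List.prod_take_succ _ _ (by simp), inv_mul_cancel_left, List.getElem_ofFn]
      exact (h1 i).2


/-- Let p be a prime dividing the order of the finite group G and 𝓕 a family of subgroups of G closed under conjugation, with conjugates taken as X^g = g⁻¹Xg. Then 𝓕 controls Sylow p-intersections in G (any two distinct Sylow p-subgroups S and T with S ∩ T ≠ 1 are joined by a chain S = S₀, S₁, …, Sₙ = T of Sylow p-subgroups where, for each i, some member Xᵢ of 𝓕 meets both S_{i-1} and Sᵢ in Sylow p-subgroups of Xᵢ, satisfies S ∩ T ≤ Sᵢ ∩ Xᵢ, and contains an element xᵢ with Sᵢ^{xᵢ} = S_{i-1}) if and only if 𝓕 strongly controls p-fusion in G (whenever A is a subset of a Sylow p-subgroup S, A contains an element other than 1, and A^g ⊆ S, the element g factorises as g = y₁⋯yₙy with y ∈ N_G(S) and each yᵢ in a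 member Yᵢ of 𝓕 that meets S in a Sylow p-subgroup of Yᵢ, with A^{y₁⋯yᵢ} ⊆ S ∩ Yᵢ for each i). -/
theorem result {G : Type*} [Group G] [Finite G] {p : ℕ} [Fact p.Prime] (hdiv : p ∣ Nat.card G) (𝓕 : Set (Subgroup G)) (h𝓕 : Cfsg.IsNormalSet 𝓕) : Cfsg.ControlsSylowIntersections p 𝓕 ↔ Cfsg.FamilyStronglyControlsFusion p 𝓕 := by
  rw [controls_iff_ctl]
  constructor
  · intro h S A g hA ⟨a, ha, ha1⟩ hg
    have hS := sylowIn_top S
    have hT := hS.cj g
    rw [cj_top] at hT
    rw [← Sylow.coe_coe, conjRight_subset_iff] at hg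
    have hD : (S : Subgroup G) ⊓ cj g S ≠ ⊥ := fun h0 => ha1 (mem_bot.1 (h0 ▸ ⟨hA ha, hg ha⟩))
    have c := h.chain hS hT hD inf_le_left inf_le_right
    have : ∀ T, ReflTransGen (Link p 𝓕 ⊤ ((S : Subgroup G) ⊓ cj g S)) S T →
        ∃ w, ReflTransGen (Step p 𝓕 S A) 1 w ∧ cj w S = T := by
      intro T hT
      induction hT with
      | refl => exact ⟨1, .refl, cj_one _⟩
      | @tail B C _ hl ih =>
        obtain ⟨w, hw, rfl⟩ := ih
        obtain ⟨-, X, hX, h1, -, h3, x, hx, h4⟩ := hl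
        have h5 : cj (x * w) S = C := by rw [cj_mul, ← h4, cj_cj_inv]
        refine ⟨x * w, hw.tail ⟨cj w⁻¹ X, mem_sylowMembers.2 ⟨cj_mem_of_isNormalSet h𝓕 hX _, ?_⟩, ?_, ?_⟩, h5⟩
        · have := h1.cj w⁻¹
          rwa [cj_inf, cj_inv_cj] at this
        · rw [mem_cj]; simpa [mul_assoc] using hx
        · rw [← coe_inf, conjRight_subset_iff, cj_inf, h5, cj_mul, cj_cj_inv, cj_eq_of_mem hx]
          intro b hb
          exact h3 ⟨hA hb, hg hb⟩
    obtain ⟨w, hw, hw'⟩ := this _ c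
    obtain ⟨n, Y, y, a1, a2, a3⟩ := steps_iff.1 hw
    refine ⟨n, Y, y, w⁻¹ * g, ?_, a1, by rw [← a2]; simp, a3⟩
    rw [mem_normalizer_iff_cj, cj_mul, ← hw', cj_inv_cj]
  · intro h S T hS hT _ hD
    obtain ⟨g, -, rfl⟩ := hS.exists_cj_eq hT
    obtain ⟨S, rfl⟩ := hS.exists_sylow_top
    obtain ⟨⟨a, ha⟩, ha1⟩ := ne_bot_iff_exists_ne_one.1 hD
    obtain ⟨n, Y, y, y₀, b0, b1, b2, b3⟩ := h S ((S : Subgroup G) ⊓ cj g S : Subgroup G) g
      (fun x hx => hx.1) ⟨a, ha, fun h0 => ha1 (Subtype.ext h0)⟩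
      (by rw [← Sylow.coe_coe, conjRight_subset_iff]; exact fun x hx => hx.2)
    have c := steps_iff.2 ⟨n, Y, y, b1, rfl, b3⟩
    have : ∀ w, ReflTransGen (Step p 𝓕 S ((S : Subgroup G) ⊓ cj g S : Subgroup G)) 1 w →
        ReflTransGen (Link p 𝓕 ⊤ ((S : Subgroup G) ⊓ cj g S)) S (cj w S) := by
      intro w hw
      induction hw with
      | refl => rw [cj_one]
      | @tail w w' _ hl ih =>
        obtain ⟨Y, hY, h1, h2⟩ := hl
        rw [mem_sylowMembers] at hY
        have e : cj w' Y = cj w Y := by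
          rw [show w' = w * (w⁻¹ * w') by simp, cj_mul, cj_eq_of_mem h1]
        have h3 := hS.cj w'
        rw [cj_top] at h3
        refine ih.tail ⟨h3, cj w Y, cj_mem_of_isNormalSet h𝓕 hY.1 _, ?_, ?_, ?_, w' * w⁻¹, ?_, ?_⟩
        · rw [← cj_inf]; exact hY.2.cj w
        · rw [← e, ← cj_inf]; exact hY.2.cj w'
        · rw [← coe_inf, conjRight_subset_iff, cj_inf, e] at h2
          exact h2
        · rw [mem_cj]; simpa [mul_assoc] using h1
        · rw [← cj_mul]; simp [mul_assoc]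
    have := this _ c
    rwa [show cj (List.ofFn y).prod (S : Subgroup G) = cj g S by
      rw [b2, cj_mul, cj_eq_of_mem_normalizer b0]] at this

end Cfsg.Agent.S2939
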