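import Cfsg.Statements.S2955
import Mathlib
import Cfsg.Agent.Lib.LocEven.SylowControl

set_option autoImplicit false
open Cfsg

namespace Cfsg.Agent.S2955

/-- Let p be a prime dividing the order of the finite group G and 𝓕 a conjugation-closed family of subgroups that controls Sylow p-intersections in G. Suppose the Sylow p-subgroups of G are chain-connected: any two of them are joined by a chain of Sylow p-subgroups, consecutive ones distinct with nontrivial intersection, all containing the intersection of the two ends (equivalently, the graph on the Sylow p-subgroups whose edges are the distinct pairs meeting nontrivially is connected). Then for every Sylow p-subgroup S, G is generated by N_G(S) together with the members of 𝓕 that meet S in a Sylow p-subgroup of themselves. -/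
theorem result {G : Type*} [Group G] [Finite G] (p : ℕ) [Fact p.Prime] (hdiv : p ∣ Nat.card G)
    (𝓕 : Set (Subgroup G)) (h𝓕 : Cfsg.IsNormalSet 𝓕) (hc : Cfsg.ControlsSylowIntersections p 𝓕)
    (hconn : Cfsg.IsSylowChainConnected p G) (S : Sylow p G) :
    (⨆ X ∈ Cfsg.sylowMembers p 𝓕 (S : Subgroup G), X) ⊔ Subgroup.normalizer ((S : Subgroup G) : Set G) = ⊤ := by
  set H := (⨆ X ∈ Cfsg.sylowMembers p 𝓕 (S : Subgroup G), X) ⊔
    Subgroup.normalizer ((S : Subgroup G) : Set G) with hH
  rw [H70.controls_iff_ctl] at hc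
  have link : ∀ {D A B : Subgroup G}, Relation.ReflTransGen (H70.Link p 𝓕 ⊤ D) A B →
      (∃ h ∈ H, A = H68.cj h S) → ∃ h ∈ H, B = H68.cj h S := by
    intro D A B hAB hA
    induction hAB with
    | refl => exact hA
    | tail _ hl ih =>
      obtain ⟨h, hh, rfl⟩ := ih
      obtain ⟨-, X, hX, h1, -, -, x, hx, h2⟩ := hl
      have h3 := h1.cj h⁻¹
      rw [H68.cj_inf, H68.cj_inv_cj] at h3
      have h4 : H68.cj h⁻¹ X ≤ H :=
        le_sup_of_le_left (le_iSup₂_of_le (f := fun X (_ : X ∈ Cfsg.sylowMembers p 𝓕 (S : Subgroup G)) => X)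
          _ (H70.mem_sylowMembers.2 ⟨H70.cj_mem_of_isNormalSet h𝓕 hX _, h3⟩) le_rfl)
      have h5 : X ≤ H := by
        rw [← H68.cj_cj_inv h X]; exact H68.cj_le_of_mem hh h4
      exact ⟨x * h, H.mul_mem (h5 hx) hh, by rw [H68.cj_mul, ← h2, H68.cj_cj_inv]⟩
  have all : ∀ T : Sylow p G, ∃ h ∈ H, (T : Subgroup G) = H68.cj h S := by
    intro T
    obtain ⟨n, c, h0, h1, -, h2⟩ := hconn S T
    have : ∀ i, ∃ h ∈ H, (c i : Subgroup G) = H68.cj h S := by
      intro i
      induction i using Fin.induction with
      | zero => exact ⟨1, H.one_mem, by rw [h0, H68.cj_one]⟩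
      | succ j ih =>
        exact link (hc _ _ (H68.sylowIn_top _) (H68.sylowIn_top _)
          (fun h => (h2 j).1 (Sylow.ext h)) (h2 j).2) ih
    rw [← h1]; exact this _
  rw [eq_top_iff]
  intro g _
  have hg := (H68.sylowIn_top S).cj g
  rw [H68.cj_top] at hg
  obtain ⟨T, hT⟩ := hg.exists_sylow_top
  obtain ⟨h, hh, h1⟩ := all T
  have h2 : h⁻¹ * g ∈ Subgroup.normalizer ((S : Subgroup G) : Set G) := by
    rw [H68.mem_normalizer_iff_cj, H68.cj_mul, ← hT, h1, H68.cj_inv_cj]
  have := H.mul_mem hh (Subgroup.mem_sup_right h2)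
  simpa using this

end Cfsg.Agent.S2955
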