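import Cfsg.Statements.S2956
import Mathlib
import Cfsg.Agent.Lib.LocEven.SylowControl

set_option autoImplicit false
open Cfsg

namespace Cfsg.Agent.S2956

open Subgroup H68 H70 Relation

theorem exists_maximal {G : Type*} [Group G] [Finite G] {p : ℕ} {N : Subgroup G} (hN : IsPLocal p N) :
    ∃ M, IsMaximalPLocal p M ∧ N ≤ M := by
  obtain ⟨M, hNM, hM⟩ := Finite.exists_le_maximal (p := fun M : Subgroup G => IsPLocal p M) hN
  exact ⟨M, ⟨hM.1, fun K hK h => le_antisymm (hM.2 hK h) h⟩, hNM⟩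

theorem main {G : Type*} [Group G] [Finite G] {p : ℕ} [Fact p.Prime]
    {f : Subgroup G → Set (Subgroup G)} (hf : IsNormalizerFunctor p f)
    (hf1 : ∀ P : Subgroup G, IsPGroup p ↥P → P ≠ ⊥ → ∀ F ∈ f P, F ≠ ⊥) (𝓖 : Set (Subgroup G))
    (h1 : functorFamily p f ⊤ ⊆ 𝓖)
    (h2 : ∀ M, IsMaximalPLocal p M → ¬ IsFunctorRegular p f M → M ∈ 𝓖) :
    ∀ (k : ℕ) (D : Subgroup G), Nat.card G - Nat.card D < k → D ≠ ⊥ → ∀ S T, SylowIn p S ⊤ → SylowIn p T ⊤ →
      D ≤ S → D ≤ T → ReflTransGen (Link p 𝓖 ⊤ D) S T := by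
  intro k
  induction k with
  | zero => intro D h; omega
  | succ k ih =>
  intro D hk hD
  have lt_card : ∀ {A B : Subgroup G}, A < B → Nat.card A < Nat.card B := fun {A B} h =>
    lt_of_le_of_ne (card_le_of_le h.le) fun h0 => h.ne (eq_of_le_of_card_ge h.le h0.ge)
  have IH : ∀ (P S T : Subgroup G), D < P → SylowIn p S ⊤ → SylowIn p T ⊤ → P ≤ S → P ≤ T →
      ReflTransGen (Link p 𝓖 ⊤ D) S T := by
    intro P S T hP hS hT h3 h4
    have a1 := lt_card hP
    have a2 := card_le_card_group P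
    exact chain_mono (ih P (by omega) (ne_bot_of_gt hP) S T hS hT h3 h4) le_rfl hP.le
  have C2 : ∀ (l : ℕ) (N R : Subgroup G), IsPLocal p N → IsPGroup p R → R ≤ N →
      Nat.card G - Nat.card R < l → ∀ S T, SylowIn p S ⊤ → SylowIn p T ⊤ → D < S ⊓ N → D < T ⊓ N →
      ReflTransGen (Link p 𝓖 ⊤ D) S T := by
    intro l
    induction l with
    | zero => intro N R _ _ _ h; omega
    | succ l ih2 =>
    intro N R hN hR hRN hl S T hS hT hDS hDT
    obtain ⟨M, hM, hNM⟩ := exists_maximal hN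
    obtain ⟨S₁, hS₁, hSS₁⟩ := exists_sylowIn_ge (H := M) (Q := S ⊓ N) (hS.isPGroup.to_le inf_le_left)
      (inf_le_right.trans hNM)
    obtain ⟨T₁, hT₁, hTT₁⟩ := exists_sylowIn_ge (H := M) (Q := T ⊓ N) (hT.isPGroup.to_le inf_le_left)
      (inf_le_right.trans hNM)
    have hDS₁ := hDS.trans_le hSS₁
    have hDT₁ := hDT.trans_le hTT₁
    obtain ⟨T₂, hT₂, hT₁₂⟩ := exists_sylowIn_ge (H := ⊤) hT₁.isPGroup le_top
    refine ReflTransGen.trans ?_ (IH _ T₂ T hDT hT₂ hT (hTT₁.trans hT₁₂) inf_le_left)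
    by_cases hreg : IsFunctorRegular p f M
    · rw [isFunctorRegular_iff] at hreg
      have c := hreg.chain hS₁ hT₁ hD hDS₁.le hDT₁.le
      have : ∀ P, ReflTransGen (Link p (functorFamily p f M) M D) S₁ P → D ≤ P ∧
          ∀ P', SylowIn p P' ⊤ → P ≤ P' → ReflTransGen (Link p 𝓖 ⊤ D) S P' := by
        intro P hP
        induction hP with
        | refl => exact ⟨hDS₁.le, fun P' h3 h4 => IH _ S P' hDS hS h3 inf_le_left (hSS₁.trans h4)⟩
        | @tail A B c1 c2 ih3 =>
          have hA := chain_sylowIn hS₁ c1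
          have hB := c2.1
          obtain ⟨a1, F, a2, a3, x, hx, a4⟩ := c2.functor hf hA
          refine ⟨a1, fun B' hB' hBB' => ?_⟩
          obtain ⟨A', hA', hAA'⟩ := exists_sylowIn_ge (H := ⊤) hA.isPGroup le_top
          refine (ih3.2 A' hA' hAA').trans ?_
          have hDA : D < A := lt_of_le_of_ne ih3.1 fun h0 => by
            have b1 := lt_card hDS₁
            rw [h0, hA.card_eq_card hS₁] at b1
            exact lt_irrefl _ b1
          have hDB : D < B := lt_of_le_of_ne a1 fun h0 => by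
            have b1 := lt_card hDS₁
            rw [h0, hB.card_eq_card hS₁] at b1
            exact lt_irrefl _ b1
          rcases hAA'.eq_or_lt with heq | hlt
          · subst heq
            have hB2 : SylowIn p B ⊤ := hA'.of_card_le hB.isPGroup le_top (hA.card_eq_card hB).le
            have : B' = B := hB2.eq_of_le hB'.isPGroup hBB' le_top
            subst this
            exact .single ((link_functor_of_mem hf hA' hB' a1 a2 a3 ⟨mem_top _, hx.2⟩ a4).mono h1 le_rfl)
          · have hAF := (hf A hA.isPGroup).1 F a2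
            have hBF := (hf B hB.isPGroup).1 F a3
            obtain ⟨u, hu1, hu2, hu3⟩ := H68.exists_mem_normalizer_of_lt hA'.isPGroup hlt
            have hlt2 : A < A' ⊓ normalizer (F : Set G) :=
              lt_of_le_of_ne (le_inf hAA' (le_normalizer.trans hAF.2)) fun h0 =>
                hu2 (h0 ▸ ⟨hu1, hAF.2 hu3⟩)
            have b1 := lt_card hlt2
            have b2 := hA.card_le hR (hRN.trans hNM)
            have b3 := card_le_card_group (A' ⊓ normalizer (F : Set G))
            exact ih2 (normalizer (F : Set G)) _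
              ⟨F, hA.isPGroup.to_le hAF.1, hf1 A hA.isPGroup (ne_bot_of_gt hDA) F a2, rfl⟩
              (hA'.isPGroup.to_le inf_le_left) inf_le_right (by omega) A' B' hA' hB' (hDA.trans hlt2)
              (hDB.trans_le (le_inf hBB' (le_normalizer.trans hBF.2)))
      exact (this T₁ c).2 T₂ hT₂ hT₁₂
    · obtain ⟨x, hx, hx'⟩ := hT₁.exists_cj_eq hS₁
      have hS₂ := hT₂.cj x
      rw [cj_top] at hS₂
      have hS₁₂ : S₁ ≤ cj x T₂ := hx' ▸ cj_mono x hT₁₂
      refine (IH _ S _ hDS hS hS₂ inf_le_left (hSS₁.trans hS₁₂)).tail ⟨hT₂, M, h2 M hM hreg, ?_, ?_,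
        le_inf (hDT₁.le.trans hT₁₂) (hDT₁.le.trans hT₁.le), x⁻¹, M.inv_mem hx, by rw [inv_inv]⟩
      · rw [hS₁.eq_of_le (hS₂.isPGroup.to_le inf_le_left) (le_inf hS₁₂ hS₁.le) inf_le_right]
        exact hS₁
      · rw [hT₁.eq_of_le (hT₂.isPGroup.to_le inf_le_left) (le_inf hT₁₂ hT₁.le) inf_le_right]
        exact hT₁
  intro S T hS hT hDS hDT
  rcases hDS.eq_or_lt with heq | hlt
  · subst heq
    rw [hS.eq_of_le hT.isPGroup hDT le_top]
  rcases hDT.eq_or_lt with heq | hlt'
  · subst heq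
    rw [hT.eq_of_le hS.isPGroup hDS le_top]
  have step : ∀ U, SylowIn p U ⊤ → D < U → D < U ⊓ normalizer (D : Set G) := by
    intro U hU h
    obtain ⟨u, hu1, hu2, hu3⟩ := H68.exists_mem_normalizer_of_lt hU.isPGroup h
    exact lt_of_le_of_ne (le_inf h.le le_normalizer) fun h0 => hu2 (h0 ▸ ⟨hu1, hu3⟩)
  exact C2 _ _ ⊥ ⟨D, hS.isPGroup.to_le hDS, hD, rfl⟩ IsPGroup.of_bot bot_le (Nat.lt_succ_self _) S T hS hT
    (step S hS hlt) (step T hT hlt')


/-- Let p be a prime dividing the order of the finite group G, and f an assignment to every p-subgroup P of a set f(P) of subgroups of P, each normalized by N_G(P), compatible with conjugation, such that for P ≠ 1 the members of f(P) are nontrivial. Let 𝓕 be the family of the normalizers N_G(F) of the members F of f(S) over the Sylow p-subgroups S of G, and 𝓕' the family of the maximal p-local subgroups M of G that are singular for f (the corresponding family of normalizers inside M does not control Sylow p-intersections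 in M). Then 𝓕 ∪ 𝓕' controls Sylow p-intersections in G. -/
theorem result {G : Type*} [Group G] [Finite G] (p : ℕ) [Fact p.Prime] (hdiv : p ∣ Nat.card G)
    (f : Subgroup G → Set (Subgroup G)) (hf : Cfsg.IsNormalizerFunctor p f)
    (hf1 : ∀ P : Subgroup G, IsPGroup p ↥P → P ≠ ⊥ → ∀ F ∈ f P, F ≠ ⊥)
    (𝓕 𝓕' : Set (Subgroup G)) (h𝓕 : 𝓕 = Cfsg.functorFamily p f ⊤)
    (h𝓕' : 𝓕' = {M | Cfsg.IsMaximalPLocal p M ∧ ¬ Cfsg.IsFunctorRegular p f M}) :
    Cfsg.ControlsSylowIntersections p (𝓕 ∪ 𝓕') := by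
  subst h𝓕 h𝓕'
  rw [controls_iff_ctl]
  intro S T hS hT _ hD
  exact main hf hf1 _ Set.subset_union_left (fun M h1 h2 => Set.mem_union_right _ (And.intro h1 h2)) _ _ (Nat.lt_succ_self _) hD
    S T hS hT inf_le_left inf_le_right

end Cfsg.Agent.S2956
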