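import Cfsg.Statements.S2957
import Mathlib
import Cfsg.Agent.Lib.LocEven.SylowControl

set_option autoImplicit false
open Cfsg

namespace Cfsg.Agent.S2957

/-- Let p be a prime dividing the order of the finite group G, f an equivariant assignment of a set of subgroups f(P) of P to every p-subgroup P, each normalized by N_G(P), and S a Sylow p-subgroup. If G = G₁G₂ for subgroups G₁, G₂ both containing S and both regular for f (in each Gᵢ, the family of normalizers in Gᵢ of the members of f(P), P a Sylow p-subgroup of Gᵢ, controls Sylow p-intersections), then G itself is regular for f. -/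
theorem result {G : Type*} [Group G] [Finite G] (p : ℕ) [Fact p.Prime] (hdiv : p ∣ Nat.card G)
    (f : Subgroup G → Set (Subgroup G)) (hf : Cfsg.IsNormalizerFunctor p f) (S : Sylow p G)
    (G₁ G₂ : Subgroup G) (h₁ : (S : Subgroup G) ≤ G₁) (h₂ : (S : Subgroup G) ≤ G₂)
    (hprod : ∀ g : G, ∃ g₁ ∈ G₁, ∃ g₂ ∈ G₂, g = g₁ * g₂)
    (hr₁ : Cfsg.IsFunctorRegular p f G₁) (hr₂ : Cfsg.IsFunctorRegular p f G₂) :
    Cfsg.IsFunctorRegular p f ⊤ := by
  rw [H70.isFunctorRegular_iff] at hr₁ hr₂ ⊢
  have hS := H68.sylowIn_top S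
  have key : ∀ T, H68.SylowIn p T ⊤ → (S : Subgroup G) ⊓ T ≠ ⊥ →
      Relation.ReflTransGen (H70.Link p (functorFamily p f ⊤) ⊤ ((S : Subgroup G) ⊓ T)) S T := by
    intro T hT hD
    obtain ⟨g, -, rfl⟩ := hS.exists_cj_eq hT
    obtain ⟨U, hU, h3, h4⟩ := H70.exists_sylow_of_factorization hS h₁ h₂ hprod g
    have c1 := hr₁.chain (hS.mono h₁ le_top) (hU.mono (h4.trans inf_le_left) le_top) hD inf_le_left h3
    have c2 := (hr₂.cj_functor hf g).chain (hU.mono (h4.trans inf_le_right) le_top)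
      (hT.mono (H68.cj_mono g h₂) le_top) hD h3 inf_le_right
    exact (H70.chain_functor_lift hf le_top hS h₁ c1).trans
      (H70.chain_functor_lift hf le_top hU (h4.trans inf_le_right) c2)
  intro A B hA hB _ hD
  obtain ⟨g, -, rfl⟩ := hS.exists_cj_eq hA
  have hB' := hB.cj g⁻¹
  rw [H68.cj_top] at hB'
  have h1 := key _ hB' (by
    rw [← H68.cj_inv_cj g (S : Subgroup G), ← H68.cj_inf, Ne, H68.cj_eq_bot_iff]; exact hD)
  have h2 := H70.chain_map (f := (MulAut.conj g).toMonoidHom) (MulAut.conj g).injective h1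
  have e : ∀ A : Subgroup G, A.map (MulAut.conj g).toMonoidHom = H68.cj g A := fun _ => rfl
  simp only [e, H68.cj_inf, H68.cj_cj_inv, H68.cj_top] at h2
  refine H70.chain_mono h2 ?_ le_rfl
  rintro _ ⟨X, hX, rfl⟩
  have := H70.cj_functorFamily hf hX g
  rwa [H68.cj_top] at this

end Cfsg.Agent.S2957
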