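import Cfsg.Statements.S2958
import Mathlib
import Cfsg.Agent.Lib.LocEven.Basic

set_option autoImplicit false
open Cfsg

namespace Cfsg.Agent.S2958

/-- Let X, A, B be subgroups of a group G such that G is generated by the conjugates of X and every conjugate of X is contained in A or in B. Then A = G or B = G. -/
theorem result {G : Type*} [Group G] (X A B : Subgroup G) (hgen : (⨆ g : G, X.map (MulAut.conj g).toMonoidHom) = ⊤) (hcover : ∀ g : G, X.map (MulAut.conj g).toMonoidHom ≤ A ∨ X.map (MulAut.conj g).toMonoidHom ≤ B) : A = ⊤ ∨ B = ⊤ := by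
  by_cases hW : ∀ g : G, H68.cj g X ≤ A
  · left
    rw [eq_top_iff, ← hgen]
    exact iSup_le hW
  right
  obtain ⟨g₀, hg₀⟩ := not_forall.1 hW
  set B₀ : Subgroup G := ⨆ g : {g : G // ¬ H68.cj g X ≤ A}, H68.cj g X with hB₀
  have h1 : B₀ ≤ B := iSup_le fun g => (hcover g).resolve_left g.2
  have h2 : A ≤ Subgroup.normalizer (B₀ : Set G) := by
    refine H68.le_normalizer_of_forall_cj_le fun a ha => ?_
    rw [hB₀, H68.cj_iSup]
    refine iSup_le fun g => le_iSup_of_le ⟨a * g, fun h => g.2 ?_⟩ (by rw [H68.cj_mul])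
    rw [H68.cj_mul, H68.cj_le_iff, H68.cj_eq_of_mem (A.inv_mem ha)] at h
    exact h
  have h3 : Subgroup.normalizer (B₀ : Set G) = ⊤ := by
    rw [eq_top_iff, ← hgen]
    refine iSup_le fun g => ?_
    by_cases h : H68.cj g X ≤ A
    · exact le_trans h h2
    · exact le_trans (le_iSup_of_le (f := fun g : {g : G // ¬ H68.cj g X ≤ A} => H68.cj (g : G) X) ⟨g, h⟩ le_rfl)
        Subgroup.le_normalizer
  rw [eq_top_iff, ← hgen]
  refine iSup_le fun g => le_trans ?_ h1
  have h4 : H68.cj g₀ X ≤ B₀ := le_iSup_of_le (f := fun g : {g : G // ¬ H68.cj g X ≤ A} => H68.cj (g : G) X) ⟨g₀, hg₀⟩ le_rfl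
  have h5 := H68.cj_mono (g * g₀⁻¹) h4
  rw [← H68.cj_mul, H68.cj_eq_of_mem_normalizer (g := g * g₀⁻¹) (H := B₀) (h3 ▸ Subgroup.mem_top _)] at h5
  rwa [inv_mul_cancel_right] at h5

end Cfsg.Agent.S2958
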