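import Cfsg.Statements.S2963
import Mathlib
import Cfsg.Agent.Lib.SymSylow.Over2

set_option autoImplicit false
open Cfsg

namespace Cfsg.Agent.S2963

/-- Let n be odd. If the symmetric group of degree n is a minimal parabolic group for the prime 2, that is, a Sylow 2-subgroup is not normal and lies in exactly one maximal subgroup, then n = 2^m + 1 for some natural number m. -/
theorem result (n : ℕ) (hn : Odd n) (h : Cfsg.IsPMinimal 2 (Equiv.Perm (Fin n))) : ∃ m : ℕ, n = 2 ^ m + 1 := by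
  haveI : Fact (Nat.Prime 2) := ⟨Nat.prime_two⟩
  obtain ⟨S⟩ := (Sylow.nonempty : Nonempty (Sylow 2 (Equiv.Perm (Fin n))))
  obtain ⟨h1, h2⟩ := h S
  by_cases h5 : 5 ≤ n
  · obtain ⟨M, hM, -, hM'⟩ := (H61.existsUnique_coatom_iff _).1 h2
    obtain ⟨k, -, hk⟩ := (H61.SylIn.of_sylow_top S).card_of_unique_over (G := ⊤) le_top (by simpa using h5)
      (lt_top_iff_ne_top.2 hM) fun H h3 h4 => hM' H h3 h4.ne
    exact ⟨k, by simpa using hk⟩
  · obtain ⟨k, rfl⟩ := hn
    have : k = 0 ∨ k = 1 := by omega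
    rcases this with rfl | rfl
    · haveI : Subsingleton (Fin (2 * 0 + 1)) := inferInstanceAs (Subsingleton (Fin 1))
      exact absurd ⟨fun a ha g => by rwa [Subsingleton.elim (g * a * g⁻¹) a]⟩ h1
    · exact ⟨1, rfl⟩

end Cfsg.Agent.S2963
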