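import Cfsg.Statements.S2981
import Mathlib
import Cfsg.Agent.Base
import Cfsg.Agent.Lib.Push.MP13

set_option autoImplicit false
open Cfsg

namespace Cfsg.Agent.S2981

open Subgroup H69 H68.Push H59.MP

/-- The local C**(G,T)-Theorem for minimal parabolic groups. Let G be a finite p-minimal group (a Sylow p-subgroup T is not normal and lies in exactly one maximal subgroup) of characteristic p (C_G(O_p(G)) ≤ O_p(G)), and suppose G ≠ C**(G,T), the subgroup generated by C_G(Ω₁(Z(T))) and N_G(J(T)) (J(T) generated by the elementary abelian p-subgroups of T of largest order). Put V = Ω₁(Z(O_p(G))) and C = C_G(V). Then there are subgroups E₁, …, E_r of G containing C such that: J(G)TC = G and the E_i C/C form an internal direct product equal to J(G)C/C; any two of the E_i are conjugate by an element of T; V = C_V(⟨E_i⟩)·∏[V, E_i] with [V, E_i, E_j] = 1 for i ≠ j; for some n ≥ 1,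 each E_i/C is isomorphic to SL₂(pⁿ), or p = 2 and to the symmetric group of degree 2ⁿ + 1; and E_i acts on [V, E_i]/C_{[V,E_i]}(E_i) as the natural two-dimensional SL₂(pⁿ)-module, respectively as the symmetric group of degree 2ⁿ+1 on its even-weight permutation module. -/
theorem result {G : Type*} [Group G] [Finite G] {p : ℕ} [Fact p.Prime] (hmin : Cfsg.IsPMinimal p G) (hG : Subgroup.centralizer (Cfsg.pCore p G : Set G) ≤ Cfsg.pCore p G) (T : Sylow p G) (hne : Cfsg.cStarStarOf p (T : Subgroup G) ≠ ⊤) : ∃ (r : ℕ) (E : Fin r → Subgroup G), (∀ i, Subgroup.centralizer (Cfsg.omegaOneCenter p (Cfsg.pCore p G) : Set G) ≤ E i) ∧ Cfsg.thompsonSubgroup p G ⊔ (T : Subgroup G) ⊔ Subgroup.centralizer (Cfsg.omegaOneCenter p (Cfsg.pCore p G) : Set G) = ⊤ ∧ (⨆ i, E i) = Cfsg.thompsonSubgroup p G ⊔ Subgroup.centralizer (Cfsg.omegaOneCenter p (Cfsg.pCore p G) : Set G) ∧ (∀ i j, i ≠ j → ⁅E i,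 E j⁆ ≤ Subgroup.centralizer (Cfsg.omegaOneCenter p (Cfsg.pCore p G) : Set G)) ∧ (∀ i, E i ⊓ (⨆ j ∈ {j | j ≠ i}, E j) ≤ Subgroup.centralizer (Cfsg.omegaOneCenter p (Cfsg.pCore p G) : Set G)) ∧ (∀ i j, ∃ t ∈ (T : Subgroup G), (E i).map (MulAut.conj t).toMonoidHom = E j) ∧ (Cfsg.omegaOneCenter p (Cfsg.pCore p G) ⊓ Subgroup.centralizer ((⨆ i, E i : Subgroup G) : Set G)) ⊔ (⨆ i, ⁅Cfsg.omegaOneCenter p (Cfsg.pCore p G), E i⁆) = Cfsg.omegaOneCenter p (Cfsg.pCore p G) ∧ (∀ i j, i ≠ j → ⁅⁅Cfsg.omegaOneCenter p (Cfsg.pCore p G), E i⁆, E j⁆ = ⊥) ∧ ∀ i, ∃ n : ℕ, 1 ≤ n ∧ ((∃ (F : Type) (_ : Field F) (_ : Fintype F), Fintype.card F = p ^ n ∧ (∃ _ : ((Subgroup.centralizer (Cfsg.omegaOneCenter p (Cfsg.pCore p G) : Set G)).subgroupOf (E i)).Normal, Nonempty (↥(E i) ⧸ (Subgroup.centralizer (Cfsg.omegaOneCenter p (Cfsg.pCore p G) : Set G)).subgroupOf (E i) ≃* Matrix.SpecialLinearGroup (Fin 2)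 F)) ∧ Cfsg.ActsAsSL2OnSection F ⊤ (E i) ⁅Cfsg.omegaOneCenter p (Cfsg.pCore p G), E i⁆ (⁅Cfsg.omegaOneCenter p (Cfsg.pCore p G), E i⁆ ⊓ Subgroup.centralizer ((E i : Subgroup G) : Set G))) ∨ (p = 2 ∧ (∃ _ : ((Subgroup.centralizer (Cfsg.omegaOneCenter p (Cfsg.pCore p G) : Set G)).subgroupOf (E i)).Normal, Nonempty (↥(E i) ⧸ (Subgroup.centralizer (Cfsg.omegaOneCenter p (Cfsg.pCore p G) : Set G)).subgroupOf (E i) ≃* Equiv.Perm (Fin (2 ^ n + 1)))) ∧ Cfsg.ActsAsOddPermModuleOnSection (2 ^ n + 1) ⊤ (E i) ⁅Cfsg.omegaOneCenter p (Cfsg.pCore p G), E i⁆ (⁅Cfsg.omegaOneCenter p (Cfsg.pCore p G), E i⁆ ⊓ Subgroup.centralizer ((E i : Subgroup G) : Set G)))) := by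
  obtain ⟨M, -, h⟩ := exists_pm hmin T
  obtain ⟨P, W, _, _, _, _, _, _, θ, π, y, 𝓔, s⟩ := exists_su h hG
    (fun e => hne (top_le_iff.1 (e.trans le_sup_left)))
    (fun e => hne (top_le_iff.1 (e.trans le_sup_right)))
  obtain ⟨r, E, -, e0, e1, e2, e3, e4, e5, e6, e7⟩ := s.mdl.struct s.cmp rfl
  simp only [Subgroup.map_id] at e5 e6
  rw [s.ker_eq] at e0 e1 e2
  refine ⟨r, E, e0, ?_, ?_, e1, e2, e4, e5, e6, fun i => ?_⟩
  · rw [← s.ker_eq, ← comap_map_eq, Subgroup.map_sup, s.map_JG, s.cmp.sup, comap_top]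
  · rw [e3, ← s.map_JG, comap_map_eq, s.ker_eq]
  · have h1 := e7 i
    rw [Subgroup.map_id] at h1
    obtain ⟨n, n1, ⟨F, _, _, h3, ⟨f, f1, f2⟩, h4⟩ | ⟨h3, ⟨f, f1, f2⟩, h4⟩⟩ := h1
    · exact ⟨n, n1, Or.inl ⟨F, _, _, h3, equiv_of_ker f1 f2, h4⟩⟩
    · exact ⟨n, n1, Or.inr ⟨h3, equiv_of_ker f1 f2, h4⟩⟩

end Cfsg.Agent.S2981
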