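import Cfsg.Statements.S2989
import Mathlib
import Cfsg.Agent.Base
import Cfsg.Agent.Lib.Push.CL

set_option autoImplicit false
open Cfsg

namespace Cfsg.Agent.S2989

open Subgroup H69 H24 H68.Push
open scoped commutatorElement

/-- Let G be a finite group and S a Sylow p-subgroup of G in the basic pushing-up situation (G ≠ 1, C_G(O_p(G)) ≤ O_p(G), S lies in a unique maximal subgroup of G, and some quotient of G is isomorphic to PSL₂ over a field of order a power of p), and suppose that S centralizes Z(J(S)), where J(S) is generated by the abelian subgroups of S of largest order (that is, J̃(S) = C_S(Z(J(S))) = S). Call a subgroup R of S centrally large if |R|·|Z(R)| is as large as possible among subgroups of S, and let S_Φ be the subgroup generated by the Frattini subgroups Φ(Q) of those minimal centrally large subgroups Q of S whose Ω₁(Z(Q)) has the largest order among minimal centrally large subgroups. Then Z(S) or S_Φ is normal in G; and if S_Φ = 1, the minimal centrally large subgroups of S are exactly the abelian subgroups of S of largest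 order, and at least one of them is elementary abelian. -/
theorem result {G : Type*} [Group G] [Finite G] {p : ℕ} [Fact p.Prime] (S : Subgroup G) (hE : Cfsg.IsPushingUpSituation p S) (hJ : S ≤ Subgroup.centralizer (Cfsg.centerThompsonAOf S : Set G)) : ((S ⊓ Subgroup.centralizer (S : Set G)).Normal ∨ ((Cfsg.frattiniOfMinimalCLJoin p ↥S).map S.subtype).Normal) ∧ (Cfsg.frattiniOfMinimalCLJoin p ↥S = ⊥ → (∀ Q : Subgroup ↥S, Cfsg.IsMinimalCentrallyLarge Q ↔ Q ∈ Cfsg.maxAbelianSubgroups ↥S) ∧ ∃ A ∈ Cfsg.maxAbelianSubgroups ↥S, Cfsg.IsElementaryAbelian p A) := by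
  obtain ⟨q, M, h⟩ := exists_pu_of_situation hE
  refine ⟨?_, fun h1 => ?_⟩
  · rw [map_phiJoin, normal_iff_top_le_normalizer, normal_iff_top_le_normalizer, or_iff_not_imp_left]
    exact fun hY => h.phiJoin_normal hY hJ
  · obtain ⟨R, hR⟩ := exists_mclmax p S
    have h2 := le_phiJoin hR
    rw [← map_phiJoin, h1, Subgroup.map_bot, H5.map_frattini_le_iff (h.isP.to_le hR.1.1.1)] at h2
    obtain ⟨Q, hQ, rfl⟩ := hR.1.exists_sub
    have h3 : IsElementaryAbelian p Q := (EA.map_iff S.subtype_injective).1 (EA.iff_mem.2
      ⟨fun a ha b hb => le_centralizer_of_commutator_eq_bot (le_bot_iff.1 h2.1) hb a ha, h2.2⟩)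
    exact ⟨H70.CD.MCL.iff_maxAb hQ h3.1, Q, (H70.CD.MCL.iff_maxAb hQ h3.1 Q).1 hQ, h3⟩

end Cfsg.Agent.S2989
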