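import Cfsg.Statements.S2990
import Mathlib
import Cfsg.Agent.Base
import Cfsg.Agent.Lib.Push.CL

set_option autoImplicit false
open Cfsg

namespace Cfsg.Agent.S2990

open Subgroup H69 H24 H68.Push
open scoped commutatorElement

/-- Let G be a finite group and S a Sylow p-subgroup of G in the basic pushing-up situation (G ≠ 1, C_G(O_p(G)) ≤ O_p(G), S lies in a unique maximal subgroup of G, and some quotient of G is isomorphic to PSL₂ over a field of order a power of p), and suppose that S centralizes Z(J(S)), where J(S) is generated by the abelian subgroups of S of largest order (that is, J̃(S) = C_S(Z(J(S))) = S). Call a subgroup R of S centrally large if |R|·|Z(R)| is as large as possible among subgroups of S, let Q be a minimal centrally large subgroup of S and let S_MCL be the subgroup generated by all minimal centrally large subgroups of S. Then the derived subgroup [Q, Q] is characteristic in S; Z(S) ∩ [Q, Q] or S_MCL is normal in G; and if [Q, Q] = 1, the minimal centrally large subgroups of S are exactly the abelian subgroups of S of largest order. -/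
theorem result {G : Type*} [Group G] [Finite G] {p : ℕ} [Fact p.Prime] (S : Subgroup G) (hE : Cfsg.IsPushingUpSituation p S) (hJ : S ≤ Subgroup.centralizer (Cfsg.centerThompsonAOf S : Set G)) (Q : Subgroup ↥S) (hQ : Cfsg.IsMinimalCentrallyLarge Q) : (⁅Q, Q⁆).Characteristic ∧ (((S ⊓ Subgroup.centralizer (S : Set G)) ⊓ (⁅Q, Q⁆).map S.subtype).Normal ∨ ((Cfsg.minimalCentrallyLargeJoin ↥S).map S.subtype).Normal) ∧ (⁅Q, Q⁆ = ⊥ → ∀ R : Subgroup ↥S, Cfsg.IsMinimalCentrallyLarge R ↔ R ∈ Cfsg.maxAbelianSubgroups ↥S) := by
  obtain ⟨q, M, h⟩ := exists_pu_of_situation hE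
  refine ⟨?_, ?_, fun hc => H70.CD.MCL.iff_maxAb hQ (isMulCommutative_iff_mem.2 fun a ha b hb =>
    le_centralizer_of_commutator_eq_bot hc hb a ha)⟩
  · rw [characteristic_iff_map_eq]
    intro φ
    rw [map_commutator]
    refine H70.CD.MCL.commutator_eq ?_ hQ
    rw [← mclin_top_iff] at hQ ⊢
    have := (mclin_map_iff (f := φ.toMonoidHom) φ.injective).2 hQ
    rwa [map_top_of_surjective _ φ.surjective] at this
  · rw [map_commutator, map_mclJoin, normal_iff_top_le_normalizer, normal_iff_top_le_normalizer]
    exact (h.mcl_commutator hJ (mclin_subtype_iff.2 hQ)).imp_left le_normalizer_of_le_centralizer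

end Cfsg.Agent.S2990
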