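import Cfsg.Statements.S2998
import Mathlib
import Cfsg.Agent.Lib.LocEven.Isolated

set_option autoImplicit false
open Cfsg

namespace Cfsg.Agent.S2998

/-- Let G be a finite group, p a prime, P a Sylow p-subgroup of G and x ∈ P an element such that N_G(R) ≤ C_G(x) for every nontrivial subgroup R of P. Then P ≤ C_G(x); every G-conjugate of x lying in P equals x (so g ∈ C_G(x) whenever g x g⁻¹ ∈ P); and for every normal subgroup N of G, the image of x in G ⧸ N has the same property with respect to the image of P: the normalizer of every nontrivial subgroup of the image of P centralizes the image of x. -/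
theorem result {G : Type*} [Group G] [Finite G] {p : ℕ} [Fact p.Prime] (P : Sylow p G) (x : G) (hxP : x ∈ (P : Subgroup G)) (hlc : ∀ R : Subgroup G, R ≤ (P : Subgroup G) → R ≠ ⊥ → Subgroup.normalizer (R : Set G) ≤ Subgroup.centralizer ({x} : Set G)) : (P : Subgroup G) ≤ Subgroup.centralizer ({x} : Set G) ∧ (∀ g : G, g * x * g⁻¹ ∈ (P : Subgroup G) → g * x * g⁻¹ = x) ∧ ∀ (N : Subgroup G) [N.Normal], ∀ R : Subgroup (G ⧸ N), R ≤ (P : Subgroup G).map (QuotientGroup.mk' N) → R ≠ ⊥ → Subgroup.normalizer (R : Set (G ⧸ N)) ≤ Subgroup.centralizer ({(QuotientGroup.mk x : G ⧸ N)} : Set (G ⧸ N)) := by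
  have hP : Subgroup.normalizer ((P : Subgroup G) : Set G) ≤ Subgroup.centralizer ({x} : Set G) := by
    by_cases h0 : (P : Subgroup G) = ⊥
    · have : x = 1 := by rwa [h0, Subgroup.mem_bot] at hxP
      intro g _
      simp [this, Subgroup.mem_centralizer_singleton_iff]
    · exact hlc _ le_rfl h0
  have hPx := Subgroup.le_normalizer.trans hP
  refine ⟨hPx, fun g hg => ?_, fun N _ R hR hR1 g hg => ?_⟩
  · by_cases h1 : g * x * g⁻¹ = 1
    · have : x = 1 := by simpa using h1
      simp [this]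
    have h2 := (Subgroup.centralizer_le_normalizer _).trans (hlc (Subgroup.zpowers (g * x * g⁻¹))
      (Subgroup.zpowers_le.2 hg) (by rwa [Ne, Subgroup.zpowers_eq_bot]))
    have h3 : H68.cj g (Subgroup.centralizer ({x} : Set G)) ≤ Subgroup.centralizer ({x} : Set G) := by
      rw [← H70.centralizer_zpowers, H68.cj_centralizer, H68.cj, MonoidHom.map_zpowers,
        H70.centralizer_zpowers x]
      exact h2
    obtain ⟨n, hn, y, hy, rfl⟩ := (H68.sylowIn_of_le P hPx).frattini (H68.mem_normalizer_of_cj_le h3)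
    exact H70.mem_centralizer_singleton_iff_conj.1 (Subgroup.mul_mem _ hn (hP hy))
  · obtain ⟨g, rfl⟩ := QuotientGroup.mk'_surjective N g
    set K := R.comap (QuotientGroup.mk' N) with hK
    have hgK : g ∈ Subgroup.normalizer (K : Set G) := by
      rw [Subgroup.mem_normalizer_iff] at hg ⊢
      intro y
      simpa [hK] using hg (QuotientGroup.mk' N y)
    have lift : ∀ k ∈ K, ∃ u ∈ (P : Subgroup G) ⊓ K, u⁻¹ * k ∈ N := by
      intro k hk
      obtain ⟨u, hu, h⟩ := hR hk
      exact ⟨u, ⟨hu, show QuotientGroup.mk' N u ∈ R from h ▸ hk⟩, QuotientGroup.eq.1 h⟩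
    have hPN : H68.SylowIn p ((P : Subgroup G) ⊓ N) N :=
      (H68.sylowIn_top P).inf_of_normal_le (by rw [Subgroup.normalizer_eq_top]) le_top
    have hT : H68.SylowIn p ((P : Subgroup G) ⊓ K) K := by
      refine ⟨inf_le_right, P.isPGroup'.to_le inf_le_left, fun Q hQ h1 h2 => le_antisymm (fun t ht => ?_) h1⟩
      obtain ⟨u, hu, h⟩ := lift t (h2 ht)
      have hNK : N ≤ K := fun n hn => by
        rw [hK, Subgroup.mem_comap, QuotientGroup.mk'_apply, (QuotientGroup.eq_one_iff n).2 hn]
        exact R.one_mem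
      have h3 : Q ⊓ N = (P : Subgroup G) ⊓ N := hPN.eq_of_le (hQ.to_le inf_le_left)
        (le_inf ((inf_le_inf_left _ hNK).trans h1) inf_le_right) inf_le_right
      have h4 : u⁻¹ * t ∈ (P : Subgroup G) := (h3.le ⟨Q.mul_mem (Q.inv_mem (h1 hu)) ht, h⟩).1
      exact ⟨((P : Subgroup G).mul_mem_cancel_left ((P : Subgroup G).inv_mem hu.1)).1 h4, h2 ht⟩
    have hT1 : (P : Subgroup G) ⊓ K ≠ ⊥ := fun h0 => hR1 (eq_bot_iff.2 fun r hr => by
      obtain ⟨u, hu, rfl⟩ := hR hr
      have : u = 1 := Subgroup.mem_bot.1 (h0.le ⟨hu, hr⟩)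
      simp [this])
    obtain ⟨k, hk, y, hy, rfl⟩ := hT.frattini hgK
    obtain ⟨u, hu, h⟩ := lift k hk
    have h5 := Subgroup.mem_centralizer_singleton_iff.1 (hlc _ inf_le_left hT1 hy)
    have h6 := Subgroup.mem_centralizer_singleton_iff.1 (hPx hu.1)
    rw [Subgroup.mem_centralizer_singleton_iff, map_mul, QuotientGroup.mk'_apply, QuotientGroup.mk'_apply,
      ← QuotientGroup.eq.2 h, ← QuotientGroup.mk_mul, ← QuotientGroup.mk_mul, ← QuotientGroup.mk_mul,
      mul_assoc, h5, ← mul_assoc, h6, mul_assoc]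

end Cfsg.Agent.S2998
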