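import Cfsg.Statements.S2999
import Mathlib
import Cfsg.Agent.Base
import Cfsg.Agent.Lib.Push.MinOff

set_option autoImplicit false
open Cfsg

namespace Cfsg.Agent.S2999

open Subgroup H69 H24 H68.Push
open scoped commutatorElement MatrixGroups

/-- Let p be a prime and let P and V be subgroups of a finite group with V elementary abelian, P normalizing V and acting faithfully on it (P ∩ C(V) = 1). Suppose P is p-minimal (a Sylow p-subgroup T of P is not normal and lies in a unique maximal subgroup M of P) and A ≤ T is an elementary abelian subgroup such that: |V/C_V(A)| ≤ |A| while |A₀|·|C_V(A₀)| < |A|·|C_V(A)| for every nontrivial proper subgroup A₀ of A; [C_V(T), P] ≠ 1; and P = ⟨A, xAx⁻¹⟩ for every x ∈ P outside M. Then, with q = |A|, there is a field F with q elements such that P ≅ SL₂(F), C_V(A) = [V, A]·C_V(P), and P acts on V/C_V(P) as SL₂(F) on its natural two-dimensional module. -/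
theorem result {G : Type*} [Group G] [Finite G] {p : ℕ} [Fact p.Prime] (V P : Subgroup G) (hV : Cfsg.IsElementaryAbelian p V) (hPV : P ≤ Subgroup.normalizer (V : Set G)) (hfaith : P ⊓ Subgroup.centralizer (V : Set G) = ⊥) (hmin : Cfsg.IsPMinimal p ↥P) (T : Sylow p ↥P) (M : Subgroup ↥P) (hM : IsCoatom M) (hTM : (T : Subgroup ↥P) ≤ M) (A : Subgroup G) (hAT : A ≤ ((T : Subgroup ↥P).map P.subtype)) (hAel : Cfsg.IsElementaryAbelian p A) (hi : Nat.card ↥V ≤ Nat.card ↥A * Nat.card ↥(V ⊓ Subgroup.centralizer ((A : Subgroup G) : Set G)) ∧ ∀ A₀ : Subgroup G, A₀ ≤ A → A₀ ≠ ⊥ → A₀ ≠ A → Nat.card ↥A₀ * Nat.card ↥(V ⊓ Subgroup.centralizer ((A₀ : Subgroup G) : Set G)) < Nat.card ↥A * Nat.card ↥(V ⊓ Subgroup.centralizer ((A : Subgroup G) : Set G))) (hii : ⁅(V ⊓ Subgroup.centralizer ((((T : Subgroup ↥P).map P.subtype) : Subgroup G) : Set G)), P⁆ ≠ ⊥) (hiii : ∀ x : ↥P, x ∉ M → A ⊔ A.map (MulAut.conj (x : G)).toMonoidHom = P) : ∃ (F : Type) (_ : Field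 F) (_ : Fintype F), Fintype.card F = Nat.card ↥A ∧ Nonempty (↥P ≃* Matrix.SpecialLinearGroup (Fin 2) F) ∧ (V ⊓ Subgroup.centralizer ((A : Subgroup G) : Set G)) = ⁅V, A⁆ ⊔ (V ⊓ Subgroup.centralizer ((P : Subgroup G) : Set G)) ∧ Cfsg.ActsAsSL2OnSection F ⊤ P V (V ⊓ Subgroup.centralizer ((P : Subgroup G) : Set G)) := by
  obtain ⟨M', -, huniq⟩ := (hmin T).2
  have hmax : ∀ K, (T : Subgroup P) ≤ K → K ≠ ⊤ → K ≤ M := by
    intro K h1 h2
    obtain ⟨K', hK', h3⟩ := (eq_top_or_exists_le_coatom K).resolve_left h2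
    exact ((huniq K' ⟨hK', h1.trans h3⟩).trans (huniq M ⟨hM, hTM⟩).symm) ▸ h3
  obtain ⟨n, hn⟩ := EA.exists_card hAel
  have hn0 : n ≠ 0 := by
    rintro rfl
    rw [pow_zero, card_eq_one] at hn
    subst hn
    obtain ⟨x, -, hx⟩ := SetLike.exists_of_lt (lt_top_iff_ne_top.2 hM.1)
    have h1 := hiii x hx
    rw [Subgroup.map_bot, sup_idem] at h1
    exact hx (by rw [show x = 1 from Subtype.ext (mem_bot.1 (h1.ge x.2))]; exact M.one_mem)
  obtain ⟨F, _, _, hF⟩ := exists_field_card p hn0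
  obtain ⟨ρ, ψ, h⟩ := natSec_of_minOff hV hPV hfaith (isSylowIn_top T) hTM hM.1 hmax hAT hAel
    hi.1 hi.2 (fun h => hii (commutator_eq_bot_of_le_centralizer h)) hiii F (hF.trans hn.symm)
  refine ⟨F, inferInstance, inferInstance, by rw [← Nat.card_eq_fintype_card, hF, hn],
    h.nonempty_equiv (by rw [cm_bot, hfaith]), ?_, ?_⟩
  · simpa only [cm_bot] using h.inf_cm_eq_sup le_rfl h.not_le_cm
  · simpa only [cm_bot] using h.actsAs

end Cfsg.Agent.S2999
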