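import Cfsg.Statements.S3000
import Mathlib
import Cfsg.Agent.Base
import Cfsg.Agent.Lib.Push.MP12

set_option autoImplicit false
open Cfsg

namespace Cfsg.Agent.S3000

open Subgroup H69 H68.Push H59.MP

/-- Let p be a prime and let P and V be subgroups of a finite group with V elementary abelian, P normalizing V and acting faithfully on it (P ∩ C(V) = 1). Suppose P is p-minimal (a Sylow p-subgroup T of P is not normal and lies in a unique maximal subgroup M of P), O_p(P) = 1, C_P(C_V(T)) ≤ M, and P has a best offender on V: a subgroup A not centralizing V, with A/C_A(V) elementary abelian, such that |B|·|C_V(B)| ≤ |A|·|C_V(A)| for every subgroup B of A. Then there are subgroups E₁, …, E_r of P (r ≥ 1), pairwise commuting and forming with T a product P = (E₁ × ⋯ × E_r)T (internal direct product of the E_i), any two of which are conjugate by an element of T, such that V = C_V(E₁⋯E_r)·∏[V,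 E_i] with [V, E_i, E_j] = 1 for i ≠ j, and for each i there is n ≥ 1 with either E_i ≅ SL₂(pⁿ) acting on [V, E_i]/C_{[V,E_i]}(E_i) as on its natural two-dimensional module, or p = 2 and E_i isomorphic to the symmetric group of degree 2ⁿ + 1 acting on [V, E_i]/C_{[V,E_i]}(E_i) as on its even-weight permutation module. -/
theorem result {G : Type*} [Group G] [Finite G] {p : ℕ} [Fact p.Prime] (V P : Subgroup G) (hV : Cfsg.IsElementaryAbelian p V) (hPV : P ≤ Subgroup.normalizer (V : Set G)) (hfaith : P ⊓ Subgroup.centralizer (V : Set G) = ⊥) (hmin : Cfsg.IsPMinimal p ↥P) (T : Sylow p ↥P) (M : Subgroup ↥P) (hM : IsCoatom M) (hTM : (T : Subgroup ↥P) ≤ M) (hOp : Cfsg.pCore p ↥P = ⊥) (hoff : ∃ A : Subgroup G, A ≤ P ∧ ¬ A ≤ Subgroup.centralizer (V : Set G) ∧ Cfsg.IsBestOffenderOn p V A) (hCT : P ⊓ Subgroup.centralizer ((V ⊓ Subgroup.centralizer ((((T : Subgroup ↥P).map P.subtype) : Subgroup G) :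 Set G)) : Set G) ≤ M.map P.subtype) : ∃ (r : ℕ) (E : Fin r → Subgroup G), 1 ≤ r ∧ (∀ i, E i ≤ P) ∧ (∀ i j, i ≠ j → ⁅E i, E j⁆ = ⊥) ∧ (∀ i, E i ⊓ (⨆ j ∈ {j | j ≠ i}, E j) = ⊥) ∧ (⨆ i, E i) ⊔ ((T : Subgroup ↥P).map P.subtype) = P ∧ (∀ i j, ∃ t ∈ ((T : Subgroup ↥P).map P.subtype), (E i).map (MulAut.conj t).toMonoidHom = E j) ∧ (V ⊓ Subgroup.centralizer (((⨆ i, E i) : Subgroup G) : Set G)) ⊔ (⨆ i, ⁅V, E i⁆) = V ∧ (∀ i j, i ≠ j → ⁅⁅V, E i⁆, E j⁆ = ⊥) ∧ ∀ i, ∃ n : ℕ, 1 ≤ n ∧ ((∃ (F : Type) (_ : Field F) (_ : Fintype F), Fintype.card F = p ^ n ∧ Nonempty (↥(E i) ≃* Matrix.SpecialLinearGroup (Fin 2) F) ∧ Cfsg.ActsAsSL2OnSection F ⊤ (E i) ⁅V, E i⁆ (⁅V, E i⁆ ⊓ Subgroup.centralizer ((E i : Subgroup G) : Set G))) ∨ (p = 2 ∧ Nonempty (↥(E i) ≃* Equiv.Perm (Fin (2 ^ n + 1))) ∧ Cfsg.ActsAsOddPermModuleOnSection (2 ^ n + 1) ⊤ (E i) ⁅V, E i⁆ (⁅V, E i⁆ ⊓ Subgroup.centralizer ((E i : Subgroup G) : Set G))))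 := by
  obtain ⟨W, _, _, π, m⟩ := exists_mdl hPV (H24.EA.le_centralizer hV)
  haveI := m.finite
  haveI := m.faithful hfaith
  obtain ⟨M', -, h⟩ := exists_pm hmin T
  obtain rfl := h.eq_of_coatom hM hTM
  obtain ⟨A, hAP, hA1, hA2⟩ := hoff
  rw [← map_subgroupOf_eq_of_le hAP] at hA1 hA2
  obtain ⟨h1, h2⟩ := m.offender hA2
  obtain ⟨B, -, hB, -⟩ := exists_isMin h1 (m.map_ne_bot hA1) h2
  obtain ⟨y, y1, y2⟩ := m.exists_y (K := T) fun e => h.ne_top (top_le_iff.1 fun x _ => by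
    obtain ⟨z, hz, e1⟩ := hCT ⟨x.2, le_centralizer_iff.1 e ⟨x, rfl⟩⟩
    exact Subtype.ext e1 ▸ hz)
  rw [Subgroup.map_id] at y1
  obtain ⟨𝓔, c⟩ := (h.hyp hOp (m.tors hV.2) y1 y2).exists_cmp hB
  obtain ⟨r, E, r1, -, e1, e2, e3, e4, e5, e6, e7⟩ := m.struct c (Subgroup.map_id _)
  have hk : (MonoidHom.id P).ker = ⊥ := MonoidHom.ker_id
  have iso : ∀ (i) {Y : Type} [Group Y] (f : (E i).map P.subtype →* Y), Function.Surjective f →
      f.ker = (𝐂(V)).subgroupOf ((E i).map P.subtype) → Nonempty ((E i).map P.subtype ≃* Y) :=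
    fun i Y _ f f1 f2 => ⟨MulEquiv.ofBijective f ⟨(MonoidHom.ker_eq_bot_iff f).1 (by
      rw [f2, subgroupOf_eq_bot, disjoint_iff, eq_bot_iff, ← hfaith, inf_comm]
      exact inf_le_inf_right _ (map_subtype_le _)), f1⟩⟩
  refine ⟨r, fun i => (E i).map P.subtype, r1, fun i => map_subtype_le _, fun i j hij => ?_,
    fun i => ?_, ?_, fun i j => ?_, ?_, e6, fun i => ?_⟩
  · rw [← map_commutator, le_bot_iff.1 ((e1 i j hij).trans hk.le), Subgroup.map_bot]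
  · have := congrArg (Subgroup.map P.subtype) (le_bot_iff.1 ((e2 i).trans hk.le))
    rwa [map_inf _ _ _ P.subtype_injective, Subgroup.map_bot, Subgroup.map_iSup,
      iSup_congr fun j => Subgroup.map_iSup _ _] at this
  · rw [← Subgroup.map_iSup, ← Subgroup.map_sup, e3, comap_id, c.sup, H24.map_top_subtype]
  · obtain ⟨t, ht, e⟩ := e4 i j
    exact ⟨t, ⟨t, ht, rfl⟩, (map_subtype_cj _ _).symm.trans (congrArg _ e)⟩
  · rwa [← Subgroup.map_iSup]
  · obtain ⟨n, n1, ⟨F, _, _, h3, ⟨f, f1, f2⟩, h4⟩ | ⟨h3, ⟨f, f1, f2⟩, h4⟩⟩ := e7 i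
    · exact ⟨n, n1, Or.inl ⟨F, _, _, h3, iso i f f1 f2, h4⟩⟩
    · exact ⟨n, n1, Or.inr ⟨h3, iso i f f1 f2, h4⟩⟩

end Cfsg.Agent.S3000
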