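import Cfsg.Statements.S3001
import Mathlib
import Cfsg.Agent.Base
import Cfsg.Agent.Lib.Push.MP22

set_option autoImplicit false
open Cfsg

namespace Cfsg.Agent.S3001

open Subgroup H69 H68.Push H59.MP

/-- Let p be a prime and let P and V be subgroups of a finite group with V elementary abelian, P normalizing V and acting faithfully on it (P ∩ C(V) = 1). Suppose P is p-minimal (a Sylow p-subgroup is not normal and lies in a unique maximal subgroup), O_p(P) = 1, and P has a best offender on V (a subgroup A not centralizing V, with A/C_A(V) elementary abelian and |B|·|C_V(B)| ≤ |A|·|C_V(A)| for every B ≤ A). Then [C_V(T), P] ≠ 1 for every Sylow p-subgroup T of P. -/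
theorem result {G : Type*} [Group G] [Finite G] {p : ℕ} [Fact p.Prime] (V P : Subgroup G) (hV : Cfsg.IsElementaryAbelian p V) (hPV : P ≤ Subgroup.normalizer (V : Set G)) (hfaith : P ⊓ Subgroup.centralizer (V : Set G) = ⊥) (hmin : Cfsg.IsPMinimal p ↥P) (hOp : Cfsg.pCore p ↥P = ⊥) (hoff : ∃ A : Subgroup G, A ≤ P ∧ ¬ A ≤ Subgroup.centralizer (V : Set G) ∧ Cfsg.IsBestOffenderOn p V A) (T : Sylow p ↥P) : ⁅(V ⊓ Subgroup.centralizer ((((T : Subgroup ↥P).map P.subtype) : Subgroup G) : Set G)), P⁆ ≠ ⊥ := by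
  obtain ⟨W, _, _, π, m⟩ := exists_mdl hPV (H24.EA.le_centralizer hV)
  haveI := m.finite
  haveI := m.faithful hfaith
  obtain ⟨M, -, h⟩ := exists_pm hmin T
  obtain ⟨A, hAP, hA1, hA2⟩ := hoff
  rw [← map_subgroupOf_eq_of_le hAP] at hA1 hA2
  obtain ⟨h1, h2⟩ := m.offender hA2
  obtain ⟨B, -, hB, -⟩ := exists_isMin h1 (m.map_ne_bot hA1) h2
  obtain ⟨g, -, hg⟩ := h.syl.exists_cj_le (H24.EA.isPGroup hB.ea) le_top
  refine fun e => h.not_fix_le hOp (hB.cj g).ea (hB.cj g).ne hg _ W rfl (m.tors hV.2)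
    (hB.cj g).card (m.pre_le_pre.1 ?_)
  have h3 := m.pre_fixS T
  have h4 := m.pre_fixS ⊤
  rw [Subgroup.map_id] at h3 h4
  rw [h3, h4, map_subtype_top]
  exact le_inf inf_le_left (le_centralizer_of_commutator_eq_bot e)

end Cfsg.Agent.S3001
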