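import Cfsg.Statements.S3003
import Mathlib
import Cfsg.Agent.Lib.LocEven.Isolated
import Cfsg.Agent.Lib.PGroup.Basic

set_option autoImplicit false
open Cfsg

namespace Cfsg.Agent.S3003

/-- Let G be a finite group, p a prime and Q a large p-subgroup of G: C_G(Q) ≤ Q and N_G(U) ≤ N_G(Q) for every nontrivial subgroup U of C_G(Q). Let Q ≤ G₁ ≤ G, let R be a subgroup of order prime to p normalized by G₁, and let U ≤ G₁ be a p-subgroup. If U contains a nontrivial element which is G₁-conjugate to an element of Z(Q), then C_R(U) = 1. In particular, if U is elementary abelian of order at least p² and every maximal subgroup of U contains a nontrivial element G₁-conjugate into Z(Q), then R = 1. -/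
theorem result {G : Type*} [Group G] [Finite G] {p : ℕ} [Fact p.Prime] (Q : Subgroup G) (hQp : IsPGroup p ↥Q) (hlarge : Cfsg.IsLarge Q) (G₁ : Subgroup G) (hQG : Q ≤ G₁) (R : Subgroup G) (hR : (Nat.card ↥R).Coprime p) (hGR : G₁ ≤ Subgroup.normalizer (R : Set G)) (U : Subgroup G) (hUG : U ≤ G₁) (hUp : IsPGroup p ↥U) : ((∃ x ∈ U, x ≠ 1 ∧ ∃ g ∈ G₁, g * x * g⁻¹ ∈ Q ⊓ Subgroup.centralizer (Q : Set G)) → R ⊓ Subgroup.centralizer (U : Set G) = ⊥) ∧ (Cfsg.IsElementaryAbelian p U → p ^ 2 ≤ Nat.card ↥U → (∀ U₀ : Subgroup G, U₀ ≤ U → IsCoatom (U₀.subgroupOf U) → ∃ x ∈ U₀, x ≠ 1 ∧ ∃ g ∈ G₁, g * x * g⁻¹ ∈ Q ⊓ Subgroup.centralizer (Q : Set G)) → R = ⊥) := by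
  have hQR : Q ⊓ R = ⊥ := by
    rw [inf_comm]
    exact H4.inf_eq_bot_of_not_dvd_card ((Nat.Prime.coprime_iff_not_dvd Fact.out).1 hR.symm) hQp
  have key : ∀ x : G, x ≠ 1 → (∃ g ∈ G₁, g * x * g⁻¹ ∈ Q ⊓ Subgroup.centralizer (Q : Set G)) →
      R ⊓ Subgroup.centralizer ({x} : Set G) = ⊥ := by
    rintro x hx1 ⟨g, hg, hy⟩
    have h1 := (Subgroup.centralizer_le_normalizer _).trans (hlarge.2 (Subgroup.zpowers (g * x * g⁻¹))
      (Subgroup.zpowers_le.2 hy.2) (by simpa using hx1))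
    have h2 : H68.cj g (R ⊓ Subgroup.centralizer ({x} : Set G)) ≤ R ⊓ Subgroup.normalizer (Q : Set G) := by
      rw [H68.cj_inf, H68.cj_eq_of_mem_normalizer (hGR hg), ← H70.centralizer_zpowers, H68.cj_centralizer,
        H68.cj, MonoidHom.map_zpowers]
      exact inf_le_inf_left _ h1
    rw [← H68.cj_eq_bot_iff (g := g), eq_bot_iff, ← hQR]
    refine h2.trans (le_inf (fun r hr => hlarge.1 fun u hu => ?_) inf_le_left)
    have h3 : r * u * r⁻¹ * u⁻¹ ∈ Q ⊓ R := ⟨Q.mul_mem (H68.conj_mem_of_mem_normalizer hr.2 hu) (Q.inv_mem hu), by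
      rw [mul_assoc, mul_assoc, ← mul_assoc u]
      exact R.mul_mem hr.1 (H68.conj_mem_of_mem_normalizer (hGR (hQG hu)) (R.inv_mem hr.1))⟩
    rw [hQR, Subgroup.mem_bot, mul_inv_eq_one, mul_inv_eq_iff_eq_mul] at h3
    exact h3.symm
  have key2 : ∀ B : Subgroup G, (∃ x ∈ B, x ≠ 1 ∧ ∃ g ∈ G₁, g * x * g⁻¹ ∈ Q ⊓ Subgroup.centralizer (Q : Set G)) →
      R ⊓ Subgroup.centralizer (B : Set G) = ⊥ := by
    rintro B ⟨x, hx, hx1, h⟩
    rw [eq_bot_iff, ← key x hx1 h]
    exact inf_le_inf_left _ (Subgroup.centralizer_le (Set.singleton_subset_iff.2 hx))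
  refine ⟨key2 U, fun hU hc hco => ?_⟩
  rw [eq_bot_iff]
  refine H2.le_of_forall_cocyclic hU.1 (hUG.trans hGR) (H2.coprime_card_of_isPGroup hR hUp).symm ?_
  rintro B hB ⟨a, ha, hBa⟩
  refine (key2 B ?_).le
  rcases hB.eq_or_lt with rfl | hlt
  · haveI : Nontrivial B := by
      rw [← Finite.one_lt_card_iff_nontrivial]
      exact lt_of_lt_of_le (Nat.one_lt_pow two_ne_zero (Fact.out : p.Prime).one_lt) hc
    obtain ⟨M, hM, -⟩ := (eq_top_or_exists_le_coatom (⊥ : Subgroup B)).resolve_left bot_ne_top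
    obtain ⟨x, hx, h⟩ := hco (M.map B.subtype) (Subgroup.map_subtype_le _) (by
      rwa [Subgroup.subgroupOf, Subgroup.comap_map_eq_self_of_injective B.subtype_injective])
    exact ⟨x, Subgroup.map_subtype_le _ hx, h⟩
  · refine hco B hB (H5.isCoatom_of_index_prime ?_)
    have h1 := H1.card_sup_mul_card_inf_of_le_normalizer (H := Subgroup.zpowers a) (N := B)
      (Subgroup.zpowers_le.2 (Subgroup.centralizer_le_normalizer _ fun y hy =>
        congrArg Subtype.val (hU.1.is_comm.comm (⟨y, hB hy⟩ : U) ⟨a, ha⟩)))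
    rw [sup_comm, hBa, ← H1.card_mul_relIndex_of_le hB, Nat.card_zpowers] at h1
    have h2 : B.relIndex U ∣ p := by
      refine Dvd.dvd.trans ?_ (orderOf_dvd_of_pow_eq_one (hU.2 a ha))
      refine Dvd.intro (Nat.card (Subgroup.zpowers a ⊓ B : Subgroup G)) ?_
      refine Nat.eq_of_mul_eq_mul_left (Nat.card_pos (α := B)) ?_
      rw [← mul_assoc, h1, mul_comm]
    rcases (Nat.dvd_prime Fact.out).1 h2 with h3 | h3
    · exact absurd (Subgroup.relIndex_eq_one.1 h3) hlt.not_ge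
    · change (B.relIndex U).Prime
      rw [h3]; exact Fact.out

end Cfsg.Agent.S3003
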