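import Cfsg.Statements.S3008
import Mathlib
import Cfsg.Agent.Lib.LocEven.ChermakDelgado2

set_option autoImplicit false
open Cfsg

namespace Cfsg.Agent.S3008

/-- Let P be a finite p-group, with J(P) generated by its abelian subgroups of largest order and J̃(P) = C_P(Z(J(P))); call R ≤ P centrally large if |R|·|Z(R)| is as large as possible, and let P_MCL be generated by the minimal centrally large subgroups. Then: for every centrally large Q, Q·J(P) ⊇ J̃(P); some minimal centrally large subgroup of P is normalized by both J(P) and P_MCL; if P = J(P) and d(P)² = |P|·|Z(P)|, where d(P) is the largest order of an abelian subgroup, then every minimal centrally large subgroup of P is abelian; and if every minimal centrally large subgroup is abelian then J̃(P) = J(P). -/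
theorem result {p : ℕ} [Fact p.Prime] (P : Type*) [Group P] [Finite P] (hP : IsPGroup p P) : (∀ Q : Subgroup P, Cfsg.IsCentrallyLarge Q → Subgroup.centralizer ((Cfsg.thompsonSubgroupA P ⊓ Subgroup.centralizer (Cfsg.thompsonSubgroupA P : Set P) : Subgroup P) : Set P) ≤ Q ⊔ Cfsg.thompsonSubgroupA P) ∧ (∃ Q : Subgroup P, Cfsg.IsMinimalCentrallyLarge Q ∧ Cfsg.thompsonSubgroupA P ≤ Subgroup.normalizer (Q : Set P) ∧ Cfsg.minimalCentrallyLargeJoin P ≤ Subgroup.normalizer (Q : Set P)) ∧ (Cfsg.thompsonSubgroupA P = ⊤ → (∀ A ∈ Cfsg.maxAbelianSubgroups P, Nat.card ↥A ^ 2 = Nat.card P * Nat.card ↥(Subgroup.center P)) → ∀ Q : Subgroup P, Cfsg.IsMinimalCentrallyLarge Q → IsMulCommutative ↥Q) ∧ ((∀ Q : Subgroup P, Cfsg.IsMinimalCentrallyLarge Q → IsMulCommutative ↥Q) → Subgroup.centralizer ((Cfsg.thompsonSubgroupA P ⊓ Subgroup.centralizer (Cfsg.thompsonSubgroupA P : Set P) : Subgroup P) : Set P) = Cfsg.thompsonSubgroupA P) := by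
  have := hP.isNilpotent
  refine ⟨fun Q hQ => H70.CD.CL.jtilde_le (H70.CD.CL.sup_thompson hQ) le_sup_right,
    H70.CD.exists_mcl_normalized, ?_, ?_⟩
  · intro hJ hd Q hQ
    have h1 := H70.CD.CL.sup_thompson hQ.1
    rw [hJ, sup_top_eq, H70.CD.cl_iff_zeta, H70.CD.zeta_eq, top_inf_eq, Subgroup.coe_top,
      Subgroup.centralizer_univ, Subgroup.card_top] at h1
    obtain ⟨A, hA⟩ := H70.CD.exists_maxAb (P := P)
    have h2 : IsCentrallyLarge A := by
      rw [H70.CD.cl_iff_zeta, H70.CD.zeta_of_comm hA.1, ← h1, ← hd A hA, sq]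
    exact ((H70.CD.MCL.iff_maxAb (H70.CD.mcl_of_cl_of_comm hA.1 h2) hA.1 Q).1 hQ).1
  · intro h
    obtain ⟨Q, hQ⟩ := H70.CD.exists_mcl (P := P)
    have h1 : thompsonSubgroupA P = minimalCentrallyLargeJoin P := by
      have : maxAbelianSubgroups P = {R : Subgroup P | IsMinimalCentrallyLarge R} :=
        Set.ext fun X => (H70.CD.MCL.iff_maxAb hQ (h Q hQ) X).symm
      exact congrArg sSup this
    have h2 : IsCentrallyLarge (thompsonSubgroupA P) := h1 ▸ H70.CD.cl_mjoin
    rw [H70.CD.CL.inf_centralizer h2]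
    exact H70.CD.Large.centralizer_centralizer (H70.CD.CL.large h2)

end Cfsg.Agent.S3008
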