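import Cfsg.Statements.S3009
import Mathlib
import Cfsg.Agent.Base
import Cfsg.Agent.Lib.Push.SL2Mod

set_option autoImplicit false
open Cfsg

namespace Cfsg.Agent.S3009

open Subgroup H69 H68.Push H59.MP H68S Matrix
open scoped MatrixGroups

/-- Let p be a prime and let G and V be subgroups of a finite group with V elementary abelian and normalized by G, and G isomorphic to SL₂(F) for a finite field F with pⁿ elements. Suppose G acts irreducibly and nontrivially on V by conjugation (no G-invariant subgroups of V other than 1 and V, and [V, G] ≠ 1), and let S be a Sylow p-subgroup of G and V₀ = C_V(S). If [V, S, S] = 1 or |V| ≤ |V₀|², then G acts on V as SL₂(F) on its natural two-dimensional module; in particular |V| = |F|². -/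
theorem result {X : Type*} [Group X] [Finite X] {p : ℕ} [Fact p.Prime] (G V : Subgroup X) (hV : Cfsg.IsElementaryAbelian p V) (hGV : G ≤ Subgroup.normalizer (V : Set X)) (F : Type) [Field F] [Fintype F] (n : ℕ) (hF : Fintype.card F = p ^ n) (hG : Nonempty (↥G ≃* Matrix.SpecialLinearGroup (Fin 2) F)) (hirr : ∀ U : Subgroup X, U ≤ V → G ≤ Subgroup.normalizer (U : Set X) → U = ⊥ ∨ U = V) (hnt : ⁅V, G⁆ ≠ ⊥) (S : Sylow p ↥G) (hyp : ⁅⁅V, (S : Subgroup ↥G).map G.subtype⁆, (S : Subgroup ↥G).map G.subtype⁆ = ⊥ ∨ Nat.card ↥V ≤ Nat.card ↥(V ⊓ Subgroup.centralizer (((S : Subgroup ↥G).map G.subtype : Subgroup X) : Set X)) ^ 2) : Cfsg.ActsAsSL2OnSection F ⊤ G V ⊥ := by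
  obtain ⟨e⟩ := hG
  haveI : CharP F p := charP_of_card_eq_prime_pow hF
  obtain ⟨W, _, _, θ, π, m, hS⟩ := exists_mdl_sl p hGV (H24.EA.le_centralizer hV) e S
  haveI := m.finite
  refine (exists_natural (F := F) (V := W) p
    (m.tors (fun v hv => H24.EA.pow_eq_one hV hv)) (fun Y hY => ?_) (fun h => hnt ?_) ?_).elim
    fun φ hφ => ?_
  rotate_right
  · refine ⟨hGV, bot_le, θ.toMonoidHom, MonoidHom.mk' (fun v => Multiplicative.ofAdd (φ.symm (π v)))
      fun u v => ?_, MonoidHom.range_eq_top.2 θ.surjective, fun s => ?_, fun u => ?_,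
      fun g u => ⟨⟨_, m.conj_mem g u.2⟩, rfl, ?_⟩⟩
    · rw [← ofAdd_add, ← map_add, ← m.π_mul _ u.2 _ v.2]; rfl
    · obtain ⟨v, hv, h1⟩ := m.π_surj (φ s.toAdd)
      exact ⟨⟨v, hv⟩, by simp [h1]⟩
    · simp [m.π_ker _ u.2]
    · simp only [MonoidHom.mk'_apply, toAdd_ofAdd]
      rw [← m.smul g _ u.2, AddEquiv.symm_apply_eq, hφ, AddEquiv.apply_symm_apply]
  · refine (hirr (m.pre Y) (m.pre_le Y) fun g hg => mem_normalizer_of_cj_le fun x hx => ?_).imp
      (fun h => ?_) fun h => ?_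
    · obtain ⟨v, hv, rfl⟩ := mem_cj'.1 hx
      obtain ⟨h1, h2⟩ := m.mem_pre.1 hv
      exact m.mem_pre.2 ⟨m.conj_mem ⟨g, hg⟩ h1, by
        have := m.smul ⟨g, hg⟩ v h1
        exact this ▸ hY _ _ h2⟩
    · rw [eq_bot_iff, ← m.pre_le_pre, h]; exact bot_le
    · rw [eq_top_iff, ← m.pre_le_pre, h]; exact m.pre_le _
  · refine commutator_eq_bot_of_le_centralizer fun v hv g hg => ?_
    exact (m.smul_eq_iff ⟨g, hg⟩ hv).1 (h _ _)
  · refine hyp.imp (fun h s t v => ?_) fun h => ?_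
    · have h1 := (m.kil_iff (K := S) (K' := S)).2
        (le_centralizer_of_commutator_eq_bot h)
      rw [hS] at h1
      exact h1 (mem_comS (mem_unitri.2 ⟨t, rfl⟩) v) _ (mem_unitri.2 ⟨s, rfl⟩)
    · rwa [← hS, m.card_fixS, m.card_eq]

end Cfsg.Agent.S3009
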