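import Cfsg.Statements.S3011
import Mathlib
import Cfsg.Agent.Lib.H71.Sidki

set_option autoImplicit false
open Cfsg

namespace Cfsg.Agent.S3011

theorem aux {G : Type*} [Group G] {V : Subgroup G} (hS : IsSidkiPair V) {a b x y : G}
    (ha : a ∈ V) (hb : b ∈ V) (hab : Commute a b)
    (hV : ∀ w ∈ V, w = 1 ∨ w = a ∨ w = b ∨ w = a * b)
    (hx : Odd (orderOf x)) (hy : Odd (orderOf y)) (hx1 : x ≠ 1) (hy1 : y ≠ 1)
    (hax : Commute a x) (hay : a * y * a⁻¹ = y⁻¹) (hby : Commute b y) (hbx : b * x * b⁻¹ = x⁻¹) :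
    False := by
  have hyy : y ≠ y⁻¹ := fun e => hy1 (H71.eq_one_of_odd_of_eq_inv hy e)
  have hxx : x ≠ x⁻¹ := fun e => hx1 (H71.eq_one_of_odd_of_eq_inv hx e)
  have hax' : a * x * a⁻¹ = x := by rw [hax.eq]; simp
  have hby' : b * y * b⁻¹ = y := by rw [hby.eq]; simp
  have hxy : Commute x y := by
    have e1 : a * (x * y * x⁻¹) * a⁻¹ = (x * y * x⁻¹)⁻¹ := by
      calc a * (x * y * x⁻¹) * a⁻¹ = (a * x * a⁻¹) * (a * y * a⁻¹) * (a * x * a⁻¹)⁻¹ := by group
        _ = _ := by rw [hax', hay]; group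
    have e2 : b * (x * y * x⁻¹) * b⁻¹ = x⁻¹ * y * x := by
      calc b * (x * y * x⁻¹) * b⁻¹ = (b * x * b⁻¹) * (b * y * b⁻¹) * (b * x * b⁻¹)⁻¹ := by group
        _ = _ := by rw [hbx, hby']; group
    obtain ⟨w, hw, hw1, hwc⟩ := hS _ a ha (by rwa [H9.orderOf_conj]) e1
    have hwc' : w * (x * y * x⁻¹) * w⁻¹ = x * y * x⁻¹ := by rw [hwc]; simp
    rcases hV w hw with rfl | rfl | rfl | rfl
    · exact absurd rfl hw1
    · rw [e1] at hwc'
      exact absurd (by simpa [mul_assoc] using hwc'.symm) hyy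
    · rw [e2] at hwc'
      refine (H71.commute_of_commute_sq hx ?_).symm
      show y * (x * x) = x * x * y
      calc y * (x * x) = x * (x⁻¹ * y * x) * x := by group
        _ = x * x * y := by rw [hwc']; group
    · have e3 : a * b * (x * y * x⁻¹) * (a * b)⁻¹ = x⁻¹ * y⁻¹ * x := by
        calc a * b * (x * y * x⁻¹) * (a * b)⁻¹ = a * (b * (x * y * x⁻¹) * b⁻¹) * a⁻¹ := by group
          _ = (a * x * a⁻¹)⁻¹ * (a * y * a⁻¹) * (a * x * a⁻¹) := by rw [e2]; group
          _ = _ := by rw [hax', hay]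
      rw [e3] at hwc'
      have e4 : (x * x) * y * (x * x)⁻¹ = y⁻¹ := by
        calc (x * x) * y * (x * x)⁻¹ = x * (x * y * x⁻¹) * x⁻¹ := by group
          _ = y⁻¹ := by rw [← hwc']; group
      have e5 : Commute y ((x * x) * (x * x)) := by
        have := H9.conj_zpow_of_inverts e4 (-1)
        simp only [zpow_neg, zpow_one, inv_inv] at this
        show y * _ = _
        calc y * (x * x * (x * x)) = (x * x * y⁻¹ * (x * x)⁻¹) * (x * x * (x * x)) := by rw [this]
          _ = x * x * (x * x * y * (x * x)⁻¹) * (x * x) := by rw [e4]; simp [mul_assoc]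
          _ = _ := by group
      have hx2 : Odd (orderOf (x * x)) := H71.odd_orderOf_mul hx hx (Commute.refl x)
      exact (H71.commute_of_commute_sq hx (H71.commute_of_commute_sq hx2 e5)).symm
  have e1 : a * (x * y) * a⁻¹ = x * y⁻¹ := by
    calc a * (x * y) * a⁻¹ = (a * x * a⁻¹) * (a * y * a⁻¹) := by group
      _ = _ := by rw [hax', hay]
  have e2 : b * (x * y) * b⁻¹ = x⁻¹ * y := by
    calc b * (x * y) * b⁻¹ = (b * x * b⁻¹) * (b * y * b⁻¹) := by group
      _ = _ := by rw [hbx, hby']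
  have e3 : a * b * (x * y) * (a * b)⁻¹ = (x * y)⁻¹ := by
    calc a * b * (x * y) * (a * b)⁻¹ = a * (b * (x * y) * b⁻¹) * a⁻¹ := by group
      _ = (a * x * a⁻¹)⁻¹ * (a * y * a⁻¹) := by rw [e2]; group
      _ = _ := by rw [hax', hay, hxy.eq, mul_inv_rev]
  have ho := H71.odd_orderOf_mul hx hy hxy
  obtain ⟨w, hw, hw1, hwc⟩ := hS _ _ (V.mul_mem ha hb) ho e3
  have hwc' : w * (x * y) * w⁻¹ = x * y := by rw [hwc]; simp
  rcases hV w hw with rfl | rfl | rfl | rfl
  · exact absurd rfl hw1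
  · rw [e1] at hwc'; exact hyy (mul_left_cancel hwc').symm
  · rw [e2] at hwc'; exact hxx (mul_right_cancel hwc').symm
  · rw [e3] at hwc'
    have h1 := H71.eq_one_of_odd_of_eq_inv ho hwc'.symm
    rw [h1] at e1
    have h2 : x = y := by simpa [eq_comm, mul_inv_eq_one] using e1
    exact hxx (by rw [eq_inv_iff_mul_eq_one]; nth_rewrite 2 [h2]; exact h1)

/-- Let G be a finite group and V a nontrivial elementary abelian 2-subgroup of G of order at most 4 such that, whenever an element of V inverts an element h of G of odd order, some nontrivial element of V commutes with h. Then V meets O₂(G) nontrivially. (The case of order at most 4 has a short argument from the Baer–Suzuki theorem.) -/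
theorem result {G : Type*} [Group G] [Finite G] (V : Subgroup G) (hV : Cfsg.IsElementaryAbelian 2 V) (hV1 : V ≠ ⊥) (hS : Cfsg.IsSidkiPair V) (h4 : Nat.card V ≤ 4) : V ⊓ Cfsg.pCore 2 G ≠ ⊥ := by
  classical
  intro hbot
  have hinv : ∀ t ∈ V, t ≠ 1 → ∃ x : G, x ≠ 1 ∧ Odd (orderOf x) ∧ t * x * t⁻¹ = x⁻¹ := by
    intro t ht ht1
    apply H71.exists_inverted_of_not_mem_pCore (H71.elemAb_mul_self hV ht)
    intro h
    exact ht1 (Subgroup.mem_bot.1 (hbot ▸ (⟨ht, h⟩ : t ∈ V ⊓ pCore 2 G)))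
  obtain ⟨⟨b, hb⟩, hb1⟩ := Subgroup.ne_bot_iff_exists_ne_one.1 hV1
  have hb1' : b ≠ 1 := fun e => hb1 (Subtype.ext e)
  obtain ⟨x, hx1, hx, hbx⟩ := hinv b hb hb1'
  obtain ⟨a, ha, ha1, hax⟩ := hS x b hb hx hbx
  have hxx : x ≠ x⁻¹ := fun e => hx1 (H71.eq_one_of_odd_of_eq_inv hx e)
  have hab : a ≠ b := by
    rintro rfl
    rw [hax] at hbx; exact hxx (by simpa using hbx)
  have haa := H71.elemAb_mul_self hV ha
  have hbb := H71.elemAb_mul_self hV hb
  have hc : Commute a b := H71.elemAb_comm hV ha hb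
  have hab1 : a * b ≠ 1 := fun e => hab (by rw [← mul_one a, ← hbb, ← mul_assoc, e, one_mul])
  have hall : ∀ w ∈ V, w = 1 ∨ w = a ∨ w = b ∨ w = a * b := by
    intro w hw
    by_contra hcon
    push Not at hcon
    obtain ⟨h1, h2, h3, h4'⟩ := hcon
    have hsub : ({w, 1, a, b, a * b} : Finset G) ⊆ (V : Set G).toFinite.toFinset := by
      intro z hz
      simp only [Finset.mem_insert, Finset.mem_singleton] at hz
      rw [Set.Finite.mem_toFinset]
      rcases hz with rfl | rfl | rfl | rfl | rfl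
      exacts [hw, V.one_mem, ha, hb, V.mul_mem ha hb]
    have h5 := Finset.card_le_card hsub
    rw [← Set.ncard_eq_toFinset_card, ← Nat.card_coe_set_eq] at h5
    have h6 : ({w, 1, a, b, a * b} : Finset G).card = 5 := by
      rw [Finset.card_insert_of_notMem, Finset.card_insert_of_notMem,
        Finset.card_insert_of_notMem, Finset.card_pair]
      · simpa using ha1
      · simp [hab, hb1']
      · simp [ha1.symm, hb1'.symm, hab1.symm]
      · simp [h1, h2, h3, h4']
    have h7 : Nat.card (V : Set G) = Nat.card V := rfl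
    omega
  obtain ⟨y, hy1, hy, hay⟩ := hinv a ha ha1
  have hyy : y ≠ y⁻¹ := fun e => hy1 (H71.eq_one_of_odd_of_eq_inv hy e)
  obtain ⟨w, hw, hw1, hwy⟩ := hS y a ha hy hay
  rcases hall w hw with rfl | rfl | rfl | rfl
  · exact hw1 rfl
  · rw [hwy] at hay; exact hyy (by simpa using hay)
  · exact aux hS ha hb hc hall hx hy hx1 hy1 hax hay hwy hbx
  · refine aux hS ha hw ((Commute.refl a).mul_right hc) ?_ hx hy hx1 hy1 hax hay hwy ?_
    · intro z hz
      rw [← mul_assoc, haa, one_mul]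
      rcases hall z hz with h | h | h | h <;> simp [h]
    · calc a * b * x * (a * b)⁻¹ = a * (b * x * b⁻¹) * a⁻¹ := by group
        _ = x⁻¹ := by rw [hbx, (Commute.inv_right hax).eq]; simp

end Cfsg.Agent.S3011
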