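import Cfsg.Statements.S3013
import Mathlib
import Cfsg.Agent.Lib.H71.Sidki

set_option autoImplicit false
open Cfsg

namespace Cfsg.Agent.S3013

/-- Let G be a finite group and V a nontrivial elementary abelian 2-subgroup of G satisfying the Sidki pair condition. Let v ∈ V and let x be an element of odd order inverted by v, and put C = C_G(v) ∩ C_G(x), the centralizer of the dihedral subgroup generated by v and x. Then C ∩ V is nontrivial and satisfies the Sidki pair condition inside C: every odd-order element of C inverted by an element of C ∩ V commutes with a nontrivial element of C ∩ V. -/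
theorem result {G : Type*} [Group G] [Finite G] (V : Subgroup G) (hV : Cfsg.IsElementaryAbelian 2 V) (hV1 : V ≠ ⊥) (hS : Cfsg.IsSidkiPair V) (v x : G) (hv : v ∈ V) (hx : Odd (orderOf x)) (hinv : v * x * v⁻¹ = x⁻¹) (C : Subgroup G) (hC : C = Subgroup.centralizer ({v} : Set G) ⊓ Subgroup.centralizer ({x} : Set G)) : C ⊓ V ≠ ⊥ ∧ Cfsg.IsSidkiPair ((C ⊓ V).subgroupOf C) := by
  subst hC
  constructor
  · obtain ⟨w, hw, hw1, hwc⟩ := hS x v hv hx hinv
    intro h
    apply hw1
    rw [← Subgroup.mem_bot, ← h]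
    exact ⟨⟨Subgroup.mem_centralizer_singleton_iff.2 (H71.elemAb_comm hV hw hv),
      Subgroup.mem_centralizer_singleton_iff.2 hwc⟩, hw⟩
  · rintro ⟨y, hy⟩ ⟨u, hu'⟩ ⟨-, hu⟩ ho huy
    rw [Subgroup.orderOf_mk] at ho
    obtain ⟨hyv, hyx⟩ := Subgroup.mem_inf.1 hy
    obtain ⟨huv, hux⟩ := Subgroup.mem_inf.1 hu'
    obtain ⟨w, hw, hw1, c1, c2⟩ := H71.sidki_centralizer hV hS hv hx hinv hu
      (Subgroup.mem_centralizer_singleton_iff.1 hux) ho
      (Subgroup.mem_centralizer_singleton_iff.1 hyv).symm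
      (Subgroup.mem_centralizer_singleton_iff.1 hyx).symm (congrArg Subtype.val huy)
    have hwC : w ∈ Subgroup.centralizer ({v} : Set G) ⊓ Subgroup.centralizer ({x} : Set G) :=
      ⟨Subgroup.mem_centralizer_singleton_iff.2 (H71.elemAb_comm hV hw hv),
      Subgroup.mem_centralizer_singleton_iff.2 c1⟩
    exact ⟨⟨w, hwC⟩, ⟨hwC, hw⟩, fun e => hw1 (congrArg Subtype.val e), Subtype.ext c2⟩

end Cfsg.Agent.S3013
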