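import Cfsg.Statements.S3014
import Mathlib
import Cfsg.Agent.Lib.H71.WTransfer
import Cfsg.Agent.Lib.Core.CoprimeBasic

set_option autoImplicit false
open Cfsg

namespace Cfsg.Agent.S3014

/-- Let G be a finite group and H ≤ M ≤ G subgroups such that for every g ∈ G the subgroup generated by H and g H g⁻¹ meets M exactly in H. If H is a maximal subgroup of M and M is a maximal subgroup of G, then the normal closure of H in G meets M exactly in H. -/
theorem result {G : Type*} [Group G] [Finite G] (H M : Subgroup G) (hHM : H ≤ M) (hcl : ∀ g : G, (H ⊔ H.map (MulAut.conj g).toMonoidHom) ⊓ M = H) (hmaxH : IsCoatom (H.subgroupOf M)) (hmaxM : IsCoatom M) : Subgroup.normalClosure (H : Set G) ⊓ M = H := by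
  have hn : M ≤ Subgroup.normalizer (H : Set G) := by
    intro g hg
    apply Subgroup.mem_normalizer_fintype
    intro n hn
    have : g * n * g⁻¹ ∈ (H ⊔ H.map (MulAut.conj g).toMonoidHom) ⊓ M :=
      ⟨Subgroup.mem_sup_right ⟨n, hn, rfl⟩, M.mul_mem (M.mul_mem hg (hHM hn)) (M.inv_mem hg)⟩
    rwa [hcl] at this
  have hmax := H71.between_of_isCoatom hmaxH
  have fin : ∀ K : Subgroup G, K.Normal → H ≤ K → K ⊓ M ≤ H →
      Subgroup.normalClosure (H : Set G) ⊓ M = H := fun K _ h1 h2 =>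
    le_antisymm ((inf_le_inf_right _ (Subgroup.normalClosure_le_normal h1)).trans h2)
      (le_inf Subgroup.le_normalClosure hHM)
  by_cases hW : ∀ g, g ∉ M → ∀ x ∈ M, g⁻¹ * x * g ∈ M → g⁻¹ * x * g ∈ H
  · obtain ⟨K, hK, hKM, -⟩ :=
      H71.exists_normal_inf_eq hHM (H71.commutator_le_of_between hHM hn hmax) hW
    exact fin K hK (hKM ▸ inf_le_left) hKM.le
  push Not at hW
  obtain ⟨g, hg, x, hx, hy, hyH⟩ := hW
  set T := H ⊔ H.map (MulAut.conj g⁻¹).toMonoidHom with hT
  have hyT : g⁻¹ * x * g ∈ Subgroup.normalizer (T : Set G) := by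
    have h1 : Subgroup.zpowers (g⁻¹ * x * g) ≤ Subgroup.normalizer (T : Set G) := by
      apply H2.le_normalizer_sup (Subgroup.zpowers_le.2 (hn hy))
      rw [Subgroup.zpowers_le]
      apply Subgroup.mem_normalizer_fintype
      rintro _ ⟨n, hn', rfl⟩
      exact ⟨x * n * x⁻¹, (Subgroup.mem_normalizer_iff.1 (hn hx) n).1 hn', by simp [mul_assoc]⟩
    exact h1 (Subgroup.mem_zpowers _)
  have hMT : M ≤ Subgroup.normalizer (T : Set G) := by
    rw [← H71.sup_zpowers_eq_of_between hHM hmax hy hyH]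
    exact sup_le (le_sup_left.trans Subgroup.le_normalizer) (Subgroup.zpowers_le.2 hyT)
  rcases hMT.eq_or_lt with e | e
  · have hTM : T ≤ M := e ▸ Subgroup.le_normalizer
    have hTH : T ≤ H := by rw [← hcl g⁻¹]; exact le_inf le_rfl hTM
    have hgN : g⁻¹ ∈ Subgroup.normalizer (H : Set G) := by
      apply Subgroup.mem_normalizer_fintype
      intro n hn'
      exact hTH (Subgroup.mem_sup_right ⟨n, hn', rfl⟩)
    rcases hn.eq_or_lt with e' | e'
    · exact absurd (inv_mem_iff.1 (e' ▸ hgN)) hg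
    · exact fin H (Subgroup.normalizer_eq_top_iff.1 (hmaxM.2 _ e')) le_rfl inf_le_left
  · exact fin T (Subgroup.normalizer_eq_top_iff.1 (hmaxM.2 _ e)) le_sup_left (hcl g⁻¹).le

end Cfsg.Agent.S3014
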