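import Cfsg.Statements.S3015
import Mathlib
import Cfsg.Agent.Lib.H71.WTransfer
import Cfsg.Agent.Lib.Core.CoprimeBasic
import Cfsg.Agent.Lib.Core.GrpBasic
import Cfsg.Agent.Lib.Transfer.Residual
import Cfsg.Agent.Lib.Invol.Dihedral

set_option autoImplicit false
open Cfsg

namespace Cfsg.Agent.S3015

/-- Let G be a finite non-abelian simple group, M a maximal subgroup of G and H a normal subgroup of M of prime index in M. Then G is generated by H together with one of its conjugates. -/
theorem result {G : Type*} [Group G] [Finite G] [IsSimpleGroup G] (hG : ¬ IsMulCommutative G) (M H : Subgroup G) (hmaxM : IsCoatom M) (hHM : H ≤ M) (hHn : (H.subgroupOf M).Normal) (hidx : (H.relIndex M).Prime) : ∃ g : G, H ⊔ H.map (MulAut.conj g).toMonoidHom = ⊤ := by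
  by_contra hcon
  push Not at hcon
  have hn : M ≤ Subgroup.normalizer (H : Set G) := (Subgroup.normal_subgroupOf_iff_le_normalizer hHM).1 hHn
  have hmax := H71.between_of_isCoatom (H5.isCoatom_of_index_prime (M := H.subgroupOf M) hidx)
  have hHM' : ¬ M ≤ H := fun h => by
    rw [Subgroup.relIndex_eq_one.2 h] at hidx; exact Nat.not_prime_one hidx
  have hnorm : ∀ K : Subgroup G, K ≠ ⊥ → K ≠ ⊤ → M ≤ Subgroup.normalizer (K : Set G) →
      Subgroup.normalizer (K : Set G) = M := by
    intro K h1 h2 h3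
    rcases h3.eq_or_lt with e | e
    · exact e.symm
    · have := Subgroup.normalizer_eq_top_iff.1 (hmaxM.2 _ e)
      rcases this.eq_bot_or_eq_top with h | h <;> contradiction
  have hMbot : M ≠ ⊥ := fun h => hHM' (h ▸ bot_le)
  have hNM := hnorm M hMbot hmaxM.1 Subgroup.le_normalizer
  have hHtop : H ≠ ⊤ := fun h => hHM' (h ▸ le_top)
  by_cases hW : ∀ g, g ∉ M → ∀ x ∈ M, g⁻¹ * x * g ∈ M → g⁻¹ * x * g ∈ H
  · obtain ⟨K, hK, hKM, hKc⟩ :=
      H71.exists_normal_inf_eq hHM (H71.commutator_le_of_between hHM hn hmax) hW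
    rcases hK.eq_bot_or_eq_top with h | h
    · apply hG
      rw [h, le_bot_iff, commutator_def, Subgroup.commutator_eq_bot_iff_le_centralizer] at hKc
      exact ⟨⟨fun a b => (Subgroup.mem_centralizer_iff.1 (hKc (Subgroup.mem_top b)) a trivial)⟩⟩
    · rw [h, top_inf_eq] at hKM; exact hHM' hKM.le
  push Not at hW
  obtain ⟨g, hg, x, hx, hy, hyH⟩ := hW
  set T := H ⊔ H.map (MulAut.conj g⁻¹).toMonoidHom with hT
  have hyT : g⁻¹ * x * g ∈ Subgroup.normalizer (T : Set G) := by
    have h1 : Subgroup.zpowers (g⁻¹ * x * g) ≤ Subgroup.normalizer (T : Set G) := by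
      apply H2.le_normalizer_sup (Subgroup.zpowers_le.2 (hn hy))
      rw [Subgroup.zpowers_le]
      apply Subgroup.mem_normalizer_fintype
      rintro _ ⟨n, hn', rfl⟩
      exact ⟨x * n * x⁻¹, (Subgroup.mem_normalizer_iff.1 (hn hx) n).1 hn', by simp [mul_assoc]⟩
    exact h1 (Subgroup.mem_zpowers _)
  have hMT : M ≤ Subgroup.normalizer (T : Set G) := by
    rw [← H71.sup_zpowers_eq_of_between hHM hmax hy hyH]
    exact sup_le (le_sup_left.trans Subgroup.le_normalizer) (Subgroup.zpowers_le.2 hyT)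
  have hTM : T ≤ M := by
    by_cases h : T = ⊥
    · rw [h]; exact bot_le
    · rw [← hnorm T h (hcon _) hMT]; exact Subgroup.le_normalizer
  have hH' : ∀ h ∈ H, g⁻¹ * h * g ∈ M := fun h hh =>
    hTM (Subgroup.mem_sup_right ⟨h, hh, by simp⟩)
  set M' := M.map (MulAut.conj g).toMonoidHom with hM'
  have hmem : ∀ z, z ∈ M' ↔ g⁻¹ * z * g ∈ M := fun z => H1.mem_map_conj_iff
  have hK : M' ⊓ M = H := by
    refine (hmax _ (le_inf (fun h hh => (hmem h).2 (hH' h hh)) hHM) inf_le_right).resolve_right ?_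
    intro e
    apply hg
    rw [← hNM, ← inv_mem_iff]
    apply Subgroup.mem_normalizer_fintype
    intro n hn'
    have : n ∈ M' ⊓ M := e.symm ▸ hn'
    simpa using (hmem n).1 this.1
  set p := H.relIndex M with hp
  haveI : Fact p.Prime := ⟨hidx⟩
  have hp' : ∀ z ∈ M, (orderOf z).Coprime p → z ∈ H := by
    intro z hz hc
    have : (⟨z, hz⟩ : M) ∈ H.subgroupOf M :=
      H1.mem_of_coprime_index (by rwa [Subgroup.orderOf_mk])
    exact this
  set R := (pResidual p H).map H.subtype with hR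
  have hRbot : R = ⊥ := by
    by_contra h
    have hRt : R ≠ ⊤ := fun e => hHtop (top_le_iff.1 (e ▸ Subgroup.map_subtype_le _))
    have := hnorm R h hRt (hn.trans (H4.normalizer_le_normalizer_pResidual H))
    apply hg
    rw [← this, ← inv_mem_iff]
    apply Subgroup.mem_normalizer_fintype
    have : R ≤ R.map (MulAut.conj g).toMonoidHom := by
      rw [hR, H4.map_subtype_pResidual_le_iff]
      intro z hz hc
      rw [H1.mem_map_conj_iff]
      have hc' : (orderOf (g⁻¹ * z * g)).Coprime p := by rwa [H9.orderOf_conj']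
      exact H4.mem_map_subtype_pResidual (hp' _ (hH' z hz) hc') hc'
    intro n hn'
    simpa using H1.mem_map_conj_iff.1 (this hn')
  have hMp : IsPGroup p M := by
    apply H4.isPGroup_of_pResidual_eq_bot
    rw [eq_bot_iff, H4.pResidual_le_iff]
    rintro ⟨z, hz⟩ hc
    rw [Subgroup.orderOf_mk] at hc
    have : z ∈ R := H4.mem_map_subtype_pResidual (hp' z hz hc) hc
    rw [hRbot] at this
    exact Subtype.ext this
  have hlt : H < M' := by
    refine lt_of_le_of_ne (hK ▸ inf_le_left) fun e => hg ?_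
    rw [← hNM]
    apply Subgroup.mem_normalizer_fintype
    intro n hn'
    apply hHM
    rw [e]; exact ⟨n, hn', rfl⟩
  obtain ⟨n, hnM, hnH, -, hnN⟩ := H5.exists_mem_normalizer_of_lt (hMp.map _) hlt
  have hHbot : H ≠ ⊥ := by
    intro e
    have : x ∈ H := hK ▸ ⟨(hmem x).2 hy, hx⟩
    rw [e, Subgroup.mem_bot] at this
    apply hyH; rw [this]; simpa using H.one_mem
  rw [hnorm H hHbot hHtop hn] at hnN
  exact hnH (hK ▸ ⟨hnM, hnN⟩)

end Cfsg.Agent.S3015
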