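import Cfsg.Statements.S3020
import Mathlib
import Cfsg.Agent.Base
import Cfsg.Agent.Lib.Functor.Sect

set_option autoImplicit false
open Cfsg

namespace Cfsg.Agent.S3020

/-- Let G be a finite group, p a prime and H an abelian p-subgroup of G that is extremely closed (for every g, the subgroup generated by H and g H g⁻¹ meets N_G(H) exactly in H). Then for every g ∈ G, the subgroup T generated by H and g H g⁻¹ is the product of H with O_{p'}(T), and H meets O_{p'}(T) trivially; that is, O_{p'}(T) is a normal p-complement of H in T. -/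
theorem result {G : Type*} [Group G] [Finite G] {p : ℕ} [Fact p.Prime] (H : Subgroup G) (hHp : IsPGroup p H) (hHab : IsMulCommutative H) (hcl : Cfsg.IsExtremelyClosed H) (g : G) (T : Subgroup G) (hT : T = H ⊔ H.map (MulAut.conj g).toMonoidHom) : H ⊔ (Cfsg.pPrimeCore p ↥T).map T.subtype = T ∧ H ⊓ (Cfsg.pPrimeCore p ↥T).map T.subtype = ⊥ := by
  open Subgroup H69 H59 in
  have hN : T ⊓ 𝐍(H) = H := hT ▸ hcl g
  have hHT : H ≤ T := hT ▸ le_sup_left
  have hS : IsSylowIn p H T := isSylowIn_of_normalizer hHT (by rw [hN]; exact isSylowIn_self hHp)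
  have hnpc : HasNormalPComplement p T := hasNormalPComplement_of_central hS (by
    rw [hN]; exact Subgroup.le_centralizer H)
  have hc := coprime_card_res hnpc
  have hle : 𝐑(p, T) ≤ (pPrimeCore p T).map T.subtype := by
    rw [← subgroupOf_le_iff (res_le T)]
    haveI : ((𝐑(p, T)).subgroupOf T).Normal :=
      (Subgroup.normal_subgroupOf_iff_le_normalizer (res_le T)).2 (le_normalizer_res T)
    exact H1.le_pPrimeCore (by rwa [card_subgroupOf (res_le T)])
  refine ⟨le_antisymm (sup_le hHT (Subgroup.map_subtype_le _))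
    (hS.sup_res.ge.trans (sup_le_sup_left hle _)), ?_⟩
  refine eq_bot_of_not_dvd (L := (pPrimeCore p T).map T.subtype) hHp.to_inf_left inf_le_right ?_
  rw [card_map_subtype]
  exact (Nat.Prime.coprime_iff_not_dvd Fact.out).1 H1.coprime_card_pPrimeCore.symm

end Cfsg.Agent.S3020
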