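import Cfsg.Statements.S3022
import Cfsg.Agent.Lib.Push.OddAut

set_option autoImplicit false
open Cfsg

namespace Cfsg.Agent.S3022

/-- Let G be a finite group all of whose non-abelian simple sections are known simple groups, such that a Sylow 2-subgroup of G lies in exactly one maximal subgroup of G and C_G(O₂(G)) ≤ O₂(G). Let S be a Sylow 2-subgroup of G and A a group of automorphisms of S of odd order. Then some nontrivial A-invariant subgroup of S is normal in G. -/
theorem result {G : Type*} [Group G] [Finite G] (hK : Cfsg.IsKGroup G) (hirr : ∀ S : Sylow 2 G, ∃! M : Subgroup G, IsCoatom M ∧ (S : Subgroup G) ≤ M) (hchar : Subgroup.centralizer (Cfsg.pCore 2 G : Set G) ≤ Cfsg.pCore 2 G) (S : Sylow 2 G) (A : Subgroup (MulAut ↥(S : Subgroup G))) (hA : Odd (Nat.card A)) : ∃ U : Subgroup G, U ≠ ⊥ ∧ U.Normal ∧ U ≤ (S : Subgroup G) ∧ ∀ a ∈ A, ∀ x : ↥(S : Subgroup G), (x : G) ∈ U → ((a x : ↥(S : Subgroup G)) : G) ∈ U := by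
  by_cases hn : (S : Subgroup G).Normal
  · refine ⟨S, fun e => ?_, hn, le_rfl, fun a _ x _ => (a x).2⟩
    obtain ⟨M, ⟨hM, -⟩, -⟩ := hirr S
    have h1 : pCore 2 G = ⊥ := eq_bot_iff.2
      ((H70.pCoreOf_top 2 G ▸ (H69.isSylowIn_top S).pCoreOf_le).trans e.le)
    refine hM.1 (eq_top_iff.2 fun g _ => ?_)
    have h2 : g ∈ pCore 2 G := hchar fun x hx => by
      rw [h1] at hx
      rw [Subgroup.mem_bot.1 hx, one_mul, mul_one]
    rw [h1] at h2
    rw [Subgroup.mem_bot.1 h2]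
    exact M.one_mem
  · obtain ⟨M, ⟨h2, h3⟩, h4⟩ := hirr S
    refine H1.OA.main (M := M) ⟨H69.isSylowIn_top S, h3, h2.1, fun K hK e => ?_, fun e => hn ?_⟩
      hchar A hA
    · obtain ⟨N, hN, h5⟩ := (eq_top_or_exists_le_coatom K).resolve_left e
      exact h4 N ⟨hN, hK.trans h5⟩ ▸ h5
    · exact Subgroup.normalizer_eq_top_iff.1 (top_le_iff.1 e)

end Cfsg.Agent.S3022
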