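import Cfsg.Statements.S3023
import Mathlib
import Cfsg.Agent.Base
import Cfsg.Agent.Lib.LocStruct.ParChar
import Cfsg.Agent.Lib.LocStruct.SnSylow

set_option autoImplicit false
open Cfsg

namespace Cfsg.Agent.S3023

open Subgroup H69

/-- Let p be a prime, G a finite group of parabolic characteristic p (every p-local subgroup containing a Sylow p-subgroup of G has characteristic p), S a Sylow p-subgroup of G and G₁ a subnormal subgroup of G. If the centre of S ∩ G₁ is nontrivial and contained in the centre of S, then G₁ has parabolic characteristic p. -/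
theorem result {G : Type*} [Group G] [Finite G] {p : ℕ} [Fact p.Prime] (hG : Cfsg.IsOfParabolicCharacteristic p G) (S : Sylow p G) (G₁ : Subgroup G) (hsn : G₁.IsSubnormal) (hne : ((S : Subgroup G) ⊓ G₁) ⊓ Subgroup.centralizer (((S : Subgroup G) ⊓ G₁ : Subgroup G) : Set G) ≠ ⊥) (hle : ((S : Subgroup G) ⊓ G₁) ⊓ Subgroup.centralizer (((S : Subgroup G) ⊓ G₁ : Subgroup G) : Set G) ≤ (S : Subgroup G) ⊓ Subgroup.centralizer ((S : Subgroup G) : Set G)) : Cfsg.IsOfParabolicCharacteristic p ↥G₁ := by
  have hS := isSylowIn_top S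
  have h1 : IsSylowIn p ((S : Subgroup G) ⊓ G₁) G₁ := (sn_top_iff.2 hsn).isSylowIn_inf hS
  rw [isOfParabolicCharacteristic_iff h1.subgroupOf_top]
  rw [isOfParabolicCharacteristic_iff hS] at hG
  intro z hz hz1
  have h2 : (z : G) ∈ H68.oz p ((S : Subgroup G) ⊓ G₁) := by
    have := H68.map_oz (p := p) G₁.subtype_injective (((S : Subgroup G) ⊓ G₁).subgroupOf G₁)
    rw [subgroupOf_map_subtype, inf_eq_left.2 h1.le] at this
    exact this.le (mem_map_of_mem _ hz)
  have h3 := hG z (H24.omegaOne_mono hle h2) fun h => hz1 (Subtype.ext h)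
  rw [← H70.charP_map_iff G₁.subtype_injective, ← H69.centralizer_zpowers, map_subtype_centralizer,
    MonoidHom.map_zpowers, H69.centralizer_zpowers]
  refine h3.of_isSubnormal inf_le_right ?_
  rw [coe_subtype, inf_subgroupOf_right]
  exact hsn.subgroupOf

end Cfsg.Agent.S3023
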