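import Cfsg.Statements.S3025
import Mathlib
import Cfsg.Agent.Base
import Cfsg.Agent.S0016
import Cfsg.Agent.Lib.BG.Api.Rank

set_option autoImplicit false
open Cfsg

namespace Cfsg.Agent.S3025

open Subgroup H45 H69

/-- Let F be a finite group and H a nontrivial subgroup of F that is contained in every nontrivial subgroup of F which H normalizes. Then F has a nontrivial normal subgroup N contained in every nontrivial normal subgroup of F (a unique minimal normal subgroup), N is simple, and one of the following holds: C_F(N) = 1; or H = N has prime order p, C_F(N) is cyclic of order a power of p, and F/C_F(N) is cyclic of order dividing p − 1; or H = N has order 2, N is central in F, and F is a generalized quaternion group. -/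
theorem result {F : Type*} [Group F] [Finite F] (H : Subgroup F) (hH : H ≠ ⊥)
    (hmin : ∀ R : Subgroup F, R ≠ ⊥ → H ≤ Subgroup.normalizer (R : Set F) → H ≤ R) :
    ∃ N : Subgroup F, N.Normal ∧ N ≠ ⊥ ∧ (∀ M : Subgroup F, M.Normal → M ≠ ⊥ → N ≤ M) ∧ IsSimpleGroup ↥N ∧
      (Subgroup.centralizer (N : Set F) = ⊥ ∨
       (H = N ∧ (Nat.card N).Prime ∧ IsCyclic ↥(Subgroup.centralizer (N : Set F)) ∧
          (∃ k : ℕ, 1 ≤ k ∧ Nat.card ↥(Subgroup.centralizer (N : Set F)) = Nat.card N ^ k) ∧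
          (∃ g : F, Subgroup.centralizer (N : Set F) ⊔ Subgroup.zpowers g = ⊤) ∧
          (Subgroup.centralizer (N : Set F)).index ∣ Nat.card N - 1) ∨
       (H = N ∧ Nat.card N = 2 ∧ Subgroup.centralizer (N : Set F) = ⊤ ∧
          ∃ k : ℕ, 1 ≤ k ∧ Nonempty (F ≃* QuaternionGroup (2 ^ k)))) := by
  set N := normalClosure (H : Set F) with hN
  have hHN : H ≤ N := le_normalClosure
  have hN0 : N ≠ ⊥ := fun h => hH (eq_bot_iff.2 (h ▸ hHN))
  have hnm : ∀ M : Subgroup F, M.Normal → M ≠ ⊥ → N ≤ M := fun M hM h0 =>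
    normalClosure_le_normal (hmin M h0 (le_top.trans (normal_iff_top_le_normalizer.1 hM)))
  have hNn : ∀ g : F, g ∈ 𝐍(N) := fun g => normal_iff_top_le_normalizer.1 inferInstance (mem_top g)
  haveI : Nontrivial N := (nontrivial_iff_ne_bot N).2 hN0
  have hs : IsSimpleGroup N := ⟨fun K hK => by
    refine or_iff_not_imp_left.2 fun h0 => map_subtype_eq_self_iff.1 (le_antisymm (map_subtype_le K) ?_)
    have h1 := normal_iff_le_normalizer_map.1 hK
    have h2 : K.map N.subtype ≠ ⊥ := fun h => h0 (map_subtype_eq_bot_iff.1 h)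
    conv_lhs => rw [hN, ← ncl_top]
    refine ncl_le_iff.2 fun g _ => cj_le_iff.2 (hmin _ (fun h => h2 (cj_eq_bot_iff.1 h)) (hHN.trans ?_))
    rw [← cj_normalizer]
    exact (cj_eq_of_mem_normalizer (hNn g⁻¹)).ge.trans (cj_mono _ h1)⟩
  refine ⟨N, inferInstance, hN0, hnm, hs, ?_⟩
  by_cases hC : 𝐂(N) = ⊥
  · exact Or.inl hC
  right
  have hNC : N ≤ 𝐂(N) := hnm _ inferInstance hC
  have hcm : IsMulCommutative N := abelian_iff_le_centralizer.2 hNC
  have hp : (Nat.card N).Prime := by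
    letI : CommGroup N := { (inferInstance : Group N) with mul_comm := hcm.is_comm.comm }
    exact IsSimpleGroup.prime_card
  haveI := Fact.mk hp
  have hE : PnElem (Nat.card N) 1 N N := p1ElemE.2 ⟨le_rfl, rfl⟩
  have hHe : H = N := hE.eq_of_le1 hHN hH
  have hsub : ∀ R : Subgroup 𝐂(N), (Nat.card R).Prime → R.map (𝐂(N)).subtype = N := fun R hR => by
    rw [← card_map_subtype] at hR
    have hR' : Elem1 ⊤ (R.map (𝐂(N)).subtype) := ⟨le_top, hR⟩
    haveI := Fact.mk hR
    exact (hR'.pnElem.eq_of_le1 (hHe.ge.trans (hmin _ hR'.ne_bot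
      (hHN.trans (cents_norm (centsC.1 (map_subtype_le R)))))) hN0).symm
  have hpg : IsPGroup (Nat.card N) 𝐂(N) := by
    rw [IsPGroup.iff_card]
    refine ⟨_, Nat.eq_prime_pow_of_unique_prime_dvd Nat.card_pos.ne' fun {q} hq hd => ?_⟩
    haveI := Fact.mk hq
    obtain ⟨x, hx⟩ := exists_prime_orderOf_dvd_card' q hd
    have h1 : Nat.card (zpowers x) = q := by rw [Nat.card_zpowers, hx]
    rw [← hsub (zpowers x) (h1 ▸ hq), card_map_subtype, h1]
  have hk : (MulAut.conjNormal : F →* MulAut N).ker = 𝐂(N) := by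
    ext g
    rw [MonoidHom.mem_ker, mem_centralizer_iff_commute, MulEquiv.ext_iff]
    simp only [Subtype.ext_iff, MulAut.conjNormal_apply, MulAut.one_apply, mul_inv_eq_iff_eq_mul,
      Subtype.forall]
    exact forall₂_congr fun _ _ => eq_comm
  haveI : IsCyclic N := isCyclic_of_prime_card rfl
  have hidx : (𝐂(N)).index ∣ Nat.card N - 1 := by
    rw [← hk, index_ker, ← Nat.totient_prime hp, ← IsCyclic.card_mulAut]
    exact card_subgroup_dvd_card _
  have hcase : IsCyclic 𝐂(N) → H = N ∧ (Nat.card N).Prime ∧ IsCyclic 𝐂(N) ∧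
      (∃ k : ℕ, 1 ≤ k ∧ Nat.card 𝐂(N) = Nat.card N ^ k) ∧ (∃ g : F, 𝐂(N) ⊔ zpowers g = ⊤) ∧
      (𝐂(N)).index ∣ Nat.card N - 1 := fun hc => by
    refine ⟨hHe, hp, hc, ?_, ?_, hidx⟩
    · obtain ⟨k, hk⟩ := IsPGroup.iff_card.1 hpg
      refine ⟨k, Nat.pos_of_ne_zero fun h => hC ?_, hk⟩
      rw [h, pow_zero] at hk
      exact card_eq_one.1 hk
    · haveI := ZMod.isCyclic_units_prime hp
      haveI : IsCyclic (MulAut N) := isCyclic_of_surjective (IsCyclic.mulAutMulEquiv N).symm.toMonoidHom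
        (MulEquiv.surjective _)
      obtain ⟨⟨_, g, rfl⟩, hg⟩ := IsCyclic.exists_generator (α := (MulAut.conjNormal : F →* MulAut N).range)
      refine ⟨g, eq_top_iff.2 fun x _ => ?_⟩
      obtain ⟨k, hk'⟩ := hg ⟨_, x, rfl⟩
      have h1 : x * (g ^ k)⁻¹ ∈ 𝐂(N) := by
        rw [← hk, MonoidHom.mem_ker, map_mul, map_inv, map_zpow, mul_inv_eq_one]
        exact (congrArg Subtype.val hk').symm
      simpa using mul_mem (mem_sup_left h1) (mem_sup_right (zpow_mem_zpowers g k) : _ ∈ 𝐂(N) ⊔ zpowers g)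
  rcases Cfsg.Agent.S0016.result _ hpg (fun X Y hX hY => H69.map_subtype_inj.1
    ((hsub X (hX ▸ hp)).trans (hsub Y (hY ▸ hp)).symm)) with h | ⟨h2, n, ⟨e⟩⟩
  · exact Or.inl (hcase h)
  rcases n with _ | n
  · haveI := QuaternionGroup.quaternionGroup_one_isCyclic
    exact Or.inl (hcase (isCyclic_of_surjective e.symm.toMonoidHom e.symm.surjective))
  have h3 : 𝐂(N) = ⊤ := by
    rw [h2] at hidx
    exact index_eq_one.1 (Nat.dvd_one.1 hidx)
  exact Or.inr ⟨hHe, h2, h3, n + 1, by omega,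
    ⟨(topEquiv.symm.trans (MulEquiv.subgroupCongr h3.symm)).trans e⟩⟩

end Cfsg.Agent.S3025
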