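import Cfsg.Statements.S3027
import Mathlib
import Cfsg.Agent.Lib.Core.CoprimeBasic
import Cfsg.Agent.Lib.Core.GrpBasic

set_option autoImplicit false
open Cfsg Pointwise

namespace Cfsg.Agent.S3027

theorem sup_eq_top_iff_map {G : Type*} [Group G] (D : Subgroup G) [D.Normal] (X : Subgroup G) :
    X ⊔ D = ⊤ ↔ X.map (QuotientGroup.mk' D) = ⊤ := by
  constructor
  · intro h
    have := congrArg (Subgroup.map (QuotientGroup.mk' D)) h
    rwa [Subgroup.map_sup, (Subgroup.map_eq_bot_iff D).2 (QuotientGroup.ker_mk' D).ge, sup_bot_eq,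
      Subgroup.map_top_of_surjective _ (QuotientGroup.mk'_surjective D)] at this
  · intro h
    have := congrArg (Subgroup.comap (QuotientGroup.mk' D)) h
    rwa [Subgroup.comap_map_eq, QuotientGroup.ker_mk', Subgroup.comap_top] at this

theorem comm_sup {G : Type*} [Group G] (D : Subgroup G) [D.Normal]
    (hperf : ⁅(⊤ : Subgroup G), (⊤ : Subgroup G)⁆ ⊔ D = ⊤) {X Y : Subgroup G}
    (hX : X ⊔ D = ⊤) (hY : Y ⊔ D = ⊤) : ⁅X, Y⁆ ⊔ D = ⊤ := by
  rw [sup_eq_top_iff_map] at *
  rw [Subgroup.map_commutator, Subgroup.map_top_of_surjective _ (QuotientGroup.mk'_surjective D)]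
    at hperf
  rw [Subgroup.map_commutator, hX, hY, hperf]

theorem exists_least {G : Type*} [Group G] [Finite G] (D : Subgroup G) [D.Normal]
    (hperf : ⁅(⊤ : Subgroup G), (⊤ : Subgroup G)⁆ ⊔ D = ⊤) (B : Subgroup G) (hB : B ⊔ D = ⊤) :
    ∃ X : Subgroup G, (X ≤ B ∧ B ≤ Subgroup.normalizer (X : Set G) ∧ X ⊔ D = ⊤) ∧
      ∀ Y : Subgroup G, Y ≤ B → B ≤ Subgroup.normalizer (Y : Set G) → Y ⊔ D = ⊤ → X ≤ Y := by
  obtain ⟨X, hX, hmin⟩ := (Set.toFinite
    {X : Subgroup G | X ≤ B ∧ B ≤ Subgroup.normalizer (X : Set G) ∧ X ⊔ D = ⊤}).exists_minimal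
    ⟨B, le_rfl, Subgroup.le_normalizer, hB⟩
  refine ⟨X, hX, fun Y h1 h2 h3 => ?_⟩
  have : X ≤ X ⊓ Y := by
    refine hmin ⟨inf_le_left.trans hX.1, H2.le_normalizer_inf hX.2.1 h2, ?_⟩ inf_le_left
    rw [eq_top_iff, ← comm_sup D hperf hX.2.2 h3]
    refine sup_le_sup_right (le_inf ?_ ?_) _
    · exact H2.commutator_le_of_le_normalizer (h1.trans hX.2.1)
    · rw [Subgroup.commutator_comm]
      exact H2.commutator_le_of_le_normalizer (hX.1.trans h2)
  exact this.trans inf_le_right

/-- Let G be a finite group and D a normal subgroup of G such that G/D is perfect (that is, G = G′D). Then among the subnormal subgroups B of G with BD = G there is a least one, and it is normal in G. -/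
theorem result {G : Type*} [Group G] [Finite G] (D : Subgroup G) [D.Normal] (hperf : ⁅(⊤ : Subgroup G), (⊤ : Subgroup G)⁆ ⊔ D = ⊤) :
    ∃ B : Subgroup G, B.Normal ∧ B ⊔ D = ⊤ ∧ ∀ B' : Subgroup G, B'.IsSubnormal → B' ⊔ D = ⊤ → B ≤ B' := by
  obtain ⟨B, ⟨-, hBn, hBD⟩, hB⟩ := exists_least D hperf ⊤ (top_sup_eq _)
  have hBN : B.Normal := Subgroup.normalizer_eq_top_iff.1 (top_le_iff.1 hBn)
  refine ⟨B, hBN, hBD, fun B' hB' => ?_⟩
  induction hB' with
  | top => exact fun _ => le_top
  | step H K hle hK hn ih =>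
    intro hH
    have hBK : B ≤ K := ih (top_le_iff.1 (hH ▸ sup_le_sup_right hle D))
    have hKH : K ≤ Subgroup.normalizer (H : Set G) :=
      (Subgroup.normal_subgroupOf_iff_le_normalizer hle).1 hn
    obtain ⟨X, ⟨h1, h2, h3⟩, hX⟩ := exists_least D hperf B hBD
    have hXn : X.Normal := by
      apply H1.normal_of_forall_conj_smul_le
      intro g
      have : X ≤ MulAut.conj g⁻¹ • X := by
        apply hX
        · intro x hx
          have := hBN.conj_mem _ (h1 (H1.mem_conj_smul_iff.1 hx)) g⁻¹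
          simpa [mul_assoc] using this
        · rw [H1.normalizer_conj_smul]
          intro b hb
          exact H1.mem_conj_smul_iff.2 (h2 (by simpa using hBN.conj_mem b hb g))
        · rw [sup_eq_top_iff_map, H1.map_conj_smul, (sup_eq_top_iff_map D X).1 h3, eq_top_iff]
          intro x _
          exact H1.mem_conj_smul_iff.2 trivial
      intro x hx
      have := this (H1.mem_conj_smul_iff.1 hx)
      simpa [mul_assoc] using H1.mem_conj_smul_iff.1 this
    have hBX : B ≤ X := hB X le_top (by rw [Subgroup.normalizer_eq_top]) h3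
    have hXH : X ≤ B ⊓ H := by
      apply hX _ inf_le_left (H2.le_normalizer_inf Subgroup.le_normalizer (hBK.trans hKH))
      rw [eq_top_iff, ← comm_sup D hperf hBD hH]
      refine sup_le_sup_right (le_inf ?_ ?_) _
      · exact Subgroup.commutator_le_left _ _
      · rw [Subgroup.commutator_comm]
        exact H2.commutator_le_of_le_normalizer (hBK.trans hKH)
    exact hBX.trans (hXH.trans inf_le_right)

end Cfsg.Agent.S3027
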