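import Mathlib
import Cfsg.Statements.S3049
import Cfsg.Agent.Lib.LocStruct.SylowIn
import Cfsg.Agent.Lib.PGroup.Extra
import Cfsg.Agent.Lib.Comp.FStar
import Cfsg.Agent.S0071
import Cfsg.Agent.S0120
-- import your own Cfsg.Agent.* helpers here

set_option autoImplicit false
open Cfsg

namespace Cfsg.Agent.S3049

open H69 H5 H1 H23 Subgroup
open scoped commutatorElement

theorem not_unfused {K : Type*} [Group K] [Finite K] {p : ℕ} [Fact p.Prime] (hp : p ≠ 2)
    (hK : IsQuasisimple K) (hd : p ∣ Nat.card K) (Q : Sylow p K)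
    (h : ∀ y ∈ (Q : Subgroup K), y ^ p = 1 → ∀ k : K, k * y * k⁻¹ ∈ (Q : Subgroup K) →
      k * y * k⁻¹ = y) : False := by
  obtain ⟨N, hN, hc⟩ := (Cfsg.Agent.S0071.result Q).2 (by
    intro R hR g hg hco
    have h1 := Cfsg.Agent.S0120.result hp (Q.isPGroup'.to_le hR)
      (R.normalizerMonoidHom ⟨g, hg⟩) (by
        refine Nat.Coprime.coprime_dvd_left ?_ hco
        exact (orderOf_map_dvd _ _).trans (by rw [orderOf_mk]))
      (fun y hy => Subtype.ext (h y (hR y.2) (congrArg Subtype.val hy) g
        (hR (conj_mem_of_mem_normalizer hg y.2))))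
    intro y hy
    have h2 : g * y * g⁻¹ = y := congrArg (fun φ : MulAut R => (φ ⟨y, hy⟩ : K)) h1
    exact (mul_inv_eq_iff_eq_mul.1 h2).symm)
  rcases H23.IsQuasisimple.normal_eq_top_or_le_center hK N with rfl | h1
  · have h2 := hc.card_mul_card
    rw [card_top] at h2
    have h3 : Nat.card (Q : Subgroup K) = 1 :=
      Nat.eq_of_mul_eq_mul_left Nat.card_pos (h2.trans (mul_one _).symm)
    exact Q.ne_bot_of_dvd_card hd (card_eq_one.1 h3)
  · refine H23.IsQuasisimple.not_isSolvable hK ?_
    have h2 : Group.IsSolvable (N ⊔ Q : Subgroup K) := by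
      rw [sup_comm]
      exact isSolvable_sup_of_normal (isSolvable_of_isPGroup Q.isPGroup')
        (isSolvable_of_le isSolvable_fitting (h1.trans center_le_fitting))
    rw [hc.sup_eq_top] at h2
    exact isSolvable_of_mulEquiv topEquiv h2

/-- Let G be a finite group and p an odd prime with O_{p'}(G) = 1. Suppose that G has p-rank at most 2 (no elementary abelian subgroup of order p³) and that some element x of order p is isolated in G (no G-conjugate of x other than x commutes with x) and not central. Then the generalized Fitting subgroup F*(G) is a non-abelian simple group. Since O_{p'}(G) = 1, such an x is not central modulo O_{p'}(G): the hypotheses describe a counterexample to the Z*_p statement in p-rank at most 2. -/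
theorem result {G : Type*} [Group G] [Finite G] {p : ℕ} [Fact p.Prime] (hp : p ≠ 2) (hcore : Cfsg.pPrimeCore p G = ⊥)
    (hrank : Cfsg.PRankLE p 2 G) (x : G) (hx : orderOf x = p) (hiso : Cfsg.IsIsolated x) (hnc : x ∉ Subgroup.center G) :
    IsSimpleGroup ↥(Cfsg.generalizedFittingSubgroup G) ∧ ¬ IsMulCommutative ↥(Cfsg.generalizedFittingSubgroup G) := by
  have hpp : p.Prime := Fact.out
  have hxp : IsPGroup p (zpowers x) := IsPGroup.of_card (n := 1) (by simp [hx])
  obtain ⟨P, hP, hxP⟩ := exists_isSylowIn_le hxp le_top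
  replace hxP : x ∈ P := hxP (mem_zpowers x)
  have hxZ : P ≤ centralizer {x} := by
    by_contra hc
    have h1 : P ⊓ centralizer {x} < P := lt_of_le_of_ne inf_le_left fun h => hc (h ▸ inf_le_right)
    obtain ⟨g, hg, hg'⟩ := SetLike.exists_of_lt (lt_inf_normalizer_of_lt hP.isP h1)
    have h2 := conj_mem_of_mem_normalizer hg.2
      (show x ∈ P ⊓ centralizer {x} from ⟨hxP, mem_centralizer_singleton_iff.2 rfl⟩)
    have h3 := hiso g (mem_centralizer_singleton_iff.1 h2.2).symm
    exact hg' ⟨hg.1, mem_centralizer_singleton_iff.2 (mul_inv_eq_iff_eq_mul.1 h3)⟩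
  have hF := fitting_eq_pCore_of_pPrimeCore_eq_bot hcore
  have hOP : pCore p G ≤ P := hP.le_of_le_normalizer isPGroup_pCore le_top le_normalizer_of_normal
  have hsyl : ∀ K, IsComponent K → IsSylowIn p (P ⊓ K) K ∧ p ∣ Nat.card K := by
    intro K hK
    have h1 := (hP.inf_normal (N := layer G) le_top le_normalizer_of_normal).inf_normal
      (IsComponent.le_layer hK) (IsComponent.layer_le_normalizer hK)
    rw [inf_assoc, inf_eq_right.2 (IsComponent.le_layer hK)] at h1
    refine ⟨h1, ?_⟩
    by_contra hd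
    have := le_pPrimeCore_of_isSubnormal hK.1 ((Nat.Prime.coprime_iff_not_dvd hpp).2 hd).symm
    rw [hcore, le_bot_iff] at this
    exact IsComponent.ne_bot hK this
  obtain ⟨K, hK, hxK⟩ : ∃ K, IsComponent K ∧ x ∉ 𝐂(K) := by
    by_contra hc
    push Not at hc
    have h1 : x ∈ 𝐂(generalizedFittingSubgroup G) := by
      rw [fStar_def, H69.centralizer_sup, hF]
      refine ⟨?_, fun y hy => mem_centralizer_singleton_iff.1 (hxZ (hOP hy))⟩
      have : layer G ≤ 𝐂(zpowers x) :=
        layer_le_iff.2 fun L hL => le_centralizer_iff.1 (zpowers_le.2 (hc L hL))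
      exact le_centralizer_iff.1 this (mem_zpowers x)
    have h2 : x ∈ pCore p G := hF ▸ centralizer_fStar_le_fitting h1
    refine hnc (mem_center_iff.2 fun g => mul_inv_eq_iff_eq_mul.1 (hiso g ?_))
    exact (mem_centralizer_singleton_iff.1
      (hxZ (hOP (Normal.conj_mem inferInstance x h2 g)))).symm
  have hD : P ⊓ 𝐂(K) = ⊥ := by
    by_contra hne
    obtain ⟨z, hz, hzp⟩ := exists_orderOf_eq_prime (hP.isP.to_le inf_le_left) hne
    obtain ⟨Q, hQ⟩ := (hsyl K hK).1.exists_sylow_subgroupOf
    have hxz : Commute z x := mem_centralizer_singleton_iff.1 (hxZ hz.1)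
    have hz1 : z ≠ 1 := by rintro rfl; rw [orderOf_one] at hzp; exact hpp.one_lt.ne hzp
    have hdisj : zpowers x ⊓ zpowers z = ⊥ := by
      rw [eq_bot_iff]
      intro c hc
      by_contra hc1
      obtain ⟨i, hi⟩ := exists_zpow_eq_of_prime hpp hx hc.1 hc1 (mem_zpowers x)
      exact hxK (hi ▸ zpow_mem (zpowers_le.2 hz.2 hc.2) i)
    have hn : zpowers x ≤ 𝐍(zpowers z) := le_normalizer_of_le_centralizer (by
      rw [centralizer_zpowers, zpowers_le]; exact mem_centralizer_singleton_iff.2 hxz.symm)
    have hcard : Nat.card ↥(zpowers x ⊔ zpowers z) = p ^ 2 := by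
      have h1 := H1.card_sup_mul_card_inf_of_le_normalizer hn
      rwa [hdisj, card_bot, mul_one, Nat.card_zpowers, Nat.card_zpowers, hx, hzp, ← pow_two] at h1
    refine not_unfused hp hK.2 (hsyl K hK).2 Q ?_
    intro y hy hyp k hk
    rw [hQ, mem_subgroupOf] at hy hk
    have hyp' : (y : G) ^ p = 1 := congrArg Subtype.val hyp
    have hyx : Commute (y : G) x := mem_centralizer_singleton_iff.1 (hxZ hy.1)
    have hyz : Commute (y : G) z := hz.2 y hy.2
    have hcomm : ∀ a ∈ ({x, z, (y : G)} : Set G), ∀ b ∈ ({x, z, (y : G)} : Set G),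
        a * b = b * a := by
      rintro a (rfl | rfl | rfl) b (rfl | rfl | rfl)
      exacts [rfl, hxz.symm, hyx.symm, hxz, rfl, hyz.symm, hyx, hyz, rfl]
    have hab := isMulCommutative_closure hcomm
    have h1 := hrank (closure {x, z, (y : G)}) hab (by
      intro a ha
      induction ha using closure_induction with
      | mem a ha =>
        rcases ha with rfl | rfl | rfl
        exacts [hx ▸ pow_orderOf_eq_one _, hzp ▸ pow_orderOf_eq_one _, hyp']
      | one => simp
      | mul a b ha hb iha ihb =>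
        have : Commute a b := congrArg Subtype.val (mul_comm' (⟨a, ha⟩ : Subgroup.closure _) ⟨b, hb⟩)
        rw [this.mul_pow, iha, ihb, one_mul]
      | inv a ha iha => rw [inv_pow, iha, inv_one])
    have h2 : zpowers x ⊔ zpowers z = closure {x, z, (y : G)} := by
      refine eq_of_le_of_card_ge (sup_le ?_ ?_) (hcard ▸ h1) <;>
        exact zpowers_le.2 (subset_closure (by simp))
    have h3 : (y : G) ∈ zpowers x ⊔ zpowers z := h2 ▸ subset_closure (by simp)
    obtain ⟨a, ha, b, hb, hab⟩ := (mem_sup_of_le_normalizer_right hn).1 h3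
    have hkb : (k : G) * b * (k : G)⁻¹ = b :=
      mul_inv_eq_iff_eq_mul.2 ((zpowers_le.2 hz.2 hb) k k.2)
    have h4 : (k : G) * y * (k : G)⁻¹ = (k * a * (k : G)⁻¹) * b := by
      rw [hab]; conv_rhs => rw [← hkb]
      group
    apply Subtype.ext
    simp only [coe_mul, coe_inv] at hk ⊢
    rw [h4] at hk ⊢
    rw [hab]
    congr 1
    by_cases ha1 : a = 1
    · simp [ha1]
    have h5 : (k : G) * a * (k : G)⁻¹ ∈ P := by
      simpa using P.mul_mem hk.1 (P.inv_mem (zpowers_le.2 hz.1 hb))
    obtain ⟨i, hi⟩ := exists_zpow_eq_of_prime hpp hx ha ha1 (mem_zpowers x)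
    have h6 : Commute ((k : G) * a * (k : G)⁻¹) x := mem_centralizer_singleton_iff.1 (hxZ h5)
    have h7 := hiso k (by
      have := (h6.zpow_left i).symm
      rwa [conj_zpow, hi] at this)
    obtain ⟨j, rfl⟩ := ha
    show (k : G) * x ^ j * (k : G)⁻¹ = x ^ j
    rw [← conj_zpow, h7]
  have hO : pCore p G = ⊥ := by
    rw [eq_bot_iff, ← hD]
    exact le_inf hOP (le_centralizer_iff.1
      ((IsComponent.le_layer hK).trans (layer_le_centralizer_pCore p)))
  have hE : layer G = K := by
    refine le_antisymm (layer_le_iff.2 fun L hL => ?_) (IsComponent.le_layer hK)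
    by_contra hc
    have h1 := IsComponent.commutator_eq_bot_of_ne hL hK (by rintro rfl; exact hc le_rfl)
    refine (hsyl L hL).1.dvd_card_iff.1 (hsyl L hL).2 ?_
    rw [eq_bot_iff, ← hD]
    exact inf_le_inf_left _ (le_centralizer_of_commutator_eq_bot h1)
  have hZ : center K = ⊥ := by
    rw [← map_subtype_eq_bot_iff, H69.map_subtype_center, eq_bot_iff, ← hO, ← hF]
    exact inf_centralizer_le_fitting hK.1
  rw [fStar_def, hF, hO, sup_bot_eq, hE]
  exact ⟨H23.IsQuasisimple.isSimpleGroup_of_center_eq_bot hK.2 hZ,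
    H23.IsQuasisimple.not_isMulCommutative hK.2⟩

end Cfsg.Agent.S3049
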