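import Cfsg.Statements.S3038
import Cfsg.Agent.Base
import Mathlib
import Cfsg.Agent.S3049
import Cfsg.Agent.Lib.ZPs.Rk2B

set_option autoImplicit false
open Cfsg

namespace Cfsg.Agent.S3038

/-- Let G be a finite group and p an odd prime with O_{p'}(G) = 1. Suppose that G has p-rank at most 2 and that some element x of order p is isolated in G and not central. Then F*(G) is a non-abelian simple group, and for every Sylow p-subgroup P of F*(G), either no conjugate of x lies in P and P is cyclic, or some conjugate of x lies in P and either P is extraspecial of order p³ and exponent p, or p = 3 and P has order 3^{2k+1} for some k ≥ 2 and is of maximal class (nilpotency class 2k). Since O_{p'}(G) = 1, such an x is not central modulo O_{p'}(G): the hypotheses describe a counterexample to the Z*_p statement in p-rank at most 2, and the conclusion records the structure it would have. -/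
theorem result {G : Type*} [Group G] [Finite G] {p : ℕ} [Fact p.Prime] (hp : p ≠ 2) (hcore : Cfsg.pPrimeCore p G = ⊥)
    (hrank : Cfsg.PRankLE p 2 G) (x : G) (hx : orderOf x = p) (hiso : Cfsg.IsIsolated x) (hnc : x ∉ Subgroup.center G) :
    IsSimpleGroup ↥(Cfsg.generalizedFittingSubgroup G) ∧ ¬ IsMulCommutative ↥(Cfsg.generalizedFittingSubgroup G) ∧
    ∀ P : Sylow p ↥(Cfsg.generalizedFittingSubgroup G),
      ((∀ g : G, g * x * g⁻¹ ∉ ((P : Subgroup ↥(Cfsg.generalizedFittingSubgroup G)).map (Cfsg.generalizedFittingSubgroup G).subtype)) ∧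
          IsCyclic ↥(P : Subgroup ↥(Cfsg.generalizedFittingSubgroup G))) ∨
      ((∃ g : G, g * x * g⁻¹ ∈ ((P : Subgroup ↥(Cfsg.generalizedFittingSubgroup G)).map (Cfsg.generalizedFittingSubgroup G).subtype)) ∧
        ((Cfsg.IsExtraspecial p ↥(P : Subgroup ↥(Cfsg.generalizedFittingSubgroup G)) ∧
            Nat.card (P : Subgroup ↥(Cfsg.generalizedFittingSubgroup G)) = p ^ 3 ∧
            ∀ y ∈ (P : Subgroup ↥(Cfsg.generalizedFittingSubgroup G)), y ^ p = 1) ∨
         (p = 3 ∧ ∃ k : ℕ, 2 ≤ k ∧ Nat.card (P : Subgroup ↥(Cfsg.generalizedFittingSubgroup G)) = 3 ^ (2 * k + 1) ∧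
            ∃ _ : Group.IsNilpotent ↥(P : Subgroup ↥(Cfsg.generalizedFittingSubgroup G)),
              Group.nilpotencyClass ↥(P : Subgroup ↥(Cfsg.generalizedFittingSubgroup G)) = 2 * k))) := by
  obtain ⟨h1, h2⟩ := Cfsg.Agent.S3049.result hp hcore hrank x hx hiso hnc
  refine ⟨h1, h2, fun P => ?_⟩
  have hp' : p.Prime := Fact.out
  have hKn : (generalizedFittingSubgroup G).Normal := inferInstance
  generalize generalizedFittingSubgroup G = K at *
  have hP := P.isPGroup'.map K.subtype
  have hz := H70.isPGroup_zpowers_of_orderOf (x := x) ⟨1, hx.trans (pow_one p).symm⟩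
  obtain ⟨S, hS⟩ := hP.exists_le_sylow
  obtain ⟨T, hT⟩ := hz.exists_le_sylow
  obtain ⟨g, rfl⟩ := MulAction.exists_smul_eq G T S
  have hy : g * x * g⁻¹ ∈ ((g • T : Sylow p G) : Subgroup G) :=
    ⟨x, hT (Subgroup.mem_zpowers x), rfl⟩
  have hiy : IsIsolated (g * x * g⁻¹) := H70.Iso.map hiso hz (f := (MulAut.conj g).toMonoidHom)
    (MulAut.conj g).surjective
  have hoy : orderOf (g * x * g⁻¹) = p := ((MulAut.conj g).orderOf_eq x).trans hx
  have hf : Function.Injective (K.subtype.comp (P : Subgroup K).subtype) :=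
    K.subtype_injective.comp (Subgroup.subtype_injective _)
  have hrk := H25.R2.rank_of_injective hrank _ hf
  by_cases hK : g * x * g⁻¹ ∈ K
  · have h3 : (⟨_, hK⟩ : K) ∈ (P : Subgroup K) :=
      (P.3 ((g • T).isPGroup'.comap_subtype (K := K)) (Subgroup.map_le_iff_le_comap.1 hS)).le hy
    refine Or.inr ⟨⟨g, _, h3, rfl⟩, ?_⟩
    have h4 : commutator K = ⊤ := (h1.eq_bot_or_eq_top_of_normal _ inferInstance).resolve_left
      fun e => h2 ((commutator_eq_bot_iff _).1 e)
    refine (H25.R2.sylow_perfect hp h4 P hrk h3 ((Subgroup.orderOf_coe _).symm.trans hoy)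
      fun k hk => Subtype.ext (hiy k (congrArg Subtype.val hk))).imp_left fun h =>
        ⟨h.1, h.2.1, fun y hy => congrArg Subtype.val (h.2.2 ⟨y, hy⟩)⟩
  refine Or.inl ⟨fun k hk => hK ?_, by_contra fun hc => ?_⟩
  · simpa [mul_assoc] using hKn.conj_mem _ (Subgroup.map_subtype_le _ hk) (g * k⁻¹)
  obtain ⟨A, -, hA, hA2⟩ := H5.exists_normal_elementary_sq hp P.isPGroup' hc
  have := hA.1
  obtain ⟨a, -, ha⟩ := H93.mem_of_rank (fun A h => hrank A h.1 h.2)
    (W := A.map (K.subtype.comp (P : Subgroup K).subtype)) ⟨inferInstance, by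
      rintro _ ⟨a, ha, rfl⟩
      rw [← map_pow, hA.2 a ha, map_one]⟩ ((Subgroup.card_map_of_injective hf).trans hA2)
    (x := g * x * g⁻¹) (by
      rintro _ ⟨a, -, rfl⟩
      exact Subgroup.mem_centralizer_singleton_iff.1
        (H70.Iso.le_centralizer hiy (g • T).isPGroup' hy (hS ⟨a, a.2, rfl⟩)))
    (hoy ▸ pow_orderOf_eq_one _)
  exact hK (ha ▸ a.1.2)

end Cfsg.Agent.S3038
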