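import Mathlib
import Cfsg.Agent.Base
import Cfsg.Agent.Lib.TICount.CaseA
import Cfsg.Agent.Lib.TICount.CaseB
import Cfsg.Statements.S3043

set_option autoImplicit false
open Cfsg
open scoped Pointwise

namespace Cfsg.Agent.S3043

/-- Let M be a nontrivial subgroup of a finite group G meeting each of its other conjugates trivially, with N_G(M) = M · C_{N_G(M)}(z) for some involution z ∈ N_G(M), and with C_G(x) of odd order for every nontrivial x ∈ M. Then one of the following holds: M is normal in G; the number of involutions of G is at most |G : M|; G is isomorphic to PGL₂(F) or to PSL₂(F) for a finite field F with |F| = |M|, M is an elementary abelian p-group for the characteristic p of F, and |F| ≡ 1 (mod 4) in the PSL₂ case; G is isomorphic to PSL₂(F) with |F| = 2^e, e > 1, and M is cyclic of order 2^e + 1; or for some d ≥ 1, G has an elementary abelian normal subgroup of order 2^{2d} complemented by N_G(M), and N_G(M) is dihedral of order 2(2^d + 1). -/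
theorem result {G : Type*} [Group G] [Finite G] (M : Subgroup G) (hM1 : M ≠ ⊥)
    (hTI : ∀ g : G, M ⊓ M.map (MulAut.conj g).toMonoidHom ≠ ⊥ → M.map (MulAut.conj g).toMonoidHom = M)
    (z : G) (hz : orderOf z = 2) (hzN : z ∈ Subgroup.normalizer (M : Set G))
    (hfac : M ⊔ (Subgroup.normalizer (M : Set G) ⊓ Subgroup.centralizer ({z} : Set G)) = Subgroup.normalizer (M : Set G))
    (hodd : ∀ x ∈ M, x ≠ 1 → Odd (Nat.card ↥(Subgroup.centralizer ({x} : Set G)))) :
    M.Normal ∨
    Nat.card {g : G // orderOf g = 2} ≤ M.index ∨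
    (∃ (F : Type) (_ : Field F) (_ : Fintype F) (p : ℕ) (_ : Fact p.Prime) (_ : CharP F p), Fintype.card F = Nat.card M ∧ Cfsg.IsElementaryAbelian p M ∧
        (Nonempty (G ≃* (GL (Fin 2) F ⧸ Subgroup.center (GL (Fin 2) F))) ∨
         (Fintype.card F % 4 = 1 ∧ Nonempty (G ≃* Matrix.ProjectiveSpecialLinearGroup (Fin 2) F)))) ∨
    (∃ (F : Type) (_ : Field F) (_ : Fintype F) (e : ℕ), 1 < e ∧ Fintype.card F = 2 ^ e ∧ IsCyclic ↥M ∧ Nat.card M = 2 ^ e + 1 ∧
        Nonempty (G ≃* Matrix.ProjectiveSpecialLinearGroup (Fin 2) F)) ∨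
    (∃ (d : ℕ) (E : Subgroup G), 1 ≤ d ∧ E.Normal ∧ Cfsg.IsElementaryAbelian 2 E ∧ Nat.card E = 2 ^ (2 * d) ∧
        E ⊓ Subgroup.normalizer (M : Set G) = ⊥ ∧ E ⊔ Subgroup.normalizer (M : Set G) = ⊤ ∧
        Nonempty (↥(Subgroup.normalizer (M : Set G)) ≃* DihedralGroup (2 ^ d + 1))) := by
  classical
  by_cases hn : M.Normal
  · exact Or.inl hn
  by_cases hi : Nat.card {g : G // orderOf g = 2} ≤ M.index
  · exact Or.inr (Or.inl hi)
  set N := Subgroup.normalizer (M : Set G) with hN
  have hconj : ∀ n ∈ N, ∀ x ∈ M, n * x * n⁻¹ ∈ M := fun n hn x hx =>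
    (Subgroup.mem_normalizer_iff.1 hn x).1 hx
  have hzz : z * z = 1 := by rw [← pow_two, ← hz, pow_orderOf_eq_one]
  have h : H79.TC.Hyp M N z := by
    refine ⟨hM1, Subgroup.le_normalizer, hconj, fun g x hx hx1 hg => ?_, hzz,
      (by rintro rfl; simp at hz), hzN, fun n hn => ?_, fun x hx hx1 t ht htx => ?_⟩
    · have h1 := hTI g (fun e => hx1 (by
        have h2 : g * x * g⁻¹ ∈ M ⊓ M.map (MulAut.conj g).toMonoidHom := ⟨hg, x, hx, rfl⟩
        rw [e, Subgroup.mem_bot] at h2
        simpa using h2))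
      rw [hN, Subgroup.mem_normalizer_iff]
      intro y
      constructor
      · intro hy
        rw [← h1]
        exact ⟨y, hy, rfl⟩
      · intro hy
        rw [← h1] at hy
        obtain ⟨w, hw, e⟩ := hy
        have e' : g * w * g⁻¹ = g * y * g⁻¹ := e
        rwa [← mul_left_cancel (mul_right_cancel e')]
    · have h1 : (↑(M ⊔ (N ⊓ Subgroup.centralizer ({z} : Set G))) : Set G) =
          (M : Set G) * (↑(N ⊓ Subgroup.centralizer ({z} : Set G)) : Set G) :=
        Subgroup.coe_mul_of_right_le_normalizer_left _ _ inf_le_left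
      have h2 : n ∈ (↑(M ⊔ (N ⊓ Subgroup.centralizer ({z} : Set G))) : Set G) := by
        rw [hfac]
        exact hn
      rw [h1] at h2
      obtain ⟨x, hx, c, hc, e⟩ := h2
      exact ⟨x, hx, c, hc.1, Subgroup.mem_centralizer_singleton_iff.1 hc.2, e.symm⟩
    · by_contra ht1
      have h1 : orderOf t = 2 := orderOf_eq_prime (by rw [pow_two, ht]) ht1
      have h2 := Subgroup.orderOf_dvd_natCard (Subgroup.centralizer ({x} : Set G))
        (Subgroup.mem_centralizer_singleton_iff.2 htx)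
      rw [h1] at h2
      exact (Nat.not_even_iff_odd.2 (hodd x hx hx1)) (even_iff_two_dvd.2 h2)
  have h2 : H79.TC.Hyp2 M N z := ⟨h, h.ex_of_lt (not_le.1 hi), by
    by_contra hc
    push Not at hc
    exact hn ⟨fun x hx g => hconj g (hc g) x hx⟩⟩
  by_cases hC : ∀ c ∈ N, c * z = z * c → c = 1 ∨ c = z
  · exact Or.inr (Or.inr (Or.inr (H79.TC.HypB.caseB ⟨h2, hC⟩)))
  · push Not at hC
    obtain ⟨c, hc, hcz, h1, h3⟩ := hC
    exact Or.inr (Or.inr (Or.inl (h2.caseA hc hcz h1 h3)))

end Cfsg.Agent.S3043
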