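import Mathlib
import Cfsg.Statements.S3044
import Cfsg.Agent.Lib.Loc91.PIso2
-- import your own Cfsg.Agent.* helpers here

set_option autoImplicit false
open Cfsg

namespace Cfsg.Agent.S3044

/-- Let G be a finite group, p a prime, S a Sylow p-subgroup of G and P a p-minimal subgroup of G containing S (S is not normal in P and lies in exactly one maximal subgroup of P). Let L be the subgroup generated by N_G(S) and all p-minimal subgroups of G containing S other than P, and suppose P is isolated: O_p(L) is not contained in O_p(P). Put Y for the normal closure of O^p(P) in G. Then G = YL; P is again isolated in the subgroup YS (the subgroup L₀ generated by N_{YS}(S) and the p-minimal subgroups of YS containing S other than P has O_p(L₀) not contained in O_p(P)); and either Y = O^p(P), or p divides |Y/O_p(Y)|, Y/O_p(Y) is generated by its components (a central product of quasisimple groups), and S permutes these components transitively by conjugation. -/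
theorem result {G : Type*} [Group G] [Finite G] {p : ℕ} [Fact p.Prime] (S : Sylow p G) (P : Subgroup G) (hSP : (S : Subgroup G) ≤ P) (hPmin : Cfsg.IsPMinimal p ↥P)
    (L Y : Subgroup G)
    (hL : L = Subgroup.normalizer ((S : Subgroup G) : Set G) ⊔ ⨆ P' : {P' : Subgroup G // (S : Subgroup G) ≤ P' ∧ Cfsg.IsPMinimal p ↥P' ∧ P' ≠ P}, (P' : Subgroup G))
    (hiso : ¬ (Cfsg.pCore p ↥L).map L.subtype ≤ (Cfsg.pCore p ↥P).map P.subtype)
    (hY : Y = Subgroup.normalClosure (((Cfsg.pResidual p ↥P).map P.subtype : Subgroup G) : Set G)) :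
    Y ⊔ L = ⊤ ∧
    ¬ (Cfsg.pCore p ↥((Subgroup.normalizer ((S : Subgroup G) : Set G) ⊓ (Y ⊔ (S : Subgroup G))) ⊔
          ⨆ P' : {P' : Subgroup G // (S : Subgroup G) ≤ P' ∧ P' ≤ Y ⊔ (S : Subgroup G) ∧ Cfsg.IsPMinimal p ↥P' ∧ P' ≠ P}, (P' : Subgroup G))).map
        (Subgroup.subtype _) ≤ (Cfsg.pCore p ↥P).map P.subtype ∧
    ((Cfsg.pResidual p ↥P).map P.subtype = Y ∨
     ∃ _ : (Cfsg.pCore p ↥Y).Normal,
       p ∣ Nat.card (↥Y ⧸ Cfsg.pCore p ↥Y) ∧ Cfsg.layer (↥Y ⧸ Cfsg.pCore p ↥Y) = ⊤ ∧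
       ∀ K₁ K₂ : Subgroup (↥Y ⧸ Cfsg.pCore p ↥Y), Cfsg.IsComponent K₁ → Cfsg.IsComponent K₂ →
         ∃ s ∈ (S : Subgroup G), ((K₂.comap (QuotientGroup.mk' (Cfsg.pCore p ↥Y))).map Y.subtype) = (((K₁.comap (QuotientGroup.mk' (Cfsg.pCore p ↥Y))).map Y.subtype)).map (MulAut.conj s).toMonoidHom) := by
  open H91 H69 Subgroup in
  have h := pIso_of S P hSP L hL hiso
  have hRY : 𝐑(p, P) ≤ Y := hY ▸ le_normalClosure
  haveI : Y.Normal := hY ▸ normalClosure_normal
  refine ⟨h.sup_eq_top hRY, fun h1 => hiso (le_trans (H1.le_pCoreOf ?_ ?_ h.isP) h1), ?_⟩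
  · exact h.AS.trans ((le_inf le_normalizer le_sup_right).trans le_sup_left)
  · refine le_trans (sup_le (inf_le_left.trans (hL ▸ le_sup_left)) (iSup_le fun P' => ?_)) h.LA
    exact hL ▸ (le_iSup (fun P' : {P' : Subgroup G // (S : Subgroup G) ≤ P' ∧
      IsPMinimal p ↥P' ∧ P' ≠ P} => (P' : Subgroup G)) ⟨P', P'.2.1, P'.2.2.2⟩).trans le_sup_right
  rcases h.quot.cases H1.pCore_quotient_pCore with ⟨t, -, -, -, hn, -⟩ | ⟨K, hK, h1, h2⟩
  · haveI := h.normal_of_map hn
    exact Or.inl (le_antisymm hRY (hY ▸ normalClosure_le_normal le_rfl))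
  right
  rw [← PIso.map_closure, ← hY] at h1
  obtain ⟨e, he⟩ := exists_emb_pCore p Y
  have hsn : (Y.map (QuotientGroup.mk' (pCore p G))).IsSubnormal := h1 ▸ PIso.ncl_subnormal hK _
  refine ⟨inferInstance, by rw [Nat.card_congr e.toEquiv, h1]; exact h2, ?_, fun K₁ K₂ h3 h4 => ?_⟩
  · have h3 : layer (Y.map (QuotientGroup.mk' (pCore p G))) = ⊤ := by
      rw [← map_subtype_eq_self_iff]
      refine le_antisymm (map_subtype_le _) ?_
      rw [H23.map_layer_subtype_of_isSubnormal hsn]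
      conv_lhs => rw [h1, PIso.ncl_eq_sSup]
      refine sSup_le_sSup fun K' hK' => ⟨PIso.orbit_comp hK _ K' hK', ?_⟩
      rw [h1, PIso.ncl_eq_sSup]
      exact le_sSup hK'
    rw [← H23.map_layer_equiv e.symm, h3]
    exact map_top_of_surjective _ e.symm.surjective
  · have key : ∀ K' : Subgroup (Y ⧸ pCore p Y), IsComponent K' → ∃ s ∈ (S : Subgroup G),
        (K'.map e.toMonoidHom).map (Subgroup.subtype _) =
          K ^ᶜ (QuotientGroup.mk' (pCore p G) s) := by
      intro K' hK'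
      obtain ⟨_, ⟨s, hs, rfl⟩, h5⟩ := PIso.exists_cj_of_le_ncl hK
        (H23.IsComponent.map_subtype hsn (H23.IsComponent.map_equiv hK' e))
        ((map_subtype_le _).trans h1.le)
      exact ⟨s, hs, h5⟩
    obtain ⟨s, hs, h5⟩ := key K₁ h3
    obtain ⟨u, hu, h6⟩ := key K₂ h4
    refine ⟨u * s⁻¹, mul_mem hu (inv_mem hs), ?_⟩
    rw [he, he, h5, h6, cj_inf, comap_cj, cj_cj, cj_eq_of_normal Y, ← map_mul,
      inv_mul_cancel_right]

end Cfsg.Agent.S3044
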