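import Mathlib
import Cfsg.Statements.S3045
import Cfsg.Agent.Lib.Loc91.PIso2
-- import your own Cfsg.Agent.* helpers here

set_option autoImplicit false
open Cfsg

namespace Cfsg.Agent.S3045

/-- Let G be a finite group, p a prime, S a Sylow p-subgroup of G and P a p-minimal subgroup of G containing S. Let L be the subgroup generated by N_G(S) and all p-minimal subgroups of G containing S other than P, and suppose O_p(L) is not contained in O_p(P). Put Y for the normal closure of O^p(P) in G. Then O^p(P) is contained in the preimage in G of F*(G/O_p(G)); and if Y is solvable, then Y = O^p(P) and Y/O_p(Y) is a t-group of nilpotency class at most 2 for some prime t ≠ p. -/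
theorem result {G : Type*} [Group G] [Finite G] {p : ℕ} [Fact p.Prime] (S : Sylow p G) (P : Subgroup G) (hSP : (S : Subgroup G) ≤ P) (hPmin : Cfsg.IsPMinimal p ↥P)
    (L Y : Subgroup G)
    (hL : L = Subgroup.normalizer ((S : Subgroup G) : Set G) ⊔ ⨆ P' : {P' : Subgroup G // (S : Subgroup G) ≤ P' ∧ Cfsg.IsPMinimal p ↥P' ∧ P' ≠ P}, (P' : Subgroup G))
    (hiso : ¬ (Cfsg.pCore p ↥L).map L.subtype ≤ (Cfsg.pCore p ↥P).map P.subtype)
    (hY : Y = Subgroup.normalClosure (((Cfsg.pResidual p ↥P).map P.subtype : Subgroup G) : Set G)) [hn : (Cfsg.pCore p G).Normal] :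
    (Cfsg.pResidual p ↥P).map P.subtype ≤ (Cfsg.generalizedFittingSubgroup (G ⧸ Cfsg.pCore p G)).comap (QuotientGroup.mk' (Cfsg.pCore p G)) ∧
    (Group.IsSolvable ↥Y → (Cfsg.pResidual p ↥P).map P.subtype = Y ∧
       ∃ _ : (Cfsg.pCore p ↥Y).Normal, ∃ t : ℕ, t.Prime ∧ t ≠ p ∧ IsPGroup t (↥Y ⧸ Cfsg.pCore p ↥Y) ∧
         ∃ _ : Group.IsNilpotent (↥Y ⧸ Cfsg.pCore p ↥Y), Group.nilpotencyClass (↥Y ⧸ Cfsg.pCore p ↥Y) ≤ 2) := by
  open H91 H69 Subgroup in
  have h := pIso_of S P hSP L hL hiso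
  have hRY : 𝐑(p, P) ≤ Y := hY ▸ le_normalClosure
  haveI : Y.Normal := hY ▸ normalClosure_normal
  rw [← map_le_iff_le_comap, map_res]
  rcases h.quot.cases H1.pCore_quotient_pCore with ⟨t, ht, htp, hR, hn, hc⟩ | ⟨K, hK, h1, h2⟩
  · haveI := Fact.mk ht
    refine ⟨hR.trans (H23.pCore_le_fStar t), fun _ => ?_⟩
    haveI := h.normal_of_map hn
    have hY' : 𝐑(p, P) = Y := le_antisymm hRY (hY ▸ normalClosure_le_normal le_rfl)
    obtain ⟨e, -⟩ := exists_emb_pCore p Y
    rw [← map_res, hY'] at hR hc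
    obtain ⟨hnil, hcl⟩ := class_le_two hc
    refine ⟨hY', inferInstance, t, ht, htp, (H1.isPGroup_pCore.to_le hR).of_equiv e.symm,
      Group.nilpotent_of_mulEquiv e.symm, le_trans ?_ hcl⟩
    exact Group.nilpotencyClass_le_of_surjective e.symm.toMonoidHom e.symm.surjective
  · refine ⟨le_normalClosure.trans (h1.le.trans ((PIso.ncl_le_layer hK _).trans
      H23.layer_le_fStar)), fun hs => ?_⟩
    rw [← PIso.map_closure, ← hY] at h1
    exact absurd ((le_ncl K _).trans h1.ge)
      (H23.IsComponent.not_le_of_isSolvable hK (H1.isSolvable_map hs _))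

end Cfsg.Agent.S3045
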