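import Cfsg.Statements.S3047
import Cfsg.Agent.Lib.R47.Abs
import Cfsg.Agent.Lib.R47.SL2
import Cfsg.Agent.Lib.R47.SU3
import Cfsg.Agent.Lib.Core.PCore

set_option autoImplicit false
open Cfsg

namespace Cfsg.Agent.S3047

theorem res_normal (p : ℕ) (X : Type*) [Group X] : (Cfsg.pResidual p X).Normal := by
  refine ⟨fun x hx g => ?_⟩
  have : (Cfsg.pResidual p X).map (MulAut.conj g).toMonoidHom ≤ Cfsg.pResidual p X := by
    rw [Cfsg.pResidual, MonoidHom.map_closure, Subgroup.closure_le]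
    rintro _ ⟨y, hy, rfl⟩
    refine Subgroup.subset_closure ?_
    change Nat.Coprime (orderOf ((MulAut.conj g) y)) p
    rw [MulEquiv.orderOf_eq]
    exact hy
  exact this ⟨x, hx, rfl⟩

theorem model {X Y Y' : Type*} [Group X] [Group Y] [Group Y'] {K : Subgroup X} (hK : K.Normal)
    (e : K ≃* Y') (ρ : Y →* Y') (h1 : Function.Surjective ρ) (h2 : ρ.ker ≤ Subgroup.center Y) :
    ∃ φ : Y →* X, φ.ker ≤ Subgroup.center Y ∧ φ.range.Normal := by
  refine ⟨K.subtype.comp (e.symm.toMonoidHom.comp ρ), fun y hy => h2 ?_, ?_⟩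
  · exact e.symm.map_eq_one_iff.1 (Subtype.ext hy)
  · convert hK
    ext x
    constructor
    · rintro ⟨y, rfl⟩
      exact (e.symm (ρ y)).2
    · intro hx
      obtain ⟨y, hy⟩ := h1 (e ⟨x, hx⟩)
      exact ⟨y, by simp [hy]⟩

/-- Let p ≥ 5 be a prime, G a finite group all of whose composition factors are known simple groups, S a Sylow p-subgroup and P a p-minimal subgroup of G containing S such that O^p(P/O_p(P)) is isomorphic to SL₂(pᵃ), PSL₂(pᵃ), SU₃(pᵃ) or PSU₃(pᵃ) for some a ≥ 1. Let L be the subgroup generated by N_G(S) and the p-minimal subgroups of G containing S other than P. Then either O^p(P) is normal in G, or every p-element of the centre of L lies in O_p(P). -/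
theorem result {G : Type*} [Group G] [Finite G] {p : ℕ} [Fact p.Prime] (hp : 5 ≤ p) (hK : Cfsg.IsCompositionKGroup G)
    (S : Sylow p G) (P : Subgroup G) (hSP : (S : Subgroup G) ≤ P) (hPmin : Cfsg.IsPMinimal p ↥P) [hn : (Cfsg.pCore p ↥P).Normal]
    (hrk1 : ∃ (F : Type) (_ : Field F) (_ : Fintype F) (a : ℕ), 1 ≤ a ∧
      ((Fintype.card F = p ^ a ∧ (Nonempty (↥(Cfsg.pResidual p (↥P ⧸ Cfsg.pCore p ↥P)) ≃* Matrix.SpecialLinearGroup (Fin 2) F) ∨
                                  Nonempty (↥(Cfsg.pResidual p (↥P ⧸ Cfsg.pCore p ↥P)) ≃* Matrix.ProjectiveSpecialLinearGroup (Fin 2) F))) ∨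
       (Fintype.card F = p ^ (2 * a) ∧ (Nonempty (↥(Cfsg.pResidual p (↥P ⧸ Cfsg.pCore p ↥P)) ≃* ↥(Cfsg.SU 3 F (p ^ a))) ∨
                                        Nonempty (↥(Cfsg.pResidual p (↥P ⧸ Cfsg.pCore p ↥P)) ≃* Cfsg.PSU 3 F (p ^ a))))))
    (L : Subgroup G)
    (hL : L = Subgroup.normalizer ((S : Subgroup G) : Set G) ⊔ ⨆ P' : {P' : Subgroup G // (S : Subgroup G) ≤ P' ∧ Cfsg.IsPMinimal p ↥P' ∧ P' ≠ P}, (P' : Subgroup G)) :
    ((Cfsg.pResidual p ↥P).map P.subtype).Normal ∨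
    ∀ z ∈ L ⊓ Subgroup.centralizer (L : Set G), (∃ k : ℕ, orderOf z = p ^ k) → z ∈ (Cfsg.pCore p ↥P).map P.subtype := by
  right
  rintro z ⟨-, hzC⟩ ⟨k, hk⟩
  have hk' : z ^ p ^ k = 1 := by rw [← hk, pow_orderOf_eq_one]
  have comm : ∀ n ∈ Subgroup.normalizer ((S : Subgroup G) : Set G), n * z = z * n := fun n hn =>
    Subgroup.mem_centralizer_iff.1 hzC n (hL ▸ Subgroup.mem_sup_left hn)
  have zS : z ∈ (S : Subgroup G) := by
    have h1 : Subgroup.zpowers z ≤ Subgroup.normalizer ((S : Subgroup G) : Set G) := by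
      rw [Subgroup.zpowers_le]
      refine Subgroup.mem_normalizer_fintype fun s hs => ?_
      rw [← comm s (Subgroup.le_normalizer hs), mul_inv_cancel_right]
      exact hs
    rw [← S.is_maximal' ((R47.zp hk').to_sup_of_normal_right' S.isPGroup' h1) le_sup_right]
    exact Subgroup.mem_sup_left (Subgroup.mem_zpowers z)
  let π := QuotientGroup.mk' (Cfsg.pCore p ↥P)
  have hπ : Function.Surjective π := QuotientGroup.mk'_surjective _
  let S' : Sylow p P := S.subtype hSP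
  let T : Sylow p (↥P ⧸ Cfsg.pCore p ↥P) := S'.mapSurjective hπ
  have hT : (T : Subgroup (↥P ⧸ Cfsg.pCore p ↥P)).comap π = S' := by
    rw [Sylow.coe_mapSurjective, Subgroup.comap_map_eq, QuotientGroup.ker_mk',
      sup_of_le_left (H1.pCore_le_sylow S')]
  have mT : ∀ y : P, π y ∈ (T : Subgroup (↥P ⧸ Cfsg.pCore p ↥P)) ↔ (y : G) ∈ (S : Subgroup G) :=
    fun y => by rw [← Subgroup.mem_comap, hT]; rfl
  have hz : ∀ n ∈ Subgroup.normalizer ((T : Subgroup (↥P ⧸ Cfsg.pCore p ↥P)) :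
      Set (↥P ⧸ Cfsg.pCore p ↥P)), π ⟨z, hSP zS⟩ * n = n * π ⟨z, hSP zS⟩ := by
    intro n hn
    obtain ⟨n, rfl⟩ := hπ n
    rw [← map_mul, ← map_mul]
    congr 1
    refine Subtype.ext (comm n (Subgroup.mem_normalizer_fintype fun s hs => ?_)).symm
    have := (Subgroup.mem_normalizer_iff.1 hn (π ⟨s, hSP hs⟩)).1 ((mT _).2 hs)
    rw [← map_inv, ← map_mul, ← map_mul] at this
    exact (mT _).1 this
  have hmin : ∀ H1 H2 : Subgroup (↥P ⧸ Cfsg.pCore p ↥P), T ≤ H1 → T ≤ H2 → H1 ⊔ H2 = ⊤ →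
      H1 = ⊤ ∨ H2 = ⊤ := by
    intro A B hA hB hAB
    obtain ⟨M, hM, hu⟩ := (hPmin S').2
    have key : ∀ C : Subgroup (↥P ⧸ Cfsg.pCore p ↥P), T ≤ C → C ≠ ⊤ → C.comap π ≤ M := by
      intro C hC h0
      rcases eq_top_or_exists_le_coatom (C.comap π) with h1 | ⟨N, hN, h1⟩
      · exact absurd (Subgroup.comap_injective hπ (h1.trans (Subgroup.comap_top π).symm)) h0
      · rw [← hu N ⟨hN, (hT.ge.trans (Subgroup.comap_mono hC)).trans h1⟩]
        exact h1
    by_contra h0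
    rw [not_or] at h0
    have := sup_le (key A hA h0.1) (key B hB h0.2)
    rw [Subgroup.comap_sup_eq π A B hπ, hAB, Subgroup.comap_top] at this
    exact hM.1.1 (top_le_iff.1 this)
  have hN := res_normal p (↥P ⧸ Cfsg.pCore p ↥P)
  have cen : ∀ x, x * π ⟨z, hSP zS⟩ = π ⟨z, hSP zS⟩ * x := by
    obtain ⟨F, _, _, a, ha, ⟨hF, h⟩ | ⟨hF, h⟩⟩ := hrk1
    · obtain ⟨U, B, t, w, hd⟩ := R47.sl2 hp ha hF
      rcases h with ⟨⟨e⟩⟩ | ⟨⟨e⟩⟩
      · obtain ⟨φ, h1, h2⟩ := model hN e (MonoidHom.id _) Function.surjective_id (by simp)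
        exact R47.central hd φ h1 h2 T ((mT _).2 zS) hz hmin
      · obtain ⟨φ, h1, h2⟩ := model hN e (QuotientGroup.mk' _) (QuotientGroup.mk'_surjective _)
          (QuotientGroup.ker_mk' _).le
        exact R47.central hd φ h1 h2 T ((mT _).2 zS) hz hmin
    · obtain ⟨U, B, t, w, hd⟩ := R47.su3 hp ha hF
      rcases h with ⟨⟨e⟩⟩ | ⟨⟨e⟩⟩
      · obtain ⟨φ, h1, h2⟩ := model hN e (MonoidHom.id _) Function.surjective_id (by simp)
        exact R47.central hd φ h1 h2 T ((mT _).2 zS) hz hmin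
      · obtain ⟨φ, h1, h2⟩ := model hN e (QuotientGroup.mk' _) (QuotientGroup.mk'_surjective _)
          (QuotientGroup.ker_mk' _).le
        exact R47.central hd φ h1 h2 T ((mT _).2 zS) hz hmin
  have h1 : Subgroup.zpowers (π ⟨z, hSP zS⟩) ≤ Subgroup.center _ :=
    (Subgroup.zpowers_le).2 (Subgroup.mem_center_iff.2 cen)
  haveI : (Subgroup.zpowers (π ⟨z, hSP zS⟩)).Normal := ⟨fun y hy g => by
    rw [Subgroup.mem_center_iff.1 (h1 hy) g, mul_inv_cancel_right]; exact hy⟩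
  have h2 := H1.le_pCore (p := p) (N := Subgroup.zpowers (π ⟨z, hSP zS⟩)) (R47.zp (k := k) (by
    rw [← map_pow, show (⟨z, hSP zS⟩ : P) ^ p ^ k = 1 from Subtype.ext hk', map_one]))
  rw [H1.pCore_quotient_pCore] at h2
  exact ⟨⟨z, hSP zS⟩, (QuotientGroup.eq_one_iff _).1 (h2 (Subgroup.mem_zpowers _)), rfl⟩

end Cfsg.Agent.S3047
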