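import Mathlib
import Cfsg.Statements.S3048
import Cfsg.Agent.Lib.LocStruct.SylowIn
import Cfsg.Agent.Lib.Comp.FStar
import Cfsg.Agent.Lib.Comp.LayerStruct
import Cfsg.Agent.Lib.Core.MinNormal
import Cfsg.Agent.Lib.Sig.EA
-- import your own Cfsg.Agent.* helpers here

set_option autoImplicit false
universe u
open Cfsg

namespace Cfsg.Agent.S3048

open H69 H1 H23 Subgroup
open scoped commutatorElement

theorem mem_zpowers_two_pow {G : Type*} [Group G] {h : G} (hh : Odd (orderOf h)) (a : ℕ) :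
    h ∈ zpowers (h ^ 2 ^ a) :=
  mem_zpowers_pow_iff.2 (Nat.Coprime.pow_left a ((Nat.coprime_two_left).2 hh))

theorem sidki_map {G G' : Type*} [Group G] [Group G'] [Finite G] (f : G →* G')
    (hf : Function.Surjective f) {V : Subgroup G} (hV : IsElementaryAbelian 2 V)
    (hk : V ⊓ f.ker = ⊥) (hS : IsSidkiPair V) : IsSidkiPair (V.map f) := by
  rintro h' _ ⟨v, hv, rfl⟩ hodd hinv
  obtain ⟨h, rfl⟩ := hf h'
  have hvv : v * v = 1 := by rw [← pow_two]; exact hV.2 v hv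
  have hv' : v⁻¹ = v := inv_eq_of_mul_eq_one_right hvv
  have h1 : f (h * (v * h⁻¹ * v⁻¹)) = f h ^ 2 := by
    have : f v * (f h)⁻¹ * (f v)⁻¹ = (f v * f h * (f v)⁻¹)⁻¹ := by group
    rw [map_mul, map_mul, map_mul, map_inv, map_inv, this, hinv, inv_inv, pow_two]
  have h2 : v * (h * (v * h⁻¹ * v⁻¹)) * v⁻¹ = (h * (v * h⁻¹ * v⁻¹))⁻¹ := by
    calc v * (h * (v * h⁻¹ * v⁻¹)) * v⁻¹ = v * h * v * h⁻¹ * (v * v)⁻¹ := by group
      _ = v * h * v⁻¹ * h⁻¹ := by rw [hvv, hv']; group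
      _ = _ := by group
  generalize h * (v * h⁻¹ * v⁻¹) = y at h1 h2
  obtain ⟨a, m, hm, hy⟩ := Nat.exists_eq_two_pow_mul_odd (orderOf_pos y).ne'
  obtain ⟨w, hw, hw1, hwy⟩ := hS (y ^ 2 ^ a) v hv (by
    rwa [orderOf_pow_of_dvd (by positivity) (hy ▸ Dvd.intro _ rfl), hy,
      Nat.mul_div_cancel_left _ (by positivity)]) (by rw [← conj_pow, h2, inv_pow])
  refine ⟨f w, ⟨w, hw, rfl⟩, fun h0 => hw1 ?_, ?_⟩
  · exact mem_bot.1 (hk ▸ (⟨hw, h0⟩ : w ∈ V ⊓ f.ker))
  · have h3 : Commute (f w) (f h ^ 2 ^ (a + 1)) := by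
      rw [pow_succ', pow_mul, ← h1, ← map_pow]
      exact (show Commute w _ from hwy).map f
    obtain ⟨k, hk⟩ := mem_zpowers_two_pow hodd (a + 1)
    have := h3.zpow_right k
    simp only at hk
    rwa [hk] at this

theorem not_sidki {G : Type u} [Group G] [Finite G]
    (hminG : ∀ (H : Type u) [Group H] [Finite H] (W : Subgroup H), Nat.card H < Nat.card G →
      IsElementaryAbelian 2 W → W ≠ ⊥ → IsSidkiPair W → W ⊓ pCore 2 H ≠ ⊥)
    (hO : pCore 2 G = ⊥) {U N : Subgroup G} (hU : IsElementaryAbelian 2 U) (hU1 : U ≠ ⊥)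
    (hN : N.IsSubnormal) (hUN : U ≤ 𝐍(N)) (hne : U ⊔ N ≠ ⊤) (hC : U ⊓ 𝐂(N) = ⊥) :
    ∃ h ∈ N, Odd (orderOf h) ∧ (∃ u ∈ U, u * h * u⁻¹ = h⁻¹) ∧ ∀ w ∈ U, w * h = h * w → w = 1 := by
  by_contra hc
  push Not at hc
  have hle : U ≤ U ⊔ N := le_sup_left
  have h1 := hminG ↥(U ⊔ N) (U.subgroupOf _) (card_lt_of_ne_top hne)
    (H43.ea_mk (fun a ha b hb => Subtype.ext (H43.ea_comm hU ha hb))
      (fun a ha => Subtype.ext (hU.2 a ha)))
    (fun h0 => hU1 (by rw [← map_subgroupOf_eq_of_le hle, h0, Subgroup.map_bot])) (by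
      rintro ⟨h, hh⟩ ⟨v, hv⟩ hvU hodd hinv
      rw [orderOf_mk] at hodd
      have hinv' : v * h * v⁻¹ = h⁻¹ := congrArg Subtype.val hinv
      have hhN : h ∈ N := by
        obtain ⟨u, hu, n, hn, rfl⟩ := (mem_sup_of_le_normalizer_right hUN).1 hh
        have h2 : (u * n) ^ 2 ^ 1 = u * (n * (v * n⁻¹ * v⁻¹)) * u⁻¹ := by
          have h3 := H43.ea_comm hU hu hvU
          calc (u * n) ^ 2 ^ 1 = (u * n) * (v * (u * n) * v⁻¹)⁻¹ := by rw [hinv', pow_one, pow_two, inv_inv]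
            _ = u * n * v * n⁻¹ * (v * u)⁻¹ := by group
            _ = _ := by
              have h4 : v * u = u * v := h3.symm
              rw [h4]; group
        refine zpowers_le.2 ?_ (mem_zpowers_two_pow hodd 1)
        rw [h2]
        exact conj_mem_of_mem_normalizer (hUN hu)
          (N.mul_mem hn (conj_mem_of_mem_normalizer (hUN hvU) (N.inv_mem hn)))
      obtain ⟨w, hw, h1, h2⟩ := hc h hhN hodd ⟨v, hvU, hinv'⟩
      exact ⟨⟨w, hle hw⟩, hw, fun h0 => h2 (congrArg Subtype.val h0), Subtype.ext h1⟩)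
  obtain ⟨⟨w, hw⟩, hw1⟩ := Subgroup.ne_bot_iff_exists_ne_one.1 h1
  have hwO : (w : G) ∈ pCoreOf 2 (U ⊔ N) := ⟨w, hw.2, rfl⟩
  have h2 : N ⊓ pCoreOf 2 (U ⊔ N) = ⊥ := by
    rw [eq_bot_iff, ← hO]
    exact le_pCore_of_isSubnormal (isSubnormal_of_le_normalizer hN inf_le_left
      (le_normalizer_inf le_normalizer (le_sup_right.trans (le_normalizer_pCoreOf _))))
      ((isPGroup_pCoreOf _).to_le inf_le_right)
  have h3 : (w : G) ∈ U ⊓ 𝐂(N) := by
    refine ⟨hw.1, fun n hn => ?_⟩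
    have h4 : n * w * n⁻¹ * (w : G)⁻¹ ∈ N ⊓ pCoreOf 2 (U ⊔ N) := by
      constructor
      · have := N.mul_mem hn (conj_mem_of_mem_normalizer (hUN hw.1) (N.inv_mem hn))
        simpa [mul_assoc] using this
      · exact (pCoreOf 2 (U ⊔ N)).mul_mem
          (conj_mem_of_mem_normalizer (le_normalizer_pCoreOf _ (mem_sup_right hn)) hwO)
          (inv_mem hwO)
    rw [h2, mem_bot] at h4
    calc n * w = n * w * n⁻¹ * (w : G)⁻¹ * (w * n) := by group
      _ = w * n := by rw [h4, one_mul]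
  rw [hC, mem_bot] at h3
  exact hw1 (Subtype.ext (Subtype.ext h3))

/-- Minimal counterexample reduction for the Sidki pair problem. Let G be a finite group and V a nontrivial elementary abelian 2-subgroup satisfying the Sidki pair condition with V ∩ O₂(G) = 1. Suppose that for every finite group H of smaller order, every nontrivial elementary abelian 2-subgroup W of H satisfying the Sidki pair condition meets O₂(H) nontrivially, and that the same holds in G for every such subgroup W of order smaller than that of V. Then the generalized Fitting subgroup F*(G) is a non-abelian simple group and G = V F*(G). -/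
theorem result {G : Type u} [Group G] [Finite G] (V : Subgroup G) (hV : Cfsg.IsElementaryAbelian 2 V) (hV1 : V ≠ ⊥) (hS : Cfsg.IsSidkiPair V) (hVO : V ⊓ Cfsg.pCore 2 G = ⊥) (hminG : ∀ (H : Type u) [Group H] [Finite H] (W : Subgroup H), Nat.card H < Nat.card G → Cfsg.IsElementaryAbelian 2 W → W ≠ ⊥ → Cfsg.IsSidkiPair W → W ⊓ Cfsg.pCore 2 H ≠ ⊥) (hminV : ∀ W : Subgroup G, Nat.card W < Nat.card V → Cfsg.IsElementaryAbelian 2 W → W ≠ ⊥ → Cfsg.IsSidkiPair W → W ⊓ Cfsg.pCore 2 G ≠ ⊥) : IsSimpleGroup ↥(Cfsg.generalizedFittingSubgroup G) ∧ ¬ IsMulCommutative ↥(Cfsg.generalizedFittingSubgroup G) ∧ V ⊔ Cfsg.generalizedFittingSubgroup G = ⊤ := by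
  have hquot : ∀ (N : Subgroup G) [N.Normal], N ≠ ⊥ → V ⊓ N = ⊥ →
      ∃ w ∈ V, w ≠ 1 ∧ (w : G ⧸ N) ∈ pCore 2 (G ⧸ N) := by
    intro N _ hN hVN
    have h1 := hminG (G ⧸ N) (V.map (QuotientGroup.mk' N)) (H3.card_quotient_lt N hN)
      (H43.ea_map hV _) (by
        rw [Ne, Subgroup.map_eq_bot_iff, QuotientGroup.ker_mk']
        exact fun h => hV1 (by rw [← hVN, inf_eq_left.2 h]))
      (sidki_map _ (QuotientGroup.mk'_surjective N) hV (by rwa [QuotientGroup.ker_mk']) hS)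
    obtain ⟨⟨_, ⟨w, hw, rfl⟩, hw2⟩, hw1⟩ := Subgroup.ne_bot_iff_exists_ne_one.1 h1
    exact ⟨w, hw, by rintro rfl; exact hw1 (Subtype.ext (map_one _)), hw2⟩
  have hO : pCore 2 G = ⊥ := by
    by_contra hne
    obtain ⟨w, hw, hw1, hw2⟩ := hquot _ hne hVO
    rw [pCore_quotient_pCore, mem_bot, QuotientGroup.eq_one_iff] at hw2
    exact hw1 (mem_bot.1 (hVO ▸ (⟨hw, hw2⟩ : w ∈ V ⊓ pCore 2 G)))
  have hL := @not_sidki G _ _ hminG hO
  have hL' : ∀ N : Subgroup G, N.IsSubnormal → V ≤ 𝐍(N) → V ⊔ N ≠ ⊤ → V ⊓ 𝐂(N) ≠ ⊥ := by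
    intro N hN hVN hne hC
    obtain ⟨h, -, hodd, ⟨u, hu, hinv⟩, h1⟩ := hL hV hV1 hN hVN hne hC
    obtain ⟨w, hw, hw1, hwh⟩ := hS h u hu hodd hinv
    exact hw1 (h1 w hw hwh)
  set F := generalizedFittingSubgroup G with hF
  have hV2 : IsPGroup 2 V := H43.ea_isPGroup hV
  have hCF : V ⊓ 𝐂(F) = ⊥ := by
    rw [eq_bot_iff, ← hO]
    exact le_pCore_of_le_fitting (hV2.to_le inf_le_left)
      (inf_le_right.trans centralizer_fStar_le_fitting)
  have hsn : ∀ N : Subgroup G, N.Normal → N.IsSubnormal := fun N hN => hN.isSubnormal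
  have htop : V ⊔ F = ⊤ := by
    by_contra hne
    exact hL' F (hsn F inferInstance) le_normalizer_of_normal hne hCF
  have hX : ∀ N1 N2 : Subgroup G, N1.IsSubnormal → N2.IsSubnormal → V ≤ 𝐍(N1) → V ≤ 𝐍(N2) →
      N1 ≤ 𝐂(N2) → F ≤ N1 ⊔ N2 → V ⊔ N1 ≠ ⊤ → V ⊔ N2 ≠ ⊤ → False := by
    intro N1 N2 hs1 hs2 hn1 hn2 hc hle hne1 hne2
    have hd : V ⊓ 𝐂(N1) ⊓ 𝐂(N2) = ⊥ := by
      rw [eq_bot_iff, ← hCF, inf_assoc, ← H69.centralizer_sup]
      exact inf_le_inf_left _ (H69.centralizer_anti hle)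
    obtain ⟨h1, hh1, hodd1, ⟨u, hu, hinv1⟩, hc1⟩ := hL (H43.ea_of_le hV inf_le_left)
      (hL' N2 hs2 hn2 hne2) hs1 (inf_le_left.trans hn1)
      (fun h0 => hne1 (top_le_iff.1 (h0 ▸ sup_le_sup_right inf_le_left _)))
      (by rw [inf_right_comm, hd])
    have hsub : V ⊓ 𝐂(N1) ≤ V ⊓ centralizer {h1} := inf_le_inf_left _ fun g hg =>
      mem_centralizer_singleton_iff.2 (hg h1 hh1).symm
    obtain ⟨h2, hh2, hodd2, ⟨c, hcc, hinv2⟩, hc2⟩ := hL
      (H43.ea_of_le hV (inf_le_left : V ⊓ centralizer {h1} ≤ V))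
      (fun h0 => hL' N1 hs1 hn1 hne1 (le_bot_iff.1 (h0 ▸ hsub))) hs2 (inf_le_left.trans hn2)
      (fun h0 => hne2 (top_le_iff.1 (h0 ▸ sup_le_sup_right inf_le_left _)))
      (by
        rw [eq_bot_iff]
        intro w hw
        exact hc1 w ⟨hw.1.1, hw.2⟩ (mem_centralizer_singleton_iff.1 hw.1.2))
    have h12 : Commute h1 h2 := (hc hh1 h2 hh2).symm
    have hch : c * h1 * c⁻¹ = h1 :=
      mul_inv_eq_iff_eq_mul.2 (mem_centralizer_singleton_iff.1 hcc.2)
    obtain ⟨w, hw, hw1, hwh⟩ := hS (h1 * h2) (u * c) (V.mul_mem hu.1 hcc.1)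
      (Odd.of_dvd_nat (hodd1.mul hodd2) h12.orderOf_mul_dvd_mul_orderOf) (by
        calc u * c * (h1 * h2) * (u * c)⁻¹
            = (u * (c * h1 * c⁻¹) * u⁻¹) * (u * (c * h2 * c⁻¹) * u⁻¹) := by group
          _ = h1⁻¹ * h2⁻¹ := by
            rw [hch, hinv1, hinv2, conj_eq_of_mem_centralizer hu.2 (N2.inv_mem hh2)]
          _ = _ := by rw [mul_inv_rev, h12.inv_inv.eq])
    have hx1 := conj_mem_of_mem_normalizer (hn1 hw) hh1
    have hx2 := conj_mem_of_mem_normalizer (hn2 hw) hh2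
    have hxo : Odd (orderOf (w * h1 * w⁻¹)) := by
      rwa [show w * h1 * w⁻¹ = MulAut.conj w h1 from rfl, MulEquiv.orderOf_eq]
    have hux : u * (w * h1 * w⁻¹) * u⁻¹ = (w * h1 * w⁻¹)⁻¹ := by
      have := H43.ea_comm hV hu.1 hw
      calc u * (w * h1 * w⁻¹) * u⁻¹ = (u * w) * h1 * (u * w)⁻¹ := by group
        _ = w * (u * h1 * u⁻¹) * w⁻¹ := by rw [this]; group
        _ = _ := by rw [hinv1]; group
    have ht : h1⁻¹ * (w * h1 * w⁻¹) = h2 * (w * h2 * w⁻¹)⁻¹ := by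
      calc h1⁻¹ * (w * h1 * w⁻¹) = h1⁻¹ * (w * (h1 * h2)) * w⁻¹ * (w * h2 * w⁻¹)⁻¹ := by group
        _ = _ := by rw [hwh]; group
    have ht2 : h1⁻¹ * (w * h1 * w⁻¹) ∈ N2 := ht ▸ N2.mul_mem hh2 (N2.inv_mem hx2)
    have hwh1 : w * h1 * w⁻¹ = h1 := by
      generalize w * h1 * w⁻¹ = x at hx1 hxo hux ht2
      have h3 : Commute h1 (h1⁻¹ * x) := (hc hh1 _ ht2).symm
      have h4 : Commute h1 x := by
        have := (Commute.refl h1).mul_right h3
        simpa using this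
      have h5 := conj_eq_of_mem_centralizer hu.2 ht2
      have h6 : (h1⁻¹ * x) ^ 2 ^ 1 = 1 := by
        calc (h1⁻¹ * x) ^ 2 ^ 1 = (u * (h1⁻¹ * x) * u⁻¹) * (h1⁻¹ * x) := by rw [h5, pow_one, pow_two]
          _ = (u * h1 * u⁻¹)⁻¹ * (u * x * u⁻¹) * (h1⁻¹ * x) := by group
          _ = h1 * (x⁻¹ * h1⁻¹) * x := by rw [hinv1, hux]; group
          _ = 1 := by rw [← h4.inv_inv.eq]; group
      have h7 : Odd (orderOf (h1⁻¹ * x)) :=
        Odd.of_dvd_nat ((by simpa using hodd1 : Odd (orderOf h1⁻¹)).mul hxo)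
          h4.inv_left.orderOf_mul_dvd_mul_orderOf
      have h8 := mem_zpowers_two_pow h7 1
      rw [h6, zpowers_one_eq_bot, mem_bot] at h8
      exact (inv_mul_eq_one.1 h8).symm
    refine hw1 (hc2 w ⟨hw, mem_centralizer_singleton_iff.2 (mul_inv_eq_iff_eq_mul.1 hwh1)⟩ ?_)
    rw [hwh1, inv_mul_cancel, eq_comm, mul_inv_eq_one] at ht
    exact mul_inv_eq_iff_eq_mul.1 ht.symm
  have hnorm : ∀ N : Subgroup G, V ≤ 𝐍(N) → F ≤ 𝐍(N) → N.Normal := fun N h1 h2 =>
    normal_iff_top_le_normalizer.2 (htop ▸ sup_le h1 h2)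
  have hFit : fittingSubgroup G = ⊥ := by
    by_contra hne
    have hZ : 𝐂(F) ≠ ⊥ := by
      rw [hF, centralizer_fStar_eq]
      intro h0
      have hnt := (nontrivial_iff_ne_bot _).2 hne
      refine (Group.IsNilpotent.center_ne_bot (G := fittingSubgroup G)) ?_
      rwa [← map_subtype_eq_bot_iff, H69.map_subtype_center]
    obtain ⟨N, hN, hNC⟩ := H3.exists_isMinNormal_le 𝐂(F) hZ
    have := hN.normal
    have hNF : N ≤ F := hNC.trans centralizer_fStar_le
    have hNfit : N ≤ fittingSubgroup G := hNC.trans centralizer_fStar_le_fitting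
    have hVN : V ⊓ N = ⊥ := le_bot_iff.1 (hCF ▸ inf_le_inf_left _ hNC)
    have hNodd : ∀ n ∈ N, Odd (orderOf n) := by
      obtain ⟨-, q, hq, -, hqN, hqP⟩ := hN.elementary (isSolvable_of_le isSolvable_fitting hNfit)
      have hq2 : q ≠ 2 := by
        rintro rfl
        exact hN.ne_bot (le_bot_iff.1 (hO ▸ le_pCore hqP))
      exact fun n hn => Odd.of_dvd_nat (hq.odd_of_ne_two hq2) (orderOf_dvd_of_pow_eq_one (hqN n hn))
    by_cases hVN' : V ⊔ N = ⊤
    · have hfix : ∀ w ∈ V, w ≠ 1 → N ⊓ centralizer {w} = ⊥ := by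
        intro w hw hw1
        refine (hN.eq_bot_or_eq _ (hnorm _ (le_normalizer_inf le_normalizer_of_normal
          ((H43.ea_le_centralizer_singleton hV hw).trans le_normalizer))
          (le_normalizer_of_le_centralizer ((le_centralizer_iff.1 hNC).trans
            (H69.centralizer_anti inf_le_left)))) inf_le_left).resolve_right fun h0 => ?_
        have h1 : (⊤ : Subgroup G) ≤ centralizer {w} :=
          hVN' ▸ sup_le (H43.ea_le_centralizer_singleton hV hw) (h0 ▸ inf_le_right)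
        refine hw1 (mem_bot.1 (hCF ▸ (⟨hw, fun g _ => ?_⟩ : w ∈ V ⊓ 𝐂(F))))
        exact mem_centralizer_singleton_iff.1 (h1 (mem_top g))
      obtain ⟨⟨v, hv⟩, hv1⟩ := Subgroup.ne_bot_iff_exists_ne_one.1 hV1
      obtain ⟨⟨h, hh⟩, hh1⟩ := Subgroup.ne_bot_iff_exists_ne_one.1 hN.ne_bot
      have hvv : v * v = 1 := by rw [← pow_two]; exact hV.2 v hv
      have hh2 : v * h * v⁻¹ ∈ N := this.conj_mem h hh v
      have h1 : h * (v * h * v⁻¹) ∈ N ⊓ centralizer {v} := by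
        refine ⟨N.mul_mem hh hh2, mem_centralizer_singleton_iff.2 ?_⟩
        have h2 := hNC hh _ (hNF hh2)
        calc h * (v * h * v⁻¹) * v = (v * v) * h * v * h := by rw [hvv]; group
          _ = v * ((v * h * v⁻¹) * (v * v) * h) := by group
          _ = _ := by rw [hvv, mul_one, h2]
      rw [hfix v hv (fun h0 => hv1 (Subtype.ext h0)), mem_bot] at h1
      obtain ⟨w, hw, hw1, hwh⟩ := hS h v hv (hNodd h hh) (eq_inv_of_mul_eq_one_right h1)
      have h2 : h ∈ N ⊓ centralizer {w} := ⟨hh, mem_centralizer_singleton_iff.2 hwh.symm⟩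
      rw [hfix w hw hw1, mem_bot] at h2
      exact hh1 (Subtype.ext h2)
    obtain ⟨w, hw, hw1, hw2⟩ := hquot N hN.ne_bot hVN
    have hww : w * w = 1 := by rw [← pow_two]; exact hV.2 w hw
    have hO2 : F ⊓ (pCore 2 (G ⧸ N)).comap (QuotientGroup.mk' N) ≤ N := by
      set D := F ⊓ (pCore 2 (G ⧸ N)).comap (QuotientGroup.mk' N)
      obtain ⟨T, hT⟩ := exists_isSylowIn 2 D
      have hDT : D ≤ T ⊔ N := by
        have h1 := hT.map (QuotientGroup.mk' N)
        have h2 := h1.max _ (map_mono hT.le) le_rfl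
          (isPGroup_pCore.to_le (map_le_iff_le_comap.2 inf_le_right))
        have h3 := le_comap_map (QuotientGroup.mk' N) D
        rwa [h2, comap_map_eq, QuotientGroup.ker_mk'] at h3
      have h4 : T ≤ pCore 2 G := by
        refine le_pCore_of_isSubnormal (isSubnormal_of_le_normalizer (hsn D inferInstance) hT.le
          (hDT.trans (sup_le le_normalizer (le_normalizer_of_le_centralizer
            (hNC.trans (H69.centralizer_anti (hT.le.trans inf_le_left))))))) hT.isP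
      rw [hO, le_bot_iff] at h4
      rwa [h4, bot_sup_eq] at hDT
    have hdec : F ≤ N ⊔ (F ⊓ centralizer {w}) := by
      intro f hf
      have hn : f⁻¹ * (w * f * w⁻¹) ∈ N := by
        refine hO2 ⟨F.mul_mem (F.inv_mem hf) (Normal.conj_mem inferInstance f hf w), ?_⟩
        have h1 : w ∈ (pCore 2 (G ⧸ N)).comap (QuotientGroup.mk' N) := hw2
        have := mul_mem (Normal.conj_mem inferInstance w h1 f⁻¹) (inv_mem h1)
        simpa [mul_assoc] using this
      have hinv : w * (f⁻¹ * (w * f * w⁻¹)) * w⁻¹ = (f⁻¹ * (w * f * w⁻¹))⁻¹ := by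
        calc w * (f⁻¹ * (w * f * w⁻¹)) * w⁻¹
            = w * f⁻¹ * w⁻¹ * (w * w) * f * (w * w)⁻¹ := by group
          _ = _ := by rw [hww]; group
      obtain ⟨n, hndef⟩ : ∃ n, n = f⁻¹ * (w * f * w⁻¹) := ⟨_, rfl⟩
      rw [← hndef] at hn hinv
      obtain ⟨k, hk⟩ := mem_zpowers_two_pow (hNodd n hn) 1
      have hk' : n ^ k * n ^ k = n := by
        rw [← hk]; conv_lhs => rw [hk]
        simp only; group
      have h2 : f * n ^ k ∈ F ⊓ centralizer {w} := by
        refine ⟨F.mul_mem hf (hNF (N.zpow_mem hn k)), mem_centralizer_singleton_iff.2 ?_⟩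
        have h3 : w * n ^ k * w⁻¹ = (n ^ k)⁻¹ := by rw [← conj_zpow, hinv, inv_zpow]
        calc f * n ^ k * w = f * (n ^ k * n ^ k) * (n ^ k)⁻¹ * w := by group
          _ = (w * f * w⁻¹) * (w * n ^ k * w⁻¹) * w := by rw [hk', h3, hndef]; group
          _ = _ := by group
      have := (N ⊔ (F ⊓ centralizer {w})).mul_mem (mem_sup_right h2)
        (mem_sup_left (N.inv_mem (N.zpow_mem hn k)))
      simpa using this
    have hVw := H43.ea_le_centralizer_singleton hV hw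
    have hVN2 : V ≤ 𝐍(F ⊓ centralizer {w}) :=
      le_normalizer_inf le_normalizer_of_normal (hVw.trans le_normalizer)
    have hNC2 : N ≤ 𝐂(F ⊓ centralizer {w}) := hNC.trans (H69.centralizer_anti inf_le_left)
    refine hX N (F ⊓ centralizer {w}) (hsn N this) (hsn _ (hnorm _ hVN2 (hdec.trans
      (sup_le (le_normalizer_of_le_centralizer hNC2) le_normalizer)))) le_normalizer_of_normal
      hVN2 hNC2 hdec hVN' fun h0 => ?_
    have h1 : (⊤ : Subgroup G) ≤ centralizer {w} := h0 ▸ sup_le hVw inf_le_right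
    refine hw1 (mem_bot.1 (hCF ▸ (⟨hw, fun g _ => ?_⟩ : w ∈ V ⊓ 𝐂(F))))
    exact mem_centralizer_singleton_iff.1 (h1 (mem_top g))
  have hFE : F = layer G := by rw [hF, fStar_def, hFit, sup_bot_eq]
  have hZK : ∀ K, IsComponent K → K ⊓ 𝐂(K) = ⊥ := fun K hK =>
    le_bot_iff.1 (hFit ▸ inf_centralizer_le_fitting hK.1)
  obtain ⟨K, hK⟩ : ∃ K : Subgroup G, IsComponent K := by
    by_contra hc
    push Not at hc
    rw [hFE, layer_eq_bot_iff.2 hc, H69.centralizer_bot, inf_top_eq] at hCF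
    exact hV1 hCF
  have hcomm : ∀ {A B : Subgroup G}, IsComponent A → IsComponent B → A ≠ B → A ≤ 𝐂(B) :=
    fun hA hB hne => le_centralizer_of_commutator_eq_bot
      (IsComponent.commutator_eq_bot_of_ne hA hB hne)
  have hall : ∀ L, IsComponent L → ∃ v ∈ V, L = K ^ᶜ v := by
    by_contra hc
    push Not at hc
    obtain ⟨L, hL1, hL2⟩ := hc
    let S1 : Set (Subgroup G) := {L | IsComponent L ∧ ∃ v ∈ V, L = K ^ᶜ v}
    let S2 : Set (Subgroup G) := {L | IsComponent L ∧ ∀ v ∈ V, L ≠ K ^ᶜ v}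
    have hc12 : sSup S1 ≤ 𝐂(sSup S2) := le_centralizer_of_commutator_eq_bot
      (commutator_sSup_components_eq_bot (fun _ h => h.1) (fun _ h => h.1)
        (Set.disjoint_left.2 fun _ ⟨_, v, hv, h⟩ h' => h'.2 v hv h))
    have hn1 : V ≤ 𝐍(sSup S1) := le_normalizer_of_cj_le fun g hg => by
      rw [cj_le_iff, sSup_le_iff]
      rintro _ ⟨h1, v, hv, rfl⟩
      rw [← cj_le_iff]
      exact le_sSup ⟨IsComponent.map_conj h1 g, g * v, V.mul_mem hg hv, cj_cj _ _ _⟩
    have hn2 : V ≤ 𝐍(sSup S2) := le_normalizer_of_cj_le fun g hg => by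
      rw [cj_le_iff, sSup_le_iff]
      rintro A ⟨h1, h2⟩
      rw [← cj_le_iff]
      refine le_sSup ⟨IsComponent.map_conj h1 g, fun v hv h0 => h2 (g⁻¹ * v)
        (V.mul_mem (V.inv_mem hg) hv) ?_⟩
      rw [← cj_cj, ← h0, cj_cj_inv]
    have key : ∀ (N : Subgroup G) (A : Subgroup G), IsComponent A → N.IsSubnormal → V ≤ 𝐍(N) →
        A ≤ 𝐂(N) → V ⊔ N ≠ ⊤ := by
      intro N A hA hN hVN hAN h0
      have : N.Normal := normal_iff_top_le_normalizer.2 (h0 ▸ sup_le hVN le_normalizer)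
      have h1 : IsPGroup 2 (G ⧸ N) := by
        have h2 := hV2.map (QuotientGroup.mk' N)
        have h3 : V.map (QuotientGroup.mk' N) = ⊤ := by
          rw [eq_top_iff, ← (QuotientGroup.range_mk' N), MonoidHom.range_eq_map, ← h0, Subgroup.map_sup,
            (Subgroup.map_eq_bot_iff N).2 (QuotientGroup.ker_mk' N).ge, sup_bot_eq]
        rwa [h3, isPGroup_top_iff] at h2
      have h2 : A ⊓ N = ⊥ := le_bot_iff.1 (hZK A hA ▸ inf_le_inf_left _ (le_centralizer_iff.1 hAN))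
      refine IsComponent.not_le_of_isSolvable hA ?_ le_rfl
      have := isSolvable_of_isPGroup h1
      exact isSolvable_of_map_of_ker (QuotientGroup.mk' N) inferInstance
        (by rw [QuotientGroup.ker_mk', inf_comm, h2]; infer_instance)
    refine hX _ _ (isSubnormal_sSup_components fun _ h => h.1)
      (isSubnormal_sSup_components fun _ h => h.1) hn1 hn2 hc12 ?_
      (key _ L hL1 (isSubnormal_sSup_components fun _ h => h.1) hn1
        ((le_sSup (show L ∈ S2 from ⟨hL1, hL2⟩)).trans (le_centralizer_iff.1 hc12)))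
      (key _ K hK (isSubnormal_sSup_components fun _ h => h.1) hn2
        ((le_sSup (show K ∈ S1 from ⟨hK, 1, one_mem _, (cj_one K).symm⟩)).trans hc12))
    rw [hFE, layer_le_iff]
    intro A hA
    by_cases h : ∃ v ∈ V, A = K ^ᶜ v
    · exact le_sup_of_le_left (le_sSup ⟨hA, h⟩)
    · push Not at h
      exact le_sup_of_le_right (le_sSup ⟨hA, h⟩)
  have hVK : V ≤ 𝐍(K) := by
    by_contra hc
    obtain ⟨v, hv, hvK⟩ := SetLike.not_le_iff_exists.1 hc
    have hfix : ∀ k ∈ K, k ≠ 1 → ∀ w, w * k = k * w → w ∈ 𝐍(K) := by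
      intro k hk hk1 w hw
      by_contra h0
      have h1 := hcomm (IsComponent.map_conj hK w) hK fun h => h0 (cj_eq_self_iff.1 h)
      have h2 := cj_mem w hk
      rw [hw, mul_inv_cancel_right] at h2
      exact hk1 (mem_bot.1 (hZK K hK ▸ (⟨hk, h1 h2⟩ : k ∈ K ⊓ 𝐂(K))))
    by_cases h0 : V ⊓ 𝐍(K) = ⊥
    · obtain ⟨k, hk, hk1, hodd⟩ : ∃ k ∈ K, k ≠ 1 ∧ Odd (orderOf k) := by
        by_contra hc
        push Not at hc
        refine IsComponent.not_le_of_isSolvable hK (isSolvable_of_isPGroup (p := 2) ?_) le_rfl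
        refine isPGroup_iff_mem.2 fun y hy => ?_
        obtain ⟨a, m, hm, hya⟩ := Nat.exists_eq_two_pow_mul_odd (orderOf_pos y).ne'
        refine ⟨a, ?_⟩
        by_contra h1
        refine hc _ (K.pow_mem hy _) h1 ?_
        rwa [orderOf_pow_of_dvd (by positivity) (hya ▸ Dvd.intro _ rfl), hya,
          Nat.mul_div_cancel_left _ (by positivity)]
      have hvv : v * v = 1 := by rw [← pow_two]; exact hV.2 v hv
      have hKv : ∀ w ∈ V, w ≠ 1 → K ^ᶜ w ≤ 𝐂(K) := fun w hw hw1 =>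
        hcomm (IsComponent.map_conj hK w) hK fun h => hw1
          (mem_bot.1 (h0 ▸ (⟨hw, cj_eq_self_iff.1 h⟩ : w ∈ V ⊓ 𝐍(K))))
      have hv1 : v ≠ 1 := by rintro rfl; exact hvK (one_mem _)
      have hk2 := hKv v hv hv1 (cj_mem v (K.inv_mem hk))
      have hkc : Commute k (v * k⁻¹ * v⁻¹) := hk2 k hk
      have hinv : v * (k * (v * k⁻¹ * v⁻¹)) * v⁻¹ = (k * (v * k⁻¹ * v⁻¹))⁻¹ := by
        calc v * (k * (v * k⁻¹ * v⁻¹)) * v⁻¹
            = v * k * v⁻¹ * ((v * v) * k⁻¹ * (v * v)⁻¹) := by group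
          _ = _ := by rw [hvv]; group
      have hodd2 : Odd (orderOf (k * (v * k⁻¹ * v⁻¹))) := by
        refine Odd.of_dvd_nat (hodd.mul ?_) hkc.orderOf_mul_dvd_mul_orderOf
        rwa [show v * k⁻¹ * v⁻¹ = MulAut.conj v k⁻¹ from rfl, MulEquiv.orderOf_eq, orderOf_inv]
      have hnc : k * (v * k⁻¹ * v⁻¹) ∉ 𝐂(K) := by
        intro h1
        have := (𝐂(K)).mul_mem h1 ((𝐂(K)).inv_mem hk2)
        rw [mul_inv_cancel_right] at this
        exact hk1 (mem_bot.1 (hZK K hK ▸ (⟨hk, this⟩ : k ∈ K ⊓ 𝐂(K))))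
      obtain ⟨w, hw, hw1, hwh⟩ := hS _ v hv hodd2 hinv
      apply hnc
      by_cases hwv : w = v
      · subst hwv
        rw [hwh, mul_inv_cancel_right] at hinv
        have h1 := mem_zpowers_two_pow hodd2 1
        rw [pow_one, pow_two, mul_eq_one_iff_eq_inv.2 hinv, zpowers_one_eq_bot, mem_bot] at h1
        rw [h1]; exact one_mem _
      · have h1 : k * (v * k⁻¹ * v⁻¹) = (w * k * w⁻¹) * (w * v * k⁻¹ * (w * v)⁻¹) := by
          conv_lhs => rw [← mul_inv_eq_iff_eq_mul.2 hwh]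
          group
        rw [h1]
        refine mul_mem (hKv w hw hw1 (cj_mem w hk))
          (hKv _ (V.mul_mem hw hv) (fun h2 => hwv ?_) (cj_mem _ (K.inv_mem hk)))
        rw [eq_inv_of_mul_eq_one_left h2, inv_eq_of_mul_eq_one_right hvv]
    · obtain ⟨k, hk, hodd, ⟨u, hu, hinv⟩, h1⟩ := hL (H43.ea_of_le hV inf_le_left) h0 hK.1
        inf_le_right (fun h => hvK ((sup_le inf_le_right le_normalizer : _ ≤ 𝐍(K))
          (h ▸ mem_top v))) (by
          rw [eq_bot_iff, ← hCF]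
          intro w hw
          refine ⟨hw.1.1, ?_⟩
          have : F ≤ 𝐂(zpowers w) := by
            rw [hFE, layer_le_iff]
            intro A hA
            obtain ⟨x, hx, rfl⟩ := hall A hA
            rw [← cj_eq_of_mem_normalizer (H43.ea_le_normalizer hV (zpowers_le.2 hw.1.1) hx),
              ← cj_centralizer]
            exact cj_mono x (le_centralizer_iff.1 (zpowers_le.2 hw.2))
          exact le_centralizer_iff.1 this (mem_zpowers w))
      obtain ⟨w, hw, hw1, hwh⟩ := hS k u hu.1 hodd hinv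
      have hk1 : k ≠ 1 := by
        rintro rfl
        obtain ⟨⟨x, hx⟩, hx1⟩ := Subgroup.ne_bot_iff_exists_ne_one.1 h0
        exact hx1 (Subtype.ext (h1 x hx (by simp)))
      exact hw1 (h1 w ⟨hw, hfix k hk hk1 w hwh⟩ hwh)
  have hFK : F = K := by
    rw [hFE]
    refine le_antisymm (layer_le_iff.2 fun A hA => ?_) (IsComponent.le_layer hK)
    obtain ⟨x, hx, rfl⟩ := hall A hA
    exact (cj_eq_of_mem_normalizer (hVK hx)).le
  have hZ : center K = ⊥ := by
    rw [← map_subtype_eq_bot_iff, H69.map_subtype_center, hZK K hK]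
  refine ⟨?_, ?_, htop⟩ <;> rw [hFK]
  exacts [H23.IsQuasisimple.isSimpleGroup_of_center_eq_bot hK.2 hZ,
    H23.IsQuasisimple.not_isMulCommutative hK.2]

end Cfsg.Agent.S3048
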