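import Cfsg.Statements.S3053
import Mathlib
import Cfsg.Agent.Base
import Cfsg.Agent.Lib.Functor.Meta
import Cfsg.Agent.Lib.PGroup.Extra

set_option autoImplicit false
open Cfsg

namespace Cfsg.Agent.S3053

/-- Let p be an odd prime and G a finite group with a Sylow p-subgroup P that is extraspecial of order p³ and exponent p². Then the centre of P is strongly closed in P with respect to G: a G-conjugate of an element of Z(P) that lies in P already lies in Z(P). In particular a nontrivial central element of P is conjugate in G to no noncentral element of P. -/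
theorem result {G : Type*} [Group G] [Finite G]
    {p : ℕ} [Fact p.Prime] (hp : p ≠ 2) (P : Sylow p G) (hE : Cfsg.IsExtraspecial p ↥P)
    (hcard : Nat.card P = p ^ 3) (hexp : Monoid.exponent ↥P = p ^ 2) :
    Cfsg.IsStronglyClosed ((Subgroup.center ↥P).map (P : Subgroup G).subtype) (P : Subgroup G) := by
  open Subgroup H69 H59 in
  have hpp : p.Prime := Fact.out
  change Monoid.exponent (P : Subgroup G) = p ^ 2 at hexp
  change IsStronglyClosed ((Subgroup.center (P : Subgroup G)).map (P : Subgroup G).subtype) _
  have hm : IsMetacyclic (P : Subgroup G) := by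
    obtain ⟨a, ha⟩ : ∃ a : (P : Subgroup G), orderOf a = p ^ 2 := by
      by_contra hne
      push Not at hne
      have : Monoid.exponent (P : Subgroup G) ∣ p := by
        refine Monoid.exponent_dvd_of_forall_pow_eq_one fun a => orderOf_dvd_iff_pow_eq_one.1 ?_
        obtain ⟨k, hk, e⟩ := (Nat.dvd_prime_pow hpp).1 (hexp ▸ Monoid.order_dvd_exponent a)
        interval_cases k
        · rw [e]; simp
        · rw [e]; simp
        · exact absurd e (hne a)
      rw [hexp] at this
      have := Nat.le_of_dvd hpp.pos this
      nlinarith [hpp.one_lt]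
    have hi : (Subgroup.zpowers a).index = p := by
      have := (Subgroup.zpowers a).card_mul_index
      rw [Nat.card_zpowers, ha, hcard, pow_succ p 2] at this
      exact Nat.eq_of_mul_eq_mul_left (pow_pos hpp.pos 2) this
    haveI : (Subgroup.zpowers a).Normal := H5.normal_of_index_eq P.isPGroup' hi
    exact ⟨Subgroup.zpowers a, inferInstance, inferInstance, isCyclic_of_prime_card hi⟩
  have h := fus_of_isMetacyclic P hm fun h => hp h.1
  refine ⟨Subgroup.map_subtype_le _, fun x hx g hg => ?_⟩
  obtain ⟨m, hm, e⟩ := h.elt' (Subgroup.map_subtype_le _ hx) (Subgroup.mem_top g) hg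
  rw [map_subtype_center] at hx ⊢
  rw [← e]
  exact conj_mem_of_mem_normalizer (le_normalizer_inf le_rfl (normalizer_le_normalizer_centralizer _) hm.2) hx

end Cfsg.Agent.S3053
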