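import Mathlib
import Cfsg.Statements.S3054
import Cfsg.Agent.Lib.Loc91.ExtraP
-- import your own Cfsg.Agent.* helpers here

set_option autoImplicit false
open Cfsg

namespace Cfsg.Agent.S3054

open H69 H5 H91 Subgroup

/-- Let p be an odd prime and G a finite group with a Sylow p-subgroup P that is extraspecial of order p³ and exponent p. Suppose P contains three distinct subgroups A of order p² (each is elementary abelian of rank 2) such that every automorphism of A of order p is induced by conjugation by an element of G; equivalently the automorphism group induced on A by its normalizer contains the special linear group of A. Then p ≤ 13. -/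
theorem result {G : Type*} [Group G] [Finite G]
    {p : ℕ} [Fact p.Prime] (hp : p ≠ 2) (P : Sylow p G) (hE : Cfsg.IsExtraspecial p ↥P)
    (hcard : Nat.card P = p ^ 3) (hexp : Monoid.exponent ↥P = p)
    (A : Fin 3 → Subgroup G) (hA : Function.Injective A) (hAP : ∀ i, A i ≤ (P : Subgroup G))
    (hAcard : ∀ i, Nat.card ↥(A i) = p ^ 2)
    (hSL : ∀ i, ∀ φ : MulAut ↥(A i), orderOf φ = p → ∃ g : G, ∀ a : ↥(A i), (φ a : G) = g * (a : G) * g⁻¹) :
    p ≤ 13 := by
  classical
  have hpp : p.Prime := Fact.out
  obtain ⟨z, x, y, h⟩ := exists_xs hE hcard hexp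
  have hP := isSylowIn_top P
  have hfull : ∀ i (B : Subgroup G), A i < B → B ≤ P → B = P := by
    intro i B h1 h2
    obtain ⟨k, hk, hk'⟩ := (Nat.dvd_prime_pow hpp).1 (h.card ▸ card_dvd_of_le h2)
    have h3 : Nat.card (A i) < Nat.card B := by
      refine lt_of_le_of_ne (card_le_of_le h1.le) fun h0 => h1.ne (eq_of_le_of_card_ge h1.le h0.ge)
    rw [hAcard, hk', Nat.pow_lt_pow_iff_right hpp.one_lt] at h3
    exact eq_of_le_of_card_ge h2 (by rw [h.card, hk', show k = 3 by omega])
  have hlt : ∀ i, A i < P := by
    intro i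
    refine lt_of_le_of_ne (hAP i) fun h0 => ?_
    have := hAcard i
    rw [h0, h.card] at this
    exact absurd (Nat.pow_right_injective hpp.two_le this) (by norm_num)
  have hne : ∀ i, A i ≠ ⊥ := by
    intro i h0
    have := hAcard i
    rw [h0, card_bot] at this
    exact absurd (Nat.pow_right_injective hpp.two_le ((pow_zero p).trans this)) (by norm_num)
  have hz : ∀ i, z ∈ A i := by
    intro i
    have h1 : (P : Subgroup G) ≤ 𝐍(A i) := by
      rw [← hfull i _ (lt_inf_normalizer_of_lt P.isPGroup' (hlt i)) inf_le_left]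
      exact inf_le_right
    obtain ⟨⟨c, hc⟩, hc1⟩ := Subgroup.ne_bot_iff_exists_ne_one.1
      (inf_centralizer_ne_bot (P.isPGroup'.to_le (hAP i)) P.isPGroup' h1 (hne i))
    have hcz : c ∈ zpowers z := h.wes.cent ▸ ⟨hAP i hc.1, hc.2⟩
    obtain ⟨k, hk⟩ := exists_zpow_eq_of_prime hpp h.wes.ord hcz
      (fun h0 => hc1 (Subtype.ext h0)) (mem_zpowers z)
    exact hk ▸ (A i).zpow_mem hc.1 k
  have hex : ∀ i, ∃ a ∈ A i, a ∉ zpowers z := by
    intro i
    by_contra hc
    push Not at hc
    have := card_le_of_le (show A i ≤ zpowers z from hc)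
    rw [hAcard, h.wes.card_zpowers] at this
    nlinarith [hpp.two_le]
  choose a ha haz using hex
  have hzp := h.ex z h.wes.mem
  have key : ∀ i, XS.Rad p (P : Subgroup G) z (a i) ∧
      ∀ b ∈ A i, ∃ s t : ℕ, b = a i ^ s * z ^ t := by
    intro i
    have haP := hAP i (ha i)
    have hap := h.ex _ haP
    have hc : Commute (a i) z := h.wes.commute (mem_zpowers z) haP
    let e : Multiplicative (ZMod p × ZMod p) →* A i := MonoidHom.mk'
      (fun v => ⟨a i ^ v.toAdd.1.val * z ^ v.toAdd.2.val,
        mul_mem (pow_mem (ha i) _) (pow_mem (hz i) _)⟩) (fun v w => by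
        apply Subtype.ext
        simp only [toAdd_mul, Prod.fst_add, Prod.snd_add, coe_mul]
        rw [zp_add hap, zp_add hzp, mul_assoc, mul_assoc, ← mul_assoc (z ^ _),
          (hc.symm.pow_pow _ _).eq]
        group)
    have he : ∀ s t : ZMod p, ((e (Multiplicative.ofAdd (s, t)) : A i) : G) =
        a i ^ s.val * z ^ t.val := fun s t => rfl
    have hinj : Function.Injective e := by
      rw [injective_iff_map_eq_one]
      intro v hv
      have h1 : a i ^ v.toAdd.1.val * z ^ v.toAdd.2.val = 1 := congrArg Subtype.val hv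
      have h2 := congrArg (co p z x y) h1
      rw [h.co_mul (pow_mem haP _) (pow_mem h.wes.mem _), h.co_pow haP,
        h.co_of_mem (pow_mem (mem_zpowers z) _), h.co_of_mem (one_mem _), add_zero,
        ZMod.natCast_zmod_val, smul_eq_zero] at h2
      have h3 := h2.resolve_right (h.co_ne_zero haP (haz i))
      rw [h3, ZMod.val_zero, pow_zero, one_mul] at h1
      have h4 : v.toAdd.2 = 0 := zp_inj h.wes.ord (by rw [h1, ZMod.val_zero, pow_zero])
      exact Multiplicative.toAdd.injective (Prod.ext h3 h4)
    have hbij : Function.Bijective e := by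
      refine hinj.bijective_of_nat_card_le ?_
      rw [hAcard]
      simp [pow_two]
    let E := MulEquiv.ofBijective e hbij
    let τ : ZMod p → MulAut (Multiplicative (ZMod p × ZMod p)) := fun t =>
      { toFun := fun v => Multiplicative.ofAdd (v.toAdd.1 + t * v.toAdd.2, v.toAdd.2)
        invFun := fun v => Multiplicative.ofAdd (v.toAdd.1 - t * v.toAdd.2, v.toAdd.2)
        left_inv := fun v => by simp
        right_inv := fun v => by simp
        map_mul' := fun v w => by
          rw [← ofAdd_add]
          congr 1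
          ext <;> simp
          ring }
    have hτ : ∀ k : ℕ, τ 1 ^ k = τ k := by
      intro k
      induction k with
      | zero => ext v <;> simp [τ]
      | succ k ih =>
        rw [pow_succ, ih]
        ext v <;> simp [τ]
        ring
    have hord : orderOf (τ 1) = p := by
      refine orderOf_eq_prime ?_ ?_
      · rw [hτ]; ext v <;> simp [τ]
      · intro h0
        have := congrArg (fun φ : MulAut _ => (φ (Multiplicative.ofAdd (0, 1))).toAdd.1) h0
        simp [τ] at this
    obtain ⟨g, hg⟩ := hSL i (MulAut.congr E (τ 1)) (by rw [MulEquiv.orderOf_eq, hord])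
    have hg' : ∀ s t : ZMod p, a i ^ (s + t).val * z ^ t.val =
        g * (a i ^ s.val * z ^ t.val) * g⁻¹ := by
      intro s t
      have := hg (E (Multiplicative.ofAdd (s, t)))
      rw [MulAut.congr_apply, MulEquiv.trans_apply, MulEquiv.trans_apply,
        MulEquiv.symm_apply_apply] at this
      simpa [τ, E, he] using this
    refine ⟨⟨haP, haz i, g, ?_, ?_⟩, fun b hb => ?_⟩
    · simpa [ZMod.val_one] using (hg' 1 0).symm
    · simpa [ZMod.val_one] using (hg' 0 1).symm
    · obtain ⟨v, hv⟩ := hbij.2 ⟨b, hb⟩
      exact ⟨_, _, (congrArg Subtype.val hv).symm⟩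
  have hinj : ∀ i j, Commute (a i) (a j) → i = j := by
    intro i j hij
    by_contra hne
    have hcc : ∀ i j, Commute (a i) (a j) → A i ≤ 𝐂(A j) := by
      intro i j hij b hb
      rw [mem_centralizer_iff_commute]
      intro c hc
      obtain ⟨s, t, rfl⟩ := (key i).2 b hb
      obtain ⟨s', t', rfl⟩ := (key j).2 c hc
      have h1 := h.wes.commute (mem_zpowers z) (hAP i (ha i))
      have h2 := h.wes.commute (mem_zpowers z) (hAP j (ha j))
      exact (((hij.symm.pow_pow _ _).mul_right (h2.pow_pow _ _)).mul_left
        ((h1.symm.pow_pow _ _).mul_right ((Commute.refl z).pow_pow _ _))).eq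
    have h1 : A i < A i ⊔ A j := by
      refine lt_of_le_of_ne le_sup_left fun h0 => hne (hA ?_)
      exact (eq_of_le_of_card_ge (h0 ▸ le_sup_right) (by rw [hAcard, hAcard])).symm
    have h2 := hfull i _ h1 (sup_le (hAP i) (hAP j))
    have h3 : A i ⊔ A j ≤ 𝐂(A i ⊔ A j) := by
      rw [centralizer_sup]
      exact sup_le (le_inf (hcc i i (Commute.refl _)) (hcc i j hij))
        (le_inf (hcc j i hij.symm) (hcc j j (Commute.refl _)))
    rw [h2] at h3
    have h4 := mem_centralizer_iff_commute.1 (h3 h.hy) x h.hx
    exact h.z_ne_one (h.xy ▸ commutatorElement_eq_one_iff_mul_comm.2 h4)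
  have hb := h.card_bound hP (Finset.univ.image a) (by
    intro b hb
    obtain ⟨j, -, rfl⟩ := Finset.mem_image.1 hb
    exact (key j).1) (by
    intro b hb c hc hab
    obtain ⟨i, -, rfl⟩ := Finset.mem_image.1 hb
    obtain ⟨j, -, rfl⟩ := Finset.mem_image.1 hc
    rw [hinj i j hab])
  rw [Finset.card_image_of_injective _ (show Function.Injective a from fun i j hij => hinj i j (by rw [hij])),
    Finset.card_univ, Fintype.card_fin] at hb
  by_contra hc
  by_cases h19 : 19 ≤ p
  · have h3 : Nat.gcd (p - 1) 3 ≤ 3 := Nat.gcd_le_right _ (by norm_num)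
    have h4 : 0 < Nat.gcd (p - 1) 3 := Nat.gcd_pos_of_pos_right _ (by norm_num)
    have := hb.1 ((Nat.le_div_iff_mul_le h4).2 (by omega))
    omega
  · have h5 : p < 19 := by omega
    have h6 : 13 < p := by omega
    clear * - hb hpp h5 h6
    interval_cases p <;> first | (exfalso; revert hpp; norm_num; done) | (revert hb; norm_num)

end Cfsg.Agent.S3054
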