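import Mathlib
import Cfsg.Statements.S3055
import Cfsg.Agent.Lib.Loc91.ExtraP
-- import your own Cfsg.Agent.* helpers here

set_option autoImplicit false
open Cfsg

namespace Cfsg.Agent.S3055

open H69 H5 H91 Subgroup

/-- Let p be an odd prime and G a finite group with a Sylow p-subgroup P that is extraspecial of order p³ and exponent p. If all nonidentity elements of P are conjugate in G, then p ≤ 7. -/
theorem result {G : Type*} [Group G] [Finite G]
    {p : ℕ} [Fact p.Prime] (hp : p ≠ 2) (P : Sylow p G) (hE : Cfsg.IsExtraspecial p ↥P)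
    (hcard : Nat.card P = p ^ 3) (hexp : Monoid.exponent ↥P = p)
    (hconj : ∀ x y : ↥P, x ≠ 1 → y ≠ 1 → ∃ g : G, g * (x : G) * g⁻¹ = (y : G)) :
    p ≤ 7 := by
  classical
  have hpp : p.Prime := Fact.out
  obtain ⟨z, x, y, h⟩ := exists_xs hE hcard hexp
  have hP := isSylowIn_top P
  have hrad : ∀ a ∈ (P : Subgroup G), a ∉ zpowers z → XS.Rad p (P : Subgroup G) z a := by
    intro a ha haz
    have ha1 : a ≠ 1 := by rintro rfl; exact haz (one_mem _)
    obtain ⟨g, hg⟩ := hconj ⟨z, h.wes.mem⟩ ⟨a, ha⟩ (fun h0 => h.z_ne_one (congrArg Subtype.val h0))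
      (fun h0 => ha1 (congrArg Subtype.val h0))
    simp only at hg
    have h1 : (P : Subgroup G) ^ᶜ g ≤ centralizer {a} := by
      rw [← hg, ← cj_centralizer_singleton]
      refine cj_mono g fun u hu => mem_centralizer_singleton_iff.2 ?_
      exact (h.wes.commute (mem_zpowers z) hu).eq
    have h2 : IsSylowIn p ((P : Subgroup G) ^ᶜ g) (centralizer {a}) :=
      (hP.cj_of_mem (mem_top g)).mono h1 le_top
    obtain ⟨c, hc, hzc⟩ := h2.exists_le_cj (h.wes.isPGroup.to_le h.wes.zpowers_le)
      (zpowers_le.2 (mem_centralizer_singleton_iff.2 (h.wes.commute (mem_zpowers z) ha).symm.eq))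
    rw [cj_cj] at hzc
    obtain ⟨w, hw, hzw⟩ := mem_cj'.1 (hzc (mem_zpowers z))
    have hk : c * g * z * (c * g)⁻¹ = a := by
      have := mem_centralizer_singleton_iff.1 hc
      calc c * g * z * (c * g)⁻¹ = c * (g * z * g⁻¹) * c⁻¹ := by group
        _ = a := by rw [hg, this]; group
    generalize c * g = k at hzw hk
    have hwz : w ∉ zpowers z := by
      intro hwz
      have hoa : orderOf a = p := by
        rw [← hk, ← h.wes.ord]
        exact (MulAut.conj k).orderOf_eq z
      have hza : z ∈ zpowers a := by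
        rw [hzw, ← hk, ← cj_zpowers]; exact cj_mem k hwz
      obtain ⟨i, hi⟩ := exists_zpow_eq_of_prime hpp hoa hza h.z_ne_one (mem_zpowers a)
      exact haz ⟨i, hi⟩
    obtain ⟨u, -, hu1, hu2⟩ := h.exists_act hw hwz
    simp only [ZMod.val_one, ZMod.val_zero, pow_one, pow_zero, one_mul] at hu1 hu2
    refine ⟨ha, haz, k * u * k⁻¹, ?_, ?_⟩
    · simp only [ZMod.val_one, ZMod.val_zero, pow_one, pow_zero, mul_one]
      calc k * u * k⁻¹ * a * (k * u * k⁻¹)⁻¹
          = k * u * k⁻¹ * (k * z * k⁻¹) * (k * u * k⁻¹)⁻¹ := by rw [hk]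
        _ = k * (u * z * u⁻¹) * k⁻¹ := by group
        _ = a := by rw [hu2, hk]
    · simp only [ZMod.val_one, pow_one]
      calc k * u * k⁻¹ * z * (k * u * k⁻¹)⁻¹
          = k * u * k⁻¹ * (k * w * k⁻¹) * (k * u * k⁻¹)⁻¹ := by rw [← hzw]
        _ = k * (u * w * u⁻¹) * k⁻¹ := by group
        _ = (k * w * k⁻¹) * (k * z * k⁻¹) := by rw [hu1]; group
        _ = a * z := by rw [← hzw, hk, (h.wes.commute (mem_zpowers z) ha).eq]
  let f : ZMod p → G := fun j => x * y ^ j.val
  have hfP : ∀ j, f j ∈ (P : Subgroup G) := fun j => mul_mem h.hx (pow_mem h.hy _)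
  have hco : ∀ j, co p z x y (f j) = ![1, j] := by
    intro j
    rw [h.co_mul h.hx (pow_mem h.hy _), h.co_pow h.hy, h.co_x, h.co_y]
    simp
  have hinj : ∀ i j, Commute (f i) (f j) → i = j := by
    intro i j hij
    have := h.bf_of_commute hij
    rw [h.bf_eq (hfP i) (hfP j), hco, hco] at this
    simpa [sub_eq_zero, eq_comm] using this
  have hb := h.card_bound hP (Finset.univ.image f) (by
    intro a ha
    obtain ⟨j, -, rfl⟩ := Finset.mem_image.1 ha
    refine hrad _ (hfP j) fun h0 => ?_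
    have := congrFun ((hco j).symm.trans (h.co_of_mem h0)) 0
    simp at this) (by
    intro a ha b hb hab
    obtain ⟨i, -, rfl⟩ := Finset.mem_image.1 ha
    obtain ⟨j, -, rfl⟩ := Finset.mem_image.1 hb
    rw [hinj i j hab])
  rw [Finset.card_image_of_injective _ (show Function.Injective f from fun i j hij => hinj i j (by rw [hij])),
    Finset.card_univ, ZMod.card] at hb
  by_contra hc
  by_cases h19 : 19 ≤ p
  · have h3 : Nat.gcd (p - 1) 3 ≤ 3 := Nat.gcd_le_right _ (by norm_num)
    have h4 : 0 < Nat.gcd (p - 1) 3 := Nat.gcd_pos_of_pos_right _ (by norm_num)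
    have := hb.1 ((Nat.le_div_iff_mul_le h4).2 (by omega))
    omega
  · have h5 : p < 19 := by omega
    have h6 : 7 < p := by omega
    clear * - hb hpp h5 h6
    interval_cases p <;> first | (exfalso; revert hpp; norm_num; done) | (revert hb; norm_num)

end Cfsg.Agent.S3055
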