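import Cfsg.Statements.S3057
import Mathlib
import Cfsg.Agent.Base
import Cfsg.Agent.Lib.Functor.SPE2
import Cfsg.Agent.Lib.Comp.PConstrained
import Cfsg.Agent.S0016

set_option autoImplicit false
open Cfsg

namespace Cfsg.Agent.S3057

/-- Let p be a prime and G a finite p-solvable group of order divisible by p, with Sylow p-subgroup P. Then the Sylow p-subgroups of G fail to be chain-connected through nontrivial intersections (equivalently, G has a strongly p-embedded subgroup) if and only if O_p(G) = 1 and P is cyclic or, for p = 2, generalized quaternion. -/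
theorem result {G : Type*} [Group G] [Finite G]
    (p : ℕ) [Fact p.Prime] (hdiv : p ∣ Nat.card G) (hsol : Cfsg.IsPSolvable p G) (P : Sylow p G) :
    ¬ Cfsg.IsSylowChainConnected p G ↔
      Cfsg.pCore p G = ⊥ ∧ (IsCyclic ↥P ∨ (p = 2 ∧ ∃ n : ℕ, Nonempty (↥P ≃* QuaternionGroup (2 ^ n)))) := by
  open Subgroup H69 H59 in
  rw [not_chainConnected_iff]
  have hP1 : (P : Subgroup G) ≠ ⊥ := (isSylowIn_top P).dvd_card_iff.1 (by rwa [card_top])
  constructor
  · rintro ⟨M, hM⟩
    have hO := H68.spe_normal_pSubgroup_eq_bot hM (H1.isPGroup_pCore (p := p) (G := G))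
    refine ⟨hO, S0016.result p P.isPGroup' ?_⟩
    obtain ⟨z, hz, hzo⟩ := exists_orderOf_eq_prime (P.isPGroup'.to_le inf_le_left)
      (center_ne_bot P.isPGroup' hP1)
    suffices key : ∀ y ∈ (P : Subgroup G), orderOf y = p → y ∈ zpowers z by
      have : ∀ H : Subgroup P, Nat.card H = p → H.map (P : Subgroup G).subtype = zpowers z := by
        intro H hH
        refine eq_of_le_of_card_ge ?_ (by rw [card_map_subtype, hH, Nat.card_zpowers, hzo])
        rintro _ ⟨y, hy, rfl⟩
        by_cases hy1 : y = 1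
        · rw [hy1, map_one]; exact one_mem _
        · refine key _ y.2 ?_
          rw [coe_subtype, orderOf_coe]
          refine orderOf_eq_prime ?_ hy1
          exact orderOf_dvd_iff_pow_eq_one.1 ((H.orderOf_dvd_natCard hy).trans hH.dvd)
      exact fun H K hH hK => H69.map_subtype_inj.1 ((this H hH).trans (this K hK).symm)
    intro y hy hyo
    by_contra hne
    obtain ⟨S, hS⟩ := H68.spe_exists_sylow_le hM
    obtain ⟨g, -, hg⟩ := (isSylowIn_top S).conj (isSylowIn_top P)
    have hM' := H68.spe_cj hM g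
    have hPM : (P : Subgroup G) ≤ M ^ᶜ g := hg ▸ cj_mono g hS
    have hc : Commute z y := (mem_centralizer_iff_commute.1 hz.2 y hy).symm
    have hAS : zpowers z ⊔ zpowers y ≤ P := sup_le (zpowers_le.2 hz.1) (zpowers_le.2 hy)
    have hD : pPrimeCore p G ≤ M ^ᶜ g := le_of_spe_of_noncyclic hM'
      (sup_isMulCommutative (zpowers_le_centralizer_self z) (zpowers_le_centralizer_self y) (by
        rw [centralizer_zpowers, zpowers_le]; exact mem_centralizer_singleton_iff.2 hc.eq))
      (not_isCyclic_sup_zpowers hzo hyo hc hne) (P.isPGroup'.to_le hAS) (hAS.trans hPM)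
      (le_top.trans (normal_iff_top_le_normalizer.1 inferInstance)) H1.coprime_card_pPrimeCore
    have hcon := H23.isPConstrained_iff.1 (H23.isPConstrained_of_isPSolvable hsol)
    have hF : IsSylowIn p (P ⊓ pPrimePCore p G) (pPrimePCore p G) :=
      (isSylowIn_top P).inf_normal le_top (normal_iff_top_le_normalizer.1 inferInstance)
    have hmap : ((P : Subgroup G) ⊓ pPrimePCore p G).map (QuotientGroup.mk' (pPrimeCore p G)) =
        pCore p (G ⧸ pPrimeCore p G) := by
      have := hF.map (QuotientGroup.mk' (pPrimeCore p G))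
      rw [H23.map_mk'_pPrimePCore] at this
      exact (this.max _ this.le le_rfl H1.isPGroup_pCore).symm
    refine H68.spe_not_dvd_card_of_normal_le hM' (N := pPrimePCore p G) ?_ (hF.dvd_card_iff.2 ?_)
    · rw [H23.pPrimePCore_def, ← hmap, comap_map_eq, QuotientGroup.ker_mk']
      exact sup_le (inf_le_left.trans hPM) hD
    · intro e
      rw [e, Subgroup.map_bot] at hmap
      rw [← hmap, centralizer_bot, le_bot_iff] at hcon
      have h1 : pPrimeCore p G = ⊤ := by
        rw [eq_top_iff]; intro x _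
        have : QuotientGroup.mk' (pPrimeCore p G) x ∈ (⊥ : Subgroup _) := hcon ▸ mem_top _
        exact (QuotientGroup.eq_one_iff x).1 (mem_bot.1 this)
      exact H1.not_dvd_card_pPrimeCore (by rw [h1, card_top]; exact hdiv)
  · rintro ⟨hO, hP⟩
    obtain ⟨z, hz, hzo⟩ := exists_orderOf_eq_prime P.isPGroup' hP1
    refine ⟨𝐍(zpowers z), H68.spe_iff_sylow.2 ⟨hdiv, fun e => ?_, P, fun Q hQ hQ1 g hg => ?_⟩⟩
    · haveI : (zpowers z).Normal := normal_iff_top_le_normalizer.2 e.ge
      have := H1.le_pCore (P.isPGroup'.to_le (zpowers_le.2 hz))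
      rw [hO, le_bot_iff, zpowers_eq_bot] at this
      rw [this, orderOf_one] at hzo
      exact (Fact.out : p.Prime).one_lt.ne hzo
    · obtain ⟨y, hy, hyo⟩ := exists_orderOf_eq_prime (P.isPGroup'.to_le hQ) hQ1
      have hzQ : z ∈ Q := zpowers_le.2 hy (zpowers_eq_of_cyclic_or_quaternion hP (hQ hy) hz hyo hzo)
      refine mem_normalizer_of_cj_le ?_
      rw [cj_zpowers, zpowers_le]
      refine zpowers_eq_of_cyclic_or_quaternion hP hz (hQ (conj_mem_of_mem_normalizer hg hzQ)) hzo ?_
      rw [← hzo]; exact (MulAut.conj g).orderOf_eq z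

end Cfsg.Agent.S3057
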