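import Cfsg.Statements.S3058
import Mathlib
import Cfsg.Agent.Base
import Cfsg.Agent.Lib.Functor.SPE2

set_option autoImplicit false
open Cfsg

namespace Cfsg.Agent.S3058

/-- Let p be a prime and G a finite group whose Sylow p-subgroups are not chain-connected through nontrivial intersections (so G has a strongly p-embedded subgroup). If N and M are normal subgroups of G whose orders are both divisible by p, then the order of N ∩ M is divisible by p. Consequently, among the normal subgroups of G whose order is divisible by p there is a smallest one (the intersection of all of them). -/
theorem result {G : Type*} [Group G] [Finite G]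
    (p : ℕ) [Fact p.Prime] (hG : ¬ Cfsg.IsSylowChainConnected p G)
    (N M : Subgroup G) [N.Normal] [M.Normal] (hN : p ∣ Nat.card N) (hM : p ∣ Nat.card M) :
    p ∣ Nat.card ↥(N ⊓ M) := by
  open Subgroup H69 H59 in
  obtain ⟨H, hH⟩ := exists_spe_of_not_chainConnected hG
  exact spe_dvd_card_inf hH hN hM

end Cfsg.Agent.S3058
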