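import Cfsg.Statements.S3060
import Mathlib
import Cfsg.Agent.Base
import Cfsg.Agent.Lib.Tech58.DStar
import Cfsg.Agent.Lib.Core.PCore

set_option autoImplicit false
open Cfsg

namespace Cfsg.Agent.S3060

open Subgroup H45 H69 H58.DS

/-- The D*-Theorem. For a finite p-group S let D*(S) be the subgroup generated by the abelian subgroups A of S such that every x ∈ S with ⟨A, x⟩ of nilpotency class at most two centralizes A. Let p be an odd prime and H a finite p-stable group with Sylow p-subgroup S. Here H is p-stable in the following sense: the largest normal p-subgroup O_p(H) contains its centralizer in H, and for every normal p-subgroup P of H, every element acting quadratically on P has image in O_p(H/C_H(P)). Then D*(S) is a normal subgroup of H. -/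
theorem result {G : Type*} [Group G] [Finite G] {p : ℕ} [Fact p.Prime] (hp : p ≠ 2)
    (hc : Subgroup.centralizer (Cfsg.pCore p G : Set G) ≤ Cfsg.pCore p G)
    (hst : ∀ (P : Subgroup G) [P.Normal], IsPGroup p P → Cfsg.IsPStableOn p P) (S : Sylow p G) :
    (Cfsg.dStarOf (S : Subgroup G)).Normal := by
  rw [dStarOf_eq]
  have hF := fam_D S.isPGroup'
  set A := D (S : Subgroup G) with hA
  have hQS : pCore p G ≤ S := H1.pCore_le_sylow S
  have hQn : (pCore p G).Normal := inferInstance
  have hQp : IsPGroup p (pCore p G) := S.isPGroup'.to_le hQS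
  have hAQ : A ≤ pCore p G := H25.ZJ.le_pCore_of_stableFor (H25.ZJ.stableFor_of_isPStableOn _ hst) hc hF.1
    hF.2.1 (hQS.trans (le_normalizer.trans (norm_D _)))
  have hW1 : ncl A ⊤ ≤ D (pCore p G) := ncl_le_iff.2 fun g hg =>
    ((hF.mono hAQ hQS).cj (normal_iff_top_le_normalizer.1 hQn hg)).le_D
  have hWc := abelianS (D_abelian hQp) hW1
  have hWQ := hW1.trans (D_le _)
  haveI hWn : (ncl A ⊤).Normal := normal_iff_top_le_normalizer.2 (le_normalizer_ncl A ⊤)
  have hW : Fam S (ncl A ⊤) := by
    refine ⟨hWQ.trans hQS, hWc, fun x hx h3 => ?_⟩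
    have h4 := hst (ncl A ⊤) (hQp.to_le hWQ) x (eq_bot_iff.2 (h3 ▸ commutator_mono
      (commutator_mono le_sup_left le_sup_right) le_sup_right))
    have h5 := H25.ZJ.normalizer_sylow_inf_comap_sup_eq_top S 𝐂(ncl A ⊤) (pCore p _) H1.isPGroup_pCore
    set T := (S : Subgroup G) ⊓ (pCore p (G ⧸ 𝐂(ncl A ⊤))).comap (QuotientGroup.mk' 𝐂(ncl A ⊤)) with hT
    have hxT : x ∈ T := ⟨hx, h4⟩
    have hAT : A ≤ T := le_inf hF.1 fun a ha => by
      rw [mem_comap, QuotientGroup.mk'_apply, (QuotientGroup.eq_one_iff a).2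
        (abelian_iff_le_centralizer.1 hWc (le_ncl A ⊤ ha))]
      exact one_mem _
    rw [← zpowers_le, centsC]
    refine ncl_le_iff.2 fun g hg => ?_
    rw [← h5, mem_sup_of_le_normalizer_right (fun y _ => normal_iff_top_le_normalizer.1 inferInstance
      (mem_top y))] at hg
    obtain ⟨n, hn, c, hc', rfl⟩ := hg
    rw [← cj_cj, cj_eq_of_mem_centralizer (centralizer_anti (le_ncl A ⊤) hc'), centsC, zpowers_le]
    refine ((hF.mono hAT inf_le_left).cj hn).2.2 x hxT (eq_bot_iff.2 (h3 ▸ ?_))
    have : A ^ᶜ n ⊔ zpowers x ≤ ncl A ⊤ ⊔ zpowers x := sup_le_sup_right (cj_le_ncl A (mem_top n)) _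
    exact commutator_mono (commutator_mono this this) this
  rwa [le_antisymm hW.le_D (le_ncl A ⊤)] at hWn

end Cfsg.Agent.S3060
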