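import Cfsg.Statements.S3062
import Mathlib
import Cfsg.Agent.Base
import Cfsg.Agent.Lib.Tech58.DStar

set_option autoImplicit false
open Cfsg

namespace Cfsg.Agent.S3062

open Subgroup H45 H69 H58.DS

/-- Let S be a finite p-group, J(S) the subgroup generated by the abelian subgroups of S of largest order and Z(J(S)) its centre. Then Z(S) ≤ D*(S) ≤ Z(J(S)), and every maximal normal abelian subgroup of S contains D*(S). -/
theorem result {S : Type*} [Group S] [Finite S] {p : ℕ} [Fact p.Prime]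
    (hS : IsPGroup p S) :
    Subgroup.center S ≤ Cfsg.dStar S ∧
    Cfsg.dStar S ≤ Cfsg.thompsonSubgroupA S ⊓ Subgroup.centralizer (Cfsg.thompsonSubgroupA S : Set S) ∧
    ∀ A : Subgroup S, A.Normal → IsMulCommutative A →
      (∀ B : Subgroup S, B.Normal → IsMulCommutative B → A ≤ B → B = A) → Cfsg.dStar S ≤ A := by
  have hT := hS.to_subgroup ⊤
  have hF := fam_D hT
  have hn : (⊤ : Subgroup S) ≤ 𝐍(D ⊤) := le_normalizer.trans (norm_D ⊤)
  rw [← D_top]
  refine ⟨Fam.le_D ⟨le_top, inferInstance, fun x _ _ => mem_centralizer_iff_commute.2 fun a ha =>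
    (mem_center_iff.1 ha x).symm⟩, le_inf ?_ ?_, fun A hA1 hA2 hA3 => ?_⟩
  · obtain ⟨A, hA⟩ := H24.maxAb_nonempty (⊤ : Subgroup S)
    rw [← H24.thompsonSubgroupAOf_top]
    exact (D_le_of_maxAb hT hA).trans (H24.le_thompsonSubgroupAOf hA)
  · rw [centsC, ← H24.thompsonSubgroupAOf_top, H24.thompsonSubgroupAOf_le_iff]
    exact fun A hA => sub_abelian_cent2 hA.2.1 le_rfl (D_le_of_maxAb hT hA)
  · have hA : (⊤ : Subgroup S) ≤ 𝐍(A) := normal_iff_top_le_normalizer.1 hA1
    have := hA3 (D ⊤ ⊔ A) (normal_iff_top_le_normalizer.2 (le_normalizer_sup hn hA))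
      (abelian_sup hF.2.1 hA2 (hF.cent le_top hA2 (le_top.trans hA) (le_top.trans hn))) le_sup_right
    exact sup_eq_right.1 this

end Cfsg.Agent.S3062
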