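import Cfsg.Statements.S3064
import Mathlib
import Cfsg.Agent.Base
import Cfsg.Agent.Lib.Functor.Sect
import Cfsg.Agent.S0035

set_option autoImplicit false
open Cfsg

namespace Cfsg.Agent.S3064

section Aux
open Subgroup H69 H59
open scoped commutatorElement Pointwise

theorem step {G : Type*} [Group G] [Finite G] {p : ℕ} [Fact p.Prime] {x : G}
    (hxp : IsPGroup p (zpowers x))
    (hU : ∀ P : Subgroup G, IsPGroup p P → x ∈ P → ∀ g : G, g * x * g⁻¹ ∈ P → g * x * g⁻¹ = x)
    (hb : ∀ H : Subgroup G, (Nat.card H).Coprime p → x ∈ 𝐍(H) → x ∈ 𝐂(H))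
    (hM : ∀ H : Subgroup G, H ≠ ⊤ → x ∈ H → H ≤ 𝐂(zpowers x)) : x ∈ center G := by
  by_contra hx
  set M := 𝐂(zpowers x) with hMdef
  have hmem : ∀ g, g ∈ M ↔ g * x * g⁻¹ = x := fun g => by
    rw [hMdef, centralizer_zpowers, mem_centralizer_singleton_iff, mul_inv_eq_iff_eq_mul]
  have hxM : x ∈ M := (hmem x).2 (by group)
  have hZM : center G ≤ M := center_le_centralizer _
  have hMt : M ≠ ⊤ := fun e => hx (mem_center_iff.2 fun g =>
    mul_inv_eq_iff_eq_mul.1 ((hmem g).1 (e ▸ mem_top g)))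
  have hD : ∀ g ∉ M, M ⊓ M ^ᶜ g ≤ center G := by
    intro g hg d hd
    by_contra hdZ
    have h1 : 𝐂(zpowers d) ≠ ⊤ := fun e => hdZ (mem_center_iff.2 fun y =>
      (mem_centralizer_iff_commute.1 (e ▸ mem_top y : y ∈ 𝐂(zpowers d)) d (mem_zpowers d)).symm)
    have h2 : zpowers x ≤ 𝐂(zpowers d) := le_centralizer_iff.1 (zpowers_le.2 hd.1)
    have h3 : zpowers x ^ᶜ g ≤ 𝐂(zpowers d) := le_centralizer_iff.1 (zpowers_le.2 (by
      have := hd.2
      rwa [hMdef, cj_centralizer] at this))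
    have h4 : zpowers x ^ᶜ g ≤ 𝐂(zpowers x) := h3.trans (hM _ h1 (h2 (mem_zpowers x)))
    exact hg ((hmem g).2 (hU _ (isPGroup_sup_of_le_normalizer_left hxp (isPGroup_cj hxp g)
      (le_normalizer_of_le_centralizer h4)) (mem_sup_left (mem_zpowers x)) g
      (mem_sup_right (cj_mem g (mem_zpowers x)))))
  let π := QuotientGroup.mk' (center G)
  have hπ : Function.Surjective π := QuotientGroup.mk'_surjective _
  have hker : π.ker = center G := QuotientGroup.ker_mk' _
  have hcm : (M.map π).comap π = M := by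
    rw [comap_map_eq, hker, sup_eq_left.2 hZM]
  have hF : IsFrobeniusComplement (M.map π) := by
    refine ⟨fun e => hx ?_, fun e => hMt (by rw [← hcm, e, comap_top]), fun g hg => ?_⟩
    · rw [Subgroup.map_eq_bot_iff, hker] at e
      exact e hxM
    · obtain ⟨g, rfl⟩ := hπ g
      have hg' : g ∉ M := fun h => hg (mem_map_of_mem π h)
      rw [smul_eq_cj, eq_bot_iff]
      intro y hy
      obtain ⟨y, rfl⟩ := hπ y
      have h1 : y ∈ (M.map π).comap π := hy.1
      have h2 : y ∈ ((M.map π) ^ᶜ π g).comap π := hy.2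
      rw [← comap_cj, hcm] at h2
      rw [hcm] at h1
      exact (QuotientGroup.eq_one_iff y).2 (hD g hg' ⟨h1, h2⟩)
  obtain ⟨N, -, hN, hc⟩ := S0035.result _ hF
  set K := N.comap π with hK
  have hKM : K ⊓ M ≤ center G := fun y hy => by
    have : π y ∈ N ⊓ M.map π := ⟨hy.1, mem_map_of_mem π hy.2⟩
    rw [hc.disjoint.eq_bot] at this
    exact (QuotientGroup.eq_one_iff y).1 this
  have hsup : K ⊔ M = ⊤ := by
    rw [← hcm, hK, comap_sup_eq π _ _ hπ, hc.sup_eq_top, comap_top]
  obtain ⟨S, hS, hxS⟩ := exists_isSylowIn_le hxp (le_top (a := zpowers x))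
  have hSM : S ≤ M := fun s hs => (hmem s).2 (hU S hS.isP (hxS (mem_zpowers x)) s
    (S.mul_mem (S.mul_mem hs (hxS (mem_zpowers x))) (S.inv_mem hs)))
  have hKn : (⊤ : Subgroup G) ≤ 𝐍(K) := normal_iff_top_le_normalizer.1 inferInstance
  have hT := hS.inf_normal (le_top (a := K)) hKn
  have hTZ : S ⊓ K ≤ center G := (le_inf inf_le_right (inf_le_left.trans hSM)).trans hKM
  have hnpc := hasNormalPComplement_of_central hT (le_top.trans
    (le_centralizer_iff.1 (hTZ.trans (center_le_centralizer _))))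
  have h5 := hb _ (coprime_card_res hnpc) (le_normalizer_res_of_le hKn (mem_top x))
  refine hMt (eq_top_iff.2 (hsup.ge.trans (sup_le ?_ le_rfl)))
  exact hT.eq_of_res_le (inf_le_left.trans hSM) (le_centralizer_iff.1 (zpowers_le.2 h5))

theorem main {G : Type*} [Group G] [Finite G] {p : ℕ} [Fact p.Prime] {x : G}
    (hxp : IsPGroup p (zpowers x))
    (hU : ∀ P : Subgroup G, IsPGroup p P → x ∈ P → ∀ g : G, g * x * g⁻¹ ∈ P → g * x * g⁻¹ = x)
    (hb : ∀ H : Subgroup G, (Nat.card H).Coprime p → x ∈ 𝐍(H) → x ∈ 𝐂(H)) (L : Subgroup G)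
    (hx : x ∈ L) : L ≤ 𝐂(zpowers x) := by
  induction hn : Nat.card L using Nat.strong_induction_on generalizing L with
  | _ n ih =>
  have hz : (zpowers (⟨x, hx⟩ : L)).map L.subtype = zpowers x := by
    rw [MonoidHom.map_zpowers]; rfl
  have := step (p := p) (x := (⟨x, hx⟩ : L)) (by rwa [← isPGroup_map_subtype_iff, hz])
    (fun P hP hxP g hg => Subtype.ext (hU (P.map L.subtype) (isPGroup_map_subtype_iff.2 hP)
      (mem_map_of_mem L.subtype hxP) g (mem_map_of_mem L.subtype hg)))
    (fun H hH hxH => by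
      have h1 : x ∈ L ⊓ 𝐍(H.map L.subtype) := by
        rw [← map_subtype_normalizer]; exact mem_map_of_mem L.subtype hxH
      have h2 := hb (H.map L.subtype) (by rwa [card_map_subtype]) h1.2
      exact fun h hh => Subtype.ext (h2 h (mem_map_of_mem L.subtype hh)))
    (fun H hH hxH => by
      have h1 := ih _ (by
        rw [← hn, card_map_subtype]
        exact card_subgroup_lt hH) (H.map L.subtype) (mem_map_of_mem L.subtype hxH) rfl
      rw [← H69.map_subtype_le_iff, map_subtype_centralizer, hz]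
      exact le_inf (map_subtype_le _) h1)
  refine le_centralizer_iff.1 (zpowers_le.2 fun y hy => ?_)
  exact congrArg Subtype.val (mem_center_iff.1 this ⟨y, hy⟩)
end Aux

/-- Let S be a Sylow p-subgroup of the finite group G and x an element of S such that (i) x is the only G-conjugate of x lying in S, and (ii) x centralizes every subgroup of order prime to p that it normalizes. Then x lies in the centre of G. -/
theorem result {G : Type*} [Group G] [Finite G] {p : ℕ} [Fact p.Prime]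
    (S : Sylow p G) (x : G) (hx : x ∈ S)
    (hU : ∀ g : G, g⁻¹ * x * g ∈ S → g⁻¹ * x * g = x)
    (hb : ∀ H : Subgroup G, (Nat.card H).Coprime p → (∀ h ∈ H, x * h * x⁻¹ ∈ H) → ∀ h ∈ H, x * h = h * x) :
    x ∈ Subgroup.center G := by
  open Subgroup H69 H59 in
  have hS := isSylowIn_top S
  have h := main (p := p) (x := x) (S.isPGroup'.to_le (Subgroup.zpowers_le.2 hx)) (fun P hP hxP g hg => by
      obtain ⟨k, -, hk⟩ := hS.exists_cj_le hP le_top
      have h1 := hU k⁻¹ (by rw [inv_inv]; exact hk (cj_mem k hxP))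
      have h2 := hU (k * g)⁻¹ (by
        rw [show (k * g)⁻¹⁻¹ * x * (k * g)⁻¹ = k * (g * x * g⁻¹) * k⁻¹ by group]
        exact hk (cj_mem k hg))
      calc g * x * g⁻¹ = k⁻¹ * ((k * g)⁻¹⁻¹ * x * (k * g)⁻¹) * k := by group
        _ = k⁻¹ * (k⁻¹⁻¹ * x * k⁻¹) * k := by rw [h1, h2]
        _ = x := by group)
    (fun H hH hxH h hh => (hb H hH (fun h hh => conj_mem_of_mem_normalizer hxH hh) h hh).symm)
    ⊤ (Subgroup.mem_top x)
  exact Subgroup.mem_center_iff.2 fun g => (h (Subgroup.mem_top g) x (Subgroup.mem_zpowers x)).symm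

end Cfsg.Agent.S3064
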