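import Cfsg.Statements.S3070
import Cfsg.Agent.Lib.Misc92.JNormC
import Cfsg.Agent.S2007
import Cfsg.Agent.S0071
-- import your own Cfsg.Agent.* helpers here

set_option autoImplicit false
open Cfsg

namespace Cfsg.Agent.S3070

/-- Let p ≥ 5 be a prime, S a Sylow p-subgroup of the finite group G and J(S) the subgroup generated by the abelian subgroups of S of largest order. Then G has a normal p-complement if and only if N_G(J(S))/C_G(J(S)) is a p-group (every element of N_G(J(S)) of order prime to p centralizes J(S)). -/
theorem result {G : Type*} [Group G] [Finite G] {p : ℕ} [Fact p.Prime]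
    (hp : 5 ≤ p) (S : Sylow p G) :
    Cfsg.HasNormalPComplement p G ↔
      ∀ g ∈ Subgroup.normalizer (Cfsg.thompsonSubgroupAOf (S : Subgroup G) : Set G), (orderOf g).Coprime p →
        g ∈ Subgroup.centralizer (Cfsg.thompsonSubgroupAOf (S : Subgroup G) : Set G) := by
  refine ⟨fun h g hg hco => ?_, fun h => H92.JN.npc_of_thompsonA hp S ?_⟩
  · exact (Cfsg.Agent.S0071.result S).1 ⟨_, H4.pResidual_normal _ _, H4.isComplement'_pResidual h S⟩
      _ (H24.thompsonSubgroupAOf_le _) g hg hco
  · obtain ⟨A, hA⟩ := H24.maxAb_nonempty (S : Subgroup G)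
    exact Cfsg.Agent.S2007.result S _ (H24.thompsonSubgroupAOf_le _)
      (Subgroup.le_normalizer.trans (H24.normalizer_le_normalizer_thompsonSubgroupAOf _))
      ((H24.centralizer_thompsonA_le hA).trans (H24.le_thompsonSubgroupAOf hA)) h

end Cfsg.Agent.S3070
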