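import Cfsg.Statements.S3074
import Mathlib
import Cfsg.Agent.Base
import Cfsg.Agent.Lib.Functor.Qd2

set_option autoImplicit false
open Cfsg

namespace Cfsg.Agent.S3074

/-- Let p be an odd prime. A Sylow p-subgroup of Qd(p), the split extension of an elementary abelian group of order p² by SL₂(p) acting naturally, is extraspecial of order p³ and exponent p. -/
theorem result (p : ℕ) [Fact p.Prime] (hp : p ≠ 2) (P : Sylow p ↥(Cfsg.qd p)) :
    Cfsg.IsExtraspecial p ↥P ∧ Nat.card P = p ^ 3 ∧ Monoid.exponent ↥P = p := by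
  open Subgroup H69 H59 in
  obtain ⟨e, he⟩ := exists_equiv_S0 (MulEquiv.refl _) P
  let φ : H76.Heis (ZMod p) 1 ≃* P := (heisEquiv p).trans
    ((e.subgroupMap (P : Subgroup _)).trans (MulEquiv.subgroupCongr he)).symm
  refine ⟨H76.isExtraspecial_of_equiv φ (H76.Heis.isExtraspecial le_rfl), ?_, ?_⟩
  · rw [← Nat.card_congr φ.toEquiv, H76.Heis.card_eq, Nat.card_zmod]
  · refine (Monoid.exponent_eq_of_mulEquiv φ).symm.trans ?_
    haveI : Nontrivial (H76.Heis (ZMod p) 1) :=
      ⟨⟨1, ⟨0, 0, 1⟩, fun h => zero_ne_one (congrArg H76.Heis.c h)⟩⟩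
    exact Monoid.exponent_eq_prime_iff (Fact.out) |>.2 fun g hg =>
      orderOf_eq_prime (H76.Heis.pow_prime_eq_one hp g) hg

end Cfsg.Agent.S3074
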