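import Cfsg.Statements.S3075
import Mathlib
import Cfsg.Agent.Base
import Cfsg.Agent.Lib.Functor.Sect
import Cfsg.Agent.Lib.Core.Coprime
import Cfsg.Agent.Lib.SL2Elt.Order
import Cfsg.Agent.Lib.FF.Offender

set_option autoImplicit false
open Cfsg

namespace Cfsg.Agent.S3075

/-- Let p be an odd prime and N a finite group with a normal elementary abelian subgroup A of order p² that is its own centralizer in N, such that N/A is isomorphic to SL₂(p) (over any field F with p elements). Then N splits over A: some subgroup U of N satisfies A ∩ U = 1 and AU = N. -/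
theorem result {N : Type*} [Group N] [Finite N] {p : ℕ} [Fact p.Prime] (hp : p ≠ 2)
    (A : Subgroup N) [A.Normal] (hAcomm : IsMulCommutative A) (hAcard : Nat.card A = p ^ 2) (hAexp : Monoid.exponent ↥A = p)
    (hAself : Subgroup.centralizer (A : Set N) = A)
    {F : Type*} [Field F] [Fintype F] (hF : Fintype.card F = p) (e : N ⧸ A ≃* Matrix.SpecialLinearGroup (Fin 2) F) :
    ∃ U : Subgroup N, A ⊓ U = ⊥ ∧ A ⊔ U = ⊤ := by
  open Subgroup H69 H59 in
  have hpp : p.Prime := Fact.out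
  have hodd : Odd p := hpp.odd_of_ne_two hp
  have h2 : (2 : F) ≠ 0 := H64.SL2.two_ne_zero_of_odd (hF ▸ hodd)
  have hp0 : (p : F) = 0 := by rw [← hF]; exact FiniteField.cast_card_eq_zero F
  let f : N →* Matrix.SpecialLinearGroup (Fin 2) F := e.toMonoidHom.comp (QuotientGroup.mk' A)
  have hf : Function.Surjective f := e.surjective.comp (QuotientGroup.mk'_surjective A)
  have hker : ∀ x, f x = 1 ↔ x ∈ A := fun x => by
    simp [f]
  have hA : ∀ a ∈ A, a ^ p = 1 := fun a ha => by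
    have := Monoid.pow_exponent_eq_one (⟨a, ha⟩ : A)
    rw [hAexp] at this
    exact congrArg Subtype.val this
  have hAp : IsPGroup p A := IsPGroup.of_card hAcard
  obtain ⟨t₀, ht₀⟩ := hf (-1)
  have ht : f (t₀ ^ p) = -1 := by rw [map_pow, ht₀, hodd.neg_one_pow]
  have ht2 : (t₀ ^ p) ^ 2 = 1 := by
    rw [← pow_mul, mul_comm, pow_mul]
    exact hA _ ((hker _).1 (by rw [map_pow, ht₀]; simp))
  generalize t₀ ^ p = t at ht ht2
  have htA : t ∉ A := fun h => H64.SL2.neg_one_ne_one h2 (ht ▸ (hker t).2 h)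
  have hcop : (Nat.card (Subgroup.zpowers t)).Coprime p := by
    rw [Nat.card_zpowers]
    exact Nat.Coprime.coprime_dvd_left (orderOf_dvd_of_pow_eq_one ht2) (by simpa using hodd)
  have hsup : A ⊔ (⊤ ⊓ 𝐂(Subgroup.zpowers t)) = ⊤ := by
    refine H2.sup_centralizer_eq_of_commutator_le (by rw [Subgroup.normalizer_eq_top]; exact le_top)
      le_top (H2.coprime_card_of_isPGroup hcop hAp) (Or.inl (H2.isSolvable_zpowers t)) ?_
    rw [Subgroup.commutator_le]
    rintro g - _ ⟨k, rfl⟩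
    rw [← hker, map_commutatorElement, commutatorElement_eq_one_iff_mul_comm, map_zpow, ht]
    exact Subgroup.mem_center_iff.1 (Subgroup.zpow_mem _ H64.SL2.neg_one_mem_center k) _
  rw [top_inf_eq] at hsup
  refine ⟨𝐂(Subgroup.zpowers t), ?_, hsup⟩
  by_contra hB
  obtain ⟨y, hy⟩ := hf (H64.SL2.mk 1 1 0 1 (by ring))
  obtain ⟨a, ha, x, hx, rfl⟩ := (mem_sup_of_le_normalizer_left (A := A) (B := 𝐂(Subgroup.zpowers t))
    (by rw [Subgroup.normalizer_eq_top]; exact le_top)).1 (hsup ▸ Subgroup.mem_top y)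
  rw [map_mul, (hker a).2 ha, one_mul] at hy
  have hxA : x ∉ A := fun h => by
    have := congrArg (fun g : Matrix.SpecialLinearGroup (Fin 2) F => g 0 1) (hy.symm.trans ((hker x).2 h))
    simp [H64.SL2.mk_01] at this
  have hxp : x ^ p ∈ A := by
    rw [← hker, map_pow, hy]
    obtain ⟨h1, h2, h3, h4⟩ := H64.SL2.pow_entries_of_tr_eq_two
      (g := H64.SL2.mk (1 : F) 1 0 1 (by ring)) (by simp [H64.SL2.ent]; norm_num) p
    refine H64.SL2.ext' ?_ ?_ ?_ ?_
    · rw [h1, hp0]; simp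
    · rw [h2, hp0]; simp
    · rw [h3, hp0]; simp
    · rw [h4, hp0]; simp
  have hX : IsPGroup p (Subgroup.zpowers x) := by
    rw [isPGroup_iff_mem]
    rintro _ ⟨k, rfl⟩
    refine ⟨2, ?_⟩
    change (x ^ k) ^ p ^ 2 = 1
    rw [← zpow_natCast, ← zpow_mul, mul_comm, zpow_mul, zpow_natCast, pow_two, pow_mul, hA _ hxp,
      one_zpow]
  have hN : ∀ X : Subgroup N, X ≤ 𝐍(A) := fun X => by
    rw [Subgroup.normalizer_eq_top]; exact le_top
  have hxt : Subgroup.zpowers x ≤ 𝐂(Subgroup.zpowers t) := Subgroup.zpowers_le.2 hx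
  have h3 : ¬ A ⊓ 𝐂(Subgroup.zpowers x) ≤ 𝐂(Subgroup.zpowers t) := fun h =>
    htA (hAself ▸ H2.thompson_PxQ hX hcop hAp hxt (hN _) (hN _) h (Subgroup.mem_zpowers t))
  have h4 : A ⊓ 𝐂(Subgroup.zpowers t) ⊓ 𝐂(Subgroup.zpowers x) ≠ ⊥ :=
    inf_centralizer_ne_bot hAp.to_inf_left hX
      (le_normalizer_inf (hN _) (le_normalizer_of_le hxt)) hB
  have h5 : A ⊓ 𝐂(Subgroup.zpowers t) ⊓ 𝐂(Subgroup.zpowers x) < A ⊓ 𝐂(Subgroup.zpowers x) :=
    lt_of_le_of_ne (inf_le_inf_right _ inf_le_left) fun e =>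
      h3 (e.ge.trans (inf_le_left.trans inf_le_right))
  have h6 : A ⊓ 𝐂(Subgroup.zpowers x) < A := lt_of_le_of_ne inf_le_left fun e =>
    hxA (hAself ▸ Subgroup.le_centralizer_iff.1 (e.ge.trans inf_le_right) (Subgroup.mem_zpowers x))
  have c1 := H23.card_mul_le_of_lt_of_isPGroup (hAp.to_inf_left.to_inf_left) (bot_lt_iff_ne_bot.2 h4)
  have c2 := H23.card_mul_le_of_lt_of_isPGroup hAp.to_inf_left h5
  have c3 := H23.card_mul_le_of_lt_of_isPGroup hAp h6
  rw [Subgroup.card_bot] at c1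
  rw [hAcard] at c3
  have := hpp.one_lt
  nlinarith [Nat.mul_le_mul_right p c1, Nat.mul_le_mul_right p c2]

end Cfsg.Agent.S3075
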