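import Cfsg.Statements.S3076
import Mathlib
import Cfsg.Agent.Base
import Cfsg.Agent.Lib.Functor.Gold

set_option autoImplicit false
open Cfsg

namespace Cfsg.Agent.S3076

/-- Let P be a Sylow p-subgroup of the finite group G and H ≤ P a subgroup with N_P(H) a Sylow p-subgroup of N_G(H). Let N be the preimage in N_G(H) of O_p(N_G(H)/C_G(H)). Then H is a Sylow p-subgroup of N if and only if C_P(H) ≤ H and O_{p',p}(N_G(H)) = H·C_G(H). -/
theorem result {G : Type*} [Group G] [Finite G] {p : ℕ} [Fact p.Prime]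
    (P : Sylow p G) (H : Subgroup G) (hHP : H ≤ (P : Subgroup G))
    (hSyl : ¬ p ∣ ((P : Subgroup G) ⊓ Subgroup.normalizer (H : Set G)).relIndex (Subgroup.normalizer (H : Set G)))
    [hC : ((Subgroup.centralizer (H : Set G)).subgroupOf (Subgroup.normalizer (H : Set G))).Normal] :
    (H ≤ ((Cfsg.pCore p (↥(Subgroup.normalizer (H : Set G)) ⧸
              (Subgroup.centralizer (H : Set G)).subgroupOf (Subgroup.normalizer (H : Set G)))).comap
            (QuotientGroup.mk' _)).map (Subgroup.normalizer (H : Set G)).subtype ∧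
      ¬ p ∣ H.relIndex (((Cfsg.pCore p (↥(Subgroup.normalizer (H : Set G)) ⧸
              (Subgroup.centralizer (H : Set G)).subgroupOf (Subgroup.normalizer (H : Set G)))).comap
            (QuotientGroup.mk' _)).map (Subgroup.normalizer (H : Set G)).subtype)) ↔
    ((P : Subgroup G) ⊓ Subgroup.centralizer (H : Set G) ≤ H ∧
      (Cfsg.pPrimePCore p ↥(Subgroup.normalizer (H : Set G))).map (Subgroup.normalizer (H : Set G)).subtype =
        H ⊔ Subgroup.centralizer (H : Set G)) := by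
  open Subgroup H69 H59 in
  have hT : IsSylowIn p (((P : Subgroup G) ⊓ 𝐍(H)).subgroupOf 𝐍(H)) ⊤ :=
    (isSylowIn_of_not_dvd_relIndex P.isPGroup'.to_inf_left inf_le_right hSyl).subgroupOf_top
  have hH : IsPGroup p H := P.isPGroup'.to_le hHP
  have key := isSylowIn_comap_pCore_iff (isPGroup_subgroupOf hH 𝐍(H)) hT
    (centralizer_subgroupOf (H := H) le_normalizer).symm
  have hm : (H.subgroupOf 𝐍(H)).map 𝐍(H).subtype = H := map_subgroupOf_eq_of_le le_normalizer
  have hm' : (𝐂(H).subgroupOf 𝐍(H)).map 𝐍(H).subtype = 𝐂(H) :=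
    map_subgroupOf_eq_of_le (centralizer_le_normalizer _)
  constructor
  · rintro ⟨h1, h2⟩
    have h3 := (isSylowIn_of_not_dvd_relIndex hH h1 h2).subgroupOf (map_subtype_le _)
    rw [subgroupOf_map_subtype'] at h3
    obtain ⟨h4, h5⟩ := key.1 h3
    refine ⟨fun x hx => h4 (x := ⟨x, centralizer_le_normalizer _ hx.2⟩)
      ⟨⟨hx.1, centralizer_le_normalizer _ hx.2⟩, hx.2⟩, ?_⟩
    rw [h5, Subgroup.map_sup, hm, hm']
  · rintro ⟨h1, h2⟩
    have h3 := (key.2 ⟨fun x hx => h1 ⟨hx.1.1, hx.2⟩, H69.map_subtype_inj.1 (by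
      rw [h2, Subgroup.map_sup, hm, hm'])⟩).map_subtype
    rw [hm] at h3
    exact ⟨h3.le, h3.not_dvd_relIndex⟩

end Cfsg.Agent.S3076
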