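import Cfsg.Statements.S3078
import Mathlib
import Cfsg.Agent.Base
import Cfsg.Agent.Lib.ZJ.Replacement
import Cfsg.Agent.Lib.Thompson.Basic
import Cfsg.Agent.Lib.BG.Api.Basic
import Cfsg.Agent.Lib.Transfer.Residual

set_option autoImplicit false
open Cfsg

namespace Cfsg.Agent.S3078

open Subgroup H45 H69 H25.ZJ

theorem card_omega_le {S : Type*} [Group S] [Finite S] {p : ℕ} (hp : Odd p) {A B : Subgroup S} {b : S}
    (h : GHyp A B b) (hc : IsMulCommutative (gStar A b)) :
    Nat.card (omegaOne p A) ≤ Nat.card (omegaOne p (gStar A b)) := by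
  rw [← H4.card_inf_mul_relIndex (gInf A b) (omegaOne p A),
    ← H4.card_inf_mul_relIndex (gInf A b) (omegaOne p (gStar A b))]
  have h1 : ∀ a : omegaOne p A, (a : S) ∈ A ∧ (a : S) ^ p = 1 := fun a =>
    (H24.mem_omegaOne_iff_of_comm h.comm).1 a.2
  refine Nat.mul_le_mul (Subgroup.card_le_of_le fun x hx =>
    ⟨hx.1, H24.mem_omegaOne (gInf_le_gStar hx.1) (h1 ⟨x, hx.2⟩).2⟩) ?_
  refine Nat.card_le_card_of_injective (fun q : omegaOne p A ⧸ (gInf A b).subgroupOf (omegaOne p A) =>
    ((⟨(q.out : S) * b⁻¹ * (q.out : S)⁻¹ * b, H24.mem_omegaOne (e_mem_gStar (h1 _).1)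
      (h.e_pow_eq_one (h1 _).1 hp (h1 _).2)⟩ : omegaOne p (gStar A b)) :
      omegaOne p (gStar A b) ⧸ (gInf A b).subgroupOf (omegaOne p (gStar A b)))) fun q q' e => ?_
  rw [← QuotientGroup.out_eq' q, ← QuotientGroup.out_eq' q', QuotientGroup.eq]
  exact (h.e_inv_mul_mem_iff (h1 _).1 (h1 _).1).1 (mem_subgroupOf.1 (QuotientGroup.eq.1 e))

/-- A replacement Theorem for abelian subgroups of p-groups, p odd. Let G be a finite p-group with p odd, A an abelian subgroup of G, and B a subgroup of nilpotency class at most 2 with [B, B] ≤ A, such that A normalizes B but B does not normalize A. Then there is an abelian subgroup A* of G of the same order as A with A ∩ B strictly contained in A* ∩ B, A* contained in N_G(A) and in the normal closure of A, the exponent of A* dividing the exponent of A, and with the subgroup generated by the elements of order dividing p in A of order at most that of the corresponding subgroup of A* (the rank of A is at most the rank of A*). -/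
theorem result {G : Type*} [Group G] [Finite G] {p : ℕ} [Fact p.Prime] (hp : p ≠ 2) (hG : IsPGroup p G) (A B : Subgroup G) (hA : IsMulCommutative A) (hB2 : ⁅⁅B, B⁆, B⁆ = ⊥) (hBA : ⁅B, B⁆ ≤ A) (hAB : A ≤ Subgroup.normalizer (B : Set G)) (hBnA : ¬ B ≤ Subgroup.normalizer (A : Set G)) : ∃ Astar : Subgroup G, IsMulCommutative Astar ∧ Nat.card Astar = Nat.card A ∧ A ⊓ B < Astar ⊓ B ∧ Astar ≤ Subgroup.normalizer (A : Set G) ∧ Astar ≤ Subgroup.normalClosure (A : Set G) ∧ Monoid.exponent Astar ∣ Monoid.exponent A ∧ Nat.card (Cfsg.omegaOne p A) ≤ Nat.card (Cfsg.omegaOne p Astar) := by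
  set L := A ⊔ B with hL
  have hAL : A ≤ L := le_sup_left
  have hBL : B ≤ L := le_sup_right
  have hLp : IsPGroup p L := hG.to_subgroup L
  haveI hn : (B.subgroupOf L).Normal := (normalIn_sup_right hAB).normal_subgroupOf
  have eA : (A.subgroupOf L).map L.subtype = A := map_subgroupOf_eq_of_le hAL
  have eB : (B.subgroupOf L).map L.subtype = B := map_subgroupOf_eq_of_le hBL
  obtain ⟨b, hb, hb1, hb2⟩ := exists_mem_normalizer_not_mem hLp (B.subgroupOf L) 𝐍(A.subgroupOf L)
    fun h => hBnA (by
      have := map_mono (f := L.subtype) h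
      rw [eB, map_subtype_normalizer, eA] at this
      exact this.trans inf_le_right)
  have h : GHyp (A.subgroupOf L) (B.subgroupOf L) b := ⟨hn, inferInstance, by
    rw [← map_subtype_le_iff, map_commutator, eA, eB]; exact hBA, hb, hb1⟩
  have hc := h.isMulCommutative_gStar hLp fun e => absurd e hp
  have hi := L.subtype_injective
  refine ⟨(gStar (A.subgroupOf L) b).map L.subtype, inferInstance, ?_, ?_, ?_, ?_, ?_, ?_⟩
  · rw [card_map_subtype, h.card_gStar, card_subgroupOf hAL]
  · have := (map_lt_map_iff_of_injective hi).2 (h.inf_lt hb2)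
    rwa [map_inf _ _ _ hi, map_inf _ _ _ hi, eA, eB] at this
  · have := map_mono (f := L.subtype) h.gStar_le_normalizer
    rw [map_subtype_normalizer, eA] at this
    exact this.trans inf_le_right
  · exact (map_mono (h.gStar_le_normal (D := (normalClosure (A : Set G)).subgroupOf L)
      fun x hx => le_normalClosure hx)).trans (by rw [subgroupOf_map_subtype]; exact inf_le_left)
  · rw [← Monoid.exponent_eq_of_mulEquiv (equivMapOfInjective _ _ hi),
      ← Monoid.exponent_eq_of_mulEquiv (subgroupOfEquivOfLe hAL)]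
    exact h.exponent_gStar_dvd hLp hp
  · have := card_omega_le ((Fact.out : p.Prime).odd_of_ne_two hp) h hc
    rwa [← card_map_subtype, ← card_map_subtype (omegaOne p (gStar _ _)), H24.map_omegaOne hi,
      H24.map_omegaOne hi, eA] at this

end Cfsg.Agent.S3078
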