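import Cfsg.Statements.S3080
import Mathlib
import Cfsg.Agent.Lib.H71.Stab

set_option autoImplicit false
open Cfsg

namespace Cfsg.Agent.S3080

universe u in
theorem key {G : Type u} [Group G] [Finite G] {p : ℕ} [Fact p.Prime]
    {W : ∀ {G : Type u} [Group G], Subgroup G → Subgroup G} (hW : H71.SecFun p @W)
    (hZJ : ∀ (X : Type u) [Group X] [Finite X] (P : Sylow p X) (D : Subgroup X),
      Cfsg.IsStronglyClosed D P →
      Subgroup.centralizer ((Cfsg.pCore p X : Subgroup X) : Set X) ≤ Cfsg.pCore p X →
      H25.ZJ.StableFor p (P : Subgroup X) → (W D).Normal)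
    (P : Sylow p G) (D : Subgroup G) (hD : Cfsg.IsStronglyClosed D (P : Subgroup G))
    (hst : Cfsg.IsNormalizerPStable p G)
    (hc : ∀ U : Subgroup G, U ≤ (P : Subgroup G) → U ≠ ⊥ →
      Cfsg.IsPConstrained p ↥(Subgroup.normalizer (U : Set G))) :
    H71.Ctl (Subgroup.normalizer (W D : Set G)) P ⊤ := by
  have hDp : IsPGroup p D := P.isPGroup'.to_le hD.1
  by_cases hD1 : D = ⊥
  · subst hD1
    refine H71.ctl_of_le (le_trans ?_ (hW.normalizer_le hDp))
    rw [Subgroup.normalizer_eq_top]
  have := H71.ctl_of_local P (fun R => W (D ⊓ R)) (fun R _ => (hW.le _).trans inf_le_right)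
    (fun U hU _ => hW.ne_bot _ (hDp.to_le inf_le_left) (H71.sc_inf_ne_bot P.isPGroup' hD hD1 hU))
    (fun R _ => le_trans (H2.le_normalizer_inf (inf_le_left.trans (H71.sc_le_normalizer hD))
      inf_le_right) (hW.normalizer_le (hDp.to_le inf_le_left))) (by
    intro U hU hU1 hUF
    set H := Subgroup.normalizer (U : Set G) with hH
    set R := (P : Subgroup G) ⊓ H with hRd
    have hR : H61.SylIn p R H := ⟨inf_le_right, P.isPGroup'.to_le inf_le_left, hUF⟩
    have hsc : Cfsg.IsStronglyClosed ((D ⊓ R).subgroupOf H) hR.toSylow := by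
      rw [hR.coe_toSylow]; exact H71.sc_subgroupOf hD H inf_le_left
    have hDRp : IsPGroup p ((D ⊓ R).subgroupOf H) := hR.toSylow.isPGroup'.to_le hsc.1
    have hn := hZJ _ (hR.toSylow.mapSurjective (QuotientGroup.mk'_surjective (Cfsg.pPrimeCore p H)))
      _ (H71.sc_map hR.toSylow hsc _ (QuotientGroup.mk'_surjective _))
      (H25.ZJ.centralizer_pCore_quotient_le (hc U hU hU1))
      ((((H71.nstab_iff.2 hst).subgroup H).of_surjective _ (QuotientGroup.mk'_surjective _)
        (by rw [QuotientGroup.ker_mk']; exact H1.coprime_card_pPrimeCore)).stableFor _)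
    have h1 := H71.ctl_of_quotient_coprime (H61.SylIn.of_sylow_top hR.toSylow)
      ((H71.sc_le_normalizer hsc).trans (hW.normalizer_le hDRp))
      (QuotientGroup.mk' (Cfsg.pPrimeCore p H))
      (by rw [QuotientGroup.ker_mk']; exact H1.coprime_card_pPrimeCore)
      (by
        rw [top_inf_eq, ← hW.normalizer_map hDRp _ H1.coprime_card_pPrimeCore,
          Subgroup.normalizer_eq_top]
        exact H71.ctl_of_le le_top)
    rw [top_inf_eq, hR.coe_toSylow, hW.normalizer_subgroupOf (hDp.to_le inf_le_left)
      (inf_le_right.trans hR.le)] at h1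
    exact (H71.ctl_of_subgroupOf hR.le (Subgroup.map_comap_le _ _) h1).mono inf_le_right le_rfl)
  simpa only [inf_eq_left.2 hD.1] using this


/-- Let p be an odd prime, G a finite group that is p-stable in the normalizer form, P a Sylow p-subgroup such that N_G(U) is p-constrained for every nontrivial subgroup U of P, and D a subgroup of P strongly closed in P with respect to G. Then N_G(Z(J(D))) controls strong G-fusion in P (for every subset A of P and every g ∈ G with gAg⁻¹ ⊆ P, some element of that normalizer acts on A exactly as g does; J(D) is generated by the abelian subgroups of D of largest order), and so does N_G(Ω₁(Z(J_e(D)))) (J_e(D) generated by the elementary abelian subgroups of largest order). -/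
theorem result {G : Type*} [Group G] [Finite G] {p : ℕ} [Fact p.Prime] (hp : p ≠ 2) (P : Sylow p G) (D : Subgroup G) (hD : Cfsg.IsStronglyClosed D (P : Subgroup G)) (hst : Cfsg.IsNormalizerPStable p G) (hc : ∀ U : Subgroup G, U ≤ (P : Subgroup G) → U ≠ ⊥ → Cfsg.IsPConstrained p ↥(Subgroup.normalizer (U : Set G))) : (∀ A : Set G, A ⊆ (P : Subgroup G) → Cfsg.ControlsStrongFusionOf (Subgroup.normalizer ((Cfsg.centerThompsonAOf D) : Set G)) (P : Subgroup G) A) ∧ (∀ A : Set G, A ⊆ (P : Subgroup G) → Cfsg.ControlsStrongFusionOf (Subgroup.normalizer ((Cfsg.omegaOne p (Cfsg.centerThompsonOf p D)) : Set G)) (P : Subgroup G) A) := by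
  exact ⟨(key H71.secFun_zj (fun X _ _ P D hD hc hs =>
      H25.ZJ.centerThompsonAOf_normal_of_stronglyClosed hp P hD.1 hD.2 hc hs)
      P D hD hst hc).controlsStrongFusionOf,
    (key H71.secFun_ozj (fun X _ _ P D hD hc hs =>
      H25.ZJ.omega_centerThompsonOf_normal_of_stronglyClosed hp P hD.1 hD.2 hc hs)
      P D hD hst hc).controlsStrongFusionOf⟩

end Cfsg.Agent.S3080
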