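import Cfsg.Statements.S3144
import Cfsg.Agent.Lib.E8W.Main

set_option autoImplicit false
open Cfsg

namespace Cfsg.Agent.S3144

/-- Let G be a finite group with no nontrivial normal subgroup of odd order and L a standard subgroup of G which is a double cover of the simple orthogonal group PΩ⁺ of dimension 8 over the field with 2 elements (the centre of L has order 2 and L modulo its centre is isomorphic to that group), and suppose the centralizer of L in G has cyclic Sylow 2-subgroups. Then L is normal in G. -/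
theorem result {G : Type*} [Group G] [Finite G] (hO : Cfsg.oddCore G = ⊥) (L : Subgroup G) (hL : Cfsg.IsStandardSubgroup L)
    {F : Type*} [Field F] [Fintype F] (hF : Fintype.card F = 2)
    (hZ : Nat.card ↥(Subgroup.center ↥L) = 2) (hLX : Nonempty ((↥L ⧸ Subgroup.center ↥L) ≃* Cfsg.POmega F (Cfsg.quadFormPlus 4 F)))
    (hR : ∀ R : Sylow 2 ↥(Subgroup.centralizer (L : Set G)), IsCyclic ↥(R : Subgroup ↥(Subgroup.centralizer (L : Set G)))) :
    L.Normal := by
  obtain ⟨e1⟩ := hLX
  obtain ⟨e2⟩ := H10.nonempty_ringEquiv_zmod (F := F) 2 (by rw [Nat.card_eq_fintype_card, hF])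
  obtain ⟨X, _, _, ⟨e3⟩⟩ : ∃ (X : Type) (_ : Group X) (_ : Finite X), Nonempty (X ≃* L) :=
    H78.Schur.exists_mulEquiv_univ L
  let e4 := e1.trans ((H12.pcommCongr (H30.isoCongr e2 (H30.quadFormPlus_map e2 4))).trans
    H52.E8.pomEquiv)
  let ξ : X →* H52.E8.Ω := e4.toMonoidHom.comp ((QuotientGroup.mk' _).comp e3.toMonoidHom)
  have hk : ξ.ker = (Subgroup.center L).comap e3.toMonoidHom := by
    ext x
    exact (EmbeddingLike.map_eq_one_iff (f := e4)).trans (QuotientGroup.eq_one_iff (e3 x))
  haveI := hL.1.1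
  have hp : Group.IsPerfect X := Group.IsPerfect.ofSurjective (f := e3.symm.toMonoidHom) e3.symm.surjective
  obtain ⟨e5⟩ := H52.E8.equiv_L0 ξ hp.commutator_eq_top
    (e4.surjective.comp ((QuotientGroup.mk'_surjective _).comp e3.surjective))
    (fun x hx => (H78.Schur.map_center_equiv e3).1 (hk.le hx))
    (by
      rw [hk, ← hZ]
      exact Nat.card_congr (e3.toEquiv.subtypeEquiv fun _ => Iff.rfl))
  obtain ⟨h1, h2⟩ := H10.Std.intr_of_standard hL (e5.symm.trans e3) H52.E8.cen H52.E8.ord_z0 hR
  rw [← h1]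
  exact H52.E8.normal h2 hO

end Cfsg.Agent.S3144
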