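import Cfsg.Statements.S3149
import Cfsg.Agent.Lib.Std.Ru
import Cfsg.Agent.Lib.Leech.OutCo

set_option autoImplicit false
open Cfsg

namespace Cfsg.Agent.S3149

/-- Let G be a finite group with no nontrivial normal subgroup of odd order and A a standard subgroup of G which is a double cover of the Rudvalis group (the centre of A has order 2 and A modulo its centre is isomorphic to the Rudvalis group). If the centralizer of A in G has cyclic Sylow 2-subgroups, then A is normal in G. -/
theorem result {G : Type*} [Group G] [Finite G] (hO : Cfsg.oddCore G = ⊥) (A : Subgroup G) (hA : Cfsg.IsStandardSubgroup A)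
    (hZ : Nat.card ↥(Subgroup.center ↥A) = 2) (hAX : Cfsg.Spor.IsoRu (↥A ⧸ Subgroup.center ↥A))
    (hR : ∀ R : Sylow 2 ↥(Subgroup.centralizer (A : Set G)), IsCyclic ↥(R : Subgroup ↥(Subgroup.centralizer (A : Set G)))) : A.Normal := by
  obtain ⟨e⟩ := hAX
  obtain ⟨z, cen, ord⟩ := H10.Std.exists_center_two hZ
  obtain ⟨h1, h2⟩ := H10.Std.intr_of_standard hA (MulEquiv.refl A) cen ord hR
  have hp := hA.1.1.commutator_eq_top
  let e' := e.trans H15.RuM.equivRu.symm
  rw [← h1]
  refine H10.Std.Ru.normal h2 (H10.Std.inner_of_out hp ((H16.card_Out_congr e).trans H15.RuM.card_Out_Ru))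
    hO hp (e'.toMonoidHom.comp (QuotientGroup.mk' _)) (e'.surjective.comp (QuotientGroup.mk'_surjective _))
    fun x => ?_
  rw [← cen, ← QuotientGroup.eq_one_iff]
  exact e'.map_eq_one_iff

end Cfsg.Agent.S3149
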