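import Cfsg.Statements.S3150
import Cfsg.Agent.Lib.Std.Co0

set_option autoImplicit false
open Cfsg

namespace Cfsg.Agent.S3150

/-- Let G be a finite group with no nontrivial normal subgroup of odd order and A a standard subgroup of G isomorphic to the automorphism group of the Leech lattice (the double cover of the first Conway group). If the centralizer of A in G has cyclic Sylow 2-subgroups, then A is normal in G. -/
theorem result {G : Type*} [Group G] [Finite G] (hO : Cfsg.oddCore G = ⊥) (A : Subgroup G) (hA : Cfsg.IsStandardSubgroup A)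
    (hAX : Nonempty (↥A ≃* ↥Cfsg.Co0)) (hR : ∀ R : Sylow 2 ↥(Subgroup.centralizer (A : Set G)), IsCyclic ↥(R : Subgroup ↥(Subgroup.centralizer (A : Set G)))) : A.Normal := by
  obtain ⟨e⟩ := hAX
  obtain ⟨h1, h2⟩ := H10.Std.intr_of_standard hA e.symm H16.mem_center_iff
    (orderOf_eq_prime (by rw [pow_two, H16.negCo0_mul_self]) H16.negCo0_ne_one) hR
  haveI := hA.1.1
  have hp : Group.IsPerfect Cfsg.Co0 := Group.IsPerfect.ofSurjective (f := e.toMonoidHom) e.surjective
  rw [← h1]
  exact H10.Std.C0.normal h2 (H10.Std.inner_of_out hp.commutator_eq_top H16.card_Out_Co1) hO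

end Cfsg.Agent.S3150
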