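import Mathlib
import Cfsg.Statements.S3153
import Cfsg.Agent.Lib.PComp.Basic
import Cfsg.Agent.Lib.Cls.Four
import Cfsg.Agent.Lib.PGroup.Basic
import Cfsg.Agent.Lib.Comp.LayerStruct

set_option autoImplicit false
open Cfsg

namespace Cfsg.Agent.S3153

open Subgroup
open scoped commutatorElement

theorem eq_one_of_odd {G : Type*} [Group G] {O : Subgroup G} (hO : Odd (Nat.card O)) {x : G}
    (hx : x ∈ O) (h : x * x = 1) : x = 1 := by
  obtain ⟨m, hm⟩ := hO
  have h1 : x ^ Nat.card O = 1 := congrArg Subtype.val (pow_card_eq_one' (x := (⟨x, hx⟩ : O)))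
  rwa [hm, pow_succ, pow_mul, sq, h, one_pow, one_mul] at h1

theorem dec {G : Type*} [Group G] {O : Subgroup G} [hn : O.Normal] (hO : Odd (Nat.card O)) {u : G}
    (hu : u * u = 1) {y : G} (hy : y ∈ O) :
    ∃ b ∈ O, u * b * u⁻¹ = b⁻¹ ∧ u * (b * y) * u⁻¹ = b * y := by
  obtain ⟨m, hm⟩ := hO
  set a := u * y * u⁻¹ * y⁻¹ with ha
  have haO : a ∈ O := mul_mem (hn.conj_mem y hy u) (inv_mem hy)
  have h1 : a ^ Nat.card O = 1 := congrArg Subtype.val (pow_card_eq_one' (x := (⟨a, haO⟩ : O)))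
  have h2 : u * a * u⁻¹ = a⁻¹ := by
    have : u * a * u⁻¹ = (u * u) * y * (u * u)⁻¹ * (u * y⁻¹ * u⁻¹) := by rw [ha]; group
    rw [this, hu, ha]; group
  have h3 : u * a ^ (m + 1) * u⁻¹ = (a ^ (m + 1))⁻¹ := by rw [← conj_pow, h2, inv_pow]
  have h4 : a ^ (m + 1) * a ^ (m + 1) = a := by
    rw [← pow_add, show m + 1 + (m + 1) = (2 * m + 1) + 1 by ring, pow_succ, ← hm, h1, one_mul]
  refine ⟨a ^ (m + 1), pow_mem haO _, h3, ?_⟩
  calc u * (a ^ (m + 1) * y) * u⁻¹ = (u * a ^ (m + 1) * u⁻¹) * (a * y) := by rw [ha]; group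
    _ = (a ^ (m + 1))⁻¹ * ((a ^ (m + 1) * a ^ (m + 1)) * y) := by rw [h3, h4]
    _ = _ := by group

theorem centralizes {G : Type*} [Group G] {O : Subgroup G} [hn : O.Normal] (hO : Odd (Nat.card O))
    {t u : G} (ht : t * t = 1) (hu : u * u = 1) (htu : t * u = u * t)
    (h1 : ∀ x ∈ O, t * x * t⁻¹ = x → u * x * u⁻¹ = x) (h2 : ∀ x ∈ O, u * x * u⁻¹ = x → t * x * t⁻¹ = x)
    {x : G} (hx : x ∈ O) : t * u * x * (t * u)⁻¹ = x := by
  have key : ∀ y ∈ O, t * y * t⁻¹ = y⁻¹ → u * y * u⁻¹ = y⁻¹ := by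
    intro y hy hty
    obtain ⟨b, hb, e1, e2⟩ := dec hO hu hy
    set c := b * y with hc
    have hcO : c ∈ O := mul_mem hb hy
    have e3 := h2 c hcO e2
    have e4 : t * b * t⁻¹ = c * b⁻¹ * c := by
      calc t * b * t⁻¹ = (t * c * t⁻¹) * (t * y * t⁻¹)⁻¹ := by rw [hc]; group
        _ = _ := by rw [e3, hty, hc]; group
    have e5 : c * b * c = (c * b⁻¹ * c)⁻¹ := by
      calc c * b * c = (u * c * u⁻¹) * (u * b * u⁻¹)⁻¹ * (u * c * u⁻¹) := by rw [e1, e2]; group
        _ = u * (t * b * t⁻¹) * u⁻¹ := by rw [e4]; group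
        _ = (t * u) * b * (t * u)⁻¹ := by rw [htu]; group
        _ = t * (u * b * u⁻¹) * t⁻¹ := by group
        _ = _ := by rw [e1, ← e4]; group
    have e6 : b⁻¹ * (c * c) * b⁻¹⁻¹ = (c * c)⁻¹ := by
      calc b⁻¹ * (c * c) * b⁻¹⁻¹ = b⁻¹ * c * (c * b * c) * c⁻¹ := by group
        _ = _ := by rw [e5]; group
    have e7 : ∀ n : ℕ, b⁻¹ ^ (2 * n + 1) * (c * c) * (b⁻¹ ^ (2 * n + 1))⁻¹ = (c * c)⁻¹ := by
      intro n
      induction n with
      | zero => simpa using e6
      | succ n ih =>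
        calc b⁻¹ ^ (2 * (n + 1) + 1) * (c * c) * (b⁻¹ ^ (2 * (n + 1) + 1))⁻¹
            = b⁻¹ * (b⁻¹ * (b⁻¹ ^ (2 * n + 1) * (c * c) * (b⁻¹ ^ (2 * n + 1))⁻¹) * b⁻¹⁻¹) * b⁻¹⁻¹ := by
              group
          _ = b⁻¹ * (b⁻¹ * (c * c) * b⁻¹⁻¹)⁻¹ * b⁻¹⁻¹ := by rw [ih]; group
          _ = _ := by rw [e6, inv_inv (c * c), e6]
    obtain ⟨m, hm⟩ := id hO
    have h3 : b⁻¹ ^ Nat.card O = 1 :=
      congrArg Subtype.val (pow_card_eq_one' (x := (⟨b⁻¹, inv_mem hb⟩ : O)))
    have e8 := e7 m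
    rw [← hm, h3, one_mul, inv_one, mul_one] at e8
    have e9 : c = 1 := eq_one_of_odd hO hcO (eq_one_of_odd hO (mul_mem hcO hcO)
      (by nth_rewrite 1 [e8]; group))
    have e10 : y = b⁻¹ := eq_inv_of_mul_eq_one_right e9
    rw [e10, ← conj_inv, e1]
  obtain ⟨b, hb, e1, e2⟩ := dec hO ht hx
  have e3 := key b hb e1
  have e4 := h1 _ (mul_mem hb hx) e2
  calc t * u * x * (t * u)⁻¹ = t * ((u * b * u⁻¹)⁻¹ * (u * (b * x) * u⁻¹)) * t⁻¹ := by group
    _ = (t * b * t⁻¹) * (t * (b * x) * t⁻¹) := by rw [e3, e4]; group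
    _ = x := by rw [e1, e2]; group

theorem rank_one {G : Type*} [Group G] {C : Subgroup G} (hr : Cfsg.PRankLE 2 1 C) {a b : G}
    (ha : a ∈ C) (hb : b ∈ C) (a1 : a ≠ 1) (b1 : b ≠ 1) (a2 : a * a = 1) (b2 : b * b = 1)
    (hab : a * b = b * a) : a = b := by
  by_contra hne
  have h := H19.isKleinFour_closure_pair (a := (⟨a, ha⟩ : C)) (b := ⟨b, hb⟩)
    (fun e => a1 (congrArg Subtype.val e)) (fun e => b1 (congrArg Subtype.val e))
    (fun e => hne (congrArg Subtype.val e)) (Subtype.ext a2) (Subtype.ext b2) (Subtype.ext hab)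
  have := hr _ IsKleinFour.isMulCommutative (fun x hx => by
    have := Monoid.pow_exponent_eq_one (⟨x, hx⟩ : closure ({⟨a, ha⟩, ⟨b, hb⟩} : Set C))
    rw [h.exponent_two] at this
    exact congrArg Subtype.val this)
  rw [h.card_four] at this
  omega


/-- Let X be a finite group and P a standard subgroup of X whose centralizer has 2-rank at most 1 and whose centre has odd order. Let S be a Sylow 2-subgroup of N_X(P) and t an involution of S centralizing P. Suppose some element g of X normalizes S, does not lie in S, has its square in S, and conjugates t into P·C_X(P). Then P commutes elementwise with the largest normal odd-order subgroup O(X) of X; consequently every t-invariant 2-component of X containing P is quasisimple. -/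
theorem result {X : Type*} [Group X] [Finite X] (P : Subgroup X) (hP : Cfsg.IsStandardSubgroup P)
    (hr : Cfsg.PRankLE 2 1 ↥(Subgroup.centralizer (P : Set X))) (hZ : Odd (Nat.card ↥(Subgroup.center ↥P)))
    (S : Sylow 2 ↥(Subgroup.normalizer (P : Set X))) (t : X) (ht : orderOf t = 2) (htS : t ∈ (S : Subgroup ↥(Subgroup.normalizer (P : Set X))).map (Subgroup.normalizer (P : Set X)).subtype)
    (htP : t ∈ Subgroup.centralizer (P : Set X))
    (g : X) (hgN : ∀ s ∈ (S : Subgroup ↥(Subgroup.normalizer (P : Set X))).map (Subgroup.normalizer (P : Set X)).subtype, g * s * g⁻¹ ∈ (S : Subgroup ↥(Subgroup.normalizer (P : Set X))).map (Subgroup.normalizer (P : Set X)).subtype)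
    (hgS : g ∉ (S : Subgroup ↥(Subgroup.normalizer (P : Set X))).map (Subgroup.normalizer (P : Set X)).subtype) (hg2 : g ^ 2 ∈ (S : Subgroup ↥(Subgroup.normalizer (P : Set X))).map (Subgroup.normalizer (P : Set X)).subtype)
    (hgt : g * t * g⁻¹ ∈ P ⊔ Subgroup.centralizer (P : Set X)) :
    ⁅P, Cfsg.oddCore X⁆ = ⊥ ∧
      ∀ L : Subgroup X, Cfsg.IsPComponent 2 L → P ≤ L → (∀ l ∈ L, t * l * t⁻¹ ∈ L) → Cfsg.IsQuasisimple ↥L := by
  obtain ⟨hq, ⟨-, hte⟩, -, hNN⟩ := hP
  set S' := (S : Subgroup (normalizer (P : Set X))).map ((normalizer (P : Set X))).subtype with hS'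
  set O := Cfsg.oddCore X with hO
  have hOo : Odd (Nat.card O) := H1.odd_card_oddCore
  have t1 : t ≠ 1 := by rintro rfl; simp at ht
  have t2 : t * t = 1 := by rw [← sq, ← ht, pow_orderOf_eq_one]
  have hS2 : IsPGroup 2 S' := S.isPGroup'.map _
  have hS'N : S' ≤ (normalizer (P : Set X)) := map_subtype_le _
  have htZ : ∀ s ∈ S', s * t = t * s := by
    obtain ⟨t₀, h1, h2, h3⟩ := H5.exists_mem_centralizer_orderOf_eq (P := S')
      (N := S' ⊓ centralizer (P : Set X)) hS2 inf_le_left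
      (H2.le_normalizer_inf le_normalizer (hNN ▸ hS'N)) (fun e => t1 (mem_bot.1 (e ▸ ⟨htS, htP⟩)))
    have : t = t₀ := rank_one hr htP h1.2 t1 (by rintro rfl; simp at h3) t2
      (by rw [← sq, ← h3, pow_orderOf_eq_one]) (h2 t htS)
    rw [this]; exact h2
  have hCt : ∀ x, x * t = t * x → x ∈ (normalizer (P : Set X)) := by
    intro x hx
    by_contra hh
    have h1 := hte x (hNN ▸ hh)
    exact t1 (eq_one_of_odd h1 ⟨htP, t, htP, by
      change x * t * x⁻¹ = t
      rw [hx, mul_inv_cancel_right]⟩ t2)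
  set u := g * t * g⁻¹ with hu
  have huS : u ∈ S' := hgN t htS
  have u2 : u * u = 1 := by
    calc u * u = g * (t * t) * g⁻¹ := by rw [hu]; group
      _ = 1 := by rw [t2]; group
  have hut : u ≠ t := by
    intro e
    have hg : g ∈ (normalizer (P : Set X)) := hCt g (by rw [← mul_inv_eq_iff_eq_mul]; exact e)
    apply hgS
    have hz : IsPGroup 2 (zpowers (⟨g, hg⟩ : (normalizer (P : Set X)))) := by
      obtain ⟨k, hk⟩ := hS2 ⟨_, hg2⟩
      have h1 : (⟨g, hg⟩ : (normalizer (P : Set X))) ^ 2 ^ (k + 1) = 1 := Subtype.ext (by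
        have := congrArg Subtype.val hk
        simp only [SubmonoidClass.coe_pow, OneMemClass.coe_one] at this ⊢
        rw [pow_succ', pow_mul, this])
      obtain ⟨i, -, hi⟩ := (Nat.dvd_prime_pow Nat.prime_two).1 (orderOf_dvd_of_pow_eq_one h1)
      exact IsPGroup.of_card (n := i) (by rw [Nat.card_zpowers, hi])
    have hn : zpowers (⟨g, hg⟩ : (normalizer (P : Set X))) ≤ normalizer ((S : Subgroup (normalizer (P : Set X))) : Set (normalizer (P : Set X))) := by
      rw [zpowers_le, ← zpowers_le, le_normalizer_iff]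
      rintro _ ⟨k, rfl⟩ s hs
      have key : ∀ n : ℕ, (⟨g, hg⟩ : (normalizer (P : Set X))) ^ n * s * ((⟨g, hg⟩ : (normalizer (P : Set X))) ^ n)⁻¹ ∈ (S : Subgroup (normalizer (P : Set X))) := by
        intro n
        induction n with
        | zero => simpa using hs
        | succ n ih =>
          obtain ⟨y, hy, e⟩ := hgN _ ⟨_, ih, rfl⟩
          have : y = (⟨g, hg⟩ : (normalizer (P : Set X))) ^ (n + 1) * s * ((⟨g, hg⟩ : (normalizer (P : Set X))) ^ (n + 1))⁻¹ := Subtype.ext (by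
            refine e.trans ?_
            simp only [coe_subtype, coe_mul, coe_inv, SubmonoidClass.coe_pow]
            group)
          exact this ▸ hy
      obtain ⟨n, hn⟩ := (mem_powers_iff_mem_zpowers.2 (⟨k, rfl⟩ : (⟨g, hg⟩ : (normalizer (P : Set X))) ^ k ∈ zpowers _))
      simp only at hn
      change (⟨g, hg⟩ : (normalizer (P : Set X))) ^ k * s * ((⟨g, hg⟩ : (normalizer (P : Set X))) ^ k)⁻¹ ∈ _
      rw [← hn]; exact key n
    have := S.is_maximal' (S.isPGroup'.to_sup_of_normal_left' hz hn) le_sup_left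
    exact ⟨⟨g, hg⟩, this ▸ mem_sup_right (mem_zpowers _), rfl⟩
  have hPN : P ≤ normalizer (centralizer (P : Set X) : Set X) := hNN ▸ le_normalizer
  obtain ⟨z, hz, c, hc, z2, c2, hzc⟩ : ∃ z ∈ P, ∃ c ∈ centralizer (P : Set X),
      z * z = 1 ∧ c * c = 1 ∧ u = z * c := by
    obtain ⟨z, hz, c, hc, e⟩ := (H23.mem_sup_iff_of_le_normalizer' hPN).1 hgt
    have hcm : Commute z c := hc z hz
    obtain ⟨m, hm⟩ := hZ
    have h1 : z * z * (c * c) = 1 := by
      rw [← u2, ← e, mul_assoc, mul_assoc, ← mul_assoc z c, ← mul_assoc c z, ← hcm.eq]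
    have h2 : (⟨z * z, mul_mem hz hz⟩ : P) ∈ center P := by
      rw [mem_center_iff]
      intro y
      apply Subtype.ext
      change (y : X) * (z * z) = z * z * y
      rw [eq_inv_of_mul_eq_one_left h1]
      exact (inv_mem (mul_mem hc hc) : (c * c)⁻¹ ∈ centralizer (P : Set X)) y y.2
    have h3 : (z * z) ^ (2 * m + 1) = 1 := by
      have := pow_card_eq_one' (x := (⟨_, h2⟩ : center P))
      rw [hm] at this
      exact congrArg (fun x : center P => ((x : P) : X)) this
    have h4 : z ^ (2 * m + 1) * z ^ (2 * m + 1) = 1 := by rw [← (Commute.refl z).mul_pow, h3]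
    refine ⟨z ^ (2 * m + 1), pow_mem hz _, c ^ (2 * m + 1), pow_mem hc _, h4, ?_, ?_⟩
    · rw [← (Commute.refl c).mul_pow, eq_inv_of_mul_eq_one_right h1, inv_pow, h3, inv_one]
    · rw [← hcm.mul_pow, e, pow_succ, pow_mul, sq, u2, one_pow, one_mul]
  have htu : t * u = u * t := (htZ u huS).symm
  have hct : c = 1 ∨ c = t := by
    by_cases e : c = 1
    · exact Or.inl e
    refine Or.inr (rank_one hr hc htP e t1 c2 t2 ?_)
    apply mul_left_cancel (a := z)
    rw [← mul_assoc, ← hzc, ← htu, hzc, ← mul_assoc, ← mul_assoc, htP z hz]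
  have z1 : z ≠ 1 := by
    rintro rfl
    rw [one_mul] at hzc
    rcases hct with rfl | rfl
    · apply t1
      calc t = g⁻¹ * u * g := by rw [hu]; group
        _ = 1 := by rw [hzc]; group
    · exact hut hzc
  have hzC : z ∉ centralizer (P : Set X) := fun h => z1 (by
    have h2 : (⟨z, hz⟩ : P) ∈ center P := mem_center_iff.2 fun y => Subtype.ext (h y y.2)
    exact congrArg Subtype.val (eq_one_of_odd hZ h2 (Subtype.ext z2)))
  have hperf := H23.IsQuasisimple.commutator_self hq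
  have hC1 : O ⊓ (normalizer (P : Set X)) ≤ centralizer (P : Set X) := by
    rw [← commutator_eq_bot_iff_le_centralizer]
    refine H23.commutator_eq_bot_of_perfect hperf (commutator_eq_bot_iff_le_centralizer.2 ?_)
    have h1 : ⁅O ⊓ (normalizer (P : Set X)), P⁆ ≤ P ⊓ O := le_inf (le_normalizer_iff_commutator_le_right.1 inf_le_right)
      ((commutator_mono inf_le_left le_rfl).trans (commutator_le_left _ _))
    refine h1.trans ((H23.IsQuasisimple.eq_or_le_centralizer hq inf_le_left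
      (H2.le_normalizer_inf le_normalizer le_normalizer_of_normal)).resolve_left fun e => ?_)
    exact z1 (eq_one_of_odd hOo ((e.ge hz).2) z2)
  have h1 : ∀ x ∈ O, t * x * t⁻¹ = x → u * x * u⁻¹ = x := by
    intro x hx e
    rw [mul_inv_eq_iff_eq_mul] at e ⊢
    have e1 : z * x = x * z := hC1 ⟨hx, hCt x e.symm⟩ z hz
    have e2 : c * x = x * c := by rcases hct with rfl | rfl; simp; exact e
    rw [hzc, mul_assoc, e2, ← mul_assoc, e1, mul_assoc]
  have h2 : ∀ x ∈ O, u * x * u⁻¹ = x → t * x * t⁻¹ = x := by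
    intro x hx e
    have e1 := h1 (g⁻¹ * x * g⁻¹⁻¹) ((inferInstance : O.Normal).conj_mem x hx g⁻¹) (by
      calc t * (g⁻¹ * x * g⁻¹⁻¹) * t⁻¹ = g⁻¹ * (u * x * u⁻¹) * g := by rw [hu]; group
        _ = _ := by rw [e]; group)
    have e2 : t = g ^ 2 * t * (g ^ 2)⁻¹ := by rw [htZ _ hg2, mul_inv_cancel_right]
    calc t * x * t⁻¹ = (g ^ 2 * t * (g ^ 2)⁻¹) * x * (g ^ 2 * t * (g ^ 2)⁻¹)⁻¹ := by rw [← e2]
      _ = g * (u * (g⁻¹ * x * g⁻¹⁻¹) * u⁻¹) * g⁻¹ := by simp only [hu, sq, mul_inv_rev, inv_inv, mul_assoc, mul_inv_cancel_left]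
      _ = x := by rw [e1]; group
  have hw : t * u ∈ centralizer (O : Set X) := fun x hx =>
    (mul_inv_eq_iff_eq_mul.1 (centralizes hOo t2 u2 htu h1 h2 hx)).symm
  have hPO : P ≤ centralizer (O : Set X) := by
    rcases H23.IsQuasisimple.eq_or_le_centralizer hq (N := P ⊓ centralizer (O : Set X)) inf_le_left
      (H2.le_normalizer_inf le_normalizer le_normalizer_of_normal) with e | e
    · exact e.ge.trans inf_le_right
    exfalso
    apply hzC
    rw [← zpowers_le, ← commutator_eq_bot_iff_le_centralizer]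
    refine H23.commutator_eq_bot_of_perfect hperf (commutator_eq_bot_iff_le_centralizer.2 ?_)
    let K : Subgroup X := (centralizer (O : Set X))
    have hk : ∀ y ∈ P, y * z * y⁻¹ * z⁻¹ ∈ centralizer (O : Set X) := by
      intro y hy
      have e1 : y * z * y⁻¹ * z⁻¹ = y * (t * u) * y⁻¹ * (t * u)⁻¹ := by
        have a1 : t * u = z * (t * c) := by rw [hzc, ← mul_assoc, ← mul_assoc, htP z hz]
        have a2 := (mul_mem htP hc : t * c ∈ centralizer (P : Set X)) y⁻¹ (inv_mem hy)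
        rw [a1]
        calc y * z * y⁻¹ * z⁻¹ = y * z * (y⁻¹ * (t * c)) * (z * (t * c))⁻¹ := by group
          _ = _ := by rw [a2]; group
      rw [e1]
      exact mul_mem ((inferInstance : (centralizer (O : Set X)).Normal).conj_mem _ hw y) (inv_mem hw)
    refine le_trans (le_inf (le_normalizer_iff_commutator_le_right.1
      ((zpowers_le.2 hz).trans le_normalizer)) ?_) e
    rw [commutator_comm, commutator_le]
    intro y hy v hv
    have : v = 1 ∨ v = z := by
      obtain ⟨k, rfl⟩ := hv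
      rcases Int.even_or_odd' k with ⟨j, rfl | rfl⟩
      · left; simp only; rw [zpow_mul, zpow_two, z2, one_zpow]
      · right; simp only; rw [zpow_add, zpow_mul, zpow_two, z2, one_zpow, one_mul, zpow_one]
    rcases this with rfl | rfl
    · simp
    · exact hk y hy
  refine ⟨commutator_eq_bot_iff_le_centralizer.2 hPO, fun L hL hPL _ => ?_⟩
  have hL' := H44.pcomp_top_iff.2 hL
  rw [hL'.isQuasisimple_iff, H44.coreOf_top, commutator_eq_bot_iff_le_centralizer]
  rcases hL'.2.normal (L ⊓ centralizer (O : Set X)) inf_le_left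
    (H2.le_normalizer_inf le_normalizer le_normalizer_of_normal) with e | e
  · exact e.ge.trans inf_le_right
  · exact absurd (eq_one_of_odd (Nat.coprime_two_right.1 e)
      (commutator_mono (le_inf hPL hPO) hPL (hperf.ge hz)) z2) z1

end Cfsg.Agent.S3153
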