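import Cfsg.Statements.S3154
import Cfsg.Agent.Lib.Misc92.L34Cov
-- import your own Cfsg.Agent.* helpers here

set_option autoImplicit false
open Cfsg

namespace Cfsg.Agent.S3154

/-- Let X be a finite quasisimple group whose centre is an elementary abelian 2-group and whose central quotient is isomorphic to the projective special linear group of dimension 3 over the field with 4 elements. Let T be a Sylow 2-subgroup of X and H ≠ K subgroups of T containing the centre Z(X) whose images in X/Z(X) are elementary abelian of order 16 (the two such subgroups of a Sylow 2-subgroup of the quotient). Then H and K are elementary abelian, H ∩ K is the centre of the subgroup they generate, and each of N_X(H), N_X(K) is a split extension of H, respectively K, by the projective special linear group of dimension 2 over the field with 4 elements (there is a complement isomorphic to that group). -/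
theorem result {X : Type*} [Group X] [Finite X] (hq : Cfsg.IsQuasisimple X) (hZ : Cfsg.IsElementaryAbelian 2 (Subgroup.center X))
    {F : Type*} [Field F] [Fintype F] (hF : Fintype.card F = 4) (hXL : Nonempty ((X ⧸ Subgroup.center X) ≃* Matrix.ProjectiveSpecialLinearGroup (Fin 3) F))
    (T : Sylow 2 X) (H K : Subgroup X) (hHK : H ≠ K) (hHT : H ≤ T) (hKT : K ≤ T) (hZH : Subgroup.center X ≤ H) (hZK : Subgroup.center X ≤ K)
    (hH : Cfsg.IsElementaryAbelian 2 (H.map (QuotientGroup.mk' (Subgroup.center X))) ∧ Nat.card ↥(H.map (QuotientGroup.mk' (Subgroup.center X))) = 16)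
    (hK : Cfsg.IsElementaryAbelian 2 (K.map (QuotientGroup.mk' (Subgroup.center X))) ∧ Nat.card ↥(K.map (QuotientGroup.mk' (Subgroup.center X))) = 16) :
    Cfsg.IsElementaryAbelian 2 H ∧ Cfsg.IsElementaryAbelian 2 K ∧
      H ⊓ K = (Subgroup.center ↥(H ⊔ K)).map (H ⊔ K).subtype ∧
      (∃ C : Subgroup X, C ≤ Subgroup.normalizer (H : Set X) ∧ C ⊓ H = ⊥ ∧ H ⊔ C = Subgroup.normalizer (H : Set X) ∧
        Nonempty (↥C ≃* Matrix.ProjectiveSpecialLinearGroup (Fin 2) F)) ∧
      (∃ C : Subgroup X, C ≤ Subgroup.normalizer (K : Set X) ∧ C ⊓ K = ⊥ ∧ K ⊔ C = Subgroup.normalizer (K : Set X) ∧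
        Nonempty (↥C ≃* Matrix.ProjectiveSpecialLinearGroup (Fin 2) F)) := by
  open Subgroup H69 H92.L34 in
  obtain ⟨e⟩ := hXL
  have : CharP F 2 := charP_of_card_eq_prime_pow (f := 2) (by rw [hF]; rfl)
  let π₀ := e.toMonoidHom.comp (QuotientGroup.mk' (center X))
  have s0 : Function.Surjective π₀ := e.surjective.comp (QuotientGroup.mk'_surjective _)
  obtain ⟨g, hg⟩ := MulAction.exists_smul_eq (Matrix.ProjectiveSpecialLinearGroup (Fin 3) F)
    (T.mapSurjective s0)
    ((H10.unitriSylowSL (Fin 3) F 2).mapSurjective (QuotientGroup.mk'_surjective _))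
  let e' := e.trans (MulAut.conj g)
  have hc : ∀ L : Subgroup X, Nat.card (L.map (e'.toMonoidHom.comp (QuotientGroup.mk' (center X)))) =
      Nat.card (L.map (QuotientGroup.mk' (center X))) := fun L => by
    rw [← map_map]
    exact card_map_of_injective e'.injective
  have hs : ∀ L : Subgroup X, Cfsg.IsElementaryAbelian 2 (L.map (QuotientGroup.mk' (center X))) →
      ∀ x ∈ L, (e'.toMonoidHom.comp (QuotientGroup.mk' (center X))) x *
        (e'.toMonoidHom.comp (QuotientGroup.mk' (center X))) x = 1 := fun L hL x hx => by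
    rw [← sq, MonoidHom.comp_apply, ← map_pow, hL.2 _ (mem_map_of_mem _ hx), map_one]
  rw [map_subtype_center]
  refine main (π := e'.toMonoidHom.comp (QuotientGroup.mk' (center X))) hF
    (e'.surjective.comp (QuotientGroup.mk'_surjective _)) ?_
    (fun z hz => by rw [← sq, hZ.2 z hz]) T ?_ hHK hHT hKT hZH hZK (hs H hH.1) ((hc H).trans hH.2)
    (hs K hK.1) ((hc K).trans hK.2)
  · ext x
    simp
  · have := congrArg Sylow.toSubgroup hg
    simp only [Sylow.coe_subgroup_smul, Sylow.coe_mapSurjective] at this
    refine Eq.trans ?_ this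
    exact (map_map (T : Subgroup X) (MulAut.conj g).toMonoidHom π₀).symm

end Cfsg.Agent.S3154
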