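import Cfsg.Statements.S3156
import Cfsg.Agent.Lib.TwoFusion.U34Model

set_option autoImplicit false
open Cfsg

namespace Cfsg.Agent.S3156

/-- If a finite group T is isomorphic to a Sylow 2-subgroup of the projective special unitary group of dimension 3 with parameter 4 (realised over the field with 16 elements), then no subgroup of the automorphism group of T is isomorphic to the symmetric group of degree 3. -/
theorem result {T : Type*} [Group T] [Finite T] (hT : (∃ (F : Type) (_ : Field F) (_ : Fintype F), Fintype.card F = 16 ∧ ∃ S : Sylow 2 (Cfsg.PSU 3 F 4), Nonempty (T ≃* ↥(S : Subgroup (Cfsg.PSU 3 F 4))))) (H : Subgroup (MulAut T)) : ¬ Nonempty (↥H ≃* Equiv.Perm (Fin 3)) := by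
  obtain ⟨F, _, _, hF, S, ⟨e⟩⟩ := hT
  obtain ⟨σ, v, h, a, b, hab⟩ := (H41.u34_sylow hF S).of_equiv e.symm
  rintro ⟨f⟩
  let φ : Equiv.Perm (Fin 3) →* MulAut T := H.subtype.comp f.symm.toMonoidHom
  have hφ : Function.Injective φ := H.subtype_injective.comp f.symm.injective
  have hτ : ∀ t : Equiv.Perm (Fin 3), t * t = 1 → ∀ c : T, c * c = 1 → φ t c = c :=
    fun t ht c hc => h.aut_fix hab (φ t) (fun g => by
      rw [← MulAut.mul_apply, ← map_mul, ht, map_one, MulAut.one_apply, mul_inv_cancel]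
      exact one_mem _) hc
  set ρ := φ (Equiv.swap 0 1 * Equiv.swap 1 2) with hρ
  have h1 : ∀ c : T, c * c = 1 → ρ c = c := fun c hc => by
    rw [hρ, map_mul, MulAut.mul_apply, hτ _ (by decide) c hc, hτ _ (by decide) c hc]
  have h3 : ∀ x, ρ (ρ (ρ x)) = x := fun x => by
    rw [← MulAut.mul_apply, ← MulAut.mul_apply, hρ, ← map_mul, ← map_mul,
      show Equiv.swap 0 1 * Equiv.swap 1 2 * (Equiv.swap 0 1 * Equiv.swap 1 2) *
        (Equiv.swap 0 1 * Equiv.swap 1 2) = (1 : Equiv.Perm (Fin 3)) by decide, map_one,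
      MulAut.one_apply]
  have hn := h.V_normal
  set π := QuotientGroup.mk' h.V
  have hk : ∀ g, π g = 1 ↔ g ∈ h.V := fun g => QuotientGroup.eq_one_iff g
  have hπc : ∀ a b, Commute (π a) (π b) := fun a b => by
    rw [← commutatorElement_eq_one_iff_commute, ← map_commutatorElement, hk]
    exact h.cc a b
  have hπ2 : ∀ a, π a * π a = 1 := fun a => by rw [← map_mul, hk]; exact h.four a
  have h4 : ∀ x, x * ρ x * (x * ρ x) = 1 := fun x => by
    set a := x * ρ x with ha
    have e1 : ρ a * ρ a = a * a := by rw [← map_mul, h1 _ (h.four a)]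
    refine h.no_q8 e1 ?_
    have e2 : (ρ (ρ a))⁻¹ * (a * ρ a) ∈ h.V := by
      rw [← hk, map_mul, map_inv, inv_mul_eq_one, ha]
      simp only [map_mul, h3]
      rw [mul_assoc, ← mul_assoc (π (ρ x)), hπ2, one_mul, hπc]
    calc a * ρ a * (a * ρ a) = ρ (ρ a) * ((ρ (ρ a))⁻¹ * (a * ρ a)) *
          (ρ (ρ a) * ((ρ (ρ a))⁻¹ * (a * ρ a))) := by group
      _ = ρ (ρ a) * ρ (ρ a) := by
        rw [(show Commute _ _ from h.invol_cen e2 (ρ (ρ a))).symm.mul_mul_mul_comm, h.mem_V.1 e2,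
          mul_one]
      _ = a * a := by rw [← map_mul, e1, h1 _ (h.four a)]
  have h5 : ρ = 1 := MulEquiv.ext fun x => by
    have e4 : x⁻¹ * ρ x ∈ h.V := by
      rw [← hk, map_mul, map_inv, ← H41.inv_eq_of_mul_self (hπ2 x), inv_inv, ← map_mul, hk]
      exact h4 x
    have e5 := h1 _ e4
    rw [map_mul, map_inv] at e5
    have e6 := congrArg ρ e5
    rw [map_mul, map_inv, h3, h1 _ e4] at e6
    have e7 : x⁻¹ * ρ x * (x⁻¹ * ρ x) * (x⁻¹ * ρ x) = 1 := by
      calc _ = x⁻¹ * ρ x * ((ρ x)⁻¹ * ρ (ρ x)) * ((ρ (ρ x))⁻¹ * x) := by rw [e5, e6]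
        _ = 1 := by group
    rw [h.mem_V.1 e4, one_mul, inv_mul_eq_one] at e7
    exact e7.symm
  exact absurd (hφ (h5.trans (map_one φ).symm)) (by decide)

end Cfsg.Agent.S3156
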