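import Cfsg.Statements.S3161
import Cfsg.Agent.Lib.CH2.SgD

set_option autoImplicit false
open Cfsg

namespace Cfsg.Agent.S3161

/-- Let Q be a non-abelian finite 2-group admitting commuting automorphisms α of order 2 and ρ of order 2^n − 1, where n ≥ 2, such that the fixed points of α form an elementary abelian subgroup of order 2^n on whose nonidentity elements the group generated by ρ acts transitively. Then Q is isomorphic to a Sylow 2-subgroup of the projective special unitary group of dimension 3 with parameter 2^n (realised over the field with 4^n elements) or of the projective special linear group of dimension 3 over the field with 2^n elements. -/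
theorem result {Q : Type*} [Group Q] [Finite Q] (hQ : IsPGroup 2 Q) (hna : ¬ IsMulCommutative Q) (n : ℕ) (hn : 2 ≤ n)
    (α ρ : MulAut Q) (hα : orderOf α = 2) (hρ : orderOf ρ = 2 ^ n - 1) (hc : Commute α ρ)
    (C : Subgroup Q) (hC : ∀ x : Q, x ∈ C ↔ α x = x) (hCE : Cfsg.IsElementaryAbelian 2 C ∧ Nat.card ↥C = 2 ^ n)
    (htr : ∀ x y : Q, x ∈ C → y ∈ C → x ≠ 1 → y ≠ 1 → ∃ k : ℕ, (ρ ^ k) x = y) :
    (∃ (F : Type) (_ : Field F) (_ : Fintype F), Fintype.card F = 4 ^ n ∧
        ∃ S : Sylow 2 (Cfsg.PSU 3 F (2 ^ n)), Nonempty (Q ≃* ↥(S : Subgroup (Cfsg.PSU 3 F (2 ^ n))))) ∨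
      (∃ (F : Type) (_ : Field F) (_ : Fintype F), Fintype.card F = 2 ^ n ∧
        ∃ S : Sylow 2 (Matrix.ProjectiveSpecialLinearGroup (Fin 3) F), Nonempty (Q ≃* ↥(S : Subgroup (Matrix.ProjectiveSpecialLinearGroup (Fin 3) F)))) := by
  letI := Fintype.ofFinite (GaloisField 2 n)
  letI := Fintype.ofFinite (GaloisField 2 (2 * n))
  have hF := H22.Sg.card_galois (n := n) (by omega)
  have hK := H22.Sg.card_galois (n := 2 * n) (by omega)
  have h4 : 4 ≤ Fintype.card (GaloisField 2 n) := by rw [hF]; exact Nat.pow_le_pow_right two_pos hn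
  have cm : ∀ x, α (ρ x) = ρ (α x) := fun x => congrArg (fun β : MulAut Q => β x) hc.eq
  have ho : ρ ^ (Fintype.card (GaloisField 2 n) - 1) = 1 := by rw [hF, ← hρ, pow_orderOf_eq_one]
  obtain ⟨l, ζ, c⟩ := H22.Sg.exists_coord (ρ := ρ) h4 (hCE.2.trans hF.symm)
    (fun x hx => by rw [← sq, hCE.1.2 x hx]) (fun x hx => (hC _).2 (by rw [cm, (hC _).1 hx]))
    (fun x _ => by rw [ho]; rfl) fun x hx y hy => htr x y hx hy
  have h : H22.Sg.St α ρ C l ζ := ⟨hQ, h4, fun x => by
    rw [← MulAut.mul_apply, ← sq, ← hα, pow_orderOf_eq_one]; rfl, cm, ho, hC, c⟩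
  haveI : Fact (Nat.Prime 2) := ⟨Nat.prime_two⟩
  rcases h.classify (by by_contra! h1; exact hna ⟨⟨h1⟩⟩) with ⟨⟨e⟩⟩ | h1
  · obtain ⟨e'⟩ := H22.Sg.unitri_equiv_sylow (F := GaloisField 2 n) default
    exact Or.inr ⟨_, inferInstance, inferInstance, hF, default, ⟨e.trans e'⟩⟩
  · rw [hF] at h1
    haveI : H11.U.IsSq (GaloisField 2 (2 * n)) (2 ^ n) := ⟨by rw [hK, ← pow_mul, mul_comm]⟩
    obtain ⟨e⟩ := h1 (GaloisField 2 (2 * n))
    obtain ⟨e'⟩ := H22.Sg.uq_equiv_sylow (K := GaloisField 2 (2 * n)) (q := 2 ^ n)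
      (dvd_pow_self 2 (by omega)) default
    exact Or.inl ⟨_, inferInstance, inferInstance, by rw [hK, pow_mul]; rfl, default, ⟨e.trans e'⟩⟩

end Cfsg.Agent.S3161
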