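import Cfsg.Statements.S3162
import Cfsg.Agent.Lib.TwoGrp.AutSylU

set_option autoImplicit false
open Cfsg

namespace Cfsg.Agent.S3162

/-- Let S be a Sylow 2-subgroup of the special unitary group of dimension 3 with parameter q = 2^n (n ≥ 2; realised over the field with q² elements). Then the largest normal 2-subgroup of the automorphism group of S is elementary abelian of order 2^(2n²), and the automorphism group has order 2^(2n²) · 2n(q² − 1). -/
theorem result {S : Type*} [Group S] [Finite S] (n : ℕ) (hn : 2 ≤ n) {F : Type*} [Field F] [Fintype F] (hF : Fintype.card F = 4 ^ n)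
    (P : Sylow 2 ↥(Cfsg.SU 3 F (2 ^ n))) (hS : Nonempty (S ≃* ↥(P : Subgroup ↥(Cfsg.SU 3 F (2 ^ n))))) :
    Cfsg.IsElementaryAbelian 2 (Cfsg.pCore 2 (MulAut S)) ∧ Nat.card ↥(Cfsg.pCore 2 (MulAut S)) = 2 ^ (2 * n ^ 2) ∧
      Nat.card (MulAut S) = 2 ^ (2 * n ^ 2) * (2 * n * ((2 ^ n) ^ 2 - 1)) := by
  have : H11.U.IsSq F (2 ^ n) := ⟨by rw [hF, ← pow_mul, mul_comm, pow_mul]; rfl⟩
  have hF' : Fintype.card F = 2 ^ (2 * n) := by rw [hF, pow_mul]; rfl
  have : CharP F 2 := by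
    have h1 := FiniteField.cast_card_eq_zero F
    rw [hF', Nat.cast_pow] at h1
    exact (CharP.charP_iff_prime_eq_zero Nat.prime_two).2 (pow_eq_zero_iff (by omega) |>.1 h1)
  obtain ⟨e⟩ := hS
  obtain ⟨e'⟩ := H13.TG.AS.equiv_UQ (dvd_pow_self 2 (by omega)) P
  have h := (H13.TG.AS.sc_UQ F (2 ^ n)).main' H13.TG.AS.up_UQ H13.TG.AS.lo_UQ (k := n) hF'
    (by rw [H55.SylT.card_UQ]; ring) (e.trans e')
  rw [show n * (2 * n) = 2 * n ^ 2 by ring, show 2 ^ (2 * n) = (2 ^ n) ^ 2 by ring] at h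
  exact h

end Cfsg.Agent.S3162
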