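import Cfsg.Statements.S3171
import Cfsg.Agent.Lib.SylT.U5Q
import Cfsg.Agent.Lib.SylT.U5Facts

set_option autoImplicit false
open Cfsg

namespace Cfsg.Agent.S3171

/-- Let P be a Sylow 2-subgroup of the Mathieu group of degree 24 and S the quotient of P by its centre. Then the centre of every maximal subgroup of S has order at most 8; S has an elementary abelian subgroup of order 64; and S has only one abelian subgroup of order 64. -/
theorem result (P : Sylow 2 ↥Cfsg.M24) :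
    (∀ M : Subgroup (↥(P : Subgroup ↥Cfsg.M24) ⧸ Subgroup.center ↥(P : Subgroup ↥Cfsg.M24)), IsCoatom M →
        Nat.card ↥(Subgroup.center ↥M) ≤ 8) ∧
      (∃ A : Subgroup (↥(P : Subgroup ↥Cfsg.M24) ⧸ Subgroup.center ↥(P : Subgroup ↥Cfsg.M24)),
        Cfsg.IsElementaryAbelian 2 A ∧ Nat.card ↥A = 64) ∧
      ∀ A B : Subgroup (↥(P : Subgroup ↥Cfsg.M24) ⧸ Subgroup.center ↥(P : Subgroup ↥Cfsg.M24)),
        IsMulCommutative ↥A → Nat.card ↥A = 64 → IsMulCommutative ↥B → Nat.card ↥B = 64 → A = B := by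
  obtain ⟨f⟩ := H55.SylT.T10.nonempty_quot P
  have hu : ∀ A : Subgroup (↥(P : Subgroup ↥Cfsg.M24) ⧸ Subgroup.center ↥(P : Subgroup ↥Cfsg.M24)),
      IsMulCommutative A → Nat.card A = 64 → A = H55.SylT.S9.A0.map f.toMonoidHom := by
    intro A a1 a2
    have e : (A.comap f.toMonoidHom).map f.toMonoidHom = A :=
      Subgroup.map_comap_eq_self_of_surjective f.surjective A
    rw [← e, H55.SylT.S9.uniq (A.comap f.toMonoidHom) (fun x hx y hy => f.injective (by
      rw [map_mul, map_mul]; exact congrArg Subtype.val (a1.1.1 ⟨f x, hx⟩ ⟨f y, hy⟩)))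
      (by rw [← Subgroup.card_map_of_injective (f := f.toMonoidHom) f.injective, e, a2])]
  refine ⟨fun M hM => ?_, ⟨H55.SylT.S9.A0.map f.toMonoidHom, ⟨⟨⟨?_⟩⟩, ?_⟩, ?_⟩,
    fun A B a1 a2 b1 b2 => (hu A a1 a2).trans (hu B b1 b2).symm⟩
  · have h3 : IsCoatom (M.map f.symm.toMonoidHom) :=
      (OrderIso.isCoatom_iff (MulEquiv.mapSubgroup f.symm) M).2 hM
    refine le_trans (le_of_eq ?_) (H55.SylT.S9.center_le _ h3)
    exact Nat.card_congr (Subgroup.centerCongr (f.symm.subgroupMap M)).toEquiv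
  · rintro ⟨_, x, hx, rfl⟩ ⟨_, y, hy, rfl⟩
    refine Subtype.ext ?_
    change f x * f y = f y * f x
    rw [← map_mul, ← map_mul, H55.SylT.S9.A0_comm hx hy]
  · rintro _ ⟨x, hx, rfl⟩
    rw [← map_pow, pow_two, H55.SylT.S9.A0_sq hx, map_one]
  · rw [Subgroup.card_map_of_injective (f := f.toMonoidHom) f.injective, H55.SylT.S9.card_A0]

end Cfsg.Agent.S3171
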