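import Cfsg.Statements.S3179
import Cfsg.Agent.Lib.TwoGrp.GL52
import Cfsg.Agent.Lib.MatConj.PSLIrr
import Cfsg.Agent.S0243
import Cfsg.Agent.S0280
import Cfsg.Agent.S1163

set_option autoImplicit false
open Cfsg

namespace Cfsg.Agent.S3179

/-- Let X be a section of the general linear group GL(5, 2), that is, a quotient of a subgroup of it. If X is isomorphic to PSL(2, 2^n) for some n ≥ 2, to a Suzuki group over the field with 2^(2m+1) elements for some m ≥ 1, or to PSU(3, 2^n) for some n ≥ 2, then X is isomorphic to PSL(2, 4). -/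
theorem result {H : Subgroup (GL (Fin 5) (ZMod 2))}
    {K : Subgroup ↥H} [K.Normal]
    (hX : (∃ (n : ℕ) (F : Type) (_ : Field F) (_ : Fintype F), 2 ≤ n ∧ Fintype.card F = 2 ^ n ∧
        Nonempty (↥H ⧸ K ≃* Matrix.ProjectiveSpecialLinearGroup (Fin 2) F)) ∨
      (∃ (m : ℕ) (F : Type) (_ : Field F) (_ : Fintype F), 1 ≤ m ∧ Fintype.card F = 2 ^ (2 * m + 1) ∧
        Nonempty (↥H ⧸ K ≃* ↥(Cfsg.Lie.Sz F (2 ^ (m + 1))))) ∨
      (∃ (n : ℕ) (F : Type) (_ : Field F) (_ : Fintype F), 2 ≤ n ∧ Fintype.card F = 4 ^ n ∧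
        Nonempty (↥H ⧸ K ≃* Cfsg.PSU 3 F (2 ^ n)))) :
    ∃ (F : Type) (_ : Field F) (_ : Fintype F), Fintype.card F = 4 ∧
      Nonempty (↥H ⧸ K ≃* Matrix.ProjectiveSpecialLinearGroup (Fin 2) F) := by
  have hdvd : Nat.card (↥H ⧸ K) ∣ 9999360 := by
    rw [← H13.GL52.card_GL52]
    exact (Subgroup.card_quotient_dvd_card K).trans (Subgroup.card_subgroup_dvd_card H)
  have hle := Nat.le_of_dvd (by norm_num) hdvd
  have big : ∀ n k : ℕ, k ≤ n → 2 ^ k ≤ 2 ^ n := fun n k h => Nat.pow_le_pow_right (by norm_num) h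
  rcases hX with ⟨n, F, _, _, hn, hF, ⟨e⟩⟩ | ⟨m, F, _, _, hm, hF, ⟨e⟩⟩ | ⟨n, F, _, _, hn, hF, ⟨e⟩⟩
  · have hc := S0243.result hF 2 le_rfl
    rw [← Nat.card_congr e.toEquiv] at hc
    simp only [Fin.prod_univ_two, Fin.val_zero, Fin.val_one, pow_zero, pow_one] at hc
    have hn7 : n ≤ 7 := by
      by_contra hh
      have h8 := big n 8 (by omega)
      have hg : Nat.gcd 2 (2 ^ n - 1) ≤ 2 := Nat.gcd_le_left _ (by norm_num)
      have hg1 : Nat.gcd 2 (2 ^ n - 1) = 1 := by
        obtain ⟨k, rfl⟩ : ∃ k, n = k + 1 := ⟨n - 1, by omega⟩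
        have : 0 < 2 ^ k := by positivity
        have e : 2 ^ (k + 1) - 1 = 1 + 2 * (2 ^ k - 1) := by omega
        rw [e, Nat.gcd_add_mul_left_right]; rfl
      rw [hg1, one_mul] at hc
      generalize 2 ^ n = q at hc h8
      obtain ⟨r, rfl⟩ : ∃ r, q = r + 256 := ⟨q - 256, by omega⟩
      have e1 : (r + 256) ^ 2 - 1 = (r + 255) * (r + 257) := by
        apply Nat.sub_eq_of_eq_add; ring
      have e2 : (r + 256) ^ 2 - (r + 256) = (r + 256) * (r + 255) := by
        apply Nat.sub_eq_of_eq_add; ring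
      rw [e1, e2, show r + 256 - 1 = r + 255 by omega, mul_assoc] at hc
      have := Nat.eq_of_mul_eq_mul_left (by omega) hc
      nlinarith [Nat.zero_le (r * r), Nat.zero_le (r * r * r)]
    interval_cases n
    · exact ⟨F, inferInstance, inferInstance, hF, ⟨e⟩⟩
    · exfalso
      obtain ⟨x, hx⟩ := H65.exists_psl_singer (F := F) (n := Fin 2)
      simp only [Fintype.card_fin, hF] at hx
      norm_num [Finset.sum_range_succ] at hx
      obtain ⟨y, hy⟩ := QuotientGroup.mk_surjective (e.symm x)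
      apply H13.GL52.not_nine_dvd_orderOf (y : GL (Fin 5) (ZMod 2))
      rw [Subgroup.orderOf_coe]
      refine hx.trans ?_
      rw [← e.symm.orderOf_eq x, ← hy]
      exact orderOf_map_dvd (QuotientGroup.mk' K) y
    all_goals
      exfalso
      generalize Nat.card (↥H ⧸ K) = c at hc hdvd
      norm_num at hc
      obtain ⟨k, hk⟩ := hdvd
      have hc' : c = 4080 ∨ c = 32736 ∨ c = 262080 ∨ c = 2097024 ∨ c = 62400 ∨ c = 5515776 := by
        omega
      rcases hc' with rfl | rfl | rfl | rfl | rfl | rfl <;> omega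
  · exfalso
    have hc := (S1163.result hm hF).1
    rw [← Nat.card_congr e.toEquiv] at hc
    have hm1 : m ≤ 1 := by
      by_contra hh
      have h8 := big (2 * m + 1) 5 (by omega)
      generalize 2 ^ (2 * m + 1) = q at hc h8
      obtain ⟨r, rfl⟩ : ∃ r, q = r + 32 := ⟨q - 32, by omega⟩
      rw [show r + 32 - 1 = r + 31 by omega] at hc
      have h1 : 32 ^ 2 * 31 * (32 ^ 2 + 1) ≤ (r + 32) ^ 2 * (r + 31) * ((r + 32) ^ 2 + 1) := by
        gcongr <;> omega
      omega
    obtain rfl : m = 1 := by omega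
    rw [hc] at hdvd
    norm_num at hdvd
  · exfalso
    have hc := S0280.result (F := F) (q := 2 ^ n) (by rw [hF, ← pow_mul, mul_comm, pow_mul]; norm_num)
      3 (by norm_num)
    rw [← Nat.card_congr e.toEquiv] at hc
    simp only [Finset.prod_range_succ, Finset.range_zero, Finset.prod_empty] at hc
    norm_num at hc
    have hn3 : n ≤ 3 := by
      by_contra hh
      have h8 := big n 4 (by omega)
      have hg : Nat.gcd 3 (2 ^ n + 1) ≤ 3 := Nat.gcd_le_left _ (by norm_num)
      generalize Nat.gcd 3 (2 ^ n + 1) = d at hc hg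
      generalize 2 ^ n = q at hc h8
      obtain ⟨r, rfl⟩ : ∃ r, q = r + 16 := ⟨q - 16, by omega⟩
      have e1 : (r + 16) ^ 2 - 1 = (r + 15) * (r + 17) := by
        apply Nat.sub_eq_of_eq_add; ring
      rw [e1] at hc
      have h2 : (r + 16 + 1) * (d * Nat.card (↥H ⧸ K)) =
          (r + 16 + 1) * ((r + 16) ^ 3 * ((r + 15) * (r + 17) * ((r + 16) ^ 3 + 1))) := by
        linear_combination hc
      have h3 := Nat.eq_of_mul_eq_mul_left (by omega) h2
      have h1 : 16 ^ 3 * (15 * 17 * (16 ^ 3 + 1)) ≤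
          (r + 16) ^ 3 * ((r + 15) * (r + 17) * ((r + 16) ^ 3 + 1)) := by
        gcongr <;> omega
      have h4 : d * Nat.card (↥H ⧸ K) ≤ 3 * 9999360 := Nat.mul_le_mul hg hle
      omega
    interval_cases n
    all_goals
      generalize Nat.card (↥H ⧸ K) = c at hc hdvd
      norm_num at hc
      obtain ⟨k, hk⟩ := hdvd
      have hc' : c = 4080 ∨ c = 32736 ∨ c = 262080 ∨ c = 2097024 ∨ c = 62400 ∨ c = 5515776 := by
        omega
      rcases hc' with rfl | rfl | rfl | rfl | rfl | rfl <;> omega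

end Cfsg.Agent.S3179
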