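import Mathlib
import Cfsg.Agent.Lib.InvChar.SylowIn
import Cfsg.Statements.S3180

set_option autoImplicit false
open Cfsg

namespace Cfsg.Agent.S3180

/-- Let P be a Sylow p-subgroup of a finite group J and P₁ a subgroup of P that is weakly closed in P with respect to J. If J acts on a set and two points, each fixed by every element of P₁, lie in one J-orbit, then they lie in one orbit of the normalizer of P₁ in J. -/
theorem result {J : Type*} [Group J] [Finite J]
    {p : ℕ} [Fact p.Prime] (P : Sylow p J) (P₁ : Subgroup J) (hW : Cfsg.IsWeaklyClosed P₁ (P : Subgroup J))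
    {Ω : Type*} [MulAction J Ω] (x y : Ω) (hx : ∀ g ∈ P₁, g • x = x) (hy : ∀ g ∈ P₁, g • y = y)
    (hc : ∃ g : J, g • x = y) :
    ∃ g ∈ Subgroup.normalizer (P₁ : Set J), g • x = y := by
  obtain ⟨g, hg⟩ := hc
  have hP₁ : IsPGroup p P₁ := P.isPGroup'.to_le hW.1
  have h1 : P₁.map (MulAut.conj g).toMonoidHom ≤ MulAction.stabilizer J y := by
    rintro _ ⟨s, hs, rfl⟩
    change (g * s * g⁻¹) • y = y
    rw [← hg, mul_smul, mul_smul, inv_smul_smul, hx s hs]
  obtain ⟨h, hh, Q, hQ, -, hPQ, hAQ⟩ := H72.exists_conj_pgroup (H72.isPGroup_map_conj hP₁ g) hP₁ h1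
    (fun s hs => hy s hs)
  refine ⟨h * g, H72.weaklyClosed_of_le_pgroup P hW.2 hQ hPQ ?_, ?_⟩
  · intro w hw
    have := hAQ _ (H72.conj_mem_map_conj (g := g) hw)
    simpa [mul_assoc] using this
  · rw [mul_smul, hg]; exact hh

end Cfsg.Agent.S3180
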