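import Mathlib
import Cfsg.Agent.Lib.InvChar.SylowIn
import Cfsg.Statements.S3183

set_option autoImplicit false
open Cfsg

namespace Cfsg.Agent.S3183

/-- Let G be a finite group in which the intersection of any two distinct Sylow 2-subgroups is contained in the centre of some Sylow 2-subgroup, and let S be a Sylow 2-subgroup. Then for every x in S the centralizer of x in S is a Sylow 2-subgroup of the centralizer of x in G (no 2-subgroup centralizing x is larger), and for every other Sylow 2-subgroup T the intersection S ∩ T lies in both the centre of S and the centre of T. -/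
theorem result {G : Type*} [Group G] [Finite G]
    (hCI : ∀ S T : Sylow 2 G, S ≠ T → ∃ U : Sylow 2 G,
      (S : Subgroup G) ⊓ (T : Subgroup G) ≤ (Subgroup.center ↥(U : Subgroup G)).map (U : Subgroup G).subtype)
    (S : Sylow 2 G) :
    (∀ x ∈ (S : Subgroup G), ∀ P : Subgroup G, IsPGroup 2 ↥P → P ≤ Subgroup.centralizer ({x} : Set G) →
        Nat.card ↥P ≤ Nat.card ↥((S : Subgroup G) ⊓ Subgroup.centralizer ({x} : Set G))) ∧
    (∀ T : Sylow 2 G, T ≠ S →
        (S : Subgroup G) ⊓ (T : Subgroup G) ≤
          (Subgroup.center ↥(S : Subgroup G)).map (S : Subgroup G).subtype ⊓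
            (Subgroup.center ↥(T : Subgroup G)).map (T : Subgroup G).subtype) := by
  have key : ∀ (S U : Sylow 2 G) (x : G), x ∈ (S : Subgroup G) →
      x ∈ (Subgroup.center ↥(U : Subgroup G)).map (U : Subgroup G).subtype →
      x ∈ (Subgroup.center ↥(S : Subgroup G)).map (S : Subgroup G).subtype := by
    intro S U x hxS hxU
    rw [H72.mem_map_center_subtype] at hxU ⊢
    refine ⟨hxS, ?_⟩
    by_contra hne
    set R : Subgroup G := (S : Subgroup G) ⊓ Subgroup.centralizer ({x} : Set G) with hR
    have hRS : R < S := by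
      refine lt_of_le_of_ne inf_le_left fun he => hne fun g hg => ?_
      have : g ∈ R := he ▸ hg
      exact Subgroup.mem_centralizer_singleton_iff.mp this.2
    have hUC : (U : Subgroup G) ≤ Subgroup.centralizer ({x} : Set G) := fun g hg =>
      Subgroup.mem_centralizer_singleton_iff.mpr (hxU.2 g hg)
    obtain ⟨h, hh, hRU⟩ := H72.exists_conj_mem_sylow_of_le U hUC
      (S.isPGroup'.to_inf_left (K := Subgroup.centralizer ({x} : Set G))) inf_le_right
    have hU'C : ((h⁻¹ • U : Sylow 2 G) : Subgroup G) ≤ Subgroup.centralizer ({x} : Set G) := by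
      intro g hg
      rw [H72.mem_smul_sylow] at hg
      have := mul_mem (mul_mem (inv_mem hh) (hUC hg)) hh
      simpa [mul_assoc] using this
    have hneq : S ≠ h⁻¹ • U := by
      intro he
      apply hne
      intro g hg
      exact Subgroup.mem_centralizer_singleton_iff.mp (hU'C (he ▸ hg))
    obtain ⟨V, hV⟩ := hCI S _ hneq
    have hRV : ∀ r ∈ R, r ∈ (V : Subgroup G) ∧ ∀ g ∈ (V : Subgroup G), g * r = r * g := by
      intro r hr
      apply H72.mem_map_center_subtype.mp
      apply hV
      refine ⟨hr.1, ?_⟩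
      change r ∈ ((h⁻¹ • U : Sylow 2 G) : Subgroup G)
      rw [H72.mem_smul_sylow]
      simpa using hRU r hr
    obtain ⟨y, hyS, hyR, hyN⟩ := H72.exists_mem_normalizer_not_mem S.isPGroup' hRS
    have hVN : (V : Subgroup G) ≤ Subgroup.normalizer (R : Set G) := by
      intro g hg
      apply H72.mem_normalizer_of_conj_mem
      intro r hr
      rw [(hRV r hr).2 g hg]
      simpa using hr
    obtain ⟨k, hk, hkV⟩ := H72.exists_conj_mem_sylow_of_le V hVN
      (S.isPGroup'.to_inf_left (K := Subgroup.normalizer (R : Set G))) inf_le_right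
    have hxR : x ∈ R := ⟨hxS, Subgroup.mem_centralizer_singleton_iff.mpr rfl⟩
    have h1 := (hRV _ (H72.conj_mem_of_mem_normalizer hk hxR)).2 _ (hkV y ⟨hyS, hyN⟩)
    apply hyR
    refine ⟨hyS, Subgroup.mem_centralizer_singleton_iff.mpr ?_⟩
    calc y * x = k⁻¹ * (k * y * k⁻¹ * (k * x * k⁻¹)) * k := by group
      _ = k⁻¹ * (k * x * k⁻¹ * (k * y * k⁻¹)) * k := by rw [h1]
      _ = x * y := by group
  have part2 : ∀ T : Sylow 2 G, T ≠ S →
        (S : Subgroup G) ⊓ (T : Subgroup G) ≤
          (Subgroup.center ↥(S : Subgroup G)).map (S : Subgroup G).subtype ⊓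
            (Subgroup.center ↥(T : Subgroup G)).map (T : Subgroup G).subtype := by
    intro T hT x hx
    obtain ⟨U, hU⟩ := hCI S T hT.symm
    exact ⟨key S U x hx.1 (hU hx), key T U x hx.2 (hU hx)⟩
  refine ⟨?_, part2⟩
  intro x hx P hP hPC
  have hzp : IsPGroup 2 (Subgroup.zpowers x) :=
    S.isPGroup'.to_le (Subgroup.zpowers_le.mpr hx)
  have hPx : IsPGroup 2 ↥(P ⊔ Subgroup.zpowers x) := by
    apply IsPGroup.to_sup_of_normal_right' hP hzp
    intro g hg
    apply H72.mem_normalizer_of_conj_mem
    rintro _ ⟨k, rfl⟩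
    have : Commute g x := Subgroup.mem_centralizer_singleton_iff.mp (hPC hg)
    change g * x ^ k * g⁻¹ ∈ _
    rw [(this.zpow_right k).eq]
    simp
  obtain ⟨T, hT⟩ := hPx.exists_le_sylow
  by_cases hTS : T = S
  · subst hTS
    exact Subgroup.card_le_of_le (le_inf (le_sup_left.trans hT) hPC)
  · have hxZ := (part2 T hTS ⟨hx, hT (Subgroup.mem_sup_right (Subgroup.mem_zpowers x))⟩).1
    have hSC : (S : Subgroup G) ≤ Subgroup.centralizer ({x} : Set G) := fun g hg =>
      Subgroup.mem_centralizer_singleton_iff.mpr ((H72.mem_map_center_subtype.mp hxZ).2 g hg)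
    rw [inf_of_le_left hSC, ← Nat.card_congr (Sylow.equiv T S).toEquiv]
    exact Subgroup.card_le_of_le (le_sup_left.trans hT)

end Cfsg.Agent.S3183
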