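import Mathlib
import Cfsg.Agent.Lib.InvChar.SylowIn
import Cfsg.Agent.S3183
import Cfsg.Agent.S0215
import Cfsg.Statements.S3184

set_option autoImplicit false
open Cfsg

namespace Cfsg.Agent.S3184

/-- Let G be a finite group in which the intersection of any two distinct Sylow 2-subgroups is contained in the centre of some Sylow 2-subgroup, and let S be a Sylow 2-subgroup. If C is a nontrivial cyclic characteristic subgroup of S, then the involution of C is central modulo the largest normal subgroup of odd order of G: each of its conjugates has the same image in G/O(G). -/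
theorem result {G : Type*} [Group G] [Finite G]
    (hCI : ∀ S T : Sylow 2 G, S ≠ T → ∃ U : Sylow 2 G,
      (S : Subgroup G) ⊓ (T : Subgroup G) ≤ (Subgroup.center ↥(U : Subgroup G)).map (U : Subgroup G).subtype)
    (S : Sylow 2 G) (C : Subgroup ↥(S : Subgroup G)) (hC : C ≠ ⊥) (hCc : IsCyclic ↥C) (hCh : C.Characteristic)
    (c : ↥(S : Subgroup G)) (hc : c ∈ C) (hc2 : orderOf c = 2) :
    ∀ g : G, (QuotientGroup.mk (s := Cfsg.oddCore G) (g * (c : G) * g⁻¹)) =
      QuotientGroup.mk (s := Cfsg.oddCore G) (c : G) := by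
  intro g
  have hcZ : ∀ n ∈ Subgroup.normalizer ((S : Subgroup G) : Set G), n * (c : G) * n⁻¹ = c := by
    intro n hn
    let φ : ↥(S : Subgroup G) ≃* ↥(S : Subgroup G) := Subgroup.normalizerMonoidHom (S : Subgroup G) ⟨n, hn⟩
    have h1 : φ c ∈ C := (Subgroup.characteristic_iff_map_le.mp hCh φ) ⟨c, hc, rfl⟩
    have h2 : orderOf (⟨φ c, h1⟩ : C) = 2 := by
      rw [Subgroup.orderOf_mk, φ.orderOf_eq, hc2]
    have h3 : orderOf (⟨c, hc⟩ : C) = 2 := by rw [Subgroup.orderOf_mk, hc2]
    have h4 : (⟨φ c, h1⟩ : C) = ⟨c, hc⟩ := by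
      classical
      have := Fintype.ofFinite C
      have hcard := hCc.card_orderOf_eq_totient (α := C) (d := 2) (dvd_trans (dvd_of_eq h3.symm) orderOf_dvd_card)
      rw [Nat.totient_two, Finset.card_eq_one] at hcard
      obtain ⟨a, ha⟩ := hcard
      have e1 : (⟨φ c, h1⟩ : C) ∈ ({a} : Finset C) := by rw [← ha]; simpa using h2
      have e2 : (⟨c, hc⟩ : C) ∈ ({a} : Finset C) := by rw [← ha]; simpa using h3
      rw [Finset.mem_singleton] at e1 e2
      rw [e1, e2]
    exact congrArg (fun x : C => ((x : ↥(S : Subgroup G)) : G)) h4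
  have hcc : (c : G) ∈ Subgroup.centralizer ((S : Subgroup G) : Set G) := by
    rw [Subgroup.mem_centralizer_iff]
    intro s hs
    have := hcZ s (Subgroup.le_normalizer hs)
    calc s * c = s * c * s⁻¹ * s := by group
      _ = c * s := by rw [this]
  obtain ⟨N, hN, hodd, hcomm⟩ := Cfsg.Agent.S0215.result S (c : G) (by rw [Subgroup.orderOf_coe, hc2]) c.2 (by
    intro g hg
    by_cases hT : g • S = S
    · exact hcZ g (Sylow.smul_eq_iff_mem_normalizer.mp hT)
    · have h1 := ((Cfsg.Agent.S3183.result hCI S).2 (g • S) hT ⟨hg, by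
        change _ ∈ ((g • S : Sylow 2 G) : Subgroup G)
        rw [H72.mem_smul_sylow]
        simp [mul_assoc]⟩).1
      have h2 : (g⁻¹)⁻¹ * (c : G) * g⁻¹ ∈ Subgroup.centralizer ((S : Subgroup G) : Set G) := by
        rw [Subgroup.mem_centralizer_iff, inv_inv]
        exact (H72.mem_map_center_subtype.mp h1).2
      obtain ⟨n, hn, hn'⟩ := S.conj_eq_normalizer_conj_of_mem_centralizer c g⁻¹ hcc h2
      rw [inv_inv] at hn'
      rw [hn']
      simpa using hcZ n⁻¹ (inv_mem hn))
  have hNO : N ≤ oddCore G := le_sSup ⟨hN, Nat.coprime_two_right.mpr hodd⟩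
  rw [eq_comm, QuotientGroup.eq]
  apply hNO
  have h5 := hN.conj_mem _ (inv_mem (hcomm g)) (c : G)⁻¹
  simpa [mul_assoc] using h5

end Cfsg.Agent.S3184
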