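import Mathlib
import Cfsg.Agent.Lib.InvChar.SylowIn
import Cfsg.Statements.S3190

set_option autoImplicit false
open Cfsg

namespace Cfsg.Agent.S3190

/-- Let p be an odd prime and, inside a finite group, let P be a p-subgroup normalized by a Klein four-group T. Let R be a subgroup of P, normal in P and normalized by T, such that P is the product of R with the centralizer of T in P. If T centralizes the centre of P, then T centralizes the centre of R. -/
theorem result {X : Type*} [Group X] [Finite X]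
    {p : ℕ} (hp : p.Prime) (hodd : Odd p) (P T R : Subgroup X) (hP : IsPGroup p ↥P) (hT : IsKleinFour ↥T)
    (hTP : T ≤ Subgroup.normalizer (P : Set X)) (hRP : R ≤ P) (hRn : (R.subgroupOf P).Normal)
    (hTR : T ≤ Subgroup.normalizer (R : Set X)) (hfac : R ⊔ (P ⊓ Subgroup.centralizer (T : Set X)) = P)
    (hZ : T ≤ Subgroup.centralizer (((Subgroup.center ↥P).map P.subtype : Subgroup X) : Set X)) :
    T ≤ Subgroup.centralizer (((Subgroup.center ↥R).map R.subtype : Subgroup X) : Set X) := by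
  have := Fact.mk hp
  intro t ht
  rw [Subgroup.mem_centralizer_iff]
  intro z hz
  replace hz := H72.mem_map_center_subtype.mp hz
  have htt : t * t = 1 := congrArg Subtype.val (IsKleinFour.mul_self (⟨t, ht⟩ : T))
  have hti : t⁻¹ = t := inv_eq_of_mul_eq_one_left htt
  let W : Subgroup X :=
    { carrier := {w | w ∈ R ∧ (∀ r ∈ R, r * w = w * r) ∧ t * w * t⁻¹ = w⁻¹}
      one_mem' := ⟨R.one_mem, by simp, by simp⟩
      mul_mem' := by
        rintro a b ⟨ha1, ha2, ha3⟩ ⟨hb1, hb2, hb3⟩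
        refine ⟨R.mul_mem ha1 hb1, fun r hr => ?_, ?_⟩
        · rw [← mul_assoc, ha2 r hr, mul_assoc, hb2 r hr, mul_assoc]
        · calc t * (a * b) * t⁻¹ = (t * a * t⁻¹) * (t * b * t⁻¹) := by group
            _ = (b * a)⁻¹ := by rw [ha3, hb3, mul_inv_rev]
            _ = (a * b)⁻¹ := by rw [ha2 b hb1]
      inv_mem' := by
        rintro a ⟨ha1, ha2, ha3⟩
        refine ⟨R.inv_mem ha1, fun r hr => ?_, ?_⟩
        · calc r * a⁻¹ = a⁻¹ * (a * r) * a⁻¹ := by group
            _ = a⁻¹ * r := by rw [← ha2 r hr]; group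
        · calc t * a⁻¹ * t⁻¹ = (t * a * t⁻¹)⁻¹ := by group
            _ = a⁻¹⁻¹ := by rw [ha3] }
  have hPR : P ≤ Subgroup.normalizer (R : Set X) := (Subgroup.normal_subgroupOf_iff_le_normalizer hRP).mp hRn
  have hPW : P ≤ Subgroup.normalizer (W : Set X) := by
    rw [← hfac, sup_le_iff]
    constructor
    · intro r hr
      apply H72.mem_normalizer_of_conj_mem
      intro w hw
      have : r * w * r⁻¹ = w := by rw [hw.2.1 r hr]; group
      rw [this]; exact hw
    · rintro g ⟨hgP, hgC⟩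
      apply H72.mem_normalizer_of_conj_mem
      rintro w ⟨hw1, hw2, hw3⟩
      refine ⟨H72.conj_mem_of_mem_normalizer (hPR hgP) hw1, fun r hr => ?_, ?_⟩
      · have := hw2 _ (H72.inv_conj_mem_of_mem_normalizer (hPR hgP) hr)
        calc r * (g * w * g⁻¹) = g * (g⁻¹ * r * g * w) * g⁻¹ := by group
          _ = g * (w * (g⁻¹ * r * g)) * g⁻¹ := by rw [this]
          _ = g * w * g⁻¹ * r := by group
      · have hc : t * g = g * t := Subgroup.mem_centralizer_iff.mp hgC t ht
        calc t * (g * w * g⁻¹) * t⁻¹ = (t * g) * w * (t * g)⁻¹ := by group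
          _ = g * (t * w * t⁻¹) * g⁻¹ := by rw [hc]; group
          _ = (g * w * g⁻¹)⁻¹ := by rw [hw3]; group
  have hW : W = ⊥ := by
    by_contra hne
    obtain ⟨w, hw, hw1, hwc⟩ := H72.exists_mem_center_of_normal hP (W := W) (fun w hw => hRP hw.1)
      (fun g hg w hw => H72.conj_mem_of_mem_normalizer (hPW hg) hw) hne
    have h1 : w * t = t * w := Subgroup.mem_centralizer_iff.mp (hZ ht) w
      (H72.mem_map_center_subtype.mpr ⟨hRP hw.1, hwc⟩)
    have h2 : w = w⁻¹ := by rw [← hw.2.2, ← h1]; group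
    have h3 : w ^ 2 = 1 := by rw [pow_two]; nth_rw 2 [h2]; simp
    have h4 := hP.orderOf_coprime (n := 2) (Nat.coprime_two_right.mpr hodd) ⟨w, hRP hw.1⟩
    rw [Subgroup.orderOf_mk] at h4
    exact hw1 (orderOf_eq_one_iff.mp (h4.eq_one_of_dvd (orderOf_dvd_of_pow_eq_one h3)))
  have hz' : t * z * t⁻¹ ∈ R := H72.conj_mem_of_mem_normalizer (hTR ht) hz.1
  have hmem : z * (t * z * t⁻¹)⁻¹ ∈ W := by
    refine ⟨R.mul_mem hz.1 (R.inv_mem hz'), fun r hr => ?_, ?_⟩
    · have := hz.2 _ (H72.inv_conj_mem_of_mem_normalizer (hTR ht) hr)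
      have h2 : r * (t * z * t⁻¹)⁻¹ = (t * z * t⁻¹)⁻¹ * r := by
        calc r * (t * z * t⁻¹)⁻¹ = t * z⁻¹ * (z * (t⁻¹ * r * t)) * z⁻¹ * t⁻¹ := by group
          _ = t * z⁻¹ * ((t⁻¹ * r * t) * z) * z⁻¹ * t⁻¹ := by rw [this]
          _ = (t * z * t⁻¹)⁻¹ * r := by group
      rw [← mul_assoc r z, hz.2 r hr, mul_assoc z r, h2, mul_assoc z]
    · calc t * (z * (t * z * t⁻¹)⁻¹) * t⁻¹ = t * z * t⁻¹ * ((t * t) * z⁻¹ * (t * t)⁻¹) := by group
        _ = (z * (t * z * t⁻¹)⁻¹)⁻¹ := by rw [htt]; group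
  rw [hW, Subgroup.mem_bot, mul_inv_eq_one] at hmem
  calc z * t = (t * z * t⁻¹) * t := by rw [← hmem]
    _ = t * z := by group

end Cfsg.Agent.S3190
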