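import Cfsg.Statements.S3191
import Mathlib
import Cfsg.Agent.Lib.Kondo.K5


set_option autoImplicit false
open Cfsg

namespace Cfsg.Agent.S3191


/-- Let n ≥ 1 and r = 2 or 3, and let H be the centralizer in the alternating group of degree 4n + r of an involution moving exactly 4n points (a product of 2n disjoint transpositions). Let G be a finite group that has no normal subgroup of index 2 and that contains an involution t which is central in some Sylow 2-subgroup of G and whose centralizer is isomorphic to H. Then G has exactly n conjugacy classes of involutions. -/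
theorem result (n r : ℕ) (hn : 1 ≤ n) (hr : r = 2 ∨ r = 3)
    (α : ↥(alternatingGroup (Fin (4 * n + r)))) (hα : orderOf α = 2)
    (hα4 : (α : Equiv.Perm (Fin (4 * n + r))).support.card = 4 * n)
    {G : Type*} [Group G] [Finite G] (h2 : ∀ H : Subgroup G, H.Normal → H.index ≠ 2)
    (t : G) (ht : orderOf t = 2) (S : Sylow 2 G) (htS : t ∈ (S : Subgroup G))
    (htZ : ∀ s ∈ (S : Subgroup G), s * t = t * s)
    (hiso : Nonempty (↥(Subgroup.centralizer ({t} : Set G)) ≃*
      ↥(Subgroup.centralizer ({α} : Set ↥(alternatingGroup (Fin (4 * n + r))))))) :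
    Nat.card {c : ConjClasses G // ∃ x ∈ c.carrier, orderOf x = 2} = n := by
  obtain ⟨φ⟩ := hiso
  obtain ⟨e, he⟩ := H24.Ko.exists_equiv (ι := Fin n) (β := Fin r) (m := 4 * n + r) (by simp)
    α.1 (by rw [← Subgroup.coe_pow, ← hα, pow_orderOf_eq_one]; rfl) (by simpa using hα4)
  have hr2 : 2 ≤ r := by omega
  obtain ⟨ψ, hψ, hi⟩ := H24.Ko.exists_emb (x := (⟨0, by omega⟩ : Fin r)) (y := ⟨1, by omega⟩)
    (by simp) α e he
  haveI : Nontrivial (Fin r) := Fin.nontrivial_iff_two_le.2 hr2
  rw [nat_card_alternatingGroup, Nat.card_eq_fintype_card, Fintype.card_fin] at hi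
  refine H24.Ko.classes_of_emb (fun N hN => h2 N (Subgroup.normal_of_index_eq_two hN) hN)
    ((Subgroup.centralizer ({t} : Set G)).subtype.comp (φ.symm.toMonoidHom.comp ψ))
    (Subtype.val_injective.comp (φ.symm.injective.comp hψ)) ?_
  rw [MonoidHom.range_comp, Subgroup.index_map_subtype, MonoidHom.range_comp,
    Subgroup.index_map_of_bijective φ.symm.bijective, hi]
  intro h
  rcases (Nat.prime_two.dvd_mul).1 h with h | h
  · rcases hr with rfl | rfl <;> simp [Nat.factorial] at h
  · refine S.not_dvd_index (h.trans (Subgroup.index_dvd_of_le fun s hs => ?_))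
    exact Subgroup.mem_centralizer_singleton_iff.2 (htZ s hs)

end Cfsg.Agent.S3191
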