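import Cfsg.Statements.S3195
import Mathlib
import Cfsg.Agent.Lib.LocStruct.Res
import Cfsg.Agent.Lib.Invol.Dihedral
import Cfsg.Agent.S0200

set_option autoImplicit false
open Cfsg

namespace Cfsg.Agent.S3195

open Subgroup H69
open scoped commutatorElement Pointwise

theorem eq_one_of_odd {G : Type*} [Group G] {x : G} (hx : Odd (orderOf x)) {k : ℕ}
    (h : x ^ 2 ^ k = 1) : x = 1 :=
  H70.eq_one_of_coprime_of_pow (Nat.coprime_two_right.2 hx) h

theorem comm_of_sq {G : Type*} [Group G] {x s : G} (hx : Odd (orderOf x))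
    (h : s * x ^ 2 * s⁻¹ = x ^ 2) : s * x * s⁻¹ = x := by
  obtain ⟨m, hm⟩ := hx
  have h1 : x = (x ^ 2) ^ (m + 1) := by
    rw [← pow_mul, show 2 * (m + 1) = orderOf x + 1 by omega, pow_succ, pow_orderOf_eq_one, one_mul]
  rw [h1, ← conj_pow, h]

theorem inv_of_odd {G : Type*} [Group G] {x y : G} (hx : Odd (orderOf x))
    (h : x * y * x⁻¹ = y⁻¹) : y = y⁻¹ := by
  have h2 : x ^ 2 * y * (x ^ 2)⁻¹ = y := by
    calc x ^ 2 * y * (x ^ 2)⁻¹ = x * (x * y * x⁻¹) * x⁻¹ := by rw [pow_two]; group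
      _ = x * y⁻¹ * x⁻¹ := by rw [h]
      _ = (x * y * x⁻¹)⁻¹ := by group
      _ = y := by rw [h, inv_inv]
  have h3 : y * x ^ 2 * y⁻¹ = x ^ 2 := by
    calc y * x ^ 2 * y⁻¹ = (x ^ 2 * y * (x ^ 2)⁻¹) * x ^ 2 * y⁻¹ := by rw [h2]
      _ = _ := by group
  have h4 := comm_of_sq hx h3
  rw [← h]
  calc y = (y * x * y⁻¹) * y * x⁻¹ := by group
    _ = _ := by rw [h4]

section
variable {G : Type*} [Group G] {A : Subgroup G} (hA : IsKleinFour A)
  (h : ∀ a ∈ A, a ≠ 1 → ∀ g : G, A ⊓ centralizer ({g * a * g⁻¹} : Set G) ≠ ⊥)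
include hA

theorem comm {a b : G} (ha : a ∈ A) (hb : b ∈ A) : a * b = b * a :=
  congrArg Subtype.val (IsKleinFour.isMulCommutative.is_comm.comm (⟨a, ha⟩ : A) ⟨b, hb⟩)

theorem mul_self' {a : G} (ha : a ∈ A) : a * a = 1 :=
  congrArg Subtype.val (IsKleinFour.mul_self (⟨a, ha⟩ : A))

theorem cases {a b c : G} (ha : a ∈ A) (hb : b ∈ A) (hc : c ∈ A) (ha1 : a ≠ 1) (hb1 : b ≠ 1)
    (hab : a ≠ b) (hc1 : c ≠ 1) : c = a ∨ c = b ∨ c = a * b := by
  by_contra hcon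
  push Not at hcon
  apply hcon.2.2
  have := IsKleinFour.eq_mul_of_ne_all (G := A) (x := ⟨a, ha⟩) (y := ⟨b, hb⟩) (z := ⟨c, hc⟩)
    (fun e => ha1 (congrArg Subtype.val e)) (fun e => hb1 (congrArg Subtype.val e))
    (fun e => hab (congrArg Subtype.val e)) (fun e => hc1 (congrArg Subtype.val e))
    (fun e => hcon.1 (congrArg Subtype.val e)) (fun e => hcon.2.1 (congrArg Subtype.val e))
  exact congrArg Subtype.val this

include h

/-- If `g t g⁻¹ = w t`, some nontrivial element of `A` centralizes `w`. -/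
theorem exists_cen {t g w : G} (ht : t ∈ A) (ht1 : t ≠ 1) (hw : g * t * g⁻¹ = w * t) :
    ∃ s ∈ A, s ≠ 1 ∧ s * w * s⁻¹ = w := by
  obtain ⟨s, hs, hs1⟩ := (bot_or_exists_ne_one _).resolve_left (h t ht ht1 g)
  refine ⟨s, hs.1, hs1, ?_⟩
  have h1 := mem_centralizer_singleton_iff.1 hs.2
  rw [hw] at h1
  have h2 := comm hA hs.1 ht
  calc s * w * s⁻¹ = s * (w * t) * (s * t)⁻¹ := by group
    _ = w * (t * s) * (s * t)⁻¹ := by rw [h1]; group
    _ = w := by rw [h2]; group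

theorem rel {a b x y : G} (ha : a ∈ A) (hb : b ∈ A) (ha1 : a ≠ 1) (hb1 : b ≠ 1) (hab : a ≠ b)
    (hx : Odd (orderOf x)) (hy : Odd (orderOf y)) (hx1 : x ≠ 1) (hy1 : y ≠ 1)
    (hax : a * x * a⁻¹ = x⁻¹) (hbx : b * x * b⁻¹ = x) (hay : a * y * a⁻¹ = y)
    (hby : b * y * b⁻¹ = y⁻¹) : y ^ 2 * x ^ 2 * y ^ 2 = (x ^ 2)⁻¹ := by
  have hcx : (a * b) * x * (a * b)⁻¹ = x⁻¹ := by
    calc _ = a * (b * x * b⁻¹) * a⁻¹ := by group
      _ = _ := by rw [hbx, hax]
  have hcy : (a * b) * y * (a * b)⁻¹ = y⁻¹ := by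
    calc _ = a * (b * y * b⁻¹) * a⁻¹ := by group
      _ = a * y⁻¹ * a⁻¹ := by rw [hby]
      _ = (a * y * a⁻¹)⁻¹ := by group
      _ = _ := by rw [hay]
  have hc1 : a * b ≠ 1 := by
    intro e
    apply hab
    rw [← mul_self' hA hb] at e
    exact mul_right_cancel e
  have conj3 : ∀ s : G, s * (y * x * x * y) * s⁻¹ =
      (s * y * s⁻¹) * (s * x * s⁻¹) * (s * x * s⁻¹) * (s * y * s⁻¹) := fun s => by group
  obtain ⟨s, hs, hs1, hw⟩ := exists_cen hA h (g := y * x) (w := y * x * x * y) (mul_mem ha hb)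
    hc1 (by
      calc y * x * (a * b) * (y * x)⁻¹
          = y * x * ((a * b) * x * (a * b)⁻¹)⁻¹ * ((a * b) * y * (a * b)⁻¹)⁻¹ * (a * b) := by group
        _ = _ := by rw [hcx, hcy]; group)
  rw [conj3] at hw
  rcases cases hA ha hb hs ha1 hb1 hab hs1 with rfl | rfl | rfl
  · rw [hax, hay] at hw
    refine absurd (eq_one_of_odd hx (k := 2) ?_) hx1
    calc x ^ 2 ^ 2 = y⁻¹ * (y * x * x * y) * y⁻¹ * x ^ 2 := by simp only [show (2 : ℕ) ^ 2 = 4 from rfl, pow_succ, pow_zero, one_mul, mul_inv_rev, mul_assoc,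
          inv_mul_cancel_left, mul_inv_cancel_left, inv_mul_cancel, mul_inv_cancel, mul_one, inv_inv]
      _ = 1 := by rw [← hw]; simp only [show (2 : ℕ) ^ 2 = 4 from rfl, pow_succ, pow_zero, one_mul, mul_inv_rev, mul_assoc,
          inv_mul_cancel_left, mul_inv_cancel_left, inv_mul_cancel, mul_inv_cancel, mul_one, inv_inv]
  · rw [hbx, hby] at hw
    have hx2 : Odd (orderOf (x ^ 2)) := hx.of_dvd_nat (orderOf_pow_dvd 2)
    have := inv_of_odd hx2 (y := y ^ 2) (by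
      calc x ^ 2 * y ^ 2 * (x ^ 2)⁻¹ = y⁻¹ * (y * x * x * y) * y * (x ^ 2)⁻¹ := by
            simp only [show (2 : ℕ) ^ 2 = 4 from rfl, pow_succ, pow_zero, one_mul, mul_inv_rev, mul_assoc,
          inv_mul_cancel_left, mul_inv_cancel_left, inv_mul_cancel, mul_inv_cancel, mul_one, inv_inv]
        _ = _ := by rw [← hw]; simp only [show (2 : ℕ) ^ 2 = 4 from rfl, pow_succ, pow_zero, one_mul, mul_inv_rev, mul_assoc,
          inv_mul_cancel_left, mul_inv_cancel_left, inv_mul_cancel, mul_inv_cancel, mul_one, inv_inv])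
    refine absurd (eq_one_of_odd hy (k := 2) ?_) hy1
    calc y ^ 2 ^ 2 = y ^ 2 * y ^ 2 := by simp only [show (2 : ℕ) ^ 2 = 4 from rfl, pow_succ, pow_zero, one_mul, mul_inv_rev, mul_assoc,
          inv_mul_cancel_left, mul_inv_cancel_left, inv_mul_cancel, mul_inv_cancel, mul_one, inv_inv]
      _ = 1 := by nth_rw 1 [this]; group
  · rw [hcx, hcy] at hw
    calc y ^ 2 * x ^ 2 * y ^ 2 = y * (y * x * x * y) * y := by simp only [show (2 : ℕ) ^ 2 = 4 from rfl, pow_succ, pow_zero, one_mul, mul_inv_rev, mul_assoc,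
          inv_mul_cancel_left, mul_inv_cancel_left, inv_mul_cancel, mul_inv_cancel, mul_one, inv_inv]
      _ = _ := by rw [← hw]; simp only [show (2 : ℕ) ^ 2 = 4 from rfl, pow_succ, pow_zero, one_mul, mul_inv_rev, mul_assoc,
          inv_mul_cancel_left, mul_inv_cancel_left, inv_mul_cancel, mul_inv_cancel, mul_one, inv_inv]

end


/-- Let A be a Klein four-subgroup of a finite group G. If every G-conjugate of every involution of A commutes with some involution of A (its centralizer meets A nontrivially), then A meets the largest normal 2-subgroup O₂(G) nontrivially. -/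
theorem result {G : Type*} [Group G] [Finite G]
    (A : Subgroup G) (hA : IsKleinFour ↥A)
    (h : ∀ a ∈ A, a ≠ 1 → ∀ g : G, A ⊓ Subgroup.centralizer ({g * a * g⁻¹} : Set G) ≠ ⊥) :
    A ⊓ Cfsg.pCore 2 G ≠ ⊥ := by
  intro hbot
  have hinv : ∀ t ∈ A, t ≠ 1 → ∃ x : G, x ≠ 1 ∧ Odd (orderOf x) ∧ t * x * t⁻¹ = x⁻¹ ∧
      ∃ s ∈ A, s ≠ 1 ∧ s ≠ t ∧ s * x * s⁻¹ = x := by
    intro t ht ht1
    obtain ⟨x, hx1, hx, htx⟩ := Cfsg.Agent.S0200.result t
      (H9.orderOf_eq_two_of_mul_self ht1 (mul_self' hA ht)) (fun N hN hN2 htN => by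
        have : t ∈ A ⊓ pCore 2 G := ⟨ht, H70.le_pCore hN hN2 htN⟩
        rw [hbot] at this
        exact ht1 this)
    obtain ⟨s, hs, hs1, hw⟩ := exists_cen hA h (g := x) (w := x ^ 2) ht ht1 (by
      calc x * t * x⁻¹ = x * (t * x * t⁻¹)⁻¹ * t := by group
        _ = _ := by rw [htx]; simp only [show (2 : ℕ) ^ 2 = 4 from rfl, pow_succ, pow_zero, one_mul, mul_inv_rev, mul_assoc,
          inv_mul_cancel_left, mul_inv_cancel_left, inv_mul_cancel, mul_inv_cancel, mul_one, inv_inv])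
    have hsx := comm_of_sq hx hw
    refine ⟨x, hx1, hx, htx, s, hs, hs1, ?_, hsx⟩
    rintro rfl
    refine hx1 (eq_one_of_odd hx (k := 1) ?_)
    rw [hsx] at htx
    rw [pow_one, pow_two]
    nth_rw 1 [htx]
    group
  have hne : A ≠ ⊥ := by
    rintro rfl
    have := hA.card_four
    simp at this
  obtain ⟨a, ha, ha1⟩ := (bot_or_exists_ne_one _).resolve_left hne
  obtain ⟨x, hx1, hx, hax, b, hb, hb1, hba, hbx⟩ := hinv a ha ha1
  obtain ⟨y, hy1, hy, hby, s, hs, hs1, hsb, hsy⟩ := hinv b hb hb1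
  have hsx : s * x * s⁻¹ = x⁻¹ := by
    rcases cases hA ha hb hs ha1 hb1 hba.symm hs1 with rfl | rfl | rfl
    · exact hax
    · exact absurd rfl hsb
    · calc _ = a * (b * x * b⁻¹) * a⁻¹ := by group
        _ = _ := by rw [hbx, hax]
  have r1 := rel hA h hs hb hs1 hb1 hsb hx hy hx1 hy1 hsx hbx hsy hby
  have r2 := rel hA h hs hb hs1 hb1 hsb (hx.of_dvd_nat (orderOf_pow_dvd 2)) hy
    (fun e => hx1 (eq_one_of_odd hx (k := 1) (by simpa using e))) hy1
    (by rw [← conj_pow, hsx, inv_pow]) (by rw [← conj_pow, hbx]) hsy hby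
  refine hy1 (eq_one_of_odd hy (k := 2) ?_)
  have hy4 : y ^ 2 ^ 2 = y ^ 2 * y ^ 2 := by simp only [show (2 : ℕ) ^ 2 = 4 from rfl, pow_succ, pow_zero, one_mul, mul_inv_rev, mul_assoc,
          inv_mul_cancel_left, mul_inv_cancel_left, inv_mul_cancel, mul_inv_cancel, mul_one, inv_inv]
  rw [hy4]
  generalize x ^ 2 = X at r1 r2
  generalize y ^ 2 = Y at r1 r2
  calc Y * Y = (Y * X)⁻¹ * ((Y * X * Y) * (Y * X * Y)) * (X * Y)⁻¹ := by group
    _ = (Y * X)⁻¹ * (Y * X ^ 2 * Y) * (X * Y)⁻¹ := by rw [r1, r2]; simp only [show (2 : ℕ) ^ 2 = 4 from rfl, pow_succ, pow_zero, one_mul, mul_inv_rev, mul_assoc,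
          inv_mul_cancel_left, mul_inv_cancel_left, inv_mul_cancel, mul_inv_cancel, mul_one, inv_inv]
    _ = 1 := by simp only [show (2 : ℕ) ^ 2 = 4 from rfl, pow_succ, pow_zero, one_mul, mul_inv_rev, mul_assoc,
          inv_mul_cancel_left, mul_inv_cancel_left, inv_mul_cancel, mul_inv_cancel, mul_one, inv_inv]

end Cfsg.Agent.S3195
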