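import Cfsg.Statements.S3196
import Mathlib
import Cfsg.Agent.Lib.LocStruct.QuadPair
import Cfsg.Agent.Lib.PGroup.Basic

set_option autoImplicit false
open Cfsg

namespace Cfsg.Agent.S3196

open Subgroup H69
open scoped commutatorElement Pointwise

section
variable {G : Type*} [Group G] [Finite G] {p : ℕ}

theorem eq_of_le_prime (hp : p.Prime) {A X : Subgroup G} (hX : Nat.card X = p) (h : A ≤ X)
    (hA : A ≠ ⊥) : A = X := by
  refine eq_of_le_of_card_ge h ?_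
  rcases (Nat.dvd_prime hp).1 (hX ▸ card_dvd_of_le h) with h1 | h1
  · exact absurd (card_eq_one.1 h1) hA
  · rw [h1, hX]

theorem inf_eq_bot' (hp : p.Prime) {X Y : Subgroup G} (hX : Nat.card X = p) (hY : Nat.card Y = p)
    (h : X ≠ Y) : X ⊓ Y = ⊥ := by
  by_contra h0
  exact h ((eq_of_le_prime hp hX inf_le_left h0).symm.trans (eq_of_le_prime hp hY inf_le_right h0))

theorem card_sup' (hp : p.Prime) {X Y : Subgroup G} (hX : Nat.card X = p) (hY : Nat.card Y = p)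
    (h : X ≠ Y) (hc : X ≤ 𝐂(Y)) : Nat.card (X ⊔ Y : Subgroup G) = p * p := by
  have := H1.card_sup_mul_card_inf_of_le_normalizer (H69.le_normalizer_of_le_centralizer hc)
  rwa [inf_eq_bot' hp hX hY h, card_bot, mul_one, hX, hY] at this

theorem self_cen (hp : p.Prime) {X : Subgroup G} (hX : Nat.card X = p) : X ≤ 𝐂(X) := by
  haveI := Fact.mk hp
  haveI := isCyclic_of_prime_card hX
  intro a ha
  refine mem_centralizer_iff_commute.2 fun b hb => ?_
  exact congrArg Subtype.val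
    ((IsCyclic.isMulCommutative (α := X)).is_comm.comm (⟨b, hb⟩ : X) ⟨a, ha⟩)

theorem isP (hp : p.Prime) {X : Subgroup G} (hX : Nat.card X = p) : IsPGroup p X :=
  IsPGroup.of_card (n := 1) (by simpa using hX)

theorem sup_cen (hp : p.Prime) {X Y : Subgroup G} (hX : Nat.card X = p) (hY : Nat.card Y = p)
    (hc : X ≤ 𝐂(Y)) : X ⊔ Y ≤ 𝐂(X ⊔ Y) := by
  rw [H69.centralizer_sup]
  exact sup_le (le_inf (self_cen hp hX) hc) (le_inf (le_centralizer_comm.1 hc) (self_cen hp hY))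

structure PS (p : ℕ) (K : Set (Subgroup G)) : Prop where
  hp : p.Prime
  card : ∀ X ∈ K, Nat.card X = p
  pt : ∀ X ∈ K, ∀ Y ∈ K, X ≠ Y → X ≤ 𝐂(Y) → ∀ W ∈ K, ∃ Z ∈ K, Z ≤ X ⊔ Y ∧ Z ≤ 𝐂(W)
  nd : ∀ V ∈ K, ∃ W ∈ K, ¬ W ≤ 𝐂(V)

variable {K : Set (Subgroup G)}

theorem PS.line (h : PS p K) {X Y A B W : Subgroup G} (hX : X ∈ K) (hY : Y ∈ K) (hXY : X ≠ Y)
    (hc : X ≤ 𝐂(Y)) (hA : A ∈ K) (hB : B ∈ K) (hAB : A ≠ B) (hAl : A ≤ X ⊔ Y) (hBl : B ≤ X ⊔ Y)
    (h1 : A ≤ 𝐂(W)) (h2 : B ≤ 𝐂(W)) : X ⊔ Y ≤ 𝐂(W) := by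
  have hs := sup_cen h.hp (h.card X hX) (h.card Y hY) hc
  have : A ⊔ B = X ⊔ Y := eq_of_le_of_card_ge (sup_le hAl hBl) (by
    rw [card_sup' h.hp (h.card X hX) (h.card Y hY) hXY hc,
      card_sup' h.hp (h.card A hA) (h.card B hB) hAB (hAl.trans (hs.trans (centralizer_anti hBl)))])
  rw [← this]
  exact sup_le h1 h2

theorem PS.cen (h : PS p K) {X Y A B : Subgroup G} (hX : X ∈ K) (hY : Y ∈ K)
    (hc : X ≤ 𝐂(Y)) (hAl : A ≤ X ⊔ Y) (hBl : B ≤ X ⊔ Y) : A ≤ 𝐂(B) :=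
  hAl.trans ((sup_cen h.hp (h.card X hX) (h.card Y hY) hc).trans (centralizer_anti hBl))

theorem PS.perp (h : PS p K) {X Y : Subgroup G} (hX : X ∈ K) (hY : Y ∈ K)
    (hXY : ∀ U ∈ K, U ≤ 𝐂(X) → U ≤ 𝐂(Y)) : X = Y := by
  by_contra hne
  have hc := hXY X hX (self_cen h.hp (h.card X hX))
  obtain ⟨z, hz, hzY⟩ := h.nd Y hY
  obtain ⟨w, hw, hwl, hwz⟩ := h.pt X hX Y hY hne hc z hz
  have hwX : w ≤ 𝐂(X) := h.cen hX hY hc hwl le_sup_left
  have hzX : ¬ z ≤ 𝐂(X) := fun e => hzY (hXY z hz e)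
  have hwz' : w ≠ z := by rintro rfl; exact hzX hwX
  obtain ⟨u, hu, huw⟩ := h.nd w hw
  obtain ⟨t, ht, htl, htu⟩ := h.pt w hw z hz hwz' hwz u hu
  have htw : t ≠ w := by rintro rfl; exact huw (le_centralizer_comm.1 htu)
  have htw' : t ≤ 𝐂(w) := h.cen hw hz hwz htl le_sup_left
  have htu' : t ≠ u := by rintro rfl; exact huw htw'
  have htX : ¬ t ≤ 𝐂(X) := fun e =>
    hzX (le_sup_right.trans (h.line hw hz hwz' hwz ht hw htw htl le_sup_left e hwX))
  obtain ⟨s, hs, hsl, hsX⟩ := h.pt t ht u hu htu' htu X hX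
  have hsw : s ≤ 𝐂(w) := by
    refine le_trans ?_ (centralizer_anti hwl)
    rw [H69.centralizer_sup]
    exact le_inf hsX (hXY s hs hsX)
  have hst : s ≠ t := by rintro rfl; exact htX hsX
  exact huw (le_sup_right.trans (h.line ht hu htu' htu hs ht hst hsl le_sup_left hsw htw'))

theorem PS.exists_perp (h : PS p K) {X Y : Subgroup G} (hX : X ∈ K) (hY : Y ∈ K) (hne : X ≠ Y) :
    ∃ U ∈ K, U ≤ 𝐂(X) ∧ ¬ U ≤ 𝐂(Y) := by
  by_contra hcon
  push Not at hcon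
  exact hne (h.perp hX hY hcon)

omit [Finite G] in
theorem cen_cj {A W : Subgroup G} {g : G} (h : A ≤ 𝐂(W)) (hg : g ∈ 𝐂(A)) : A ≤ 𝐂(W ^ᶜ g) := by
  rw [← cj_centralizer, ← cj_eq_of_mem_centralizer hg]
  exact cj_mono g h

theorem PS.false (h : PS p K) (hcj : ∀ X ∈ K, ∀ g : G, X ^ᶜ g ∈ K) {X Y : Subgroup G}
    (hX : X ∈ K) (hY : Y ∈ K) (hne : X ≠ Y) (hc : X ≤ 𝐂(Y))
    (hall : ∀ Z : Subgroup G, Z ≤ X ⊔ Y → Nat.card Z = p → Z ∈ K) : False := by
  haveI := Fact.mk h.hp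
  have hb := inf_eq_bot' h.hp (h.card X hX) (h.card Y hY) hne
  obtain ⟨x, hx, hxo⟩ := H1.exists_mem_orderOf_eq_prime (H := X) h.hp (h.card X hX).symm.dvd
  obtain ⟨y, hy, hyo⟩ := H1.exists_mem_orderOf_eq_prime (H := Y) h.hp (h.card Y hY).symm.dvd
  have hx1 : x ≠ 1 := by rintro rfl; exact h.hp.one_lt.ne (by simpa using hxo)
  have hy1 : y ≠ 1 := by rintro rfl; exact h.hp.one_lt.ne (by simpa using hyo)
  have hxy : Commute x y := (mem_centralizer_iff_commute.1 (hc hx) y hy).symm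
  have hxyX : x * y ∉ X := fun e => hy1 (by
    have : y ∈ X ⊓ Y := ⟨(mul_mem_cancel_left hx).1 e, hy⟩
    rwa [hb] at this)
  have hZl : zpowers (x * y) ≤ X ⊔ Y := zpowers_le.2 (mul_mem_sup hx hy)
  have hZ : zpowers (x * y) ∈ K := hall _ hZl (by
    rw [Nat.card_zpowers]
    refine orderOf_eq_prime ?_ (fun e => hxyX (e ▸ one_mem _))
    rw [hxy.mul_pow, ← hxo, pow_orderOf_eq_one, hxo, ← hyo, pow_orderOf_eq_one, one_mul])
  have hZX : zpowers (x * y) ≠ X := fun e => hxyX (e ▸ mem_zpowers _)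
  have hZY : zpowers (x * y) ≠ Y := fun e => hx1 (by
    have h1 : x * y ∈ Y := e ▸ mem_zpowers _
    have : x ∈ X ⊓ Y := ⟨hx, (mul_mem_cancel_right hy).1 h1⟩
    rwa [hb] at this)
  obtain ⟨W, hW, hWZ, hWX⟩ := h.exists_perp hZ hX hZX
  have hWY : ¬ W ≤ 𝐂(Y) := fun e => hWX (le_centralizer_comm.1 (le_sup_left.trans
    (h.line hX hY hne hc hZ hY hZY hZl le_sup_right (le_centralizer_comm.1 hWZ)
      (le_centralizer_comm.1 e))))
  have hWW : W ^ᶜ x = W ^ᶜ y⁻¹ := by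
    have h1 : W ^ᶜ (x * y) = W :=
      cj_eq_of_mem_centralizer (le_centralizer_comm.1 hWZ (mem_zpowers _))
    conv_rhs => rw [← h1, cj_cj, hxy.eq, inv_mul_cancel_left]
  have hWZ' : W ≠ zpowers (x * y) := by
    rintro rfl; exact hWX (h.cen hX hY hc hZl le_sup_left)
  obtain ⟨U, hU, hUW, hUZ⟩ := h.exists_perp hW hZ hWZ'
  have hWU : W ≠ U := by rintro rfl; exact hUZ hWZ
  have hWUc := le_centralizer_comm.1 hUW
  obtain ⟨a, ha, hal, haX⟩ := h.pt W hW U hU hWU hWUc X hX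
  obtain ⟨b, hb', hbl, hbY⟩ := h.pt W hW U hU hWU hWUc Y hY
  have hab : a ≠ b := by
    rintro rfl
    have haW : a ≠ W := by rintro rfl; exact hWX haX
    have haZ : a ≤ 𝐂(zpowers (x * y)) := by
      refine le_trans ?_ (centralizer_anti hZl)
      rw [H69.centralizer_sup]
      exact le_inf haX hbY
    exact hUZ (le_sup_right.trans (h.line hW hU hWU hWUc ha hW haW hal le_sup_left haZ hWZ))
  have hWW' : W ≤ 𝐂(W ^ᶜ x) := by
    refine le_sup_left.trans (h.line hW hU hWU hWUc ha hb' hab hal hbl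
      (cen_cj (h.cen hW hU hWUc hal le_sup_left) (le_centralizer_comm.1 haX hx)) ?_)
    rw [hWW]
    exact cen_cj (h.cen hW hU hWUc hbl le_sup_left) (inv_mem (le_centralizer_comm.1 hbY hy))
  have heq : W = W ^ᶜ x := by
    refine h.perp hW (hcj W hW x) fun T hT hTW => ?_
    by_cases hWT : W = T
    · rw [← hWT]; exact hWW'
    have hWTc := le_centralizer_comm.1 hTW
    obtain ⟨c, hc', hcl, hcX⟩ := h.pt W hW T hT hWT hWTc X hX
    have hcW : c ≠ W := by rintro rfl; exact hWX hcX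
    exact le_sup_right.trans (h.line hW hT hWT hWTc hc' hW hcW hcl le_sup_left
      (cen_cj (h.cen hW hT hWTc hcl le_sup_left) (le_centralizer_comm.1 hcX hx)) hWW')
  have hXx : zpowers x = X :=
    eq_of_le_prime h.hp (h.card X hX) (zpowers_le.2 hx) (by simpa using hx1)
  have hn : X ≤ 𝐍(W) := by
    rw [← hXx]; exact zpowers_le.2 (cj_eq_self_iff.1 heq.symm)
  have hW0 : W ≠ ⊥ := by rintro rfl; exact hWX bot_le
  have := inf_centralizer_ne_bot (isP h.hp (h.card W hW)) (isP h.hp (h.card X hX)) hn hW0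
  exact hWX ((eq_of_le_prime h.hp (h.card W hW) inf_le_left this).symm.le.trans inf_le_right)

end


/-- Let p be a prime and K a set of subgroups of order p of a finite group G, closed under conjugation, such that at least two distinct members of K commute elementwise, and whenever two distinct members X, Y of K commute: every subgroup of order p of the group XY they generate belongs to K, and every member W of K has centralizer meeting XY nontrivially. Then some member V of K commutes elementwise with every member of K and lies in O_p(G); in particular G is not simple. -/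
theorem result {G : Type*} [Group G] [Finite G]
    {p : ℕ} (hp : p.Prime) (K : Set (Subgroup G)) (hK : ∀ X ∈ K, Nat.card ↥X = p)
    (hKc : ∀ X ∈ K, ∀ g : G, X.map (MulAut.conj g).toMonoidHom ∈ K)
    (hex : ∃ X ∈ K, ∃ Y ∈ K, X ≠ Y ∧ ∀ x ∈ X, ∀ y ∈ Y, x * y = y * x)
    (ha : ∀ X ∈ K, ∀ Y ∈ K, X ≠ Y → (∀ x ∈ X, ∀ y ∈ Y, x * y = y * x) →
      ∀ Z : Subgroup G, Z ≤ X ⊔ Y → Nat.card ↥Z = p → Z ∈ K)
    (hb : ∀ X ∈ K, ∀ Y ∈ K, X ≠ Y → (∀ x ∈ X, ∀ y ∈ Y, x * y = y * x) →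
      ∀ W ∈ K, (X ⊔ Y) ⊓ Subgroup.centralizer (W : Set G) ≠ ⊥) :
    (∃ V ∈ K, (∀ W ∈ K, ∀ v ∈ V, ∀ w ∈ W, v * w = w * v) ∧ V ≤ Cfsg.pCore p G) ∧ ¬ IsSimpleGroup G := by
  haveI := Fact.mk hp
  have hiff : ∀ X Y : Subgroup G, X ≤ 𝐂(Y) ↔ ∀ x ∈ X, ∀ y ∈ Y, x * y = y * x := fun X Y =>
    ⟨fun h x hx y hy => (mem_centralizer_iff_commute.1 (h hx) y hy).symm,
      fun h x hx => mem_centralizer_iff_commute.2 fun y hy => (h x hx y hy).symm⟩
  obtain ⟨X, hX, Y, hY, hne, hc⟩ := hex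
  have hV : ∃ V ∈ K, ∀ W ∈ K, W ≤ 𝐂(V) := by
    by_contra hcon
    push Not at hcon
    refine PS.false (K := K) ⟨hp, hK, fun X hX Y hY hne hc W hW => ?_, hcon⟩ hKc hX hY hne
      ((hiff _ _).2 hc) (ha X hX Y hY hne hc)
    have hP : IsPGroup p (X ⊔ Y : Subgroup G) :=
      IsPGroup.of_card (n := 2) (by rw [card_sup' hp (hK X hX) (hK Y hY) hne hc, sq])
    obtain ⟨z, hz, hzo⟩ := exists_orderOf_eq_prime (hP.to_le inf_le_left)
      (hb X hX Y hY hne ((hiff _ _).1 hc) W hW)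
    exact ⟨zpowers z, ha X hX Y hY hne ((hiff _ _).1 hc) _ (zpowers_le.2 hz.1)
      (by rw [Nat.card_zpowers, hzo]), zpowers_le.2 hz.1, zpowers_le.2 hz.2⟩
  obtain ⟨V, hV, hVc⟩ := hV
  have hVO : V ≤ pCore p G := by
    rw [← H70.pCoreOf_top]
    refine le_pCoreOf_of_forall_sup_cj le_top fun g _ => ?_
    exact H9.isPGroup_sup_of_le_normalizer (isP hp (hK V hV)) (isP hp (hK _ (hKc V hV g)))
      (H69.le_normalizer_of_le_centralizer (hVc _ (hKc V hV g)))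
  refine ⟨⟨V, hV, fun W hW => (hiff _ _).1 (le_centralizer_comm.1 (hVc W hW)), hVO⟩, fun hs => ?_⟩
  have hV0 : V ≠ ⊥ := by
    rintro rfl
    exact hp.one_lt.ne (by simpa using hK _ hV)
  have hG : IsPGroup p G := by
    rcases hs.eq_bot_or_eq_top_of_normal (pCore p G) inferInstance with h | h
    · exact absurd (le_bot_iff.1 (h ▸ hVO)) hV0
    · have := H70.isPGroup_pCore p G
      rw [h] at this
      exact this.of_equiv topEquiv
  have hall : ∀ Z ∈ K, Z = ⊤ := by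
    intro Z hZ
    by_contra hZt
    obtain ⟨M, hZM, hMn, -, hM⟩ := H5.exists_le_normal_index_eq hG hZt
    rcases hs.eq_bot_or_eq_top_of_normal M hMn with h | h
    · have : Z = ⊥ := le_bot_iff.1 (h ▸ hZM)
      subst this
      exact hp.one_lt.ne (by simpa using hK _ hZ)
    · exact hM.1 h
  exact hne ((hall X hX).trans (hall Y hY).symm)

end Cfsg.Agent.S3196
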