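import Cfsg.Statements.S3200
import Cfsg.Agent.S0564
import Cfsg.Agent.S0003
import Cfsg.Agent.S0004
import Cfsg.Agent.S0005

set_option autoImplicit false
open Cfsg

namespace Cfsg.Agent.S3200

open scoped Pointwise

/-- Let H be a finite group in which a Sylow 2-subgroup has an abelian complement (an abelian subgroup meeting it trivially whose product with it is all of H). Then H is solvable, and every subgroup and every quotient group of H again has a Sylow 2-subgroup with an abelian complement. -/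
theorem result {H : Type*} [Group H] [Finite H]
    (S : Sylow 2 H) (C : Subgroup H) (hC : IsMulCommutative ↥C) (hSC : Subgroup.IsComplement' (S : Subgroup H) C) :
    Group.IsSolvable H ∧
    (∀ L : Subgroup H, ∃ (P : Sylow 2 ↥L) (D : Subgroup ↥L), IsMulCommutative ↥D ∧ Subgroup.IsComplement' (P : Subgroup ↥L) D) ∧
    (∀ (N : Subgroup H) [N.Normal], ∃ (P : Sylow 2 (H ⧸ N)) (D : Subgroup (H ⧸ N)),
      IsMulCommutative ↥D ∧ Subgroup.IsComplement' (P : Subgroup (H ⧸ N)) D) := by
  haveI := S.2.isNilpotent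
  have hmul : ∀ g : H, ∃ a ∈ (S : Subgroup H), ∃ b ∈ C, g = a * b := fun g => by
    obtain ⟨⟨a, b⟩, h⟩ := (hSC.existsUnique g).exists
    exact ⟨a, a.2, b, b.2, h.symm⟩
  haveI hsol : Group.IsSolvable H := S0564.result (S : Subgroup H) C inferInstance
    (by letI : CommGroup C := { mul_comm := hC.1.1 }; infer_instance) hmul
  have cop : ∀ {G : Type _} [Group G] [Finite G] (P : Sylow 2 G) {k : ℕ}, ¬ 2 ∣ k → ∀ {G' : Type _} [Group G'] [Finite G'] (Q : Subgroup G'), IsPGroup 2 Q → k.Coprime (Nat.card Q) := by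
    intro G _ _ P k hk G' _ _ Q hQ
    obtain ⟨j, hj⟩ := hQ.exists_card_eq
    rw [hj]
    exact ((Nat.prime_two.coprime_iff_not_dvd.2 hk).symm).pow_right j
  have hCodd : ¬ 2 ∣ Nat.card C := by rw [← hSC.symm.index_eq_card]; exact S.not_dvd_index
  have hH : Nat.card H = Nat.card C * Nat.card S := by rw [← hSC.card_mul, mul_comm]
  refine ⟨hsol, fun L => ?_, fun N _ => ?_⟩
  · obtain ⟨P⟩ := (Sylow.nonempty : Nonempty (Sylow 2 L))
    obtain ⟨D, hD⟩ := S0003.result (G := L) (P : Subgroup L).index (Nat.card P)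
      (by rw [mul_comm, Subgroup.card_mul_index]) (cop S P.not_dvd_index _ (P.2.map L.subtype) |>.coprime_dvd_right
        (by rw [Subgroup.card_map_of_injective L.subtype_injective]))
    obtain ⟨K, hK, hDK⟩ := S0005.result _ _ hH (cop S hCodd _ S.2) (D.map L.subtype) (by
      rw [Subgroup.card_map_of_injective L.subtype_injective, hD]
      exact cop S P.not_dvd_index _ S.2)
    obtain ⟨g, hg⟩ := S0004.result _ _ hH (cop S hCodd _ S.2) C K rfl hK
    refine ⟨P, D, ⟨⟨fun a b => Subtype.ext (Subtype.ext ?_)⟩⟩, ?_⟩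
    · obtain ⟨x, hx, hxa⟩ : ((a : L) : H) ∈ MulAut.conj g • C := hg ▸ hDK ⟨a, a.2, rfl⟩
      obtain ⟨y, hy, hyb⟩ : ((b : L) : H) ∈ MulAut.conj g • C := hg ▸ hDK ⟨b, b.2, rfl⟩
      have := congrArg Subtype.val (hC.1.1 ⟨x, hx⟩ ⟨y, hy⟩)
      simp only [Subgroup.coe_mul] at this ⊢
      rw [← hxa, ← hyb]
      change MulAut.conj g x * MulAut.conj g y = MulAut.conj g y * MulAut.conj g x
      rw [← map_mul, ← map_mul, this]
    · refine Subgroup.isComplement'_of_coprime (by rw [hD, Subgroup.card_mul_index]) ?_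
      rw [hD]
      obtain ⟨j, hj⟩ := P.2.exists_card_eq
      rw [hj]
      exact ((Nat.prime_two.coprime_iff_not_dvd.2 P.not_dvd_index)).pow_left j
  · let π := QuotientGroup.mk' N
    have hπ : Function.Surjective π := QuotientGroup.mk'_surjective N
    refine ⟨S.mapSurjective hπ, C.map π, inferInstance, ?_⟩
    refine Subgroup.isComplement'_of_disjoint_and_mul_eq_univ ?_ ?_
    · rw [disjoint_iff]
      apply Subgroup.inf_eq_bot_of_coprime
      obtain ⟨j, hj⟩ := (S.mapSurjective hπ).2.exists_card_eq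
      rw [hj]
      exact ((Nat.prime_two.coprime_iff_not_dvd.2
        fun h => hCodd (h.trans (Subgroup.card_map_dvd C π)))).pow_left j
    · rw [Set.eq_univ_iff_forall]
      intro g
      obtain ⟨g, rfl⟩ := hπ g
      obtain ⟨a, ha, b, hb, rfl⟩ := hmul g
      exact ⟨π a, ⟨a, ha, rfl⟩, π b, ⟨b, hb, rfl⟩, (map_mul π a b).symm⟩

end Cfsg.Agent.S3200
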