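import Cfsg.Statements.S3201
import Cfsg.Agent.Lib.TwoGrp.QuatExt

set_option autoImplicit false
open Cfsg

namespace Cfsg.Agent.S3201

/-- Let S be a finite 2-group whose centre Z(S) has n ≥ 2 distinct maximal subgroups C₁, …, Cₙ with trivial intersection such that each quotient S/Cᵢ is a non-abelian group with exactly one involution (a generalized quaternion group). Then S is the internal direct product of an elementary abelian subgroup and a non-abelian subgroup with exactly one involution. -/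
theorem result {S : Type*} [Group S] [Finite S]
    (hS : IsPGroup 2 S) (n : ℕ) (hn : 2 ≤ n) (C : Fin n → Subgroup ↥(Subgroup.center S))
    (hCmax : ∀ i, IsCoatom (C i)) (hCinj : Function.Injective C) (hCint : ⨅ i, C i = ⊥)
    (hCq : ∀ i, ∃ (_ : ((C i).map (Subgroup.center S).subtype).Normal),
      ¬ IsMulCommutative (S ⧸ (C i).map (Subgroup.center S).subtype) ∧
      ∃! x : S ⧸ (C i).map (Subgroup.center S).subtype, orderOf x = 2) :
    ∃ E Q : Subgroup S, Cfsg.IsInternalDirectProduct E Q ⊤ ∧ Cfsg.IsElementaryAbelian 2 E ∧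
      ¬ IsMulCommutative ↥Q ∧ ∃! x : ↥Q, orderOf x = 2 := by
  have hi : ∀ i, (C i).index = 2 := fun i => H5.index_of_isCoatom (hS.to_subgroup _) (hCmax i)
  have hbot : ∀ u : Subgroup.center S, (∀ i, u ∈ C i) → u = 1 := fun u hu => by
    have : u ∈ ⨅ i, C i := Subgroup.mem_iInf.2 hu
    rwa [hCint] at this
  have hmem : ∀ i (u : Subgroup.center S), (u : S) ∈ (C i).map (Subgroup.center S).subtype ↔ u ∈ C i :=
    fun i u => Subgroup.mem_map_iff_mem (Subgroup.center S).subtype_injective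
  have hsq : ∀ u : Subgroup.center S, u * u = 1 := fun u =>
    hbot _ fun i => Subgroup.mul_self_mem_of_index_two (hi i) u
  have key : ∀ x, x ∉ Subgroup.center S → ∀ hx : x * x ∈ Subgroup.center S, ∀ i, (⟨x * x, hx⟩ : Subgroup.center S) ∉ C i := by
    intro x hx hxx i hxi
    obtain ⟨_, -, hu⟩ := hCq i
    obtain ⟨w, hw⟩ : ∃ w, w ∉ C i := by
      by_contra hh
      push Not at hh
      exact (hCmax i).1 (eq_top_iff.2 fun w _ => hh w)
    have h1 := H13.TG.ui_of_existsUnique hu (x : S ⧸ (C i).map (Subgroup.center S).subtype) (w : S)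
      ((QuotientGroup.eq_one_iff (x * x)).2 ((hmem i ⟨x * x, hxx⟩).2 hxi))
      (by rw [← QuotientGroup.mk_mul, ← Subgroup.coe_mul, hsq]; rfl)
      (fun h => hx (Subgroup.map_subtype_le _ ((QuotientGroup.eq_one_iff x).1 h)))
      (fun h => hw ((hmem i w).1 ((QuotientGroup.eq_one_iff (w : S)).1 h)))
    have h2 := Subgroup.map_subtype_le _ (QuotientGroup.eq.1 h1.symm)
    exact hx (by simpa using mul_mem w.2 h2)
  have uniq : ∀ x y, x ∉ Subgroup.center S → x * x ∈ Subgroup.center S → y ∉ Subgroup.center S →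
      y * y ∈ Subgroup.center S → x * x = y * y := by
    intro x y hx hxx hy hyy
    have := hbot (⟨x * x, hxx⟩ * ⟨y * y, hyy⟩⁻¹) fun i =>
      (Subgroup.mul_mem_iff_of_index_two (hi i)).2 (by
        rw [inv_mem_iff]; exact iff_of_false (key x hx hxx i) (key y hy hyy i))
    exact mul_inv_eq_one.1 (congrArg Subtype.val this)
  let i₀ : Fin n := ⟨0, by omega⟩
  obtain ⟨_, hna, hu⟩ := hCq i₀
  set E := (C i₀).map (Subgroup.center S).subtype with hE
  have hEZ : E ≤ Subgroup.center S := Subgroup.map_subtype_le _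
  obtain ⟨a, b, m, e, ha, hb, hx⟩ := H13.TG.quat_lift hS E hna hu
  obtain ⟨w, hw⟩ : ∃ w, w ∉ C i₀ := by
    by_contra hh
    push Not at hh
    exact (hCmax i₀).1 (eq_top_iff.2 fun w _ => hh w)
  have hq : ∀ y : S, e ((y * y : S) : S ⧸ E) = .a (2 ^ (m + 1) : ℕ) →
      y ∉ Subgroup.center S ∧ y * y ∈ Subgroup.center S := by
    intro y hy
    have hne : (QuaternionGroup.a (2 ^ (m + 1) : ℕ) : QuaternionGroup (2 ^ (m + 1))) ≠ 1 := by
      rw [← QuaternionGroup.a_one_pow]
      apply pow_ne_one_of_lt_orderOf (by positivity)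
      rw [QuaternionGroup.orderOf_a_one]
      have : 0 < 2 ^ (m + 1) := by positivity
      omega
    have hsq' : (QuaternionGroup.a (2 ^ (m + 1) : ℕ) : QuaternionGroup (2 ^ (m + 1))) *
        QuaternionGroup.a (2 ^ (m + 1) : ℕ) = 1 := by
      rw [← QuaternionGroup.a_one_pow, ← pow_add, ← two_mul, QuaternionGroup.a_one_pow_n]
    constructor
    · intro hyc
      have : y * y = 1 := congrArg Subtype.val (hsq ⟨y, hyc⟩)
      rw [this, QuotientGroup.mk_one, map_one] at hy
      exact hne hy.symm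
    · have h1 := H13.TG.ui_of_existsUnique hu ((y * y : S) : S ⧸ E) (w : S)
        (e.injective (by rw [map_mul, hy, hsq', map_one]))
        (by rw [← QuotientGroup.mk_mul, ← Subgroup.coe_mul, hsq]; rfl)
        (fun h => hne (by rw [← hy, h, map_one]))
        (fun h => hw ((hmem i₀ w).1 ((QuotientGroup.eq_one_iff (w : S)).1 h)))
      have h2 := hEZ (QuotientGroup.eq.1 h1.symm)
      simpa using mul_mem w.2 h2
  have q1 := hq b (by rw [QuotientGroup.mk_mul, map_mul, hb, QuaternionGroup.xa_mul_xa]; simp)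
  have q2 := hq (a * b) (by
    rw [QuotientGroup.mk_mul, map_mul, QuotientGroup.mk_mul, map_mul, ha, hb,
      QuaternionGroup.a_mul_xa, QuaternionGroup.xa_mul_xa]; simp)
  have q3 := hq (a ^ 2 ^ m) (by
    rw [← pow_add, ← two_mul, ← pow_succ', QuotientGroup.mk_pow, map_pow, ha, QuaternionGroup.a_one_pow])
  have r1 : a * b * (a * b) = b * b := uniq _ _ q2.1 q2.2 q1.1 q1.2
  have r2 : a ^ 2 ^ m * a ^ 2 ^ m = b * b := uniq _ _ q3.1 q3.2 q1.1 q1.2
  have r3 : b * a * b⁻¹ = a⁻¹ := by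
    have hc : a * (b * b) = b * b * a := Subgroup.mem_center_iff.1 q1.2 a
    have h1 : a * b * a = b := mul_right_cancel (b := b) (by rw [← r1]; group)
    calc b * a * b⁻¹ = a⁻¹ * (a * b * a) * b⁻¹ := by group
      _ = a⁻¹ := by rw [h1]; group
  have r4 : a ^ (2 * 2 ^ (m + 1)) = 1 := by
    rw [two_mul, pow_add, pow_succ, mul_two, pow_add, r2]
    exact congrArg Subtype.val (hsq ⟨b * b, q1.2⟩)
  let Q := Subgroup.zpowers a ⊔ Subgroup.zpowers b
  have hQ : Nat.card Q ≤ Nat.card (S ⧸ E) := by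
    have h1 := H82.card_sup_zpowers_le Nat.prime_two (K := Subgroup.zpowers a) (x := b)
      (H82.conj_mem_zpowers (by rw [r3]; exact inv_mem (Subgroup.mem_zpowers a)))
      (by rw [pow_two, ← r2]; exact mul_mem (pow_mem (Subgroup.mem_zpowers a) _) (pow_mem (Subgroup.mem_zpowers a) _))
    have h2 : Nat.card (Subgroup.zpowers a) ≤ 2 * 2 ^ (m + 1) := by
      rw [Nat.card_zpowers]; exact orderOf_le_of_pow_eq_one (by positivity) r4
    rw [Nat.card_congr e.toEquiv, H13.TG.card_quat]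
    change Nat.card Q ≤ _ at h1
    omega
  have haQ : a ∈ Q := Subgroup.mem_sup_left (Subgroup.mem_zpowers a)
  have hbQ : b ∈ Q := Subgroup.mem_sup_right (Subgroup.mem_zpowers b)
  have hdec : ∀ x, ∃ q ∈ Q, ∃ d ∈ E, x = q * d := fun x => by
    obtain ⟨i, d, hd, h | h⟩ := hx x
    · exact ⟨_, pow_mem haQ i, d, hd, h⟩
    · exact ⟨_, mul_mem hbQ (pow_mem haQ i), d, hd, h⟩
  let φ : Q →* S ⧸ E := (QuotientGroup.mk' E).comp Q.subtype
  have hφ : Function.Bijective φ := Function.Surjective.bijective_of_nat_card_le (fun x => by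
    obtain ⟨x, rfl⟩ := QuotientGroup.mk_surjective x
    obtain ⟨q, hq, d, hd, rfl⟩ := hdec x
    exact ⟨⟨q, hq⟩, (QuotientGroup.mk_mul_of_mem q hd).symm⟩) hQ
  let ψ := MulEquiv.ofBijective φ hφ
  refine ⟨E, Q, ⟨le_top, le_top, fun x hx y _ => (Subgroup.mem_center_iff.1 (hEZ hx) y).symm, ?_, ?_⟩,
    ⟨⟨⟨fun x y => Subtype.ext (Subgroup.mem_center_iff.1 (hEZ y.2) x)⟩⟩, fun x hx => ?_⟩, fun h => hna ?_, ?_⟩
  · rw [eq_bot_iff]
    rintro x ⟨h1, h2⟩
    have := hφ.1 (show φ ⟨x, h2⟩ = φ 1 by rw [map_one]; exact (QuotientGroup.eq_one_iff x).2 h1)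
    exact congrArg Subtype.val this
  · rw [eq_top_iff]
    intro x _
    obtain ⟨q, hq, d, hd, rfl⟩ := hdec x
    exact mul_mem (Subgroup.mem_sup_right hq) (Subgroup.mem_sup_left hd)
  · rw [pow_two]; exact congrArg Subtype.val (hsq ⟨x, hEZ hx⟩)
  · exact ⟨⟨fun x y => ψ.symm.injective (by rw [map_mul, map_mul, h.1.1])⟩⟩
  · obtain ⟨x, hx1, hx2⟩ := hu
    exact ⟨ψ.symm x, by simpa using hx1, fun y hy => by
      rw [← hx2 (ψ y) (by simpa using hy), MulEquiv.symm_apply_apply]⟩

end Cfsg.Agent.S3201
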