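import Mathlib
import Cfsg.Agent.Lib.InvChar.AbSylow
import Cfsg.Agent.Lib.SL2.Invol
import Cfsg.Agent.Lib.SL2.Poly
import Cfsg.Agent.Lib.GL.Simple
import Cfsg.Agent.Lib.Inv73.Transfer
import Cfsg.Agent.Lib.Inv73.Basic
import Cfsg.Agent.Lib.Cls.Four
import Cfsg.Statements.S3206

set_option autoImplicit false
open Cfsg

namespace Cfsg.Agent.S3206

open Subgroup H69 H72
set_option linter.style.haveILetI false

/-- Let G be a non-abelian finite simple group with abelian Sylow 2-subgroups, and let t be an involution of G whose centralizer is a maximal subgroup of G and is the direct product of the subgroup generated by t with a subgroup E having a normal subgroup isomorphic to PSL(2, q), q odd and greater than 3, with trivial centralizer in E. Then every finite perfect group having a central 2-subgroup with quotient isomorphic to G has that central subgroup trivial (G has no nontrivial perfect central extension by a 2-group), and every automorphism of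 G of 2-power order that fixes every element of some Sylow 2-subgroup of G is inner. -/
theorem result {G : Type*} [Group G] [Finite G] [IsSimpleGroup G]
    (hG : ¬ IsMulCommutative G) (hab : ∀ S : Sylow 2 G, IsMulCommutative ↥(S : Subgroup G))
    (t : G) (ht : orderOf t = 2) (hmax : IsCoatom (Subgroup.centralizer ({t} : Set G)))
    (E : Subgroup G) (hE : Cfsg.IsInternalDirectProduct (Subgroup.zpowers t) E (Subgroup.centralizer ({t} : Set G)))
    {F : Type*} [Field F] [Fintype F] (hFo : Odd (Fintype.card F)) (hF3 : 3 < Fintype.card F)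
    (N : Subgroup ↥E) [N.Normal] (hN : Nonempty (↥N ≃* Matrix.ProjectiveSpecialLinearGroup (Fin 2) F))
    (hNc : Subgroup.centralizer (N : Set ↥E) = ⊥) :
    (∀ (L : Type) (_ : Group L) (_ : Finite L) (Z : Subgroup L) (_ : Z.Normal), commutator L = ⊤ → Z ≤ Subgroup.center L →
        IsPGroup 2 ↥Z → Nonempty (L ⧸ Z ≃* G) → Z = ⊥) ∧
    (∀ (φ : G ≃* G) (k : ℕ), φ ^ (2 ^ k) = 1 → (∃ S : Sylow 2 G, ∀ s ∈ (S : Subgroup G), φ s = s) →
        ∃ g : G, ∀ x : G, φ x = g * x * g⁻¹) := by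
  have ht1 : t ≠ 1 := fun e => by simp [e] at ht
  have ht2 : t * t = 1 := by rw [← sq, ← ht, pow_orderOf_eq_one]
  have hO : pPrimeCore 2 G = ⊥ := pPrimeCore_eq_bot_of_simple Nat.prime_two (ht ▸ orderOf_dvd_natCard t)
  have hZ := center_eq_bot_of_simple hG
  refine ⟨fun L _ _ Z _ hL hZc hZ2 ⟨e⟩ => ?_, fun φ k hk ⟨S, hS⟩ => ?_⟩
  swap
  · obtain ⟨g, rfl⟩ := inner_of_fixes_comm_sylow hO hZ S (hab S) φ hk hS
    exact ⟨g, fun _ => rfl⟩
  obtain ⟨-, hEC, hcomm, hinf, hsup⟩ := hE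
  have hcm : ∀ {T : Subgroup G}, IsPGroup 2 T → IsMulCommutative T := fun {T} hT => by
    obtain ⟨Q, hQ⟩ := hT.exists_le_sylow
    exact ⟨⟨fun a b => Subtype.ext (by
      have := congrArg Subtype.val ((hab Q).1.1 ⟨a, hQ a.2⟩ ⟨b, hQ b.2⟩)
      exact this)⟩⟩
  obtain ⟨ψ⟩ := hN
  have h2 : (2 : F) ≠ 0 := H29.two_ne_zero_iff_odd.2 (by rwa [Nat.card_eq_fintype_card])
  obtain ⟨s₀, R, hD⟩ : ∃ (s₀ : Matrix.ProjectiveSpecialLinearGroup (Fin 2) F) (R : Subgroup _), H29.DihInv s₀ R :=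
    ⟨_, _, H29.dihInv_psl h2⟩
  obtain ⟨u₀, hp⟩ : ∃ u₀, H29.IsPair s₀ u₀ := by
    have h3 : Nonempty {t // H29.IsPair s₀ t} := (Nat.card_pos_iff.1 (by rw [hD.card_refl]; exact Nat.card_pos)).1
    exact ⟨h3.some.1, h3.some.2⟩
  let ι : Matrix.ProjectiveSpecialLinearGroup (Fin 2) F →* G :=
    (E.subtype.comp N.subtype).comp ψ.symm.toMonoidHom
  have hι : Function.Injective ι :=
    (E.subtype_injective.comp N.subtype_injective).comp ψ.symm.injective
  have hrange : ι.range = N.map E.subtype := by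
    rw [MonoidHom.range_comp, MonoidHom.range_eq_top.2 ψ.symm.surjective, ← MonoidHom.range_eq_map,
      MonoidHom.range_comp, range_subtype]
  have hιE : ∀ x, ι x ∈ E := fun x => (ψ.symm x).1.2
  have hn : E ≤ 𝐍(ι.range) := fun g hg => mem_normalizer_of_cj_le fun x hx => by
    rw [hrange] at hx ⊢
    obtain ⟨_, ⟨y, hy, rfl⟩, rfl⟩ := mem_cj'.1 hx
    exact ⟨_, ‹N.Normal›.conj_mem y hy ⟨g, hg⟩, rfl⟩
  have hON : pPrimeCore 2 ι.range = ⊥ := by
    haveI := H10.isSimpleGroup_PSL_fin (F := F) 2 le_rfl fun _ => by rwa [Nat.card_eq_fintype_card]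
    haveI := (MonoidHom.ofInjective hι).isSimpleGroup_congr.1 inferInstance
    refine pPrimeCore_eq_bot_of_simple Nat.prime_two ?_
    rw [← Nat.card_congr (MonoidHom.ofInjective hι).toEquiv]
    exact (orderOf_eq_prime (p := 2) (x := s₀) (by rw [sq, hp.sq₁]) hp.ne₁).symm.dvd.trans
      (_root_.orderOf_dvd_natCard s₀)
  have hmem : ∀ x ∈ E, IsPGroup 2 (zpowers x) → x ∈ ι.range := by
    intro x hx hx2
    obtain ⟨T, hT, hle⟩ := exists_isSylowIn_le hx2 (le_sup_right (a := ι.range))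
    refine le_of_comm_sylow (hn hx) hON (eq_bot_iff.2 fun y hy => ?_) hT (hcm hT.isP) (hle (mem_zpowers x))
    have hyE : y ∈ E := sup_le (by rintro _ ⟨z, rfl⟩; exact hιE z) (zpowers_le.2 hx) hy.1
    have h3 : (⟨y, hyE⟩ : E) ∈ centralizer (N : Set E) := mem_centralizer_iff.2 fun z hz =>
      Subtype.ext (mem_centralizer_iff.1 hy.2 z (by rw [SetLike.mem_coe, hrange]; exact ⟨z, hz, rfl⟩))
    rw [hNc] at h3
    exact congrArg Subtype.val h3
  have hp' : H29.IsPair (ι s₀) (ι u₀) :=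
    ⟨by rw [← map_mul, hp.sq₁, map_one], fun e => hp.ne₁ (hι (by rw [e, map_one])),
      by rw [← map_mul, hp.sq₂, map_one], fun e => hp.ne₂ (hι (by rw [e, map_one])), fun e => hp.ne (hι e),
      by rw [← map_mul, hp.comm, map_mul]⟩
  set V := closure ({ι s₀, ι u₀} : Set G)
  have hVE : V ≤ E := (closure_le E).2 (by rintro _ (rfl | rfl) <;> exact hιE _)
  have htV : zpowers t ≤ 𝐂(V) := fun a ha => mem_centralizer_iff.2 fun b hb => (hcomm a ha b (hVE hb)).symm
  have hT2 : IsPGroup 2 (zpowers t) := IsPGroup.of_card (n := 1) (by rw [Nat.card_zpowers, ht, pow_one])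
  obtain ⟨S, hS⟩ := (IsPGroup.to_sup_of_normal_left' (H19.isPGroup_of_isKleinFour hp'.isKleinFour) hT2
    (le_normalizer_of_le_centralizer htV)).exists_le_sylow
  have hsV : ι s₀ ∈ V := subset_closure (by simp)
  have huV : ι u₀ ∈ V := subset_closure (by simp)
  have htS : t ∈ (S : Subgroup G) := hS (mem_sup_right (mem_zpowers t))
  have hVS : V ≤ S := le_sup_left.trans hS
  have hSc : ∀ a ∈ (S : Subgroup G), ∀ b ∈ (S : Subgroup G), a * b = b * a := fun a ha b hb =>
    congrArg Subtype.val ((hab S).1.1 ⟨a, ha⟩ ⟨b, hb⟩)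
  have hSE : ∀ x ∈ (S : Subgroup G), x ∈ E → x ∈ V := by
    intro x hx hxE
    obtain ⟨y, rfl⟩ := hmem x hxE (S.isPGroup'.to_le (zpowers_le.2 hx))
    rw [hp'.mem_closure, ← map_mul, ← map_one ι]
    simp only [hι.eq_iff]
    exact hD.eq_of_comm hp (hι (by rw [map_mul, map_mul]; exact hSc _ hx _ (hVS hsV)))
      (hι (by rw [map_mul, map_mul]; exact hSc _ hx _ (hVS huV)))
  have htE : t ∉ E := fun h => ht1 (mem_bot.1 (hinf ▸ ⟨mem_zpowers t, h⟩))
  have hSV : ∀ x ∈ (S : Subgroup G), x ∈ V ∨ t * x ∈ V := by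
    intro x hx
    have h3 : x ∈ zpowers t ⊔ E := hsup ▸ mem_centralizer_singleton_iff.2 (hSc x hx t htS)
    obtain ⟨a, ha, b, hb, rfl⟩ := (mem_sup_of_le_normalizer_right (le_normalizer_of_le_centralizer
      fun a ha => mem_centralizer_iff.2 fun b hb => (hcomm a ha b hb).symm)).1 h3
    rcases (H73.mem_zpowers_of_mul_self ht2).1 ha with rfl | rfl
    · exact .inl (hSE _ hx (by rwa [one_mul]))
    · exact .inr (hSE _ (mul_mem htS hx) (by rwa [← mul_assoc, ht2, one_mul]))
  have hV2 : ∀ x ∈ V, x * x = 1 := fun x hx => H19.mul_self_of_isKleinFour hp'.isKleinFour hx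
  have hS2 : ∀ x ∈ S, x * x = 1 := by
    intro x hx
    rcases hSV x hx with h | h
    · exact hV2 x h
    · have h3 := hV2 _ h
      rwa [mul_assoc, ← mul_assoc x, hSc x hx t htS, mul_assoc, ← mul_assoc, ht2, one_mul] at h3
  have hidx : V.relIndex S = 2 := by
    rw [relIndex, index_eq_two_iff']
    refine ⟨⟨t, htS⟩, fun x => ?_⟩
    simp only [mem_subgroupOf, coe_mul]
    rcases hSV x x.2 with h | h
    · exact .inr ⟨h, fun h' => htE (hVE (by simpa using mul_mem h' (inv_mem h)))⟩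
    · exact .inl ⟨h, fun h' => htE (hVE (by simpa using mul_mem h (inv_mem h')))⟩
  have hno : ∀ K : Subgroup G, K.Normal → K.index ≠ 2 := by
    intro K hK hi
    rcases hK.eq_bot_or_eq_top with rfl | rfl
    · rw [index_bot] at hi
      haveI := isCyclic_of_prime_card (p := 2) hi
      exact hG inferInstance
    · simp at hi
  have hne : ∀ x ∈ V, x * t ≠ 1 := fun x hx e => htE (by
    rw [← inv_eq_of_mul_eq_one_right e]; exact inv_mem (hVE hx))
  have h := ker_eq_bot_of_one_class' hL ((e : L ⧸ Z →* G).comp (QuotientGroup.mk' Z))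
    (e.surjective.comp (QuotientGroup.mk'_surjective Z)) ?_ ?_ S hS2 (hVS hsV) (hVS huV) htS hp'.ne₁ hp'.ne₂ ht1
    hp'.rot.ne₂ (hne _ hsV) (hne _ huV) (by rw [← mul_assoc]; exact hne _ (mul_mem hsV huV)) fun x hx hx1 => ?_
  · rwa [MonoidHom.ker_mulEquiv_comp, QuotientGroup.ker_mk'] at h
  · rwa [MonoidHom.ker_mulEquiv_comp, QuotientGroup.ker_mk']
  · rwa [MonoidHom.ker_mulEquiv_comp, QuotientGroup.ker_mk']
  · obtain ⟨g, hg⟩ := H73.exists_conj_mem_of_no_index_two hno S V hidx x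
      (orderOf_eq_prime (by rw [sq, hS2 x hx]) hx1)
    obtain ⟨y, hy⟩ := hmem _ (hVE hg) ((H19.isPGroup_of_isKleinFour hp'.isKleinFour).to_le (zpowers_le.2 hg))
    obtain ⟨c, hc⟩ := hD.conj y (hι (by rw [map_mul, hy, hV2 _ hg, map_one]))
      (fun e => hx1 (by simpa [e, eq_comm] using hy))
    refine isConj_iff.2 ⟨g⁻¹ * ι c, ?_⟩
    calc _ = g⁻¹ * ι (c * s₀ * c⁻¹) * g := by simp only [map_mul, map_inv]; group
      _ = x := by rw [hc, hy]; group

end Cfsg.Agent.S3206
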