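import Mathlib
import Cfsg.Agent.Lib.InvChar.SylowIn
import Cfsg.Statements.S3208

set_option autoImplicit false
open Cfsg

namespace Cfsg.Agent.S3208

/-- Let j be an involution of a finite group G, H a subgroup of G, and T a Sylow 2-subgroup of H ∩ C_G(j) containing j such that ⟨j⟩ is a characteristic subgroup of T. Then T is a Sylow 2-subgroup of H. -/
theorem result {G : Type*} [Group G] [Finite G]
    (j : G) (hj : orderOf j = 2) (H T : Subgroup G) (hT : T ≤ H ⊓ Subgroup.centralizer ({j} : Set G)) (h2 : IsPGroup 2 ↥T)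
    (hSyl : ¬ 2 ∣ T.relIndex (H ⊓ Subgroup.centralizer ({j} : Set G))) (hjT : j ∈ T)
    (hchar : ((Subgroup.zpowers j).subgroupOf T).Characteristic) :
    ¬ 2 ∣ T.relIndex H := by
  classical
  intro h
  obtain ⟨Q, hQ, hTQ, hQH⟩ := H72.exists_pgroup_gt_of_dvd_relIndex h2 (hT.trans inf_le_left) h
  obtain ⟨x, hxQ, hxT, hxN⟩ := H72.exists_mem_normalizer_not_mem hQ hTQ
  have hxj : x * j * x⁻¹ ∈ Subgroup.zpowers j := by
    let φ : T ≃* T := Subgroup.normalizerMonoidHom T ⟨x, hxN⟩
    have h1 : φ ⟨j, hjT⟩ ∈ (Subgroup.zpowers j).subgroupOf T :=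
      (Subgroup.characteristic_iff_map_le.mp hchar φ) ⟨⟨j, hjT⟩, by simp [Subgroup.mem_subgroupOf], rfl⟩
    exact h1
  have hxc : x ∈ Subgroup.centralizer ({j} : Set G) := by
    rw [Subgroup.mem_centralizer_singleton_iff]
    have ho : orderOf (x * j * x⁻¹) = 2 := by
      rw [← hj]; exact (MulAut.conj x).orderOf_eq j
    rw [mem_zpowers_iff_mem_range_orderOf, hj] at hxj
    obtain ⟨k, hk, hk'⟩ := Finset.mem_image.mp hxj
    have : k = 0 ∨ k = 1 := by simp at hk; omega
    rcases this with rfl | rfl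
    · rw [pow_zero] at hk'; rw [← hk'] at ho; simp at ho
    · rw [pow_one] at hk'
      calc x * j = x * j * x⁻¹ * x := by group
        _ = j * x := by rw [← hk']
  apply hSyl
  apply H72.dvd_relIndex_of_pgroup_gt (Q := Q ⊓ Subgroup.centralizer ({j} : Set G)) hQ.to_inf_left
  · refine lt_of_le_of_ne (le_inf hTQ.le (hT.trans inf_le_right)) ?_
    intro he
    exact hxT (he ▸ ⟨hxQ, hxc⟩)
  · exact inf_le_inf_right _ hQH

end Cfsg.Agent.S3208
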