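import Mathlib
import Cfsg.Statements.S3209

set_option autoImplicit false
open Cfsg

namespace Cfsg.Agent.S3209

open Matrix in
theorem two_ne_zero_of_odd {F : Type*} [Field F] [Fintype F] (hF : Odd (Fintype.card F)) :
    (2 : F) ≠ 0 := by
  intro h
  have : ringChar F = 2 := CharP.ringChar_of_prime_eq_zero Nat.prime_two (by exact_mod_cast h)
  have := FiniteField.even_card_of_char_two this
  obtain ⟨k, hk⟩ := hF
  omega

open Matrix in
theorem sl2_sq_eq_one {F : Type*} [Field F] (h2 : (2 : F) ≠ 0) (A : SpecialLinearGroup (Fin 2) F)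
    (h : A * A = 1) : A = 1 ∨ A = -1 := by
  have hd := A.det_coe
  rw [det_fin_two] at hd
  have e : ∀ i j, (A * A) i j = (1 : SpecialLinearGroup (Fin 2) F) i j := fun i j => by rw [h]
  have e00 := e 0 0
  have e01 := e 0 1
  have e10 := e 1 0
  have e11 := e 1 1
  simp [Matrix.mul_apply, Fin.sum_univ_two] at e00 e01 e10 e11
  have ht : A 0 0 + A 1 1 ≠ 0 := by
    intro ht
    apply h2
    linear_combination -hd - e00 + (A 0 0) * ht
  have hb : A 0 1 = 0 := by
    apply mul_left_cancel₀ ht; linear_combination e01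
  have hc : A 1 0 = 0 := by
    apply mul_left_cancel₀ ht; linear_combination e10
  have ha : (A 0 0 - 1) * (A 0 0 + 1) = 0 := by linear_combination e00 - (A 1 0) * hb
  rcases mul_eq_zero.mp ha with h1 | h1
  · left
    have h1' : A 0 0 = 1 := by linear_combination h1
    have h2' : A 1 1 = 1 := by linear_combination hd + (A 1 0) * hb - (A 1 1) * h1
    ext i j
    fin_cases i <;> fin_cases j <;> simp [h1', h2', hb, hc]
  · right
    have h1' : A 0 0 = -1 := by linear_combination h1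
    have h2' : A 1 1 = -1 := by linear_combination -hd - (A 1 0) * hb + (A 1 1) * h1
    ext i j
    fin_cases i <;> fin_cases j <;> simp [h1', h2', hb, hc]

open Matrix Polynomial in
theorem sl2_conj_of_sq_eq_neg_one {F : Type*} [Field F] [Fintype F] (hF : Odd (Fintype.card F))
    (J : SpecialLinearGroup (Fin 2) F) (hJ : J.1 = !![0, -1; 1, 0])
    (A : SpecialLinearGroup (Fin 2) F) (h : A * A = -1) :
    ∃ P : SpecialLinearGroup (Fin 2) F, P * J * P⁻¹ = A := by
  have h2 := two_ne_zero_of_odd hF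
  have hd := A.det_coe
  rw [det_fin_two] at hd
  have e : ∀ i j, (A * A) i j = (-1 : SpecialLinearGroup (Fin 2) F) i j := fun i j => by rw [h]
  have e00 := e 0 0
  have e01 := e 0 1
  have e10 := e 1 0
  have e11 := e 1 1
  simp [Matrix.mul_apply, Fin.sum_univ_two] at e00 e01 e10 e11
  have ht : A 0 0 + A 1 1 = 0 := by
    by_contra ht
    apply ht
    have h3 : A 0 0 * (A 0 0 + A 1 1) = 0 := by linear_combination hd + e00
    have h4 : A 1 1 * (A 0 0 + A 1 1) = 0 := by linear_combination hd + e11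
    have h5 : (A 0 0 + A 1 1) ^ 2 = 0 := by linear_combination h3 + h4
    exact pow_eq_zero_iff two_ne_zero |>.mp h5
  obtain ⟨x, y, hxy⟩ : ∃ x y : F, x * (A 1 0 * x + A 1 1 * y) - (A 0 0 * x + A 0 1 * y) * y = 1 := by
    by_cases hc : A 1 0 = 0
    · have ha : A 0 0 ≠ 0 := by
        intro ha; rw [ha, hc] at hd; simp at hd
      refine ⟨(-1 - A 0 1) / (2 * A 0 0), 1, ?_⟩
      have : A 1 1 = -A 0 0 := by linear_combination ht
      rw [hc, this]
      field_simp
      ring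
    · obtain ⟨u, y, huy⟩ := FiniteField.exists_root_sum_quadratic (f := X ^ 2) (g := X ^ 2 - C (A 1 0))
        (degree_X_pow 2) (degree_X_pow_sub_C (by decide) _) (Nat.odd_iff.mp hF)
      simp only [eval_pow, eval_X, eval_sub, eval_C] at huy
      refine ⟨(u + A 0 0 * y) / A 1 0, y, ?_⟩
      have : A 1 1 = -A 0 0 := by linear_combination ht
      rw [this] at hd ⊢
      field_simp
      linear_combination huy + y ^ 2 * hd
  obtain ⟨P, hP⟩ : ∃ P : SpecialLinearGroup (Fin 2) F,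
      P.1 = !![x, A 0 0 * x + A 0 1 * y; y, A 1 0 * x + A 1 1 * y] :=
    ⟨⟨_, by rw [det_fin_two_of]; exact hxy⟩, rfl⟩
  refine ⟨P, ?_⟩
  rw [mul_inv_eq_iff_eq_mul]
  ext i j
  fin_cases i <;> fin_cases j <;> simp [Matrix.mul_apply, Fin.sum_univ_two, hP, hJ]
  · linear_combination (-x) * e00 - y * e01
  · linear_combination (-x) * e10 - y * e11

open Matrix in
theorem sub_facts {G : Type*} [Group G] {F : Type*} [Field F] [Fintype F] (hF : Odd (Fintype.card F))
    (L : Subgroup G) (e : ↥L ≃* SpecialLinearGroup (Fin 2) F) (j : G) (hj : orderOf j = 2) (hjL : j ∈ L) :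
    (∀ a ∈ L, a * a = 1 → a = 1 ∨ a = j) ∧ ∃ x ∈ L, x * x = j ∧
      ∀ a ∈ L, a * a = j → ∃ g ∈ L, g * x * g⁻¹ = a := by
  have h2 := two_ne_zero_of_odd hF
  have hjj : j * j = 1 := by rw [← pow_two, ← hj, pow_orderOf_eq_one]
  have hej : e ⟨j, hjL⟩ = -1 := by
    rcases sl2_sq_eq_one h2 (e ⟨j, hjL⟩) (by
      rw [← map_mul, ← map_one e]; congr 1; exact Subtype.ext hjj) with h | h
    · exfalso
      rw [← map_one e] at h
      have : j = 1 := congrArg Subtype.val (e.injective h)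
      rw [this] at hj; simp at hj
    · exact h
  obtain ⟨J, hJ⟩ : ∃ J : SpecialLinearGroup (Fin 2) F, J.1 = !![0, -1; 1, 0] :=
    ⟨⟨_, by simp [det_fin_two]⟩, rfl⟩
  refine ⟨fun a ha haa => ?_, e.symm J, SetLike.coe_mem _, ?_, ?_⟩
  · rcases sl2_sq_eq_one h2 (e ⟨a, ha⟩) (by
      rw [← map_mul, ← map_one e]; congr 1; exact Subtype.ext haa) with h | h
    · left
      rw [← map_one e] at h
      exact congrArg Subtype.val (e.injective h)
    · right
      rw [← hej] at h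
      exact congrArg Subtype.val (e.injective h)
  · rw [← Subgroup.coe_mul, ← map_mul]
    have : (⟨j, hjL⟩ : L) = e.symm (-1) := by rw [← hej]; simp
    rw [show j = ((⟨j, hjL⟩ : L) : G) from rfl, this]
    congr 2
    ext i k
    fin_cases i <;> fin_cases k <;> simp [Matrix.mul_apply, Fin.sum_univ_two, hJ]
  · intro a ha haa
    obtain ⟨P, hP⟩ := sl2_conj_of_sq_eq_neg_one hF J hJ (e ⟨a, ha⟩) (by
      rw [← map_mul, ← hej]; congr 1; exact Subtype.ext haa)
    refine ⟨e.symm P, SetLike.coe_mem _, ?_⟩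
    rw [← Subgroup.coe_inv, ← Subgroup.coe_mul, ← Subgroup.coe_mul, ← map_inv, ← map_mul, ← map_mul, hP]
    simp

/-- Let L₁ ≅ SL₂(q₁) and L₂ ≅ SL₂(q₂), q₁ and q₂ odd, be elementwise-commuting subgroups of a finite group meeting in ⟨j⟩ for an involution j. Then L₁L₂ has exactly two conjugacy classes of involutions: the central involution j, and one further class (there is an involution x ≠ j in L₁L₂, and every involution of L₁L₂ other than j is conjugate to x by an element of L₁L₂). -/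
theorem result {G : Type*} [Group G] [Finite G]
    {F₁ : Type*} [Field F₁] [Fintype F₁] {F₂ : Type*} [Field F₂] [Fintype F₂]
    (hF₁ : Odd (Fintype.card F₁)) (hF₂ : Odd (Fintype.card F₂)) (L₁ L₂ : Subgroup G)
    (e₁ : ↥L₁ ≃* Matrix.SpecialLinearGroup (Fin 2) F₁) (e₂ : ↥L₂ ≃* Matrix.SpecialLinearGroup (Fin 2) F₂)
    (hc : ∀ x ∈ L₁, ∀ y ∈ L₂, x * y = y * x) (j : G) (hj : orderOf j = 2) (hm : L₁ ⊓ L₂ = Subgroup.zpowers j) :
    ∃ x ∈ L₁ ⊔ L₂, orderOf x = 2 ∧ x ≠ j ∧
      ∀ y ∈ L₁ ⊔ L₂, orderOf y = 2 → y = j ∨ ∃ g ∈ L₁ ⊔ L₂, g * x * g⁻¹ = y := by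
  have hj1 : j ∈ L₁ := (hm ▸ Subgroup.mem_zpowers j : j ∈ L₁ ⊓ L₂).1
  have hj2 : j ∈ L₂ := (hm ▸ Subgroup.mem_zpowers j : j ∈ L₁ ⊓ L₂).2
  obtain ⟨hu₁, x₁, hx₁, hxx₁, hconj₁⟩ := sub_facts hF₁ L₁ e₁ j hj hj1
  obtain ⟨hu₂, x₂, hx₂, hxx₂, hconj₂⟩ := sub_facts hF₂ L₂ e₂ j hj hj2
  have hjj : j * j = 1 := by rw [← pow_two, ← hj, pow_orderOf_eq_one]
  have hjne : j ≠ 1 := by rintro rfl; simp at hj
  have hzp : ∀ z ∈ L₁, z ∈ L₂ → z = 1 ∨ z = j := by
    intro z h1 h2
    have : z ∈ Subgroup.zpowers j := hm ▸ ⟨h1, h2⟩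
    obtain ⟨k, rfl⟩ := this
    apply hu₁ _ h1
    change j ^ k * j ^ k = 1
    rw [← (Commute.refl j).mul_zpow, hjj, one_zpow]
  have hx12 : x₁ * x₂ ∉ L₁ := by
    intro h
    have h2 : x₂ ∈ L₁ := by simpa using mul_mem (inv_mem hx₁) h
    rcases hzp x₂ h2 hx₂ with h | h
    · rw [h, mul_one] at hxx₂; exact hjne hxx₂.symm
    · rw [h, hjj] at hxx₂; exact hjne hxx₂.symm
  refine ⟨x₁ * x₂, mul_mem (Subgroup.mem_sup_left hx₁) (Subgroup.mem_sup_right hx₂), ?_, ?_, ?_⟩
  · apply orderOf_eq_prime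
    · rw [Commute.mul_pow (hc x₁ hx₁ x₂ hx₂), pow_two, pow_two, hxx₁, hxx₂, hjj]
    · intro h; exact hx12 (h ▸ one_mem _)
  · intro h; exact hx12 (h ▸ hj1)
  · intro y hy hyo
    have hN : L₂ ≤ Subgroup.normalizer (L₁ : Set G) := by
      intro g hg
      apply Subgroup.mem_normalizer_fintype
      intro l hl
      rw [← hc l hl g hg]
      simpa using hl
    rw [← SetLike.mem_coe, Subgroup.coe_mul_of_right_le_normalizer_left L₁ L₂ hN] at hy
    obtain ⟨a, ha, b, hb, rfl⟩ := hy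
    change orderOf (a * b) = 2 at hyo
    have h1 : (a * a) * (b * b) = 1 := by
      rw [← pow_two, ← pow_two, ← Commute.mul_pow (hc a ha b hb), ← hyo, pow_orderOf_eq_one]
    have h2 : a * a = (b * b)⁻¹ := eq_inv_of_mul_eq_one_left h1
    rcases hzp (a * a) (mul_mem ha ha) (h2 ▸ inv_mem (mul_mem hb hb)) with h | h
    · left
      have hbb : b * b = 1 := by rwa [h, one_mul] at h1
      change a * b = j
      rcases hu₁ a ha h with rfl | rfl <;> rcases hu₂ b hb hbb with rfl | rfl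
      · simp at hyo
      · simp
      · simp
      · rw [hjj] at hyo; simp at hyo
    · right
      have hbb : b * b = j := by
        rw [h] at h1
        calc b * b = j * (j * (b * b)) := by rw [← mul_assoc, hjj, one_mul]
          _ = j := by rw [h1, mul_one]
      obtain ⟨g₁, hg₁, e1⟩ := hconj₁ a ha h
      obtain ⟨g₂, hg₂, e2⟩ := hconj₂ b hb hbb
      refine ⟨g₁ * g₂, mul_mem (Subgroup.mem_sup_left hg₁) (Subgroup.mem_sup_right hg₂), ?_⟩
      change _ = a * b
      calc g₁ * g₂ * (x₁ * x₂) * (g₁ * g₂)⁻¹ = g₁ * (g₂ * x₁) * (x₂ * g₂⁻¹) * g₁⁻¹ := by group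
        _ = g₁ * x₁ * (g₂ * x₂ * g₂⁻¹) * g₁⁻¹ := by rw [← hc x₁ hx₁ g₂ hg₂]; group
        _ = g₁ * x₁ * g₁⁻¹ * (g₂ * x₂ * g₂⁻¹) := by
          rw [e2, mul_assoc (g₁ * x₁), ← hc _ (inv_mem hg₁) b hb, mul_assoc (g₁ * x₁)]
        _ = a * b := by rw [e1, e2]

end Cfsg.Agent.S3209
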