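import Cfsg.Statements.S3211
import Cfsg.Agent.S3209
import Cfsg.Agent.Lib.GL.SylowSL2
import Cfsg.Agent.Lib.Inv73.ZStar

set_option autoImplicit false
open Cfsg

namespace Cfsg.Agent.S3211

open Matrix MatrixGroups in
theorem quat_data {F : Type*} [Field F] [Finite F] (hF : Odd (Nat.card F)) :
    ∃ (k : ℕ) (a b : SL(2, F)), orderOf a = 2 ^ (k + 2) ∧ b * b = a ^ 2 ^ (k + 1) ∧
      b * a * b⁻¹ = a⁻¹ ∧ ∀ (r : SL(2, F)) (m : ℕ), r ^ 2 ^ m = 1 → r ^ 2 ^ (k + 2) = 1 := by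
  obtain ⟨k, hk, -, -, hP, -⟩ := H10.exists_sylow_two_SL_two hF
  obtain ⟨k, rfl⟩ : ∃ k', k = k' + 1 := ⟨k - 1, by omega⟩
  have : Fact (Nat.Prime 2) := ⟨Nat.prime_two⟩
  have : NeZero (2 ^ (k + 1)) := ⟨by positivity⟩
  obtain ⟨P⟩ : Nonempty (Sylow 2 SL(2, F)) := inferInstance
  obtain ⟨e⟩ := hP P
  refine ⟨k, (e.symm (.a 1) : _), (e.symm (.xa 0) : _), ?_, ?_, ?_, ?_⟩
  · rw [Subgroup.orderOf_coe, MulEquiv.orderOf_eq, QuaternionGroup.orderOf_a_one]
    ring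
  · rw [← Subgroup.coe_mul, ← Subgroup.coe_pow, ← map_mul, ← map_pow, QuaternionGroup.xa_mul_xa,
      QuaternionGroup.a_one_pow]
    simp
  · rw [← Subgroup.coe_inv, ← Subgroup.coe_inv, ← Subgroup.coe_mul, ← Subgroup.coe_mul, ← map_inv,
      ← map_inv, ← map_mul, ← map_mul]
    congr 2
    rw [mul_inv_eq_iff_eq_mul, eq_inv_mul_iff_mul_eq]
    simp
  · intro r m hr
    have hp : IsPGroup 2 (Subgroup.zpowers r) := by
      rw [IsPGroup.iff_card]
      have : orderOf r ∣ 2 ^ m := orderOf_dvd_of_pow_eq_one hr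
      obtain ⟨i, -, hi⟩ := (Nat.dvd_prime_pow Nat.prime_two).1 this
      exact ⟨i, by rw [Nat.card_zpowers, hi]⟩
    obtain ⟨Q, hQ⟩ := hp.exists_le_sylow
    obtain ⟨f⟩ := hP Q
    have hrQ : r ∈ (Q : Subgroup SL(2, F)) := hQ (Subgroup.mem_zpowers r)
    have key : ∀ x : QuaternionGroup (2 ^ (k + 1)), x ^ 2 ^ (k + 2) = 1 := by
      rintro (i | i)
      · have h1 : (QuaternionGroup.a 1 : QuaternionGroup (2 ^ (k + 1))) ^ 2 ^ (k + 2) = 1 := by
          rw [← orderOf_dvd_iff_pow_eq_one, QuaternionGroup.orderOf_a_one]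
          exact ⟨1, by ring⟩
        have h2 : (QuaternionGroup.a i : QuaternionGroup (2 ^ (k + 1))) =
            (QuaternionGroup.a 1) ^ i.val := by
          rw [QuaternionGroup.a_one_pow]; simp
        rw [h2, ← pow_mul, Nat.mul_comm i.val, pow_mul, h1, one_pow]
      · rw [← orderOf_dvd_iff_pow_eq_one, QuaternionGroup.orderOf_xa]
        exact ⟨2 ^ k, by ring⟩
    have := key (f ⟨r, hrQ⟩)
    rw [← map_pow, map_eq_one_iff _ f.injective] at this
    exact congrArg Subtype.val this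

open Matrix MatrixGroups in
theorem sub_data {G : Type*} [Group G] {F : Type*} [Field F] [Fintype F]
    (hF : Odd (Fintype.card F)) (L : Subgroup G) (e : ↥L ≃* SL(2, F)) (j : G) (hj : orderOf j = 2)
    (hjL : j ∈ L) :
    (∀ r ∈ L, r * r = 1 → r = 1 ∨ r = j) ∧
    ∃ (k : ℕ) (a b : G), a ∈ L ∧ b ∈ L ∧ a ^ 2 ^ (k + 1) = j ∧ b * b = j ∧
      b * a * b⁻¹ = a⁻¹ ∧ ∀ r ∈ L, ∀ (m : ℕ), r ^ 2 ^ m = 1 → r ^ 2 ^ (k + 2) = 1 := by
  have h2 := S3209.two_ne_zero_of_odd hF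
  have hjj : j * j = 1 := by rw [← pow_two, ← hj, pow_orderOf_eq_one]
  have hj1 : j ≠ 1 := by rintro rfl; simp at hj
  have hu : ∀ r ∈ L, r * r = 1 → r = 1 ∨ r = j := by
    intro r hr hrr
    have h1 := S3209.sl2_sq_eq_one h2 (e ⟨r, hr⟩) (by
      rw [← map_mul, map_eq_one_iff _ e.injective]; exact Subtype.ext hrr)
    have h3 := S3209.sl2_sq_eq_one h2 (e ⟨j, hjL⟩) (by
      rw [← map_mul, map_eq_one_iff _ e.injective]; exact Subtype.ext hjj)
    rcases h3 with h3 | h3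
    · rw [map_eq_one_iff _ e.injective] at h3
      exact absurd (congrArg Subtype.val h3) hj1
    rcases h1 with h1 | h1
    · rw [map_eq_one_iff _ e.injective] at h1
      exact Or.inl (congrArg Subtype.val h1)
    · exact Or.inr (congrArg Subtype.val (e.injective (h1.trans h3.symm)))
  refine ⟨hu, ?_⟩
  obtain ⟨k, a, b, ha, hb, hba, hr⟩ := quat_data (F := F) (by rwa [Nat.card_eq_fintype_card])
  have haj : ((e.symm a : L) : G) ^ 2 ^ (k + 1) = j := by
    have ho : orderOf ((e.symm a : L) : G) = 2 ^ (k + 2) := by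
      rw [Subgroup.orderOf_coe, MulEquiv.orderOf_eq, ha]
    rcases hu (((e.symm a : L) : G) ^ 2 ^ (k + 1)) (L.pow_mem (e.symm a).2 _) (by
      rw [← pow_add, ← two_mul, ← pow_succ', ← ho, pow_orderOf_eq_one]) with h | h
    · have := orderOf_dvd_of_pow_eq_one h
      rw [ho, Nat.pow_dvd_pow_iff_le_right (by norm_num)] at this
      omega
    · exact h
  refine ⟨k, e.symm a, e.symm b, (e.symm a).2, (e.symm b).2, haj, ?_, ?_, ?_⟩
  · rw [← haj, ← Subgroup.coe_mul, ← Subgroup.coe_pow, ← map_mul, ← map_pow, hb]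
  · rw [← Subgroup.coe_inv, ← Subgroup.coe_inv, ← Subgroup.coe_mul, ← Subgroup.coe_mul, ← map_inv,
      ← map_inv, ← map_mul, ← map_mul, hba]
  · intro r hrL m hm
    have := hr (e ⟨r, hrL⟩) m (by
      rw [← map_pow, map_eq_one_iff _ e.injective]; exact Subtype.ext hm)
    rw [← map_pow, map_eq_one_iff _ e.injective] at this
    exact congrArg Subtype.val this

theorem mem_sup_comm {G : Type*} [Group G] {L₁ L₂ : Subgroup G}
    (hc : ∀ x ∈ L₁, ∀ y ∈ L₂, x * y = y * x) {w : G} (hw : w ∈ L₁ ⊔ L₂) :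
    ∃ x ∈ L₁, ∃ y ∈ L₂, w = x * y := by
  let K : Subgroup G :=
    { carrier := {w | ∃ x ∈ L₁, ∃ y ∈ L₂, w = x * y}
      one_mem' := ⟨1, L₁.one_mem, 1, L₂.one_mem, by simp⟩
      mul_mem' := by
        rintro _ _ ⟨x, hx, y, hy, rfl⟩ ⟨x', hx', y', hy', rfl⟩
        refine ⟨x * x', L₁.mul_mem hx hx', y * y', L₂.mul_mem hy hy', ?_⟩
        rw [mul_assoc, mul_assoc, ← mul_assoc y, ← hc x' hx' y hy, mul_assoc]
      inv_mem' := by
        rintro _ ⟨x, hx, y, hy, rfl⟩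
        refine ⟨x⁻¹, L₁.inv_mem hx, y⁻¹, L₂.inv_mem hy, ?_⟩
        rw [mul_inv_rev, hc _ (L₁.inv_mem hx) _ (L₂.inv_mem hy)] }
  have : L₁ ⊔ L₂ ≤ K := sup_le (fun x hx => ⟨x, hx, 1, L₂.one_mem, by simp⟩)
    (fun y hy => ⟨1, L₁.one_mem, y, hy, by simp⟩)
  exact this hw


/-- Let G be a finite group with subgroups L₁ ≅ SL₂(q₁) and L₂ ≅ SL₂(q₂), q₁ and q₂ odd prime powers, which commute elementwise and meet in ⟨j⟩ for an involution j, and suppose L₁L₂ has index 2 in C_G(j). If some n ∈ C_G(j) with n² = j interchanges L₁ and L₂ under conjugation (so that C_G(j) = L₁L₂⟨n⟩), then G = C_G(j)O(G). -/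
theorem result {G : Type*} [Group G] [Finite G]
    {F₁ : Type*} [Field F₁] [Fintype F₁] {F₂ : Type*} [Field F₂] [Fintype F₂]
    (hF₁ : Odd (Fintype.card F₁)) (hF₂ : Odd (Fintype.card F₂)) (L₁ L₂ : Subgroup G)
    (e₁ : ↥L₁ ≃* Matrix.SpecialLinearGroup (Fin 2) F₁) (e₂ : ↥L₂ ≃* Matrix.SpecialLinearGroup (Fin 2) F₂)
    (hc : ∀ x ∈ L₁, ∀ y ∈ L₂, x * y = y * x) (j : G) (hj : orderOf j = 2) (hm : L₁ ⊓ L₂ = Subgroup.zpowers j)
    (hle : L₁ ⊔ L₂ ≤ Subgroup.centralizer ({j} : Set G)) (hi : (L₁ ⊔ L₂).relIndex (Subgroup.centralizer ({j} : Set G)) = 2) (n : G) (hn : n ∈ Subgroup.centralizer ({j} : Set G))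
    (hn2 : n ^ 2 = j) (hswap : L₁.map (MulAut.conj n).toMonoidHom = L₂) :
    Subgroup.centralizer ({j} : Set G) ⊔ Cfsg.oddCore G = ⊤ := by
  classical
  have hjj : j * j = 1 := by rw [← pow_two, ← hj, pow_orderOf_eq_one]
  have hj1 : j ≠ 1 := by rintro rfl; simp at hj
  have hjm : j ∈ L₁ ⊓ L₂ := hm ▸ Subgroup.mem_zpowers j
  have hzp : ∀ x, x ∈ L₁ → x ∈ L₂ → x = 1 ∨ x = j := by
    intro x h1 h2
    have hx : x ∈ Subgroup.zpowers j := hm ▸ (⟨h1, h2⟩ : x ∈ L₁ ⊓ L₂)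
    rw [mem_zpowers_iff_mem_range_orderOf, hj] at hx
    simp only [Finset.mem_image, Finset.mem_range] at hx
    obtain ⟨i, hi, rfl⟩ := hx
    interval_cases i <;> simp
  obtain ⟨hu, k, a, b, haL, hbL, haj, hbb, hba, hexp⟩ := sub_data hF₁ L₁ e₁ j hj hjm.1
  have hcj : ∀ x, x ∈ Subgroup.centralizer ({j} : Set G) ↔ j * x = x * j := by
    intro x; simp [Subgroup.mem_centralizer_iff]
  have hnj : j * n = n * j := (hcj n).1 hn
  have hn2' : n * n = j := by rw [← pow_two, hn2]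
  have hL1j : ∀ x ∈ L₁, j * x = x * j := fun x hx => (hcj x).1 (hle (Subgroup.mem_sup_left hx))
  have hL2j : ∀ x ∈ L₂, j * x = x * j := fun x hx => (hcj x).1 (hle (Subgroup.mem_sup_right hx))
  have h12 : ∀ x ∈ L₁, n * x * n⁻¹ ∈ L₂ := by
    intro x hx
    rw [← hswap]
    exact ⟨x, hx, rfl⟩
  have h21' : ∀ y ∈ L₂, n⁻¹ * y * n ∈ L₁ := by
    intro y hy
    rw [← hswap] at hy
    obtain ⟨x, hx, rfl⟩ := hy
    simpa [mul_assoc] using hx
  have hjinv : j⁻¹ = j := by rw [inv_eq_iff_mul_eq_one, hjj]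
  have h21 : ∀ y ∈ L₂, n * y * n⁻¹ ∈ L₁ := by
    intro y hy
    have h1 := h21' y hy
    have h2 : n * y * n⁻¹ = j * (n⁻¹ * y * n) * j⁻¹ := by rw [← hn2']; group
    rw [h2, hL1j _ h1, mul_inv_cancel_right]
    exact h1
  -- `n` is not in `L₁ L₂`
  have hnL : n ∉ L₁ ⊔ L₂ := by
    intro h
    obtain ⟨x, hx, y, hy, hxy⟩ := mem_sup_comm hc h
    have h1 : n * b * n⁻¹ ∈ L₁ := by
      have : n * b * n⁻¹ = x * b * x⁻¹ := by
        rw [hxy, mul_assoc x y b, ← hc b hbL y hy]; group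
      rw [this]
      exact L₁.mul_mem (L₁.mul_mem hx hbL) (L₁.inv_mem hx)
    have h2 : (n * b * n⁻¹) * (n * b * n⁻¹) = j := by
      have : (n * b * n⁻¹) * (n * b * n⁻¹) = n * (b * b) * n⁻¹ := by group
      rw [this, hbb, ← hnj, mul_inv_cancel_right]
    rcases hzp _ h1 (h12 b hbL) with h3 | h3
    · rw [h3, mul_one] at h2; exact hj1 h2.symm
    · rw [h3, hjj] at h2; exact hj1 h2.symm
  -- every element of square one in `C(j)` lies in `L₁ L₂`
  have hinv : ∀ w, j * w = w * j → w * w = 1 → w ∈ L₁ ⊔ L₂ := by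
    intro w hw hww
    by_contra hwL
    have hw' := (hcj w).2 hw
    have hmem : w * n⁻¹ ∈ L₁ ⊔ L₂ := by
      have hi' : ((L₁ ⊔ L₂).subgroupOf (Subgroup.centralizer ({j} : Set G))).index = 2 := hi
      have := (Subgroup.mul_mem_iff_of_index_two hi' (a := ⟨w, hw'⟩)
        (b := ⟨n⁻¹, Subgroup.inv_mem _ hn⟩)).2 (by
          simp only [Subgroup.mem_subgroupOf, inv_mem_iff]
          exact ⟨fun h => absurd h hwL, fun h => absurd h hnL⟩)
      simpa [Subgroup.mem_subgroupOf] using this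
    obtain ⟨x, hx, y, hy, hxy⟩ := mem_sup_comm hc hmem
    have hw2 : w = x * y * n := by rw [← hxy]; group
    set x' := n * x * n⁻¹ with hx'
    set y' := n * y * n⁻¹ with hy'
    have hx'L : x' ∈ L₂ := h12 x hx
    have hy'L : y' ∈ L₁ := h21 y hy
    have hsq : (x * y') * (y * x') * j = 1 := by
      have e1 : w * w = x * (y * x') * y' * j := by
        rw [hw2, hx', hy', ← hn2']; group
      rw [← hww, e1, mul_assoc x (y * x') y', ← hc y' hy'L _ (L₂.mul_mem hy hx'L)]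
      group
    have hu1 : x * y' ∈ L₂ := by
      have : x * y' = ((y * x') * j)⁻¹ := by
        rw [eq_inv_iff_mul_eq_one, ← mul_assoc, hsq]
      rw [this]
      exact L₂.inv_mem (L₂.mul_mem (L₂.mul_mem hy hx'L) hjm.2)
    have hconj : y * x' = y * (n * (x * y') * n⁻¹) * y⁻¹ := by
      have e1 : n * (x * y') * n⁻¹ = x' * (j * y * j⁻¹) := by
        rw [hx', hy', ← hn2']; group
      rw [e1, hL2j y hy, mul_inv_cancel_right]; group
    rcases hzp _ (L₁.mul_mem hx hy'L) hu1 with h | h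
    · rw [hconj, h] at hsq
      apply hj1
      simpa using hsq
    · rw [hconj, h] at hsq
      have e1 : y * (n * j * n⁻¹) * y⁻¹ = j := by
        rw [← hnj, mul_inv_cancel_right, ← hL2j y hy, mul_inv_cancel_right]
      rw [e1, hjj, one_mul] at hsq
      exact hj1 hsq
  -- exponent bound in `L₁ L₂`
  have hexpL : ∀ w ∈ L₁ ⊔ L₂, w ^ 2 ^ (k + 2) = 1 → w ^ 2 ^ (k + 1) = 1 ∨ w ^ 2 ^ (k + 1) = j := by
    intro w hw hw1
    obtain ⟨x, hx, y, hy, rfl⟩ := mem_sup_comm hc hw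
    have hcm : Commute x y := hc x hx y hy
    have aux : ∀ r ∈ L₁, (r ^ 2 ^ (k + 2) = 1 ∨ r ^ 2 ^ (k + 2) = j) →
        r ^ 2 ^ (k + 1) = 1 ∨ r ^ 2 ^ (k + 1) = j := by
      intro r hr h
      have h1 : r ^ 2 ^ (k + 3) = 1 := by
        rw [pow_succ, pow_mul]
        rcases h with h | h <;> rw [h]
        · simp
        · rw [pow_two, hjj]
      have h2 := hexp r hr _ h1
      apply hu _ (L₁.pow_mem hr _)
      rw [← pow_add, ← two_mul, ← pow_succ', h2]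
    rw [hcm.mul_pow] at hw1
    have hx1 : x ^ 2 ^ (k + 2) ∈ L₂ := by
      rw [eq_inv_of_mul_eq_one_left hw1]
      exact L₂.inv_mem (L₂.pow_mem hy _)
    have hy1 : y ^ 2 ^ (k + 2) ∈ L₁ := by
      rw [eq_inv_of_mul_eq_one_right hw1]
      exact L₁.inv_mem (L₁.pow_mem hx _)
    have hX := aux x hx (hzp _ (L₁.pow_mem hx _) hx1)
    have hY : y ^ 2 ^ (k + 1) = 1 ∨ y ^ 2 ^ (k + 1) = j := by
      have h0 := hzp _ hy1 (L₂.pow_mem hy _)
      have h1 := aux (n * y * n⁻¹) (h21 y hy) (by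
        rw [conj_pow]
        rcases h0 with h0 | h0 <;> rw [h0]
        · left; simp
        · right; rw [← hnj, mul_inv_cancel_right])
      rw [conj_pow] at h1
      rcases h1 with h1 | h1
      · left; simpa using h1
      · right
        have : y ^ 2 ^ (k + 1) = n⁻¹ * j * n := by rw [← h1]; group
        rw [this, mul_assoc, hnj, inv_mul_cancel_left]
    rw [hcm.mul_pow]
    rcases hX with hX | hX <;> rcases hY with hY | hY <;> rw [hX, hY] <;> simp [hjj]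
  apply H73.centralizer_sup_oddCore_eq_top' hj
  intro h hh
  by_contra hne
  obtain ⟨t, htL, hto, htj, hcl⟩ := S3209.result hF₁ hF₂ L₁ L₂ e₁ e₂ hc j hj hm
  -- the special involution `t₀`
  set x := a ^ 2 ^ k with hx
  have hxL : x ∈ L₁ := L₁.pow_mem haL _
  have hxx : x * x = j := by rw [hx, ← pow_add, ← two_mul, ← pow_succ', haj]
  set x' := n * x * n⁻¹ with hx'
  set b' := n * b * n⁻¹ with hb'
  have hx'L : x' ∈ L₂ := h12 x hxL
  have hb'L : b' ∈ L₂ := h12 b hbL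
  have hxx' : x' * x' = j := by
    have : x' * x' = n * (x * x) * n⁻¹ := by rw [hx']; group
    rw [this, hxx, ← hnj, mul_inv_cancel_right]
  have hbb' : b' * b' = j := by
    have : b' * b' = n * (b * b) * n⁻¹ := by rw [hb']; group
    rw [this, hbb, ← hnj, mul_inv_cancel_right]
  have hbx : b * x * b⁻¹ = x⁻¹ := by rw [hx, ← conj_pow, hba, inv_pow]
  have hbx' : b' * x' * b'⁻¹ = x'⁻¹ := by
    have : b' * x' * b'⁻¹ = n * (b * x * b⁻¹) * n⁻¹ := by rw [hx', hb']; group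
    rw [this, hbx, hx']; group
  have hxnot : x ∉ L₂ := by
    intro h2
    rcases hzp x hxL h2 with h3 | h3
    · rw [h3, mul_one] at hxx; exact hj1 hxx.symm
    · rw [h3, hjj] at hxx; exact hj1 hxx.symm
  have ht0sq : (x * x') * (x * x') = 1 := by
    rw [mul_assoc, ← mul_assoc x', ← hc x hxL x' hx'L, mul_assoc, hxx', ← mul_assoc, hxx, hjj]
  have ht01 : x * x' ≠ 1 := by
    intro h1
    apply hxnot
    rw [eq_inv_of_mul_eq_one_left h1]
    exact L₂.inv_mem hx'L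
  have ht0j : x * x' ≠ j := by
    intro h1
    apply hxnot
    rw [eq_mul_inv_of_mul_eq h1]
    exact L₂.mul_mem hjm.2 (L₂.inv_mem hx'L)
  have ht0o : orderOf (x * x') = 2 := orderOf_eq_prime (by rw [pow_two, ht0sq]) ht01
  have ht0L : x * x' ∈ L₁ ⊔ L₂ := Subgroup.mul_mem_sup hxL hx'L
  obtain ⟨g₁, -, hg₁⟩ := (hcl _ ht0L ht0o).resolve_left ht0j
  have hjh : h * j * h⁻¹ ∈ L₁ ⊔ L₂ := hinv _ hh.symm (by
    have : h * j * h⁻¹ * (h * j * h⁻¹) = h * (j * j) * h⁻¹ := by group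
    rw [this, hjj]; simp)
  have hjho : orderOf (h * j * h⁻¹) = 2 := by
    rw [← hj]; exact (MulAut.conj h).orderOf_eq j
  obtain ⟨g₂, -, hg₂⟩ := (hcl _ hjh hjho).resolve_left hne
  set g := h⁻¹ * g₂ * g₁⁻¹ with hg
  have hgt : g * (x * x') * g⁻¹ = j := by
    rw [← hg₁, hg]
    have : j = h⁻¹ * (g₂ * t * g₂⁻¹) * h := by rw [hg₂]; group
    rw [this]; group
  have hcen : ∀ c, c * (x * x') = (x * x') * c → c * c = 1 → g * c * g⁻¹ ∈ L₁ ⊔ L₂ := by
    intro c h1 h2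
    apply hinv
    · rw [← hgt]
      have e1 : g * (x * x') * g⁻¹ * (g * c * g⁻¹) = g * ((x * x') * c) * g⁻¹ := by group
      rw [e1, ← h1]; group
    · have e1 : g * c * g⁻¹ * (g * c * g⁻¹) = g * (c * c) * g⁻¹ := by group
      rw [e1, h2]; simp
  have hxinv : x⁻¹ * x'⁻¹ = x * x' := by
    rw [hc _ (L₁.inv_mem hxL) _ (L₂.inv_mem hx'L), ← mul_inv_rev, inv_eq_iff_mul_eq_one, ht0sq]
  have hc1 : (b * b') * (x * x') = (x * x') * (b * b') := by
    rw [← hxinv, ← hbx, ← hbx']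
    have e1 : b * x * b⁻¹ * (b' * x' * b'⁻¹) * (b * b') =
        b * x * (b⁻¹ * (b' * x' * b'⁻¹) * b) * b' := by group
    have e2 : b⁻¹ * (b' * x' * b'⁻¹) * b = b' * x' * b'⁻¹ := by
      rw [mul_assoc, ← hc b hbL _ (L₂.mul_mem (L₂.mul_mem hb'L hx'L) (L₂.inv_mem hb'L))]; group
    rw [e1, e2, hbx, hbx', hxinv, mul_assoc b b', ← mul_assoc b', ← hc x hxL b' hb'L, ← hbx']
    group
  have hc2 : (b * b') * (b * b') = 1 := by
    rw [mul_assoc, ← mul_assoc b', ← hc b hbL b' hb'L, mul_assoc, hbb', ← mul_assoc, hbb, hjj]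
  have hax : a * (x * x') = (x * x') * a := by
    have h1 : a * x = x * a := by rw [hx, ← pow_succ, ← pow_succ']
    rw [← mul_assoc, h1, mul_assoc, hc a haL x' hx'L, ← mul_assoc]
  have hc3 : (a * (b * b')) * (x * x') = (x * x') * (a * (b * b')) := by
    rw [mul_assoc, hc1, ← mul_assoc, hax, mul_assoc]
  have hc4 : (a * (b * b')) * (a * (b * b')) = 1 := by
    have e1 : (a * (b * b')) * (a * (b * b')) = a * (b * (b' * a) * b'⁻¹ * b⁻¹) * ((b * b') * (b * b')) := by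
      group
    rw [e1, hc2, ← hc a haL b' hb'L]
    have e2 : b * (a * b') * b'⁻¹ * b⁻¹ = b * a * b⁻¹ := by group
    rw [e2, hba]; simp
  have hw : g * a * g⁻¹ ∈ L₁ ⊔ L₂ := by
    have e1 : g * a * g⁻¹ = (g * (a * (b * b')) * g⁻¹) * (g * (b * b') * g⁻¹)⁻¹ := by group
    rw [e1]
    exact Subgroup.mul_mem _ (hcen _ hc3 hc4) (Subgroup.inv_mem _ (hcen _ hc1 hc2))
  have hw2 : (g * a * g⁻¹) ^ 2 ^ (k + 1) = g * j * g⁻¹ := by rw [conj_pow, haj]
  rcases hexpL _ hw (by rw [conj_pow, pow_succ, pow_mul, haj, pow_two, hjj]; simp) with h1 | h1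
  · rw [hw2] at h1
    apply hj1
    simpa using h1
  · rw [hw2] at h1
    exact ht0j (mul_left_cancel (mul_right_cancel (hgt.trans h1.symm)))

end Cfsg.Agent.S3211
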