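import Mathlib
import Cfsg.Statements.S3210
import Cfsg.Agent.S3211
import Cfsg.Agent.Lib.GL.Simple

set_option autoImplicit false
open Cfsg

namespace Cfsg.Agent.S3210

open Subgroup Matrix MatrixGroups
open scoped commutatorElement

structure Good (S : Type*) [Group S] : Prop where
  sq : ∀ z ∈ center S, z * z = 1
  cc : ∀ b : S, (∀ x : S, ⁅x, b⁆ ∈ center S) → b ∈ center S
  two : ∀ A B : Subgroup S, A.Normal → B.Normal → center S ≤ A → center S ≤ B →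
    (∀ x, ∃ a ∈ A, ∃ b ∈ B, x = a * b) → A = ⊤ ∨ B = ⊤
  ne : center S ≠ ⊤

theorem transvection_pow {F : Type*} [Field F] {i j : Fin 2} (hij : i ≠ j) (c : F) (n : ℕ) :
    Matrix.SpecialLinearGroup.transvection hij c ^ n = Matrix.SpecialLinearGroup.transvection hij (n * c) := by
  induction n with
  | zero => simp [Matrix.SpecialLinearGroup.transvection_coeff_zero]
  | succ n ih => rw [pow_succ, ih, ← Matrix.SpecialLinearGroup.transvection_add]; push_cast; ring_nf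

theorem good_SL {F : Type*} [Field F] [Fintype F] (hF : Odd (Fintype.card F)) : Good SL(2, F) := by
  have hsq : ∀ z ∈ center SL(2, F), z * z = 1 := by
    intro z hz
    obtain ⟨r, hr, e⟩ := Matrix.SpecialLinearGroup.mem_center_iff.1 hz
    apply Subtype.ext
    rw [Matrix.SpecialLinearGroup.coe_mul, ← e, ← map_mul, ← pow_two]
    rw [Fintype.card_fin] at hr
    rw [hr, map_one]; rfl
  have hq : ∀ {i j : Fin 2} (hij : i ≠ j) (c : F),
      Matrix.SpecialLinearGroup.transvection hij c ^ Fintype.card F = 1 := fun hij c => by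
    rw [transvection_pow, FiniteField.cast_card_eq_zero, zero_mul,
      Matrix.SpecialLinearGroup.transvection_coeff_zero]
  have hne : center SL(2, F) ≠ ⊤ := fun e =>
    one_ne_zero ((Matrix.SpecialLinearGroup.transvection_mem_center_iff (zero_ne_one' (Fin 2)) (1 : F)).1
      (e ▸ mem_top _))
  refine ⟨hsq, fun b hb => ?_, fun A B hA hB h1 h2 h => ?_, hne⟩
  · rw [mem_center_iff]
    refine H10.SL_transvection_induction (fun g => g * b = b * g) (by simp) (fun i j hij c => ?_)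
      (fun x y hx hy => by rw [mul_assoc, hy, ← mul_assoc, hx, mul_assoc])
    set x := Matrix.SpecialLinearGroup.transvection hij c with hx
    have hz := hb x
    set z := ⁅x, b⁆ with hz'
    have e : b * x⁻¹ * b⁻¹ = x⁻¹ * z := by rw [hz', commutatorElement_def]; group
    have hc : Commute x⁻¹ z := mem_center_iff.1 hz _
    have e2 : (b * x⁻¹ * b⁻¹) ^ Fintype.card F = 1 := by
      rw [conj_pow, inv_pow, hx, hq, inv_one, mul_one, mul_inv_cancel]
    rw [e, hc.mul_pow, inv_pow, hx, hq, inv_one, one_mul] at e2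
    obtain ⟨m, hm⟩ := hF
    rw [hm, pow_succ, pow_mul, pow_two, hsq z hz, one_pow, one_mul] at e2
    exact commutatorElement_eq_one_iff_mul_comm.1 e2
  by_cases h4 : 4 ≤ Nat.card F
  · haveI := H10.isSimpleGroup_PSL_fin (F := F) 2 le_rfl fun _ => h4
    have key : ∀ N : Subgroup SL(2, F), N.Normal → center _ ≤ N → N ≤ center _ ∨ N = ⊤ := by
      intro N hN h1
      rcases (hN.map (QuotientGroup.mk' (center SL(2, F))) (QuotientGroup.mk'_surjective _)).eq_bot_or_eq_top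
        with e | e
      · left; rwa [Subgroup.map_eq_bot_iff, QuotientGroup.ker_mk'] at e
      · right
        rw [← comap_map_eq_self (f := QuotientGroup.mk' (center SL(2, F))) (H := N)
          (by rwa [QuotientGroup.ker_mk']), e, comap_top]
    rcases key A hA h1 with a | a
    · rcases key B hB h2 with b | b
      · exact absurd (eq_top_iff.2 fun x _ => by
          obtain ⟨u, hu, v, hv, rfl⟩ := h x
          exact mul_mem (a hu) (b hv)) hne
      · exact Or.inr b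
    · exact Or.inl a
  have h3 : Fintype.card F = 3 := by
    have := Fintype.one_lt_card (α := F)
    rw [Nat.card_eq_fintype_card] at h4
    obtain ⟨m, hm⟩ := hF
    omega
  have key : ∀ N : Subgroup SL(2, F), N.Normal → ¬ 3 ∣ N.index → N = ⊤ := by
    intro N hN hi
    rw [eq_top_iff]
    intro g _
    refine H10.SL_transvection_induction (fun g => g ∈ N) N.one_mem (fun i j hij c => ?_)
      (fun x y hx hy => N.mul_mem hx hy) g
    have e1 := hq hij c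
    rw [h3] at e1
    have e2 := N.pow_index_mem (Matrix.SpecialLinearGroup.transvection hij c)
    rw [← QuotientGroup.eq_one_iff] at e2 ⊢
    rw [QuotientGroup.mk_pow] at e2
    have e3 : ((Matrix.SpecialLinearGroup.transvection hij c : SL(2, F)) : SL(2, F) ⧸ N) ^ 3 = 1 := by
      rw [← QuotientGroup.mk_pow, e1, QuotientGroup.mk_one]
    have := Nat.dvd_gcd (orderOf_dvd_of_pow_eq_one e3) (orderOf_dvd_of_pow_eq_one e2)
    rw [(Nat.Prime.coprime_iff_not_dvd Nat.prime_three).2 hi] at this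
    exact orderOf_eq_one_iff.1 (Nat.eq_one_of_dvd_one this)
  by_contra hh
  rw [not_or] at hh
  have a1 : 3 ∣ A.index := by by_contra e; exact hh.1 (key A hA e)
  have a2 : 3 ∣ B.index := by by_contra e; exact hh.2 (key B hB e)
  have hs : A ⊔ B = ⊤ := eq_top_iff.2 fun x _ => by
    obtain ⟨u, hu, v, hv, rfl⟩ := h x
    exact mul_mem_sup hu hv
  have a3 : (A ⊓ B).index = A.index * B.index := by
    rw [← relIndex_mul_index (inf_le_right : A ⊓ B ≤ B), inf_relIndex_right, ← relIndex_sup_left B A,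
      hs, relIndex_top_right]
  have a4 := (A ⊓ B).index_dvd_card
  rw [a3, H10.card_SL_two, Nat.card_eq_fintype_card, h3] at a4
  exact absurd ((Nat.mul_dvd_mul a1 a2).trans a4) (by norm_num)

theorem Good.equiv {S T : Type*} [Group S] [Group T] (h : Good T) (e : S ≃* T) : Good S := by
  have hc : ∀ z, z ∈ center S ↔ e z ∈ center T := fun z => by
    rw [mem_center_iff, mem_center_iff]
    exact ⟨fun h g => by rw [← e.apply_symm_apply g, ← map_mul, h, map_mul],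
      fun h g => e.injective (by rw [map_mul, h, map_mul])⟩
  refine ⟨fun z hz => e.injective (by rw [map_mul, h.sq _ ((hc z).1 hz), map_one]), fun b hb => ?_,
    fun A B hA hB h1 h2 h3 => ?_, fun e' => h.ne (eq_top_iff.2 fun x _ => ?_)⟩
  · refine (hc b).2 (h.cc _ fun x => ?_)
    rw [← e.apply_symm_apply x, ← map_commutatorElement]
    exact (hc _).1 (hb _)
  · have := h.two (A.comap e.symm.toMonoidHom) (B.comap e.symm.toMonoidHom) (hA.comap _) (hB.comap _)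
      (fun z hz => h1 ((hc _).2 (by simpa using hz))) (fun z hz => h2 ((hc _).2 (by simpa using hz)))
      (fun x => by
        obtain ⟨a, ha, b, hb, e'⟩ := h3 (e.symm x)
        exact ⟨e a, by simpa using ha, e b, by simpa using hb, by rw [← map_mul, ← e']; simp⟩)
    refine this.imp (fun e' => eq_top_iff.2 fun x _ => ?_) (fun e' => eq_top_iff.2 fun x _ => ?_)
    · simpa using (e' ▸ mem_top (e x) : e x ∈ A.comap e.symm.toMonoidHom)
    · simpa using (e' ▸ mem_top (e x) : e x ∈ B.comap e.symm.toMonoidHom)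
  · rw [← e.apply_symm_apply x]; exact (hc _).1 (e' ▸ mem_top _)

/-- the dichotomy for a second decomposition of the central product -/
theorem dich {G : Type*} [Group G] {L₁ L₂ M₁ M₂ Z : Subgroup G} (hg : Good L₁)
    (hc : ∀ x ∈ L₁, ∀ y ∈ L₂, x * y = y * x) (hm : L₁ ⊓ L₂ = Z)
    (hZ : ∀ z : L₁, z ∈ center L₁ → (z : G) ∈ Z) (hc' : ∀ x ∈ M₁, ∀ y ∈ M₂, x * y = y * x)
    (z1 : Z ≤ M₁) (z2 : Z ≤ M₂) (hs : M₁ ⊔ M₂ = L₁ ⊔ L₂) :
    ((∀ x ∈ L₁, ∃ y ∈ L₂, x * y ∈ M₁) ∧ M₂ ≤ L₂) ∨ ((∀ x ∈ L₁, ∃ y ∈ L₂, x * y ∈ M₂) ∧ M₁ ≤ L₂) := by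
  let pr : Subgroup G → Subgroup L₁ := fun M =>
    { carrier := {x | ∃ y ∈ L₂, (x : G) * y ∈ M}
      one_mem' := ⟨1, one_mem _, by simp⟩
      mul_mem' := by
        rintro x x' ⟨y, hy, h⟩ ⟨y', hy', h'⟩
        refine ⟨y * y', mul_mem hy hy', ?_⟩
        have := mul_mem h h'
        rwa [mul_assoc, ← mul_assoc y, ← hc x' x'.2 y hy, mul_assoc, ← mul_assoc] at this
      inv_mem' := by
        rintro x ⟨y, hy, h⟩
        refine ⟨y⁻¹, inv_mem hy, ?_⟩
        have := inv_mem h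
        rwa [_root_.mul_inv_rev, ← hc _ (inv_mem x.2) _ (inv_mem hy)] at this }
  have hn : ∀ M M' : Subgroup G, (∀ x ∈ M, ∀ y ∈ M', x * y = y * x) → M ⊔ M' = L₁ ⊔ L₂ →
      (pr M).Normal := by
    intro M M' h1 h2
    refine ⟨?_⟩
    rintro x ⟨y, hy, h⟩ g
    refine ⟨y, hy, ?_⟩
    obtain ⟨a, ha, b, hb, e⟩ := S3211.mem_sup_comm h1 (h2 ▸ mem_sup_left g.2 : (g : G) ∈ M ⊔ M')
    have e1 : ((g * x * g⁻¹ : L₁) : G) * y = g * (x * y) * (g : G)⁻¹ := by
      simp only [coe_mul, coe_inv, mul_assoc]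
      rw [hc _ (inv_mem g.2) y hy]
    have e2 : (g : G) * (x * y) * (g : G)⁻¹ = a * (x * y) * a⁻¹ := by
      rw [e, mul_assoc a b, ← h1 _ h b hb]; group
    rw [e1, e2]
    exact mul_mem (mul_mem ha h) (inv_mem ha)
  have hz : ∀ M : Subgroup G, Z ≤ M → center L₁ ≤ pr M := fun M h z hz =>
    ⟨1, one_mem _, by simpa using h (hZ z hz)⟩
  have fin : ∀ M M' : Subgroup G, (∀ x ∈ M, ∀ y ∈ M', x * y = y * x) → M' ≤ L₁ ⊔ L₂ → pr M = ⊤ →
      (∀ x ∈ L₁, ∃ y ∈ L₂, x * y ∈ M) ∧ M' ≤ L₂ := by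
    intro M M' h1 h2 h3
    have h4 : ∀ x ∈ L₁, ∃ y ∈ L₂, x * y ∈ M := fun x hx => (h3 ▸ mem_top _ : (⟨x, hx⟩ : L₁) ∈ pr M)
    refine ⟨h4, fun w hw => ?_⟩
    obtain ⟨b, hb, y', hy', rfl⟩ := S3211.mem_sup_comm hc (h2 hw)
    refine mul_mem ((hm ▸ hZ ⟨b, hb⟩ (hg.cc _ fun x => ?_) : b ∈ L₁ ⊓ L₂).2) hy'
    obtain ⟨y, hy, h⟩ := h4 x x.2
    have e := h1 _ h _ hw
    have e2 : ((⁅x, ⟨b, hb⟩⁆ : L₁) : G) = ⁅y', y⁆ := by
      have t1 : (x : G) * y * (b * y') = x * b * (y * y') := by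
        rw [mul_assoc, ← mul_assoc y, ← hc b hb y hy]; group
      have t2 : b * y' * ((x : G) * y) = (y' * y) * (b * x) := by
        rw [mul_assoc, ← mul_assoc y', ← hc x x.2 y' hy', ← hc _ (mul_mem hb x.2) _ (mul_mem hy' hy)]
        group
      rw [t1, t2, hc _ (mul_mem x.2 hb) _ (mul_mem hy hy')] at e
      change (x : G) * b * (x : G)⁻¹ * b⁻¹ = _
      have t3 : (x : G) * b = (y * y')⁻¹ * (y' * y) * (b * x) := by rw [mul_assoc, ← e]; group
      have t4 : (x : G) * b * (x : G)⁻¹ * b⁻¹ = (y * y')⁻¹ * (y' * y) := by rw [t3]; group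
      have t5 := hc _ (mul_mem (mul_mem (mul_mem x.2 hb) (inv_mem x.2)) (inv_mem hb)) _ (mul_mem hy hy')
      rw [t4] at t5 ⊢
      rw [commutatorElement_def]
      calc (y * y')⁻¹ * (y' * y) = (y * y')⁻¹ * (y' * y) * (y * y') * (y * y')⁻¹ := by group
        _ = _ := by rw [t5]; group
    rw [mem_center_iff]
    intro g
    apply Subtype.ext
    rw [coe_mul, coe_mul, e2]
    exact hc g g.2 _ (mul_mem (mul_mem (mul_mem hy' hy) (inv_mem hy')) (inv_mem hy))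
  rcases hg.two (pr M₁) (pr M₂) (hn M₁ M₂ hc' hs)
    (hn M₂ M₁ (fun x hx y hy => (hc' y hy x hx).symm) (by rw [sup_comm, hs])) (hz _ z1) (hz _ z2)
    (fun x => by
      obtain ⟨a, ha, b, hb, e⟩ := S3211.mem_sup_comm hc' (hs ▸ mem_sup_left x.2 : (x : G) ∈ M₁ ⊔ M₂)
      obtain ⟨a₁, h1, a₂, h2, rfl⟩ := S3211.mem_sup_comm hc (hs ▸ mem_sup_left ha : a ∈ L₁ ⊔ L₂)
      refine ⟨⟨a₁, h1⟩, ⟨a₂, h2, ha⟩, ⟨a₁, h1⟩⁻¹ * x, ⟨a₂⁻¹, inv_mem h2, ?_⟩, by group⟩
      change a₁⁻¹ * (x : G) * a₂⁻¹ ∈ M₂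
      rw [hc _ (mul_mem (inv_mem h1) x.2) _ (inv_mem h2), e]
      simpa [mul_assoc] using hb) with h | h
  · exact Or.inl (fin M₁ M₂ hc' (hs ▸ le_sup_right) h)
  · exact Or.inr (fin M₂ M₁ (fun x hx y hy => (hc' y hy x hx).symm) (hs ▸ le_sup_left) h)


/-- Let G be a finite group with subgroups L₁ ≅ SL₂(q₁) and L₂ ≅ SL₂(q₂), q₁ and q₂ odd prime powers, which commute elementwise and meet in ⟨j⟩ for an involution j, and suppose L₁L₂ has index 2 in C_G(j). Then every element n of C_G(j) outside L₁L₂ either normalizes both L₁ and L₂, or conjugates L₁ onto L₂; in the second case q₁ = q₂ and there is an element n′ of C_G(j) outside L₁L₂ conjugating L₁ onto L₂ with n′² ∈ ⟨j⟩. -/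
theorem result {G : Type*} [Group G] [Finite G]
    {F₁ : Type*} [Field F₁] [Fintype F₁] {F₂ : Type*} [Field F₂] [Fintype F₂]
    (hF₁ : Odd (Fintype.card F₁)) (hF₂ : Odd (Fintype.card F₂)) (L₁ L₂ : Subgroup G)
    (e₁ : ↥L₁ ≃* Matrix.SpecialLinearGroup (Fin 2) F₁) (e₂ : ↥L₂ ≃* Matrix.SpecialLinearGroup (Fin 2) F₂)
    (hc : ∀ x ∈ L₁, ∀ y ∈ L₂, x * y = y * x) (j : G) (hj : orderOf j = 2) (hm : L₁ ⊓ L₂ = Subgroup.zpowers j)
    (hle : L₁ ⊔ L₂ ≤ Subgroup.centralizer ({j} : Set G)) (hi : (L₁ ⊔ L₂).relIndex (Subgroup.centralizer ({j} : Set G)) = 2) (n : G) (hn : n ∈ Subgroup.centralizer ({j} : Set G)) (hn' : n ∉ L₁ ⊔ L₂) :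
    (L₁.map (MulAut.conj n).toMonoidHom = L₁ ∧ L₂.map (MulAut.conj n).toMonoidHom = L₂) ∨
      (L₁.map (MulAut.conj n).toMonoidHom = L₂ ∧ Fintype.card F₁ = Fintype.card F₂ ∧
        ∃ n' ∈ Subgroup.centralizer ({j} : Set G), n' ∉ L₁ ⊔ L₂ ∧ L₁.map (MulAut.conj n').toMonoidHom = L₂ ∧ n' ^ 2 ∈ Subgroup.zpowers j) := by
  have g₁ := (good_SL hF₁).equiv e₁
  have g₂ := (good_SL hF₂).equiv e₂
  have hjL : j ∈ L₁ ⊓ L₂ := hm ▸ mem_zpowers j
  have hZ₁ : ∀ z : L₁, z ∈ center L₁ → (z : G) ∈ zpowers j := fun z hz => by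
    rcases (S3209.sub_facts hF₁ L₁ e₁ j hj hjL.1).1 z z.2 (congrArg Subtype.val (g₁.sq z hz)) with h | h
    · rw [h]; exact one_mem _
    · rw [h]; exact mem_zpowers j
  have hZ₂ : ∀ z : L₂, z ∈ center L₂ → (z : G) ∈ zpowers j := fun z hz => by
    rcases (S3209.sub_facts hF₂ L₂ e₂ j hj hjL.2).1 z z.2 (congrArg Subtype.val (g₂.sq z hz)) with h | h
    · rw [h]; exact one_mem _
    · rw [h]; exact mem_zpowers j
  have hc₂ : ∀ x ∈ L₂, ∀ y ∈ L₁, x * y = y * x := fun x hx y hy => (hc y hy x hx).symm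
  set φ := (MulAut.conj n).toMonoidHom with hφ
  have hinj : Function.Injective φ := (MulAut.conj n).injective
  have hφj : φ j = j := by
    change n * j * n⁻¹ = j
    rw [← hn j rfl, mul_inv_cancel_right]
  have hc' : ∀ x ∈ L₁.map φ, ∀ y ∈ L₂.map φ, x * y = y * x := by
    rintro _ ⟨x, hx, rfl⟩ _ ⟨y, hy, rfl⟩
    rw [← map_mul, hc x hx y hy, map_mul]
  have z1 : zpowers j ≤ L₁.map φ := zpowers_le.2 ⟨j, hjL.1, hφj⟩
  have z2 : zpowers j ≤ L₂.map φ := zpowers_le.2 ⟨j, hjL.2, hφj⟩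
  have hN := normal_of_index_eq_two hi
  have hs : L₁.map φ ⊔ L₂.map φ = L₁ ⊔ L₂ := by
    rw [← Subgroup.map_sup]
    refine eq_of_le_of_card_ge ?_ (card_map_of_injective hinj).ge
    rintro _ ⟨x, hx, rfl⟩
    exact hN.conj_mem ⟨x, hle hx⟩ hx ⟨n, hn⟩
  have d₁ := dich g₁ hc hm hZ₁ hc' z1 z2 hs
  have d₂ := dich g₂ hc₂ (by rw [inf_comm, hm]) hZ₂ hc' z1 z2 (by rw [hs, sup_comm])
  have small : ∀ {L : Subgroup G}, Good L → ¬ L.map φ ≤ L₁ ⊓ L₂ := by
    intro L hg h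
    apply hg.ne
    rw [eq_top_iff]
    intro x _
    rw [mem_center_iff]
    intro y
    apply Subtype.ext
    apply hinj
    rw [coe_mul, coe_mul, map_mul, map_mul]
    exact hc _ (h ⟨y, y.2, rfl⟩).1 _ (h ⟨x, x.2, rfl⟩).2
  rcases d₁ with ⟨-, a⟩ | ⟨-, a⟩
  · left
    rcases d₂ with ⟨-, b⟩ | ⟨-, b⟩
    · exact absurd (le_inf b a) (small g₂)
    · exact ⟨eq_of_le_of_card_ge b (card_map_of_injective hinj).ge,
        eq_of_le_of_card_ge a (card_map_of_injective hinj).ge⟩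
  rcases d₂ with ⟨b, b'⟩ | ⟨-, b⟩
  swap
  · exact absurd (le_inf b a) (small g₁)
  have e12 : L₁.map φ = L₂ := le_antisymm a fun y hy => by
    obtain ⟨x, hx, h⟩ := b y hy
    have h1 : x ∈ L₂ := (Subgroup.mul_mem_cancel_left _ hy).1 (a h)
    exact (Subgroup.mul_mem_cancel_right _ (z1 (hm ▸ ⟨hx, h1⟩))).1 h
  right
  refine ⟨e12, ?_, ?_⟩
  · have h1 : Nat.card L₁ = Nat.card L₂ := by rw [← e12, card_map_of_injective hinj]
    rw [Nat.card_congr e₁.toEquiv, Nat.card_congr e₂.toEquiv, H10.card_SL_two, H10.card_SL_two,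
      Nat.card_eq_fintype_card, Nat.card_eq_fintype_card] at h1
    have mono : ∀ a b : ℕ, 1 < a → a < b → a * (a - 1) * (a + 1) < b * (b - 1) * (b + 1) := by
      intro a b h1 h2
      exact Nat.mul_lt_mul'' (Nat.mul_lt_mul'' h2 (by omega)) (by omega)
    rcases lt_trichotomy (Fintype.card F₁) (Fintype.card F₂) with h | h | h
    · exact absurd h1 (mono _ _ Fintype.one_lt_card h).ne
    · exact h
    · exact absurd h1 (mono _ _ Fintype.one_lt_card h).ne'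
  have hn2 : n * n ∈ L₁ ⊔ L₂ := by
    have := (Subgroup.sq_mem_of_index_two hi ⟨n, hn⟩)
    rw [sq] at this
    exact this
  obtain ⟨l₁, h1, l₂, h2, e⟩ := S3211.mem_sup_comm hc hn2
  have p1 : n * l₁ * n⁻¹ ∈ L₂ := a ⟨l₁, h1, rfl⟩
  have p2 : n * l₂ * n⁻¹ ∈ L₁ := b' ⟨l₂, h2, rfl⟩
  refine ⟨l₁⁻¹ * n, mul_mem (hle (mem_sup_left (inv_mem h1))) hn,
    fun h => hn' ((Subgroup.mul_mem_cancel_left _ (mem_sup_left (inv_mem h1))).1 h), ?_, ?_⟩
  · refine eq_of_le_of_card_ge ?_ (by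
      rw [card_map_of_injective (MulAut.conj (l₁⁻¹ * n)).injective, ← e12, card_map_of_injective hinj])
    rintro _ ⟨x, hx, rfl⟩
    have h3 : n * x * n⁻¹ ∈ L₂ := a ⟨x, hx, rfl⟩
    change l₁⁻¹ * n * x * (l₁⁻¹ * n)⁻¹ ∈ L₂
    have : l₁⁻¹ * n * x * (l₁⁻¹ * n)⁻¹ = l₁⁻¹ * ((n * x * n⁻¹) * l₁) := by group
    rw [this, ← hc l₁ h1 _ h3, inv_mul_cancel_left]
    exact h3
  · have t1 : (l₁⁻¹ * n) ^ 2 = (n * l₁ * n⁻¹)⁻¹ * l₂ := by
      have : (l₁⁻¹ * n) ^ 2 = l₁⁻¹ * ((n * l₁ * n⁻¹)⁻¹ * (n * n)) := by rw [sq]; group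
      rw [this, e, ← mul_assoc _ l₁, ← hc l₁ h1 _ (inv_mem p1)]; group
    have t2 : (n * l₁ * n⁻¹)⁻¹ * l₂ = (n * l₂ * n⁻¹) * l₁⁻¹ := by
      have : (n * l₁ * n⁻¹) * (n * l₂ * n⁻¹) = l₂ * l₁ := by
        rw [← hc l₁ h1 l₂ h2, ← e]
        calc (n * l₁ * n⁻¹) * (n * l₂ * n⁻¹) = n * (l₁ * l₂) * n⁻¹ := by group
          _ = n * n := by rw [← e]; group
      calc (n * l₁ * n⁻¹)⁻¹ * l₂ = (n * l₁ * n⁻¹)⁻¹ * (l₂ * l₁) * l₁⁻¹ := by group
        _ = _ := by rw [← this]; group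
    rw [t1, ← hm]
    exact ⟨t2 ▸ L₁.mul_mem p2 (L₁.inv_mem h1), L₂.mul_mem (L₂.inv_mem p1) h2⟩

end Cfsg.Agent.S3210
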