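import Cfsg.Statements.S3215
import Cfsg.Agent.Lib.TwoGrp.RankOne
import Cfsg.Agent.Lib.FrobC.Local
import Cfsg.Agent.Lib.Core.Coprime
import Cfsg.Agent.Lib.Transfer.NormalComplement

set_option autoImplicit false
open Cfsg

namespace Cfsg.Agent.S3215

open Subgroup

theorem _root_.H13.TG.mem_centralizer_zpowers' {G : Type*} [Group G] {x y : G} :
    y ∈ centralizer (zpowers x : Set G) ↔ y * x = x * y :=
  ⟨fun h => (mem_centralizer_iff.1 h x (mem_zpowers x)).symm, fun h => mem_centralizer_iff.2 (by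
    rintro _ ⟨k, rfl⟩; exact (Commute.zpow_right h k).eq.symm)⟩

theorem _root_.H13.TG.eq_one_of_dvd_two_pow {a k : ℕ} (h : a ∣ 2 ^ k) (hc : a.Coprime 2) : a = 1 :=
  Nat.Coprime.eq_one_of_dvd (hc.pow_right k) h

/-- Let H be a finite solvable group with no nontrivial normal subgroup of odd order in which the centralizer of every involution has a normal 2-complement. Let X be a Hall 2'-subgroup of H (odd order, index a power of 2) and Y = O₂(H). Then no non-identity element of X commutes with a non-identity element of Y (so for X ≠ 1 the group XY is a Frobenius group with kernel Y), every Sylow subgroup of X is cyclic, XY is normal in H, and H/XY is a cyclic 2-group. -/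
theorem result {H : Type*} [Group H] [Finite H] (hsol : Group.IsSolvable H)
    (hO : Cfsg.oddCore H = ⊥)
    (hI : ∀ t : H, orderOf t = 2 → Cfsg.HasNormalPComplement 2 ↥(Subgroup.centralizer ({t} : Set H)))
    (X : Subgroup H) (hXodd : Odd (Nat.card X)) (hXidx : ∃ k : ℕ, X.index = 2 ^ k) :
    (∀ x ∈ X, x ≠ 1 → ∀ y ∈ Cfsg.pCore 2 H, y ≠ 1 → x * y ≠ y * x) ∧
      (∀ (p : ℕ) [Fact p.Prime] (P : Sylow p ↥X), IsCyclic ↥(P : Subgroup ↥X)) ∧
      (X ⊔ Cfsg.pCore 2 H).Normal ∧
      ∀ hN : (X ⊔ Cfsg.pCore 2 H).Normal, IsCyclic (H ⧸ (X ⊔ Cfsg.pCore 2 H)) ∧ IsPGroup 2 (H ⧸ (X ⊔ Cfsg.pCore 2 H)) := by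
  set Y := pCore 2 H with hY
  have hY2 : IsPGroup 2 Y := H1.isPGroup_pCore
  have hCY : centralizer (Y : Set H) ≤ Y := H1.centralizer_pCore_le_of_isSolvable hO
  have oddY : ∀ x ∈ Y, (orderOf x).Coprime 2 → x = 1 := by
    intro x hx h
    obtain ⟨k, hk⟩ := hY2 ⟨x, hx⟩
    have h1 : x ^ 2 ^ k = 1 := congrArg Subtype.val hk
    exact orderOf_eq_one_iff.1 (H13.TG.eq_one_of_dvd_two_pow (orderOf_dvd_of_pow_eq_one h1) h)
  -- no involution centralises a nontrivial element of odd order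
  have star : ∀ t x : H, orderOf t = 2 → (orderOf x).Coprime 2 → x * t = t * x → x = 1 := by
    intro t x ht hx hc
    have hxC : x ∈ centralizer ({t} : Set H) := mem_centralizer_singleton_iff.2 hc
    refine oddY x (hCY (zpowers_le.1 (H2.thompson_PxQ (p := 2) (P := zpowers t) (Q := zpowers x) (U := Y)
      (IsPGroup.of_card (n := 1) (by rw [Nat.card_zpowers, ht]; rfl)) (by rwa [Nat.card_zpowers]) hY2
      ?_ (by simp [normalizer_eq_top]) (by simp [normalizer_eq_top]) ?_))) hx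
    · rw [zpowers_le, H13.TG.mem_centralizer_zpowers']
      exact hc.symm
    · rintro y ⟨hy1, hy2⟩
      have hyC : y ∈ centralizer ({t} : Set H) :=
        mem_centralizer_singleton_iff.2 (mem_centralizer_iff.1 hy2 t (mem_zpowers t)).symm
      have h1 : (⟨x, hxC⟩ : centralizer ({t} : Set H)) ∈ pResidual 2 (centralizer ({t} : Set H)) :=
        H4.mem_pResidual_of_coprime (by rwa [← orderOf_coe])
      have h2 := mul_mem (Normal.conj_mem (H4.pResidual_normal 2 _) _ h1 ⟨y, hyC⟩) (inv_mem h1)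
      have h3 := H4.hasNormalPComplement_iff_forall_coprime.1 (hI t ht) _ h2
      rw [← orderOf_coe] at h3
      have h4 := oddY (y * x * y⁻¹ * x⁻¹) (by
        have := mul_mem hy1 (Normal.conj_mem inferInstance _ (inv_mem hy1) x)
        simpa [mul_assoc] using this) h3
      rw [H13.TG.mem_centralizer_zpowers']
      rw [mul_inv_eq_one, mul_inv_eq_iff_eq_mul] at h4
      exact h4
  have fpf : ∀ x : H, (orderOf x).Coprime 2 → x ≠ 1 → ∀ y ∈ Y, y ≠ 1 → x * y ≠ y * x := by
    intro x hx hx1 y hy hy1 hc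
    obtain ⟨k, hk⟩ := (IsPGroup.iff_orderOf.1 hY2) ⟨y, hy⟩
    rw [← orderOf_coe] at hk
    change orderOf y = 2 ^ k at hk
    rcases k with _ | k
    · exact hy1 (orderOf_eq_one_iff.1 hk)
    refine hx1 (star (y ^ 2 ^ k) x ?_ hx (Commute.pow_right hc _))
    rw [orderOf_pow_of_dvd (by positivity) (by rw [hk]; exact pow_dvd_pow 2 (Nat.le_succ k)), hk, pow_succ,
      Nat.mul_div_cancel_left _ (by positivity)]
  have hXo : ∀ x ∈ X, (orderOf x).Coprime 2 := fun x hx =>
    (Nat.coprime_two_right.2 hXodd).coprime_dvd_left (X.orderOf_dvd_natCard hx)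
  have cyc : ∀ (p : ℕ) [Fact p.Prime] (R : Subgroup H), IsPGroup p R →
      (∀ x ∈ R, (orderOf x).Coprime 2) → IsCyclic R := by
    intro p _ R hR hRo
    by_cases hb : R = ⊥
    · subst hb; infer_instance
    have hp2 : p ≠ 2 := by
      rintro rfl
      obtain ⟨⟨x, hx⟩, hx1⟩ := ne_bot_iff_exists_ne_one.1 hb
      obtain ⟨k, hk⟩ := hR ⟨x, hx⟩
      have h1 : x ^ 2 ^ k = 1 := congrArg Subtype.val hk
      exact hx1 (Subtype.ext (orderOf_eq_one_iff.1
        (H13.TG.eq_one_of_dvd_two_pow (orderOf_dvd_of_pow_eq_one h1) (hRo x hx))))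
    haveI : Nontrivial Y := by
      rw [nontrivial_iff_ne_bot]
      intro h
      apply hb
      rw [eq_bot_iff, ← h]
      refine le_trans ?_ hCY
      rw [h]
      intro x _
      simp [mem_centralizer_iff]
    have hf : H82.FPF ((MulAut.conjNormal : H →* MulAut Y).comp R.subtype) := by
      intro a ha k hk
      by_contra hk1
      exact fpf a (hRo a a.2) (fun h => ha (Subtype.ext h)) k k.2 (fun h => hk1 (Subtype.ext h))
        (mul_inv_eq_iff_eq_mul.1 (congrArg Subtype.val hk))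
    have := hf.intFPF.isCyclic_of_odd hp2 (P := ⊤) (hR.to_subgroup ⊤)
    exact topEquiv.isCyclic.1 this
  let π := QuotientGroup.mk' Y
  have hπ : Function.Surjective π := QuotientGroup.mk'_surjective Y
  -- a normal subgroup with cyclic quotient
  obtain ⟨M, _, hMc, hM⟩ : ∃ (M : Subgroup (H ⧸ Y)) (_ : M.Normal), IsCyclic ((H ⧸ Y) ⧸ M) ∧
      ¬ 2 ∣ Nat.card M := by
    by_cases htriv : Subsingleton (H ⧸ Y)
    · exact ⟨⊥, inferInstance, inferInstance, by simp⟩
    rw [not_subsingleton_iff_nontrivial] at htriv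
    obtain ⟨p, hp, hP⟩ := H1.exists_pCore_ne_bot_of_isSolvable (G := H ⧸ Y)
    haveI := Fact.mk hp
    have hp2 : p ≠ 2 := by rintro rfl; exact hP H1.pCore_quotient_pCore
    let K := (pCore p (H ⧸ Y)).comap π
    obtain ⟨T₀⟩ := (Sylow.nonempty : Nonempty (Sylow p K))
    let T := (T₀ : Subgroup K).map K.subtype
    have hT2 : IsPGroup p T := T₀.2.map _
    have hTo : ∀ x ∈ T, (orderOf x).Coprime 2 := fun x hx => by
      obtain ⟨k, hk⟩ := (IsPGroup.iff_orderOf.1 hT2) ⟨x, hx⟩
      rw [← orderOf_coe] at hk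
      change orderOf x = p ^ k at hk
      rw [hk]
      exact ((Nat.coprime_primes hp Nat.prime_two).2 hp2).pow_left k
    have hfr : normalizer (T : Set H) ⊔ K = ⊤ := T₀.normalizer_sup_eq_top
    have hTπ : T.map π = pCore p (H ⧸ Y) := by
      let ρ : K →* pCore p (H ⧸ Y) := π.subgroupComap _
      have hρ : Function.Surjective ρ := π.subgroupComap_surjective_of_surjective _ hπ
      have h1 : ((T₀.mapSurjective hρ : Sylow p _) : Subgroup (pCore p (H ⧸ Y))) = ⊤ :=
        ((T₀.mapSurjective hρ).3 (H1.isPGroup_pCore.to_subgroup ⊤) le_top).symm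
      apply le_antisymm
      · rintro _ ⟨_, ⟨x, -, rfl⟩, rfl⟩; exact x.2
      · intro y hy
        obtain ⟨x, hx, hxy⟩ : (⟨y, hy⟩ : pCore p (H ⧸ Y)) ∈ (T₀ : Subgroup K).map ρ := by
          have : (T₀ : Subgroup K).map ρ = ⊤ := h1
          rw [this]; trivial
        exact ⟨x, ⟨x, hx, rfl⟩, congrArg Subtype.val hxy⟩
    have hNπ : (normalizer (T : Set H)).map π = ⊤ := by
      rw [eq_top_iff, ← Subgroup.map_top_of_surjective π hπ, ← hfr, Subgroup.map_sup, sup_le_iff]
      refine ⟨le_rfl, ?_⟩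
      rw [Subgroup.map_comap_eq_self_of_surjective hπ, ← hTπ]
      exact Subgroup.map_mono le_normalizer
    obtain ⟨⟨u, hu⟩, hu1⟩ := ne_bot_iff_exists_ne_one.1 (show T ≠ ⊥ by
      intro h; rw [h, Subgroup.map_bot] at hTπ; exact hP hTπ.symm)
    have hu1' : u ≠ 1 := fun h => hu1 (Subtype.ext h)
    have hcomm : ∀ s ∈ normalizer (T : Set H), π s ∈ centralizer (pCore p (H ⧸ Y) : Set (H ⧸ Y)) →
        u * s = s * u := by
      intro s hs hc
      have h1 : s * u * s⁻¹ * u⁻¹ ∈ T := mul_mem ((mem_normalizer_iff.1 hs u).1 hu) (inv_mem hu)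
      have h2 : s * u * s⁻¹ * u⁻¹ ∈ Y := by
        rw [← QuotientGroup.eq_one_iff]
        have := mem_centralizer_iff.1 hc (π u) (hTπ ▸ ⟨u, hu, rfl⟩)
        change π _ = 1
        rw [map_mul, map_mul, map_mul, ← this, map_inv, map_inv]
        group
      have := oddY _ h2 (hTo _ h1)
      rw [mul_inv_eq_one, mul_inv_eq_iff_eq_mul] at this
      exact this.symm
    haveI : IsCyclic T := cyc p T hT2 hTo
    haveI : IsCyclic (pCore p (H ⧸ Y)) := by
      rw [← hTπ]; exact isCyclic_of_surjective _ (π.subgroupMap_surjective T)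
    refine ⟨(MulAut.conjNormal : H ⧸ Y →* MulAut (pCore p (H ⧸ Y))).ker, inferInstance, ?_, fun h2 => ?_⟩
    · obtain ⟨n, hn⟩ := (H1.isPGroup_pCore (p := p) (G := H ⧸ Y)).exists_card_eq
      haveI : IsCyclic (MulAut (pCore p (H ⧸ Y))) := by
        rw [(IsCyclic.mulAutMulEquiv _).isCyclic, hn]
        exact ZMod.isCyclic_units_of_prime_pow p hp hp2 n
      exact isCyclic_of_injective _ (QuotientGroup.kerLift_injective _)
    · obtain ⟨⟨s, hs⟩, hs2⟩ := exists_prime_orderOf_dvd_card' 2 h2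
      rw [← orderOf_coe] at hs2
      change orderOf s = 2 at hs2
      rw [H13.TG.ker_conjNormal] at hs
      obtain ⟨s, hsN, rfl⟩ : s ∈ (normalizer (T : Set H)).map π := hNπ ▸ mem_top _
      have h1 := hcomm s hsN hs
      have h3 : s ^ 2 ∈ Y := by
        rw [← QuotientGroup.eq_one_iff]
        change π _ = 1
        rw [map_pow]
        exact orderOf_dvd_iff_pow_eq_one.1 hs2.dvd
      have h4 : s ^ 2 = 1 := by
        by_contra h
        exact fpf u (hTo u hu) hu1' _ h3 h (Commute.pow_right h1 2)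
      refine hu1' (star s u (orderOf_eq_prime h4 ?_) (hTo u hu) h1)
      rintro rfl
      simp at hs2
  obtain ⟨k, hk⟩ := hXidx
  have hMX : M ≤ X.map π := by
    refine H1.le_of_isPiSubgroup_of_index (π := ({2}ᶜ : Set ℕ))
      (H1.isPiSubgroup_compl_singleton_iff.2 ((Nat.prime_two.coprime_iff_not_dvd.2 hM).symm)) ?_
    intro q hq hq2 hd
    have := hd.trans ((index_map_dvd X hπ).trans hk.dvd)
    exact hq2 ((Nat.prime_dvd_prime_iff_eq hq Nat.prime_two).1 (hq.dvd_of_dvd_pow this))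
  let ρ : H →* (H ⧸ Y) ⧸ M := (QuotientGroup.mk' M).comp π
  have hρ : Function.Surjective ρ := (QuotientGroup.mk'_surjective M).comp hπ
  have hker : ρ.ker ≤ X ⊔ Y := by
    intro x hx
    have h1 : x ∈ (X.map π).comap π := hMX ((QuotientGroup.eq_one_iff _).1 hx)
    rwa [comap_map_eq, QuotientGroup.ker_mk'] at h1
  refine ⟨fun x hx hx1 => fpf x (hXo x hx) hx1, fun p _ P => ?_, ⟨fun x hx g => ?_⟩, fun hN => ⟨?_, ?_⟩⟩
  · have := cyc p ((P : Subgroup X).map X.subtype) (P.2.map _) (by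
      rintro _ ⟨x, -, rfl⟩; exact hXo _ x.2)
    exact ((P : Subgroup X).equivMapOfInjective X.subtype X.subtype_injective).isCyclic.2 this
  · have h1 : g * x * g⁻¹ * x⁻¹ ∈ ρ.ker := by
      rw [MonoidHom.mem_ker, map_mul, map_mul, map_mul, map_inv, map_inv,
        (IsCyclic.commGroup (α := (H ⧸ Y) ⧸ M)).mul_comm (ρ g) (ρ x)]
      group
    simpa using mul_mem (hker h1) hx
  · let σ := ρ.liftOfSurjective hρ ⟨QuotientGroup.mk' (X ⊔ Y), by rwa [QuotientGroup.ker_mk']⟩
    refine isCyclic_of_surjective σ fun x => ?_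
    obtain ⟨x, rfl⟩ := QuotientGroup.mk_surjective x
    exact ⟨ρ x, MonoidHom.liftOfRightInverse_comp_apply _ _ _ _ x⟩
  · obtain ⟨j, -, hj⟩ := (Nat.dvd_prime_pow Nat.prime_two).1 ((index_dvd_of_le le_sup_left).trans hk.dvd :
      (X ⊔ Y).index ∣ 2 ^ k)
    exact IsPGroup.of_card hj

end Cfsg.Agent.S3215
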