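import Cfsg.Statements.S3246
import Mathlib
import Cfsg.Agent.Lib.LocStruct.ConstrMono
import Cfsg.Agent.Lib.PGroup.Rank
import Cfsg.Agent.Lib.Core.CoprimeAbelian

set_option autoImplicit false
open Cfsg

namespace Cfsg.Agent.S3246

open Subgroup H69
open scoped commutatorElement Pointwise

theorem key {G : Type*} [Group G] [Finite G] {H T Y : Subgroup G} (hH : H70.CharP 2 H)
    (S : Sylow 2 G) (hT : IsPGroup 2 T) (hTH : T ≤ H) (hc : Nat.card S ≤ Nat.card T * 2)
    (hY : Odd (Nat.card Y)) (hYH : Y ≤ H) (hn : T ≤ 𝐍(Y)) : Y = ⊥ := by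
  haveI : Fact (Nat.Prime 2) := ⟨Nat.prime_two⟩
  obtain ⟨R, hR, hTR⟩ := exists_isSylowIn_le hT hTH
  set Q := pCoreOf 2 H with hQ
  have hQp : IsPGroup 2 Q := H70.isPGroup_pCoreOf 2 H
  have hQR : Q ≤ R := hR.le_of_le_normalizer hQp (H70.pCoreOf_le _ _)
    (hR.le.trans (H70.le_normalizer_pCoreOf _ _))
  have hYQ : Y ≤ 𝐍(Q) := hYH.trans (H70.le_normalizer_pCoreOf _ _)
  have hcop : (Nat.card Y).Coprime (Nat.card Q) :=
    H2.coprime_card_of_isPGroup (Nat.coprime_two_right.2 hY) hQp
  have hD : Y ≤ 𝐂(Q ⊓ T) := by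
    apply H69.le_centralizer_of_commutator_eq_bot
    rw [← le_bot_iff, ← H2.inf_eq_bot_of_coprime_card hcop]
    exact le_inf (H69.commutator_le_left_of_le_normalizer (inf_le_right.trans hn))
      ((commutator_mono le_rfl inf_le_left).trans (H69.commutator_le_right_of_le_normalizer hYQ))
  have hRS : Nat.card R ≤ Nat.card S := (isSylowIn_top S).card_le hR.isP le_top
  have h1 := H4.card_mul_relIndex_of_le hTR
  have h2 : T.relIndex R ≤ 2 := by
    have : Nat.card T * T.relIndex R ≤ Nat.card T * 2 := by omega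
    exact Nat.le_of_mul_le_mul_left this Nat.card_pos
  have h3 : T.relIndex R ≠ 0 := by
    intro h; rw [h] at h1; exact absurd h1.symm Nat.card_pos.ne'
  have hYC : Y ≤ 𝐂(Q) := by
    rcases (show T.relIndex R = 1 ∨ T.relIndex R = 2 by omega) with h | h
    · rw [relIndex_eq_one] at h
      rwa [inf_eq_left.2 (hQR.trans h)] at hD
    · refine H2.le_centralizer_of_commutator_le (H2.coprime_of_le_right hcop inf_le_left) ?_ hD
      refine le_inf (H69.commutator_le_left_of_le_normalizer hYQ) ?_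
      rw [commutator_comm, commutator_le]
      intro y hy q hq
      have hq' : y * q * y⁻¹ ∈ Q := conj_mem_of_mem_normalizer (hYQ hy) hq
      have hiff : y * q * y⁻¹ ∈ T ↔ q⁻¹ ∈ T := by
        rw [inv_mem_iff]
        constructor
        · intro h
          have := conj_eq_of_mem_centralizer (hD (inv_mem hy)) (show _ ∈ Q ⊓ T from ⟨hq', h⟩)
          have e : y⁻¹ * (y * q * y⁻¹) * y⁻¹⁻¹ = q := by group
          rw [e] at this
          rwa [this]
        · intro h
          rwa [conj_eq_of_mem_centralizer (hD hy) (show _ ∈ Q ⊓ T from ⟨hq, h⟩)]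
      exact (mul_mem_iff_of_index_two h (a := ⟨_, hQR hq'⟩) (b := ⟨_, hQR (inv_mem hq)⟩)).2 hiff
  rw [← le_bot_iff, ← H2.inf_eq_bot_of_coprime_card hcop]
  exact le_inf le_rfl ((le_inf hYH hYC).trans hH)


/-- Let G be a finite group whose Sylow 2-subgroup S has a self-centralizing normal subgroup of rank at least 3. Suppose that either every maximal 2-local subgroup of G is 2-constrained with no nontrivial normal subgroup of odd order, or the centralizer of every involution of G is 2-constrained with no nontrivial normal subgroup of odd order. Then S normalizes no nontrivial subgroup of G of odd order and every 2-local subgroup of G is 2-constrained. -/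
theorem result {G : Type*} [Group G] [Finite G]
    (S : Sylow 2 G) (A : Subgroup G) (hA : Cfsg.IsSCN (S : Subgroup G) A) (hA3 : ¬ Cfsg.PRankLE 2 2 ↥A)
    (h : (∀ M : Subgroup G, Cfsg.IsMaximalTwoLocal M → Cfsg.IsPConstrained 2 ↥M ∧ Cfsg.oddCore ↥M = ⊥) ∨
      (∀ t : G, orderOf t = 2 → Cfsg.IsPConstrained 2 ↥(Subgroup.centralizer ({t} : Set G)) ∧
        Cfsg.oddCore ↥(Subgroup.centralizer ({t} : Set G)) = ⊥)) :
    (∀ X : Subgroup G, Odd (Nat.card ↥X) → (S : Subgroup G) ≤ Subgroup.normalizer (X : Set G) → X = ⊥) ∧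
      (∀ T : Subgroup G, IsPGroup 2 ↥T → T ≠ ⊥ → Cfsg.IsPConstrained 2 ↥(Subgroup.normalizer (T : Set G))) := by
  haveI : Fact (Nat.Prime 2) := ⟨Nat.prime_two⟩
  have hall : ∀ T : Subgroup G, IsPGroup 2 T → T ≠ ⊥ → H70.CharP 2 𝐂(T) := by
    intro T hT hT1
    rcases h with h | h
    · obtain ⟨M, hTM, hM⟩ := exists_maximal_ge_of_wellFoundedGT
        (fun M : Subgroup G => IsTwoLocal M) 𝐍(T) ⟨T, hT, hT1, rfl⟩
      have := charP_iff_isPConstrained.2
        (h M ⟨hM.prop, fun M' h1 h3 => le_antisymm (hM.le_of_ge h1 h3) h3⟩)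
      have := this.inf_centralizer hT (le_normalizer.trans hTM)
      rwa [inf_eq_right.2 ((centralizer_le_normalizer _).trans hTM)] at this
    · obtain ⟨x, hx, ho⟩ := exists_mem_orderOf_eq hT hT1
      refine charP_centralizer_of_le hT (zpowers_le.2 hx) ?_
      rw [H69.centralizer_zpowers]
      exact charP_iff_isPConstrained.2 (h x ho)
  refine ⟨fun X hX hSX => ?_, fun T hT hT1 =>
    (charP_iff_isPConstrained.1 ((charP_normalizer_iff hT).2 (hall T hT hT1))).1⟩
  obtain ⟨hAS, hSA, hCA⟩ := hA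
  have hAA : A ≤ 𝐂(A) := hCA.ge.trans inf_le_right
  -- the elementary abelian subgroup of `A`, inside `S`
  let E : Subgroup (S : Subgroup G) :=
    { carrier := {x | (x : G) ∈ A ∧ x ^ 2 = 1}
      one_mem' := ⟨one_mem _, one_pow _⟩
      mul_mem' := by
        rintro a b ⟨ha, ha2⟩ ⟨hb, hb2⟩
        refine ⟨mul_mem ha hb, ?_⟩
        have : Commute a b := Subtype.ext (mem_centralizer_iff_commute.1 (hAA hb) a ha)
        rw [this.mul_pow, ha2, hb2, one_mul]
      inv_mem' := by
        rintro a ⟨ha, ha2⟩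
        exact ⟨inv_mem ha, by rw [inv_pow, ha2, inv_one]⟩ }
  haveI hEn : E.Normal := ⟨by
    rintro a ⟨ha, ha2⟩ g
    exact ⟨conj_mem_of_mem_normalizer (hSA g.2) ha, by rw [conj_pow, ha2]; simp⟩⟩
  have hE : 2 ^ 2 ≤ Nat.card E := by
    by_contra hlt
    apply hA3
    intro B hB hB2
    have : Nat.card B ≤ Nat.card E := by
      refine Nat.card_le_card_of_injective
        (fun b => (⟨⟨((b : A) : G), hAS (b : A).2⟩, (b : A).2, ?_⟩ : E)) ?_
      · apply Subtype.ext
        have := congrArg Subtype.val (hB2 b b.2)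
        simpa using this
      · intro a b hab
        simp only [Subtype.mk.injEq] at hab
        exact Subtype.ext (Subtype.ext hab)
    omega
  obtain ⟨U, hUn, hUE, hU⟩ := H5.exists_normal_le_card_eq S.isPGroup' E 2 hE
  have hc := H5.card_le_card_centralizer_mul_pow S.isPGroup' 2 U hU
  let U' := U.map (S : Subgroup G).subtype
  let T := (𝐂(U)).map (S : Subgroup G).subtype
  have hTS : T ≤ S := map_subtype_le _
  have hU'S : U' ≤ S := map_subtype_le _
  have hU'A : U' ≤ A := by rintro _ ⟨x, hx, rfl⟩; exact (hUE hx).1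
  have hU'c : Nat.card U' = 2 ^ 2 := by rw [card_map_of_injective (subtype_injective _), hU]
  have hTc : Nat.card S ≤ Nat.card T * 2 := by
    rw [card_map_of_injective (subtype_injective _)]; simpa using hc
  have hU'2 : ∀ u ∈ U', u ^ 2 = 1 := by
    rintro _ ⟨x, hx, rfl⟩
    exact congrArg Subtype.val (hUE hx).2
  have hcomm : IsMulCommutative U' := ⟨⟨fun a b => Subtype.ext
    (mem_centralizer_iff_commute.1 (hAA (hU'A b.2)) a (hU'A a.2))⟩⟩
  have hnc : ¬ IsCyclic U' := by
    intro hcyc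
    have h1 := hcyc.exponent_eq_card
    have h2 : Monoid.exponent U' ∣ 2 :=
      Monoid.exponent_dvd_of_forall_pow_eq_one fun u => Subtype.ext (hU'2 u u.2)
    rw [h1, hU'c] at h2
    norm_num at h2
  have hcop : (Nat.card U').Coprime (Nat.card X) := by
    rw [hU'c]; exact Nat.Coprime.pow_left _ (Nat.coprime_two_left.2 hX)
  rw [← le_bot_iff]
  refine H2.le_of_forall_centralizer_le hcomm hnc (hU'S.trans hSX) hcop fun u hu hu1 => ?_
  have hTu : T ≤ 𝐂(zpowers u) := by
    rw [H69.centralizer_zpowers]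
    rintro _ ⟨t, ht, rfl⟩
    obtain ⟨x, hx, rfl⟩ := hu
    exact mem_centralizer_singleton_iff.2
      (congrArg Subtype.val (mem_centralizer_iff_commute.1 ht x hx)).symm
  rw [le_bot_iff, ← H69.centralizer_zpowers]
  refine key (hall (zpowers u) (S.isPGroup'.to_le (zpowers_le.2 (hU'S hu)))
    (by simpa using hu1)) S (S.isPGroup'.to_le hTS) hTu hTc
    (hX.of_dvd_nat (card_dvd_of_le inf_le_left)) inf_le_right ?_
  exact H69.le_normalizer_inf (hTS.trans hSX) (H69.le_normalizer_of_le hTu)

end Cfsg.Agent.S3246
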