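import Cfsg.Statements.S3261
import Cfsg.Agent.Base
import Cfsg.Agent.Lib.Inv73.D8
import Cfsg.Agent.S0848
import Cfsg.Agent.S0495
import Cfsg.Agent.S0497

set_option autoImplicit false
open Cfsg

namespace Cfsg.Agent.S3261

/-- Let α̃ be an involution of the alternating group A₆ that is a product of two disjoint transpositions (it lies in the centre of a Sylow 2-subgroup of A₆; its centralizer is dihedral of order 8). Let G be a finite group that has no subgroup of index 2 and contains an involution α, central in some Sylow 2-subgroup of G, with C_G(α) ≅ C_{A₆}(α̃). Then G is isomorphic to A₆ or to PSL₂(7). -/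
theorem result {G : Type*} [Group G] [Finite G]
    (hG : ∀ H : Subgroup G, H.index ≠ 2)
    (αt : ↥(alternatingGroup (Fin 6))) (hαt : orderOf αt = 2) (hsupp : (αt : Equiv.Perm (Fin 6)).support.card = 4)
    (α : G) (hα : orderOf α = 2) (S : Sylow 2 G) (hαS : α ∈ (S : Subgroup G)) (hαc : ∀ s ∈ (S : Subgroup G), s * α = α * s)
    (e : ↥(Subgroup.centralizer ({α} : Set G)) ≃* ↥(Subgroup.centralizer ({αt} : Set ↥(alternatingGroup (Fin 6))))) :
    Nonempty (G ≃* ↥(alternatingGroup (Fin 6))) ∨
      (∃ (F : Type) (_ : Field F) (_ : Fintype F), Fintype.card F = 7 ∧ Nonempty (G ≃* Matrix.ProjectiveSpecialLinearGroup (Fin 2) F)) := by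
  obtain ⟨e0⟩ := H73.centralizer_alternating_six αt hαt
  have e1 := e.trans e0
  obtain ⟨a, b, h⟩ := H73.exists_dihData (by norm_num) e1
  have hG' : ∀ N : Subgroup G, N.Normal → N.index ≠ 2 := fun N _ => hG N
  have hs := H73.isSimpleGroup_of_dih (k := 0) hG' hα h
  have hp := H73.commutator_eq_top_of_dih (k := 0) hG' hα h
  rcases Cfsg.Agent.S0848.result hp α hα e1 with h1 | h1
  · right
    have : Fact (Nat.Prime 7) := ⟨by norm_num⟩
    exact ⟨ZMod 7, inferInstance, inferInstance, ZMod.card 7,
      Cfsg.Agent.S0495.result h1 (ZMod.card 7)⟩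
  · left
    exact Cfsg.Agent.S0497.result h1

end Cfsg.Agent.S3261
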