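import Cfsg.Statements.S3265
import Mathlib
import Cfsg.Agent.Lib.H33.LocFus

set_option autoImplicit false
set_option linter.style.haveILetI false
open Cfsg

namespace Cfsg.Agent.S3265

/-- Let n ≥ 5 and let X be a conjugacy class of involutions of the symmetric group of degree n. The graph on X joining two distinct involutions whose product has odd order is connected and has diameter exactly 2. -/
theorem result (n : ℕ) (hn : 5 ≤ n) (t : Equiv.Perm (Fin n)) (ht : orderOf t = 2) :
    (SimpleGraph.fromRel fun x y : {x : Equiv.Perm (Fin n) // IsConj t x} =>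
        Odd (orderOf (x.1 * y.1))).Connected ∧
      (SimpleGraph.fromRel fun x y : {x : Equiv.Perm (Fin n) // IsConj t x} =>
        Odd (orderOf (x.1 * y.1))).diam = 2 := by
  have t2 : t ^ 2 = 1 := ht ▸ pow_orderOf_eq_one t
  set Γ := SimpleGraph.fromRel fun x y : {x : Equiv.Perm (Fin n) // IsConj t x} => Odd (orderOf (x.1 * y.1)) with hΓ
  have w1 : ∀ x y : {x : Equiv.Perm (Fin n) // IsConj t x}, Odd (orderOf (x.1 * y.1)) → Γ.edist x y ≤ 1 := fun x y h => by
    by_cases e : x = y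
    · simp [e]
    · exact (SimpleGraph.edist_eq_one_iff_adj.2 ((SimpleGraph.fromRel_adj _ _ _).2 ⟨e, Or.inl h⟩)).le
  have w2 : ∀ x y, Γ.edist x y ≤ 2 := fun x y => by
    have hx := (H33.LocFus.conj_iff t2).1 x.2
    have hy := (H33.LocFus.conj_iff t2).1 y.2
    obtain ⟨z, z1, z2, z3, z4⟩ := H33.LocFus.main (by simpa using hn) (H33.LocFus.iv_iff.2 hx.1) (H33.LocFus.iv_iff.2 hy.1)
      (hx.2.trans hy.2.symm)
    let z' : {x : Equiv.Perm (Fin n) // IsConj t x} :=
      ⟨z, (H33.LocFus.conj_iff t2).2 ⟨H33.LocFus.iv_iff.1 z1, z2.trans hx.2⟩⟩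
    calc Γ.edist x y ≤ Γ.edist x z' + Γ.edist z' y := SimpleGraph.edist_triangle
      _ ≤ 1 + 1 := add_le_add (w1 x z' z3) (SimpleGraph.edist_comm ▸ w1 y z' z4)
      _ = 2 := rfl
  have ne : Nonempty {x : Equiv.Perm (Fin n) // IsConj t x} := ⟨⟨t, IsConj.refl t⟩⟩
  refine ⟨⟨fun x y => SimpleGraph.reachable_of_edist_ne_top ((w2 x y).trans_lt (WithTop.coe_lt_top 2)).ne⟩, ?_⟩
  obtain ⟨y, h1, h2, h3⟩ := H33.LocFus.exists_even (α := Fin n) (by simp; omega) t2 (by rintro rfl; simp at ht)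
  have : Γ.ediam = 2 := le_antisymm (SimpleGraph.ediam_le_of_edist_le w2) (le_trans (by
    by_contra hc
    have hc' : Γ.edist ⟨t, IsConj.refl t⟩ ⟨y, h1⟩ ≤ 1 := Order.le_of_lt_succ (not_le.1 hc)
    rcases SimpleGraph.edist_le_one_iff_adj_or_eq.1 hc' with k | k
    · rcases ((SimpleGraph.fromRel_adj _ _ _).1 k).2 with k | k
      · rw [h2] at k; exact absurd k (by decide)
      · rw [h3] at k; exact absurd k (by decide)
    · rw [← show t = y from congrArg Subtype.val k, ← sq, t2, orderOf_one] at h2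
      exact absurd h2 (by decide)) (SimpleGraph.edist_le_ediam (u := ⟨t, IsConj.refl t⟩) (v := ⟨y, h1⟩)))
  rw [SimpleGraph.diam, this]; rfl

end Cfsg.Agent.S3265
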