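import Cfsg.Statements.S3266
import Cfsg.Agent.Lib.MatConj.Sol2
import Cfsg.Agent.Lib.SL2Elt.Steinberg
import Cfsg.Agent.Lib.SL2Elt.Nonsplit

set_option autoImplicit false
open Cfsg

namespace Cfsg.Agent.S3266

open H64.SL2 MatrixGroups

variable {F : Type*} [Field F]

theorem exists_third {x y : SL(2, F)} (hx : tr x = 0) (hy : tr y = 0) {c s t D : F}
    (hc : tr (x * y) = c) (h4 : c ^ 2 ≠ 4) (h : c ^ 2 + s ^ 2 + t ^ 2 + c * s * t - 4 = -D ^ 2) :
    ∃ z : SL(2, F), tr z = 0 ∧ tr (x * z) = s ∧ tr (y * z) = t := by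
  have h5 := sub_ne_zero.2 h4
  obtain ⟨a, ha⟩ : ∃ a, a * (c ^ 2 - 4) = 2 * s + c * t := ⟨_, div_mul_cancel₀ _ h5⟩
  obtain ⟨b, hb⟩ : ∃ b, b * (c ^ 2 - 4) = c * s + 2 * t := ⟨_, div_mul_cancel₀ _ h5⟩
  obtain ⟨d, hd⟩ : ∃ d, d * (c ^ 2 - 4) = D := ⟨_, div_mul_cancel₀ _ h5⟩
  have hs : s = b * c - 2 * a := mul_right_cancel₀ h5 (by linear_combination 2 * ha - c * hb)
  have ht : t = a * c - 2 * b := mul_right_cancel₀ h5 (by linear_combination 2 * hb - c * ha)
  have h6 : a ^ 2 + b ^ 2 - a * b * c - d ^ 2 * (c ^ 2 - 4) = 1 :=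
    mul_right_cancel₀ h5 (by subst hs ht hd; linear_combination -h)
  have hX := det_eq x
  have hY := det_eq y
  simp only [ent] at hx hy hc
  rw [add_eq_zero_iff_neg_eq] at hx hy
  rw [← hx] at hX hc
  rw [← hy] at hY hc
  subst hc
  refine ⟨mk (a * x 0 0 + b * y 0 0 + d * (x 0 1 * y 1 0 - x 1 0 * y 0 1))
    (a * x 0 1 + b * y 0 1 + d * (2 * (x 0 0 * y 0 1 - x 0 1 * y 0 0)))
    (a * x 1 0 + b * y 1 0 + d * (2 * (x 1 0 * y 0 0 - x 0 0 * y 1 0)))
    (-(a * x 0 0 + b * y 0 0 + d * (x 0 1 * y 1 0 - x 1 0 * y 0 1))) ?_, ?_, ?_, ?_⟩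
  · linear_combination h6 + a ^ 2 * hX + b ^ 2 * hY + 4 * d ^ 2 *
      ((y 0 0 * -y 0 0 - y 0 1 * y 1 0) * hX + hY)
  · simp only [ent, add_neg_cancel]
  · simp only [ent, ← hx]
    linear_combination -hs - 2 * a * hX
  · simp only [ent, ← hy]
    linear_combination -ht - 2 * b * hY

variable [Fintype F]

theorem odd_of_sq (h2 : (2 : F) ≠ 0) {g : SL(2, F)} (h : tr g ^ 2 = 4) :
    Odd (orderOf (proj g)) := by
  obtain ⟨p, hp⟩ := CharP.exists F
  have := Fact.mk (CharP.char_is_prime F p)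
  exact Odd.of_dvd_nat (Nat.odd_iff.2 (odd_card_of_two_ne_zero h2))
    ((orderOf_proj_dvd_iff.2 (pow_char_mem_center p h)).trans (char_dvd_card p))

theorem odd_of_split (h2 : (2 : F) ≠ 0) (h3 : Fintype.card F % 4 = 3) {g : SL(2, F)}
    (h : Split g) : Odd (orderOf (proj g)) := by
  by_cases h4 : tr g ^ 2 = 4
  · exact odd_of_sq h2 h4
  refine Odd.of_dvd_nat (n := Fintype.card F / 2) (Nat.odd_iff.2 (by omega))
    (orderOf_proj_dvd_of_pow_two_mul h2 ?_)
  rw [← pow_eq_one_of_split h4 h, Nat.card_eq_fintype_card]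
  congr 1
  omega

theorem odd_of_ne (h2 : (2 : F) = 0) {g : SL(2, F)} (h : tr g ≠ 0) : Odd (orderOf (proj g)) := by
  have h3 : Fintype.card F % 2 = 0 := by
    by_contra e
    exact two_ne_zero_of_odd (Nat.odd_iff.2 (by omega)) h2
  have := Fintype.card_pos (α := F)
  by_cases hs : Split g
  · exact Odd.of_dvd_nat (Nat.odd_iff.2 (by omega)) (H65.orderOf_proj_dvd_sub
      (fun e => h (pow_eq_zero_iff two_ne_zero |>.1 (by linear_combination e + 2 * h2))) hs)
  · exact Odd.of_dvd_nat (Nat.odd_iff.2 (by omega)) (H65.orderOf_proj_dvd_add hs)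

theorem sq_or (h : ¬ IsSquare (-1 : F)) (a : F) : (∃ k, a = k ^ 2) ∨ ∃ k, -a = k ^ 2 := by
  by_cases h1 : IsSquare a
  · exact Or.inl (h1.imp fun k e => e.trans (sq k).symm)
  · obtain ⟨k, -, e⟩ := H64.St2.exists_sq_mul h1 h
    exact Or.inr ⟨k, by rw [e]; ring⟩

theorem exists_ne (hF : 4 ≤ Fintype.card F) : ∃ m : F, m ≠ 0 ∧ m ≠ 1 ∧ m ≠ -1 := by
  classical
  obtain ⟨m, -, hm⟩ := Finset.exists_mem_notMem_of_card_lt_card (s := {0, 1, -1})
    (t := (Finset.univ : Finset F)) (Finset.card_le_three.trans_lt hF)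
  exact ⟨m, by simpa [not_or] using hm⟩

theorem exists_param (hF : 4 ≤ Fintype.card F) (h2 : (2 : F) ≠ 0) (h : ¬ IsSquare (-1 : F))
    {c : F} (hc : ∀ a, a ^ 2 - c * a + 1 ≠ 0) : ∃ l m D : F, l ≠ 0 ∧ m ≠ 0 ∧
      c ^ 2 + (l + l⁻¹) ^ 2 + (m + m⁻¹) ^ 2 + c * (l + l⁻¹) * (m + m⁻¹) - 4 = -D ^ 2 := by
  have e1 : 2 + c ≠ 0 := fun e => hc (-1) (by linear_combination e)
  have e2 : 2 - c ≠ 0 := fun e => hc 1 (by linear_combination e)
  obtain ⟨r, hr⟩ := (sq_or h (c ^ 2 - 4)).resolve_left (by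
    rintro ⟨k, e⟩
    exact hc ((c + k) / 2) (by field_simp; linear_combination -e))
  obtain ⟨u, hu, w, hw⟩ : ∃ u : F, u ≠ 0 ∧ ∃ w, -((u ^ 2 + c * u + 1) * (2 + c)) = w ^ 2 := by
    rcases sq_or h (2 + c) with ⟨k, e⟩ | ⟨k, e⟩
    · obtain ⟨x, y, e'⟩ := exists_binary_form_eq (a := 1) (b := c) (c := 1)
        (fun e => mul_ne_zero e1 e2 (by linear_combination -e)) (-1)
      have hx : x ≠ 0 := fun e => h ⟨y, by rw [← e', e]; ring⟩
      have hy : y ≠ 0 := fun e => h ⟨x, by rw [← e', e]; ring⟩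
      exact ⟨x / y, div_ne_zero hx hy, k / y, by rw [e]; field_simp; linear_combination -k ^ 2 * e'⟩
    · by_cases h0 : c = 0
      · obtain ⟨m, m0, m1, m2⟩ := exists_ne hF
        refine ⟨(m - m⁻¹) / 2, div_ne_zero (fun e => mul_ne_zero (sub_ne_zero.2 m1)
          (sub_ne_zero.2 m2) ?_) h2, k * (m + m⁻¹) / 2, ?_⟩
        · field_simp at e
          linear_combination e
        · rw [neg_mul_eq_mul_neg, e, h0]
          field_simp
          ring
      · exact ⟨-c, neg_ne_zero.2 h0, k, by linear_combination e⟩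
  rcases sq_or h u with ⟨l, e⟩ | ⟨l, e⟩
  · have hl : l ≠ 0 := fun e' => hu (by rw [e, e']; ring)
    refine ⟨l, l, w / l, hl, hl, ?_⟩
    field_simp
    subst e
    linear_combination -hw
  · have hl : l ≠ 0 := fun e' => hu (by rw [← neg_eq_zero, e, e']; ring)
    refine ⟨l, -l, w * r / ((2 + c) * l), hl, neg_ne_zero.2 hl, ?_⟩
    obtain rfl : u = -l ^ 2 := by rw [← e, neg_neg]
    field_simp
    linear_combination -r ^ 2 * hw + (l ^ 4 - c * l ^ 2 + 1) * (2 + c) * hr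

theorem exists_mid (hF : 4 ≤ Fintype.card F) {x y : SL(2, F)} (hx : tr x = 0) (hy : tr y = 0)
    (hx' : x ∉ Subgroup.center _) (hy' : y ∉ Subgroup.center _)
    (h : ¬ Odd (orderOf (proj (x * y)))) : ∃ z : SL(2, F), (tr z = 0 ∧ z ∉ Subgroup.center _) ∧
      Odd (orderOf (proj (x * z))) ∧ Odd (orderOf (proj (y * z))) := by
  by_cases h2 : (2 : F) = 0
  · have key : ∀ a b c : F, ∀ h, b ≠ 0 ∨ c ≠ 0 → x 1 0 * b + x 0 1 * c ≠ 0 →
        y 1 0 * b + y 0 1 * c ≠ 0 → ∃ z : SL(2, F), (tr z = 0 ∧ z ∉ Subgroup.center _) ∧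
        Odd (orderOf (proj (x * z))) ∧ Odd (orderOf (proj (y * z))) := fun a b c h h3 h4 h5 => by
      refine ⟨mk a b c a h, ⟨?_, ?_⟩, odd_of_ne h2 fun e => h4 ?_, odd_of_ne h2 fun e => h5 ?_⟩
      · simp only [ent]
        linear_combination a * h2
      · simp only [mem_center_iff_entries, ent]
        exact fun e => h3.elim (· e.1) (· e.2.1)
      · simp only [ent] at e hx
        linear_combination e - a * hx
      · simp only [ent] at e hy
        linear_combination e - a * hy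
    have h3 : ∀ g : SL(2, F), tr g = 0 → g ∉ Subgroup.center _ → g 0 1 = 0 → g 1 0 ≠ 0 :=
      fun g e1 e2 e3 e4 => e2 (mem_center_iff_entries.2 ⟨e3, e4, by
        simp only [ent] at e1
        linear_combination -e1 + g 0 0 * h2⟩)
    by_cases a1 : x 0 1 = 0
    · by_cases a2 : y 1 0 = 0
      · exact key 0 1 1 (by linear_combination -h2) (by simp) (by simp [a1, h3 x hx hx' a1])
          (by simpa [a2] using fun e => h3 y hy hy' e a2)
      · exact key 1 1 0 (by simp) (by simp) (by simp [h3 x hx hx' a1]) (by simp [a2])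
    by_cases a2 : y 0 1 = 0
    · by_cases a3 : x 1 0 = 0
      · exact key 0 1 1 (by linear_combination -h2) (by simp) (by simp [a1, a3])
          (by simp [a2, h3 y hy hy' a2])
      · exact key 1 1 0 (by simp) (by simp) (by simp [a3]) (by simp [h3 y hy hy' a2])
    · exact key 1 0 1 (by simp) (by simp) (by simp [a1]) (by simp [a2])
  have h4 : tr (x * y) ^ 2 ≠ 4 := fun e => h (odd_of_sq h2 e)
  have h5 : ∀ z : SL(2, F), tr z = 0 → tr z = 0 ∧ z ∉ Subgroup.center _ := fun z e =>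
    ⟨e, not_mem_center_of_tr fun e' => mul_ne_zero h2 h2 (by rw [e] at e'; linear_combination -e')⟩
  by_cases h3 : IsSquare (-1 : F)
  · obtain ⟨i, hi⟩ := h3
    obtain ⟨z, e1, e2, e3⟩ := exists_third hx hy rfl h4 (s := 2) (t := 2)
      (D := i * (tr (x * y) + 2)) (by linear_combination -(tr (x * y) + 2) ^ 2 * hi)
    exact ⟨z, h5 z e1, odd_of_sq h2 (by rw [e2]; norm_num), odd_of_sq h2 (by rw [e3]; norm_num)⟩
  have h6 : Fintype.card F % 4 = 3 := not_not.1 (FiniteField.isSquare_neg_one_iff.not.1 h3)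
  obtain ⟨l, m, D, hl, hm, e⟩ := exists_param hF h2 h3 fun a e => h (odd_of_split h2 h6 ⟨a, e⟩)
  obtain ⟨z, e1, e2, e3⟩ := exists_third hx hy rfl h4 e
  exact ⟨z, h5 z e1, odd_of_split h2 h6 ⟨l, by rw [e2]; field_simp; ring⟩,
    odd_of_split h2 h6 ⟨m, by rw [e3]; field_simp; ring⟩⟩

omit [Fintype F] in
theorem orderOf_eq_two {g : SL(2, F)} :
    orderOf (proj g) = 2 ↔ tr g = 0 ∧ g ∉ Subgroup.center _ := by
  rw [← proj_eq_one_iff, orderOf_eq_prime_iff]
  exact ⟨fun h => ⟨H65.tr_eq_zero_of_sq (sq (proj g) ▸ h.1) h.2, h.2⟩,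
    fun h => ⟨H65.proj_sq h.1, h.2⟩⟩

theorem isConj_iff {t : PSL(2, F)} (ht : orderOf t = 2) (g : SL(2, F)) :
    IsConj t (proj g) ↔ tr g = 0 ∧ g ∉ Subgroup.center _ := by
  rw [← orderOf_eq_two]
  refine ⟨fun ⟨c, hc⟩ => (hc.orderOf_eq c.1).symm.trans ht, fun h => ?_⟩
  obtain ⟨t, rfl⟩ := proj_surjective t
  rw [orderOf_eq_two] at h ht
  refine proj.map_isConj ?_
  by_cases h2 : (2 : F) = 0
  · exact (isConj_comp_of_two_eq_zero h2 ht.2).symm.trans
      (ht.1 ▸ h.1 ▸ isConj_comp_of_two_eq_zero h2 h.2)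
  · exact isConj_of_tr_eq (fun e => mul_ne_zero h2 h2 (by rw [ht.1] at e; linear_combination -e))
      (ht.1.trans h.1.symm)

theorem exists_pair (hF : 4 ≤ Fintype.card F) : ∃ x y : SL(2, F),
    (tr x = 0 ∧ x ∉ Subgroup.center _) ∧ (tr y = 0 ∧ y ∉ Subgroup.center _) ∧
      (tr (x * y) = 0 ∧ x * y ∉ Subgroup.center _) := by
  by_cases h2 : (2 : F) = 0
  · obtain ⟨m, m0, -, m2⟩ := exists_ne hF
    refine ⟨mk 1 1 0 1 (by simp), mk 1 m 0 1 (by simp), ?_⟩
    simp [mem_center_iff_entries, ent, one_add_one_eq_two, h2, m0, add_eq_zero_iff_eq_neg, m2]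
  have h5 : ∀ z : SL(2, F), tr z = 0 → tr z = 0 ∧ z ∉ Subgroup.center _ := fun z e =>
    ⟨e, not_mem_center_of_tr fun e' => mul_ne_zero h2 h2 (by rw [e] at e'; linear_combination -e')⟩
  obtain ⟨u, e1, e2⟩ := exists_tr_eq_and_tr_inv_mul_eq (g := comp (0 : F))
    (fun e => mul_ne_zero h2 h2 (by rw [tr_comp] at e; linear_combination -e)) 0 0
  exact ⟨u⁻¹, comp 0, h5 _ ((tr_inv u).trans e1), h5 _ (tr_comp 0), h5 _ e2⟩


/-- Let F be a finite field with at least 4 elements and let X be a conjugacy class of involutions of PSL(2, F). The graph on X joining two distinct involutions whose product has odd order is connected and has diameter exactly 2. -/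
theorem result {F : Type*} [Field F] [Fintype F] (hF : 4 ≤ Fintype.card F)
    (t : Matrix.ProjectiveSpecialLinearGroup (Fin 2) F) (ht : orderOf t = 2) :
    (SimpleGraph.fromRel fun x y : {x : Matrix.ProjectiveSpecialLinearGroup (Fin 2) F // IsConj t x} =>
        Odd (orderOf (x.1 * y.1))).Connected ∧
      (SimpleGraph.fromRel fun x y : {x : Matrix.ProjectiveSpecialLinearGroup (Fin 2) F // IsConj t x} =>
        Odd (orderOf (x.1 * y.1))).diam = 2 := by
  have hs : ∀ x : {x // IsConj t x}, ∃ g, (tr g = 0 ∧ g ∉ Subgroup.center _) ∧ x.1 = proj g :=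
    fun x => by
      obtain ⟨g, hg⟩ := proj_surjective x.1
      exact ⟨g, (isConj_iff ht g).1 (hg ▸ x.2), hg.symm⟩
  have hc : ∀ x y : PSL(2, F), orderOf (x * y) = orderOf (y * x) := fun x y =>
    SemiconjBy.orderOf_eq y (mul_assoc y x y).symm
  generalize hG : (SimpleGraph.fromRel fun x y : {x : PSL(2, F) // IsConj t x} =>
    Odd (orderOf (x.1 * y.1))) = G
  have ha : ∀ x y, G.Adj x y ↔ x ≠ y ∧ Odd (orderOf (x.1 * y.1)) := fun x y => by
    rw [← hG, SimpleGraph.fromRel_adj, hc y.1, or_self]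
  have h2 : G.ediam = 2 := by
    refine le_antisymm (SimpleGraph.ediam_le_of_edist_le fun x y => ?_) ?_
    · by_cases h : Odd (orderOf (x.1 * y.1))
      · refine (SimpleGraph.edist_le_one_iff_adj_or_eq.2 ?_).trans one_le_two
        rw [ha]
        exact (ne_or_eq x y).imp_left (⟨·, h⟩)
      obtain ⟨g, hg, e⟩ := hs x
      obtain ⟨g', hg', e'⟩ := hs y
      obtain ⟨z, hz, e1, e2⟩ := exists_mid hF hg.1 hg'.1 hg.2 hg'.2 (by rwa [map_mul, ← e, ← e'])
      rw [map_mul, ← e] at e1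
      rw [map_mul, ← e'] at e2
      have a1 := (ha x ⟨_, (isConj_iff ht z).2 hz⟩).2 ⟨fun a => h (by rw [hc, a]; exact e2), e1⟩
      have a2 := (ha y ⟨_, (isConj_iff ht z).2 hz⟩).2 ⟨fun a => h (by rw [a]; exact e1), e2⟩
      exact SimpleGraph.edist_le (.cons a1 (.cons a2.symm .nil))
    · obtain ⟨x, y, hx, hy, h⟩ := exists_pair hF
      refine le_trans (one_add_one_eq_two.ge.trans
        (Order.add_one_le_of_lt (x := 1) (not_le.1 fun e => ?_)))
        (SimpleGraph.edist_le_ediam (u := ⟨_, (isConj_iff ht x).2 hx⟩)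
          (v := ⟨_, (isConj_iff ht y).2 hy⟩))
      rw [← orderOf_eq_two, map_mul] at h
      rcases SimpleGraph.edist_le_one_iff_adj_or_eq.1 e with e | e
      · exact absurd (h ▸ ((ha _ _).1 e).2) (by decide)
      · rw [Subtype.mk.inj e, ← sq, H65.proj_sq hy.1, orderOf_one] at h
        omega
  have : Nonempty {x // IsConj t x} := ⟨⟨t, IsConj.refl t⟩⟩
  exact ⟨SimpleGraph.connected_of_ediam_ne_top (h2 ▸ by decide), by
    rw [SimpleGraph.diam, h2]; rfl⟩

end Cfsg.Agent.S3266
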