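import Cfsg.Statements.S3269
import Cfsg.Agent.Base
import Cfsg.Agent.Lib.Inv73.ZStar
import Cfsg.Agent.Lib.Transfer.NormalComplement

set_option autoImplicit false
open Cfsg

namespace Cfsg.Agent.S3269

open Subgroup
open scoped commutatorElement

/-- `z` is the unique involution of a direct factor `Q` of `S` and lies in `[Q, Q]`. -/
def Good {G : Type*} [Group G] (S : Subgroup G) (z : G) (Q R : Subgroup G) : Prop :=
  IsInternalDirectProduct Q R S ∧ orderOf z = 2 ∧ z ∈ ⁅Q, Q⁆ ∧ ∀ u ∈ Q, orderOf u = 2 → u = z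

theorem comm_le {G : Type*} [Group G] (Q : Subgroup G) : ⁅Q, Q⁆ ≤ Q := by
  rw [commutator_le]
  intro a ha b hb
  rw [commutatorElement_def]
  exact mul_mem (mul_mem (mul_mem ha hb) (inv_mem ha)) (inv_mem hb)

theorem decomp {G : Type*} [Group G] {S Q R : Subgroup G} (h : IsInternalDirectProduct Q R S)
    {s : G} (hs : s ∈ S) : ∃ a ∈ Q, ∃ b ∈ R, s = a * b := by
  obtain ⟨-, -, hc, -, hsup⟩ := h
  rw [← hsup] at hs
  have hn : R ≤ normalizer (Q : Set G) := by
    intro r hr
    rw [mem_normalizer_iff]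
    intro q
    constructor
    · intro hq
      rw [← hc q hq r hr]; simpa using hq
    · intro hq
      have := hc _ hq r hr
      have e : q = r * q * r⁻¹ := by
        apply mul_left_cancel (a := r)
        rw [← this]; group
      rw [e]; exact hq
  have : (s : G) ∈ ((Q ⊔ R : Subgroup G) : Set G) := hs
  rw [coe_mul_of_right_le_normalizer_left Q R hn] at this
  obtain ⟨a, ha, b, hb, rfl⟩ := this
  exact ⟨a, ha, b, hb, rfl⟩

theorem conj_mem {G : Type*} [Group G] {S Q R : Subgroup G} (h : IsInternalDirectProduct Q R S)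
    {s q : G} (hs : s ∈ S) (hq : q ∈ Q) : s * q * s⁻¹ ∈ Q := by
  obtain ⟨a, ha, b, hb, rfl⟩ := decomp h hs
  have : a * b * q * (a * b)⁻¹ = a * q * a⁻¹ := by
    calc a * b * q * (a * b)⁻¹ = a * (b * q) * b⁻¹ * a⁻¹ := by group
      _ = _ := by rw [← h.2.2.1 q hq b hb]; group
  rw [this]
  exact mul_mem (mul_mem ha hq) (inv_mem ha)

theorem mem_of_ne {G : Type*} [Group G] [Finite G] {S : Subgroup G} (hS : IsPGroup 2 S)
    {z z' : G} {Q R Q' R' : Subgroup G} (h : Good S z Q R) (h' : Good S z' Q' R') (hne : z ≠ z') :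
    z' ∈ R := by
  have hbot : Q ⊓ Q' = ⊥ := by
    by_contra hb
    obtain ⟨t, ht, ht2⟩ := H9.exists_involution_of_isPGroup
      (hS.to_le (inf_le_left.trans h.1.1)) hb
    exact hne ((h.2.2.2 t ht.1 ht2).symm.trans (h'.2.2.2 t ht.2 ht2))
  have hcomm : ∀ a ∈ Q, ∀ b ∈ Q', a * b = b * a := by
    intro a ha b hb
    have : a * b * a⁻¹ * b⁻¹ ∈ Q ⊓ Q' := by
      constructor
      · have := conj_mem h.1 (h'.1.1 hb) (inv_mem ha)
        have e : a * b * a⁻¹ * b⁻¹ = a * (b * a⁻¹ * b⁻¹) := by group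
        rw [e]; exact mul_mem ha this
      · exact Q'.mul_mem (conj_mem h'.1 (h.1.1 ha) hb) (Q'.inv_mem hb)
    rw [hbot, mem_bot] at this
    calc a * b = (a * b * a⁻¹ * b⁻¹) * (b * a) := by group
      _ = b * a := by rw [this, one_mul]
  refine (commutator_le.2 ?_ : ⁅Q', Q'⁆ ≤ R) h'.2.2.1
  intro x hx y hy
  obtain ⟨a, ha, b, hb, rfl⟩ := decomp h.1 (h'.1.1 hx)
  obtain ⟨c, hc, d, hd, rfl⟩ := decomp h.1 (h'.1.1 hy)
  have hc1 := h.1.2.2.1
  have hac : Commute a c := by
    have h1 : Commute c (a * b) := hcomm c hc _ hx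
    have h2 : Commute c b := hc1 c hc b hb
    have := h1.mul_right h2.inv_right
    simpa using this.symm
  have hab : Commute a b := hc1 a ha b hb
  have had : Commute a d := hc1 a ha d hd
  have hcb : Commute c b := hc1 c hc b hb
  have hcd : Commute c d := hc1 c hc d hd
  have e : ⁅a * b, c * d⁆ = ⁅b, d⁆ := by
    have h1 : Commute a (b * (c * d) * b⁻¹) :=
      (hab.mul_right (hac.mul_right had)).mul_right hab.inv_right
    have h2 : Commute c (b * d * b⁻¹ * d⁻¹) :=
      ((hcb.mul_right hcd).mul_right hcb.inv_right).mul_right hcd.inv_right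
    calc ⁅a * b, c * d⁆ = a * (b * (c * d) * b⁻¹) * a⁻¹ * (c * d)⁻¹ := by
          rw [commutatorElement_def]; group
      _ = (b * c) * d * b⁻¹ * (c * d)⁻¹ := by rw [h1.eq]; group
      _ = c * (b * d * b⁻¹ * d⁻¹) * c⁻¹ := by rw [← hcb.eq]; group
      _ = ⁅b, d⁆ := by rw [h2.eq, commutatorElement_def]; group
  rw [e, commutatorElement_def]
  exact mul_mem (mul_mem (mul_mem hb hd) (inv_mem hb)) (inv_mem hd)

theorem Good.conj {G : Type*} [Group G] {S : Subgroup G} {z : G} {Q R : Subgroup G}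
    (h : Good S z Q R) {n : G} (hn : n ∈ normalizer (S : Set G)) :
    Good S (n * z * n⁻¹) (Q.map (MulAut.conj n).toMonoidHom) (R.map (MulAut.conj n).toMonoidHom) := by
  have hS : S.map (MulAut.conj n).toMonoidHom = S := mem_normalizer_iff_map_conj_eq.1 hn
  obtain ⟨⟨h1, h2, h3, h4, h5⟩, h6, h7, h8⟩ := h
  refine ⟨⟨hS ▸ map_mono h1, hS ▸ map_mono h2, ?_, ?_, ?_⟩, ?_, ?_, ?_⟩
  · rintro _ ⟨a, ha, rfl⟩ _ ⟨b, hb, rfl⟩
    rw [← map_mul, ← map_mul, h3 a ha b hb]
  · rw [← map_inf_eq _ _ _ (MulAut.conj n).injective, h4, Subgroup.map_bot]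
  · rw [← Subgroup.map_sup, h5, hS]
  · rw [H9.orderOf_conj, h6]
  · rw [← map_commutator]
    exact ⟨z, h7, rfl⟩
  · rintro _ ⟨u, hu, rfl⟩ hu2
    change n * u * n⁻¹ = _
    rw [h8 u hu (by rw [← hu2]; exact (H9.orderOf_conj n u).symm)]

theorem exists_good {G : Type*} [Group G] {S Q R : Subgroup G}
    (hQR : IsInternalDirectProduct Q R S) (n : ℕ) (hn : 1 ≤ n)
    (eQ : ↥Q ≃* QuaternionGroup (2 ^ n)) : ∃ z, Good S z Q R := by
  obtain ⟨n, rfl⟩ : ∃ k, n = k + 1 := ⟨n - 1, by omega⟩
  set m := 2 ^ (n + 1) with hm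
  have hmpos : 0 < m := by positivity
  have : NeZero m := ⟨hmpos.ne'⟩
  have ho : orderOf (QuaternionGroup.a 1 : QuaternionGroup m) = 2 * m :=
    QuaternionGroup.orderOf_a_one
  have he : Even (orderOf (QuaternionGroup.a 1 : QuaternionGroup m)) := by
    rw [ho]; exact even_two_mul m
  let f : QuaternionGroup m →* G := Q.subtype.comp eQ.symm.toMonoidHom
  have hf : Function.Injective f := Q.subtype_injective.comp eQ.symm.injective
  have hfS : ∀ q, f q ∈ Q := fun q => (eQ.symm q).2
  have hz := H9.orderOf_pow_half he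
  refine ⟨f (QuaternionGroup.a 1 ^ (orderOf (QuaternionGroup.a 1 : QuaternionGroup m) / 2)),
    hQR, by rw [orderOf_injective f hf, hz], ?_, ?_⟩
  · have : (QuaternionGroup.a 1 : QuaternionGroup m) ^
        (orderOf (QuaternionGroup.a 1 : QuaternionGroup m) / 2) =
        ⁅(QuaternionGroup.a (2 ^ n : ℕ) : QuaternionGroup m), QuaternionGroup.xa 0⁆ := by
      rw [ho, Nat.mul_div_cancel_left _ (by norm_num), QuaternionGroup.a_one_pow,
        commutatorElement_def, eq_mul_inv_iff_mul_eq, eq_mul_inv_iff_mul_eq]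
      simp only [QuaternionGroup.a_mul_xa, QuaternionGroup.xa_mul_a]
      congr 1
      rw [hm]
      push_cast
      have : ((2 * 2 ^ (n + 1) : ℕ) : ZMod (2 * 2 ^ (n + 1))) = 0 := ZMod.natCast_self _
      push_cast at this
      ring
    rw [this, map_commutatorElement]
    exact commutator_mem_commutator (hfS _) (hfS _)
  · intro u hu hu2
    have e : u = f (eQ ⟨u, hu⟩) := by simp [f]
    rw [e] at hu2 ⊢
    rw [orderOf_injective f hf] at hu2
    congr 1
    rcases hx : eQ ⟨u, hu⟩ with i | i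
    · rw [hx] at hu2
      refine (H9.eq_pow_half_of_mem_zpowers hu2 ⟨(i.val : ℕ), ?_⟩).2
      simp only [zpow_natCast, QuaternionGroup.a_one_pow, ZMod.natCast_zmod_val]
    · rw [hx, QuaternionGroup.orderOf_xa] at hu2
      omega

/-- Let G be a finite group whose Sylow 2-subgroup S is an internal direct product Q × R with Q generalized quaternion (of order at least 8) and R a subgroup all of whose involutions are central in R. Then G is not simple. In particular no finite simple group has a Sylow 2-subgroup that is a direct product of one or more generalized quaternion groups. -/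
theorem result {G : Type*} [Group G] [Finite G]
    (S : Sylow 2 G) (Q R : Subgroup G) (hQR : Cfsg.IsInternalDirectProduct Q R (S : Subgroup G))
    (n : ℕ) (hn : 1 ≤ n) (eQ : ↥Q ≃* QuaternionGroup (2 ^ n))
    (hR : ∀ r ∈ R, orderOf r = 2 → ∀ s ∈ R, r * s = s * r) :
    ¬ IsSimpleGroup G := by
  classical
  intro hsimple
  obtain ⟨z, hz⟩ := exists_good hQR n hn eQ
  have hzQ : z ∈ Q := comm_le Q hz.2.2.1
  have hcent : ∀ u ∈ (S : Subgroup G), orderOf u = 2 → ∀ s ∈ (S : Subgroup G), s * u = u * s := by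
    intro u hu hu2 s hs
    obtain ⟨a, ha, b, hb, rfl⟩ := decomp hQR hu
    obtain ⟨c, hc, d, hd, rfl⟩ := decomp hQR hs
    have hab : Commute a b := hQR.2.2.1 a ha b hb
    have h1 : (a * a) * (b * b) = 1 := by
      rw [← H9.mul_self_of_orderOf_two hu2]
      calc a * a * (b * b) = a * (a * b) * b := by group
        _ = a * (b * a) * b := by rw [hab.eq]
        _ = _ := by group
    have h2 : a * a ∈ Q ⊓ R := ⟨mul_mem ha ha, by
      rw [eq_inv_of_mul_eq_one_left h1]; exact R.inv_mem (R.mul_mem hb hb)⟩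
    rw [hQR.2.2.2.1, mem_bot] at h2
    rw [h2, one_mul] at h1
    have hca : Commute c a := by
      by_cases ha1 : a = 1
      · rw [ha1]; exact Commute.one_right c
      · have h3 := H9.orderOf_eq_two_of_mul_self ha1 h2
        have h4 := hz.2.2.2 _ (mul_mem (mul_mem hc ha) (inv_mem hc)) (by rw [H9.orderOf_conj, h3])
        rw [← hz.2.2.2 a ha h3] at h4
        exact mul_inv_eq_iff_eq_mul.1 h4
    have hdb : Commute d b := by
      by_cases hb1 : b = 1
      · rw [hb1]; exact Commute.one_right d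
      · exact (hR b hb (H9.orderOf_eq_two_of_mul_self hb1 h1) d hd).symm
    have hcb : Commute c b := hQR.2.2.1 c hc b hb
    have hda : Commute d a := (hQR.2.2.1 a ha d hd).symm
    exact ((hca.mul_right hcb).mul_left (hda.mul_right hdb)).eq
  let X : Finset G := (Set.toFinite {y : G | ∃ Q' R', Good (S : Subgroup G) y Q' R'}).toFinset
  have hX : ∀ y, y ∈ X ↔ ∃ Q' R', Good (S : Subgroup G) y Q' R' := fun y => by simp [X]
  have hXS : ∀ y ∈ X, y ∈ (S : Subgroup G) ∧ orderOf y = 2 := by
    intro y hy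
    obtain ⟨Q', R', h⟩ := (hX y).1 hy
    exact ⟨h.1.1 (comm_le Q' h.2.2.1), h.2.1⟩
  have hcomm : (X : Set G).Pairwise (Function.onFun Commute id) := by
    intro a ha b hb _
    exact hcent b (hXS b hb).1 (hXS b hb).2 a (hXS a ha).1
  set w := X.noncommProd id hcomm with hw
  have hzX : z ∈ X := (hX z).2 ⟨Q, R, hz⟩
  have hwS : w ∈ (S : Subgroup G) := Subgroup.noncommProd_mem _ hcomm fun y hy => (hXS y hy).1
  have hww : w * w = 1 := by
    refine (Finset.noncommProd_induction X id hcomm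
      (fun a => a * a = 1 ∧ a ∈ (S : Subgroup G)) ?_ ⟨by simp, one_mem _⟩ ?_).1
    · rintro a b ⟨ha, haS⟩ ⟨hb, hbS⟩
      refine ⟨?_, mul_mem haS hbS⟩
      by_cases hb1 : b = 1
      · simp [hb1, ha]
      · have := hcent b hbS (H9.orderOf_eq_two_of_mul_self hb1 hb) a haS
        calc a * b * (a * b) = a * (b * a) * b := by group
          _ = (a * a) * (b * b) := by rw [← this]; group
          _ = 1 := by rw [ha, hb, one_mul]
    · intro y hy
      exact ⟨H9.mul_self_of_orderOf_two (hXS y hy).2, (hXS y hy).1⟩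
  have hw1 : w ≠ 1 := by
    intro h1
    have h2 := Finset.mul_noncommProd_erase X hzX id hcomm
    rw [← hw, h1] at h2
    have h3 := Subgroup.noncommProd_mem R (t := X.erase z) (f := id)
      (hcomm.mono (by simp)) (fun y hy => by
        obtain ⟨hne, hy⟩ := Finset.mem_erase.1 hy
        obtain ⟨Q', R', h⟩ := (hX y).1 hy
        exact mem_of_ne S.isPGroup' hz h hne.symm)
    have h4 : z ∈ Q ⊓ R := ⟨hzQ, by
      have := eq_inv_of_mul_eq_one_left h2
      rw [id] at this
      rw [this]; exact R.inv_mem h3⟩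
    rw [hQR.2.2.2.1, mem_bot] at h4
    exact H9.ne_one_of_orderOf_two hz.2.1 h4
  have hw2 := H9.orderOf_eq_two_of_mul_self hw1 hww
  have hinv : ∀ m ∈ normalizer ((S : Subgroup G) : Set G), m * w * m⁻¹ = w := by
    intro m hm
    have h1 := Finset.map_noncommProd X id hcomm (MulAut.conj m)
    rw [← hw, MulAut.conj_apply] at h1
    rw [h1]
    have h2 : X.map (MulAut.conj m).toEquiv.toEmbedding = X := by
      apply Finset.eq_of_subset_of_card_le
      · intro y hy
        obtain ⟨y', hy', rfl⟩ := Finset.mem_map.1 hy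
        obtain ⟨Q', R', h⟩ := (hX y').1 hy'
        exact (hX _).2 ⟨_, _, h.conj hm⟩
      · simp
    have h3 : X.val.map (fun i => MulAut.conj m (id i)) = X.val.map id := by
      rw [Multiset.map_id]
      exact congrArg Finset.val h2
    rw [hw]
    unfold Finset.noncommProd
    congr 1
  have htop := H73.zpowers_eq_top_of_isolated S hw2 hwS (by
    intro g hg
    obtain ⟨m, hm, hm'⟩ := H4.exists_normalizer_conj_eq_of_centralizer S (A := {w}) (g := g)
      (by
        rintro _ rfl s hs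
        exact hcent w hwS hw2 s hs)
      (by
        rintro _ rfl s hs
        exact hcent _ hg (by rw [H9.orderOf_conj, hw2]) s hs)
    rw [← hm' w rfl, hinv m hm])
  have : ⁅Q, Q⁆ ≤ ⊥ := by
    rw [commutator_le]
    intro a _ b _
    obtain ⟨i, rfl⟩ : a ∈ zpowers w := htop ▸ mem_top a
    obtain ⟨j, rfl⟩ : b ∈ zpowers w := htop ▸ mem_top b
    rw [mem_bot, commutatorElement_eq_one_iff_commute]
    exact Commute.zpow_zpow_self w i j
  exact H9.ne_one_of_orderOf_two hz.2.1 (mem_bot.1 (this hz.2.2.1))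

end Cfsg.Agent.S3269
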