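import Cfsg.Statements.S3276
import Mathlib
import Cfsg.Agent.Lib.Invol.Dihedral

set_option autoImplicit false
open Cfsg

namespace Cfsg.Agent.S3276

/-- Let x and y be commuting, non-conjugate involutions of a finite group G, and suppose that for every involution u commuting with x, each conjugate of y that commutes with u also commutes with y. Then the normal closure of y is a proper, normal, elementary abelian 2-subgroup of G; and if y is the only involution of that normal closure commuting with x, it has order at most 4. -/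
theorem result {G : Type*} [Group G] [Finite G] (x y : G) (hx : orderOf x = 2) (hy : orderOf y = 2)
    (hxy : Commute x y) (hnc : ¬ IsConj x y)
    (hstar : ∀ u : G, orderOf u = 2 → Commute u x → ∀ g : G, Commute (g * y * g⁻¹) u → Commute (g * y * g⁻¹) y) :
    Subgroup.normalClosure ({y} : Set G) ≠ ⊤ ∧ Cfsg.IsElementaryAbelian 2 (Subgroup.normalClosure ({y} : Set G)) ∧
      ((∀ u ∈ Subgroup.normalClosure ({y} : Set G), orderOf u = 2 → Commute u x → u = y) →
        Nat.card ↥(Subgroup.normalClosure ({y} : Set G)) ≤ 4) := by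
  have hxx := H9.mul_self_of_orderOf_two hx
  have hyy := H9.mul_self_of_orderOf_two hy
  have key : ∀ g : G, Commute (g * y * g⁻¹) y := by
    intro g
    have h2 : (g * y * g⁻¹) * (g * y * g⁻¹) = 1 := by
      calc (g * y * g⁻¹) * (g * y * g⁻¹) = g * (y * y) * g⁻¹ := by group
        _ = 1 := by rw [hyy]; group
    have hnc' : ¬ IsConj x (g * y * g⁻¹) := fun h =>
      hnc (h.trans (isConj_iff.2 ⟨g, rfl⟩ : IsConj y (g * y * g⁻¹)).symm)
    obtain ⟨u, hu, hux, huy⟩ := H9.exists_involution_commute_of_not_isConj hxx h2 hnc'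
    exact hstar u hu hux g huy.symm
  have key2 : ∀ g h : G, Commute (g * y * g⁻¹) (h * y * h⁻¹) := by
    intro g h
    have := (key (h⁻¹ * g)).map (MulAut.conj h)
    simp only [MulAut.conj_apply] at this
    convert this using 1
    group
  set N := Subgroup.normalClosure ({y} : Set G) with hN
  have hgen : ∀ a ∈ Group.conjugatesOfSet ({y} : Set G), ∃ g : G, a = g * y * g⁻¹ := by
    intro a ha
    obtain ⟨b, hb, hab⟩ := Group.mem_conjugatesOfSet_iff.1 ha
    rw [Set.mem_singleton_iff] at hb
    subst hb
    obtain ⟨g, hg⟩ := isConj_iff.1 hab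
    exact ⟨g, hg.symm⟩
  have hcomm : ∀ a ∈ N, ∀ b ∈ N, a * b = b * a := by
    intro a ha b hb
    refine Subgroup.closure_induction₂ (p := fun a b _ _ => Commute a b) ?_ ?_ ?_ ?_ ?_ ?_ ?_ ha hb
    · intro a b ha hb
      obtain ⟨g, rfl⟩ := hgen a ha
      obtain ⟨h, rfl⟩ := hgen b hb
      exact key2 g h
    · intro a _; exact Commute.one_left a
    · intro a _; exact Commute.one_right a
    · intro a b c _ _ _ h1 h2; exact h1.mul_left h2
    · intro a b c _ _ _ h1 h2; exact h1.mul_right h2
    · intro a b _ _ h; exact h.inv_left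
    · intro a b _ _ h; exact h.inv_right
  have hsq : ∀ a ∈ N, a * a = 1 := by
    intro a ha
    refine Subgroup.closure_induction (p := fun a _ => a * a = 1) ?_ ?_ ?_ ?_ ha
    · intro a ha
      obtain ⟨g, rfl⟩ := hgen a ha
      calc (g * y * g⁻¹) * (g * y * g⁻¹) = g * (y * y) * g⁻¹ := by group
        _ = 1 := by rw [hyy]; group
    · simp
    · intro a b ha hb h1 h2
      calc a * b * (a * b) = a * (b * a) * b := by group
        _ = a * (a * b) * b := by rw [hcomm a ha b hb]
        _ = (a * a) * (b * b) := by group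
        _ = 1 := by rw [h1, h2, one_mul]
    · intro a _ h
      rw [← mul_inv_rev, h, inv_one]
  have hci : IsMulCommutative N := ⟨⟨fun a b => Subtype.ext (hcomm a a.2 b b.2)⟩⟩
  refine ⟨?_, ⟨hci, fun a ha => by rw [pow_two, hsq a ha]⟩, ?_⟩
  · intro htop
    have hc : ∀ a b : G, a * b = b * a := fun a b =>
      hcomm a (htop ▸ Subgroup.mem_top a) b (htop ▸ Subgroup.mem_top b)
    have hle : N ≤ Subgroup.zpowers y := by
      have : (Subgroup.zpowers y).Normal := ⟨fun n hn g => by
        rw [hc g n]; simpa using hn⟩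
      exact Subgroup.normalClosure_le_normal (by simp)
    have hxm : x ∈ Subgroup.zpowers y := hle (htop ▸ Subgroup.mem_top x)
    obtain ⟨_, h⟩ := H9.eq_pow_half_of_mem_zpowers hx hxm
    rw [hy] at h
    apply hnc
    rw [h]
    exact isConj_iff.2 ⟨1, by simp⟩
  · intro huniq
    have hNn : N.Normal := Subgroup.normalClosure_normal
    have hxi : x⁻¹ = x := H9.inv_eq_of_orderOf_two hx
    let φ : N →* N := MonoidHom.mk' (fun n => ⟨n * (x * n * x⁻¹),
        N.mul_mem n.2 (hNn.conj_mem _ n.2 x)⟩) (by
      intro a b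
      apply Subtype.ext
      change (a : G) * b * (x * (a * b) * x⁻¹) = a * (x * a * x⁻¹) * (b * (x * b * x⁻¹))
      have := hcomm b b.2 _ (hNn.conj_mem _ a.2 x)
      calc (a : G) * b * (x * (a * b) * x⁻¹) = a * (b * (x * a * x⁻¹)) * (x * b * x⁻¹) := by group
        _ = _ := by rw [this]; group)
    have hsmall : ∀ K : Subgroup N, (∀ k ∈ K, Commute (k : G) x) → Nat.card K ≤ 2 := by
      intro K hK
      have : ∀ k : K, ((k : N) : G) ∈ ({1, y} : Set G) := by
        intro k
        by_cases h1 : ((k : N) : G) = 1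
        · left; exact h1
        · right
          exact huniq _ (k : N).2 (H9.orderOf_eq_two_of_mul_self h1 (hsq _ (k : N).2)) (hK _ k.2)
      calc Nat.card K ≤ Nat.card ({1, y} : Set G) :=
            Nat.card_le_card_of_injective (fun k : K => (⟨_, this k⟩ : ({1, y} : Set G)))
              (fun a b h => Subtype.ext (Subtype.ext (Subtype.mk.inj h)))
        _ ≤ 2 := by
          rw [Nat.card_coe_set_eq]
          exact (Set.ncard_insert_le _ _).trans (by simp)
    have h1 : Nat.card φ.ker ≤ 2 := hsmall _ (by
      intro k hk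
      have h : (k : G) * (x * k * x⁻¹) = 1 := congrArg Subtype.val (MonoidHom.mem_ker.1 hk)
      have h' : x * k * x⁻¹ = k := by
        have := hsq k k.2
        exact mul_left_cancel (h.trans this.symm)
      change (k : G) * x = x * k
      conv_lhs => rw [← h']
      group)
    have h2 : Nat.card φ.range ≤ 2 := hsmall _ (by
      rintro _ ⟨n, rfl⟩
      change ((n : G) * (x * n * x⁻¹)) * x = x * (n * (x * n * x⁻¹))
      have := hcomm n n.2 _ (hNn.conj_mem _ n.2 x)
      conv_rhs => rw [this]
      rw [hxi]
      calc (n : G) * (x * n * x) * x = n * x * n * (x * x) := by group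
        _ = (x * x) * n * x * n := by rw [hxx]; group
        _ = _ := by group)
    have h3 := φ.ker.card_mul_index
    rw [Subgroup.index_ker] at h3
    rw [← h3]
    calc Nat.card φ.ker * Nat.card φ.range ≤ 2 * 2 := Nat.mul_le_mul h1 h2
      _ = 4 := rfl

end Cfsg.Agent.S3276
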