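import Cfsg.Statements.S3279
import Cfsg.Agent.Base
import Cfsg.Agent.Lib.Invol.Dihedral
import Cfsg.Agent.Lib.PGroup.Basic
import Cfsg.Agent.S3276
import Cfsg.Agent.S0215

set_option autoImplicit false
open Cfsg

namespace Cfsg.Agent.S3279

/-- At most three involutions commute with `x`. -/
def Tri {G : Type*} [Group G] (x : G) : Prop :=
  ∀ y u : G, orderOf y = 2 → Commute y x → y ≠ x → orderOf u = 2 → Commute u x →
    u = x ∨ u = y ∨ u = x * y

theorem tri_of_card {G : Type*} [Group G] [Finite G] (x : G) (hx : orderOf x = 2)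
    (h3 : Nat.card {u : ↥(Subgroup.centralizer ({x} : Set G)) // orderOf u = 2} ≤ 3) : Tri x := by
  intro y u hy hyx hne hu hux
  by_contra hcon
  push Not at hcon
  obtain ⟨h1, h2, h4⟩ := hcon
  have hxx := H9.mul_self_of_orderOf_two hx
  have hyy := H9.mul_self_of_orderOf_two hy
  have hxy1 : x * y ≠ 1 := by
    intro h
    apply hne
    calc y = (x * x) * y := by rw [hxx, one_mul]
      _ = x := by rw [mul_assoc, h, mul_one]
  have hxy : orderOf (x * y) = 2 := by
    apply H9.orderOf_eq_two_of_mul_self hxy1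
    calc x * y * (x * y) = x * (y * x) * y := by group
      _ = (x * x) * (y * y) := by rw [hyx.eq]; group
      _ = 1 := by rw [hxx, hyy, one_mul]
  let f : {u : ↥(Subgroup.centralizer ({x} : Set G)) // orderOf u = 2} → G := fun a => a.1.1
  have hf : Function.Injective f := fun a b h => Subtype.ext (Subtype.ext h)
  have hsub : ({x, y, x * y, u} : Set G) ⊆ Set.range f := by
    have mk : ∀ a : G, orderOf a = 2 → Commute a x → a ∈ Set.range f := fun a ha hax =>
      ⟨⟨⟨a, Subgroup.mem_centralizer_singleton_iff.2 hax.eq⟩, by rw [← ha, Subgroup.orderOf_mk]⟩,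
        rfl⟩
    intro a ha
    simp only [Set.mem_insert_iff, Set.mem_singleton_iff] at ha
    rcases ha with rfl | rfl | rfl | rfl
    · exact mk _ hx (Commute.refl _)
    · exact mk _ hy hyx
    · exact mk _ hxy ((Commute.refl x).mul_left hyx)
    · exact mk _ hu hux
  have hc : ({x, y, x * y, u} : Set G).ncard = 4 := by
    have e1 : x ≠ x * y := by
      intro h
      exact H9.ne_one_of_orderOf_two hy (mul_left_cancel (a := x) (by rw [← h, mul_one]))
    have e2 : y ≠ x * y := by
      intro h
      exact H9.ne_one_of_orderOf_two hx (mul_right_cancel (b := y) (by rw [← h, one_mul]))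
    rw [Set.ncard_insert_of_notMem, Set.ncard_insert_of_notMem, Set.ncard_pair h4.symm]
    · simp [e2, h2.symm]
    · simp [e1, h1.symm, hne.symm]
  have := Set.ncard_le_ncard hsub
  rw [hc, Set.ncard_range_of_injective hf] at this
  omega

theorem Tri.conj {G : Type*} [Group G] {x : G} (h : Tri x) (g : G) : Tri (g * x * g⁻¹) := by
  intro y u hy hyx hne hu hux
  have e : ∀ a : G, Commute a (g * x * g⁻¹) → Commute (g⁻¹ * a * g) x := by
    intro a ha
    have := ha.map (MulAut.conj g⁻¹)
    simpa [mul_assoc] using this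
  rcases h (g⁻¹ * y * g) (g⁻¹ * u * g) (by rw [H9.orderOf_conj', hy]) (e y hyx)
    (by intro h'; apply hne; rw [← h']; group) (by rw [H9.orderOf_conj', hu]) (e u hux) with
    h' | h' | h'
  · left; rw [← h']; group
  · right; left; simpa using h'
  · right; right
    calc u = g * (g⁻¹ * u * g) * g⁻¹ := by group
      _ = _ := by rw [h']; group

theorem key {G : Type*} [Group G] [Finite G] [IsSimpleGroup G] {x y : G} (hx : orderOf x = 2)
    (h : Tri x) (hy : orderOf y = 2) (hyx : Commute y x) (hnc : ¬ IsConj x y)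
    (hc : IsConj x (x * y)) : False := by
  have hne : y ≠ x := by
    rintro rfl
    exact hnc (IsConj.refl _)
  obtain ⟨h1, -, -⟩ := Cfsg.Agent.S3276.result x y hx hy hyx.symm hnc (by
    intro u hu hux g hg
    have hy' : orderOf (g * y * g⁻¹) = 2 := by rw [H9.orderOf_conj, hy]
    rcases h y u hy hyx hne hu hux with rfl | rfl | rfl
    · rcases h y _ hy hyx hne hy' hg with h' | h' | h' <;> rw [h']
      · exact hyx.symm
      · exact hyx.symm.mul_left (Commute.refl _)
    · exact hg
    · obtain ⟨c, hc⟩ := isConj_iff.1 hc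
      have h2 := h.conj c
      rw [hc] at h2
      have hxne : x ≠ x * y := by
        intro h
        exact H9.ne_one_of_orderOf_two hy (mul_left_cancel (a := x) (by rw [← h, mul_one]))
      have hcm : Commute (x * y) y := hyx.symm.mul_left (Commute.refl _)
      rcases h2 x _ hx hux.symm hxne hy' hg with h' | h' | h' <;> rw [h']
      · exact hcm
      · exact hyx.symm
      · exact hcm.mul_left hyx.symm)
  rcases (Subgroup.normalClosure_normal (s := ({y} : Set G))).eq_bot_or_eq_top with h2 | h2
  · have : y ∈ Subgroup.normalClosure ({y} : Set G) := Subgroup.subset_normalClosure rfl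
    rw [h2] at this
    exact H9.ne_one_of_orderOf_two hy this
  · exact h1 h2

/-- Let G be a finite simple group and x an involution of G whose centralizer contains at most three involutions. Then C_G(x) contains a Sylow 2-subgroup of G, and all involutions of G are conjugate. -/
theorem result {G : Type*} [Group G] [Finite G] [IsSimpleGroup G] (x : G) (hx : orderOf x = 2)
    (h3 : Nat.card {u : ↥(Subgroup.centralizer ({x} : Set G)) // orderOf u = 2} ≤ 3) :
    (∃ S : Sylow 2 G, (S : Subgroup G) ≤ Subgroup.centralizer ({x} : Set G)) ∧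
      ∀ u v : G, orderOf u = 2 → orderOf v = 2 → IsConj u v := by
  have h := tri_of_card x hx h3
  have hxx := H9.mul_self_of_orderOf_two hx
  have part1 : ∃ S : Sylow 2 G, (S : Subgroup G) ≤ Subgroup.centralizer ({x} : Set G) := by
    by_contra hno
    obtain ⟨S, hS⟩ := (H9.isPGroup_zpowers_of_mul_self hxx).exists_le_sylow
    have hxS : x ∈ (S : Subgroup G) := hS (Subgroup.mem_zpowers x)
    obtain ⟨z, hzS, hzc, hz⟩ := H5.exists_mem_centralizer_orderOf_eq S.isPGroup' le_rfl
      Subgroup.le_normalizer (by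
        intro hb
        rw [hb] at hxS
        exact H9.ne_one_of_orderOf_two hx hxS)
    have hzx : Commute z x := (hzc x hxS).symm
    have hnc : ¬ IsConj x z := by
      intro hc
      obtain ⟨c, hc⟩ := isConj_iff.1 hc.symm
      refine hno ⟨c • S, fun s hs => ?_⟩
      rw [Sylow.coe_subgroup_smul] at hs
      obtain ⟨s, hs, rfl⟩ := hs
      rw [Subgroup.mem_centralizer_singleton_iff, ← hc]
      have := hzc s hs
      change c * s * c⁻¹ * (c * z * c⁻¹) = c * z * c⁻¹ * (c * s * c⁻¹)
      calc c * s * c⁻¹ * (c * z * c⁻¹) = c * (s * z) * c⁻¹ := by group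
        _ = _ := by rw [this]; group
    have hzne : z ≠ x := by
      rintro rfl
      exact hnc (IsConj.refl _)
    have hlt : (S : Subgroup G) ⊓ Subgroup.centralizer ({x} : Set G) < S :=
      lt_of_le_of_ne inf_le_left fun h' => hno ⟨S, inf_eq_left.1 h'⟩
    obtain ⟨n, hnS, hnD, -, hnN⟩ := H5.exists_mem_normalizer_of_lt S.isPGroup' hlt
    have hx' := (Subgroup.mem_normalizer_iff.1 hnN x).1
      ⟨hxS, Subgroup.mem_centralizer_singleton_iff.2 rfl⟩
    rcases h z (n * x * n⁻¹) hz hzx hzne (by rw [H9.orderOf_conj, hx])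
      (Subgroup.mem_centralizer_singleton_iff.1 hx'.2) with h' | h' | h'
    · refine hnD ⟨hnS, Subgroup.mem_centralizer_singleton_iff.2 ?_⟩
      conv_rhs => rw [← h']
      group
    · exact hnc (isConj_iff.2 ⟨n, h'⟩)
    · exact key hx h hz hzx hnc (isConj_iff.2 ⟨n, h'⟩)
  refine ⟨part1, ?_⟩
  obtain ⟨S, hS⟩ := part1
  have main : ∀ y : G, orderOf y = 2 → Commute y x → IsConj x y := by
    intro y hy hyx
    by_contra hnc
    have hne : y ≠ x := by
      rintro rfl
      exact hnc (IsConj.refl _)
    have hiso : ∀ g : G, g * x * g⁻¹ ∈ S → g * x * g⁻¹ = x := by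
      intro g hg
      rcases h y (g * x * g⁻¹) hy hyx hne (by rw [H9.orderOf_conj, hx])
        (Subgroup.mem_centralizer_singleton_iff.1 (hS hg)) with h' | h' | h'
      · exact h'
      · exact absurd (isConj_iff.2 ⟨g, h'⟩) hnc
      · exact (key hx h hy hyx hnc (isConj_iff.2 ⟨g, h'⟩)).elim
    have hxS : x ∈ S := by
      obtain ⟨g, hg⟩ := H9.exists_conj_involution_mem_sylow S hxx
      rwa [hiso g hg] at hg
    obtain ⟨N, hN, hodd, hcm⟩ := Cfsg.Agent.S0215.result S x hx hxS hiso
    rcases hN.eq_bot_or_eq_top with rfl | rfl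
    · have hc : ∀ g : G, g * x * g⁻¹ = x := by
        intro g
        have := Subgroup.mem_bot.1 (hcm g)
        calc g * x * g⁻¹ = (x * g * x⁻¹ * g⁻¹) * (g * x * g⁻¹) := by rw [this, one_mul]
          _ = x := by group
      have hn : (Subgroup.zpowers x).Normal := ⟨by
        rintro _ ⟨k, rfl⟩ g
        refine ⟨k, ?_⟩
        change x ^ k = g * x ^ k * g⁻¹
        rw [← conj_zpow, hc g]⟩
      rcases hn.eq_bot_or_eq_top with h2 | h2
      · exact H9.ne_one_of_orderOf_two hx (Subgroup.zpowers_eq_bot.1 h2)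
      · obtain ⟨-, h4⟩ := H9.eq_pow_half_of_mem_zpowers (c := x) hy (h2 ▸ Subgroup.mem_top y)
        rw [hx] at h4
        exact hne (by simpa using h4)
    · exact (H9.odd_card_iff_forall_orderOf_ne_two _).1 hodd x (Subgroup.mem_top x) hx
  have all : ∀ u : G, orderOf u = 2 → IsConj x u := by
    intro u hu
    obtain ⟨g, hg⟩ := H9.exists_conj_involution_mem_sylow S (H9.mul_self_of_orderOf_two hu)
    exact (main _ (by rw [H9.orderOf_conj, hu])
      (Subgroup.mem_centralizer_singleton_iff.1 (hS hg))).trans (isConj_iff.2 ⟨g, rfl⟩ : IsConj u _).symm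
  intro u v hu hv
  exact (all u hu).symm.trans (all v hv)

end Cfsg.Agent.S3279
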