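import Cfsg.Statements.S3282
import Cfsg.Agent.Lib.Small36.BSWMain

set_option autoImplicit false
open Cfsg

namespace Cfsg.Agent.S3282

/-- The abstract form of the Brauer–Suzuki–Wall Theorem. Let G be a finite group with an involution t and an abelian subgroup K of H = C_G(t) containing t, such that H = K⟨s⟩ for an involution s ∉ K with C_K(s) = ⟨t⟩ and s inverting every element of K, K ∩ K^g = 1 for every g outside H, and all involutions of G conjugate. Then G has a subgroup Q, of order q say, with |G| = q(q+1)(q−1)/2, C_G(x) = Q for every non-identity x ∈ Q, N_G(Q) = QD for an abelian subgroup D of order (q−1)/2 meeting Q trivially, and for every nontrivial subgroup X of D, N_G(X) = N_G(D) = D⟨u⟩ for some involution u ∉ D inverting D. -/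
theorem result {G : Type*} [Group G] [Finite G] (t : G) (ht : orderOf t = 2)
    (K : Subgroup G) (hKab : IsMulCommutative ↥K) (hKH : K ≤ Subgroup.centralizer ({t} : Set G)) (htK : t ∈ K)
    (s : G) (hs : orderOf s = 2) (hsH : s ∈ Subgroup.centralizer ({t} : Set G)) (hsK : s ∉ K)
    (hH : K ⊔ Subgroup.zpowers s = Subgroup.centralizer ({t} : Set G)) (hCK : K ⊓ Subgroup.centralizer ({s} : Set G) = Subgroup.zpowers t)
    (hinv : ∀ x ∈ K, s * x * s⁻¹ = x⁻¹)
    (hTI : ∀ g : G, g ∉ Subgroup.centralizer ({t} : Set G) → K ⊓ K.map (MulAut.conj g).toMonoidHom = ⊥)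
    (hconj : ∀ x y : G, orderOf x = 2 → orderOf y = 2 → IsConj x y) :
    ∃ Q D : Subgroup G, 2 * Nat.card G = Nat.card ↥Q * (Nat.card ↥Q + 1) * (Nat.card ↥Q - 1) ∧
      (∀ x ∈ Q, x ≠ 1 → Subgroup.centralizer ({x} : Set G) = Q) ∧
      IsMulCommutative ↥D ∧ 2 * Nat.card ↥D + 1 = Nat.card ↥Q ∧ Q ⊓ D = ⊥ ∧
      Subgroup.normalizer (Q : Set G) = Q ⊔ D ∧
      ∀ X : Subgroup G, X ≤ D → X ≠ ⊥ →
        Subgroup.normalizer (X : Set G) = Subgroup.normalizer (D : Set G) ∧
        ∃ u : G, orderOf u = 2 ∧ u ∉ D ∧ (∀ d ∈ D, u * d * u⁻¹ = d⁻¹) ∧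
          Subgroup.normalizer (D : Set G) = D ⊔ Subgroup.zpowers u := by
  have hst : s * t = t * s := H36.mem_cent.1 hsH
  have hs2 : s * s = 1 := by rw [← sq, ← hs, pow_orderOf_eq_one]
  have ht2 : t * t = 1 := by rw [← sq, ← ht, pow_orderOf_eq_one]
  have hB : H36.BSW t K s := by
    refine ⟨ht2, ?_, fun a ha b hb => congrArg Subtype.val (hKab.is_comm.comm (⟨a, ha⟩ : K) ⟨b, hb⟩),
      htK, hs2, hsK, ?_, hinv, ?_, ?_, ?_⟩
    · rintro rfl
      rw [orderOf_one] at ht
      omega
    · intro g hg
      let M : Subgroup G :=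
        { carrier := {g | g ∈ K ∨ g * s ∈ K}
          one_mem' := Or.inl K.one_mem
          mul_mem' := by
            rintro a b (ha | ha) (hb | hb)
            · exact Or.inl (K.mul_mem ha hb)
            · exact Or.inr (by rw [mul_assoc]; exact K.mul_mem ha hb)
            · right
              have : a * b * s = (a * s) * (s * b * s⁻¹) * (s * s) := by
                calc a * b * s = a * (s * s) * b * s := by rw [hs2, mul_one]
                  _ = _ := by group
              rw [this, hinv b hb, hs2, mul_one]
              exact K.mul_mem ha (K.inv_mem hb)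
            · left
              have : a * b = (a * s) * (s * (b * s) * s⁻¹) := by
                calc a * b = a * (s * s) * b := by rw [hs2, mul_one]
                  _ = _ := by group
              rw [this, hinv _ hb]
              exact K.mul_mem ha (K.inv_mem hb)
          inv_mem' := by
            rintro a (ha | ha)
            · exact Or.inl (K.inv_mem ha)
            · right
              have : a⁻¹ * s = s * (a * s)⁻¹ * s⁻¹ * (s * s) * (s * s)⁻¹ * (s * s) *
                  (s * s)⁻¹ * (s * s) := by group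
              rw [this, hinv _ (K.inv_mem ha), hs2]
              simpa using ha }
      have hle : K ⊔ Subgroup.zpowers s ≤ M :=
        sup_le (fun a ha => Or.inl ha) (Subgroup.zpowers_le_of_mem
          (Or.inr (by rw [hs2]; exact K.one_mem)))
      exact hle (hH ▸ H36.mem_cent.2 hg)
    · intro x hx h2
      have h3 : x ∈ Subgroup.zpowers t := by
        rw [← hCK]
        refine ⟨hx, H36.mem_cent.2 ?_⟩
        have := hinv x hx
        rw [inv_eq_of_mul_eq_one_right h2] at this
        calc x * s = s * x * s⁻¹ * s := by rw [this]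
          _ = _ := by group
      obtain ⟨n, rfl⟩ := h3
      rcases Int.even_or_odd' n with ⟨m, rfl | rfl⟩
      · left
        simp only [zpow_mul, zpow_ofNat, sq, ht2, one_zpow]
      · right
        simp only [zpow_add, zpow_mul, zpow_ofNat, sq, ht2, one_zpow, one_mul, pow_one]
    · intro g x hx hx1 h2
      by_contra h3
      have h4 := hTI g (fun h5 => h3 (H36.mem_cent.1 h5))
      have h5 : g * x * g⁻¹ ∈ K ⊓ K.map (MulAut.conj g).toMonoidHom := ⟨h2, x, hx, rfl⟩
      rw [h4, Subgroup.mem_bot] at h5
      exact hx1 (by simpa using h5)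
    · intro x h1 h2
      exact hconj t x ht (orderOf_eq_prime (by rw [sq, h1]) h2)
  exact hB.concl

end Cfsg.Agent.S3282
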