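import Cfsg.Statements.S3299
import Cfsg.Agent.Lib.Misc92.Smith
-- import your own Cfsg.Agent.* helpers here

set_option autoImplicit false
open Cfsg

namespace Cfsg.Agent.S3299

/-- Let G be a finite group with no nontrivial 2-group quotient (O^2(G) = G), z an involution of G with H = C_G(z), and suppose E = O_2(H) is extraspecial with C_G(E) ≤ E and of order 2^(2n+1) with n ≥ 2. Then E is contained in every normal subgroup of H of index 2. -/
theorem result {G : Type*} [Group G] [Finite G] (hres : Cfsg.pResidual 2 G = ⊤) (z : G) (hz : orderOf z = 2)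
    (E : Subgroup G) (hE : E = (Cfsg.pCore 2 ↥(Subgroup.centralizer ({z} : Set G))).map (Subgroup.centralizer ({z} : Set G)).subtype)
    (hext : Cfsg.IsExtraspecial 2 ↥E) (hcent : Subgroup.centralizer (E : Set G) ≤ E) (n : ℕ) (hn : 2 ≤ n) (hcard : Nat.card ↥E = 2 ^ (2 * n + 1))
    (K : Subgroup G) (hKH : K ≤ Subgroup.centralizer ({z} : Set G))
    (hKn : ∀ h ∈ Subgroup.centralizer ({z} : Set G), K.map (MulAut.conj h).toMonoidHom = K)
    (hKi : K.relIndex (Subgroup.centralizer ({z} : Set G)) = 2) : E ≤ K := by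
  have h := H92.Smith.L3_of_pCore hz hE hext hcent
  obtain ⟨l, hl, hK⟩ := H92.Smith.exists_sign hKi
  have h8 : 8 < Nat.card E := by
    rw [hcard]
    calc 8 < 2 ^ 5 := by norm_num
      _ ≤ _ := Nat.pow_le_pow_right (by norm_num) (by omega)
  have := H92.Smith.core h hres Int.units_mul_self hl h.isPGroup le_rfl h.central
    fun r s hs hsz hc => by
      have hss : s * s = 1 := by
        rw [← hs, show r * z * r⁻¹ * (r * z * r⁻¹) = r * (z * z) * r⁻¹ by group, h.sq]; group
      have hs1 : s ≠ 1 := fun e => h.ne_one (by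
        rw [show z = r⁻¹ * (r * z * r⁻¹) * r by group, hs, e]; group)
      refine Or.inr (Or.inr (Or.inr ⟨le_rfl, ?_⟩))
      rcases H92.Smith.four_le_or_mem h hc hss hs1 hsz with h1 | h1
      · exact Or.inr h1
      · obtain ⟨x, -, h2, h3⟩ := h.exists_sq_root h8 h1 hss
        have h4 := H92.Smith.conj_comm hs h2
        left
        rw [show r⁻¹ * z * r = (r⁻¹ * x * r) * (r⁻¹ * x * r) by rw [← h3]; group, hl _ h4 _ h4,
          Int.units_mul_self]
  exact fun e he => (hK e (h.central e he)).1 (this e he)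

end Cfsg.Agent.S3299
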