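import Cfsg.Statements.S3301
import Cfsg.Agent.Lib.Misc92.Smith
-- import your own Cfsg.Agent.* helpers here

set_option autoImplicit false
open Cfsg

namespace Cfsg.Agent.S3301

/-- Let G be a finite group with no nontrivial 2-group quotient (O^2(G) = G), z an involution of G with H = C_G(z), and suppose E = O_2(H) is extraspecial with C_G(E) ≤ E. Then the Sylow 2-subgroups of H/[H, H] are elementary abelian: every element of 2-power order of the abelianization of H has order at most 2. -/
theorem result {G : Type*} [Group G] [Finite G] (hres : Cfsg.pResidual 2 G = ⊤) (z : G) (hz : orderOf z = 2)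
    (E : Subgroup G) (hE : E = (Cfsg.pCore 2 ↥(Subgroup.centralizer ({z} : Set G))).map (Subgroup.centralizer ({z} : Set G)).subtype)
    (hext : Cfsg.IsExtraspecial 2 ↥E) (hcent : Subgroup.centralizer (E : Set G) ≤ E) :
    ∀ q : Abelianization ↥(Subgroup.centralizer ({z} : Set G)), (∃ k : ℕ, orderOf q = 2 ^ k) → q ^ 2 = 1 := by
  have h := H92.Smith.L3_of_pCore hz hE hext hcent
  obtain ⟨S, hES, hSz⟩ := H92.Smith.exists_sylow h
  classical
  set H := Subgroup.centralizer ({z} : Set G) with hH
  let N : Subgroup (Abelianization H) :=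
    ((powMonoidHom 4 : Abelianization H →* Abelianization H).range).comap (powMonoidHom 2)
  have hN : ∀ b : Abelianization H, b ∈ N ↔ ∃ c, c ^ 4 = b ^ 2 := fun b => Iff.rfl
  let l0 : G → Abelianization H := fun g => if hg : g ∈ H then Abelianization.of ⟨g, hg⟩ else 1
  have hl0 : ∀ g (hg : g * z = z * g), l0 g = Abelianization.of ⟨g, H95.mem_cent_iff.2 hg⟩ :=
    fun g hg => dif_pos (H95.mem_cent_iff.2 hg)
  have hmul0 : ∀ a, a * z = z * a → ∀ b, b * z = z * b → l0 (a * b) = l0 a * l0 b :=
    fun a ha b hb => by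
      rw [hl0 a ha, hl0 b hb, ← map_mul]
      exact hl0 _ (by rw [mul_assoc, hb, ← mul_assoc, ha, mul_assoc])
  have hl01 : l0 1 = 1 := by rw [hl0 1 (by simp)]; exact map_one _
  let l : G → Abelianization H ⧸ N := fun g => (l0 g : Abelianization H ⧸ N)
  have hl : ∀ a, a * z = z * a → ∀ b, b * z = z * b → l (a * b) = l a * l b :=
    fun a ha b hb => by simp only [l, hmul0 a ha b hb, QuotientGroup.mk_mul]
  have hA : ∀ a : Abelianization H ⧸ N, a * a = 1 := fun a => by
    obtain ⟨a, rfl⟩ := QuotientGroup.mk_surjective a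
    rw [← QuotientGroup.mk_mul, QuotientGroup.eq_one_iff, hN]
    exact ⟨a, by rw [← pow_two, ← pow_mul]⟩
  have hl1 : ∀ a, a * z = z * a → l0 (a * a) = 1 → l a = 1 := fun a ha e => by
    refine (QuotientGroup.eq_one_iff _).2 ((hN _).2 ⟨1, ?_⟩)
    rw [one_pow, pow_two, ← hmul0 a ha a ha, e]
  have key := H92.Smith.core h hres hA hl S.isPGroup' hES hSz
    fun r s hs hsz hc => by
      have hss : s * s = 1 := by
        rw [← hs, show r * z * r⁻¹ * (r * z * r⁻¹) = r * (z * z) * r⁻¹ by group, h.sq]; group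
      have hs1 : s ≠ 1 := fun e => h.ne_one (by
        rw [show z = r⁻¹ * (r * z * r⁻¹) * r by group, hs, e]; group)
      have hinv : ∀ a, a * s = s * a → a * a = 1 → l (r⁻¹ * a * r) = 1 := fun a ha e =>
        hl1 _ (H92.Smith.conj_comm hs ha) (by
          rw [show r⁻¹ * a * r * (r⁻¹ * a * r) = r⁻¹ * (a * a) * r by group, e, mul_one,
            inv_mul_cancel, hl01])
      rcases H92.Smith.four_le_or_mem h hc hss hs1 hsz with h1 | h1
      · exact Or.inr (Or.inl ⟨hinv z hc.symm h.sq, h1⟩)
      refine Or.inr (Or.inr (Or.inl fun a ha has => ?_))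
      by_cases haa : a * a = 1
      · exact hinv a has haa
      have hb : ∃ b ∈ E, b * s = s * b ∧ b * a ≠ a * b := by
        by_contra hno
        push Not at hno
        rcases h.mem_of_centralizes h1 hss ha hno with e | e | e | e <;> apply haa <;> rw [e]
        · exact mul_one 1
        · exact h.sq
        · exact hss
        · rw [mul_assoc, ← mul_assoc s, hc, mul_assoc, hss, mul_one, h.sq]
      obtain ⟨b, hb, hbs, hne⟩ := hb
      have e1 := (h.comm b hb a ha).resolve_left hne
      have h2 := H92.Smith.conj_comm hs has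
      have h3 := H92.Smith.conj_comm hs hbs
      have h4 := H92.Smith.conj_comm hs hc.symm
      refine hl1 _ h2 ?_
      have e2 : l0 (r⁻¹ * b * r * (r⁻¹ * a * r)) =
          l0 (r⁻¹ * a * r * (r⁻¹ * b * r * (r⁻¹ * z * r))) := by
        congr 1
        calc _ = r⁻¹ * (b * a) * r := by group
          _ = _ := by rw [e1]; group
      rw [hmul0 _ h3 _ h2, hmul0 _ h2 _ (by rw [mul_assoc, h4, ← mul_assoc, h3, mul_assoc]),
        hmul0 _ h3 _ h4, mul_comm, mul_right_inj, left_eq_mul] at e2
      rw [show r⁻¹ * a * r * (r⁻¹ * a * r) = r⁻¹ * (a * a) * r by group,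
        (h.sq_mem ha).resolve_left haa, e2]
  have hSH : (S : Subgroup G) ≤ H := fun g hg => H95.mem_cent_iff.2 (hSz g hg)
  have hNtop : N = ⊤ := by
    let f : H →* Abelianization H ⧸ N := (QuotientGroup.mk' N).comp Abelianization.of
    have hf : Function.Surjective f :=
      (QuotientGroup.mk'_surjective N).comp QuotientGroup.mk_surjective
    have hle : (S : Subgroup G).subgroupOf H ≤ f.ker := fun x hx => by
      have := key x hx
      simp only [l, hl0 x (hSz x hx)] at this
      exact this
    have h1 : N.index ∣ (S : Subgroup G).index := by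
      refine Dvd.dvd.trans ?_ (Subgroup.relIndex_dvd_index_of_le hSH)
      refine Dvd.dvd.trans ?_ (Subgroup.index_dvd_of_le hle)
      rw [Subgroup.index_ker, MonoidHom.range_eq_top.2 hf, Subgroup.card_top]
      exact dvd_rfl
    obtain ⟨k, hk⟩ := IsPGroup.iff_card.1
      (show IsPGroup 2 (Abelianization H ⧸ N) from fun e => ⟨1, by simpa [pow_two] using hA e⟩)
    rcases k with _ | k
    · exact Subgroup.index_eq_one.1 hk
    · refine absurd (Dvd.dvd.trans ?_ h1) S.not_dvd_index
      rw [Subgroup.index, hk]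
      exact dvd_pow_self 2 k.succ_ne_zero
  have hall : ∀ j : ℕ, ∀ b : Abelianization H, ∃ c, c ^ 2 ^ (j + 1) = b ^ 2 := by
    intro j
    induction j with
    | zero => exact fun b => ⟨b, by simp⟩
    | succ j ih =>
      intro b
      obtain ⟨c, hc⟩ := ih b
      obtain ⟨d, hd⟩ := (hN c).1 (hNtop ▸ Subgroup.mem_top c)
      refine ⟨d, ?_⟩
      rw [← hc, pow_succ' 2 j, pow_mul c, ← hd, ← pow_mul]
      congr 1
      ring
  rintro q ⟨k, hk⟩
  obtain ⟨j, m, hm, e⟩ := Nat.exists_eq_two_pow_mul_odd (n := Nat.card (Abelianization H))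
    Nat.card_pos.ne'
  obtain ⟨c, hc⟩ := hall j q
  have h1 : (q ^ 2) ^ m = 1 := by
    rw [← hc, ← pow_mul, pow_succ, mul_right_comm, ← e, pow_mul, pow_card_eq_one', one_pow]
  have h2 : (q ^ 2) ^ 2 ^ k = 1 := by
    rw [← pow_mul, mul_comm, pow_mul, ← hk, pow_orderOf_eq_one, one_pow]
  have h3 : Nat.Coprime m (2 ^ k) := ((Nat.coprime_two_right).2 hm).pow_right k
  have := pow_gcd_eq_one.2 ⟨h1, h2⟩
  rwa [h3, pow_one] at this

end Cfsg.Agent.S3301
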