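import Cfsg.Statements.S3305
import Mathlib
import Cfsg.Agent.Base
import Cfsg.Agent.Lib.BG.Api.Hall

set_option autoImplicit false
open Cfsg

namespace Cfsg.Agent.S3305

open Subgroup H45 H69

/-- If any two distinct Sylow 2-subgroups of the finite group G intersect in a cyclic group, then the same holds in every quotient group G/H, H a normal subgroup of G. -/
theorem result {G : Type*} [Group G] [Finite G]
    (hC : ∀ S T : Sylow 2 G, S ≠ T → IsCyclic ↥((S : Subgroup G) ⊓ (T : Subgroup G))) (H : Subgroup G) [H.Normal] :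
    ∀ S T : Sylow 2 (G ⧸ H), S ≠ T → IsCyclic ↥((S : Subgroup (G ⧸ H)) ⊓ (T : Subgroup (G ⧸ H))) := by
  haveI : Fact (Nat.Prime 2) := ⟨Nat.prime_two⟩
  intro S T hST
  set f := QuotientGroup.mk' H
  have hf : Function.Surjective f := QuotientGroup.mk'_surjective H
  obtain ⟨R, hR⟩ := exists_isSylowIn 2 (((S : Subgroup (G ⧸ H)) ⊓ T).comap f)
  have key : ∀ U : Sylow 2 (G ⧸ H), R ≤ (U : Subgroup (G ⧸ H)).comap f →
      ∃ V : Sylow 2 G, R ≤ V ∧ (V : Subgroup G).map f = U := fun U hU => by
    obtain ⟨V, hV, hRV⟩ := exists_isSylowIn_le hR.isP hU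
    obtain ⟨W, rfl⟩ := (hV.trans_of_not_dvd le_top (by
      rw [Subgroup.relIndex_top_right, Subgroup.index_comap_of_surjective _ hf]
      exact U.not_dvd_index)).exists_sylow_top
    have h1 := hV.map f
    rw [Subgroup.map_comap_eq_self_of_surjective hf] at h1
    exact ⟨W, hRV, (h1.max _ h1.le le_rfl U.isPGroup').symm⟩
  obtain ⟨V, hV, eV⟩ := key S (hR.le.trans (Subgroup.comap_mono inf_le_left))
  obtain ⟨W, hW, eW⟩ := key T (hR.le.trans (Subgroup.comap_mono inf_le_right))
  have hc := cyclicS (hC V W fun e => hST (Sylow.ext (by rw [← eV, ← eW, e]))) (le_inf hV hW)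
  have h1 := hR.map f
  rw [Subgroup.map_comap_eq_self_of_surjective hf] at h1
  rw [h1.max _ h1.le le_rfl S.isPGroup'.to_inf_left]
  exact isCyclic_of_surjective _ (f.subgroupMap_surjective R)

end Cfsg.Agent.S3305
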