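import Cfsg.Statements.S3303
import Mathlib
import Cfsg.Agent.Base
import Cfsg.Agent.S3305
import Cfsg.Agent.Lib.Core.Fitting
import Cfsg.Agent.Lib.InvChar.AutChain

set_option autoImplicit false
open Cfsg

namespace Cfsg.Agent.S3303

open Subgroup H45 H69

/-- Let G be a finite solvable group in which the intersection of any two distinct Sylow 2-subgroups is cyclic. Then G/O(G) has a normal Sylow 2-subgroup, where O(G) is the largest normal subgroup of odd order. -/
theorem result {G : Type*} [Group G] [Finite G] (hs : Group.IsSolvable G)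
    (hC : ∀ S T : Sylow 2 G, S ≠ T → IsCyclic ↥((S : Subgroup G) ⊓ (T : Subgroup G))) :
    ∃ P : Sylow 2 (G ⧸ Cfsg.oddCore G), (P : Subgroup (G ⧸ Cfsg.oddCore G)).Normal := by
  haveI : Fact (Nat.Prime 2) := ⟨Nat.prime_two⟩
  have h := S3305.result hC (oddCore G)
  obtain ⟨P⟩ : Nonempty (Sylow 2 (G ⧸ oddCore G)) := inferInstance
  refine ⟨P, by_contra fun hn => ?_⟩
  obtain ⟨g, hg⟩ : ∃ g : G ⧸ oddCore G, g • P ≠ P := by
    by_contra hc
    push Not at hc
    exact hn (Subgroup.normalizer_eq_top_iff.1 (eq_top_iff.2 fun g _ => Sylow.smul_eq_iff_mem_normalizer.1 (hc g)))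
  have hc := cyclicS (h _ _ hg) (le_inf (H1.pCore_le_sylow _) (H1.pCore_le_sylow _))
  have h1 := H1.centralizer_pCore_le_of_isSolvable (G := G ⧸ oddCore G) (p := 2) H1.pPrimeCore_quotient_pPrimeCore
  have h2 := H72.isPGroup_two_mulAut_of_isCyclic (hc := hc) (H1.isPGroup_pCore (p := 2) (G := G ⧸ oddCore G))
  have h3 : IsPGroup 2 (G ⧸ oddCore G) := fun x => by
    obtain ⟨k, hk⟩ := h2 (MulAut.conjNormal x)
    obtain ⟨l, hl⟩ := isPGroup_iff_mem.1 H1.isPGroup_pCore (x ^ 2 ^ k) (h1 fun y hy => by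
      have := congrArg Subtype.val (DFunLike.congr_fun ((map_pow _ x (2 ^ k)).trans hk) ⟨y, hy⟩)
      exact (mul_inv_eq_iff_eq_mul.1 this).symm)
    exact ⟨k + l, by rw [pow_add, pow_mul, hl]⟩
  exact hn (by rw [← P.is_maximal' (h3.to_subgroup ⊤) le_top]; infer_instance)

end Cfsg.Agent.S3303
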