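import Cfsg.Statements.S3304
import Cfsg.Agent.Lib.TwoGrp.RankOne

set_option autoImplicit false
open Cfsg

namespace Cfsg.Agent.S3304

/-- Let G be a finite solvable group in which the intersection of any two distinct Sylow 2-subgroups has 2-rank at most 1 (contains no Klein four-group). Write Q = G/O(G), O(G) the largest normal subgroup of odd order. Then Q has a normal Sylow 2-subgroup; or Q is isomorphic to GL(2,3); or Q has order 48, centre of order 2 with central quotient isomorphic to the symmetric group of degree 4, and generalized quaternion Sylow 2-subgroups of order 16 (the binary octahedral group). The last two are the two representation groups of the symmetric group of degree 4. -/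
theorem result {G : Type*} [Group G] [Finite G] (hs : Group.IsSolvable G)
    (hI : ∀ S T : Sylow 2 G, S ≠ T → Cfsg.PRankLE 2 1 ↥((S : Subgroup G) ⊓ (T : Subgroup G))) :
    (∃ P : Sylow 2 (G ⧸ Cfsg.oddCore G), (P : Subgroup (G ⧸ Cfsg.oddCore G)).Normal) ∨
    Nonempty ((G ⧸ Cfsg.oddCore G) ≃* GL (Fin 2) (ZMod 3)) ∨
    (Nat.card (G ⧸ Cfsg.oddCore G) = 48 ∧ Nat.card ↥(Subgroup.center (G ⧸ Cfsg.oddCore G)) = 2 ∧
      Nonempty ((G ⧸ Cfsg.oddCore G) ⧸ Subgroup.center (G ⧸ Cfsg.oddCore G) ≃* Equiv.Perm (Fin 4)) ∧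
      ∀ P : Sylow 2 (G ⧸ Cfsg.oddCore G), Nonempty (↥(P : Subgroup (G ⧸ Cfsg.oddCore G)) ≃* QuaternionGroup 4)) := by
  let π := QuotientGroup.mk' (oddCore G)
  have hπ : Function.Surjective π := QuotientGroup.mk'_surjective _
  have hO : oddCore (G ⧸ oddCore G) = ⊥ := H1.pPrimeCore_quotient_pPrimeCore
  by_cases hn : ∃ P : Sylow 2 (G ⧸ oddCore G), (P : Subgroup (G ⧸ oddCore G)).Normal
  · exact Or.inl hn
  -- a Sylow 2-subgroup `T` of the preimage `K` of `O₂`
  let K := (pCore 2 (G ⧸ oddCore G)).comap π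
  obtain ⟨T₀⟩ := (Sylow.nonempty : Nonempty (Sylow 2 K))
  let T := (T₀ : Subgroup K).map K.subtype
  have hT2 : IsPGroup 2 T := T₀.2.map _
  have hfr : Subgroup.normalizer (T : Set G) ⊔ K = ⊤ := T₀.normalizer_sup_eq_top
  have hTπ : T.map π = pCore 2 (G ⧸ oddCore G) := by
    let ρ : K →* pCore 2 (G ⧸ oddCore G) := π.subgroupComap _
    have hρ : Function.Surjective ρ := π.subgroupComap_surjective_of_surjective _ hπ
    have h1 : ((T₀.mapSurjective hρ : Sylow 2 _) : Subgroup (pCore 2 (G ⧸ oddCore G))) = ⊤ :=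
      ((T₀.mapSurjective hρ).3 (H1.isPGroup_pCore.to_subgroup ⊤) le_top).symm
    apply le_antisymm
    · rintro _ ⟨_, ⟨x, -, rfl⟩, rfl⟩; exact x.2
    · intro y hy
      obtain ⟨x, hx, hxy⟩ : (⟨y, hy⟩ : pCore 2 (G ⧸ oddCore G)) ∈ (T₀ : Subgroup K).map ρ := by
        have : (T₀ : Subgroup K).map ρ = ⊤ := h1
        rw [this]; trivial
      exact ⟨x, ⟨x, hx, rfl⟩, congrArg Subtype.val hxy⟩
  let N := Subgroup.normalizer (T : Set G)
  have hTN : T ≤ N := Subgroup.le_normalizer
  have hNπ : Function.Surjective (π.comp N.subtype) := by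
    rw [← MonoidHom.range_eq_top, MonoidHom.range_comp, Subgroup.range_subtype, eq_top_iff,
      ← Subgroup.map_top_of_surjective π hπ, ← hfr, Subgroup.map_sup, sup_le_iff]
    refine ⟨le_rfl, ?_⟩
    rw [Subgroup.map_comap_eq_self_of_surjective hπ, ← hTπ]
    exact Subgroup.map_mono hTN
  obtain ⟨S⟩ := (Sylow.nonempty : Nonempty (Sylow 2 N))
  obtain ⟨S', hS'⟩ : ∃ S' : Sylow 2 N, S' ≠ S := by
    by_contra hh
    push Not at hh
    haveI : Unique (Sylow 2 N) := ⟨⟨S⟩, hh⟩
    haveI := S.normal_of_subsingleton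
    exact hn ⟨S.mapSurjective hNπ, Subgroup.Normal.map inferInstance _ hNπ⟩
  obtain ⟨P, hP⟩ := S.exists_comap_subtype_eq
  obtain ⟨P', hP'⟩ := S'.exists_comap_subtype_eq
  have hPP : P ≠ P' := by
    rintro rfl
    exact hS' (Sylow.ext (hP'.symm.trans hP))
  haveI : (T.subgroupOf N).Normal := Subgroup.normal_in_normalizer
  have hle : ∀ (A : Sylow 2 N) (B : Sylow 2 G), (B : Subgroup G).comap N.subtype = A → T ≤ B := by
    intro A B hAB x hx
    have h0 : IsPGroup 2 (T.subgroupOf N) := hT2.comap_subtype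
    have h1 : T.subgroupOf N ≤ A := h0.le_sylow_of_normal A
    have := h1 (show (⟨x, hTN hx⟩ : N) ∈ T.subgroupOf N from hx)
    rw [← hAB] at this
    exact this
  have hU : H13.TG.UI T :=
    (H13.TG.ui_of_prank (P.2.to_inf_left) (hI P P' hPP)).of_le (le_inf (hle S P hP) (hle S' P' hP'))
  have hinj : Function.Injective (π.comp T.subtype) := by
    rw [injective_iff_map_eq_one]
    intro x hx
    have h1 : (x : G) ∈ T ⊓ pPrimeCore 2 G := ⟨x.2, (QuotientGroup.eq_one_iff _).1 hx⟩
    rw [H1.inf_pPrimeCore_eq_bot hT2] at h1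
    exact Subtype.ext h1
  have hT' : pCore 2 (G ⧸ oddCore G) = (π.comp T.subtype).range := by
    rw [MonoidHom.range_comp, Subgroup.range_subtype, hTπ]
  let e' := (MulEquiv.subgroupCongr hT').trans (MonoidHom.ofInjective hinj).symm
  rcases H13.TG.core_cases hO (hU.of_injective e'.toMonoidHom e'.injective) with h | ⟨⟨f⟩⟩
  · obtain ⟨Q⟩ := (Sylow.nonempty : Nonempty (Sylow 2 (G ⧸ oddCore G)))
    exact Or.inl ⟨Q, by rw [← Q.3 (h.to_subgroup ⊤) le_top]; infer_instance⟩
  · exact H13.TG.q8_cases f (H1.centralizer_pCore_le_of_isSolvable hO)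

end Cfsg.Agent.S3304
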