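import Cfsg.Statements.S3315
import Cfsg.Agent.Lib.TwoGrp.AutSylU

set_option autoImplicit false
open Cfsg

namespace Cfsg.Agent.S3315

open Subgroup

/-- Let S be a Sylow 2-subgroup of SU₃(2ⁿ), n ≥ 2 (realised over the field with 4ⁿ elements). If a finite 2-group R contains a subgroup S' of index 2 isomorphic to S, then the centre of S' is contained in the centre of R. -/
theorem result {R : Type*} [Group R] [Finite R]
    (hR : IsPGroup 2 R) (n : ℕ) (hn : 2 ≤ n) {F : Type*} [Field F] [Fintype F] (hF : Fintype.card F = 4 ^ n)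
    (P : Sylow 2 ↥(Cfsg.SU 3 F (2 ^ n))) (S' : Subgroup R) (hS : Nonempty (↥S' ≃* ↥(P : Subgroup ↥(Cfsg.SU 3 F (2 ^ n)))))
    (hidx : S'.index = 2) :
    (Subgroup.center ↥S').map S'.subtype ≤ Subgroup.center R := by
  have : H11.U.IsSq F (2 ^ n) := ⟨by rw [hF, ← pow_mul, mul_comm, pow_mul]; rfl⟩
  have hF' : Fintype.card F = 2 ^ (2 * n) := by rw [hF, pow_mul]; rfl
  have : CharP F 2 := by
    have h1 := FiniteField.cast_card_eq_zero F
    rw [hF', Nat.cast_pow] at h1
    exact (CharP.charP_iff_prime_eq_zero Nat.prime_two).2 (pow_eq_zero_iff (by omega) |>.1 h1)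
  obtain ⟨e⟩ := hS
  obtain ⟨e'⟩ := H13.TG.AS.equiv_UQ (dvd_pow_self 2 (by omega)) P
  replace e := e.trans e'
  have h := H13.TG.AS.sc_UQ F (2 ^ n)
  have hN : S'.Normal := normal_of_index_eq_two hidx
  rintro _ ⟨z, hz, rfl⟩
  rw [mem_center_iff]
  intro r
  by_cases hr : r ∈ S'
  · exact congrArg Subtype.val (mem_center_iff.1 hz ⟨r, hr⟩)
  have hz0 : (e z).X = 0 := by
    by_contra h0
    obtain ⟨w, hw⟩ := H11.U.exists_cj_ne F (2 ^ n)
    obtain ⟨g, hg⟩ := h.surj ((e z).X * w)
    have h1 : g * e z = e z * g := by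
      rw [← e.apply_symm_apply g, ← map_mul, ← map_mul, mem_center_iff.1 hz]
    rw [H55.SylT.comm_iff, hg, map_mul] at h1
    refine hw (mul_left_cancel₀ (mul_ne_zero h0 (H11.U.cj_ne_zero (q := 2 ^ n).2 h0)) ?_)
    linear_combination h1
  have h2 := H13.TG.AS.fix_center (MulAut.congr e (MulAut.conjNormal r)) (fun g => by
    obtain ⟨g, rfl⟩ := e.surjective g
    have h3 : MulAut.conjNormal r (MulAut.conjNormal r g) = (⟨r * r, mul_self_mem_of_index_two hidx r⟩ : S') * g *
        (⟨r * r, mul_self_mem_of_index_two hidx r⟩ : S')⁻¹ := Subtype.ext (by simp [mul_assoc])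
    simp only [MulAut.congr_apply, MulEquiv.trans_apply, MulEquiv.symm_apply_apply]
    rw [h3, map_mul, map_mul, map_inv, h.conj]) hz0
  simp only [MulAut.congr_apply, MulEquiv.trans_apply, MulEquiv.symm_apply_apply] at h2
  have h3 := congrArg Subtype.val (e.injective h2)
  rw [MulAut.conjNormal_apply] at h3
  exact mul_inv_eq_iff_eq_mul.1 h3

end Cfsg.Agent.S3315
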