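import Cfsg.Statements.S3324
import Mathlib
import Cfsg.Agent.Lib.Hay.Norm

set_option autoImplicit false
open Cfsg

namespace Cfsg.Agent.S3324

/-- Let p be an odd prime and q = pⁿ with q ≡ 3 (mod 4), and let C₀ be the centralizer in PSp(4, q) of an element x of order p lying in the centre of a Sylow p-subgroup. Let G be a finite group with an element α of order p such that C_G(α) ≅ C₀, such that C_G(z) = C_G(α) for every nontrivial z in the centre of C_G(α), and in which not all elements of order p that are central in some Sylow p-subgroup are conjugate. Let P be a Sylow p-subgroup of G contained in C_G(α) (P has order q⁴) and M an elementary abelian subgroup of P of order q³. If N_G(M) does not have a normal Sylow p-subgroup, then M has a complement J in N_G(M) with J isomorphic to PGL(2, q) × C, C cyclic of order (q − 1)/2. -/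
theorem result
    {G : Type*} [Group G] [Finite G] {F : Type*} [Field F] [Fintype F] (p n : ℕ) [Fact p.Prime] (hp : p ≠ 2)
    (hn : 1 ≤ n) (hq4 : p ^ n % 4 = 3) (hF : Fintype.card F = p ^ n)
    (x : Cfsg.PSp 2 F) (hx : orderOf x = p) (Px : Sylow p (Cfsg.PSp 2 F)) (hxP : x ∈ (Px : Subgroup (Cfsg.PSp 2 F)))
    (hxc : ∀ y ∈ (Px : Subgroup (Cfsg.PSp 2 F)), y * x = x * y)
    (α : G) (hα : orderOf α = p)
    (e : ↥(Subgroup.centralizer ({α} : Set G)) ≃* ↥(Subgroup.centralizer ({x} : Set (Cfsg.PSp 2 F))))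
    (hb : ∀ z ∈ Subgroup.centralizer ({α} : Set G), z ≠ 1 → (∀ c ∈ Subgroup.centralizer ({α} : Set G), c * z = z * c) →
      Subgroup.centralizer ({z} : Set G) = Subgroup.centralizer ({α} : Set G))
    (hc : ∃ (u v : G) (Pu Pv : Sylow p G), orderOf u = p ∧ orderOf v = p ∧
      u ∈ (Pu : Subgroup G) ∧ (∀ y ∈ (Pu : Subgroup G), y * u = u * y) ∧
      v ∈ (Pv : Subgroup G) ∧ (∀ y ∈ (Pv : Subgroup G), y * v = v * y) ∧ ∀ g : G, g * u * g⁻¹ ≠ v)
    (P : Sylow p G) (hP : (P : Subgroup G) ≤ Subgroup.centralizer ({α} : Set G))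
    (M : Subgroup G) (hMP : M ≤ P) (hMc : IsMulCommutative ↥M) (hMe : ∀ m ∈ M, m ^ p = 1) (hMcard : Nat.card ↥M = p ^ (3 * n))
    (hnc : ∃ Q R : Sylow p ↥(Subgroup.normalizer (M : Set G)), Q ≠ R) :
    ∃ J : Subgroup G, J ≤ Subgroup.normalizer (M : Set G) ∧ M ⊔ J = Subgroup.normalizer (M : Set G) ∧ M ⊓ J = ⊥ ∧
      Nonempty (↥J ≃* (Matrix.ProjGenLinGroup (Fin 2) F × Multiplicative (ZMod ((p ^ n - 1) / 2)))) := by
  have : CharP F p := charP_of_card_eq_prime_pow hF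
  have h2 := H62.Hay.two_ne_zero_of (F := F) hp
  have hp1 := (Fact.out : p.Prime).one_lt
  have ne1 : ∀ {H : Type _} [Group H] {y : H}, orderOf y = p → y ≠ 1 := fun hy e => by
    rw [e, orderOf_one] at hy; omega
  obtain ⟨e'⟩ := H62.Hay.exists_equiv hp x (fun e => by rw [e, orderOf_one] at hx; omega) Px hxP hxc
  obtain ⟨φ, h, -⟩ := H62.Hay.exists_hy (e'.trans e.symm) (fun z h1 h2 h3 => hb z h2 h1 h3)
  obtain ⟨g, hg⟩ := h.adapt h2 P
  have h' := h.conj g
  generalize (MulAut.conj g).toMonoidHom.comp φ = ψ at hg h'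
  have hM : M = H62.Hay.Mg ψ := h'.ab_eq h2 (hg ▸ hMP)
    (fun x hx y hy => congrArg Subtype.val (hMc.is_comm.comm ⟨x, hx⟩ ⟨y, hy⟩))
    (by rw [hMcard, Nat.card_eq_fintype_card, hF, ← pow_mul, mul_comm])
  subst hM
  have nsq : ¬ IsSquare (-1 : F) := by
    rw [FiniteField.isSquare_neg_one_iff, hF]; simpa using hq4
  obtain ⟨u, v, Pu, Pv, hu, hv, h3, h4, h5, h6, h7⟩ := hc
  have hG := h'.gam nsq (h'.two_classes h2 Pu Pv (ne1 hu) (ne1 hv) h3 h4 h5 h6 h7)
  have hN : ¬ H62.Hay.Ng ψ ≤ Subgroup.normalizer (H62.Hay.Pg ψ : Set G) := by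
    intro hle
    obtain ⟨Q, R, hQR⟩ := hnc
    have hPN : (P : Subgroup G) ≤ H62.Hay.Ng ψ := hg ▸ h'.P_le_N
    have hnorm : ((P.subtype hPN : Sylow p (H62.Hay.Ng ψ)) : Subgroup (H62.Hay.Ng ψ)).Normal := by
      rw [Sylow.coe_subtype, hg]
      exact Subgroup.normal_subgroupOf_of_le_normalizer hle
    have := Sylow.unique_of_normal _ hnorm
    exact hQR (Subsingleton.elim (α := Sylow p (H62.Hay.Ng ψ)) Q R)
  obtain ⟨e1⟩ := hG.exists_equiv (h'.moved (p := p) hN)
  obtain ⟨e2⟩ := H62.Hay.theta_range_equiv nsq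
  obtain ⟨J, h8, h9, h10, ⟨e3⟩⟩ := h'.complement (p := p) h2
  rw [hF] at e2
  exact ⟨J, h8, h9, h10, ⟨e3.trans (e1.trans e2)⟩⟩

end Cfsg.Agent.S3324
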