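import Mathlib
import Cfsg.Statements.S3349
import Cfsg.Agent.Lib.PGroup.Extra

set_option autoImplicit false
open Cfsg

namespace Cfsg.Agent.S3349

/-- Let Q be a finite extraspecial p-group and α an automorphism of Q fixing every element of some maximal abelian subgroup of Q. Then the order of α is a power of p. -/
theorem result {Q : Type*} [Group Q] [Finite Q]
    (p : ℕ) [Fact p.Prime] (hQ : Cfsg.IsExtraspecial p Q) (α : MulAut Q)
    (A : Subgroup Q) (hA : IsMulCommutative A) (hmax : ∀ B : Subgroup Q, A ≤ B → IsMulCommutative B → B = A)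
    (hfix : ∀ a ∈ A, α a = a) :
    ∃ k : ℕ, orderOf α = p ^ k := by
  have hpp : p.Prime := Fact.out
  have hC : Subgroup.centralizer (A : Set Q) ≤ A := fun x hx => by
    rw [← hmax _ le_sup_left (H5.isMulCommutative_sup_zpowers hA hx)]
    exact Subgroup.mem_sup_right (Subgroup.mem_zpowers x)
  obtain ⟨k, m, hm, hk⟩ := Nat.exists_eq_pow_mul_and_not_dvd (orderOf_pos α).ne' p hpp.ne_one
  have h1 : α ^ p ^ k = 1 := by
    refine H5.aut_eq_one_of_centralizer_le hQ.1.1 _ ?_ A hC fun x hx => ?_
    · refine Nat.Coprime.coprime_dvd_left (show _ ∣ m from ?_)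
        ((Nat.Prime.coprime_iff_not_dvd hpp).2 hm).symm
      exact orderOf_dvd_of_pow_eq_one (by rw [← pow_mul, ← hk, pow_orderOf_eq_one])
    · generalize p ^ k = n
      induction n with
      | zero => rfl
      | succ n ih => rw [pow_succ, MulAut.mul_apply, hfix x hx, ih]
  obtain ⟨j, -, hj⟩ := (Nat.dvd_prime_pow hpp).1 (orderOf_dvd_of_pow_eq_one h1)
  exact ⟨j, hj⟩

end Cfsg.Agent.S3349
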