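import Mathlib
import Cfsg.Statements.S3376
import Cfsg.Agent.Lib.PGroup.Basic
import Cfsg.Agent.Lib.Comp.LayerStruct

set_option autoImplicit false
open Cfsg

namespace Cfsg.Agent.S3376

open Subgroup
open scoped commutatorElement

theorem cycleType_eq {σ : Equiv.Perm (Fin 9)} (h3 : σ ^ 3 = 1) (hf : ∀ x, σ x ≠ x) :
    σ.cycleType = Multiset.replicate 3 3 := by
  haveI : Fact (Nat.Prime 3) := ⟨Nat.prime_three⟩
  have h1 := Equiv.Perm.cycleType_of_pow_prime_eq_one h3
  have h2 := σ.sum_cycleType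
  have h4 : σ.support = Finset.univ := Finset.eq_univ_of_forall fun x => Equiv.Perm.mem_support.2 (hf x)
  rw [h4, h1, Multiset.sum_replicate] at h2
  simp at h2
  rw [h1, show σ.cycleType.card = 3 by omega]

theorem final {G : Type*} [Group G] [Finite G] (hG : Nat.card G = 162) (π : G →* Equiv.Perm (Fin 9))
    (hπ : Function.Injective π) (z : G) (hz : ∀ g, g * z = z * g) (h3 : z ^ 3 = 1)
    (hf : ∀ x, π z x ≠ x) (c : Equiv.Perm (Fin 9)) (hc3 : c ^ 3 = 1) (hcf : ∀ x, c x ≠ x) :
    Nonempty (G ≃* centralizer ({c} : Set (Equiv.Perm (Fin 9)))) := by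
  have e1 := cycleType_eq (σ := π z) (by rw [← map_pow, h3, map_one]) hf
  have e2 := cycleType_eq hc3 hcf
  obtain ⟨k, hk⟩ := isConj_iff.1 (Equiv.Perm.isConj_iff_cycleType_eq.2 (e1.trans e2.symm))
  let f : G →* centralizer ({c} : Set (Equiv.Perm (Fin 9))) :=
    ((MulAut.conj k).toMonoidHom.comp π).codRestrict _ fun g => by
      rintro _ rfl
      rw [← hk]
      change k * π z * k⁻¹ * (k * π g * k⁻¹) = k * π g * k⁻¹ * (k * π z * k⁻¹)
      calc k * π z * k⁻¹ * (k * π g * k⁻¹) = k * π (z * g) * k⁻¹ := by rw [map_mul]; group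
        _ = _ := by rw [← hz, map_mul]; group
  have hf : Function.Injective f := fun x y e =>
    hπ ((MulAut.conj k).injective (congrArg Subtype.val e))
  refine ⟨MulEquiv.ofBijective f ((Nat.bijective_iff_injective_and_card f).2 ⟨hf, ?_⟩)⟩
  rw [hG, Equiv.Perm.nat_card_centralizer, e2]
  decide


/-- Let G be a group of order 162 = 3⁴·2 with Sylow 3-subgroup S and Sylow 2-subgroup T, having an elementary abelian normal subgroup J of order 27, such that Z = Z(S) has order 3, Z centralizes T, and C_S(T) ≠ S. Then G is isomorphic to the centralizer in Sym(9) of a product of three disjoint 3-cycles. -/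
theorem result {G : Type*} [Group G] [Finite G] (hG : Nat.card G = 162)
    (S : Sylow 3 G) (T : Sylow 2 G) (J : Subgroup G) [hJn : J.Normal] (hJcomm : IsMulCommutative J)
    (hJexp : ∀ a ∈ J, a ^ 3 = 1) (hJcard : Nat.card J = 27)
    (Z : Subgroup G) (hZ : Z = (S : Subgroup G) ⊓ Subgroup.centralizer ((S : Subgroup G) : Set G)) (hZcard : Nat.card Z = 3)
    (hZT : Z ≤ Subgroup.centralizer ((T : Subgroup G) : Set G))
    (hST : (S : Subgroup G) ⊓ Subgroup.centralizer ((T : Subgroup G) : Set G) ≠ S) :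
    Nonempty (G ≃* Subgroup.centralizer ({Equiv.swap (0 : Fin 9) 1 * Equiv.swap 1 2 * Equiv.swap 3 4 * Equiv.swap 4 5 * Equiv.swap 6 7 * Equiv.swap 7 8} : Set (Equiv.Perm (Fin 9)))) := by
  classical
  haveI : Fact (Nat.Prime 3) := ⟨Nat.prime_three⟩
  have hS : Nat.card (S : Subgroup G) = 81 := by
    rw [S.card_eq_multiplicity, hG, show 162 = 3 ^ 4 * 2 by norm_num,
      Nat.factorization_mul (by norm_num) (by norm_num), Nat.Prime.factorization_pow Nat.prime_three,
      Nat.Prime.factorization Nat.prime_two]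
    simp
  have hT : Nat.card (T : Subgroup G) = 2 := by
    rw [T.card_eq_multiplicity, hG, show 162 = 3 ^ 4 * 2 by norm_num,
      Nat.factorization_mul (by norm_num) (by norm_num), Nat.Prime.factorization_pow Nat.prime_three,
      Nat.Prime.factorization Nat.prime_two]
    simp
  haveI hSn : (S : Subgroup G).Normal := normal_of_index_eq_two (by
    have := (S : Subgroup G).card_mul_index
    rw [hS, hG] at this; omega)
  obtain ⟨t, ht1, ht⟩ := (Nat.card_eq_two_iff' (1 : (T : Subgroup G))).1 hT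
  have hT' : ∀ x ∈ (T : Subgroup G), x = 1 ∨ x = t := fun x hx => by
    by_cases e : (⟨x, hx⟩ : (T : Subgroup G)) = 1
    · exact Or.inl (congrArg Subtype.val e)
    · exact Or.inr (congrArg Subtype.val (ht _ e))
  have ht2 : (t : G) * t = 1 := by
    have := pow_card_eq_one' (x := t)
    rw [hT, sq] at this
    exact congrArg Subtype.val this
  have htS : (t : G) ∉ (S : Subgroup G) := fun h => by
    have h1 := pow_card_eq_one' (x := (⟨t, h⟩ : (S : Subgroup G)))
    rw [hS] at h1
    have h2 : (t : G) ^ 81 = 1 := congrArg Subtype.val h1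
    rw [show 81 = 2 * 40 + 1 by norm_num, pow_succ, pow_mul, sq, ht2, one_pow, one_mul] at h2
    exact ht1 (Subtype.ext h2)
  have hJp : IsPGroup 3 J := IsPGroup.of_card (n := 3) (by rw [hJcard]; norm_num)
  have hJS : J ≤ S := hJp.le_sylow_of_normal S
  have hZmin : ∀ N : Subgroup G, N.Normal → N ≤ S → N ≠ ⊥ → Z ≤ N := by
    intro N hN h1 h2
    obtain ⟨y, hy, hc, ho⟩ := H5.exists_mem_centralizer_orderOf_eq S.isPGroup' h1
      (le_normalizer_of_normal) h2
    have : zpowers y = Z := eq_of_le_of_card_ge (zpowers_le.2 (hZ ▸ ⟨h1 hy, hc⟩))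
      (by rw [Nat.card_zpowers, ho, hZcard])
    rw [← this]; exact zpowers_le.2 hy
  have hZJ : Z ≤ J := hZmin J hJn hJS (fun e => by rw [e, card_bot] at hJcard; omega)
  obtain ⟨⟨z, hz⟩, hz1⟩ := (Subgroup.ne_bot_iff_exists_ne_one (H := Z)).1
    (fun e => by rw [e, card_bot] at hZcard; omega)
  have hzc : ∀ g, g * z = z * g := by
    have h1 : (S : Subgroup G) ≤ centralizer {z} := fun g hg => by
      rintro _ rfl; exact ((hZ ▸ hz).2 g hg).symm
    have h2 : (T : Subgroup G) ≤ centralizer {z} := fun g hg => by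
      rintro _ rfl; exact (hZT hz g hg).symm
    have h3 := Nat.Coprime.mul_dvd_of_dvd_of_dvd (by norm_num : Nat.Coprime 81 2)
      (hS ▸ card_dvd_of_le h1) (hT ▸ card_dvd_of_le h2)
    have h4 : centralizer {z} = (⊤ : Subgroup G) :=
      eq_top_of_le_card _ (by rw [hG]; exact Nat.le_of_dvd Nat.card_pos h3)
    intro g
    exact ((h4 ▸ mem_top g : g ∈ centralizer {z}) z rfl).symm
  obtain ⟨φ, hφ⟩ : ∃ φ : J →* ℂˣ, φ ⟨z, hZJ hz⟩ ≠ 1 := by
    letI : CommGroup J := { (inferInstance : Group J) with mul_comm := hJcomm.1.1 }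
    haveI : NeZero ((Monoid.exponent J : ℕ) : ℂ) := ⟨Nat.cast_ne_zero.2 Monoid.exponent_ne_zero_of_finite⟩
    exact CommGroup.exists_apply_ne_one_of_hasEnoughRootsOfUnity J ℂ
      (fun e => hz1 (Subtype.ext (congrArg (Subtype.val : J → G) e)))
  let ψ : J →* ℂˣ := φ * φ.comp (MulAut.conjNormal (t : G)).toMonoidHom
  have hψ : ∀ x : J, ψ x = φ x * φ (MulAut.conjNormal (t : G) x) := fun x => rfl
  have hJ3 : ∀ x : J, x ^ 3 = 1 := fun x => Subtype.ext (hJexp x x.2)
  have hψz : ψ ⟨z, hZJ hz⟩ ≠ 1 := by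
    have : MulAut.conjNormal (t : G) (⟨z, hZJ hz⟩ : J) = ⟨z, hZJ hz⟩ := Subtype.ext (by
      rw [MulAut.conjNormal_apply]; change (t : G) * z * (t : G)⁻¹ = z
      rw [hzc, mul_inv_cancel_right])
    rw [hψ, this]
    intro e
    apply hφ
    have h1 : φ ⟨z, hZJ hz⟩ ^ 3 = 1 := by rw [← map_pow, hJ3, map_one]
    rw [pow_succ, sq, e, one_mul] at h1
    exact h1
  set J₀ : Subgroup G := ψ.ker.map J.subtype with hJ₀
  have hJ₀J : J₀ ≤ J := map_subtype_le _
  have hzJ₀ : z ∉ J₀ := by
    rintro ⟨x, hx, e⟩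
    exact hψz ((Subtype.ext e : x = ⟨z, hZJ hz⟩) ▸ hx)
  have h9 : 9 ∣ Nat.card J₀ := by
    rw [hJ₀, card_map_of_injective J.subtype_injective]
    have h1 : ψ.range ≤ rootsOfUnity 3 ℂ := by
      rintro _ ⟨x, rfl⟩
      rw [mem_rootsOfUnity, ← map_pow, hJ3, map_one]
    have h2 := (card_le_of_le h1).trans (card_rootsOfUnity ℂ 3)
    have h3 := ψ.ker.card_mul_index
    rw [← index_ker] at h2
    rw [hJcard] at h3
    generalize ψ.ker.index = i at *
    interval_cases i <;> omega
  have hTn : (T : Subgroup G) ≤ normalizer (J₀ : Set G) := by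
    rw [le_normalizer_iff]
    rintro g hg _ ⟨x, hx, rfl⟩
    rcases hT' g hg with rfl | rfl
    · simpa using ⟨x, hx, rfl⟩
    · refine ⟨MulAut.conjNormal (t : G) x, ?_, rfl⟩
      change ψ _ = 1
      rw [hψ, ← MulAut.mul_apply, ← map_mul MulAut.conjNormal, ht2, map_one, MulAut.one_apply, mul_comm]
      exact hx
  set H := J₀ ⊔ (T : Subgroup G) with hH
  have memH : ∀ x ∈ H, x ∈ J₀ ∨ ∃ j ∈ J₀, x = j * t := by
    intro x hx
    obtain ⟨j, hj, y, hy, rfl⟩ := (H23.mem_sup_iff_of_le_normalizer hTn).1 hx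
    rcases hT' y hy with rfl | rfl
    · left; simpa using hj
    · exact Or.inr ⟨j, hj, rfl⟩
  have memHS : ∀ x ∈ H, x ∈ (S : Subgroup G) → x ∈ J₀ := by
    intro x hx hxS
    rcases memH x hx with h | ⟨j, hj, rfl⟩
    · exact h
    · exact absurd ((Subgroup.mul_mem_cancel_left _ (hJS (hJ₀J hj))).1 hxS) htS
  have hcore : H.normalCore = ⊥ := by
    have h1 : H.normalCore ⊓ S = ⊥ := by
      by_contra hh
      have := hZmin _ inferInstance inf_le_right hh hz
      exact hzJ₀ (memHS z (normalCore_le H this.1) this.2)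
    have h2 : ∀ n ∈ H.normalCore, ∀ s ∈ (S : Subgroup G), s * n = n * s := by
      intro n hn s hs
      have := commutator_le_inf _ _ (commutator_mem_commutator hn hs)
      rw [h1, mem_bot, commutatorElement_eq_one_iff_mul_comm] at this
      exact this.symm
    rw [eq_bot_iff]
    intro n hn
    rcases memH n (normalCore_le H hn) with h | ⟨j, hj, rfl⟩
    · rw [← h1]; exact ⟨hn, hJS (hJ₀J h)⟩
    exfalso
    have h3 : j * t = t * j := by
      have := h2 _ hn j (hJS (hJ₀J hj))
      rw [mul_assoc] at this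
      exact mul_left_cancel this
    have h4 : j * j ∈ H.normalCore ⊓ S := by
      refine ⟨?_, hJS (hJ₀J (mul_mem hj hj))⟩
      have := mul_mem hn hn
      rwa [mul_assoc, ← mul_assoc (t : G), ← h3, mul_assoc j, ht2, mul_one] at this
    rw [h1, mem_bot] at h4
    have h5 := hJexp j (hJ₀J hj)
    rw [pow_succ, sq, h4, one_mul] at h5
    rw [h5, one_mul] at hn
    refine hST (inf_eq_left.2 fun s hs y hy => ?_)
    rcases hT' y hy with rfl | rfl
    · simp
    · exact (h2 _ hn s hs).symm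
  have hinj : Function.Injective (MulAction.toPermHom G (G ⧸ H)) := by
    rw [← MonoidHom.ker_eq_bot_iff, ← normalCore_eq_ker, hcore]
  have hi : H.index = 9 := by
    have h3 := Nat.Coprime.mul_dvd_of_dvd_of_dvd (by norm_num : Nat.Coprime 9 2)
      (h9.trans (card_dvd_of_le (le_sup_left : J₀ ≤ H))) ((dvd_of_eq hT.symm).trans (card_dvd_of_le (le_sup_right : _ ≤ H)))
    have h4 := H.card_mul_index
    have h5 := Nat.card_le_card_of_injective _ hinj
    rw [Nat.card_perm, ← index_eq_card, hG] at h5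
    obtain ⟨m, hm⟩ := h3
    rw [hm, hG] at h4
    have h6 : H.index ∣ 9 := ⟨m, by linarith⟩
    have h7 := Nat.le_of_dvd (by norm_num) h6
    generalize H.index = i at *
    interval_cases i <;> simp_all [Nat.factorial]
  let e : G ⧸ H ≃ Fin 9 := Finite.equivFinOfCardEq hi
  refine final hG ((Equiv.permCongrHom e).toMonoidHom.comp (MulAction.toPermHom G (G ⧸ H)))
    ((Equiv.permCongrHom e).injective.comp hinj) z hzc (hJexp z (hZJ hz)) (fun x hx => ?_) _
    (by decide) (by decide)
  change e (z • e.symm x) = x at hx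
  rw [← Equiv.eq_symm_apply] at hx
  obtain ⟨g, hg⟩ := QuotientGroup.mk_surjective (e.symm x)
  rw [← hg, MulAction.Quotient.smul_mk, QuotientGroup.eq, smul_eq_mul, ← hzc] at hx
  have : z ∈ H := by simpa using hx
  exact hzJ₀ (memHS z this (hJS (hZJ hz)))

end Cfsg.Agent.S3376
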