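import Mathlib
import Cfsg.Statements.S3389
import Cfsg.Agent.Lib.Perm75.PrimeOrd

set_option autoImplicit false
open Cfsg

namespace Cfsg.Agent.S3389

open MulAction

theorem orbit_sum {H Ω : Type*} [Group H] [Fintype H] [Fintype Ω] [DecidableEq Ω] [DecidableEq H]
    [MulAction H Ω]
    (w : Ω) (hw : ∃ x : H, x ≠ 1 ∧ x • w = w) (D : Finset Ω) (hD : ∀ z, z ∈ D ↔ z ∈ orbit H w) :
    Fintype.card H ≤ 2 * ∑ z ∈ D, (Finset.univ.filter fun y : H => y ≠ 1 ∧ y • z = z).card := by
  classical
  have hcard : ∀ z ∈ D, D.card * Nat.card (stabilizer H z) = Fintype.card H := by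
    intro z hz
    have h1 := (orbit_eq_iff.mpr ((hD z).mp hz))
    have h2 := Subgroup.index_mul_card (stabilizer H z)
    rw [index_stabilizer, h1, Nat.card_eq_fintype_card (α := H)] at h2
    rw [← h2]
    congr 1
    rw [← Set.ncard_coe_finset]
    congr 1
    ext x; simp [hD]
  have hwD : w ∈ D := (hD w).mpr (mem_orbit_self w)
  have hpos : 0 < D.card := Finset.card_pos.mpr ⟨w, hwD⟩
  have h2 : 2 ≤ Nat.card (stabilizer H w) := by
    obtain ⟨x, hx1, hx⟩ := hw
    haveI : Nontrivial (stabilizer H w) := ⟨⟨x, hx⟩, 1, fun h => hx1 (congrArg Subtype.val h)⟩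
    exact Finite.one_lt_card
  have h3 : ∀ z ∈ D, Nat.card (stabilizer H w) ≤
      2 * (Finset.univ.filter fun y : H => y ≠ 1 ∧ y • z = z).card := by
    intro z hz
    have e1 : Nat.card (stabilizer H z) = Nat.card (stabilizer H w) :=
      Nat.eq_of_mul_eq_mul_left hpos ((hcard z hz).trans (hcard w hwD).symm)
    have e2 : (Finset.univ.filter fun y : H => y ≠ 1 ∧ y • z = z) =
        (Finset.univ.filter fun y : H => y • z = z).erase 1 := by
      ext y; simp
    have e3 : (Finset.univ.filter fun y : H => y • z = z).card = Nat.card (stabilizer H z) := by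
      rw [Nat.card_eq_fintype_card, Fintype.card_subtype]; rfl
    rw [e2, Finset.card_erase_of_mem (by simp), e3, e1]
    omega
  rw [← hcard w hwD, Finset.mul_sum, ← smul_eq_mul, ← Finset.sum_const]
  exact Finset.sum_le_sum h3


/-- Let G be a finite group acting faithfully and transitively on a finite set Ω with fixity k ≥ 1: every non-identity element fixes at most k points and some non-identity element fixes exactly k points. Then |Z(G)| divides k; if k = 2 then |G| is even; and for every prime p > k dividing |G| and every point α, either p does not divide |G_α| or G_α contains a Sylow p-subgroup of G. -/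
theorem result {G : Type*} [Group G] [Finite G] {Ω : Type*} [Fintype Ω] [MulAction G Ω] [FaithfulSMul G Ω]
    (htr : MulAction.IsPretransitive G Ω) (k : ℕ) (hk : 1 ≤ k)
    (hfix : ∀ g : G, g ≠ 1 → Nat.card (MulAction.fixedBy Ω g) ≤ k) (hex : ∃ g : G, g ≠ 1 ∧ Nat.card (MulAction.fixedBy Ω g) = k) :
    Nat.card (Subgroup.center G) ∣ k ∧ (k = 2 → 2 ∣ Nat.card G) ∧
      ∀ (p : ℕ), p.Prime → k < p → p ∣ Nat.card G → ∀ α : Ω,
        ¬ p ∣ Nat.card (MulAction.stabilizer G α) ∨ ¬ p ∣ (MulAction.stabilizer G α).index := by

  classical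
  haveI := Fintype.ofFinite G
  obtain ⟨g, hg1, hg⟩ := hex
  refine ⟨?_, ?_, ?_⟩
  · letI : MulAction (Subgroup.center G) (fixedBy Ω g) :=
      { smul := fun z x => ⟨z • x.1, by
          have h1 : g • x.1 = x.1 := x.2
          show g • (z : G) • x.1 = (z : G) • x.1
          rw [← mul_smul, Subgroup.mem_center_iff.mp z.2, mul_smul, h1]⟩
        one_smul := fun x => Subtype.ext (one_smul _ _)
        mul_smul := fun a b x => Subtype.ext (mul_smul _ _ _) }
    rw [← hg]
    have e := MulAction.selfEquivOrbitsQuotientProd (G := Subgroup.center G) (X := fixedBy Ω g) (by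
      intro x
      rw [eq_bot_iff]
      intro z hz
      rw [Subgroup.mem_bot]
      apply Subtype.ext
      apply eq_of_smul_eq_smul (α := Ω)
      intro y
      obtain ⟨h, rfl⟩ := htr.exists_smul_eq x.1 y
      have h1 : (z : G) • x.1 = x.1 := congrArg Subtype.val hz
      rw [← mul_smul, ← Subgroup.mem_center_iff.mp z.2, mul_smul, h1]
      simp)
    rw [Nat.card_congr e, Nat.card_prod]
    exact dvd_mul_left _ _
  · rintro rfl
    by_contra hodd
    obtain ⟨⟨a, ha⟩, ⟨b, hb⟩, hab, -⟩ := Nat.card_eq_two_iff.mp hg
    have hab' : a ≠ b := fun h => hab (Subtype.ext h)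
    rw [mem_fixedBy] at ha hb
    obtain ⟨t, ht⟩ := htr.exists_smul_eq a b
    set c := t⁻¹ • a with hc
    have hca : c ≠ a := by
      intro h
      rw [hc, inv_smul_eq_iff, ht] at h
      exact hab' h
    set H := stabilizer G a
    have hcb : c ∉ orbit H b := by
      rintro ⟨h, hh⟩
      have h1 : (t * h) • a = b := by rw [mul_smul, h.2, ht]
      have h2 : (t * h) • b = a := by
        have : (h : G) • b = c := hh
        rw [mul_smul, this, hc, smul_inv_smul]
      have h3 : ∀ n : ℕ, (t * h) ^ (2 * n + 1) • a = b := by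
        intro n
        induction n with
        | zero => simpa using h1
        | succ n ih =>
          rw [show 2 * (n + 1) + 1 = 2 * n + 1 + 1 + 1 by ring, pow_succ', pow_succ', mul_smul (t * h),
            mul_smul (t * h), ih, h2, h1]
      obtain ⟨n, hn⟩ : Odd (Nat.card G) := Nat.odd_iff.mpr (by omega)
      have h4 := h3 n
      rw [← hn, pow_card_eq_one', one_smul] at h4
      exact hab' h4
    have i1 := orbit_sum (H := H) b ⟨⟨g, ha⟩, fun h => hg1 (congrArg Subtype.val h), hb⟩
      (Finset.univ.filter fun z => z ∈ orbit H b) (by simp)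
    have i2 := orbit_sum (H := H) c ⟨⟨t⁻¹ * g * t, by
        rw [mem_stabilizer_iff, mul_smul, mul_smul, ht, hb, ← ht, inv_smul_smul]⟩,
        fun h => hg1 (by
          have h' : t⁻¹ * g * t = 1 := congrArg Subtype.val h
          calc g = t * (t⁻¹ * g * t) * t⁻¹ := by group
            _ = 1 := by rw [h']; group), by
        show (t⁻¹ * g * t) • c = c
        rw [hc, mul_smul, mul_smul, smul_inv_smul, ha]⟩
      (Finset.univ.filter fun z => z ∈ orbit H c) (by simp)
    have hdisj : Disjoint (Finset.univ.filter fun z => z ∈ orbit H b)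
        (Finset.univ.filter fun z => z ∈ orbit H c) := by
      rw [Finset.disjoint_left]
      intro z hz hz'
      simp only [Finset.mem_filter, Finset.mem_univ, true_and] at hz hz'
      apply hcb
      rw [← orbit_eq_iff.mpr hz, orbit_eq_iff.mpr hz']
      exact mem_orbit_self c
    have hne : ∀ z ∈ (Finset.univ.filter fun z => z ∈ orbit H b) ∪
        (Finset.univ.filter fun z => z ∈ orbit H c), z ≠ a := by
      intro z hz e
      subst e
      rcases Finset.mem_union.mp hz with hz | hz
      · obtain ⟨h, hh⟩ := (Finset.mem_filter.mp hz).2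
        exact hab' ((MulAction.injective h (hh.trans h.2.symm)).symm)
      · obtain ⟨h, hh⟩ := (Finset.mem_filter.mp hz).2
        exact hca (MulAction.injective h (hh.trans h.2.symm))
    have i3 : ∑ z ∈ (Finset.univ.filter fun z => z ∈ orbit H b) ∪
        (Finset.univ.filter fun z => z ∈ orbit H c),
        (Finset.univ.filter fun y : H => y ≠ 1 ∧ y • z = z).card ≤
        (Finset.univ.erase (1 : H)).card := by
      rw [← Finset.card_biUnion]
      · apply Finset.card_le_card
        intro y hy
        obtain ⟨z, -, hz⟩ := Finset.mem_biUnion.mp hy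
        simp [(Finset.mem_filter.mp hz).2.1]
      · intro z hz z' hz' hzz
        rw [Function.onFun, Finset.disjoint_left]
        intro y hy hy'
        obtain ⟨-, h1, h2⟩ := Finset.mem_filter.mp hy
        obtain ⟨-, -, h3⟩ := Finset.mem_filter.mp hy'
        have h4 := hfix y (fun h => h1 (Subtype.ext h))
        have h5 : 2 < Nat.card (fixedBy Ω (y : G)) := by
          rw [Nat.card_eq_fintype_card, Fintype.two_lt_card_iff]
          refine ⟨⟨a, y.2⟩, ⟨z, h2⟩, ⟨z', h3⟩, ?_, ?_, ?_⟩
          · exact fun e => (hne z hz).symm (congrArg Subtype.val e)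
          · exact fun e => (hne z' hz').symm (congrArg Subtype.val e)
          · exact fun e => hzz (congrArg Subtype.val e)
        omega
    rw [Finset.sum_union hdisj, Finset.card_erase_of_mem (Finset.mem_univ _), Finset.card_univ] at i3
    have := Fintype.card_pos (α := H)
    omega
  · intro p hp hkp _ α
    by_contra h
    push Not at h
    haveI := Fact.mk hp
    obtain ⟨x, hx⟩ := exists_prime_orderOf_dvd_card' p h.1
    have hx1 : (x : G) ≠ 1 := by
      intro e
      rw [show x = 1 from Subtype.ext e, orderOf_one] at hx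
      exact hp.one_lt.ne hx
    have h1 := hfix x hx1
    have h2 := H75.dvd_card_support hp (σ := toPermHom G Ω x) (by
      rw [← map_pow, ← Subgroup.coe_pow, ← hx, pow_orderOf_eq_one]; exact map_one _)
    have h3 := h.2
    rw [index_stabilizer_of_transitive, Nat.card_eq_fintype_card] at h3
    have h4 : (toPermHom G Ω x).support.card + Nat.card (fixedBy Ω (x : G)) = Fintype.card Ω := by
      rw [Nat.card_eq_fintype_card, Fintype.card_subtype, add_comm]
      exact Finset.card_filter_add_card_filter_not (s := Finset.univ) (fun y => (x : G) • y = y)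
    rw [← h4] at h3
    have h5 := (Nat.dvd_add_right h2).mp h3
    have h6 : 0 < Nat.card (fixedBy Ω (x : G)) := by
      haveI : Nonempty (fixedBy Ω (x : G)) := ⟨⟨α, x.2⟩⟩
      exact Nat.card_pos
    have := Nat.le_of_dvd h6 h5
    omega

end Cfsg.Agent.S3389
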