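import Cfsg.Statements.S3391
import Cfsg.Agent.Lib.Suzuki.Classes
import Cfsg.Agent.Lib.Suzuki.LieModel

set_option autoImplicit false
open Cfsg

namespace Cfsg.Agent.S3391

open H14.Sz H14.Sz.Model MulAction

section
variable {G : Type*} [Group G] {F : Type*} [Field F] [Fintype F] {m : ℕ} [hz : SzF F m]
  (S : Model G F m)

theorem exists_sq_of_odd {K : Subgroup G} {a : G} (ha : a ∈ K) (ho : Odd (orderOf a)) :
    ∃ b ∈ K, b * b = a := by
  obtain ⟨n, hn⟩ := ho
  refine ⟨a ^ (n + 1), K.pow_mem ha _, ?_⟩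
  rw [← pow_add, show n + 1 + (n + 1) = (2 * n + 1) + 1 by ring, ← hn, pow_succ,
    pow_orderOf_eq_one, one_mul]

theorem le_of_selfCent {M K : Subgroup G} (key : ∀ g, g ≠ 1 → ∀ n, g ∈ M → n⁻¹ * g * n ∈ M →
    (n * n)⁻¹ * g * (n * n) ∈ M → n * n ∈ M) (hK : SelfCent K) {g : G} (hg : g ∈ K) (h1 : g ≠ 1)
    (hM : g ∈ M) : K ≤ M := by
  intro a ha
  obtain ⟨b, hb, rfl⟩ := exists_sq_of_odd ha (hK.odd_orderOf ha)
  have e : ∀ c ∈ K, c⁻¹ * g * c = g := fun c hc => by
    rw [mul_assoc, hK.comm hg hc, inv_mul_cancel_left]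
  exact key g h1 b hM (by rwa [e b hb]) (by rwa [e _ ha])

theorem B_le {M : Subgroup G} (key : ∀ g, g ≠ 1 → ∀ n, g ∈ M → n⁻¹ * g * n ∈ M →
    (n * n)⁻¹ * g * (n * n) ∈ M → n * n ∈ M) {t : G} (ht : t ∈ S.Z) (h1 : t ≠ 1) (hM : t ∈ M) :
    S.B ≤ M := by
  have hZ : S.Z ≤ M := by
    rintro _ ⟨b, rfl⟩
    obtain ⟨a, rfl⟩ := th_mul_self_surjective b
    have e : ∀ c ∈ S.U, c⁻¹ * t * c = t := fun c hc => by
      rw [mul_assoc, ← S.commute_of_mem_Z hc ht, inv_mul_cancel_left]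
    rw [← S.u_sq a 0]
    exact key t h1 _ hM (by rwa [e _ (S.u_mem_U _ _)])
      (by rwa [e _ (S.U.mul_mem (S.u_mem_U _ _) (S.u_mem_U _ _))])
  have hB : ∀ n ∈ S.B, n * n ∈ M := fun n hn => by
    have e : ∀ c ∈ S.B, c⁻¹ * t * c ∈ M := fun c hc => hZ (by
      simpa using S.conj_mem_Z (S.B.inv_mem hc) ht)
    exact key t h1 n hM (e n hn) (e _ (S.B.mul_mem hn hn))
  have hH : S.H ≤ M := fun a ha => by
    obtain ⟨b, hb, rfl⟩ := exists_sq_of_odd ha (S.odd_orderOf_of_mem_H ha)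
    exact hB b (S.H_le_B hb)
  obtain ⟨k, hk⟩ := exists_unit_ne_one F
  have h2 := hB _ (S.B.mul_mem (S.u_mem_B 1 0) (S.h_mem_B k))
  rw [mul_assoc, ← mul_assoc (S.h k), h_mul_u, ← mul_assoc, ← mul_assoc, u_mul,
    M.mul_mem_cancel_right (hH (S.h_mem_H k)), M.mul_mem_cancel_right (hH (S.h_mem_H k))] at h2
  rw [← U_sup_H]
  refine sup_le (S.U_le_of_H_le hH (fun e => hk (Units.ext ?_)) h2) hH
  rw [Units.val_one]; grind

theorem cases_M {M : Subgroup G} (key : ∀ g, g ≠ 1 → ∀ n, g ∈ M → n⁻¹ * g * n ∈ M →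
    (n * n)⁻¹ * g * (n * n) ∈ M → n * n ∈ M) (h0 : M ≠ ⊥) (h1 : M ≠ ⊤) :
    (∃ x, M = (S.conj x).B) ∨ Nat.card M = Fintype.card F - 1 := by
  haveI := S.finite
  by_cases h2 : ∃ t ∈ M, t * t = 1 ∧ t ≠ 1
  · obtain ⟨t, ht, ht2, ht1⟩ := h2
    obtain ⟨x, hx⟩ := S.exists_conj_Z_mem ht2
    exact Or.inl ⟨x, ((S.conj x).isCoatom_B.le_iff_eq h1).1 (B_le _ key hx ht1 ht)⟩
  right
  push Not at h2
  have hodd : Odd (Nat.card M) := by
    by_contra h
    obtain ⟨t, ht⟩ := exists_prime_orderOf_dvd_card' (G := M) 2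
      (even_iff_two_dvd.1 (Nat.not_odd_iff_even.1 h))
    have e := pow_orderOf_eq_one t
    rw [ht, sq] at e
    rw [show t = 1 from Subtype.ext (h2 t t.2 (congrArg Subtype.val e)), orderOf_one] at ht
    exact absurd ht (by decide)
  have ho : ∀ g ∈ M, Odd (orderOf g) := fun g hg =>
    hodd.of_dvd_nat (Subgroup.orderOf_dvd_natCard _ hg)
  have hfree : ∀ g ∈ M, ¬ S.Free g := by
    intro g hg hf
    have hA := hf.isTorus
    have hgA : g ∈ Subgroup.centralizer {g} := Subgroup.mem_centralizer_singleton_iff.2 rfl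
    have h3 := le_of_selfCent key hA.selfCent hgA hf.ne_one hg
    have h4 := hA.selfCent.ncard_order_four hA.card_normalizer'
    obtain ⟨f, hf1, hf2⟩ := Set.nonempty_of_ncard_ne_zero (h4 ▸
      (mul_ne_zero two_ne_zero hA.odd_card.pos.ne'))
    have e : ∀ c ∈ Subgroup.normalizer (Subgroup.centralizer ({g} : Set G) : Set G),
        c⁻¹ * g * c ∈ M := fun c hc => h3 (by
      simpa using (Subgroup.mem_normalizer_iff.1 (Subgroup.inv_mem _ hc) g).1 hgA)
    have h5 := key g hf.ne_one f hg (e f hf1) (e _ (Subgroup.mul_mem _ hf1 hf1))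
    have h6 := h2 _ h5 (by rw [← sq, ← sq, ← pow_mul, show 2 * 2 = orderOf f from hf2.symm,
      pow_orderOf_eq_one])
    have h7 := orderOf_dvd_of_pow_eq_one (show f ^ 2 = 1 by rw [sq, h6])
    rw [hf2] at h7
    exact absurd h7 (by decide)
  obtain ⟨⟨g, hg⟩, hg1⟩ := Subgroup.ne_bot_iff_exists_ne_one.1 h0
  have hg1' : g ≠ 1 := fun e => hg1 (Subtype.ext e)
  obtain ⟨x, hx⟩ := (S.mem_conj_H_or_free (ho g hg) hg1').resolve_right (hfree g hg)
  have h3 := Subgroup.card_le_of_le (le_of_selfCent key (S.conj x).selfCent_H hx hg1' hg)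
  rw [card_H] at h3
  refine le_antisymm ?_ h3
  have h8 := eight_le_card (F := F)
  rcases S.subgroup_classification M with ⟨y, hy⟩ | ⟨y, hy⟩ | ⟨A, hA, hy⟩ | ⟨y, F₀, -, hy⟩
  · have h4 := Subgroup.card_dvd_of_le hy
    rw [card_B] at h4
    refine Nat.le_of_dvd (by omega) (Nat.Coprime.dvd_of_dvd_mul_left ?_ h4)
    rw [card_eq, ← pow_mul]
    exact (Nat.coprime_two_right.2 hodd).pow_right _
  · rw [← (S.conj y).card_H]
    exact Subgroup.card_le_of_le fun a ha => (S.conj y).selfCent_H.mem_of_odd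
      (S.conj y).card_normalizer_H' (hy ha) (ho a ha)
  · exact absurd (hA.free (hA.selfCent.mem_of_odd hA.card_normalizer' (hy hg) (ho g hg)) hg1')
      (hfree g hg)
  · exact absurd (h2 _ (hy ▸ (S.conj y).w_mem_subGrp F₀) (S.conj y).w_mul_w) (S.conj y).w_ne_one

end

/-- Let q = 2^{2m+1} ≥ 8 and let G be isomorphic to the Suzuki group Sz(q). If G acts faithfully and transitively on a finite set Ω with fixity 2 (every non-identity element fixes at most two points, and some fixes exactly two), then either |Ω| = q² + 1 and the action is 2-transitive, or |Ω| = q²(q² + 1) and the point stabilizers have order q − 1. -/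
theorem result {G : Type*} [Group G] [Finite G] (F : Type) [Field F] [Fintype F] (m : ℕ) (hm : 1 ≤ m) (hF : Fintype.card F = 2 ^ (2 * m + 1))
    (e : G ≃* ↥(Cfsg.Lie.Sz F (2 ^ (m + 1)))) {Ω : Type*} [Fintype Ω] [MulAction G Ω] [FaithfulSMul G Ω] (htr : MulAction.IsPretransitive G Ω)
    (hfix : ∀ g : G, g ≠ 1 → Nat.card (MulAction.fixedBy Ω g) ≤ 2) (hex : ∃ g : G, g ≠ 1 ∧ Nat.card (MulAction.fixedBy Ω g) = 2) :
    (Fintype.card Ω = Fintype.card F ^ 2 + 1 ∧ MulAction.IsMultiplyPretransitive G Ω 2) ∨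
    (Fintype.card Ω = Fintype.card F ^ 2 * (Fintype.card F ^ 2 + 1) ∧ ∀ α : Ω, Nat.card (MulAction.stabilizer G α) = Fintype.card F - 1) := by
  haveI : SzF F m := ⟨hm, hF⟩
  let S := (lieModel F m).comap e
  obtain ⟨g, hg1, hg2⟩ := hex
  obtain ⟨⟨α, hα⟩, ⟨β, hβ⟩, hαβ, -⟩ := Nat.card_eq_two_iff.1 hg2
  have key : ∀ g, g ≠ 1 → ∀ n, g ∈ stabilizer G α → n⁻¹ * g * n ∈ stabilizer G α →
      (n * n)⁻¹ * g * (n * n) ∈ stabilizer G α → n * n ∈ stabilizer G α := by
    intro g h1 n a1 a2 a3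
    by_contra h
    have h' : n • α ≠ α := fun e => h (by rw [mem_stabilizer_iff, mul_smul, e, e])
    rw [mem_stabilizer_iff, mul_smul, mul_smul, inv_smul_eq_iff] at a2 a3
    have h3 : ({α, n • α, (n * n) • α} : Set Ω).ncard = 3 := Set.ncard_eq_three.2
      ⟨_, _, _, h'.symm, fun e => h e.symm, fun e => h' (by
        rw [mul_smul] at e; exact (smul_left_cancel n e).symm), rfl⟩
    have h4 : ({α, n • α, (n * n) • α} : Set Ω) ⊆ fixedBy Ω g := by
      rintro _ (rfl | rfl | rfl) <;> assumption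
    have h5 := Set.ncard_le_ncard h4
    have h6 : (fixedBy Ω g).ncard ≤ 2 := hfix g h1
    omega
  have h0 : stabilizer G α ≠ ⊥ := fun h => hg1 (by
    have : g ∈ stabilizer G α := hα
    rwa [h, Subgroup.mem_bot] at this)
  have h1 : stabilizer G α ≠ ⊤ := fun h => hαβ (Subtype.ext (by
    obtain ⟨x, hx⟩ := exists_smul_eq G α β
    have : x ∈ stabilizer G α := h ▸ Subgroup.mem_top x
    exact this.symm.trans hx))
  have hc : Fintype.card Ω = (stabilizer G α).index := by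
    rw [index_stabilizer_of_transitive, Nat.card_eq_fintype_card]
  rcases cases_M S key h0 h1 with ⟨x, hx⟩ | h
  · refine Or.inl ⟨by rw [hc, hx, index_B], ?_⟩
    have h2 : ∀ a b : G, a • α = b • α ↔ a • (S.conj x).inf = b • (S.conj x).inf := by
      intro a b
      rw [← inv_smul_eq_iff, ← inv_smul_eq_iff, ← mul_smul, ← mul_smul, ← mem_stabilizer_iff, hx,
        mem_B]
    rw [is_two_pretransitive_iff]
    intro a b c d hab hcd
    obtain ⟨a, rfl⟩ := exists_smul_eq G α a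
    obtain ⟨b, rfl⟩ := exists_smul_eq G α b
    obtain ⟨c, rfl⟩ := exists_smul_eq G α c
    obtain ⟨d, rfl⟩ := exists_smul_eq G α d
    obtain ⟨y, hy1, hy2⟩ := is_two_pretransitive_iff.1 (S.conj x).two_trans
      (fun e => hab ((h2 _ _).2 e)) (fun e => hcd ((h2 _ _).2 e))
    exact ⟨y, by rw [← mul_smul, h2, mul_smul, hy1], by rw [← mul_smul, h2, mul_smul, hy2]⟩
  · have h8 := eight_le_card (F := F)
    have h2 : Fintype.card Ω = Fintype.card F ^ 2 * (Fintype.card F ^ 2 + 1) := by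
      have := (stabilizer G α).card_mul_index
      rw [h, S.card_G, ← hc, mul_comm] at this
      exact Nat.eq_of_mul_eq_mul_right (by omega) this
    refine Or.inr ⟨h2, fun γ => ?_⟩
    have := (stabilizer G γ).card_mul_index
    rw [index_stabilizer_of_transitive, Nat.card_eq_fintype_card (α := Ω), h2, S.card_G,
      mul_comm] at this
    exact Nat.eq_of_mul_eq_mul_left (by positivity) this

end Cfsg.Agent.S3391
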