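import Cfsg.Statements.S3419
import Mathlib
import Cfsg.Agent.Lib.Small36.AltSpec

set_option autoImplicit false
open Cfsg

namespace Cfsg.Agent.S3419

/-- Let n ≥ 5 and let G be a finite group with the same order and the same set of element orders as the alternating group of degree n. Then G is not solvable. -/
theorem result {G : Type*} [Group G] [Finite G] (n : ℕ) (hn : 5 ≤ n)
    (hcard : Nat.card G = Nat.card ↥(alternatingGroup (Fin n)))
    (hspec : Set.range (orderOf : G → ℕ) = Set.range (orderOf : ↥(alternatingGroup (Fin n)) → ℕ)) :
    ¬ Group.IsSolvable G := by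
  have hno : ∀ r s : ℕ, r.Prime → s.Prime → r ≠ s → n < r + s → ∀ g : G, orderOf g ≠ r * s := by
    intro r s hr hs hrs h g e
    obtain ⟨x, hx⟩ : r * s ∈ Set.range (orderOf : ↥(alternatingGroup (Fin n)) → ℕ) := hspec ▸ ⟨g, e⟩
    exact H36.alt_no_order hr hs hrs h x hx
  by_cases h6 : n = 6
  · subst h6
    have hc : Nat.card G = 360 := by
      have := H36.two_mul_card_alt (n := 6) (by norm_num)
      rw [← hcard] at this
      simp [Nat.factorial] at this
      omega
    refine H36.not_solvable_of_two_primes (r := 3) (s := 5) (by norm_num) (by norm_num) (by norm_num)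
      (by omega) (by omega) (fun i h1 h2 => ?_) (fun i h1 h2 => ?_)
      (hno 3 5 (by norm_num) (by norm_num) (by norm_num) (by norm_num))
    · have : i < 3 := by
        by_contra h
        have := (pow_dvd_pow 3 (not_lt.1 h)).trans h2
        omega
      interval_cases i <;> norm_num
    · have : i < 2 := by
        by_contra h
        have := (pow_dvd_pow 5 (not_lt.1 h)).trans h2
        omega
      interval_cases i; norm_num
  by_cases h10 : n = 10
  · subst h10
    have hc : Nat.card G = 1814400 := by
      have := H36.two_mul_card_alt (n := 10) (by norm_num)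
      rw [← hcard] at this
      simp [Nat.factorial] at this
      omega
    refine H36.not_solvable_of_two_primes (r := 5) (s := 7) (by norm_num) (by norm_num) (by norm_num)
      (by omega) (by omega) (fun i h1 h2 => ?_) (fun i h1 h2 => ?_)
      (hno 5 7 (by norm_num) (by norm_num) (by norm_num) (by norm_num))
    · have : i < 3 := by
        by_contra h
        have := (pow_dvd_pow 5 (not_lt.1 h)).trans h2
        omega
      interval_cases i <;> norm_num
    · have : i < 2 := by
        by_contra h
        have := (pow_dvd_pow 7 (not_lt.1 h)).trans h2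
        omega
      interval_cases i; norm_num
  obtain ⟨p, q, hp, hq, h1, h2, h3⟩ := H36.exists_two_big hn h6 h10
  have a1 := H36.not_sq_dvd_card_alt hp (by omega) h1
  have a2 := H36.not_sq_dvd_card_alt (n := n) hq (by omega) (by omega)
  rw [← hcard] at a1 a2
  exact H36.not_solvable_of_two_primes hp hq h2.ne
    (hcard ▸ H36.dvd_card_alt hp (by omega) (by omega)) (hcard ▸ H36.dvd_card_alt hq (by omega) h3)
    (H36.sep_of_big hp hq a1 (n := n) (by omega) h1 (by omega) (by omega))
    (H36.sep_of_big hq hp a2 (n := n) (by omega) (by omega) h1 h3)
    (hno p q hp hq h2.ne (by omega))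

end Cfsg.Agent.S3419
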