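import Cfsg.Statements.S3420
import Mathlib
import Cfsg.Agent.Lib.Small36.AltSpec

set_option autoImplicit false
open Cfsg

namespace Cfsg.Agent.S3420

/-- Let n ≥ 11 and let G be a finite group with the same order and the same set of element orders as the alternating group of degree n. Then G has normal subgroups N < H such that H/N is a non-abelian simple group whose order is divisible by every prime p with n/2 < p ≤ n. -/
theorem result {G : Type*} [Group G] [Finite G] (n : ℕ) (hn : 11 ≤ n)
    (hcard : Nat.card G = Nat.card ↥(alternatingGroup (Fin n)))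
    (hspec : Set.range (orderOf : G → ℕ) = Set.range (orderOf : ↥(alternatingGroup (Fin n)) → ℕ)) :
    ∃ (N H : Subgroup G) (_ : N.Normal), H.Normal ∧ N < H ∧
      IsSimpleGroup (↥H ⧸ N.subgroupOf H) ∧ ¬ IsMulCommutative (↥H ⧸ N.subgroupOf H) ∧
      ∀ p : ℕ, p.Prime → n < 2 * p → p ≤ n → p ∣ Nat.card (↥H ⧸ N.subgroupOf H) := by
  have hno : ∀ r s : ℕ, r.Prime → s.Prime → r ≠ s → n < r + s → ∀ g : G, orderOf g ≠ r * s := by
    intro r s hr hs hrs h g e
    obtain ⟨x, hx⟩ : r * s ∈ Set.range (orderOf : ↥(alternatingGroup (Fin n)) → ℕ) := hspec ▸ ⟨g, e⟩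
    exact H36.alt_no_order hr hs hrs h x hx
  have hd : ∀ r : ℕ, r.Prime → n < 2 * r → r ≤ n → r ∣ Nat.card G := fun r hr h1 h2 =>
    hcard ▸ H36.dvd_card_alt hr (by omega) h2
  have hsq : ∀ r : ℕ, r.Prime → n < 2 * r → ¬ r ^ 2 ∣ Nat.card G := fun r hr h1 =>
    hcard ▸ H36.not_sq_dvd_card_alt hr (by omega) h1
  obtain ⟨p, q, hp, hq, h1, h2, h3⟩ := H36.exists_two_big (n := n) (by omega) (by omega) (by omega)
  obtain ⟨N, H, hN, hH, hlt, hS, a1, a2⟩ := H36.exists_simple_factor hp (hd p hp h1 (by omega))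
    (hsq p hp h1)
  have key : ∀ r : ℕ, r.Prime → n < 2 * r → r ≤ n → r ∣ Nat.card (↥H ⧸ N.subgroupOf H) := by
    intro r hr b1 b2
    have e := Subgroup.card_mul_index (N.subgroupOf H)
    rw [Nat.card_congr (Subgroup.subgroupOfEquivOfLe hlt.le).toEquiv] at e
    have c1 : r ∣ Nat.card H := by
      by_cases hrp : p = r
      · exact hrp ▸ a2
      · exact H36.dvd_of_no_order hp hr hrp a2 (hd r hr b1 b2)
          (H36.sep_of_big hp hr (hsq p hp h1) (n := n) (by omega) h1 b1 (by omega))
          (hno p r hp hr hrp (by omega))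
    have c2 : ¬ r ∣ Nat.card N := by
      by_cases hrp : r = p
      · exact hrp ▸ a1
      · exact fun h => a1 (H36.dvd_of_no_order hr hp hrp h (hd p hp h1 (by omega))
          (H36.sep_of_big hr hp (hsq r hr b1) (n := n) (by omega) b1 h1 b2)
          (hno r p hr hp hrp (by omega)))
    rw [← e, hr.dvd_mul] at c1
    exact c1.resolve_left c2
  exact ⟨N, H, hN, hH, hlt, hS, H36.not_comm_of_no_order (QuotientGroup.mk' _)
    (QuotientGroup.mk'_surjective _) hp hq h2.ne (key p hp h1 (by omega)) (key q hq (by omega) h3)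
    (hno p q hp hq h2.ne (by omega)), key⟩

end Cfsg.Agent.S3420
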