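import Cfsg.Statements.S3495
import Mathlib
import Cfsg.Agent.Lib.ONS.Extreme


set_option autoImplicit false
open Cfsg

namespace Cfsg.Agent.S3495

/-- Let a finite group G act faithfully and primitively on a finite set Ω with non-trivial point stabilizers, each acting primitively on every one of its orbits (an extremely primitive group), and suppose G has an elementary abelian normal p-subgroup N acting regularly on Ω (affine type). Then every non-trivial subgroup M of a point stabilizer G_α that is normal in G_α has the same orbits on Ω as G_α, and normalizes no subgroup of N other than 1 and N. -/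
theorem result {G : Type*} [Group G] [Finite G] {Ω : Type*} [Fintype Ω] [MulAction G Ω] [FaithfulSMul G Ω] (hprim : MulAction.IsPreprimitive G Ω) (hH : ∀ α : Ω, MulAction.stabilizer G α ≠ ⊥) (hep : ∀ (α : Ω) (ω : Ω), MulAction.IsPreprimitive (MulAction.stabilizer G α) (MulAction.orbit (MulAction.stabilizer G α) ω))
    (N : Subgroup G) [N.Normal] (hNc : IsMulCommutative N) (p : ℕ) (hp : p.Prime) (hNp : ∀ n ∈ N, n ^ p = 1)
    (hNtr : MulAction.IsPretransitive N Ω) (hNreg : ∀ ω : Ω, MulAction.stabilizer N ω = ⊥) (α : Ω) (M : Subgroup G) (hM : M ≠ ⊥) (hMle : M ≤ MulAction.stabilizer G α)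
    (hMn : MulAction.stabilizer G α ≤ Subgroup.normalizer (M : Set G)) :
    (∀ ω : Ω, MulAction.orbit M ω = MulAction.orbit (MulAction.stabilizer G α) ω) ∧
    (∀ L : Subgroup G, L ≤ N → M ≤ Subgroup.normalizer (L : Set G) → L = ⊥ ∨ L = N) := by
  have hn : ∀ k ∈ MulAction.stabilizer G α, ∀ x ∈ M, k * x * k⁻¹ ∈ M := fun k hk x hx =>
    (Subgroup.mem_normalizer_iff.mp (hMn hk) x).mp hx
  have htr := H74.ONS.manning_trans hprim (hep α) hM hMle hn
  refine ⟨fun ω => ?_, fun L hL hML => ?_⟩
  · ext x
    constructor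
    · rintro ⟨m, rfl⟩
      exact ⟨⟨m, hMle m.2⟩, rfl⟩
    · rintro ⟨k, rfl⟩
      obtain ⟨x, hx, e⟩ := htr ω k.2
      exact ⟨⟨x, hx⟩, e.symm⟩
  · by_cases hL1 : L = ⊥
    · exact Or.inl hL1
    right
    have hN : N.Normal := inferInstance
    have hLn : L.Normal := by
      refine ⟨fun l hl g => ?_⟩
      obtain ⟨n, hn'⟩ := hNtr.exists_smul_eq α (g • α)
      have hk : (n : G)⁻¹ * g ∈ MulAction.stabilizer G α := by
        rw [MulAction.mem_stabilizer_iff, mul_smul, inv_smul_eq_iff]; exact hn'.symm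
      set k := (n : G)⁻¹ * g with hkdef
      have h4 : g * l * g⁻¹ = n * (k * l * k⁻¹) * (n : G)⁻¹ := by rw [hkdef]; group
      clear_value k
      obtain ⟨x, hx, e⟩ := htr (l • α) hk
      have h1 : k * l * k⁻¹ = x * l * x⁻¹ := by
        refine H74.ONS.eq_of_regular hNreg (hN.conj_mem l (hL hl) k) (hN.conj_mem l (hL hl) x)
          (ω := α) ?_
        rw [mul_smul, mul_smul, mul_smul, mul_smul, show k⁻¹ • α = α from inv_mem hk,
          show x⁻¹ • α = α from inv_mem (hMle hx), e]
      have h2 : x * l * x⁻¹ ∈ L := (Subgroup.mem_normalizer_iff.mp (hML hx) l).mp hl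
      have h3 : (n : G) * (x * l * x⁻¹) = (x * l * x⁻¹) * n :=
        congrArg Subtype.val (hNc.is_comm.comm n ⟨_, hL h2⟩)
      rw [h4, h1, h3, mul_inv_cancel_right]
      exact h2
    refine le_antisymm hL fun n hn' => ?_
    obtain ⟨l, hl⟩ := (H75.normal_isPretransitive' hprim L hLn hL1).exists_smul_eq α (n • α)
    rw [← H74.ONS.eq_of_regular hNreg (hL l.2) hn' hl]
    exact l.2

end Cfsg.Agent.S3495
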