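import Cfsg.Statements.S3496
import Mathlib
import Cfsg.Agent.Lib.ONS.Fit
import Cfsg.Agent.Lib.FGS.IrredCyclic
import Cfsg.Agent.Lib.BG3.ElemAb
import Cfsg.Agent.S3495
import Cfsg.Agent.S0041


set_option autoImplicit false
open Cfsg

namespace Cfsg.Agent.S3496

open H74.ONS MulAction Subgroup

theorem pow_finrank_commute {p : ℕ} [Fact p.Prime] {V : Type*} [AddCommGroup V] [Module (ZMod p) V]
    [Finite V] [Nontrivial V] (τ : Module.End (ZMod p) V)
    (hirr : ∀ W : Submodule (ZMod p) V, (∀ w ∈ W, τ w ∈ W) → W = ⊥ ∨ W = ⊤)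
    (η : (Module.End (ZMod p) V)ˣ) (b : ℕ) (hη : (η⁻¹ : (Module.End (ZMod p) V)ˣ) * τ * η = τ ^ b) :
    Commute ((η : Module.End (ZMod p) V) ^ Module.finrank (ZMod p) V) τ := by
  haveI : Finite (Module.End (ZMod p) V) := Finite.of_injective (fun f => (f : V → V)) DFunLike.coe_injective
  let E := Subalgebra.centralizer (ZMod p) ({τ} : Set (Module.End (ZMod p) V))
  have hE : ∀ e : Module.End (ZMod p) V, e ∈ E ↔ τ * e = e * τ := fun e => by
    simp [E, Subalgebra.mem_centralizer_iff]
  have hinj : ∀ e : E, e ≠ 0 → Function.Injective (e : Module.End (ZMod p) V) := by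
    intro e he
    rw [← LinearMap.ker_eq_bot]
    refine (hirr _ fun w hw => ?_).resolve_right fun h => he (Subtype.ext (LinearMap.ker_eq_top.mp h))
    rw [LinearMap.mem_ker] at hw ⊢
    rw [← Module.End.mul_apply, ← (hE e).mp e.2, Module.End.mul_apply, hw, map_zero]
  haveI : NoZeroDivisors E := ⟨fun {r s} h => by
    by_cases hr : r = 0
    · exact Or.inl hr
    · refine Or.inr (Subtype.ext (LinearMap.ext fun v => hinj r hr ?_))
      have := LinearMap.congr_fun (congrArg Subtype.val h) v
      simpa using this⟩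
  haveI : IsDomain E := NoZeroDivisors.to_isDomain E
  letI : Field E := (Finite.isDomain_to_isField E).toField
  have hmem : ∀ e : E, (η : Module.End (ZMod p) V) * e * (η⁻¹ : (Module.End (ZMod p) V)ˣ) ∈ E := by
    intro e
    rw [hE]
    have h1 : Commute (τ ^ b) (e : Module.End (ZMod p) V) := Commute.pow_left ((hE e).mp e.2) b
    have h2 : τ = η * τ ^ b * (η⁻¹ : (Module.End (ZMod p) V)ˣ) := by
      rw [← hη]; simp [mul_assoc]
    conv_lhs => rw [h2]
    conv_rhs => rw [h2]
    simp only [mul_assoc, Units.inv_mul_cancel_left]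
    rw [← mul_assoc (τ ^ b), h1.eq, mul_assoc]
  let σ₀ : E →ₐ[ZMod p] E :=
    { toFun := fun e => ⟨_, hmem e⟩
      map_one' := Subtype.ext (by simp)
      map_mul' := fun x y => Subtype.ext (by simp [mul_assoc])
      map_zero' := Subtype.ext (by simp)
      map_add' := fun x y => Subtype.ext (by simp [mul_add, add_mul])
      commutes' := fun r => Subtype.ext (by
        simp [Algebra.algebraMap_eq_smul_one]) }
  let σ : E ≃ₐ[ZMod p] E := AlgEquiv.ofBijective σ₀
    (Finite.injective_iff_bijective.mp σ₀.toRingHom.injective)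
  have hσ : ∀ (n : ℕ) (e : E), ((σ ^ n) e : Module.End (ZMod p) V) * (η : Module.End (ZMod p) V) ^ n =
      (η : Module.End (ZMod p) V) ^ n * e := by
    intro n
    induction n with
    | zero => simp
    | succ n ih =>
      intro e
      rw [pow_succ', AlgEquiv.mul_apply, pow_succ', mul_assoc, ← ih]
      change (η : Module.End (ZMod p) V) * _ * _ * _ = _
      simp [mul_assoc]
  have hcard : σ ^ Module.finrank (ZMod p) V = 1 := by
    rw [← Module.finrank_mul_finrank (ZMod p) E V, pow_mul, ← IsGalois.card_aut_eq_finrank,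
      pow_card_eq_one', one_pow]
  have := hσ (Module.finrank (ZMod p) V) ⟨τ, (hE τ).mpr rfl⟩
  rw [hcard] at this
  exact this.symm

/-- The soluble extremely primitive groups. Let a finite solvable group G act faithfully and primitively on a finite set Ω with p ^ d points (p prime), with non-trivial point stabilizers each acting primitively on every one of its orbits. Then there is a prime q such that every orbit of a point stabilizer G_α other than {α} has exactly q points, q divides p ^ d − 1 but no p ^ i − 1 with 0 < i < d, and G_α has a normal subgroup T of order q with G_α generated by T and one further element and the order of G_α dividing q·d (so G_α is cyclic of order q, or an extension of T by a cyclic group of order dividing d). -/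
theorem result {G : Type*} [Group G] [Finite G] {Ω : Type*} [Fintype Ω] [MulAction G Ω] [FaithfulSMul G Ω] [Group.IsSolvable G] (p d : ℕ) (hp : p.Prime) (hcard : Fintype.card Ω = p ^ d)
    (hprim : MulAction.IsPreprimitive G Ω) (hH : ∀ α : Ω, MulAction.stabilizer G α ≠ ⊥) (hep : ∀ (α : Ω) (ω : Ω), MulAction.IsPreprimitive (MulAction.stabilizer G α) (MulAction.orbit (MulAction.stabilizer G α) ω)) (α : Ω) :
    ∃ q : ℕ, q.Prime ∧ (∀ ω : Ω, ω ≠ α → Nat.card (MulAction.orbit (MulAction.stabilizer G α) ω) = q) ∧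
      q ∣ p ^ d - 1 ∧ (∀ i : ℕ, 0 < i → i < d → ¬ q ∣ p ^ i - 1) ∧
      ∃ T : Subgroup G, T ≤ MulAction.stabilizer G α ∧ MulAction.stabilizer G α ≤ Subgroup.normalizer (T : Set G) ∧ Nat.card T = q ∧
        (∃ h : G, MulAction.stabilizer G α = T ⊔ Subgroup.zpowers h) ∧ Nat.card (MulAction.stabilizer G α) ∣ q * d := by
  obtain ⟨b, hb⟩ := exists_ne_of_stabilizer_ne_bot (hH α)
  haveI : Nontrivial Ω := ⟨b, α, hb⟩
  haveI := hprim.toIsPretransitive
  haveI : Nontrivial G := nontrivial_of_isPretransitive (Ω := Ω)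
  haveI := Fact.mk hp
  have hd : d ≠ 0 := by
    rintro rfl
    exact Fintype.one_lt_card.ne' (hcard.trans (pow_zero p))
  obtain ⟨hNc, -, hNr, hNt, r, hr, hNp⟩ := prim_fitting hprim (H1.fitting_ne_bot_of_isSolvable (G := G))
  set N := Cfsg.fittingSubgroup G with hN
  have hNcard : Nat.card N = p ^ d := by
    rw [H26.card_eq_of_regular (hNr α), Nat.card_eq_fintype_card, hcard]
  obtain rfl : r = p := by
    obtain ⟨x, hx⟩ := exists_prime_orderOf_dvd_card' (G := N) p (hNcard ▸ dvd_pow_self p hd)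
    have : orderOf x ∣ r := orderOf_dvd_of_pow_eq_one (Subtype.ext (by simpa using hNp x x.2))
    exact ((Nat.prime_dvd_prime_iff_eq hp hr).mp (hx ▸ this)).symm
  haveI : Nontrivial (stabilizer G α) := (nontrivial_iff_ne_bot _).mpr (hH α)
  have hF := H1.fitting_ne_bot_of_isSolvable (G := stabilizer G α)
  have key := fun (c : Ω) (hc : c ≠ α) =>
    @prim_fitting (stabilizer G α) (orbit (stabilizer G α) c) _ _ _
      (faithful_orbit hprim (hep α) hc) ⟨⟨c, mem_orbit_self c⟩⟩ (hep α c) hF
  obtain ⟨hc, hC, -, -, q, hq, hpow⟩ := key b hb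
  set F := Cfsg.fittingSubgroup (stabilizer G α) with hFdef
  have hsr : ∀ x ∈ F, ∀ c : Ω, c ≠ α → (x : G) • c = c → x = 1 := fun x hx c hc hxc =>
    eq_one_of_regular (key c hc).2.2.1 hx (ω := ⟨c, mem_orbit_self c⟩) (Subtype.ext hxc)
  let T : Subgroup G := F.map (stabilizer G α).subtype
  let eT : F ≃* T := F.equivMapOfInjective _ (stabilizer G α).subtype_injective
  have hTle : T ≤ stabilizer G α := map_subtype_le F
  have hTn : stabilizer G α ≤ normalizer (T : Set G) := by
    intro k hk
    have h1 : ∀ k ∈ stabilizer G α, ∀ x ∈ T, k * x * k⁻¹ ∈ T := by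
      rintro k hk _ ⟨x, hx, rfl⟩
      exact ⟨_, (inferInstance : F.Normal).conj_mem x hx ⟨k, hk⟩, rfl⟩
    exact mem_normalizer_iff.mpr fun x => ⟨h1 k hk x, fun h => by
      simpa [mul_assoc] using h1 k⁻¹ (inv_mem hk) _ h⟩
  have hTc : IsMulCommutative T := ⟨⟨fun x y => eT.symm.injective (by
    rw [map_mul, map_mul, hc.is_comm.comm])⟩⟩
  have hN1 : N ≠ ⊥ := H1.fitting_ne_bot_of_isSolvable
  have hfpf : ∀ a ∈ T, a ≠ 1 → N ⊓ centralizer {a} = ⊥ := by
    rintro _ ⟨x, hx, rfl⟩ h1
    rw [eq_bot_iff]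
    rintro n ⟨hn, hn'⟩
    by_contra h2
    refine h1 (congrArg Subtype.val (hsr x hx (n • α) (fun e => h2 (eq_one_of_regular hNr hn e)) ?_))
    rw [← mul_smul, ← show n * x = x * n from mem_centralizer_singleton_iff.mp hn', mul_smul,
      show (x : G) • α = α from x.2]
  haveI := hNc
  have hcyc : IsCyclic T := Cfsg.Agent.S0041.result T N hN1
    (by rw [normalizer_eq_top]; exact le_top) hfpf (Or.inl hTc)
  obtain ⟨⟨t, ht⟩, hgen⟩ := hcyc.exists_generator
  have hT1 : T ≠ ⊥ := fun e => hF ((map_eq_bot_iff_of_injective F (stabilizer G α).subtype_injective).mp e)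
  have hTz : T = zpowers t := by
    refine le_antisymm (fun x hx => ?_) (by simpa using ht)
    obtain ⟨n, hn⟩ := hgen ⟨x, hx⟩
    exact ⟨n, congrArg Subtype.val hn⟩
  have ht1 : t ≠ 1 := fun e => hT1 (by rw [hTz, e, zpowers_one_eq_bot])
  have htq : t ^ q = 1 := by
    obtain ⟨x, hx, rfl⟩ := ht
    exact congrArg Subtype.val (hpow x hx)
  haveI := Fact.mk hq
  have hot : orderOf t = q := orderOf_eq_prime htq ht1
  have hTq : Nat.card T = q := by rw [hTz, Nat.card_zpowers, hot]
  have hFq : Nat.card F = q := by rw [Nat.card_congr eT.toEquiv, hTq]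
  have hdvd : q ∣ r ^ d - 1 := by
    rw [← hFq, ← hcard, ← Nat.card_eq_fintype_card]
    exact card_dvd_of_semiregular F hsr
  have hrq : r ≠ q := by
    rintro rfl
    have h1 : r ∣ r ^ d := dvd_pow_self r hd
    have h2 := (Nat.dvd_sub_iff_right (Nat.one_le_pow _ _ hr.pos) h1).mp hdvd
    exact hr.one_lt.ne' (Nat.dvd_one.mp h2)
  have hirr := (Cfsg.Agent.S3495.result hprim hH hep N hNc r hr hNp hNt hNr α T hT1 hTle hTn).2
  have hmin : ∀ B : Subgroup G, B ≤ N → t ∈ normalizer (B : Set G) → B = ⊥ ∨ B = N :=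
    fun B hB h => hirr B hB (by rw [hTz]; simpa using h)
  have htC : t ∉ centralizer (N : Set G) := fun h => hN1 (by
    rw [← hfpf t ht ht1]
    exact (inf_eq_left.mpr fun n hn => mem_centralizer_singleton_iff.mpr (h n hn)).symm)
  have hord := H77.card_eq_pow_orderOf_of_minimal hq hr hrq (A := N) ⟨hNc, hNp⟩ (g := t)
    (by rw [normalizer_eq_top]; trivial) (by rw [htq]; exact one_mem _) htC hmin
  rw [hNcard] at hord
  have hd' : d = orderOf (r : ZMod q) := Nat.pow_right_injective hr.two_le hord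
  -- the action of the stabiliser on `F`
  haveI : IsCyclic F := isCyclic_of_prime_card hFq
  let ψ : stabilizer G α →* MulAut F := MulAut.conjNormal
  have hker : ψ.ker = F := by
    refine Eq.trans ?_ hC
    ext x
    rw [MonoidHom.mem_ker, mem_centralizer_iff]
    constructor
    · intro h y hy
      have := congrArg Subtype.val (DFunLike.congr_fun h ⟨y, hy⟩)
      rw [MulAut.conjNormal_apply] at this
      exact (mul_inv_eq_iff_eq_mul.mp this).symm
    · intro h
      ext y
      simp only [ψ]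
      rw [MulAut.conjNormal_apply, ← h y y.2]
      simp
  haveI : IsCyclic (MulAut F) := by
    have e := IsCyclic.mulAutMulEquiv F
    rw [hFq] at e
    exact isCyclic_of_surjective e.symm e.symm.surjective
  obtain ⟨⟨_, h, rfl⟩, hh⟩ := (inferInstance : IsCyclic ψ.range).exists_generator
  have hall : ∀ k : stabilizer G α, ∃ n : ℤ, (h ^ n)⁻¹ * k ∈ F := fun k => by
    obtain ⟨n, hn⟩ := hh ⟨ψ k, k, rfl⟩
    refine ⟨n, ?_⟩
    rw [← hker, MonoidHom.mem_ker, map_mul, map_inv, map_zpow, inv_mul_eq_one]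
    exact congrArg Subtype.val hn
  refine ⟨q, hq, fun ω hω => ?_, hdvd, fun i hi hid hqi => ?_, T, hTle, hTn, hTq, ⟨h, ?_⟩, ?_⟩
  · haveI := (key ω hω).2.2.2.1
    rw [← H26.card_eq_of_regular ((key ω hω).2.2.1 ⟨ω, mem_orbit_self ω⟩), hFq]
  · have : (r : ZMod q) ^ i = 1 := by
      have h1 := (ZMod.natCast_eq_zero_iff _ _).mpr hqi
      rw [Nat.cast_sub (Nat.one_le_pow _ _ hr.pos), sub_eq_zero] at h1
      exact_mod_cast h1
    exact absurd (Nat.le_of_dvd hi (orderOf_dvd_of_pow_eq_one this)) (by omega)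
  · refine le_antisymm (fun k hk => ?_) (sup_le hTle (by simp))
    obtain ⟨n, hn⟩ := hall ⟨k, hk⟩
    have h1 : ((h : G) ^ n)⁻¹ * k ∈ T := ⟨_, hn, rfl⟩
    have := mul_mem (mem_sup_right (zpow_mem (mem_zpowers (h : G)) n) : _ ∈ T ⊔ zpowers (h : G))
      (mem_sup_left h1)
    simpa using this
  · have hE : IsMulCommutative N ∧ ∀ x : N, x ^ r = 1 := ⟨hNc, fun x => Subtype.ext (hNp x x.2)⟩
    let ρ : G →* Module.End (ZMod r) (H46.EA r N hE) := (H46.EA.rep hE).comp MulAut.conjNormal
    haveI : Nontrivial N := (nontrivial_iff_ne_bot N).mpr hN1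
    haveI : Nontrivial (H46.EA r N hE) := (H46.EA.of hE).symm.nontrivial
    obtain ⟨m, hm⟩ : ∃ m : ℕ, (h : G)⁻¹ * t * h = t ^ m := by
      have : (h : G)⁻¹ * t * h ∈ T := (mem_normalizer_iff''.mp (hTn h.2) t).mp ht
      rw [hTz, ← mem_powers_iff_mem_zpowers] at this
      obtain ⟨m, hm⟩ := this
      exact ⟨m, hm.symm⟩
    have hcomm := pow_finrank_commute (ρ t) (fun W hW => by
      rcases hmin (((H46.EA.subgroupEquiv hE).symm W).map N.subtype) (map_subtype_le _) (by
          apply mem_normalizer_fintype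
          rintro _ ⟨n, hn, rfl⟩
          exact ⟨MulAut.conjNormal t n, hW _ hn, rfl⟩) with h1 | h1
      · left
        rw [map_eq_bot_iff_of_injective _ N.subtype_injective] at h1
        rw [← (H46.EA.subgroupEquiv hE).apply_symm_apply W, h1, OrderIso.map_bot]
      · right
        rw [eq_top_iff]
        intro v _
        have : (((H46.EA.of hE).symm v : N) : G) ∈
            ((H46.EA.subgroupEquiv hE).symm W).map N.subtype := h1.symm ▸ ((H46.EA.of hE).symm v).2
        obtain ⟨n, hn, e⟩ := this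
        have e' : n = (H46.EA.of hE).symm v := Subtype.ext e
        rw [e'] at hn
        exact hn) (ρ.toHomUnits h) m (by
      rw [← map_inv, MonoidHom.coe_toHomUnits, MonoidHom.coe_toHomUnits, ← map_mul, ← map_mul, hm,
        map_pow])
    rw [H46.EA.finrank_eq_of_card hE hNcard, MonoidHom.coe_toHomUnits, ← map_pow] at hcomm
    have h1 : (h : G) ^ d * t = t * (h : G) ^ d := by
      have h2 : ρ ((h : G) ^ d * t) = ρ (t * (h : G) ^ d) := by rw [map_mul, map_mul, hcomm.eq]
      have h3 := H46.EA.rep_injective hE h2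
      rw [← mul_inv_eq_one, ← map_inv, ← map_mul] at h3
      rw [← mul_inv_eq_one]
      refine eq_one_of_centralizer_of_fix hNt (a := α) (fun n hn => ?_)
        (mul_mem (mul_mem (pow_mem h.2 d) (hTle ht)) (inv_mem (mul_mem (hTle ht) (pow_mem h.2 d))) :
          _ ∈ stabilizer G α)
      have := congrArg Subtype.val (DFunLike.congr_fun h3 ⟨n, hn⟩)
      rw [MulAut.conjNormal_apply] at this
      exact (mul_inv_eq_iff_eq_mul.mp this).symm
    have h4 : h ^ d ∈ ψ.ker := by
      rw [hker, ← hC]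
      intro y hy
      have : (y : G) ∈ zpowers t := hTz ▸ ⟨y, hy, rfl⟩
      obtain ⟨n, hn⟩ := mem_zpowers_iff.mp this
      apply Subtype.ext
      rw [coe_mul, coe_mul, ← hn, coe_pow]
      exact (Commute.zpow_right h1 n).eq.symm
    have h5 : Nat.card ψ.range ∣ d := by
      rw [← orderOf_eq_card_of_forall_mem_zpowers hh, orderOf_dvd_iff_pow_eq_one]
      exact Subtype.ext (by rw [coe_pow, ← map_pow]; exact h4)
    rw [← ψ.ker.card_mul_index, index_ker, hker, hFq]
    exact Nat.mul_dvd_mul_left q h5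

end Cfsg.Agent.S3496
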