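import Cfsg.Statements.S3497
import Mathlib
import Cfsg.Agent.Lib.ONS.Fit
import Cfsg.Agent.Lib.FF.EAGL


set_option autoImplicit false
open Cfsg

namespace Cfsg.Agent.S3497

open H74.ONS MulAction Subgroup

/-- Restrictions on the point stabilizer of an extremely primitive group. Let a finite group G act faithfully and primitively on a finite set Ω with point stabilizers H = G_α whose order is neither 1 nor a prime, each acting primitively on every one of its orbits. Then H has trivial center, the Fitting subgroup F(H) is an elementary abelian p-group for some prime p, and if F(H) ≠ 1 has order p ^ e then p ^ e divides the number of points minus one and H / F(H) embeds in GL_e(p) (there is a homomorphism from H to GL_e(p) with kernel exactly F(H)). -/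
theorem result {G : Type*} [Group G] [Finite G] {Ω : Type*} [Fintype Ω] [MulAction G Ω] [FaithfulSMul G Ω] (hprim : MulAction.IsPreprimitive G Ω) (hep : ∀ (α : Ω) (ω : Ω), MulAction.IsPreprimitive (MulAction.stabilizer G α) (MulAction.orbit (MulAction.stabilizer G α) ω)) (α : Ω)
    (hH1 : MulAction.stabilizer G α ≠ ⊥) (hHp : ¬ (Nat.card (MulAction.stabilizer G α)).Prime) :
    Subgroup.center (MulAction.stabilizer G α) = ⊥ ∧
    IsMulCommutative (Cfsg.fittingSubgroup (MulAction.stabilizer G α)) ∧
    ∃ p e : ℕ, p.Prime ∧ Nat.card (Cfsg.fittingSubgroup (MulAction.stabilizer G α)) = p ^ e ∧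
      (∀ x ∈ Cfsg.fittingSubgroup (MulAction.stabilizer G α), x ^ p = 1) ∧
      (Cfsg.fittingSubgroup (MulAction.stabilizer G α) ≠ ⊥ →
        p ^ e ∣ Fintype.card Ω - 1 ∧
        ∃ φ : MulAction.stabilizer G α →* GL (Fin e) (ZMod p), φ.ker = Cfsg.fittingSubgroup (MulAction.stabilizer G α)) := by
  obtain ⟨b, hb⟩ := exists_ne_of_stabilizer_ne_bot hH1
  have key := fun (c : Ω) (hc : c ≠ α) (hF : Cfsg.fittingSubgroup (stabilizer G α) ≠ ⊥) =>
    @prim_fitting (stabilizer G α) (orbit (stabilizer G α) c) _ _ _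
      (faithful_orbit hprim (hep α) hc) ⟨⟨c, mem_orbit_self c⟩⟩ (hep α c) hF
  by_cases hF : Cfsg.fittingSubgroup (stabilizer G α) = ⊥
  · refine ⟨eq_bot_iff.mpr (hF ▸ H1.center_le_fitting), by rw [hF]; infer_instance, 2, 0,
      Nat.prime_two, by rw [hF]; simp, fun x hx => ?_, fun h => absurd hF h⟩
    rw [hF, mem_bot] at hx
    rw [hx, one_pow]
  obtain ⟨hc, hC, -, -, p, hp, hpow⟩ := key b hb hF
  haveI := Fact.mk hp
  have hP : IsPGroup p (Cfsg.fittingSubgroup (stabilizer G α)) := fun x =>
    ⟨1, Subtype.ext (by simpa using hpow x x.2)⟩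
  obtain ⟨e, he⟩ := IsPGroup.iff_card.mp hP
  refine ⟨?_, hc, p, e, hp, he, hpow, fun _ => ⟨?_, ?_⟩⟩
  · by_contra hZ
    apply hHp
    refine prime_card_of_inf_eq_bot (hep α b) (eq_bot_iff.mpr fun x hx => mem_bot.mpr ?_) hH1
    haveI := faithful_orbit hprim (hep α) hb
    have := eq_one_of_centralizer_of_fix (H75.normal_isPretransitive' (hep α b) _ inferInstance hZ)
      (c := (⟨x, hx.1⟩ : stabilizer G α)) (fun z hz => (mem_center_iff.mp hz _).symm)
      (a := ⟨b, mem_orbit_self b⟩) (Subtype.ext hx.2)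
    exact congrArg Subtype.val this
  · rw [← he, ← Nat.card_eq_fintype_card]
    refine card_dvd_of_semiregular _ fun x hx c hc hxc => ?_
    exact eq_one_of_regular (key c hc hF).2.2.1 hx (ω := ⟨c, mem_orbit_self c⟩) (Subtype.ext hxc)
  · obtain ⟨f⟩ := H23.nonempty_mulAut_equiv_GL hc (fun w => Subtype.ext (by simpa using hpow w w.2)) he
    refine ⟨f.toMonoidHom.comp MulAut.conjNormal, ?_⟩
    refine Eq.trans ?_ hC
    ext x
    rw [MonoidHom.mem_ker, MonoidHom.comp_apply, MulEquiv.coe_toMonoidHom,
      EmbeddingLike.map_eq_one_iff, mem_centralizer_iff]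
    constructor
    · intro h y hy
      have := congrArg Subtype.val (DFunLike.congr_fun h ⟨y, hy⟩)
      rw [MulAut.conjNormal_apply] at this
      exact (mul_inv_eq_iff_eq_mul.mp this).symm
    · intro h
      ext y
      rw [MulAut.conjNormal_apply, ← h y y.2]
      simp

end Cfsg.Agent.S3497
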