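import Cfsg.Statements.S3504
import Mathlib


set_option autoImplicit false
open Cfsg

namespace Cfsg.Agent.S3504

open Equiv Equiv.Perm in
theorem ct {n : ℕ} {g : Perm (Fin n)} (hp : (orderOf g).Prime) (hg : ∀ i, g i ≠ i) :
    orderOf g ∣ n ∧ g.cycleType = Multiset.replicate (n / orderOf g) (orderOf g) := by
  obtain ⟨k, hk⟩ := cycleType_prime_order hp
  have hs : g.support = Finset.univ := by
    ext i; simp [hg i]
  have h1 := sum_cycleType g
  rw [hs, hk, Multiset.sum_replicate] at h1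
  simp only [smul_eq_mul, Finset.card_univ, Fintype.card_fin] at h1
  refine ⟨⟨k + 1, h1.symm.trans (mul_comm _ _)⟩, ?_⟩
  rw [hk]; congr 1
  exact (Nat.div_eq_of_eq_mul_left hp.pos h1.symm).symm

open Equiv Equiv.Perm in
theorem ex {n p : ℕ} (hn : 0 < n) (hp : p.Prime) (h : p ∣ n) :
    ∃ g : Perm (Fin n), orderOf g = p ∧ ∀ i, g i ≠ i := by
  obtain ⟨k, rfl⟩ := h
  have hk : k ≠ 0 := by rintro rfl; simp at hn
  obtain ⟨g, hg⟩ := (exists_with_cycleType_iff (Fin (p * k)) (m := Multiset.replicate k p)).2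
    ⟨by simp [mul_comm], fun a ha => by rw [Multiset.eq_of_mem_replicate ha]; exact hp.two_le⟩
  refine ⟨g, ?_, fun i => ?_⟩
  · rw [← lcm_cycleType, hg]
    apply Nat.dvd_antisymm
    · exact Multiset.lcm_dvd.mpr fun b hb => by rw [Multiset.eq_of_mem_replicate hb]
    · exact Multiset.dvd_lcm (Multiset.mem_replicate.mpr ⟨hk, rfl⟩)
  · have h1 := sum_cycleType g
    rw [hg, Multiset.sum_replicate, smul_eq_mul] at h1
    have : g.support = Finset.univ := Finset.eq_univ_of_card _ (by rw [← h1]; simp [mul_comm])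
    rw [← mem_support, this]; exact Finset.mem_univ _

/-- For n ≥ 5, the fixed-point-free permutations of prime order in the symmetric group of degree n form a single conjugacy class if and only if n is a prime power. -/
theorem result (n : ℕ) (hn : 5 ≤ n) :
    Nat.card {c : ConjClasses (Equiv.Perm (Fin n)) // ∃ g : Equiv.Perm (Fin n), ConjClasses.mk g = c ∧ (orderOf g).Prime ∧ ∀ i : Fin n, g i ≠ i} = 1 ↔ IsPrimePow n := by
  rw [isPrimePow_iff_unique_prime_dvd, Nat.card_eq_one_iff_unique]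
  constructor
  · rintro ⟨hs, ⟨c, g, rfl, hp, hg⟩⟩
    refine ⟨orderOf g, ⟨hp, (ct hp hg).1⟩, fun q ⟨hq, hqn⟩ => ?_⟩
    obtain ⟨x, hx, hx'⟩ := ex (by omega) hq hqn
    have := hs.elim ⟨_, g, rfl, hp, hg⟩ ⟨_, x, rfl, hx ▸ hq, hx'⟩
    have h2 : IsConj g x := ConjClasses.mk_eq_mk_iff_isConj.mp (congrArg Subtype.val this)
    rw [← hx, ← Equiv.Perm.lcm_cycleType, ← Equiv.Perm.lcm_cycleType,
      Equiv.Perm.isConj_iff_cycleType_eq.mp h2]
  · rintro ⟨p, ⟨hp, hpn⟩, hu⟩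
    refine ⟨⟨?_⟩, ?_⟩
    · rintro ⟨_, g, rfl, hg, hg'⟩ ⟨_, x, rfl, hx, hx'⟩
      refine Subtype.ext (ConjClasses.mk_eq_mk_iff_isConj.mpr ?_)
      rw [Equiv.Perm.isConj_iff_cycleType_eq, (ct hg hg').2, (ct hx hx').2,
        hu _ ⟨hg, (ct hg hg').1⟩, hu _ ⟨hx, (ct hx hx').1⟩]
    · obtain ⟨x, hx, hx'⟩ := ex (by omega) hp hpn
      exact ⟨⟨_, x, rfl, hx ▸ hp, hx'⟩⟩

end Cfsg.Agent.S3504
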