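import Cfsg.Statements.S3508
import Mathlib
import Cfsg.Agent.Lib.BG3.ElemAb
import Cfsg.Agent.Lib.Perm.Basic


set_option autoImplicit false
open Cfsg

namespace Cfsg.Agent.S3508

open Polynomial in
theorem geom (p k : ℕ) [Fact p.Prime] :
    (∑ i ∈ Finset.range (p ^ k), (X : (ZMod p)[X]) ^ i) = (X - 1) ^ (p ^ k - 1) := by
  have h0 : (X - 1 : (ZMod p)[X]) ≠ 0 := by simpa using X_sub_C_ne_zero (1 : ZMod p)
  apply mul_right_cancel₀ h0
  have hpos : 1 ≤ p ^ k := Nat.one_le_pow _ _ (Fact.out : p.Prime).pos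
  rw [geom_sum_mul, ← pow_succ, Nat.sub_add_cancel hpos, sub_pow_char_pow, one_pow]

theorem geomEnd (p k : ℕ) [Fact p.Prime] {A : Type*} [Ring A] [Algebra (ZMod p) A] (x : A) :
    (∑ i ∈ Finset.range (p ^ k), x ^ i) = (x - 1) ^ (p ^ k - 1) := by
  have := congrArg (Polynomial.aeval x) (geom p k)
  simpa [map_sum] using this

theorem powEnd (p k : ℕ) [Fact p.Prime] {A : Type*} [Ring A] [Algebra (ZMod p) A] (x : A) :
    x ^ (p ^ k) - 1 = (x - 1) ^ (p ^ k) := by
  have hpos : 1 ≤ p ^ k := Nat.one_le_pow _ _ (Fact.out : p.Prime).pos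
  rw [← geom_sum_mul, geomEnd, ← pow_succ, Nat.sub_add_cancel hpos]

/-- Let a finite group G act faithfully on a set Ω with p ^ m points (p prime) and have an elementary abelian normal p-subgroup N acting regularly on Ω (so G is a group of affine transformations of an m-dimensional space over the field with p elements). If G contains an element of order p ^ r with r ≥ 1, then p ^ (r − 1) ≤ m. In particular an element of order p ^ m forces m ≤ 2, and m ≤ 1 when p is odd. -/
theorem result {G : Type*} [Group G] [Finite G] {Ω : Type*} [Fintype Ω] [MulAction G Ω] [FaithfulSMul G Ω] (p m : ℕ) (hp : p.Prime) (hcard : Fintype.card Ω = p ^ m)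
    (N : Subgroup G) [N.Normal] (hNc : IsMulCommutative N) (hNp : ∀ n ∈ N, n ^ p = 1)
    (hNtr : MulAction.IsPretransitive N Ω) (hNreg : ∀ ω : Ω, MulAction.stabilizer N ω = ⊥)
    (g : G) (r : ℕ) (hr : 1 ≤ r) (hg : orderOf g = p ^ r) :
    p ^ (r - 1) ≤ m ∧ (r = m → m ≤ 2 ∧ (2 < p → m ≤ 1)) := by
  haveI := Fact.mk hp
  have hne : Nonempty Ω := Fintype.card_pos_iff.mp (by rw [hcard]; exact pow_pos hp.pos m)
  obtain ⟨ω⟩ := hne
  have hN : Nat.card N = p ^ m := by
    rw [H26.card_eq_of_regular (hNreg ω), Nat.card_eq_fintype_card, hcard]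
  have h : IsMulCommutative N ∧ ∀ x : N, x ^ p = 1 := ⟨hNc, fun x => Subtype.ext (hNp x x.2)⟩
  have hfr := H46.EA.finrank_eq_of_card h hN
  let φ : Module.End (ZMod p) (H46.EA p N h) := H46.EA.rep h (MulAut.conjNormal g)
  have hφ : ∀ (j : ℕ) (n : N), (φ ^ j) (H46.EA.of h n) = H46.EA.of h (MulAut.conjNormal (g ^ j) n) := by
    intro j n
    simp only [φ]
    rw [← map_pow, ← map_pow, H46.EA.rep_of]
  have hnil : IsNilpotent (φ - 1) := by
    refine ⟨p ^ r, ?_⟩
    rw [← powEnd, sub_eq_zero]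
    simp only [φ]
    rw [← map_pow, ← map_pow, ← hg, pow_orderOf_eq_one, map_one, map_one]
  have hm : (φ - 1) ^ m = 0 := by
    have := LinearMap.aeval_self_charpoly (φ - 1)
    rw [hnil.charpoly_eq_X_pow_finrank, hfr] at this
    simpa using this
  have key : p ^ (r - 1) ≤ m := by
    by_contra hlt
    push Not at hlt
    obtain ⟨n, hn⟩ := hNtr.exists_smul_eq ω (g • ω)
    have hsum : ∀ j : ℕ, g ^ j • ω =
        (((H46.EA.of h).symm ((∑ i ∈ Finset.range j, φ ^ i) (H46.EA.of h n)) : N) : G) • ω := by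
      intro j
      induction j with
      | zero => simp; exact (one_smul _ _).symm
      | succ j ih =>
        rw [Finset.sum_range_succ, LinearMap.add_apply, hφ,
          add_comm ((∑ i ∈ Finset.range j, φ ^ i) (H46.EA.of h n))]
        set a := (H46.EA.of h).symm ((∑ i ∈ Finset.range j, φ ^ i) (H46.EA.of h n)) with ha
        have : (∑ i ∈ Finset.range j, φ ^ i) (H46.EA.of h n) = H46.EA.of h a := by rw [ha]; simp
        rw [this, ← H46.EA.of_mul, Equiv.symm_apply_apply, Subgroup.coe_mul, mul_smul, ← ih,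
          MulAut.conjNormal_apply, ← mul_smul, inv_mul_cancel_right, mul_smul, pow_succ, mul_smul]
        exact congrArg _ hn.symm
    have h1 : g ^ p ^ (r - 1) • ω = ω := by
      rw [hsum, geomEnd, pow_eq_zero_of_le (by omega) hm]
      exact one_smul _ _
    have h2 : φ ^ p ^ (r - 1) = 1 := by
      rw [← sub_eq_zero, powEnd, pow_eq_zero_of_le hlt.le hm]
    have h3 : g ^ p ^ (r - 1) = 1 := by
      apply FaithfulSMul.eq_of_smul_eq_smul (α := Ω)
      intro x
      obtain ⟨c, rfl⟩ := hNtr.exists_smul_eq ω x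
      have h4 := hφ (p ^ (r - 1)) c
      rw [h2] at h4
      have h5 : (c : G) = g ^ p ^ (r - 1) * c * (g ^ p ^ (r - 1))⁻¹ :=
        congrArg Subtype.val ((H46.EA.of h).injective h4)
      rw [one_smul, Subgroup.smul_def, ← mul_smul]
      conv_rhs => rw [h5, ← h1, ← mul_smul, inv_mul_cancel_right, mul_smul]
      rw [mul_smul]
    have h6 := orderOf_dvd_of_pow_eq_one h3
    rw [hg, Nat.pow_dvd_pow_iff_le_right hp.one_lt] at h6
    omega
  refine ⟨key, fun hrm => ?_⟩
  subst hrm
  have hb : ∀ q, q ≤ p → q ^ (r - 1) ≤ r := fun q hq => (Nat.pow_le_pow_left hq _).trans key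
  constructor
  · by_contra hc
    have h2 := hb 2 hp.two_le
    obtain ⟨s, rfl⟩ : ∃ s, r = s + 3 := ⟨r - 3, by omega⟩
    have : s < 2 ^ s := Nat.lt_two_pow_self
    simp only [show s + 3 - 1 = s + 2 by omega, pow_succ] at h2
    omega
  · intro h2p
    by_contra hc
    have h2 := hb 3 h2p
    obtain ⟨s, rfl⟩ : ∃ s, r = s + 2 := ⟨r - 2, by omega⟩
    have : s < 3 ^ s := Nat.lt_pow_self (by norm_num)
    simp only [show s + 2 - 1 = s + 1 by omega, pow_succ] at h2
    omega

end Cfsg.Agent.S3508
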