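import Cfsg.Statements.S3511
import Mathlib


set_option autoImplicit false
open Cfsg

namespace Cfsg.Agent.S3511

/-- Let a finite group G act faithfully on a set Ω. If every element of G of square-free order has a regular cycle (an orbit of the cyclic group it generates with trivial stabilizer), then every element of G has a regular cycle. -/
theorem result {G : Type*} [Group G] [Finite G] {Ω : Type*} [MulAction G Ω] [FaithfulSMul G Ω]
    (h : ∀ g : G, Squarefree (orderOf g) → ∃ ω : Ω, MulAction.stabilizer (Subgroup.zpowers g) ω = ⊥) (g : G) :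
    ∃ ω : Ω, MulAction.stabilizer (Subgroup.zpowers g) ω = ⊥ := by
  classical
  set n := orderOf g with hn
  have hn0 : n ≠ 0 := (orderOf_pos g).ne'
  set r := ∏ p ∈ n.primeFactors, p with hr
  have hrd : r ∣ n := Nat.prod_primeFactors_dvd n
  obtain ⟨m, hm⟩ := hrd
  have hm0 : m ≠ 0 := by rintro rfl; simp at hm; exact hn0 hm
  have hr0 : r ≠ 0 := by rintro h0; rw [h0] at hm; simp at hm; exact hn0 hm
  have hord : orderOf (g ^ m) = r := by
    rw [orderOf_pow_of_dvd hm0 (by rw [← hn, hm]; exact Dvd.intro_left _ rfl), ← hn, hm,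
      Nat.mul_div_cancel _ (Nat.pos_of_ne_zero hm0)]
  have hsq : Squarefree (orderOf (g ^ m)) := by
    rw [hord, hr]
    exact Finset.squarefree_prod_of_pairwise_isCoprime
      (fun p hp q hq hpq => by
        have := (Nat.coprime_primes (Nat.prime_of_mem_primeFactors hp)
          (Nat.prime_of_mem_primeFactors hq)).mpr hpq
        exact Nat.coprime_iff_isRelPrime.mp this)
      (fun p hp => (Nat.prime_of_mem_primeFactors hp).prime.squarefree)
  obtain ⟨ω, hω⟩ := h _ hsq
  refine ⟨ω, ?_⟩
  by_contra hne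
  -- the stabilizer contains an element of prime order
  haveI : Nontrivial (MulAction.stabilizer (Subgroup.zpowers g) ω) :=
    (Subgroup.nontrivial_iff_ne_bot _).mpr hne
  obtain ⟨p, hp, hpd⟩ := Nat.exists_prime_and_dvd
    (Finite.one_lt_card (α := MulAction.stabilizer (Subgroup.zpowers g) ω)).ne'
  haveI := Fact.mk hp
  obtain ⟨x, hx⟩ := exists_prime_orderOf_dvd_card' p hpd
  have hx1 : orderOf ((x : Subgroup.zpowers g) : G) = p := by
    rw [Subgroup.orderOf_coe, Subgroup.orderOf_coe, hx]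
  obtain ⟨k, hk⟩ := (mem_zpowers_iff_mem_range_orderOf.mp (x : Subgroup.zpowers g).2 |> Finset.mem_image.mp)
  obtain ⟨-, hk⟩ := hk
  have hpn : p ∣ n := by
    rw [← hx1, ← hk, hn]; exact orderOf_pow_dvd k
  have hpr : p ∣ r := Finset.dvd_prod_of_mem _ (Nat.mem_primeFactors.mpr ⟨hp, hpn, hn0⟩)
  have hnk : n ∣ k * p := by
    rw [hn, orderOf_dvd_iff_pow_eq_one, pow_mul, hk, ← hx1, pow_orderOf_eq_one]
  have hmk : m ∣ k := by
    obtain ⟨s, hs⟩ := hpr
    have : m * p ∣ k * p := by
      refine Dvd.dvd.trans ?_ hnk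
      rw [hm, hs]; exact ⟨s, by ring⟩
    exact Nat.dvd_of_mul_dvd_mul_right hp.pos this
  obtain ⟨j, hj⟩ := hmk
  have hmem : ((x : Subgroup.zpowers g) : G) ∈ Subgroup.zpowers (g ^ m) := by
    rw [← hk, hj, pow_mul]; exact Subgroup.npow_mem_zpowers _ _
  have hst : (⟨_, hmem⟩ : Subgroup.zpowers (g ^ m)) ∈
      MulAction.stabilizer (Subgroup.zpowers (g ^ m)) ω := x.2
  rw [hω, Subgroup.mem_bot] at hst
  have : ((x : Subgroup.zpowers g) : G) = 1 := congrArg Subtype.val hst
  rw [this, orderOf_one] at hx1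
  exact hp.one_lt.ne hx1

end Cfsg.Agent.S3511
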