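import Cfsg.Statements.S3513
import Cfsg.Agent.Lib.PCon.Main

set_option autoImplicit false
open Cfsg

namespace Cfsg.Agent.S3513

/-- Primitive groups all of whose orbits on the power set have size prime to p. Let H be a primitive permutation group on n points whose order is divisible by the prime p. Then every orbit of H on the set of all subsets of the n points has size coprime to p if and only if one of the following holds: H contains the alternating group and n + 1 = a·p^s with s ≥ 1, 1 ≤ a ≤ p − 1 and (a, s) ≠ (1, 1), excluding the alternating group of degree 3 when (n, p) = (3, 2); or (n, p) = (8, 3) and H has order 1344 (the affine group AGL₃(2)) or is solvable of order 168 (the semilinear group AΓL₁(8)); or (n, p) = (5, 2) and H has order 10 (dihedral). (The known proof uses the classification of the finite simple groups.) -/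
theorem result (n : ℕ) (H : Subgroup (Equiv.Perm (Fin n))) (hprim : MulAction.IsPreprimitive H (Fin n)) (p : ℕ) (hp : p.Prime) (hdiv : p ∣ Nat.card H) :
    (∀ s : Set (Fin n), ¬ p ∣ Nat.card {t : Set (Fin n) // ∃ h ∈ H, t = h '' s}) ↔
    ((alternatingGroup (Fin n) ≤ H ∧ ∃ a s : ℕ, 1 ≤ s ∧ 1 ≤ a ∧ a ≤ p - 1 ∧ n + 1 = a * p ^ s ∧ ¬ (a = 1 ∧ s = 1) ∧
        ¬ (n = 3 ∧ p = 2 ∧ H = alternatingGroup (Fin n))) ∨
     (n = 8 ∧ p = 3 ∧ (Nat.card H = 1344 ∨ (Nat.card H = 168 ∧ Group.IsSolvable H))) ∨
     (n = 5 ∧ p = 2 ∧ Nat.card H = 10)) := by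
  haveI : Fact p.Prime := ⟨hp⟩
  have h := H68.PC.main hprim hdiv
  rw [Fintype.card_fin] at h
  exact H68.PC.set_iff.trans h

end Cfsg.Agent.S3513
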