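import Cfsg.Statements.S3514
import Mathlib
import Cfsg.Agent.Lib.Perm75.Prim


set_option autoImplicit false
open Cfsg

namespace Cfsg.Agent.S3514

theorem relIndex_mul_index_sup {G : Type*} [Group G] [Finite G] (S K : Subgroup G) [K.Normal] :
    S.relIndex K * (S ⊔ K).index = S.index := by
  have h1 := Subgroup.relIndex_mul_index (inf_le_right : S ⊓ K ≤ K)
  have h2 := Subgroup.relIndex_mul_index (inf_le_left : S ⊓ K ≤ S)
  have h3 := Subgroup.relIndex_mul_index (le_sup_right : K ≤ S ⊔ K)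
  rw [Subgroup.inf_relIndex_right] at h1
  rw [Subgroup.inf_relIndex_left] at h2
  rw [Subgroup.relIndex_sup_right] at h3
  have h0 : K.relIndex S ≠ 0 := Subgroup.FiniteIndex.index_ne_zero
  apply Nat.eq_of_mul_eq_mul_left (Nat.pos_of_ne_zero h0)
  rw [h2, ← h1, ← h3]; ring

theorem relIndex_dvd {G : Type*} [Group G] [Finite G] (S K X : Subgroup G) (hK : K ≤ X)
    (hX : X ≤ Subgroup.normalizer (K : Set G)) : S.relIndex K ∣ S.relIndex X := by
  haveI : (K.subgroupOf X).Normal := (Subgroup.normal_subgroupOf_iff_le_normalizer hK).mpr hX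
  have := relIndex_mul_index_sup (S.subgroupOf X) (K.subgroupOf X)
  rw [Subgroup.relIndex_subgroupOf hK] at this
  exact ⟨_, this.symm⟩

/-- Let p be a prime, V a finite vector space over the field with p elements, and H a group of linear transformations of V all of whose orbits on V have size coprime to p. (i) Every normal subgroup K of H has all its orbits on V of size coprime to p. (ii) If N is a group of linear transformations of V of order coprime to p that is normalized by H, then the group generated by N and H has all its orbits on V of size coprime to p. -/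
theorem result (p : ℕ) [Fact p.Prime] {V : Type*} [AddCommGroup V] [Module (ZMod p) V] [Finite V]
    (H : Subgroup (V ≃ₗ[ZMod p] V)) (hH : ∀ v : V, ¬ p ∣ Nat.card {u : V | ∃ h ∈ H, h v = u}) :
    (∀ K : Subgroup (V ≃ₗ[ZMod p] V), K ≤ H → H ≤ Subgroup.normalizer (K : Set (V ≃ₗ[ZMod p] V)) →
        ∀ v : V, ¬ p ∣ Nat.card {u : V | ∃ k ∈ K, k v = u}) ∧
    (∀ N : Subgroup (V ≃ₗ[ZMod p] V), ¬ p ∣ Nat.card N → H ≤ Subgroup.normalizer (N : Set (V ≃ₗ[ZMod p] V)) →
        ∀ v : V, ¬ p ∣ Nat.card {u : V | ∃ x ∈ N ⊔ H, x v = u}) := by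
  haveI : Finite (V ≃ₗ[ZMod p] V) := Finite.of_injective (fun f => (f : V → V)) DFunLike.coe_injective
  have key : ∀ (X : Subgroup (V ≃ₗ[ZMod p] V)) (v : V), Nat.card {u : V | ∃ h ∈ X, h v = u} =
      (MulAction.stabilizer (V ≃ₗ[ZMod p] V) v).relIndex X := by
    intro X v
    rw [← H75.card_orbit_subgroup]
    congr 2
    ext u
    exact ⟨fun ⟨h, hh, e⟩ => ⟨⟨h, hh⟩, e⟩, fun ⟨h, e⟩ => ⟨h, h.2, e⟩⟩
  simp only [key] at hH ⊢
  refine ⟨fun K hK hn v h => hH v (h.trans (relIndex_dvd _ K H hK hn)), fun N hN hn v h => ?_⟩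
  set S := MulAction.stabilizer (V ≃ₗ[ZMod p] V) v
  have h1 : S.relIndex (N ⊔ H) ∣ (S ⊓ H).relIndex (N ⊔ H) :=
    Subgroup.relIndex_dvd_of_le_left _ inf_le_left
  rw [← Subgroup.relIndex_mul_relIndex (S ⊓ H) H (N ⊔ H) inf_le_right le_sup_right,
    Subgroup.inf_relIndex_right] at h1
  rcases (Nat.Prime.dvd_mul Fact.out).mp (h.trans h1) with h2 | h2
  · exact hH v h2
  · apply hN
    haveI : (N.subgroupOf (N ⊔ H)).Normal :=
      (Subgroup.normal_subgroupOf_iff_le_normalizer le_sup_left).mpr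
        (sup_le Subgroup.le_normalizer hn)
    have h3 := relIndex_mul_index_sup (H.subgroupOf (N ⊔ H)) (N.subgroupOf (N ⊔ H))
    rw [Subgroup.relIndex_subgroupOf le_sup_left, ← Subgroup.subgroupOf_sup le_sup_right le_sup_left,
      sup_comm H N, Subgroup.subgroupOf_self, Subgroup.index_top, mul_one] at h3
    have h4 : H.relIndex N ∣ Nat.card N := Subgroup.index_dvd_card _
    exact (h3 ▸ h2 : p ∣ H.relIndex N).trans h4

end Cfsg.Agent.S3514
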