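import Cfsg.Statements.S3516
import Mathlib


set_option autoImplicit false
open Cfsg

namespace Cfsg.Agent.S3516

theorem affine_of_triples {K V : Type*} [Field K] [AddCommGroup V] [Module K V] (h2 : (2 : K) ≠ 0)
    (σ : Equiv.Perm V)
    (h : ∀ t : Fin 3 → V, ∃ (A : V ≃ₗ[K] V) (b : V), ∀ i, σ (t i) = A (t i) + b) :
    ∃ (A : V ≃ₗ[K] V) (b : V), ∀ x, σ x = A x + b := by
  have key : ∀ (x y : V) (c : K), σ (x + c • (y - x)) = σ x + c • (σ y - σ x) := by
    intro x y c
    obtain ⟨A, b, hA⟩ := h ![x, y, x + c • (y - x)]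
    have h0 := hA 0
    have h1 := hA 1
    have h2 := hA 2
    simp only [Matrix.cons_val_zero, Matrix.cons_val_one, Matrix.cons_val] at h0 h1 h2
    rw [h0, h1, h2, map_add, map_smul, map_sub]
    module
  have hs : ∀ (c : K) (y : V), σ (c • y) - σ 0 = c • (σ y - σ 0) := by
    intro c y
    have := key 0 y c
    rw [zero_add, sub_zero] at this
    rw [this]; abel
  have ha : ∀ x y : V, σ (x + y) - σ 0 = (σ x - σ 0) + (σ y - σ 0) := by
    intro x y
    have e1 := key x y (2 : K)⁻¹
    have e2 := hs 2 (x + (2 : K)⁻¹ • (y - x))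
    have e3 : (2 : K) • (x + (2 : K)⁻¹ • (y - x)) = x + y := by
      rw [smul_add, smul_smul, mul_inv_cancel₀ h2]; module
    rw [e3, e1, smul_sub, smul_add, smul_smul, mul_inv_cancel₀ h2] at e2
    rw [e2]; module
  let f : V →ₗ[K] V :=
    { toFun := fun x => σ x - σ 0
      map_add' := ha
      map_smul' := hs }
  have hf : Function.Bijective f :=
    (Equiv.subRight (σ 0)).bijective.comp σ.bijective
  exact ⟨LinearEquiv.ofBijective f hf, σ 0, fun x => by simp [f]⟩

/-- Let p be an odd prime, d ≥ 3, and G a group of affine permutations x ↦ Ax + b of V = F_p^d containing all translations and all maps x ↦ Ax with A of determinant 1. Then the 3-closure of G is the full affine group: a permutation σ of V agrees on every triple of points with some element of G if and only if σ is an affine map. -/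
theorem result (p : ℕ) [Fact p.Prime] (hp : p ≠ 2) (d : ℕ) (hd : 3 ≤ d) (G : Subgroup (Equiv.Perm (Fin d → ZMod p)))
    (haff : (G : Set (Equiv.Perm (Fin d → ZMod p))) ⊆ {τ : Equiv.Perm (Fin d → ZMod p) | ∃ (A : (Fin d → ZMod p) ≃ₗ[ZMod p] (Fin d → ZMod p)) (b : Fin d → ZMod p), ∀ x, τ x = A x + b})
    (htrans : ∀ b : Fin d → ZMod p, ∃ g ∈ G, ∀ x, g x = x + b)
    (hsl : ∀ A : (Fin d → ZMod p) ≃ₗ[ZMod p] (Fin d → ZMod p), LinearMap.det (A : (Fin d → ZMod p) →ₗ[ZMod p] (Fin d → ZMod p)) = 1 → ∃ g ∈ G, ∀ x, g x = A x)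
    (σ : Equiv.Perm (Fin d → ZMod p)) :
    (∀ t : Fin 3 → (Fin d → ZMod p), ∃ g ∈ G, ∀ i, σ (t i) = g (t i)) ↔ σ ∈ {τ : Equiv.Perm (Fin d → ZMod p) | ∃ (A : (Fin d → ZMod p) ≃ₗ[ZMod p] (Fin d → ZMod p)) (b : Fin d → ZMod p), ∀ x, τ x = A x + b} := by
  constructor
  · intro h
    have h2 : (2 : ZMod p) ≠ 0 := by
      intro h0
      have : ((2 : ℕ) : ZMod p) = 0 := by exact_mod_cast h0
      rw [ZMod.natCast_eq_zero_iff] at this
      exact hp ((Nat.prime_dvd_prime_iff_eq Fact.out Nat.prime_two).mp this)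
    refine affine_of_triples h2 σ fun t => ?_
    obtain ⟨g, hg, hgt⟩ := h t
    obtain ⟨A, b, hA⟩ := haff hg
    exact ⟨A, b, fun i => by rw [hgt, hA]⟩
  · rintro ⟨A, b, hA⟩ t
    set W : Submodule (ZMod p) (Fin d → ZMod p) := Submodule.span (ZMod p) {t 1 - t 0, t 2 - t 0}
    have hW : W < ⊤ := by
      rw [lt_top_iff_ne_top]
      intro hT
      have h1 : Module.finrank (ZMod p) W ≤ 2 := by
        have := finrank_span_le_card (R := ZMod p) ({t 1 - t 0, t 2 - t 0} : Set (Fin d → ZMod p))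
        refine this.trans ?_
        rw [Set.toFinset_insert, Set.toFinset_singleton]
        exact Finset.card_le_two
      rw [hT, finrank_top] at h1
      simp at h1
      omega
    obtain ⟨f, hf0, hf⟩ := W.exists_dual_map_eq_bot_of_lt_top hW inferInstance
    have hfW : ∀ w ∈ W, f w = 0 := fun w hw => by
      rw [← Submodule.mem_bot (ZMod p), ← hf]; exact Submodule.mem_map_of_mem hw
    obtain ⟨e, he⟩ : ∃ e, f e ≠ 0 := by
      by_contra hc
      push Not at hc
      exact hf0 (LinearMap.ext hc)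
    set c := LinearMap.det (A : (Fin d → ZMod p) →ₗ[ZMod p] (Fin d → ZMod p)) with hc
    have hc0 : c ≠ 0 := (LinearEquiv.isUnit_det' A).ne_zero
    set D := LinearMap.transvection f (((c⁻¹ - 1) / f e) • e) with hD
    have hdet : LinearMap.det D = c⁻¹ := by
      rw [hD, LinearMap.transvection.det, map_smul, smul_eq_mul, div_mul_cancel₀ _ he]; ring
    let D' := LinearMap.equivOfDetNeZero D (by rw [hdet]; exact inv_ne_zero hc0)
    obtain ⟨g, hg, hgx⟩ := hsl (D'.trans A) (by
      have : ((D'.trans A : _ ≃ₗ[ZMod p] _) : (Fin d → ZMod p) →ₗ[ZMod p] (Fin d → ZMod p)) =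
          (A : (Fin d → ZMod p) →ₗ[ZMod p] (Fin d → ZMod p)) * D := rfl
      rw [this, map_mul, hdet, ← hc, mul_inv_cancel₀ hc0])
    obtain ⟨k, hk, hkx⟩ := htrans (σ (t 0))
    obtain ⟨l, hl, hlx⟩ := htrans (-t 0)
    refine ⟨k * g * l, G.mul_mem (G.mul_mem hk hg) hl, fun i => ?_⟩
    have hi : t i - t 0 ∈ W := by
      fin_cases i
      · simp
      · exact Submodule.subset_span (by simp)
      · exact Submodule.subset_span (by simp)
    rw [Equiv.Perm.mul_apply, Equiv.Perm.mul_apply, hkx, hgx, hlx, hA, hA, ← sub_eq_add_neg]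
    have : (D'.trans A) (t i - t 0) = A (t i - t 0) := by
      change A (D (t i - t 0)) = _
      rw [hD, LinearMap.transvection.apply, hfW _ hi, zero_smul, add_zero]
    rw [this, map_sub]; abel

end Cfsg.Agent.S3516
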