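import Cfsg.Statements.S3515
import Mathlib
import Cfsg.Agent.S3516


set_option autoImplicit false
open Cfsg

namespace Cfsg.Agent.S3515

theorem aux : ∀ (x : Fin 2 → ZMod 2), x ≠ ![1, 1] → x = 0 ∨ x = Pi.single 0 1 ∨ x = Pi.single 1 1 := by
  decide

/-- Every primitive affine permutation group of degree p² is 3-closed. Let p be a prime and G a group of permutations of the plane V = F_p² consisting of affine maps x ↦ Ax + b, containing all translations, and acting primitively on V. Then any permutation σ of V that agrees on every triple of points with some element of G (σ preserves every G-orbit on ordered triples) already lies in G. -/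
theorem result (p : ℕ) [Fact p.Prime] (G : Subgroup (Equiv.Perm (Fin 2 → ZMod p)))
    (haff : (G : Set (Equiv.Perm (Fin 2 → ZMod p))) ⊆ {τ : Equiv.Perm (Fin 2 → ZMod p) | ∃ (A : (Fin 2 → ZMod p) ≃ₗ[ZMod p] (Fin 2 → ZMod p)) (b : Fin 2 → ZMod p), ∀ x, τ x = A x + b})
    (htrans : ∀ b : Fin 2 → ZMod p, ∃ g ∈ G, ∀ x, g x = x + b) (hprim : MulAction.IsPreprimitive G (Fin 2 → ZMod p))
    (σ : Equiv.Perm (Fin 2 → ZMod p)) (hσ : (∀ t : Fin 3 → (Fin 2 → ZMod p), ∃ g ∈ G, ∀ i, σ (t i) = g (t i))) : σ ∈ G := by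
  let t : Fin 3 → (Fin 2 → ZMod p) := ![0, Pi.single 0 1, Pi.single 1 1]
  obtain ⟨g, hg, hgt⟩ := hσ t
  have h0 := hgt 0
  have h1 := hgt 1
  have h2 := hgt 2
  simp only [t, Matrix.cons_val_zero, Matrix.cons_val_one, Matrix.cons_val] at h0 h1 h2
  suffices σ = g by rw [this]; exact hg
  by_cases hp : p = 2
  · subst hp
    have h3 : ∀ x : Fin 2 → ZMod 2, x ≠ ![1, 1] → σ x = g x := by
      intro x hx
      have : x = 0 ∨ x = Pi.single 0 1 ∨ x = Pi.single 1 1 := aux x hx
      rcases this with rfl | rfl | rfl <;> assumption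
    ext1 x
    by_cases hx : x = ![1, 1]
    · by_contra hne
      obtain ⟨y, hy⟩ := g.surjective (σ x)
      have hyx : y ≠ x := by rintro rfl; exact hne hy.symm
      rw [← h3 y (hx ▸ hyx)] at hy
      exact hyx (σ.injective hy)
    · exact h3 x hx
  · have h2' : (2 : ZMod p) ≠ 0 := by
      intro h0
      have : ((2 : ℕ) : ZMod p) = 0 := by exact_mod_cast h0
      rw [ZMod.natCast_eq_zero_iff] at this
      exact hp ((Nat.prime_dvd_prime_iff_eq Fact.out Nat.prime_two).mp this)
    obtain ⟨A, b, hA⟩ := Cfsg.Agent.S3516.affine_of_triples h2' σ fun t => by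
      obtain ⟨g, hg, hgt⟩ := hσ t
      obtain ⟨A, b, hA⟩ := haff hg
      exact ⟨A, b, fun i => by rw [hgt, hA]⟩
    obtain ⟨B, c, hB⟩ := haff hg
    rw [hA, hB] at h0 h1 h2
    simp only [map_zero, zero_add] at h0
    subst h0
    rw [add_left_inj] at h1 h2
    ext1 x
    have hx : x = x 0 • Pi.single 0 1 + x 1 • Pi.single 1 1 := by
      ext i; fin_cases i <;> simp
    rw [hA, hB, hx, map_add, map_add, map_smul, map_smul, map_smul, map_smul, h1, h2]

end Cfsg.Agent.S3515
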