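import Cfsg.Statements.S3517
import Mathlib


set_option autoImplicit false
open Cfsg

namespace Cfsg.Agent.S3517

theorem ext_li {K V ι : Type*} [Field K] [AddCommGroup V] [Module K V] [Finite ι] {v w : ι → V}
    (hv : LinearIndependent K v) (hw : LinearIndependent K w) :
    ∃ A : V ≃ₗ[K] V, ∀ i, A (v i) = w i := by
  let f := hv.linearCombinationEquiv.symm ≪≫ₗ hw.linearCombinationEquiv
  have : FiniteDimensional K (Submodule.span K (Set.range v)) :=
    FiniteDimensional.span_of_finite K (Set.finite_range _)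
  obtain ⟨g, hg⟩ := Submodule.exists_linearEquiv_restrict_eq f
  refine ⟨g, fun i => ?_⟩
  have q1 : (hv.linearCombinationEquiv (Finsupp.single i 1) : V) = v i := by simp
  have q2 : (hw.linearCombinationEquiv (Finsupp.single i 1) : V) = w i := by simp
  rw [← q1, ← hg, ← q2]
  simp [f]

theorem one_vec {V : Type*} [AddCommGroup V] [Module (ZMod 2) V] {u w : V} (h : u = 0 ↔ w = 0) :
    ∃ A : V ≃ₗ[ZMod 2] V, A u = w := by
  by_cases hu : u = 0
  · exact ⟨LinearEquiv.refl _ _, by rw [hu, h.mp hu, map_zero]⟩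
  · obtain ⟨A, hA⟩ := ext_li (K := ZMod 2) (v := ![u]) (w := ![w])
      (by simpa [linearIndependent_unique_iff] using hu)
      (by simpa [linearIndependent_unique_iff] using mt h.mpr hu)
    exact ⟨A, hA 0⟩

theorem li_two {V : Type*} [AddCommGroup V] [Module (ZMod 2) V] {u v : V} (hu : u ≠ 0) (hv : v ≠ 0)
    (h : u ≠ v) : LinearIndependent (ZMod 2) ![u, v] := by
  rw [LinearIndependent.pair_iff' hu]
  intro a
  have ha : a = 0 ∨ a = 1 := by revert a; decide
  rcases ha with rfl | rfl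
  · simpa using hv.symm
  · simpa using h

theorem two_vec {V : Type*} [AddCommGroup V] [Module (ZMod 2) V] {u v w z : V}
    (h1 : u = 0 ↔ w = 0) (h2 : v = 0 ↔ z = 0) (h3 : u = v ↔ w = z) :
    ∃ A : V ≃ₗ[ZMod 2] V, A u = w ∧ A v = z := by
  by_cases hu : u = 0
  · obtain ⟨A, hA⟩ := one_vec h2
    exact ⟨A, by rw [hu, h1.mp hu, map_zero], hA⟩
  by_cases hv : v = 0
  · obtain ⟨A, hA⟩ := one_vec h1
    exact ⟨A, hA, by rw [hv, h2.mp hv, map_zero]⟩
  by_cases huv : u = v
  · obtain ⟨A, hA⟩ := one_vec h1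
    exact ⟨A, hA, by rw [← huv, ← h3.mp huv, hA]⟩
  obtain ⟨A, hA⟩ := ext_li (li_two hu hv huv) (li_two (mt h1.mpr hu) (mt h2.mpr hv) (mt h3.mpr huv))
  exact ⟨A, hA 0, hA 1⟩

/-- For d ≥ 3, the 3-closure of the affine group AGL_d(2) acting on F_2^d is the full symmetric group: every permutation of F_2^d agrees on every ordered triple of points with some affine map (AGL_d(2) is 3-transitive). -/
theorem result (d : ℕ) (hd : 3 ≤ d) (σ : Equiv.Perm (Fin d → ZMod 2)) (t : Fin 3 → (Fin d → ZMod 2)) :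
    ∃ (A : (Fin d → ZMod 2) ≃ₗ[ZMod 2] (Fin d → ZMod 2)) (b : Fin d → ZMod 2), ∀ i, σ (t i) = A (t i) + b := by
  obtain ⟨A, h1, h2⟩ := two_vec (u := t 1 - t 0) (v := t 2 - t 0) (w := σ (t 1) - σ (t 0))
    (z := σ (t 2) - σ (t 0)) (by simp [sub_eq_zero]) (by simp [sub_eq_zero]) (by simp)
  refine ⟨A, σ (t 0) - A (t 0), fun i => ?_⟩
  rw [map_sub] at h1 h2
  fin_cases i
  · simp
  · change σ (t 1) = A (t 1) + _
    linear_combination (exp := 1) -h1
  · change σ (t 2) = A (t 2) + _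
    linear_combination (exp := 1) -h2

end Cfsg.Agent.S3517
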