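import Cfsg.Statements.S3518
import Mathlib
import Cfsg.Agent.Lib.Perm.PrimeDegree
import Cfsg.Agent.Lib.Perm.Basic


set_option autoImplicit false
open Cfsg

namespace Cfsg.Agent.S3518

theorem aff_eq {K : Type*} [Field K] {σ τ : Equiv.Perm K} {a b c d : K} (hσ : ∀ x, σ x = a * x + b)
    (hτ : ∀ x, τ x = c * x + d) (h0 : σ 0 = τ 0) (h1 : σ 1 = τ 1) : σ = τ := by
  rw [hσ, hτ] at h0 h1
  ext x
  rw [hσ, hτ]
  linear_combination (1 - x) * h0 + x * h1

/-- The 2-closure. -/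
def cl2 {Ω : Type*} (G : Subgroup (Equiv.Perm Ω)) : Subgroup (Equiv.Perm Ω) where
  carrier := {σ | ∀ t : Fin 2 → Ω, ∃ g ∈ G, ∀ i, σ (t i) = g (t i)}
  one_mem' := fun _ => ⟨1, G.one_mem, fun _ => rfl⟩
  mul_mem' := by
    intro σ τ hσ hτ t
    obtain ⟨g, hg, h1⟩ := hτ t
    obtain ⟨k, hk, h2⟩ := hσ (fun i => τ (t i))
    exact ⟨k * g, G.mul_mem hk hg, fun i => by
      rw [Equiv.Perm.mul_apply, Equiv.Perm.mul_apply, h2, h1]⟩
  inv_mem' := by
    intro σ hσ t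
    obtain ⟨g, hg, h1⟩ := hσ (fun i => σ⁻¹ (t i))
    refine ⟨g⁻¹, G.inv_mem hg, fun i => ?_⟩
    rw [Equiv.Perm.eq_inv_iff_eq, ← h1]; simp

/-- Closures of subgroups of the one-dimensional affine group. Let p be a prime and G a group of permutations of F_p lying in the affine group AGL₁(p) = {x ↦ ax + b, a ≠ 0} and containing all translations. (1) If G is a proper subgroup of AGL₁(p), then G is 2-closed: a permutation of F_p agreeing on every ordered pair of points with some element of G lies in G. (2) Every permutation of F_p agrees on every ordered pair with some element of AGL₁(p) (the 2-closure of AGL₁(p) is the symmetric group). (3) AGL₁(p) is 3-closed: a permutation agreeing on every ordered triple with some affine map is affine. -/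
theorem result (p : ℕ) [Fact p.Prime] (G : Subgroup (Equiv.Perm (ZMod p))) (hG : G ≤ Cfsg.affineGroup (ZMod p))
    (htrans : ∀ b : ZMod p, ∃ g ∈ G, ∀ x, g x = x + b) :
    (G ≠ Cfsg.affineGroup (ZMod p) → ∀ σ : Equiv.Perm (ZMod p), (∀ t : Fin 2 → ZMod p, ∃ g ∈ G, ∀ i, σ (t i) = g (t i)) → σ ∈ G) ∧
    (∀ σ : Equiv.Perm (ZMod p), (∀ t : Fin 2 → ZMod p, ∃ g ∈ Cfsg.affineGroup (ZMod p), ∀ i, σ (t i) = g (t i))) ∧
    (∀ σ : Equiv.Perm (ZMod p), (∀ t : Fin 3 → ZMod p, ∃ g ∈ Cfsg.affineGroup (ZMod p), ∀ i, σ (t i) = g (t i)) → σ ∈ Cfsg.affineGroup (ZMod p)) := by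
  refine ⟨fun hne σ hσ => ?_, fun σ t => ?_, fun σ hσ => ?_⟩
  · obtain ⟨c, hc, hcx⟩ := htrans 1
    have hc' : c ∈ cl2 G := fun _ => ⟨c, hc, fun _ => rfl⟩
    rcases H26.affine_or_two_trans (G := cl2 G) (c := ⟨c, hc'⟩) (e := Equiv.refl (ZMod p))
      (fun j => hcx j) with h | h
    · obtain ⟨m, b, hm⟩ := h ⟨σ, hσ⟩
      obtain ⟨g, hg, hgt⟩ := hσ ![0, 1]
      obtain ⟨a, d, ha⟩ := hG hg
      rw [aff_eq (σ := σ) hm ha (hgt 0) (hgt 1)]; exact hg
    · exfalso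
      refine hne (le_antisymm hG ?_)
      rintro τ ⟨a, d, ha⟩
      obtain ⟨x, hx0, hx1⟩ := H26.trans2 h (zero_ne_one (α := ZMod p))
        (τ.injective.ne (zero_ne_one (α := ZMod p)))
      obtain ⟨g, hg, hgt⟩ := x.2 ![0, 1]
      obtain ⟨a', d', ha'⟩ := hG hg
      rw [aff_eq ha ha' (hx0.symm.trans (hgt 0)) (hx1.symm.trans (hgt 1))]; exact hg
  · by_cases h : t 0 = t 1
    · refine ⟨Equiv.addRight (σ (t 0) - t 0), ⟨1, σ (t 0) - t 0, fun x => by simp⟩, fun i => ?_⟩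
      fin_cases i
      · simp
      · simp [h]
    · have h1 : t 0 - t 1 ≠ 0 := sub_ne_zero.mpr h
      have h2 : σ (t 0) - σ (t 1) ≠ 0 := sub_ne_zero.mpr (σ.injective.ne h)
      let a : (ZMod p)ˣ := Units.mk0 _ (div_ne_zero h2 h1)
      refine ⟨(Equiv.addRight (σ (t 0) - a * t 0)) * a.mulLeft,
        ⟨a, σ (t 0) - a * t 0, fun x => by simp⟩, fun i => ?_⟩
      fin_cases i
      · simp
      · simp [a]
        field_simp
        ring
  · obtain ⟨g, ⟨a, b, hg⟩, hgt⟩ := hσ ![0, 1, 0]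
    refine ⟨a, b, fun x => ?_⟩
    obtain ⟨k, ⟨c, d, hk⟩, hkt⟩ := hσ ![0, 1, x]
    have := aff_eq hg hk ((hgt 0).symm.trans (hkt 0)) ((hgt 1).symm.trans (hkt 1))
    rw [← hg, this]
    exact hkt 2

end Cfsg.Agent.S3518
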