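import Mathlib
import Cfsg.Statements.S3548
import Cfsg.Agent.Lib.Perm75.Derange

set_option autoImplicit false
open Cfsg

namespace Cfsg.Agent.S3548
open MulAction H75

/-- Let G act faithfully and transitively on a finite set with n ≥ 2 points and let D be the subgroup generated by the derangements. Then the index of D in G divides n − 1, and if it equals n − 1 then n is a prime power. -/
theorem result {G Ω : Type*} [Group G] [Finite G] [MulAction G Ω] [FaithfulSMul G Ω] [Finite Ω]
    (htrans : MulAction.IsPretransitive G Ω) (hΩ : 2 ≤ Nat.card Ω) :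
    (Subgroup.closure {g : G | ∀ ω : Ω, g • ω ≠ ω}).index ∣ Nat.card Ω - 1 ∧
    ((Subgroup.closure {g : G | ∀ ω : Ω, g • ω ≠ ω}).index = Nat.card Ω - 1 → IsPrimePow (Nat.card Ω)) := by
  classical
  obtain ⟨h1, h2⟩ := H75.derSub_main htrans
  haveI : Nontrivial Ω := Finite.one_lt_card_iff_nontrivial.mp hΩ
  obtain ⟨a, b0, hab0⟩ := exists_pair_ne Ω
  set D := derSub G Ω with hD
  haveI hDn : D.Normal := derSub_normal G Ω
  have hc : ({a}ᶜ : Set Ω).ncard = Nat.card Ω - 1 := by
    rw [Set.ncard_compl, Set.ncard_singleton]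
  have hdvd : D.index ∣ Nat.card Ω - 1 := by
    rw [← hc]
    refine derSub_index_dvd_ncard htrans a _ (by simp) ?_
    intro g hg x hx h
    apply hx
    rw [Set.mem_singleton_iff] at h ⊢
    rw [← hg] at h
    exact smul_left_cancel g h
  refine ⟨hdvd, fun heq => ?_⟩
  -- the stabilizer of `a` is transitive on the other points
  have htr : ∀ b : Ω, b ≠ a → orbit (stabilizer G a) b = {a}ᶜ := by
    intro b hb
    have hsub : orbit (stabilizer G a) b ⊆ {a}ᶜ := by
      rintro _ ⟨g, rfl⟩ h
      apply hb
      have h' : (g : G) • b = a := h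
      have hg : (g : G) • a = a := g.2
      exact smul_left_cancel _ (h'.trans hg.symm)
    apply Set.eq_of_subset_of_ncard_le hsub
    rw [hc, ← heq]
    have hh := derSub_index_dvd_card_orbit htrans hb
    haveI : Nonempty (orbit (stabilizer G a) b) := ⟨⟨b, mem_orbit_self b⟩⟩
    exact Nat.le_of_dvd Nat.card_pos hh
  -- two point stabilizers coincide with `D ⊓ stabilizer`
  have hfix : ∀ b : Ω, b ≠ a → ∀ g ∈ D, g • a = a → g • b = b := by
    intro b hb g hgD hga
    have hsup : stabilizer G a ⊔ D = ⊤ := by
      rw [eq_top_iff]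
      intro g _
      obtain ⟨d, hd⟩ := h1.exists_smul_eq a (g • a)
      have hd' : (d : G) • a = g • a := hd
      have : g = (d : G) * ((d : G)⁻¹ * g) := by group
      rw [this]
      refine Subgroup.mul_mem _ (Subgroup.mem_sup_right d.2) (Subgroup.mem_sup_left ?_)
      rw [mem_stabilizer_iff, mul_smul, ← hd', inv_smul_smul]
    have e1 : D.index = D.relIndex (stabilizer G a) := by
      rw [← Subgroup.relIndex_sup_right, hsup, Subgroup.relIndex_top_right]
    have e2 : Nat.card (orbit (stabilizer G a) b) = (stabilizer (stabilizer G a) b).index := by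
      rw [MulAction.index_stabilizer]; rfl
    have hle : stabilizer (stabilizer G a) b ≤ D.subgroupOf (stabilizer G a) := by
      intro g hg
      rw [Subgroup.mem_subgroupOf]
      by_contra hgD
      have h3 := h2 g hgD
      rw [Nat.card_eq_one_iff_unique] at h3
      have := h3.1.elim (⟨a, g.2⟩ : fixedBy Ω (g : G)) ⟨b, hg⟩
      exact hb (congrArg Subtype.val this).symm
    have e3 : (stabilizer (stabilizer G a) b).index = (D.subgroupOf (stabilizer G a)).index := by
      rw [← e2, htr b hb]
      change ({a}ᶜ : Set Ω).ncard = D.relIndex (stabilizer G a)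
      rw [hc, ← heq, e1]
    have e4 : stabilizer (stabilizer G a) b = D.subgroupOf (stabilizer G a) := by
      apply Subgroup.eq_of_le_of_card_ge hle
      have c1 := (stabilizer (stabilizer G a) b).index_mul_card
      have c2 := (D.subgroupOf (stabilizer G a)).index_mul_card
      rw [e3, ← c2] at c1
      have : 0 < (D.subgroupOf (stabilizer G a)).index := Nat.pos_of_ne_zero Subgroup.FiniteIndex.index_ne_zero
      exact (Nat.eq_of_mul_eq_mul_left this c1).ge
    have : (⟨g, hga⟩ : stabilizer G a) ∈ stabilizer (stabilizer G a) b := by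
      rw [e4]; exact hgD
    exact this
  have hreg : ∀ g ∈ D, g • a = a → g = 1 := by
    intro g hg hga
    apply FaithfulSMul.eq_of_smul_eq_smul (α := Ω)
    intro x
    rw [one_smul]
    by_cases hx : x = a
    · rw [hx, hga]
    · exact hfix x hx g hg hga
  have hcard : Nat.card D = Nat.card Ω := by
    refine Nat.card_eq_of_bijective (fun d : D => (d : G) • a) ⟨fun x y hxy => ?_, fun x => ?_⟩
    · have hxy' : (x : G) • a = (y : G) • a := hxy
      have : (y : G)⁻¹ * x = 1 := hreg _ (D.mul_mem (D.inv_mem y.2) x.2) (by rw [mul_smul, hxy', inv_smul_smul])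
      apply Subtype.ext
      rw [inv_mul_eq_one] at this
      exact this.symm
    · exact h1.exists_smul_eq a x
  -- all non-identity elements of `D` have the same order
  have hord : ∀ x y : D, x ≠ 1 → y ≠ 1 → orderOf x = orderOf y := by
    intro x y hx hy
    have hxa : (x : G) • a ≠ a := fun h => hx (Subtype.ext (hreg _ x.2 h))
    have hya : (y : G) • a ≠ a := fun h => hy (Subtype.ext (hreg _ y.2 h))
    have : (y : G) • a ∈ orbit (stabilizer G a) ((x : G) • a) := by rw [htr _ hxa]; exact hya
    obtain ⟨g, hg⟩ := this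
    have hg' : (g : G) • (x : G) • a = (y : G) • a := hg
    have hga : (g : G) • a = a := g.2
    have hga' : (g : G)⁻¹ • a = a := by rw [inv_smul_eq_iff, hga]
    have : (y : G)⁻¹ * ((g : G) * x * (g : G)⁻¹) = 1 := by
      apply hreg _ (D.mul_mem (D.inv_mem y.2) (hDn.conj_mem _ x.2 _))
      rw [mul_smul, mul_smul, mul_smul, hga', hg', inv_smul_smul]
    rw [inv_mul_eq_one] at this
    rw [← Subgroup.orderOf_coe, ← Subgroup.orderOf_coe, this]
    exact SemiconjBy.orderOf_eq (g : G) (by simp [SemiconjBy])
  rw [← hcard] at hΩ ⊢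
  obtain ⟨p, hp, hpd⟩ := Nat.exists_prime_and_dvd (n := Nat.card D) (by omega)
  haveI := Fact.mk hp
  obtain ⟨x, hx⟩ := exists_prime_orderOf_dvd_card' p hpd
  have hx1 : x ≠ 1 := by
    rintro rfl
    rw [orderOf_one] at hx
    exact hp.one_lt.ne hx
  have hpg : IsPGroup p D := by
    intro y
    refine ⟨1, ?_⟩
    by_cases hy : y = 1
    · simp [hy]
    · rw [pow_one, ← hx, hord x y hx1 hy, pow_orderOf_eq_one]
  obtain ⟨k, hk⟩ := IsPGroup.iff_card.mp hpg
  rw [hk] at hΩ ⊢
  have : k ≠ 0 := by rintro rfl; simp at hΩ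
  exact (hp.isPrimePow).pow this

end Cfsg.Agent.S3548
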