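import Mathlib
import Cfsg.Statements.S3550
import Cfsg.Agent.Lib.Drg.Fin

set_option autoImplicit false
open Cfsg

namespace Cfsg.Agent.S3550

/-- Let G act faithfully and primitively on a finite set with n ≥ 2 points and suppose G has no non-trivial abelian normal subgroup (G is not of affine type). Let D be the subgroup generated by the derangements. Then the index of D in G is at most √n − 1. -/
theorem result {G Ω : Type*} [Group G] [Finite G] [MulAction G Ω] [FaithfulSMul G Ω] [Finite Ω]
    (hprim : MulAction.IsPreprimitive G Ω) (hΩ : 2 ≤ Nat.card Ω) (hna : ∀ N : Subgroup G, N.Normal → IsMulCommutative ↥N → N = ⊥) :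
    ((Subgroup.closure {g : G | ∀ ω : Ω, g • ω ≠ ω}).index : ℝ) ≤ Real.sqrt (Nat.card Ω) - 1 := by
  by_cases hN : H75.derSub G Ω = ⊤
  · refine H38.Drg.real_bound ?_
    have h1 : (H75.derSub G Ω).index = 1 := Subgroup.index_eq_one.2 hN
    have h2 := H38.Drg.four_le hprim.toIsPretransitive hΩ hna
    show ((H75.derSub G Ω).index + 1) ^ 2 ≤ _
    rw [h1]; exact h2
  · rcases H38.Drg.der_main hprim.toIsPretransitive hΩ hN with h | ⟨S, h1, h2, h3, _⟩
    · exact H38.Drg.real_bound h
    · exact absurd (hna S h1 ⟨⟨fun a b => Subtype.ext (h3 _ a.2 _ b.2)⟩⟩) h2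

end Cfsg.Agent.S3550
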