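import Mathlib
import Cfsg.Statements.S3560
import Cfsg.Agent.Lib.Perm.Basic

set_option autoImplicit false
open Cfsg

namespace Cfsg.Agent.S3560

open MulAction

/-- Permutations preserving a two-variable function. -/
def pres {X : Type*} (d : X → X → ℕ) : Subgroup (Equiv.Perm X) where
  carrier := {σ | ∀ a b, d (σ a) (σ b) = d a b}
  one_mem' := fun _ _ => rfl
  mul_mem' := fun {s t} hs ht a b => by
    rw [Equiv.Perm.mul_apply, Equiv.Perm.mul_apply, hs, ht]
  inv_mem' := fun {s} hs a b => by
    rw [← hs]; simp

/-- Coordinate permutation followed by coordinatewise permutations. -/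
def wr {ι Y : Type*} (π : Equiv.Perm ι) (s : ι → Equiv.Perm Y) : Equiv.Perm (ι → Y) :=
  (Equiv.arrowCongr π.symm (Equiv.refl Y)).trans (Equiv.piCongrRight s)

theorem wr_apply {ι Y : Type*} (π : Equiv.Perm ι) (s : ι → Equiv.Perm Y) (x : ι → Y) (k : ι) :
    wr π s x k = s k (x (π k)) := rfl

theorem dist_wr {ι Y : Type*} [Fintype ι] [DecidableEq Y] (π : Equiv.Perm ι)
    (s : ι → Equiv.Perm Y) (x y : ι → Y) : hammingDist (wr π s x) (wr π s y) = hammingDist x y := by
  unfold hammingDist
  refine Finset.card_bij (fun k _ => π k) (fun k hk => ?_) (fun _ _ _ _ e => π.injective e)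
    (fun k hk => ⟨π.symm k, ?_, by simp⟩)
  · simpa [wr_apply] using hk
  · simpa [wr_apply] using hk


/-- Let K be a finite group isomorphic to a direct product of r ≥ 2 groups all of the same order m ≥ 3. Then K is not a B-group: there is a primitive but not doubly transitive permutation group (on some finite set) containing a regular subgroup isomorphic to K. -/
theorem result {K : Type*} [Group K] [Finite K] {ι : Type*} [Fintype ι] (F : ι → Type*) [∀ i, Group (F i)]
    (hr : 2 ≤ Fintype.card ι) (m : ℕ) (hm : 3 ≤ m) (hcard : ∀ i, Nat.card (F i) = m) (e : K ≃* (∀ i, F i)) :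
    ∃ (n : ℕ) (G R : Subgroup (Equiv.Perm (Fin n))), R ≤ G ∧ Nonempty (↥R ≃* K) ∧
      MulAction.IsPretransitive ↥R (Fin n) ∧ (∀ a : Fin n, MulAction.stabilizer ↥R a = ⊥) ∧
      MulAction.IsPreprimitive ↥G (Fin n) ∧ ¬ MulAction.IsMultiplyPretransitive ↥G (Fin n) 2 := by
  classical
  let c : ∀ i, F i ≃ Fin m := fun i => Nat.equivFinOfCardPos (by rw [hcard]; omega) |>.trans
    (finCongr (hcard i))
  let E : Fin (Fintype.card (ι → Fin m)) ≃ (ι → Fin m) := (Fintype.equivFin _).symm
  let φ : K ≃ (ι → Fin m) := e.toEquiv.trans (Equiv.piCongrRight c)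
  let ψ : K ≃ Fin (Fintype.card (ι → Fin m)) := φ.trans E.symm
  let f : K →* Equiv.Perm (Fin (Fintype.card (ι → Fin m))) :=
    ψ.permCongrHom.toMonoidHom.comp (toPermHom K K)
  have hf : ∀ k a, f k (ψ a) = ψ (k * a) := fun k a => by simp [f]
  let G := pres fun a b => hammingDist (E a) (E b)
  have hw : ∀ π s, E.symm.permCongr (wr π s) ∈ G := fun π s a b => by
    simp [dist_wr]
  have hRG : f.range ≤ G := by
    rintro _ ⟨k, rfl⟩
    have : f k = E.symm.permCongr (wr 1 fun i => (c i).permCongr (Equiv.mulLeft (e k i))) := by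
      ext1 a
      obtain ⟨a, rfl⟩ := ψ.surjective a
      rw [hf]
      simp only [ψ, Equiv.trans_apply, Equiv.permCongr_apply, Equiv.symm_symm,
        Equiv.apply_symm_apply, EmbeddingLike.apply_eq_iff_eq]
      ext1 i
      simp [wr_apply, φ]
    rw [this]; exact hw _ _
  have hinj : Function.Injective f := by
    rw [injective_iff_map_eq_one]
    intro k hk
    have := hf k 1
    rw [hk, mul_one] at this
    exact (ψ.injective this).symm
  have htr : IsPretransitive f.range (Fin (Fintype.card (ι → Fin m))) := ⟨fun a b => by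
    obtain ⟨a, rfl⟩ := ψ.surjective a
    obtain ⟨b, rfl⟩ := ψ.surjective b
    exact ⟨⟨f (b * a⁻¹), _, rfl⟩, (hf _ _).trans (by simp)⟩⟩
  have third : ∀ a b : Fin m, ∃ z, z ≠ a ∧ z ≠ b := fun a b => by
    have : ({a, b} : Finset (Fin m)).card < (Finset.univ : Finset (Fin m)).card := by
      rw [Finset.card_univ, Fintype.card_fin]
      exact lt_of_le_of_lt Finset.card_le_two (by omega)
    obtain ⟨z, -, hz⟩ := Finset.exists_mem_notMem_of_card_lt_card this
    exact ⟨z, by simpa using hz⟩
  refine ⟨_, G, f.range, hRG, ⟨(MonoidHom.ofInjective hinj).symm⟩, htr, fun a => ?_, ?_, ?_⟩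
  · obtain ⟨a, rfl⟩ := ψ.surjective a
    rw [eq_bot_iff]
    rintro ⟨_, k, rfl⟩ hk
    have h1 : ψ (k * a) = ψ a := (hf k a).symm.trans hk
    have h2 : k = 1 := by simpa using h1
    subst h2
    exact Subtype.ext (map_one f)
  · have : IsPretransitive G (Fin (Fintype.card (ι → Fin m))) := ⟨fun a b => by
      obtain ⟨g, hg⟩ := htr.exists_smul_eq a b
      exact ⟨⟨g, hRG g.2⟩, hg⟩⟩
    refine ⟨fun {B} hB => ?_⟩
    rw [IsTrivialBlock, or_iff_not_imp_left]
    intro hns
    obtain ⟨x, hx, y, hy, hxy⟩ := Set.not_subsingleton_iff.mp hns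
    have key : ∀ π s u v, E.symm u ∈ B → E.symm (wr π s u) ∈ B → E.symm v ∈ B →
        E.symm (wr π s v) ∈ B := by
      intro π s u v h1 h2 h3
      have := hB.smul_eq_of_mem (g := ⟨_, hw π s⟩) h1 (by simpa [Subgroup.smul_def] using h2)
      rw [← this]
      exact ⟨_, h3, by simp [Subgroup.smul_def]⟩
    obtain ⟨x, rfl⟩ := E.symm.surjective x
    obtain ⟨y, rfl⟩ := E.symm.surjective y
    obtain ⟨i, hi⟩ := Function.ne_iff.mp (fun e => hxy (congrArg E.symm e))
    obtain ⟨z, hz1, hz2⟩ := third (x i) (y i)
    have h1 : E.symm (Function.update y i z) ∈ B := by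
      have := key 1 (Function.update 1 i (Equiv.swap (y i) z)) x y hx (by
        convert hx using 2
        ext1 k
        by_cases e : k = i
        · subst e; simp [wr_apply, Equiv.swap_apply_of_ne_of_ne hi hz1.symm]
        · simp [wr_apply, e]) hy
      convert this using 2
      ext1 k
      by_cases e : k = i
      · subst e; simp [wr_apply]
      · simp [wr_apply, e]
    have h2 : ∀ u j w, E.symm u ∈ B → E.symm (Function.update u j w) ∈ B := by
      intro u j w hu
      by_cases e0 : w = u j
      · rw [e0, Function.update_eq_self]; exact hu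
      obtain ⟨t, ht1, ht2⟩ := H26.trans2 (Equiv.Perm.isMultiplyPretransitive (Fin m) 2) hz2 e0
      have := key (Equiv.swap i j)
        (Function.update (fun k => Equiv.swap (y (Equiv.swap i j k)) (u k)) j t) y _ hy (by
        convert hu using 2
        ext1 k
        by_cases e : k = j
        · subst e; simpa [wr_apply] using ht2
        · simp [wr_apply, e]) h1
      convert this using 2
      ext1 k
      by_cases e : k = j
      · subst e; simpa [wr_apply] using ht1.symm
      · have : Equiv.swap i j k ≠ i := fun h => e (by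
          rw [Equiv.swap_apply_eq_iff] at h; simpa using h)
        simp [wr_apply, e, this]
    rw [Set.eq_univ_iff_forall]
    intro v
    obtain ⟨v, rfl⟩ := E.symm.surjective v
    have h3 : ∀ s : Finset ι, E.symm (s.piecewise v y) ∈ B := by
      intro s
      induction s using Finset.induction_on with
      | empty => simpa using hy
      | insert a s ha ih => rw [Finset.piecewise_insert]; exact h2 _ _ _ ih
    simpa using h3 Finset.univ
  · intro h2
    obtain ⟨i, j, hij⟩ := Fintype.one_lt_card_iff.mp (show 1 < Fintype.card ι by omega)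
    let a : Fin m := ⟨0, by omega⟩
    let b : Fin m := ⟨1, by omega⟩
    have hab : a ≠ b := by simp [a, b]
    obtain ⟨g, h3, h4⟩ := H26.trans2 h2 (a := E.symm fun _ => a) (b := E.symm fun _ => b)
      (c := E.symm fun _ => a) (d := E.symm (Function.update (fun _ => a) i b))
      (fun e => hab (congrFun (E.symm.injective e) i))
      (fun e => hab (by simpa using congrFun (E.symm.injective e) i))
    have h5 := g.2 (E.symm fun _ => a) (E.symm fun _ => b)
    rw [show g.1 (E.symm fun _ => a) = _ from h3, show g.1 (E.symm fun _ => b) = _ from h4] at h5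
    simp only [Equiv.apply_symm_apply, hammingDist] at h5
    have h6 : (Finset.univ.filter fun k => a ≠ Function.update (fun _ => a) i b k) = {i} := by
      ext k
      by_cases e : k = i
      · subst e; simp [hab]
      · simp [e]
    rw [h6] at h5
    simp [hab] at h5
    omega

end Cfsg.Agent.S3560
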