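import Cfsg.Statements.S3571
import Mathlib
import Cfsg.Agent.Base
import Cfsg.Agent.Lib.SN.Cyc
import Cfsg.Agent.Lib.FGS.PrimeCyc3
import Cfsg.Agent.Lib.Perm29.AutAlt
import Cfsg.Agent.S0713

set_option autoImplicit false
open Cfsg

namespace Cfsg.Agent.S3571

open Equiv MulAction Subgroup
open scoped Pointwise

theorem pow_le_choose_mul {m : ℕ} : ∀ {r : ℕ}, r ≤ m → m ^ r ≤ m.choose r * r ^ r := by
  induction m with
  | zero => simp
  | succ m ih =>
    rintro (_ | r) h
    · simp
    rcases r.eq_zero_or_pos with rfl | h0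
    · simp
    have h1 : (m + 1) ^ r ≤ m.choose r * (r + 1) ^ r := by
      refine Nat.le_of_mul_le_mul_right ?_ (pow_pos h0 r)
      rw [← mul_pow, mul_right_comm]
      refine le_trans ?_ (Nat.mul_le_mul_right _ (ih (by omega)))
      rw [← mul_pow]
      exact Nat.pow_le_pow_left (by nlinarith) _
    rw [pow_succ', pow_succ' (r + 1), ← mul_assoc, ← Nat.add_one_mul_choose_eq, mul_assoc]
    exact Nat.mul_le_mul_left _ h1

theorem choose_mono {m r k : ℕ} (h : r ≤ k) (hk : 2 * k ≤ m) : m.choose r ≤ m.choose k := by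
  induction h with
  | refl => rfl
  | step h ih => exact (ih (by omega)).trans (Nat.choose_le_succ_of_lt_half_left (by omega))

theorem mod_lt {m k r : ℕ} (hr : r.Prime) (hm : 5 ≤ m) (hk : 2 * k ≤ m) (hd : r ∣ m.choose k)
    (hmax : ∀ s, s.Prime → s ∣ m.choose k → s ≤ r) : m % r < k % r ∧ (r = 2 → 4 ∣ m) := by
  have h0 : m.choose k ≠ 0 := (Nat.choose_pos (by omega)).ne'
  have h1 : ∀ S : Finset ℕ, (∀ s, s.Prime → s ≤ r → s ∈ S) → m.choose k ≤ m ^ S.card := fun S h => by
    rw [← Nat.prod_factorization_pow_eq_self h0]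
    refine (Finset.prod_le_pow_card _ _ m fun s _ => Nat.pow_factorization_choose_le (by omega)).trans
      (Nat.pow_le_pow_right (by omega) (Finset.card_le_card fun s hs => ?_))
    have := Nat.mem_primeFactors.1 hs
    exact h s this.1 (hmax s this.1 this.2.1)
  have h2 : r = 2 → k = 1 := by
    rintro rfl
    have h3 := h1 {2} fun s hs h => Finset.mem_singleton.2 (le_antisymm h hs.two_le)
    by_contra h4
    rcases k with _ | _ | k
    · simp at hd
    · exact h4 rfl
    · have := (choose_mono (r := 2) (by omega) hk).trans h3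
      obtain ⟨j, rfl⟩ := Nat.exists_eq_add_of_le' hm
      rw [Nat.choose_two_right, Finset.card_singleton, pow_one,
        Nat.div_le_iff_le_mul_add_pred two_pos, show j + 5 - 1 = j + 4 from rfl] at this
      norm_num at this
      nlinarith
  refine ⟨?_, fun h => ?_⟩
  swap
  · obtain rfl := h2 h
    subst h
    rw [Nat.choose_one_right] at hd hmax
    obtain ⟨j, rfl⟩ := hd
    have h3 := Nat.minFac_prime (n := j) (by omega)
    have h4 := le_antisymm (hmax _ h3 (j.minFac_dvd.mul_left 2)) h3.two_le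
    exact Nat.mul_dvd_mul_left 2 (h4 ▸ j.minFac_dvd)
  by_contra h3
  haveI := Fact.mk hr
  have h4 := (Choose.choose_modEq_choose_mod_mul_choose_div_nat.dvd_iff dvd_rfl).1 hd
  rw [hr.dvd_mul, or_iff_right ((Nat.Prime.coprime_iff_not_dvd hr).1 (hr.coprime_choose_of_lt
    (Nat.mod_lt _ hr.pos) (by omega)))] at h4
  have h5 : r ≤ k := by
    by_contra h5
    simp [Nat.div_eq_of_lt (not_le.1 h5), hr.ne_one] at h4
  have h6 : r * r ≤ m := (Nat.le_div_iff_mul_le hr.pos).1 (not_lt.1 fun h =>
    (Nat.Prime.coprime_iff_not_dvd hr).1 (hr.coprime_choose_of_lt h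
      (Nat.div_le_div_right (by omega))) h4)
  have h7 := choose_mono h5 hk
  by_cases h8 : 11 ≤ r
  · have h9 := h7.trans (h1 (((Finset.range ((r + 1) / 2)).erase 4).image fun i =>
      if i = 0 then 2 else 2 * i + 1) fun s hs h => Finset.mem_image.2 ⟨(s - 1) / 2, by
        have : s ≠ 9 := by rintro rfl; norm_num at hs
        have := hs.two_le
        rcases hs.eq_two_or_odd with h | h <;> simp <;> omega, by
        have := hs.two_le
        rcases hs.eq_two_or_odd with h | h <;> split_ifs <;> omega⟩)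
    replace h9 := h9.trans (Nat.pow_le_pow_right (by omega) Finset.card_image_le)
    rw [Finset.card_erase_of_mem (by simp; omega), Finset.card_range] at h9
    have h10 := (pow_le_choose_mul (m := m) (r := r) (by omega)).trans (Nat.mul_le_mul_right _ h9)
    have h11 := Nat.mul_le_mul h10 h10
    rw [mul_mul_mul_comm, ← mul_pow r, ← pow_add, ← pow_add] at h11
    have := (pow_le_pow_iff_right₀ (by omega : 1 < m)).1 (h11.trans (by
      rw [pow_add _ _ r]
      exact Nat.mul_le_mul_left _ (Nat.pow_le_pow_left h6 _)))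
    omega
  have h9 := Nat.descFactorial_eq_factorial_mul_choose m r
  have h10 : r = 2 ∨ r = 3 ∨ r = 5 ∨ r = 7 := by
    have : r < 11 := by omega
    interval_cases r <;> simp_all (config := {decide := true})
  obtain ⟨y, rfl⟩ := Nat.exists_eq_add_of_le' h6
  rcases h10 with rfl | rfl | rfl | rfl
  · omega
  · have := h7.trans (h1 {2, 3} fun s hs h => by interval_cases s <;> simp_all (config := {decide := true}))
    simp [Nat.descFactorial, Nat.factorial] at h9 this
    nlinarith [Nat.zero_le (y ^ 3)]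
  · have := h7.trans (h1 {2, 3, 5} fun s hs h => by
      interval_cases s <;> simp_all (config := {decide := true}))
    have h11 := Nat.pow_sub_le_descFactorial (y + 5 * 5) 5
    rw [h9, show y + 5 * 5 + 1 - 5 = y + 21 by omega] at h11
    replace h11 := h11.trans (Nat.mul_le_mul_left _ this)
    simp [Nat.factorial] at h11
    ring_nf at h11
    omega
  · have := h7.trans (h1 {2, 3, 5, 7} fun s hs h => by
      interval_cases s <;> simp_all (config := {decide := true}))
    have h11 := Nat.pow_sub_le_descFactorial (y + 7 * 7) 7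
    rw [h9, show y + 7 * 7 + 1 - 7 = y + 43 by omega] at h11
    replace h11 := h11.trans (Nat.mul_le_mul_left _ this)
    simp [Nat.factorial] at h11
    ring_nf at h11
    omega

theorem core {m : ℕ} (hm : 5 ≤ m) {K : Subgroup (Perm (Fin m))} (hK : K ≤ alternatingGroup _)
    (hK' : ¬ alternatingGroup _ ≤ K) {r : ℕ} (hr : r.Prime) (hd : r ∣ K.relIndex (alternatingGroup _))
    (hmax : ∀ s, s.Prime → s ∣ K.relIndex (alternatingGroup _) → s ≤ r)
    (h6 : m ≠ 6 → ∀ Δ : Set (Fin m), (∀ g ∈ normalizer (K : Set (Perm (Fin m))), g • Δ = Δ) →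
      ¬ alternatingGroup _ ≤ stabilizer (Perm (Fin m)) Δ →
      stabilizer (Perm (Fin m)) Δ ⊓ alternatingGroup _ ≤ K) :
    ∃ x ∈ alternatingGroup (Fin m), orderOf x = r ∧ ∀ a, a * x * a⁻¹ ∉ K := by
  classical
  haveI := Fact.mk hr
  have hc := relIndex_mul_relIndex ⊥ _ _ bot_le hK
  rw [relIndex_bot_left, relIndex_bot_left] at hc
  by_cases h1 : r ∣ Nat.card K
  swap
  · obtain ⟨x, hx⟩ := exists_prime_orderOf_dvd_card' r (hc ▸ hd.mul_left _)
    rw [← orderOf_coe] at hx
    refine ⟨x, x.2, hx, fun a h => h1 ?_⟩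
    rw [← hx, ← (MulAut.conj a).orderOf_eq]
    exact K.orderOf_dvd_natCard h
  have h2 : 2 * r ≤ m := by
    by_contra h
    have h2 := (hc ▸ Nat.mul_dvd_mul h1 hd).trans (card_subgroup_dvd_card _)
    rw [Nat.card_perm, Nat.card_fin, ← pow_two, hr.pow_dvd_iff_le_factorization
      (Nat.factorial_ne_zero _), Nat.factorization_factorial hr (b := 2) (Nat.log_lt_of_lt_pow'
        two_ne_zero (by nlinarith [hr.two_le]))] at h2
    simp [Nat.le_div_iff_mul_le hr.pos] at h2
    omega
  have h3 : ∀ s, s.Prime → r < s → s ≤ m → ∃ c ∈ K, c.IsCycle ∧ c.support.card = s :=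
    fun s hs h h' => by
      haveI := Fact.mk hs
      obtain ⟨_, -, c, h4, h5, h6, -⟩ := H5.SN.exists_moved (by have := hr.two_le; omega)
        (fun h4 => (hmax s hs h4).not_gt h) (T := Set.univ) (by simpa [Set.ncard_univ])
      exact ⟨c, h4, h5, h6⟩
  obtain ⟨s, hs, h4, h5⟩ := Nat.exists_prime_lt_and_le_two_mul (m / 2) (by omega)
  obtain ⟨c, hcK, hc1, hc2⟩ := h3 s hs (by omega) (by omega)
  by_cases ht : IsPretransitive K (Fin m)
  · have hp := H80.isPreprimitive_of_cycle K hs hcK hc1 hc2 (by simp; omega)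
    have h7 : ∀ g ∈ K, g.IsCycle → g.support.card.Prime → g.support.card + 3 ≤ m → False :=
      fun g h7 h8 h9 h10 => hK' (S0713.result K hp h9 (by simpa) (by simpa) h8 rfl h7)
    rcases hr.eq_two_or_odd' with rfl | ho
    · obtain ⟨c, h8, h9, h10⟩ := h3 3 Nat.prime_three (by omega) (by omega)
      exact (hK' (Perm.alternatingGroup_le_of_isPreprimitive_of_isThreeCycle_mem hp
        (card_support_eq_three_iff.1 h10) h8)).elim
    obtain ⟨x, hx⟩ := (Perm.exists_with_cycleType_iff (Fin m) (m := {r})).2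
      ⟨by simp; omega, by simpa using hr.two_le⟩
    have h8 : x.IsCycle := Perm.card_cycleType_eq_one.1 (by simp [hx])
    have h9 : x.support.card = r := by simp [← Perm.sum_cycleType, hx]
    refine ⟨x, H5.SN.mem_alt_of_cycle h8 (h9 ▸ ho), h8.orderOf.trans h9, fun a h => h7 _ h h8.conj ?_ ?_⟩
    <;> rw [Perm.card_support_conj, h9]
    · exact hr
    · have := hr.two_le
      obtain ⟨j, rfl⟩ := ho
      omega
  obtain ⟨y, hy, -⟩ := id hc1
  let Δ := orbit K y
  have h7 : s ≤ Δ.ncard := by
    rw [← hc2, ← Set.ncard_coe_finset]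
    refine Set.ncard_le_ncard fun z hz => ?_
    obtain ⟨i, rfl⟩ := hc1.exists_pow_eq hy (Perm.mem_support.1 hz)
    exact ⟨⟨_, pow_mem hcK i⟩, rfl⟩
  have h8 : ∀ g ∈ normalizer (K : Set (Perm (Fin m))), g • Δ = Δ := fun g hg => by
    obtain ⟨z, h8, h9⟩ : (g • Δ ∩ Δ).Nonempty := by
      by_contra h
      have := Set.ncard_le_card (g • Δ ∪ Δ)
      rw [Set.ncard_union_eq (Set.disjoint_iff_inter_eq_empty.2 (Set.not_nonempty_iff_eq_empty.1 h)),
        Set.ncard_smul_set, Nat.card_fin] at this
      omega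
    refine (Set.eq_of_subset_of_ncard_le ?_ (Set.ncard_smul_set _ _).le).symm
    refine (orbit_eq_iff.2 h9 : orbit K z = Δ).ge.trans ?_
    rintro _ ⟨k, rfl⟩
    obtain ⟨_, ⟨l, rfl⟩, rfl⟩ := h8
    exact ⟨_, ⟨⟨_, (mem_normalizer_iff''.1 hg k).1 k.2⟩ * l, rfl⟩, by simp [Subgroup.smul_def]⟩
  let Γ : Set.powersetCard (Fin m) Δᶜ.ncard := ⟨Δᶜ.toFinset, by
    rw [Set.powersetCard.mem_iff, Set.ncard_eq_toFinset_card']⟩
  haveI := Set.powersetCard.isPretransitive_alternatingGroup (α := Fin m) (n := Δᶜ.ncard)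
    (by simp; omega)
  have h9 : (stabilizer (Perm (Fin m)) Δ).relIndex (alternatingGroup _) = m.choose Δᶜ.ncard := by
    refine Eq.trans ?_ ((index_stabilizer_of_transitive (alternatingGroup (Fin m)) Γ).trans
      (by rw [Set.powersetCard.card, Nat.card_fin]))
    refine congrArg index (Eq.trans ?_ (Set.powersetCard.stabilizer_coe Γ).symm)
    exact (stabilizer_compl (G := alternatingGroup (Fin m)) (s := Δ)).symm.trans
      (congrArg _ (Set.coe_toFinset _).symm)
  have h10 : K ≤ stabilizer (Perm (Fin m)) Δ := fun g hg => h8 g (le_normalizer hg)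
  have h11 := h9 ▸ relIndex_dvd_of_le_left (alternatingGroup (Fin m)) h10
  have h12 := Set.ncard_add_ncard_compl Δ
  rw [Nat.card_fin] at h12
  have h13 : Δᶜ.ncard ≠ 0 := fun h => ht ((isPretransitive_iff_orbit_eq_univ y).2
    (Set.compl_empty_iff.1 ((Set.ncard_eq_zero).1 h)))
  have h14 : r ∣ m.choose Δᶜ.ncard := by
    by_cases h : m = 6
    · subst h
      have h14 : 5 ≤ s := by interval_cases s <;> simp_all (config := {decide := true})
      rw [show Δᶜ.ncard = 1 by omega] at h11 ⊢
      have := hmax 3 Nat.prime_three ((by decide : 3 ∣ Nat.choose 6 1).trans h11)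
      rw [show r = 3 by omega]
      decide
    · rwa [← h9, ← inf_relIndex_right, le_antisymm (h6 h Δ h8 fun h => ?_) (le_inf h10 hK)]
      have := Nat.succ_le_of_lt (Nat.choose_pos (n := m - 1) (k := Δᶜ.ncard) (by omega))
      rw [relIndex_eq_one.2 h, eq_comm, Nat.choose_eq_one_iff] at h9
      omega
  obtain ⟨h15, h16⟩ := mod_lt hr hm (by omega) h14 fun s hs h => hmax s hs (h.trans h11)
  obtain ⟨x, hx⟩ := (Perm.exists_with_cycleType_iff (Fin m) (m := Multiset.replicate (m / r) r)).2
    ⟨by simpa using Nat.div_mul_le_self _ _, fun a ha => Multiset.eq_of_mem_replicate ha ▸ hr.two_le⟩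
  have h17 : orderOf x = r := by
    rw [← Perm.lcm_cycleType, hx, ← Multiset.lcm_dedup, ← Multiset.nsmul_singleton,
      Multiset.dedup_nsmul (Nat.div_pos (by omega) hr.pos).ne']
    simp
  refine ⟨x, ?_, h17, fun a h => ?_⟩
  · rw [Perm.mem_alternatingGroup, Perm.sign_of_cycleType, hx]
    refine Even.neg_one_pow ?_
    simp only [Multiset.sum_replicate, Multiset.card_replicate, smul_eq_mul, ← Nat.mul_succ]
    rcases hr.eq_two_or_odd' with rfl | ho
    · exact Even.mul_right (Nat.even_iff.2 (by have := h16 rfl; omega)) _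
    · exact ho.add_one.mul_left _
  have h18 : ∀ z, (a * x * a⁻¹) z ∈ Δᶜ ↔ z ∈ Δᶜ := fun z => by
    nth_rw 1 [← h10 h]
    exact not_congr Set.smul_mem_smul_set_iff
  have h19 := Perm.card_compl_support_modEq (p := r) (n := 1) (σ := (a * x * a⁻¹).subtypePerm h18)
    (by rw [Perm.subtypePerm_pow, pow_one]; ext; simp [conj_pow, ← h17])
  have h20 : ((a * x * a⁻¹).subtypePerm h18).supportᶜ.card ≤ (a * x * a⁻¹).supportᶜ.card :=
    Finset.card_le_card_of_injOn Subtype.val (fun z hz => by
      simpa [Subtype.ext_iff, -Perm.support_conj] using hz) Subtype.val_injective.injOn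
  rw [Finset.card_compl (a * x * a⁻¹).support, Perm.card_support_conj, ← Perm.sum_cycleType, hx]
    at h20
  rw [← Nat.card_eq_fintype_card, Nat.card_coe_set_eq] at h19
  have := (Nat.mod_le _ r).trans h20
  rw [h19] at this
  simp [mul_comm, ← Nat.mod_def] at this
  omega

/-- Let G be an almost simple group whose socle is an alternating group of degree m ≥ 5 (G has a normal subgroup T isomorphic to that alternating group with trivial centralizer), acting faithfully and primitively on a finite set Ω with at least two points, and let r be the largest prime divisor of the number of points. Then G contains an element of order r fixing no point. -/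
theorem result {G Ω : Type*} [Group G] [Finite G] [MulAction G Ω] [FaithfulSMul G Ω] [Finite Ω]
    (T : Subgroup G) (hT : T.Normal) (hTc : Subgroup.centralizer (T : Set G) = ⊥) (m : ℕ) (hm : 5 ≤ m)
    (eT : ↥T ≃* ↥(alternatingGroup (Fin m))) (hprim : MulAction.IsPreprimitive G Ω) (hΩ : 2 ≤ Nat.card Ω)
    (r : ℕ) (hr : r.Prime) (hrd : r ∣ Nat.card Ω) (hmax : ∀ s : ℕ, s.Prime → s ∣ Nat.card Ω → s ≤ r) :
    ∃ g : G, orderOf g = r ∧ ∀ ω : Ω, g • ω ≠ ω := by
  classical
  haveI := Finite.one_lt_card_iff_nontrivial.1 hΩ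
  obtain ⟨ω⟩ : Nonempty Ω := inferInstance
  haveI := alternatingGroup.nontrivial_of_three_le_card (α := Fin m) (by simp; omega)
  haveI : IsPretransitive T Ω := IsQuasiPreprimitive.isPretransitive_of_normal fun h => by
    obtain ⟨t, ht⟩ := exists_ne (1 : alternatingGroup (Fin m))
    exact ht (eT.symm.map_eq_one_iff.1 (eq_of_smul_eq_smul (α := Ω) fun a =>
      (h.ge (Set.mem_univ a) _).trans (one_smul _ a).symm))
  let j := (alternatingGroup (Fin m)).subtype.comp eT.toMonoidHom
  have hj : Function.Injective j := Subtype.val_injective.comp eT.injective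
  have h0 : ∀ x ∈ alternatingGroup (Fin m), ∃ t, j t = x := fun x hx =>
    ⟨eT.symm ⟨x, hx⟩, by simp [j]⟩
  have h1 : ((stabilizer T ω).map j).relIndex (alternatingGroup _) = Nat.card Ω := by
    rw [← index_stabilizer_of_transitive T ω, ← relIndex_top_right,
      ← relIndex_map_map_of_injective _ _ hj]
    congr 1
    exact le_antisymm (fun x hx => (h0 x hx).imp fun _ h => ⟨trivial, h⟩)
      (by rintro _ ⟨t, -, rfl⟩; exact (eT t).2)
  obtain ⟨x, hx, h2, h3⟩ := core hm (K := (stabilizer T ω).map j)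
    (by rintro _ ⟨t, -, rfl⟩; exact (eT t).2) (fun h => by rw [relIndex_eq_one.2 h] at h1; omega) hr
    (h1 ▸ hrd) (h1 ▸ hmax) fun h6 Δ hΔ h => by
      have hb := H29.conjNormal_alt_bijective (α := Fin m) (by simp; omega) (by simpa)
      let φ : G →* Perm (Fin m) := (MulEquiv.ofBijective _ hb).symm.toMonoidHom.comp
        ((MulAut.congr eT).toMonoidHom.comp MulAut.conjNormal)
      have h2 : ∀ g t, φ g * j t * (φ g)⁻¹ = j (MulAut.conjNormal g t) := fun g t => by
        refine (congrArg Subtype.val (DFunLike.congr_fun ((MulEquiv.ofBijective _ hb).apply_symm_apply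
          (MulAut.congr eT (MulAut.conjNormal g))) (eT t))).trans ?_
        simp [j]
      have h3 : ∀ t : T, φ t = j t := fun t => hb.1 (MulEquiv.ext fun x => Subtype.ext (by
        obtain ⟨u, hu⟩ := h0 _ x.2
        rw [MulAut.conjNormal_apply, MulAut.conjNormal_apply, ← hu, h2, ← map_inv, ← map_mul,
          ← map_mul]
        rfl))
      have h4 : ∀ g ∈ stabilizer G ω, ∀ x ∈ (stabilizer T ω).map j,
          φ g * x * (φ g)⁻¹ ∈ (stabilizer T ω).map j := by
        rintro g hg _ ⟨t, ht, rfl⟩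
        exact ⟨_, (stabilizer G ω).mul_mem (mul_mem hg ht) (inv_mem hg), (h2 g t).symm⟩
      have h5 := (IsPreprimitive.isCoatom_stabilizer_of_isPreprimitive G ω).le_iff.1
        (show _ ≤ (stabilizer _ Δ).comap φ from fun g hg => hΔ _ (mem_normalizer_fintype (h4 g hg)))
      rintro x ⟨h6, h7⟩
      obtain ⟨t, rfl⟩ := h0 x h7
      refine ⟨t, (h5.resolve_left fun h8 => h fun x hx => ?_).le (show φ t ∈ _ from h3 t ▸ h6), rfl⟩
      obtain ⟨t, rfl⟩ := h0 x hx
      exact h3 t ▸ h8.ge (mem_top (t : G))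
  obtain ⟨t, rfl⟩ := h0 x hx
  refine ⟨t, (orderOf_coe t).trans ((orderOf_injective j hj t).symm.trans h2), fun a h => ?_⟩
  obtain ⟨u, rfl⟩ := exists_smul_eq T ω a
  exact h3 (j u⁻¹) ⟨u⁻¹ * t * u, by
    rw [SetLike.mem_coe, mem_stabilizer_iff, mul_smul, mul_smul, inv_smul_eq_iff]
    exact h, by simp⟩

end Cfsg.Agent.S3571
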