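import Mathlib
import Cfsg.Statements.S3572
import Cfsg.Agent.Lib.Dih88.Main

set_option autoImplicit false
open Cfsg

namespace Cfsg.Agent.S3572

set_option linter.style.haveILetI false


/-- A finite primitive permutation group containing a dihedral subgroup that acts regularly (transitively with trivial point stabilizers) is doubly transitive. -/
theorem result {G Ω : Type*} [Group G] [Finite G] [MulAction G Ω] [FaithfulSMul G Ω] [Finite Ω]
    (hprim : MulAction.IsPreprimitive G Ω) (D : Subgroup G) (m : ℕ) (hD : Nonempty (↥D ≃* DihedralGroup m))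
    (hDreg : MulAction.IsPretransitive ↥D Ω ∧ ∀ a : Ω, MulAction.stabilizer ↥D a = ⊥) :
    MulAction.IsMultiplyPretransitive G Ω 2 := by
  obtain ⟨e⟩ := hD
  haveI : NeZero m := ⟨by
    rintro rfl
    haveI := Finite.of_equiv _ e.toEquiv
    exact not_finite (DihedralGroup 0)⟩
  rcases isEmpty_or_nonempty Ω with hΩ | ⟨⟨ω⟩⟩
  · exact ⟨fun x _ => (IsEmpty.false (x 0)).elim⟩
  refine H88.Dih.two_trans (D.subtype.comp e.symm.toMonoidHom) ω ?_ hprim
  have hb : Function.Bijective fun a : D => D.subtype a • ω := by
    refine ⟨fun a b hab => ?_, fun x => hDreg.1.exists_smul_eq ω x⟩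
    have : a⁻¹ * b ∈ MulAction.stabilizer D ω := by
      rw [MulAction.mem_stabilizer_iff, mul_smul, inv_smul_eq_iff]
      exact hab.symm
    rw [hDreg.2, Subgroup.mem_bot, inv_mul_eq_one] at this
    exact this
  exact hb.comp e.symm.bijective

end Cfsg.Agent.S3572
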