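import Mathlib
import Cfsg.Statements.S3573
import Cfsg.Agent.Lib.Perm75.PrimeOrd

set_option autoImplicit false
open Cfsg

namespace Cfsg.Agent.S3573

open Equiv Equiv.Perm H75

theorem main (n k : ℕ) (r : ℕ) (hr : r.Prime) (hkn : k ≤ n) (hrn : r ≤ n) :
    (∀ σ : Equiv.Perm (Fin n), orderOf σ = r → ∃ s : Finset (Fin n), s.card = k ∧ s.image σ = s) ↔
      k % r ≤ n % r := by
  constructor
  · intro h
    obtain ⟨σ, h1, h2⟩ := exists_perm_cycles (α := Fin n) hr (Nat.div_pos hrn hr.pos)
      (by rw [Fintype.card_fin]; exact Nat.div_mul_le_self n r)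
    obtain ⟨s, hs, hs'⟩ := h σ h1
    have hσ : σ ^ r = 1 := h1 ▸ pow_orderOf_eq_one σ
    obtain ⟨j, hj⟩ := dvd_card_of_invariant hr hσ (s ∩ σ.support) (fun x hx => by
      rw [Finset.mem_inter] at hx ⊢
      exact ⟨hs' ▸ Finset.mem_image_of_mem _ hx.1, apply_mem_support.mpr hx.2⟩)
      (fun x hx => mem_support.mp (Finset.mem_inter.mp hx).2)
    have h3 := Finset.card_sdiff_add_card_inter s σ.support
    have h4 : (s \ σ.support).card ≤ σ.supportᶜ.card :=
      Finset.card_le_card fun x hx => Finset.mem_compl.mpr (Finset.mem_sdiff.mp hx).2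
    rw [Finset.card_compl, Fintype.card_fin, h2] at h4
    have h5 := Nat.mod_add_div' n r
    rw [← hs, ← h3, hj, Nat.add_mul_mod_self_left]
    exact (Nat.mod_le _ _).trans (by omega)
  · intro h σ h1
    have hσ : σ ^ r = 1 := h1 ▸ pow_orderOf_eq_one σ
    obtain ⟨c, hc⟩ := dvd_card_support hr hσ
    have hcn : σ.support.card ≤ n := by simpa using Finset.card_le_univ σ.support
    obtain ⟨j, hj1, hj2, hj3⟩ : ∃ j, j * r ≤ σ.support.card ∧ j * r ≤ k ∧
        k - j * r ≤ n - σ.support.card := by
      by_cases e : k / r ≤ c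
      · refine ⟨k / r, by rw [hc, mul_comm r]; exact Nat.mul_le_mul_right _ e,
          Nat.div_mul_le_self k r, ?_⟩
        have h5 := Nat.mod_add_div' k r
        have h6 : n % r ≤ n - σ.support.card := by
          conv_lhs => rw [← Nat.sub_add_cancel hcn, hc, Nat.add_mul_mod_self_left, ← hc]
          exact Nat.mod_le _ _
        omega
      · refine ⟨c, by rw [hc, mul_comm], ?_, by rw [hc, mul_comm]; omega⟩
        exact (Nat.mul_le_mul_right _ (by omega)).trans (Nat.div_mul_le_self k r)
    obtain ⟨s, h2, h3, h4⟩ := exists_invariant_card hr hσ j hj1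
    obtain ⟨t, h5, h6⟩ := Finset.exists_subset_card_eq (s := σ.supportᶜ) (n := k - j * r)
      (by rw [Finset.card_compl, Fintype.card_fin]; exact hj3)
    refine ⟨s ∪ t, ?_, ?_⟩
    · rw [Finset.card_union_of_disjoint, h3, h6]
      · omega
      · exact Finset.disjoint_left.mpr fun x hx hx' => Finset.mem_compl.mp (h5 hx') (h2 hx)
    · apply Finset.eq_of_subset_of_card_le
      · intro y hy
        obtain ⟨x, hx, rfl⟩ := Finset.mem_image.mp hy
        rcases Finset.mem_union.mp hx with h | h
        · exact Finset.mem_union_left _ (h4 x h)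
        · rw [notMem_support.mp (Finset.mem_compl.mp (h5 h))]
          exact hx
      · rw [Finset.card_image_of_injective _ σ.injective]


/-- Let 1 ≤ k with 2k < n and consider the symmetric group of degree n acting on the k-subsets of an n-set. Let r be a prime dividing the number C(n,k) of k-subsets. If r is odd, then every permutation of order r fixes some k-subset if and only if r ≤ k and the remainder of k modulo r is at most the remainder of n modulo r. If r = 2, then every involution fixes some k-subset if and only if k is even or n is odd. -/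
theorem result (n k : ℕ) (hk : 1 ≤ k) (hkn : 2 * k < n) (r : ℕ) (hr : r.Prime) (hrd : r ∣ Nat.choose n k) :
    (r ≠ 2 → ((∀ σ : Equiv.Perm (Fin n), orderOf σ = r → ∃ s : Finset (Fin n), s.card = k ∧ s.image σ = s) ↔
      (r ≤ k ∧ k % r ≤ n % r))) ∧
    (r = 2 → ((∀ σ : Equiv.Perm (Fin n), orderOf σ = 2 → ∃ s : Finset (Fin n), s.card = k ∧ s.image σ = s) ↔
      (Even k ∨ Odd n))) := by
  have := Fact.mk hr
  have hrn : r ≤ n := by
    rw [← hr.dvd_factorial, ← Nat.choose_mul_factorial_mul_factorial (show k ≤ n by omega),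
      mul_assoc]
    exact hrd.mul_right _
  have h := main n k r hr (by omega) hrn
  refine ⟨fun _ => h.trans ⟨fun h1 => ⟨?_, h1⟩, fun h1 => h1.2⟩, ?_⟩
  · by_contra hlt
    push Not at hlt
    have h2 := (Choose.choose_modEq_choose_mod_mul_choose_div_nat (n := n) (k := k) (p := r)).dvd_iff
      (dvd_refl r)
    rw [Nat.div_eq_of_lt hlt, Nat.choose_zero_right, mul_one] at h2
    have h3 := h2.mp hrd
    have h4 : r ∣ (n % r).factorial := by
      rw [← Nat.choose_mul_factorial_mul_factorial h1, mul_assoc]
      exact h3.mul_right _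
    exact absurd (hr.dvd_factorial.mp h4) (Nat.mod_lt n hr.pos).not_ge
  · rintro rfl
    rw [h, Nat.even_iff, Nat.odd_iff]
    omega

end Cfsg.Agent.S3573
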