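import Mathlib
import Cfsg.Statements.S3575
import Cfsg.Agent.Lib.Perm75.PrimeOrd

set_option autoImplicit false
open Cfsg

namespace Cfsg.Agent.S3575

open Equiv Equiv.Perm H75

theorem exists_pow_support {α : Type*} [Fintype α] [DecidableEq α] {r c : ℕ} (hr : r.Prime)
    (h : c * r ≤ Fintype.card α) : ∃ σ : Perm α, σ ^ r = 1 ∧ σ.support.card = c * r := by
  rcases Nat.eq_zero_or_pos c with rfl | hc
  · exact ⟨1, by simp, by simp⟩
  · obtain ⟨σ, h1, h2⟩ := exists_perm_cycles hr hc h
    exact ⟨σ, h1 ▸ pow_orderOf_eq_one σ, h2⟩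

theorem exists_sum {ι : Type*} [DecidableEq ι] (s : Finset ι) (A m : ℕ) (h : m ≤ s.card * A) :
    ∃ u : ι → ℕ, (∀ i, u i ≤ A) ∧ (∀ i, i ∉ s → u i = 0) ∧ ∑ i ∈ s, u i = m := by
  induction s using Finset.induction_on generalizing m with
  | empty => exact ⟨0, by simp, by simp, by simpa using h.antisymm' (by simp)⟩
  | insert a s ha ih =>
    rw [Finset.card_insert_of_notMem ha, add_mul, one_mul] at h
    obtain ⟨u, h1, h2, h3⟩ := ih (m - min m A) (by omega)
    refine ⟨Function.update u a (min m A), fun i => ?_, fun i hi => ?_, ?_⟩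
    · by_cases e : i = a
      · rw [e, Function.update_self]; omega
      · rw [Function.update_of_ne e]; exact h1 i
    · rw [Finset.mem_insert, not_or] at hi
      rw [Function.update_of_ne hi.1, h2 i hi.2]
    · rw [Finset.sum_insert ha, Function.update_self, Finset.sum_update_of_notMem ha, h3]
      omega

theorem fix_iff {α : Type*} [Fintype α] [DecidableEq α] (a b r : ℕ) (hα : Fintype.card α = a * b)
    (ha : 1 ≤ a) (hr : r.Prime) (σ : Perm α) (hσ : σ ^ r = 1)
    (c : ℕ) (hc : σ.support.card = c * r) :
    (∃ f : α → Fin b, (∀ j : Fin b, Nat.card {x : α // f x = j} = a) ∧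
          ∃ π : Equiv.Perm (Fin b), ∀ x : α, f (σ x) = π (f x)) ↔
      ∃ t, t * r ≤ b ∧ t * a ≤ c ∧ c ≤ t * a + (b - t * r) * (a / r) := by
  constructor
  · rintro ⟨f, hf, π, hπ⟩
    have hf' : ∀ j, (Finset.univ.filter fun x => f x = j).card = a := fun j => by
      rw [← hf j, Nat.card_eq_fintype_card, Fintype.card_subtype]
    have h1 : π ^ r = 1 := by
      ext j
      obtain ⟨x, hx⟩ : (Finset.univ.filter fun x => f x = j).Nonempty :=
        Finset.card_pos.mp (by rw [hf']; omega)
      have key : ∀ n : ℕ, f ((σ ^ n) x) = (π ^ n) (f x) := by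
        intro n
        induction n with
        | zero => rfl
        | succ n ih => rw [pow_succ', pow_succ', Perm.mul_apply, Perm.mul_apply, hπ, ih]
      have := key r
      rw [hσ, Perm.one_apply, (Finset.mem_filter.mp hx).2] at this
      rw [← this]; rfl
    obtain ⟨t, ht⟩ := dvd_card_support hr h1
    have h2 := Finset.card_eq_sum_card_fiberwise (f := f) (s := σ.support) (t := Finset.univ)
      (by simp)
    rw [← Finset.sum_add_sum_compl π.support] at h2
    have h3 : ∑ j ∈ π.support, (σ.support.filter fun x => f x = j).card = r * t * a := by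
      rw [← ht, ← smul_eq_mul π.support.card, ← Finset.sum_const]
      refine Finset.sum_congr rfl fun j hj => ?_
      rw [← hf' j]
      congr 1
      ext x
      simp only [Finset.mem_filter, Finset.mem_univ, true_and, and_iff_right_iff_imp, mem_support]
      intro e e'
      apply mem_support.mp hj
      rw [← e, ← hπ, e']
    have h4 : ∑ j ∈ π.supportᶜ, (σ.support.filter fun x => f x = j).card ≤
        (b - r * t) * (a / r * r) := by
      refine (Finset.sum_le_card_nsmul _ _ (a / r * r) fun j hj => ?_).trans ?_
      · have h5 : (σ.support.filter fun x => f x = j).card ≤ a := by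
          rw [← hf' j]
          exact Finset.card_le_card (Finset.filter_subset_filter _ (Finset.subset_univ _))
        obtain ⟨u, hu⟩ := dvd_card_of_invariant hr hσ (σ.support.filter fun x => f x = j)
          (fun x hx => by
            rw [Finset.mem_filter] at hx ⊢
            exact ⟨apply_mem_support.mpr hx.1, by
              rw [hπ, hx.2, notMem_support.mp (Finset.mem_compl.mp hj)]⟩)
          (fun x hx => mem_support.mp (Finset.mem_filter.mp hx).1)
        rw [hu, mul_comm] at h5 ⊢
        exact Nat.mul_le_mul_right _ ((Nat.le_div_iff_mul_le hr.pos).mpr h5)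
      · rw [Finset.card_compl, Fintype.card_fin, ht, smul_eq_mul]
    have h6 : π.support.card ≤ b := by simpa using Finset.card_le_univ π.support
    refine ⟨t, by rw [mul_comm]; omega, ?_, ?_⟩
    · apply Nat.le_of_mul_le_mul_right _ hr.pos
      have : t * a * r = r * t * a := by ring
      omega
    · apply Nat.le_of_mul_le_mul_right _ hr.pos
      have : (t * a + (b - t * r) * (a / r)) * r = r * t * a + (b - r * t) * (a / r * r) := by
        rw [mul_comm t r]; ring
      omega
  · rintro ⟨t, h1, h2, h3⟩
    obtain ⟨π, hπ, hπs⟩ := exists_pow_support (α := Fin b) (c := t) hr (by simpa using h1)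
    obtain ⟨u, hu1, hu2, hu3⟩ := exists_sum π.supportᶜ (a / r) (c - t * a)
      (by rw [Finset.card_compl, Fintype.card_fin, hπs]; omega)
    have hρ : ∀ j, ∃ ρ : Perm (Fin a), ρ ^ r = 1 ∧ ρ.support.card = u j * r := fun j =>
      exists_pow_support hr (by
        rw [Fintype.card_fin]
        exact (Nat.mul_le_mul_right _ (hu1 j)).trans (Nat.div_mul_le_self a r))
    choose ρ hρ1 hρ2 using hρ
    have hρ3 : ∀ j ∈ π.support, ρ j = 1 := fun j hj => by
      rw [← support_eq_empty_iff, ← Finset.card_eq_zero, hρ2, hu2 j (by simpa using hj), zero_mul]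
    let τ : Perm (Fin b × Fin a) := Equiv.prodShear π ρ
    have hτ : ∀ j x, τ (j, x) = (π j, ρ j x) := fun j x => rfl
    have hρ4 : ∀ j, ρ (π j) = ρ j := fun j => by
      by_cases e : j ∈ π.support
      · rw [hρ3 j e, hρ3 _ (apply_mem_support.mpr e)]
      · rw [notMem_support.mp e]
    have hτn : ∀ (n : ℕ) j x, (τ ^ n) (j, x) = ((π ^ n) j, (ρ j ^ n) x) := by
      intro n
      induction n with
      | zero => intro j x; rfl
      | succ n ih =>
        intro j x
        rw [pow_succ, pow_succ, pow_succ, Perm.mul_apply, hτ, ih, hρ4]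
        rfl
    have hτr : τ ^ r = 1 := by
      ext1 ⟨j, x⟩
      rw [hτn, hπ, hρ1]; rfl
    have hτs : τ.support.card = c * r := by
      rw [Finset.card_eq_sum_card_fiberwise (f := Prod.fst) (s := τ.support) (t := Finset.univ)
        (by simp), ← Finset.sum_add_sum_compl π.support]
      have e1 : ∑ j ∈ π.support, (τ.support.filter fun x => x.1 = j).card = t * r * a := by
        rw [← hπs, ← smul_eq_mul π.support.card, ← Finset.sum_const]
        refine Finset.sum_congr rfl fun j hj => ?_
        conv_rhs => rw [← Fintype.card_fin a, ← Finset.card_univ]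
        refine Finset.card_bij (fun x _ => x.2) (by simp) ?_ ?_
        · rintro ⟨i, x⟩ h1 ⟨i', x'⟩ h2 e
          simp only [Finset.mem_filter] at h1 h2
          exact Prod.ext (h1.2.trans h2.2.symm) e
        · intro x _
          refine ⟨(j, x), ?_, rfl⟩
          simp only [Finset.mem_filter, mem_support, hτ, and_true]
          exact fun e => mem_support.mp hj (congrArg Prod.fst e)
      have e2 : ∑ j ∈ π.supportᶜ, (τ.support.filter fun x => x.1 = j).card = (c - t * a) * r := by
        rw [← hu3, Finset.sum_mul]
        refine Finset.sum_congr rfl fun j hj => ?_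
        have hj' := notMem_support.mp (Finset.mem_compl.mp hj)
        rw [← hρ2]
        refine Finset.card_bij (fun x _ => x.2) ?_ ?_ ?_
        · rintro ⟨i, x⟩ h1
          simp only [Finset.mem_filter, mem_support, hτ] at h1 ⊢
          obtain ⟨h1, rfl⟩ := h1
          exact fun e => h1 (Prod.ext hj' e)
        · rintro ⟨i, x⟩ h1 ⟨i', x'⟩ h2 e
          simp only [Finset.mem_filter] at h1 h2
          exact Prod.ext (h1.2.trans h2.2.symm) e
        · intro x hx
          refine ⟨(j, x), ?_, rfl⟩
          simp only [Finset.mem_filter, mem_support, hτ, and_true]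
          exact fun e => mem_support.mp hx (congrArg Prod.snd e)
      rw [e1, e2, Nat.sub_mul]
      have : t * a * r ≤ c * r := Nat.mul_le_mul_right _ h2
      have : t * r * a = t * a * r := by ring
      omega
    obtain ⟨e, he⟩ := exists_equiv_semiconj hr hσ hτr (by simp [hα, mul_comm]) (hc.trans hτs.symm)
    refine ⟨fun x => (e x).1, fun j => ?_, π, fun x => congrArg Prod.fst (he x)⟩
    conv_rhs => rw [← Nat.card_fin a]
    exact Nat.card_congr
      { toFun := fun x => (e x.1).2
        invFun := fun y => ⟨e.symm (j, y), by simp⟩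
        left_inv := fun x => Subtype.ext (by
          rw [Equiv.symm_apply_eq]
          exact Prod.ext x.2.symm rfl)
        right_inv := fun y => by simp }

theorem arith (a b r : ℕ) (hr : 0 < r) (hab : r ≤ a * b) :
    (∀ c, 0 < c → c * r ≤ a * b →
      ∃ t, t * r ≤ b ∧ t * a ≤ c ∧ c ≤ t * a + (b - t * r) * (a / r)) ↔
    ((b % r) * (a % r) < r ∧ (b < r ∨ a % r ≤ (b % r) * (a / r) + 1)) := by
  have ea := Nat.div_add_mod a r
  have eb := Nat.div_add_mod b r
  have hl := Nat.mod_lt a hr
  have hk := Nat.mod_lt b hr
  generalize a / r = A at *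
  generalize a % r = l at *
  have hB : ∀ t, t * r ≤ b ↔ t ≤ b / r := fun t => (Nat.le_div_iff_mul_le hr).symm
  generalize b / r = B at *
  generalize b % r = k at *
  have hU : ∀ t, t ≤ B → t * a + (b - t * r) * A = b * A + t * l := by
    intro t ht
    obtain ⟨s, hs⟩ := Nat.exists_eq_add_of_le ((hB t).mpr ht)
    rw [hs, Nat.add_sub_cancel_left, ← ea]; ring
  have hab' : a * b = (b * A + B * l) * r + k * l := by
    conv_lhs => rw [← ea]
    have : l * b = l * (r * B + k) := by rw [eb]
    nlinarith
  constructor
  · intro h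
    constructor
    · by_contra hh
      obtain ⟨t, h1, h2, h3⟩ := h (b * A + B * l + 1) (by omega) (by rw [hab', add_mul]; omega)
      rw [hU t ((hB t).mp h1)] at h3
      have := Nat.mul_le_mul_right l ((hB t).mp h1)
      omega
    · by_contra hh
      push Not at hh
      obtain ⟨B', rfl⟩ : ∃ B', B = B' + 1 := ⟨B - 1, by
        rcases B with _ | B
        · omega
        · rfl⟩
      have e1 : (B' + 1) * a = (B' + 1) * r * A + B' * l + l := by rw [← ea]; ring
      have e2 : b * A = (B' + 1) * r * A + k * A := by rw [← eb]; ring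
      obtain ⟨t, h1, h2, h3⟩ := h (b * A + B' * l + 1) (by omega) (by
        rw [hab']
        have : (b * A + B' * l + 1) * r ≤ (b * A + (B' + 1) * l) * r :=
          Nat.mul_le_mul_right _ (by rw [add_mul]; omega)
        omega)
      rw [hU t ((hB t).mp h1)] at h3
      rcases ((hB t).mp h1).eq_or_lt with e | e
      · subst e; omega
      · have := Nat.mul_le_mul_right l (show t ≤ B' by omega)
        omega
  · rintro ⟨h1, h2⟩ c hc hcr
    have h3 : c ≤ b * A + B * l := by
      by_contra hh
      have := Nat.mul_le_mul_right r (show b * A + B * l + 1 ≤ c by omega)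
      rw [add_mul] at this
      omega
    classical
    have hex : ∃ t, c ≤ b * A + t * l := ⟨B, h3⟩
    have h4 := Nat.find_spec hex
    have h5 := Nat.find_min' hex h3
    refine ⟨Nat.find hex, (hB _).mpr h5, ?_, by rw [hU _ h5]; exact h4⟩
    rcases e : Nat.find hex with _ | t
    · omega
    · have h6 := Nat.find_min hex (show t < Nat.find hex by omega)
      rw [e] at h5
      obtain ⟨s, rfl⟩ := Nat.exists_eq_add_of_le h5
      have e1 : (t + 1) * a = (t + 1) * r * A + t * l + l := by rw [← ea]; ring
      have e2 : b * A = (t + 1) * r * A + s * r * A + k * A := by rw [← eb]; ring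
      have h7 : r ≤ b := by rw [← eb]; nlinarith
      omega


/-- Let a, b ≥ 2 and consider the symmetric group of degree a·b acting on the partitions of an (a·b)-set into b parts of size a (encoded as maps onto a b-element set all of whose fibres have a elements; a permutation fixes such a partition when it permutes the fibres). Let r be a prime dividing the number (ab)!/((a!)^b·b!) of such partitions, and let ℓ and k be the remainders of a and b modulo r. Then every permutation of order r fixes some such partition if and only if r ≤ a and one of the following holds: ℓ = 0; or k = 0 and ℓ = 1; or ℓ and k are non-zero, k·ℓ < r, and either b < r or (k + r)·ℓ ≤ k·a + r. -/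
theorem result (a b : ℕ) (ha : 2 ≤ a) (hb : 2 ≤ b) (r : ℕ) (hr : r.Prime)
    (hrd : r ∣ (a * b).factorial / (a.factorial ^ b * b.factorial)) :
    (∀ σ : Equiv.Perm (Fin (a * b)), orderOf σ = r →
        ∃ f : Fin (a * b) → Fin b, (∀ j : Fin b, Nat.card {x : Fin (a * b) // f x = j} = a) ∧
          ∃ π : Equiv.Perm (Fin b), ∀ x : Fin (a * b), f (σ x) = π (f x)) ↔
      (r ≤ a ∧ (a % r = 0 ∨ (b % r = 0 ∧ a % r = 1) ∨
        (a % r ≠ 0 ∧ b % r ≠ 0 ∧ (b % r) * (a % r) < r ∧ (b < r ∨ (b % r + r) * (a % r) ≤ (b % r) * a + r)))) := by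
  have hab : r ≤ a * b := by
    rw [← hr.dvd_factorial]
    refine hrd.trans (Nat.div_dvd_of_dvd ?_)
    rw [mul_comm a b, ← Nat.uniformBell_mul_eq b (show a ≠ 0 by omega), mul_assoc]
    exact Dvd.intro_left _ rfl
  refine Iff.trans ?_ ((arith a b r hr.pos hab).trans ?_)
  · constructor
    · intro h c hc hcr
      obtain ⟨σ, h1, h2⟩ := exists_perm_cycles (α := Fin (a * b)) hr hc (by simpa using hcr)
      exact (fix_iff a b r (by simp) (by omega) hr σ (h1 ▸ pow_orderOf_eq_one σ) c h2).mp (h σ h1)
    · intro h σ h1
      have hσ : σ ^ r = 1 := h1 ▸ pow_orderOf_eq_one σ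
      obtain ⟨c, hc⟩ := dvd_card_support hr hσ
      rw [mul_comm r c] at hc
      refine (fix_iff a b r (by simp) (by omega) hr σ hσ c hc).mpr (h c ?_ ?_)
      · rcases Nat.eq_zero_or_pos c with rfl | h0
        · rw [zero_mul, Finset.card_eq_zero, support_eq_empty_iff] at hc
          rw [hc, orderOf_one] at h1
          exact absurd h1 hr.one_lt.ne
        · exact h0
      · rw [← hc]; simpa using Finset.card_le_univ σ.support
  · have ea := Nat.div_add_mod a r
    have eb := Nat.div_add_mod b r
    have hl := Nat.mod_lt a hr.pos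
    have hk := Nat.mod_lt b hr.pos
    have h0 := hr.pos
    have e1 : (b % r + r) * (a % r) ≤ (b % r) * a + r ↔ a % r ≤ (b % r) * (a / r) + 1 := by
      have : (b % r) * a + r = (b % r) * (a % r) + r * ((b % r) * (a / r) + 1) := by
        conv_lhs => rw [← ea]
        ring
      rw [this, add_mul, Nat.add_le_add_iff_left, Nat.mul_le_mul_left_iff h0]
    rw [e1]
    constructor
    · rintro ⟨h1, h2⟩
      have h3 : r ≤ a := by
        by_contra hh
        push Not at hh
        rw [Nat.mod_eq_of_lt hh] at h1 h2
        rw [Nat.div_eq_of_lt hh] at h2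
        have h4 : b < r := by omega
        rw [Nat.mod_eq_of_lt h4, mul_comm] at h1
        omega
      refine ⟨h3, ?_⟩
      by_cases e2 : a % r = 0
      · exact Or.inl e2
      by_cases e3 : b % r = 0
      · refine Or.inr (Or.inl ⟨e3, ?_⟩)
        rw [e3, zero_mul] at h2
        rcases h2 with h2 | h2
        · rw [Nat.mod_eq_of_lt h2] at e3; omega
        · omega
      · exact Or.inr (Or.inr ⟨e2, e3, h1, h2⟩)
    · rintro ⟨h1, h2 | ⟨h2, h3⟩ | ⟨-, -, h2, h3⟩⟩
      · rw [h2]; exact ⟨by simpa using h0, Or.inr (by omega)⟩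
      · rw [h2, h3]; exact ⟨by simpa using h0, Or.inr (by omega)⟩
      · exact ⟨h2, h3⟩

end Cfsg.Agent.S3575
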