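import Cfsg.Statements.S3589
import Cfsg.Agent.Lib.MatConj.SpTwo

set_option autoImplicit false
open Cfsg

namespace Cfsg.Agent.S3589

open H65 H12 Module


/-- Let F be a finite field of characteristic 2 and let a, b ∈ F make the binary form z₁² + a z₁z₂ + b z₂² anisotropic. Then the symplectic group PSp(8,F) (= Sp(8,F)) and the full isometry group of the non-singular quadratic form x₁y₁ + x₂y₂ + x₃y₃ + (z₁² + a z₁z₂ + b z₂²) of minus type in dimension 8 have the same set of element orders. -/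
theorem result {F : Type*} [Field F] [Fintype F]
    [CharP F 2] (a b : F) (han : ∀ z₁ z₂ : F, z₁ ^ 2 + a * z₁ * z₂ + b * z₂ ^ 2 = 0 → z₁ = 0 ∧ z₂ = 0) :
    Set.range (orderOf : Cfsg.PSp 4 F → ℕ) = Set.range (orderOf : ↥(Cfsg.isometryGroup F (Cfsg.quadFormMinus 3 F a b)) → ℕ) := by
  have key : ∀ x : isometryGroup F (QMinus 3 a b), orderOf (Matrix.toLin' x.1.1) = orderOf x :=
    fun x => orderOf_eq_orderOf_iff.2 fun k => by
      rw [← toLin'_pow', toLin'_eq_one_iff]
      exact ⟨fun h => Subtype.ext (Units.ext h), fun h => congrArg (·.1.1) h⟩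
  rw [← coe_QMinus]
  refine Set.Subset.antisymm (Tgt.four ⟨fun V _ _ _ f h _ hV N hN => ?_,
    fun V _ _ _ f ε h _ j hV N hN => ?_⟩) ?_
  · obtain ⟨x, hx⟩ := h.exists_isometry (m := 3) hV han
    exact exists_orderOf_eq_of_dvd (g := x) (hN _ (by rw [← key, ← hx.orderOf_eq, pow_orderOf_eq_one]))
  · obtain ⟨x, hx⟩ := QD.exists_isometry (f := (jb F (2 * j + 2)).prodMap f) (m := 3)
      (by simpa using (qd_jb j (-ε)).prodMap h) (by
        rw [finrank_prod, finrank_adjoinRoot_X_pow]; omega) han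
    obtain ⟨h1, h2⟩ := (prodMap_pow_eq_one_iff (jb F (2 * j + 2)) f (orderOf x)).1 (by
      rw [← key, ← hx.orderOf_eq, pow_orderOf_eq_one])
    exact exists_orderOf_eq_of_dvd (g := x) (hN _ h2 h1)
  · rintro _ ⟨x, rfl⟩
    refine (pres_of_isometry han x).mem_range_psp (by simp) four_pos fun k c hc hk => ?_
    obtain rfl : c = 1 := by simpa [CharTwo.neg_eq] using mul_self_eq_one_iff.1 hc
    exact key x ▸ orderOf_dvd_of_pow_eq_one (hk.trans (one_smul _ _))

end Cfsg.Agent.S3589
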