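import Cfsg.Statements.S3599
import Mathlib
import Cfsg.Agent.Lib.Small36.FrobMin

set_option autoImplicit false
open Cfsg

namespace Cfsg.Agent.S3599

open Subgroup H36

section
variable {ι : Type} [Fintype ι] [DecidableEq ι] {H : ι → Type} [∀ j, Group (H j)]
  [∀ j, Fintype (H j)] {r t : ι → ℕ} (hr : ∀ j, (r j).Prime) (ht : ∀ j, (t j).Prime)
  (hrr : ∀ i j, r i = r j → i = j) (htt : ∀ i j, t i = t j → i = j) (hrt : ∀ i j, r i ≠ t j)
  (hH : ∀ j, IsFrobMin (r j) (t j) (H j))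

include hr ht hH in
theorem ord_cases (j : ι) (x : H j) : orderOf x = 1 ∨ orderOf x = r j ∨ orderOf x = t j := by
  have : orderOf x ∈ {d | d ∣ r j ∨ d ∣ t j} := (hH j).spec ▸ ⟨x, rfl⟩
  rcases this with h | h
  · rcases (Nat.dvd_prime (hr j)).1 h with h | h <;> tauto
  · rcases (Nat.dvd_prime (ht j)).1 h with h | h <;> tauto

include hr ht hrr htt hrt hH

theorem spec : Set.range (orderOf : (∀ j, H j) → ℕ) =
    {m : ℕ | ∃ c : ι → ℕ, (∀ j, c j = 1 ∨ c j = r j ∨ c j = t j) ∧ m = ∏ j, c j} := by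
  have key : ∀ x : ∀ j, H j, orderOf x = ∏ j, orderOf (x j) := fun x => by
    rw [Pi.orderOf, Finset.lcm_eq_prod]
    intro i _ j _ hij
    change Nat.Coprime (orderOf (x i)) (orderOf (x j))
    rcases ord_cases hr ht hH i (x i) with h | h | h <;>
      rcases ord_cases hr ht hH j (x j) with h' | h' | h' <;> rw [h, h'] <;> try simp
    · exact (Nat.coprime_primes (hr _) (hr _)).2 fun e => hij (hrr _ _ e)
    · exact (Nat.coprime_primes (hr _) (ht _)).2 (hrt _ _)
    · exact (Nat.coprime_primes (ht _) (hr _)).2 (hrt _ _).symm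
    · exact (Nat.coprime_primes (ht _) (ht _)).2 fun e => hij (htt _ _ e)
  ext m
  constructor
  · rintro ⟨x, rfl⟩
    exact ⟨_, fun j => ord_cases hr ht hH j (x j), key x⟩
  · rintro ⟨c, hc, rfl⟩
    have : ∀ j, ∃ y : H j, orderOf y = c j := fun j => by
      have : c j ∈ Set.range (orderOf : H j → ℕ) := by
        rw [(hH j).spec]
        rcases hc j with h | h | h <;> simp [h]
      exact this
    choose y hy using this
    exact ⟨y, by rw [key]; simp [hy]⟩

theorem eq_single {j : ι} {x : ∀ j, H j} (h : orderOf x = r j ∨ orderOf x = t j) :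
    x = MonoidHom.mulSingle H j (x j) := by
  funext i
  by_cases e : i = j
  · subst e; simp
  · rw [MonoidHom.mulSingle_apply, Pi.mulSingle_eq_of_ne e, ← orderOf_eq_one_iff]
    have h1 : orderOf (x i) ∣ orderOf x := orderOf_map_dvd (Pi.evalMonoidHom H i) x
    rcases ord_cases hr ht hH i (x i) with h' | h' | h'
    · exact h'
    all_goals exfalso; rw [h'] at h1; rcases h with h | h <;> rw [h] at h1
    · exact e (hrr _ _ ((Nat.prime_dvd_prime_iff_eq (hr _) (hr _)).1 h1))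
    · exact hrt _ _ ((Nat.prime_dvd_prime_iff_eq (hr _) (ht _)).1 h1)
    · exact hrt _ _ ((Nat.prime_dvd_prime_iff_eq (ht _) (hr _)).1 h1).symm
    · exact e (htt _ _ ((Nat.prime_dvd_prime_iff_eq (ht _) (ht _)).1 h1))

omit hr ht hrr htt hrt hH [Fintype ι] [∀ j, Fintype (H j)] in
theorem ord_single (j : ι) (y : H j) : orderOf (MonoidHom.mulSingle H j y) = orderOf y :=
  orderOf_injective _ (Pi.mulSingle_injective j) y

theorem critical (K : Subgroup (∀ j, H j)) (N : Subgroup K) [N.Normal] (h : K ≠ ⊤ ∨ N ≠ ⊥) :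
    Set.range (orderOf : (K ⧸ N) → ℕ) ≠
      {m : ℕ | ∃ c : ι → ℕ, (∀ j, c j = 1 ∨ c j = r j ∨ c j = t j) ∧ m = ∏ j, c j} := by
  intro e
  have h1 : ∀ j q, q = r j ∨ q = t j → ∃ g : K, orderOf (g : K ⧸ N) = q := by
    intro j q hq
    obtain ⟨g, hg⟩ : q ∈ Set.range (orderOf : (K ⧸ N) → ℕ) := by
      rw [e]
      refine ⟨Pi.mulSingle j q, fun i => ?_, by simp⟩
      by_cases e : i = j
      · subst e; simp [hq]
      · simp [e]
    obtain ⟨g, rfl⟩ := QuotientGroup.mk_surjective g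
    exact ⟨g, hg⟩
  have h2 : ∀ j q, q = r j ∨ q = t j → ∃ y : H j, MonoidHom.mulSingle H j y ∈ K ∧ orderOf y = q := by
    intro j q hq
    obtain ⟨g, hg⟩ := h1 j q hq
    have a1 : q ∣ orderOf (g : ∀ j, H j) := by
      rw [orderOf_coe, ← hg]; exact orderOf_map_dvd (QuotientGroup.mk' N) g
    have a2 := orderOf_pow_orderOf_div (orderOf_pos _).ne' a1
    have a3 := eq_single hr ht hrr htt hrt hH (j := j) (a2 ▸ hq)
    exact ⟨_, a3 ▸ pow_mem g.2 _, by rw [← ord_single, ← a3, a2]⟩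
  have h3 : K = ⊤ := by
    rw [eq_top_iff]
    intro x _
    refine pi_mem_of_mulSingle_mem x fun j => ?_
    obtain ⟨y, a1, a2⟩ := h2 j _ (Or.inl rfl)
    obtain ⟨z, b1, b2⟩ := h2 j _ (Or.inr rfl)
    exact ((hH j).gen (ht j).one_lt (K.comap (MonoidHom.mulSingle H j)) y a1 z b1 a2 b2).ge
      (mem_top (x j))
  subst h3
  obtain ⟨n, hn, h4⟩ := (bot_or_exists_ne_one N).resolve_left (h.resolve_left fun h => h rfl)
  obtain ⟨q, hq, h5⟩ := Nat.exists_prime_and_dvd (mt orderOf_eq_one_iff.1 h4)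
  have a2 := orderOf_pow_orderOf_div (orderOf_pos _).ne' h5
  set x := n ^ (orderOf n / q) with hx
  have hxN : x ∈ N := pow_mem hn _
  rw [← orderOf_coe] at a2
  obtain ⟨j, hj⟩ : ∃ j, q = r j ∨ q = t j := by
    obtain ⟨c, hc, e'⟩ : q ∈ {m : ℕ | ∃ c : ι → ℕ, (∀ j, c j = 1 ∨ c j = r j ∨ c j = t j) ∧
        m = ∏ j, c j} := spec hr ht hrr htt hrt hH ▸ ⟨_, a2⟩
    obtain ⟨j, -, hj⟩ := (hq.prime.dvd_finsetProd_iff c).1 e'.dvd
    rcases hc j with h | h | h <;> rw [h] at hj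
    · exact absurd (Nat.dvd_one.1 hj) hq.one_lt.ne'
    · exact ⟨j, Or.inl ((Nat.prime_dvd_prime_iff_eq hq (hr j)).1 hj)⟩
    · exact ⟨j, Or.inr ((Nat.prime_dvd_prime_iff_eq hq (ht j)).1 hj)⟩
  let f : H j →* (⊤ : Subgroup (∀ j, H j)) := topEquiv.symm.toMonoidHom.comp (MonoidHom.mulSingle H j)
  have a3 := eq_single hr ht hrr htt hrt hH (j := j) (a2 ▸ hj)
  have h6 := (hH j).norm (N.comap f) inferInstance (fun e => by
    have : (x : ∀ j, H j) j ∈ N.comap f := by
      change f _ ∈ N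
      rwa [show f ((x : ∀ j, H j) j) = x from Subtype.ext a3.symm]
    rw [e, mem_bot] at this
    rw [a3, this, map_one, orderOf_one] at a2
    exact hq.one_lt.ne a2)
  obtain ⟨g, hg⟩ := h1 j _ (Or.inl rfl)
  let k := t j * ∏ i ∈ Finset.univ.erase j, (r i * t i)
  have hk : ¬ r j ∣ k := by
    rw [(hr j).dvd_mul, (hr j).prime.dvd_finsetProd_iff]
    rintro (h | ⟨i, hi, h⟩)
    · exact hrt _ _ ((Nat.prime_dvd_prime_iff_eq (hr _) (ht _)).1 h)
    · rcases ((hr j).dvd_mul).1 h with h | h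
      · exact (Finset.mem_erase.1 hi).1 (hrr _ _ ((Nat.prime_dvd_prime_iff_eq (hr _) (hr _)).1 h)).symm
      · exact hrt _ _ ((Nat.prime_dvd_prime_iff_eq (hr _) (ht _)).1 h)
  have b1 : g ^ k ∉ N := fun hc => hk (by
    rw [← hg, orderOf_dvd_iff_pow_eq_one, ← QuotientGroup.mk_pow, QuotientGroup.eq_one_iff]
    exact hc)
  have := Fact.mk (hr j)
  have b2 : orderOf ((g ^ k : (⊤ : Subgroup (∀ j, H j))) : ∀ j, H j) = r j := by
    refine orderOf_eq_prime ?_ fun e => b1 (by rw [show g ^ k = 1 from Subtype.ext e]; exact one_mem N)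
    funext i
    change ((g : ∀ j, H j) i ^ k) ^ r j = 1
    rw [← pow_mul, ← orderOf_dvd_iff_pow_eq_one]
    have c1 : r i * t i ∣ k * r j := by
      by_cases e : i = j
      · subst e
        rw [mul_comm (r i)]
        exact Nat.mul_dvd_mul (dvd_mul_right _ _) dvd_rfl
      · exact ((Finset.dvd_prod_of_mem _ (Finset.mem_erase.2 ⟨e, Finset.mem_univ i⟩)).mul_left
          _).mul_right _
    refine Dvd.dvd.trans ?_ c1
    rcases ord_cases hr ht hH i ((g : ∀ j, H j) i) with h | h | h <;> simp [h]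
  have b3 := eq_single hr ht hrr htt hrt hH (j := j) (Or.inl b2)
  have b4 := h6 _ (by rw [← ord_single, ← b3, b2])
  exact b1 (by rwa [show g ^ k = f _ from Subtype.ext b3])

theorem comm {j : ι} {x y : ∀ j, H j} (hx : orderOf x = r j) (hy : orderOf y = r j) :
    Commute x y := by
  have a := eq_single hr ht hrr htt hrt hH (Or.inl hx)
  have b := eq_single hr ht hrr htt hrt hH (Or.inl hy)
  rw [a, b]
  exact ((hH j).comm _ _ (by rw [← ord_single, ← a, hx]) (by rw [← ord_single, ← b, hy])).map _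

end

/-- A finite group is critical with respect to a set Ω of natural numbers when its set of element orders is Ω while no proper section H/N (H a subgroup, N normal in H, (H, N) ≠ (whole group, 1)) has Ω as its set of element orders. Let s ≥ 1 and let p(j,0), p(j,1) (j < s) be 2s pairwise distinct primes, and let Ω be the set of all products c(0)·…·c(s−1) with each c(j) ∈ {1, p(j,0), p(j,1)}. Then there are 2^s pairwise non-isomorphic finite groups critical with respect to Ω. -/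
theorem result (s : ℕ) (hs : 1 ≤ s) (p : Fin s → Fin 2 → ℕ)
    (hp : ∀ j i, (p j i).Prime) (hinj : ∀ j i j' i', p j i = p j' i' → j = j' ∧ i = i') :
    ∃ (G : Fin (2 ^ s) → Type) (_ : ∀ a, Group (G a)) (_ : ∀ a, Fintype (G a)),
      (∀ a b, a ≠ b → ¬ Nonempty (G a ≃* G b)) ∧
      ∀ a, Set.range (orderOf : (G a) → ℕ) = {m : ℕ | ∃ c : Fin s → ℕ, (∀ j, c j = 1 ∨ c j = p j 0 ∨ c j = p j 1) ∧ m = ∏ j, c j} ∧
      ∀ (H : Subgroup (G a)) (N : Subgroup ↥H) [N.Normal], (H ≠ ⊤ ∨ N ≠ ⊥) → Set.range (orderOf : (↥H ⧸ N) → ℕ) ≠ {m : ℕ | ∃ c : Fin s → ℕ, (∀ j, c j = 1 ∨ c j = p j 0 ∨ c j = p j 1) ∧ m = ∏ j, c j} := by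
  have hne : ∀ j i j' i', i ≠ i' → p j i ≠ p j' i' := fun j i j' i' h e => h (hinj _ _ _ _ e).2
  have hrev : ∀ i : Fin 2, i ≠ i.rev := by decide
  choose F i1 i2 hF using fun (j : Fin s) (i : Fin 2) =>
    exists_frobMin (hp j i) (hp j i.rev).ne_zero fun h =>
      hne j i j i.rev (hrev i) ((Nat.prime_dvd_prime_iff_eq (hp _ _) (hp _ _)).1 h)
  let σ : Fin (2 ^ s) → Fin s → Fin 2 := finFunctionFinEquiv.symm
  have h1 : ∀ a i j, p i (σ a i) = p j (σ a j) → i = j := fun a i j e => (hinj _ _ _ _ e).1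
  have h2 : ∀ a i j, p i (σ a i).rev = p j (σ a j).rev → i = j := fun a i j e => (hinj _ _ _ _ e).1
  have h3 : ∀ a i j, p i (σ a i) ≠ p j (σ a j).rev := fun a i j e => by
    obtain ⟨rfl, e⟩ := hinj _ _ _ _ e
    exact hrev _ e
  have hS : ∀ a, {m : ℕ | ∃ c : Fin s → ℕ, (∀ j, c j = 1 ∨ c j = p j 0 ∨ c j = p j 1) ∧ m = ∏ j, c j} =
      {m : ℕ | ∃ c : Fin s → ℕ, (∀ j, c j = 1 ∨ c j = p j (σ a j) ∨ c j = p j (σ a j).rev) ∧
        m = ∏ j, c j} := fun a => by
    ext m
    refine exists_congr fun c => and_congr_left fun _ => forall_congr' fun j => ?_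
    generalize σ a j = i
    fin_cases i
    · rfl
    · simp only [Fin.mk_one, Fin.isValue, show (1 : Fin 2).rev = 0 from rfl]; tauto
  refine ⟨fun a => ∀ j, F j (σ a j), inferInstance, inferInstance, fun a b hab ⟨e⟩ => ?_,
    fun a => ⟨?_, fun H N _ h => ?_⟩⟩
  · obtain ⟨j, hj⟩ := Function.ne_iff.1 (finFunctionFinEquiv.symm.injective.ne hab)
    have hj' : (σ b j).rev = σ a j := by
      have : ∀ x y : Fin 2, x ≠ y → y.rev = x := by decide
      exact this _ _ hj
    obtain ⟨x, y, ox, oy, h⟩ := (hF j (σ b j)).ncomm (hp _ _).one_lt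
    rw [hj'] at ox oy
    have := comm (fun j => hp j _) (fun j => hp j _) (h1 a) (h2 a) (h3 a) (fun j => hF j (σ a j))
      (j := j) (x := e.symm (MonoidHom.mulSingle (fun j => F j (σ b j)) j x))
      (y := e.symm (MonoidHom.mulSingle (fun j => F j (σ b j)) j y))
      (by rw [MulEquiv.orderOf_eq, ord_single, ox]) (by rw [MulEquiv.orderOf_eq, ord_single, oy])
    have := (this.map e).map (Pi.evalMonoidHom (fun j => F j (σ b j)) j)
    exact h (by simpa using this)
  · rw [hS a]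
    exact spec (fun j => hp j _) (fun j => hp j _) (h1 a) (h2 a) (h3 a) fun j => hF j (σ a j)
  · rw [hS a]
    exact critical (fun j => hp j _) (fun j => hp j _) (h1 a) (h2 a) (h3 a) (fun j => hF j (σ a j))
      H N h

end Cfsg.Agent.S3599
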