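import Mathlib
import Cfsg.Statements.S3619
import Cfsg.Agent.Lib.Perm75.Jordan

set_option autoImplicit false
open Cfsg

namespace Cfsg.Agent.S3619

open MulAction
open scoped Pointwise

/-- Let G act faithfully on a finite set in such a way that every non-trivial normal subgroup of G is transitive (G is quasiprimitive). Let Γ be a subset with more than one point and not the whole set, such that the pointwise stabilizer of the complement of Γ acts transitively on Γ (a Jordan set). If that pointwise stabilizer acts primitively on Γ, then G is k-fold transitive where k is one more than the number of points outside Γ (the Jordan set is a trivial one). -/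
theorem result {G Ω : Type*} [Group G] [Finite G] [MulAction G Ω] [FaithfulSMul G Ω] [Finite Ω]
    (hqp : ∀ N : Subgroup G, N.Normal → N ≠ ⊥ → MulAction.IsPretransitive ↥N Ω)
    (Γ : Set Ω) (hΓ1 : 1 < Γ.ncard) (hΓ2 : Γ.ncard < Nat.card Ω)
    (hJ : MulAction.IsPretransitive ↥(fixingSubgroup G Γᶜ) ↥(SubMulAction.ofFixingSubgroup G Γᶜ))
    (hJp : MulAction.IsPreprimitive ↥(fixingSubgroup G Γᶜ) ↥(SubMulAction.ofFixingSubgroup G Γᶜ)) :
    MulAction.IsMultiplyPretransitive G Ω (Nat.card Ω - Γ.ncard + 1) := by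
  classical
  obtain ⟨x, y, hx, hy, hxy⟩ := (Set.one_lt_ncard_iff (Set.toFinite Γ)).mp hΓ1
  obtain ⟨j, hj⟩ := hJ.exists_smul_eq ⟨x, by simpa [SubMulAction.mem_ofFixingSubgroup_iff] using hx⟩
    ⟨y, by simpa [SubMulAction.mem_ofFixingSubgroup_iff] using hy⟩
  have hjx : (j : G) • x = y := congrArg Subtype.val hj
  have hj1 : (j : G) ≠ 1 := fun e => hxy (by rw [← hjx, e, one_smul])
  have hfix : ∀ g : fixingSubgroup G Γᶜ, ∀ z, z ∉ Γ → (g : G) • z = z :=
    fun g z hz => (mem_fixingSubgroup_iff G).mp g.2 z hz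
  have htr : IsPretransitive G Ω := by
    have := hqp ⊤ inferInstance (fun e => hj1 (by
      have : (j : G) ∈ (⊤ : Subgroup G) := trivial
      rwa [e] at this))
    exact ⟨fun a b => by
      obtain ⟨g, hg⟩ := this.exists_smul_eq a b
      exact ⟨g, hg⟩⟩
  have hprim : IsPreprimitive G Ω := by
    refine ⟨fun {B} hB => ?_⟩
    by_contra hnt
    have hns : ¬ B.Subsingleton := fun h => hnt (Or.inl h)
    have hnu : B ≠ Set.univ := fun h => hnt (Or.inr h)
    have hcore : (stabilizer G B).normalCore = ⊥ := by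
      by_contra hne
      have ht := hqp _ inferInstance hne
      apply hnu
      obtain ⟨b, hb⟩ := (Set.not_subsingleton_iff.mp hns).nonempty
      rw [Set.eq_univ_iff_forall]
      intro z
      obtain ⟨g, hg⟩ := ht.exists_smul_eq b z
      have h1 : (g : G) • B = B := Subgroup.normalCore_le _ g.2
      rw [← h1, ← hg]
      exact Set.smul_mem_smul_set hb
    obtain ⟨g, hg⟩ : ∃ g : G, g * j * g⁻¹ ∉ stabilizer G B := by
      by_contra hh
      push Not at hh
      have : (j : G) ∈ (stabilizer G B).normalCore := hh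
      rw [hcore] at this
      exact hj1 this
    have hB' := hB.translate g⁻¹
    have hmove : (j : G) • g⁻¹ • B ≠ g⁻¹ • B := by
      intro e
      apply hg
      rw [mem_stabilizer_iff, mul_smul, mul_smul, e, smul_inv_smul]
    have hsub : g⁻¹ • B ⊆ Γ := by
      intro z hz
      by_contra hzn
      exact hmove (hB'.smul_eq_of_mem hz (by rw [hfix j z hzn]; exact hz))
    have hblk : IsBlock (fixingSubgroup G Γᶜ)
        (Subtype.val ⁻¹' (g⁻¹ • B) : Set (SubMulAction.ofFixingSubgroup G Γᶜ)) := by
      rw [isBlock_iff_smul_eq_of_mem]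
      intro a z hz haz
      have h1 : (a : G) • g⁻¹ • B = g⁻¹ • B := hB'.smul_eq_of_mem hz haz
      ext w
      rw [Set.mem_smul_set_iff_inv_smul_mem]
      simp only [Set.mem_preimage]
      conv_rhs => rw [← h1, Set.mem_smul_set_iff_inv_smul_mem]
      rfl
    rcases hJp.isTrivialBlock_of_isBlock hblk with h | h
    · apply hns
      intro a ha b hb
      have ha' : g⁻¹ • a ∈ g⁻¹ • B := Set.smul_mem_smul_set ha
      have hb' : g⁻¹ • b ∈ g⁻¹ • B := Set.smul_mem_smul_set hb
      have := h (x := ⟨g⁻¹ • a, by simpa [SubMulAction.mem_ofFixingSubgroup_iff] using hsub ha'⟩) ha'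
        (y := ⟨g⁻¹ • b, by simpa [SubMulAction.mem_ofFixingSubgroup_iff] using hsub hb'⟩) hb'
      exact smul_left_cancel g⁻¹ (congrArg Subtype.val this)
    · have h1 : ∀ z ∈ Γ, z ∈ g⁻¹ • B := by
        intro z hz
        have : (⟨z, by simpa [SubMulAction.mem_ofFixingSubgroup_iff] using hz⟩ :
          SubMulAction.ofFixingSubgroup G Γᶜ) ∈ Set.univ := trivial
        rw [← h] at this
        exact this
      exact hmove (hB'.smul_eq_of_mem (h1 x hx) (by rw [hjx]; exact h1 y hy))
  have hc : Γᶜ.ncard = Nat.card Ω - Γ.ncard := by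
    have := Set.ncard_add_ncard_compl Γ
    omega
  have := hprim.isMultiplyPreprimitive (s := Γᶜ) (n := Nat.card Ω - Γ.ncard - 1) (by omega)
    (by omega) hJp
  have h2 : Nat.card Ω - Γ.ncard - 1 + 2 = Nat.card Ω - Γ.ncard + 1 := by omega
  rw [h2] at this
  exact this.isMultiplyPretransitive

end Cfsg.Agent.S3619
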