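import Mathlib
import Cfsg.Statements.S3620
import Cfsg.Agent.Lib.Perm75.Jordan

set_option autoImplicit false
open Cfsg

namespace Cfsg.Agent.S3620

open MulAction
open scoped Pointwise

/-- Let G act faithfully on a finite set in such a way that every non-trivial normal subgroup of G is transitive (G is quasiprimitive). Let Γ be a subset with more than one point and fewer than half of the points, such that the pointwise stabilizer of the complement of Γ acts transitively on Γ. Then G induces every even permutation of the set (G is the alternating or the symmetric group). -/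
theorem result {G Ω : Type*} [Group G] [Finite G] [MulAction G Ω] [FaithfulSMul G Ω] [Fintype Ω] [DecidableEq Ω]
    (hqp : ∀ N : Subgroup G, N.Normal → N ≠ ⊥ → MulAction.IsPretransitive ↥N Ω)
    (Γ : Set Ω) (hΓ1 : 1 < Γ.ncard) (hΓ2 : 2 * Γ.ncard < Fintype.card Ω)
    (hJ : MulAction.IsPretransitive ↥(fixingSubgroup G Γᶜ) ↥(SubMulAction.ofFixingSubgroup G Γᶜ)) :
    ∀ σ : Equiv.Perm Ω, Equiv.Perm.sign σ = 1 → ∃ x : G, (MulAction.toPerm x : Equiv.Perm Ω) = σ := by
  classical
  obtain ⟨x, y, hx, hy, hxy⟩ := (Set.one_lt_ncard_iff (Set.toFinite Γ)).mp hΓ1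
  have hJ' : ∀ a ∈ Γ, ∀ b ∈ Γ, ∃ g : G, (∀ z, z ∉ Γ → g • z = z) ∧ g • a = b := by
    intro a ha b hb
    obtain ⟨j, hj⟩ := hJ.exists_smul_eq
      ⟨a, by simpa [SubMulAction.mem_ofFixingSubgroup_iff] using ha⟩
      ⟨b, by simpa [SubMulAction.mem_ofFixingSubgroup_iff] using hb⟩
    exact ⟨j, fun z hz => (mem_fixingSubgroup_iff G).mp j.2 z hz, congrArg Subtype.val hj⟩
  obtain ⟨j, hjf, hjx⟩ := hJ' x hx y hy
  have hj1 : j ≠ 1 := fun e => hxy (by rw [← hjx, e, one_smul])
  have htr : IsPretransitive G Ω := by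
    have := hqp ⊤ inferInstance (fun e => hj1 (by
      have : (j : G) ∈ (⊤ : Subgroup G) := trivial
      rwa [e] at this))
    exact ⟨fun a b => by
      obtain ⟨g, hg⟩ := this.exists_smul_eq a b
      exact ⟨g, hg⟩⟩
  have : Nontrivial Ω := ⟨⟨x, y, hxy⟩⟩
  rw [Set.ncard_eq_toFinset_card'] at hΓ1 hΓ2
  by_cases hprim : IsPreprimitive G Ω
  · have hc := Finset.card_compl Γ.toFinset
    have := H75.JC.alt_le hprim (D := Γ.toFinsetᶜ) (fun a ha b hb => by
      obtain ⟨g, hg, hab⟩ := hJ' a (by simpa using ha) b (by simpa using hb)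
      exact ⟨g, fun z hz => hg z (by simpa using hz), hab⟩) (by omega) (by omega)
    intro σ hσ
    exact this (Equiv.Perm.mem_alternatingGroup.mpr hσ)
  exfalso
  have hne : stabilizer G x ≠ ⊤ := fun e => by
    have : j ∈ stabilizer G x := e ▸ Subgroup.mem_top j
    exact hxy ((mem_stabilizer_iff.mp this).symm.trans hjx)
  obtain ⟨M, hM, hle⟩ := (eq_top_or_exists_le_coatom (stabilizer G x)).resolve_left hne
  have hlt : stabilizer G x ≠ M := fun e =>
    hprim ((isCoatom_stabilizer_iff_preprimitive G x).mp (e ▸ hM))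
  choose t ht using fun z => htr.exists_smul_eq x z
  let π : Ω → G ⧸ M := fun z => (t z : G ⧸ M)
  have hπ1 : ∀ g : G, π (g • x) = (g : G ⧸ M) := fun g => by
    apply QuotientGroup.eq.mpr
    apply hle
    rw [mem_stabilizer_iff, mul_smul, inv_smul_eq_iff, ht]
  have hπ : ∀ (g : G) z, π (g • z) = g • π z := fun g z => by
    conv_lhs => rw [← ht z, ← mul_smul, hπ1]
    rfl
  have hsurj : ∀ q, ∃ z, π z = q := fun q => by
    obtain ⟨g, rfl⟩ := QuotientGroup.mk_surjective q
    exact ⟨g • x, hπ1 g⟩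
  have hnt : Nontrivial (G ⧸ M) := by
    obtain ⟨g, hg⟩ : ∃ g, g ∉ M := by
      by_contra hh
      push Not at hh
      exact hM.1 ((Subgroup.eq_top_iff' M).mpr hh)
    exact ⟨⟨((1 : G) : G ⧸ M), g, fun e => hg (by simpa using QuotientGroup.eq.mp e)⟩⟩
  have hprimQ : IsPreprimitive G (G ⧸ M) :=
    (isCoatom_stabilizer_iff_preprimitive G ((1 : G) : G ⧸ M)).mp (by
      rw [stabilizer_quotient]; exact hM)
  have hfaith : ∀ g : G, (∀ q : G ⧸ M, g • q = q) → g = 1 := by
    intro g hg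
    by_contra hg1
    have hk : (toPermHom G (G ⧸ M)).ker ≠ ⊥ := fun e => hg1 (by
      have : g ∈ (toPermHom G (G ⧸ M)).ker := by
        rw [MonoidHom.mem_ker]; ext q; exact hg q
      rwa [e] at this)
    have := hqp _ inferInstance hk
    obtain ⟨q1, q2, hq⟩ := hnt
    obtain ⟨z1, rfl⟩ := hsurj q1
    obtain ⟨z2, rfl⟩ := hsurj q2
    obtain ⟨k, hk⟩ := this.exists_smul_eq z1 z2
    apply hq
    rw [← hk, Subgroup.smul_def, hπ]
    exact (congrArg (fun s : Equiv.Perm (G ⧸ M) => s (π z1)) (MonoidHom.mem_ker.mp k.2)).symm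
  -- `Γ` is a union of fibres
  obtain ⟨q0, hq0⟩ : ∃ q : G ⧸ M, j • q ≠ q := by
    by_contra hh
    push Not at hh
    exact hj1 (hfaith j hh)
  have hfib0 : ∀ z, π z = q0 → z ∈ Γ := fun z hz => by
    by_contra hh
    apply hq0
    rw [← hz, ← hπ, hjf z hh]
  obtain ⟨z0, hz0⟩ := hsurj q0
  have hsat : ∀ a ∈ Γ, ∀ b, π b = π a → b ∈ Γ := by
    intro a ha b hb
    obtain ⟨g, hg, hga⟩ := hJ' a ha z0 (hfib0 z0 hz0)
    by_contra hh
    apply hh
    apply hfib0
    rw [← hg b hh, hπ, hb, ← hπ, hga, hz0]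
  have := Fintype.ofFinite (G ⧸ M)
  let Gb : Finset (G ⧸ M) := Γ.toFinset.image π
  have mGb : ∀ z, π z ∈ Gb ↔ z ∈ Γ := fun z => by
    simp only [Gb, Finset.mem_image, Set.mem_toFinset]
    exact ⟨fun ⟨a, ha, e⟩ => hsat a ha z e.symm, fun h => ⟨z, h, rfl⟩⟩
  have hfc : ∀ q : G ⧸ M, (Finset.univ.filter fun z => π z = q).card =
      (Finset.univ.filter fun z => π z = q0).card := by
    intro q
    obtain ⟨g, rfl⟩ := exists_smul_eq G q0 q
    symm
    refine Finset.card_bij (fun z _ => g • z) ?_ ?_ ?_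
    · intro z hz
      simp only [Finset.mem_filter, Finset.mem_univ, true_and] at hz ⊢
      rw [hπ, hz]
    · intro a _ b _ e
      exact smul_left_cancel g e
    · intro z hz
      simp only [Finset.mem_filter, Finset.mem_univ, true_and] at hz ⊢
      exact ⟨g⁻¹ • z, by rw [hπ, hz, inv_smul_smul], smul_inv_smul g z⟩
  have hc1 : Fintype.card Ω = Fintype.card (G ⧸ M) * (Finset.univ.filter fun z => π z = q0).card := by
    rw [← Finset.card_univ, Finset.card_eq_sum_card_fiberwise (f := π) (t := Finset.univ) (by simp),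
      Finset.sum_congr rfl (fun q _ => hfc q), Finset.sum_const, smul_eq_mul, Finset.card_univ]
  have hc2 : Γ.toFinset.card = Gb.card * (Finset.univ.filter fun z => π z = q0).card := by
    rw [Finset.card_eq_sum_card_fiberwise (f := π) (t := Gb)
      (fun z hz => (mGb z).mpr (by simpa using hz)), ← smul_eq_mul, ← Finset.sum_const]
    refine Finset.sum_congr rfl fun q hq => ?_
    rw [← hfc q]
    congr 1
    ext z
    simp only [Finset.mem_filter, Set.mem_toFinset, Finset.mem_univ, true_and, and_iff_right_iff_imp]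
    intro e
    exact (mGb z).mp (e ▸ hq)
  have hb1 : 2 * Gb.card < Fintype.card (G ⧸ M) := by
    rw [hc1, hc2, ← mul_assoc] at hΓ2
    exact lt_of_mul_lt_mul_right hΓ2 (Nat.zero_le _)
  have hfixQ : ∀ g : G, (∀ z, z ∉ Γ → g • z = z) → ∀ q, q ∉ Gb → g • q = q := by
    intro g hg q hq
    obtain ⟨z, rfl⟩ := hsurj q
    rw [← hπ, hg z (fun h => hq ((mGb z).mpr h))]
  have hb2 : 1 < Gb.card := by
    have h0 : q0 ∈ Gb := hz0 ▸ (mGb z0).mpr (hfib0 z0 hz0)
    refine Finset.one_lt_card.mpr ⟨q0, h0, j • q0, ?_, hq0.symm⟩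
    by_contra hh
    exact hq0 (smul_left_cancel j (hfixQ j hjf _ hh))
  have hc := Finset.card_compl Gb
  have halt := H75.JC.alt_le hprimQ (D := Gbᶜ) (fun a ha b hb => by
      obtain ⟨a, rfl⟩ := hsurj a
      obtain ⟨b, rfl⟩ := hsurj b
      obtain ⟨g, hg, hab⟩ := hJ' a ((mGb a).mp (by simpa using ha)) b ((mGb b).mp (by simpa using hb))
      exact ⟨g, fun z hz => hfixQ g hg z (by simpa using hz), by rw [← hπ, hab]⟩)
    (by omega) (by omega)
  obtain ⟨m, hmM, hmx⟩ := SetLike.exists_of_lt (lt_of_le_of_ne hle hlt)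
  have hπm : π (m • x) = π x := by
    conv_rhs => rw [← one_smul G x]
    rw [hπ1, hπ1]
    exact QuotientGroup.eq.mpr (by simpa using hmM)
  obtain ⟨i, hi, hix⟩ := hJ' x hx (m • x) (hsat x hx _ hπm)
  obtain ⟨B0, hB0, X, hX, hBX⟩ := Finset.one_lt_card.mp (show 1 < Gbᶜ.card by omega)
  rw [Finset.mem_compl] at hB0 hX
  have hB1 : π x ∈ Gb := (mGb x).mpr hx
  have n1 : π x ≠ B0 := fun e => hB0 (e ▸ hB1)
  have n2 : π x ≠ X := fun e => hX (e ▸ hB1)
  obtain ⟨g, hg⟩ := halt (x := Equiv.swap B0 X * Equiv.swap B0 (π x)) (by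
    rw [Equiv.Perm.mem_alternatingGroup, map_mul, Equiv.Perm.sign_swap hBX,
      Equiv.Perm.sign_swap n1.symm]
    simp)
  have hg' : ∀ q : G ⧸ M, g • q = Equiv.swap B0 X (Equiv.swap B0 (π x) q) := fun q =>
    congrArg (fun s : Equiv.Perm (G ⧸ M) => s q) hg
  have i0 : i • B0 = B0 := hfixQ i hi _ hB0
  have i1 : i • X = X := hfixQ i hi _ hX
  have i2 : i • π x = π x := by rw [← hπ, hix, hπm]
  have hsw : ∀ u v q : G ⧸ M, i • u = u → i • v = v → i • Equiv.swap u v q = Equiv.swap u v (i • q) := by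
    intro u v q hu hv
    by_cases e1 : q = u
    · rw [e1, hu, Equiv.swap_apply_left, hv]
    by_cases e2 : q = v
    · rw [e2, hv, Equiv.swap_apply_right, hu]
    rw [Equiv.swap_apply_of_ne_of_ne e1 e2, Equiv.swap_apply_of_ne_of_ne]
    · intro e; exact e1 (smul_left_cancel i (e.trans hu.symm))
    · intro e; exact e2 (smul_left_cancel i (e.trans hv.symm))
  have hcomm : g⁻¹ * i * g * i⁻¹ = 1 := by
    apply hfaith
    intro q
    rw [mul_smul, mul_smul, mul_smul, inv_smul_eq_iff, hg', hg', hsw _ _ _ i0 i1, hsw _ _ _ i0 i2,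
      smul_inv_smul]
  have hgB : g • B0 = π x := by
    rw [hg', Equiv.swap_apply_left, Equiv.swap_apply_of_ne_of_ne n1 n2]
  have hw : g⁻¹ • x ∉ Γ := fun h => hB0 (by
    have := (mGb _).mpr h
    rwa [hπ, ← hgB, inv_smul_smul] at this)
  have h5 : i = g * i * g⁻¹ := by
    calc i = g * (g⁻¹ * i * g * i⁻¹) * i * g⁻¹ := by group
      _ = _ := by rw [hcomm]; group
  apply hmx
  rw [mem_stabilizer_iff, ← hix, h5, mul_smul, mul_smul, hi _ hw, smul_inv_smul]

end Cfsg.Agent.S3620
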