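import Cfsg.Statements.S3621
import Cfsg.Agent.Lib.C3.Main
-- import your own Cfsg.Agent.* helpers here

set_option autoImplicit false
open Cfsg

namespace Cfsg.Agent.S3621

/-- Let G be a solvable group of permutations of a finite set. Then every group H of permutations of the set with the property that for each h in H and each three points a, b, c there is an element of G agreeing with h at a, b and c (that is, every subgroup of the 3-closure of G) is solvable. -/
theorem result {Ω : Type*} [Finite Ω] (G : Subgroup (Equiv.Perm Ω)) (hG : Group.IsSolvable ↥G)
    (H : Subgroup (Equiv.Perm Ω))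
    (hH : ∀ h ∈ H, ∀ a b c : Ω, ∃ g ∈ G, g a = h a ∧ g b = h b ∧ g c = h c) :
    Group.IsSolvable ↥H := by
  exact H64.C3.main G hG H hH
end Cfsg.Agent.S3621
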