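import Cfsg.Statements.S3626
import Mathlib
import Cfsg.Agent.Lib.Ree.SpecH

set_option autoImplicit false
open Cfsg

namespace Cfsg.Agent.S3626

/-- Let R be the small Ree group over the field with q = 3^(2m+1) ≥ 27 elements. Then there are finite groups of arbitrarily large order with exactly the same set of element orders as R × R × R. -/
theorem result {K : Type*} [Field K] [Fintype K] {m : ℕ} (hm : 1 ≤ m) (hK : Fintype.card K = 3 ^ (2 * m + 1)) (N : ℕ) :
    ∃ (H : Type) (_ : Group H) (_ : Fintype H), N < Fintype.card H ∧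
      Set.range (orderOf : H → ℕ) = Set.range (orderOf : ↥(Cfsg.Lie.twistedG2 K (3 ^ m)) × ↥(Cfsg.Lie.twistedG2 K (3 ^ m)) × ↥(Cfsg.Lie.twistedG2 K (3 ^ m)) → ℕ) := by
  have := H40.Ree.charP_three hK
  have hq := H40.Ree.three_lt_card hm hK
  let S := H40.Ree.lieModel hK
  have := S.finite
  have := S.finite_HV
  rw [← S.spec_cube hq]
  obtain ⟨P, h1, h2, h3⟩ := S.exists_normal_HV
  have : Fact (Nat.Prime 3) := ⟨Nat.prime_three⟩
  have := h3.isNilpotent
  refine H74.Spec.unbounded_of_solvable_normal ((⊥ : Subgroup _).prod ((⊥ : Subgroup _).prod P)) (fun h => h2 ?_) ?_ N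
  · rw [Subgroup.prod_eq_bot_iff, Subgroup.prod_eq_bot_iff] at h
    exact h.2.2
  · have : Group.IsSolvable ((⊥ : Subgroup ↥(Cfsg.Lie.twistedG2 K (3 ^ m))).prod P) :=
      Group.isSolvable_of_surjective (f := (Subgroup.prodEquiv _ _).symm.toMonoidHom) (MulEquiv.surjective _)
    exact Group.isSolvable_of_surjective (f := (Subgroup.prodEquiv _ _).symm.toMonoidHom) (MulEquiv.surjective _)

end Cfsg.Agent.S3626
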