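import Cfsg.Statements.S3639
import Cfsg.Agent.Lib.Suzuki.Partition
import Cfsg.Agent.Lib.Suzuki.LieModel

set_option autoImplicit false
open Cfsg

namespace Cfsg.Agent.S3639

open H14.Sz

variable {G : Type*} [Group G] {F : Type*} [Field F] [Fintype F] {m : ℕ} [SzF F m]

/-- The action of the Suzuki group on `n` copies of the natural module. -/
noncomputable def act (S : Model G F m) (n : ℕ) :
    G →* MulAut (Multiplicative (Matrix (Fin 4) (Fin n) F)) where
  toFun g :=
    { toFun := fun x => Multiplicative.ofAdd (S.mat g * x.toAdd)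
      invFun := fun x => Multiplicative.ofAdd (S.mat g⁻¹ * x.toAdd)
      left_inv := fun x => by
        simp only [toAdd_ofAdd]
        rw [← Matrix.mul_assoc, ← map_mul, inv_mul_cancel, map_one, Matrix.one_mul, ofAdd_toAdd]
      right_inv := fun x => by
        simp only [toAdd_ofAdd]
        rw [← Matrix.mul_assoc, ← map_mul, mul_inv_cancel, map_one, Matrix.one_mul, ofAdd_toAdd]
      map_mul' := fun x y => by simp [Matrix.mul_add] }
  map_one' := by ext x; simp
  map_mul' g h := by ext x; simp [Matrix.mul_assoc]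

theorem act_fixed (S : Model G F m) (n : ℕ) {g : G} (hg : Odd (orderOf g)) (h1 : g ≠ 1)
    {x : Multiplicative (Matrix (Fin 4) (Fin n) F)} (h : act S n g x = x) : x = 1 := by
  have h2 : S.mat g * x.toAdd = x.toAdd := congrArg Multiplicative.toAdd h
  apply Multiplicative.toAdd.injective
  ext i j
  have := S.no_fixed_vector hg h1 (v := fun i => x.toAdd i j) (by
    funext i
    exact congrFun (congrFun h2 i) j)
  exact congrFun this i

theorem ker_sq (S : Model G F m) (n : ℕ) {y : _ ⋊[act S n] G} (hy : y.right = 1) : y ^ 2 = 1 := by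
  have h1 : y = SemidirectProduct.inl y.left := by
    ext
    · rfl
    · simp [hy]
  rw [h1, ← map_pow, sq]
  have : y.left * y.left = 1 := by
    apply Multiplicative.toAdd.injective
    ext i j
    exact CharTwo.add_self_eq_zero _
  rw [this, map_one]

theorem orderOf_right (S : Model G F m) (n : ℕ) {y : _ ⋊[act S n] G} (hy : Odd (orderOf y)) :
    orderOf y.right = orderOf y := by
  apply Nat.dvd_antisymm (orderOf_map_dvd SemidirectProduct.rightHom y)
  have h1 : (y ^ orderOf y.right) ^ 2 = 1 := ker_sq S n (by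
    show SemidirectProduct.rightHom (y ^ orderOf y.right) = 1
    rw [map_pow]; exact pow_orderOf_eq_one _)
  rw [← pow_mul] at h1
  exact (Nat.coprime_two_right.2 hy).dvd_of_dvd_mul_right (orderOf_dvd_of_pow_eq_one h1)

theorem no_even (S : Model G F m) (n : ℕ) {s : ℕ} (hs : s.Prime) (hs2 : 2 ≠ s)
    {y : _ ⋊[act S n] G} (hy : orderOf y = 2 * s) : False := by
  have hso : Odd s := hs.odd_of_ne_two hs2.symm
  have h1 : orderOf (y ^ 2) = s := by
    rw [orderOf_pow' _ two_ne_zero, hy, Nat.gcd_eq_right (Dvd.intro _ rfl)]; simp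
  have h2 : orderOf (y ^ s) = 2 := by
    rw [orderOf_pow' _ hs.ne_zero, hy, Nat.gcd_eq_right (Dvd.intro_left _ rfl)]
    exact Nat.mul_div_cancel _ hs.pos
  have h3 := orderOf_right S n (y := y ^ 2) (h1 ▸ hso)
  rw [h1] at h3
  have h4 : (y ^ 2).right ≠ 1 := fun e => by
    rw [e, orderOf_one] at h3; exact hs.one_lt.ne h3
  have hc : y ^ 2 * y ^ s = y ^ s * y ^ 2 := pow_mul_comm _ _ _
  have h5 : (y ^ s).right = 1 := by
    refine S.eq_one_of_commute_of_odd ?_ (h3 ▸ hso) h4 (congrArg SemidirectProduct.right hc)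
    show (y ^ s * y ^ s).right = 1
    rw [← sq, ← h2, pow_orderOf_eq_one]; rfl
  have h6 := congrArg SemidirectProduct.left hc
  rw [SemidirectProduct.mul_left, SemidirectProduct.mul_left, h5, map_one, MulAut.one_apply,
    mul_comm, mul_left_inj] at h6
  have h7 := act_fixed S n (h3 ▸ hso) h4 h6
  have h8 : y ^ s = 1 := by
    ext
    · rw [h7]; rfl
    · rw [h5]; rfl
  rw [h8, orderOf_one] at h2
  exact absurd h2 (by norm_num)

theorem main (S : Model G F m) (N : ℕ) :
    ∃ (H : Type) (_ : Group H) (_ : Fintype H), N < Fintype.card H ∧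
      ((∀ r : ℕ, r.Prime → (r ∣ Nat.card G ↔ r ∣ Nat.card H)) ∧
      (∀ r s : ℕ, r.Prime → s.Prime → r ≠ s →
        ((∃ x : G, orderOf x = r * s) ↔ (∃ y : H, orderOf y = r * s)))) := by
  haveI := S.finite
  let H₀ := Multiplicative (Matrix (Fin 4) (Fin N) F) ⋊[act S N] G
  have hc : Nat.card H₀ = Fintype.card F ^ (4 * N) * Nat.card G := by
    rw [Nat.card_congr SemidirectProduct.equivProd, Nat.card_prod,
      Nat.card_congr Multiplicative.toAdd, Nat.card_eq_fintype_card]
    congr 1
    show Fintype.card (Fin 4 → Fin N → F) = _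
    simp [← pow_mul, mul_comm]
  haveI : Finite H₀ := Finite.of_equiv _ SemidirectProduct.equivProd.symm
  let e : Shrink.{0} H₀ ≃* H₀ := Shrink.mulEquiv
  have hc2 : Nat.card (Shrink.{0} H₀) = Fintype.card F ^ (4 * N) * Nat.card G := by
    rw [Nat.card_congr e.toEquiv, hc]
  haveI : Finite (Shrink.{0} H₀) := Finite.of_equiv _ e.toEquiv.symm
  have h8 := eight_le_card (F := F)
  refine ⟨Shrink.{0} H₀, inferInstance, Fintype.ofFinite _, ?_, ?_, ?_⟩
  · rw [← @Nat.card_eq_fintype_card _ (Fintype.ofFinite _), hc2]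
    calc N ≤ 4 * N := by omega
      _ < Fintype.card F ^ (4 * N) := Nat.lt_pow_self (by omega)
      _ ≤ _ := Nat.le_mul_of_pos_right _ Nat.card_pos
  · intro r hr
    rw [hc2]
    refine ⟨fun h => h.mul_left _, fun h => ?_⟩
    rcases (hr.dvd_mul).1 h with h | h
    · rw [S.card_G]
      exact ((Dvd.dvd.pow (hr.dvd_of_dvd_pow h) two_ne_zero).mul_right _).mul_right _
    · exact h
  · intro r s hr hs hrs
    constructor
    · rintro ⟨x, hx⟩
      refine ⟨e.symm (SemidirectProduct.inr x), ?_⟩
      rw [MulEquiv.orderOf_eq, orderOf_injective _ SemidirectProduct.inr_injective, hx]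
    · rintro ⟨y, hy⟩
      rw [← e.orderOf_eq] at hy
      by_cases h1 : r = 2
      · subst h1; exact (no_even S N hs hrs hy).elim
      by_cases h2 : s = 2
      · subst h2; exact (no_even S N hr hrs.symm (by rw [hy, mul_comm])).elim
      refine ⟨(e y).right, ?_⟩
      rw [orderOf_right S N (hy ▸ (hr.odd_of_ne_two h1).mul (hs.odd_of_ne_two h2)), hy]

/-- Let S be the Suzuki group over the field with q = 2^(2m+1) ≥ 8 elements. Then there are finite groups of arbitrarily large order with the same prime graph as S. -/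
theorem result {F : Type*} [Field F] [Fintype F] {m : ℕ} (hm : 1 ≤ m) (hF : Fintype.card F = 2 ^ (2 * m + 1)) (N : ℕ) :
    ∃ (H : Type) (_ : Group H) (_ : Fintype H), N < Fintype.card H ∧ ((∀ r : ℕ, r.Prime → (r ∣ Nat.card ↥(Cfsg.Lie.Sz F (2 ^ (m + 1))) ↔ r ∣ Nat.card H)) ∧
      (∀ r s : ℕ, r.Prime → s.Prime → r ≠ s → ((∃ x : ↥(Cfsg.Lie.Sz F (2 ^ (m + 1))), orderOf x = r * s) ↔ (∃ y : H, orderOf y = r * s)))) := by
  haveI : H14.Sz.SzF F m := ⟨hm, hF⟩
  exact main (H14.Sz.lieModel F m) N

end Cfsg.Agent.S3639
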