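import Cfsg.Statements.S3648
import Cfsg.Agent.Lib.NsePG.B

set_option autoImplicit false
open Cfsg

namespace Cfsg.Agent.S3648

/-- For a finite group X let nse(X) be the set of values of the function 'number of elements of order k' over the element orders k that occur. Let F be a finite field of odd order q > 3 and P = PGL(2, F) = GL(2, F) modulo its centre. If G is a finite group with the same order as P and nse(G) = nse(P), then G is isomorphic to P. -/
theorem result {F : Type*} [Field F] [Fintype F] (hodd : Odd (Fintype.card F)) (h3 : 3 < Fintype.card F)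
    {G : Type*} [Group G] [Finite G] (hcard : Nat.card G = Nat.card (GL (Fin 2) F ⧸ Subgroup.center (GL (Fin 2) F)))
    (hnse : {c : ℕ | 0 < c ∧ ∃ n : ℕ, c = Nat.card {g : G // orderOf g = n}} = {c : ℕ | 0 < c ∧ ∃ n : ℕ, c = Nat.card {g : (GL (Fin 2) F ⧸ Subgroup.center (GL (Fin 2) F)) // orderOf g = n}}) :
    Nonempty (G ≃* (GL (Fin 2) F ⧸ Subgroup.center (GL (Fin 2) F))) := by
  obtain ⟨n, hp, hq⟩ := FiniteField.card F (ringChar F)
  have hS := H15.NP.sharp3_pgl F
  have hΩ := (H10.card_projLine (F := F)).trans (congrArg (· + 1) Nat.card_eq_fintype_card)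
  have hb := (H10.ptInf_ne_ptAff (0 : F)).symm
  obtain ⟨c1, c2⟩ := H15.NP.counts hS hb hΩ h3.le hp hq
  have c3 := (H15.NP.inv_iff hS hb hΩ h3.le hodd).2 H15.NP.swap_pgl
  have k : ∀ c, 0 < c → ((∃ m, c = H15.NP.nb G m) ↔
      ∃ m, c = H15.NP.nb (Matrix.ProjGenLinGroup (Fin 2) F) m) := fun c hc =>
    ⟨fun h => ((Set.ext_iff.1 hnse c).1 ⟨hc, h⟩).2, fun h => ((Set.ext_iff.1 hnse c).2 ⟨hc, h⟩).2⟩
  obtain ⟨K, _, _, hK, ⟨e⟩⟩ := H15.NP.pgl_of (G := G) hp hq hodd h3 (by
      rw [hcard]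
      refine (H10.card_PGL_two (F := F)).trans ?_
      rw [Nat.card_eq_fintype_card, mul_assoc, mul_comm (_ - 1), ← Nat.sq_sub_sq, one_pow])
    (fun j => by
      rcases Nat.eq_zero_or_pos (H15.NP.nb G j) with h | h
      · exact .inr (.inr (h ▸ dvd_zero _))
      obtain ⟨m, e⟩ := (k _ h).1 ⟨j, rfl⟩
      rw [e]
      by_cases m1 : m = 1
      · exact .inl (by rw [m1, H15.NP.nb_one])
      by_cases mp : m = ringChar F
      · exact .inr (.inl (mp ▸ c1))
      · exact .inr (.inr (c2 m m1 mp)))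
    (((k _ (by positivity)).2 ⟨2, c3.symm⟩).imp fun _ h => h.symm)
  obtain ⟨f⟩ := H10.nonempty_ringEquiv_of_card_eq (F := K) (K := F) (by simp [hK])
  exact ⟨e.trans (H10.pglCongr f)⟩

end Cfsg.Agent.S3648
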