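import Cfsg.Statements.S3662
import Cfsg.Agent.Lib.LieSpec.G2Six
import Cfsg.Agent.Lib.LieSpec.GK
import Cfsg.Agent.S1059

set_option autoImplicit false
open Cfsg

namespace Cfsg.Agent.S3662

/-- The prime graph of a finite group has the prime divisors of its order as vertices, two distinct primes p, q being joined when the group has an element of order pq; two groups have the same prime graph when they have the same prime divisors and the same joined pairs. Let F be the field with 4 elements and L the Chevalley group of type G₂ over F. There are finite groups of arbitrarily large order with the same prime graph as L. -/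
theorem result {F : Type*} [Field F] [Fintype F] (hF : Fintype.card F = 4) (N : ℕ) :
    ∃ (H : Type) (_ : Group H) (_ : Finite H), N < Nat.card H ∧
      ((∀ p : ℕ, p.Prime → (p ∣ Nat.card ↥(Cfsg.Lie.chevG2.group F) ↔ p ∣ Nat.card H)) ∧
      (∀ p q : ℕ, p.Prime → q.Prime → p ≠ q → ((∃ g : ↥(Cfsg.Lie.chevG2.group F), orderOf g = p * q) ↔ (∃ g : H, orderOf g = p * q)))) := by
  have h4 : Fintype.card F = 2 ^ 2 := hF
  have : CharP F 2 := charP_of_card_eq_prime_pow h4
  have hE := H37.isMat H61.g2T H38.rsG2 F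
  have hθ : Function.Bijective hE.θ := ⟨by
    rw [← MonoidHom.ker_eq_bot_iff, hE.θ_ker H61.g2T, hE.center_st H61.g2T, H38.smithG2.ker_eq_bot,
      Subgroup.map_bot], hE.θ_surjective⟩
  obtain ⟨ρ, hρ⟩ : ∃ ρ : Cfsg.Lie.chevG2.group F →* (H61.V6 F ≃ₗ[F] H61.V6 F), ∀ r < 12,
      ∃ x, ∀ v, ρ x v = H61.g6 1 r v := by
    have h3 : ((H61.g2St F).toPre H38.rsG2).R3 := H6.R3_of_finite ((H61.g2St F).toElts H61.g2T hE)
    refine ⟨((H61.g2St F).lift H38.rsG2 h3).comp (MulEquiv.ofBijective _ hθ).symm.toMonoidHom,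
      fun r hr => ⟨MulEquiv.ofBijective _ hθ (Cfsg.Lie.chevG2.stGen F r 1), fun v => ?_⟩⟩
    rw [MonoidHom.comp_apply, MulEquiv.coe_toMonoidHom, MulEquiv.symm_apply_apply,
      H38.StRel.lift_stGen _ _ _ hr]
    rfl
  obtain ⟨x0, h0⟩ := hρ 0 (by norm_num)
  obtain ⟨x4, h5⟩ := hρ 4 (by norm_num)
  obtain ⟨x9, h9⟩ := hρ 9 (by norm_num)
  have hi : Function.Injective ρ := by
    obtain ⟨a, ha⟩ : ∃ a : F, a ≠ 0 ∧ a ≠ 1 := by
      classical
      by_contra! h
      have : (Finset.univ : Finset F) ⊆ {0, 1} := fun a _ => by by_cases e : a = 0 <;> simp [e, h]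
      have := (Finset.card_le_card this).trans Finset.card_le_two
      simp [hF] at this
    have := (hE.simple H61.g2T fun _ => ⟨a, ha⟩).1
    rw [← MonoidHom.ker_eq_bot_iff]
    refine (ρ.normal_ker.eq_bot_or_eq_top).resolve_right fun h => ?_
    have := h0 (0, 0, 0, 0, 0, 1)
    simp [H61.g6, show ρ x0 = 1 from h.ge trivial] at this
  have hc := Cfsg.Agent.S1059.result hF
  have hV : Nat.card (H61.V6 F) = 2 ^ 12 := by simp [hF]
  refine H61.unbounded_primeGraph (LinearEquiv.automorphismGroup.toLinearMapMonoidHom.comp ρ)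
    Nat.prime_two (fun ⟨a, b, c, d, e, f⟩ => by simp [CharTwo.two_eq_zero])
    (by rw [hc]; norm_num) (fun g hg h2 => ?_) N
  obtain ⟨⟨a, ha⟩, ⟨b, hb⟩, -⟩ := H61.g2_mem Nat.prime_two (by norm_num) h4
  have : orderOf g = 3 ∨ orderOf g = 5 ∨ orderOf g = 7 ∨ orderOf g = 13 := by
    have h := orderOf_dvd_natCard g
    rw [hc, show 4 ^ 6 * (4 ^ 2 - 1) * (4 ^ 6 - 1) = 2 ^ 12 * 3 ^ 3 * 5 ^ 2 * 7 ^ 1 * 13 ^ 1 by norm_num]
      at h
    simp only [hg.dvd_mul] at h
    rcases h with (((h | h) | h) | h) | h <;>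
      simp_all [(Nat.prime_dvd_prime_iff_eq hg (by norm_num)).1 (hg.dvd_of_dvd_pow h)]
  rcases this with e | e | e | e
  · exact .inl ⟨b, by rw [e, hb]; norm_num⟩
  · exact .inl ⟨a, by rw [e, ha]; norm_num⟩
  · obtain ⟨x, hx⟩ : ∃ x, ∀ a b c d e f, ρ x (a, b, c, d, e, f) =
        (b + c + e + f, a + b + f, b + c + d, b + d, a + c + e + f, a + f) :=
      ⟨x0 * x4 * x9, fun a b c d e f => by simp [h0, h5, h9, H61.g6]; grind⟩
    have hx2 : ∀ a b c d e f, ρ x (ρ x (a, b, c, d, e, f)) =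
        (a + d + e + f, c + e + f, a + b + c + f, a + d + f, c + d + f, a + b + c + e) := by
      simp only [hx, Prod.mk.injEq]; grind
    have hx4 : ∀ a b c d e f, ρ x (ρ x (ρ x (ρ x (a, b, c, d, e, f)))) =
        (a + b + d + f, c + d + e, a + c + d + e + f, a + b + c, a + d + e, b + c) := by
      simp only [hx2, Prod.mk.injEq]; grind
    obtain ⟨z, k, hz⟩ := H61.exists_conj_mem_zpowers (by norm_num) (by rw [hc]; norm_num) e (x := x)
      (hi (LinearEquiv.ext fun ⟨a, b, c, d, e, f⟩ => by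
        rw [map_pow]
        simp only [pow_succ, pow_zero, one_mul, LinearEquiv.mul_apply, map_one, LinearEquiv.coe_one, id]
        rw [hx4, hx2, hx]
        grind))
    refine .inr fun v hv => ?_
    have h1 : ρ (z * x * z⁻¹) v = v := by
      rw [← hz, map_zpow]
      exact Subgroup.zpow_mem (MulAction.stabilizer (H61.V6 F ≃ₗ[F] H61.V6 F) v) (x := ρ g) hv k
    rw [map_mul, map_mul, map_inv, LinearEquiv.mul_apply, LinearEquiv.mul_apply,
      ← LinearEquiv.eq_symm_apply] at h1
    rw [← (ρ z).symm.map_eq_zero_iff]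
    change _ = (ρ z)⁻¹ v at h1
    change (ρ z)⁻¹ v = 0
    generalize (ρ z)⁻¹ v = w at h1
    obtain ⟨a, b, c, d, e, f⟩ := w
    simp only [hx, Prod.mk.injEq, Prod.mk_eq_zero] at h1 ⊢
    grind
  · have h1 := H61.card_ker_modEq (p := 13) (by norm_num) (g := ρ g) (by
      rw [← map_pow, ← e, pow_orderOf_eq_one, map_one])
    set W := LinearMap.eqLocus (ρ g : H61.V6 F →ₗ[F] H61.V6 F) LinearMap.id
    obtain ⟨j, hj, h3⟩ := (Nat.dvd_prime_pow Nat.prime_two).1
      (hV ▸ W.toAddSubgroup.card_addSubgroup_dvd_card)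
    change Nat.card W = _ at h3
    rw [hV, h3] at h1
    have : j = 0 ∨ j = 12 := (by decide : ∀ j ≤ 12, 2 ^ 12 ≡ 2 ^ j [MOD 13] → j = 0 ∨ j = 12) j hj h1
    rcases this with rfl | rfl
    · refine .inr fun v hv => ?_
      have := (Nat.card_eq_one_iff_unique.1 h3).1
      exact congrArg Subtype.val (Subsingleton.elim (⟨v, hv⟩ : W) 0)
    · have := W.toAddSubgroup.eq_top_of_card_eq (h3.trans hV.symm)
      have : g = 1 := hi (LinearEquiv.ext fun v => by
        rw [map_one]; exact (this.ge (AddSubgroup.mem_top v) :))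
      simp [this] at e

end Cfsg.Agent.S3662
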