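import Cfsg.Statements.S3670
import Mathlib
import Cfsg.Agent.Lib.Spec8.DegU33

set_option autoImplicit false
open Cfsg

namespace Cfsg.Agent.S3670

/-- The character degree graph of a finite group has as vertices the primes dividing some irreducible complex character degree, two distinct primes being joined when their product divides some irreducible character degree; two groups have the same character degree graph when they have the same vertices and the same joined pairs. Let F be the field with 9 elements and L = PSU(3,3) realised over F (order 6048). There is a finite solvable group of order 6048 with the same character degree graph as L; so L is not determined by its order together with its character degree graph. -/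
theorem result {F : Type*} [Field F] [Fintype F] (hF : Fintype.card F = 9) :
    ∃ (H : Type) (_ : Group H) (_ : Fintype H), Group.IsSolvable H ∧ Nat.card H = 6048 ∧ Cfsg.degreePrimes H = Cfsg.degreePrimes (Cfsg.PSU 3 F 3) ∧ Cfsg.degreeGraph H = Cfsg.degreeGraph (Cfsg.PSU 3 F 3) := by
  have : H11.U.IsSq F 3 := ⟨hF⟩
  obtain ⟨H, _, _, h1, h2, h3⟩ := H8.Deg.exists_solvable
  obtain ⟨a1, a2, a3, a4⟩ := H8.Deg.degrees_psu (F := F) rfl
  obtain ⟨b1, b2⟩ := H8.Deg.graph a1 a2 a3 a4
  obtain ⟨c1, c2⟩ := H8.Deg.graph h2 ⟨_, h3, by norm_num⟩ ⟨_, h3, by norm_num⟩ ⟨_, h3, by norm_num⟩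
  exact ⟨H, inferInstance, inferInstance, h1, h2, c1.trans b1.symm,
    SimpleGraph.ext (funext₂ fun a b => propext ((c2 a b).trans (b2 a b).symm))⟩

end Cfsg.Agent.S3670
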