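import Mathlib
import Cfsg.Statements.S3682
import Cfsg.Agent.Lib.Perm75.TW2

set_option autoImplicit false
open Cfsg

namespace Cfsg.Agent.S3682

open Subgroup H75 MulAction

/-- Wielandt's bound toward the Sims conjecture. Let a finite group G act faithfully and primitively on a set Ω, let a and b be points, and suppose the orbit of b under the stabilizer of a has length d ≥ 2. Then there are a prime p and a normal p-subgroup P of the stabilizer of a, all of whose elements fix b, such that the index of P in the stabilizer of a divides d! · ((d - 1)!)^d. -/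
theorem result {G Ω : Type*} [Group G] [Finite G] [MulAction G Ω] [FaithfulSMul G Ω] [Finite Ω]
    (hprim : MulAction.IsPreprimitive G Ω) (a b : Ω) (d : ℕ) (hd : Nat.card (MulAction.orbit (MulAction.stabilizer G a) b) = d) (h2 : 2 ≤ d) :
    ∃ p : ℕ, p.Prime ∧ ∃ P : Subgroup (MulAction.stabilizer G a), P.Normal ∧ IsPGroup p P ∧ (∀ g : P, ((g : MulAction.stabilizer G a) : G) • b = b) ∧
      P.index ∣ Nat.factorial d * (Nat.factorial (d - 1)) ^ d := by
  rcases card_dvd_or hprim.toIsPretransitive hd with h | ⟨h1, h3⟩
  · refine ⟨2, Nat.prime_two, ⊥, inferInstance, IsPGroup.of_bot, fun g => ?_, by rwa [index_bot]⟩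
    rw [Subsingleton.elim g 1]; simp
  · obtain ⟨p, hp, hA, -⟩ := (twPair_stabilizer hprim (stabilizer_ne_of_two_le hd h2)).main
      (coreIn_le _ _) (le_normalizer_coreIn _ _) h1 (coreIn_le _ _) (le_normalizer_coreIn _ _) h3
    rw [card_orbit_stabilizer] at hd
    refine ⟨p, hp, subgroupOf _ _, normal_subgroupOf_of_le_normalizer (le_normalizer_coreIn _ _),
      hA.comap_subtype, fun g => ?_, relIndex_core2_dvd hd
        ((relIndex_stabilizer_comm hprim.toIsPretransitive a b).symm.trans hd)⟩
    exact (coreIn_le _ _ (coreIn_le _ _ g.2).1).2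

end Cfsg.Agent.S3682
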