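import Mathlib
import Cfsg.Statements.S3683
import Cfsg.Agent.Lib.Perm75.Prim

set_option autoImplicit false
open Cfsg

namespace Cfsg.Agent.S3683
open MulAction H75

/-- Let a finite group G act faithfully and primitively on a set Ω, and suppose the stabilizer of a point a fixes a second point b ≠ a (a suborbit of length 1 other than {a}). Then the stabilizer of a is trivial and G is cyclic of prime order. -/
theorem result {G Ω : Type*} [Group G] [Finite G] [MulAction G Ω] [FaithfulSMul G Ω] [Finite Ω]
    (hprim : MulAction.IsPreprimitive G Ω) (a b : Ω) (hab : a ≠ b) (hfix : ∀ g : G, g • a = a → g • b = b) :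
    MulAction.stabilizer G a = ⊥ ∧ IsCyclic G ∧ (Nat.card G).Prime := by
  haveI : Nontrivial Ω := ⟨a, b, hab⟩
  have ht := hprim.toIsPretransitive
  have hle : stabilizer G a ≤ stabilizer G b := fun g hg => hfix g hg
  have heq := stabilizer_eq_of_le ht hle
  obtain ⟨g, hg⟩ := ht.exists_smul_eq a b
  have hbot : stabilizer G a = ⊥ := by
    by_contra hne
    have h1 := normalizer_eq_stabilizer hprim (a := a) (stabilizer G a) le_rfl hne Subgroup.le_normalizer
    have h2 : g ∈ Subgroup.normalizer (stabilizer G a : Set G) := by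
      rw [Subgroup.mem_normalizer_iff'']
      intro x
      rw [← stabilizer_smul_mem, hg, heq]
    rw [h1] at h2
    exact hab ((show g • a = a from h2).symm.trans hg)
  have hco := isCoatom_stabilizer hprim a
  rw [hbot] at hco
  haveI : Nontrivial G := by
    refine ⟨g, 1, fun e => hab ?_⟩
    rw [← hg, e, one_smul]
  obtain ⟨p, hp, hpd⟩ := Nat.exists_prime_and_dvd (n := Nat.card G) (Finite.one_lt_card.ne')
  haveI := Fact.mk hp
  obtain ⟨x, hx⟩ := exists_prime_orderOf_dvd_card' p hpd
  have hx1 : Subgroup.zpowers x ≠ ⊥ := by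
    rw [Ne, Subgroup.zpowers_eq_bot]
    rintro rfl
    rw [orderOf_one] at hx
    exact hp.one_lt.ne hx
  have htop := hco.2 _ (bot_lt_iff_ne_bot.mpr hx1)
  have hc : Nat.card G = p := by
    rw [← hx, ← Nat.card_zpowers, htop, Subgroup.card_top]
  exact ⟨hbot, isCyclic_of_prime_card hc, hc ▸ hp⟩

end Cfsg.Agent.S3683
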