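import Mathlib
import Cfsg.Statements.S3684
import Cfsg.Agent.Lib.Perm75.Prim
import Cfsg.Agent.S0206

set_option autoImplicit false
open Cfsg

namespace Cfsg.Agent.S3684
open MulAction H75

/-- Let a finite group G act faithfully and primitively on a set Ω, and suppose the stabilizer of a point a has an orbit of length 2. Then the stabilizer of a has order 2 and G is isomorphic to the dihedral group of order 2p for some prime p. -/
theorem result {G Ω : Type*} [Group G] [Finite G] [MulAction G Ω] [FaithfulSMul G Ω] [Finite Ω]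
    (hprim : MulAction.IsPreprimitive G Ω) (a b : Ω) (h2 : Nat.card (MulAction.orbit (MulAction.stabilizer G a) b) = 2) :
    Nat.card (MulAction.stabilizer G a) = 2 ∧ ∃ p : ℕ, p.Prime ∧ Nonempty (G ≃* DihedralGroup p) := by
  have ht := hprim.toIsPretransitive
  rw [card_orbit_stabilizer] at h2
  have h2' := h2
  rw [relIndex_stabilizer_comm ht] at h2'
  have hne : stabilizer G a ≠ stabilizer G b := by
    intro e
    rw [e, Subgroup.relIndex_self] at h2
    omega
  have hn : ∀ A B : Subgroup G, B.relIndex A = 2 → A ≤ Subgroup.normalizer ((A ⊓ B : Subgroup G) : Set G) := by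
    intro A B h
    haveI : (B.subgroupOf A).Normal := Subgroup.normal_of_index_eq_two h
    rw [← Subgroup.normal_subgroupOf_iff_le_normalizer inf_le_left, Subgroup.inf_subgroupOf_left]
    infer_instance
  have hK : stabilizer G a ⊓ stabilizer G b = ⊥ :=
    eq_bot_of_normalized hprim hne _ (c := a) inf_le_left (hn _ _ h2) (by rw [inf_comm]; exact hn _ _ h2')
  have hca : Nat.card (stabilizer G a) = 2 := by
    rw [← Subgroup.inf_relIndex_left, hK, Subgroup.relIndex_bot_left] at h2
    exact h2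
  have hcb : Nat.card (stabilizer G b) = 2 := by rw [← card_stabilizer_eq ht a b, hca]
  refine ⟨hca, ?_⟩
  haveI : Fact (Nat.Prime 2) := Nat.fact_prime_two
  have gen : ∀ A : Subgroup G, Nat.card A = 2 → ∃ x : G, orderOf x = 2 ∧ Subgroup.zpowers x = A := by
    intro A hA
    obtain ⟨x, hx⟩ := exists_prime_orderOf_dvd_card' (G := A) 2 (by rw [hA])
    refine ⟨x, by rw [Subgroup.orderOf_coe, hx], ?_⟩
    apply Subgroup.eq_of_le_of_card_ge (Subgroup.zpowers_le.mpr x.2)
    rw [Nat.card_zpowers, Subgroup.orderOf_coe, hx, hA]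
  obtain ⟨x, hx, hxa⟩ := gen _ hca
  obtain ⟨y, hy, hyb⟩ := gen _ hcb
  have hxy : x ≠ y := by
    rintro rfl
    exact hne (hxa.symm.trans hyb)
  have htop : Subgroup.closure ({x, y} : Set G) = ⊤ := by
    rw [← sup_stabilizer_eq_top hprim hne, ← hxa, ← hyb, Set.insert_eq, Subgroup.closure_union,
      Subgroup.zpowers_eq_closure, Subgroup.zpowers_eq_closure]
  obtain ⟨e⟩ := Cfsg.Agent.S0206.result x y hx hy hxy
  have e' : G ≃* DihedralGroup (orderOf (x * y)) :=
    (Subgroup.topEquiv.symm.trans (MulEquiv.subgroupCongr htop.symm)).trans e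
  refine ⟨orderOf (x * y), ?_, ⟨e'⟩⟩
  set n := orderOf (x * y) with hn
  have hnpos : 0 < n := orderOf_pos _
  have hcG : Nat.card G = 2 * n := by
    rw [Nat.card_congr e'.toEquiv, DihedralGroup.nat_card]
  have hcΩ : Nat.card Ω = n := by
    have := (stabilizer G a).index_mul_card
    rw [index_stabilizer_eq_card ht, hca, hcG] at this
    omega
  have hx2 : x * x = 1 := by rw [← pow_two, ← hx, pow_orderOf_eq_one]
  have hy2 : y * y = 1 := by rw [← pow_two, ← hy, pow_orderOf_eq_one]
  have hn1 : n ≠ 1 := by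
    intro h1
    rw [hn, orderOf_eq_one_iff] at h1
    apply hxy
    rw [← mul_right_inj x, hx2, h1]
  rw [Nat.prime_def_lt]
  refine ⟨by omega, fun k hk hkd => ?_⟩
  have hk0 : k ≠ 0 := by rintro rfl; simp at hkd; omega
  have hord : orderOf ((x * y) ^ k) = n / k := by
    rw [orderOf_pow' _ hk0, Nat.gcd_eq_right hkd]
  have hN : (Subgroup.zpowers ((x * y) ^ k)).Normal := by
    rw [← Subgroup.normalizer_eq_top_iff, eq_top_iff, ← htop, Subgroup.closure_le]
    have key : ∀ z : G, z * z = 1 → z * (x * y) * z⁻¹ = (x * y)⁻¹ →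
        z ∈ Subgroup.normalizer (Subgroup.zpowers ((x * y) ^ k) : Set G) := by
      intro z hz hz'
      have k1 : ∀ w ∈ Subgroup.zpowers ((x * y) ^ k), z * w * z⁻¹ ∈ Subgroup.zpowers ((x * y) ^ k) := by
        rintro _ ⟨m, rfl⟩
        have : z * ((x * y) ^ k) ^ m * z⁻¹ = (((x * y) ^ k) ^ m)⁻¹ := by
          rw [← conj_zpow, ← conj_pow, hz', inv_pow, inv_zpow]
        simp only [this]
        exact Subgroup.inv_mem _ ⟨m, rfl⟩
      rw [Subgroup.mem_normalizer_iff]
      intro w
      refine ⟨k1 w, fun h => ?_⟩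
      have := k1 _ h
      have e : z * (z * w * z⁻¹) * z⁻¹ = (z * z) * w * (z * z)⁻¹ := by group
      rwa [e, hz, one_mul, inv_one, mul_one] at this
    have hxi : x⁻¹ = x := inv_eq_of_mul_eq_one_right hx2
    have hyi : y⁻¹ = y := inv_eq_of_mul_eq_one_right hy2
    rintro z (rfl | rfl)
    · apply key _ hx2
      rw [mul_inv_rev, hxi, hyi, ← mul_assoc, hx2, one_mul]
    · apply key _ hy2
      rw [mul_inv_rev, hxi, hyi, mul_assoc, mul_assoc, hy2, mul_one]
  have hN1 : Subgroup.zpowers ((x * y) ^ k) ≠ ⊥ := by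
    rw [Ne, Subgroup.zpowers_eq_bot, ← orderOf_dvd_iff_pow_eq_one]
    intro h
    exact absurd (Nat.le_of_dvd (Nat.pos_of_ne_zero hk0) h) (by omega)
  have hNt := normal_isPretransitive' hprim _ hN hN1
  have hdv : Nat.card Ω ∣ Nat.card (Subgroup.zpowers ((x * y) ^ k)) := by
    rw [← index_stabilizer_eq_card hNt a]
    exact Subgroup.index_dvd_card _
  rw [hcΩ, Nat.card_zpowers, hord] at hdv
  obtain ⟨l, hl⟩ := hkd
  have hl' : n / k = l := by rw [hl, Nat.mul_div_cancel_left _ (Nat.pos_of_ne_zero hk0)]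
  rw [hl'] at hdv
  have hl0 : 0 < l := by
    rcases l with _ | l
    · omega
    · omega
  have := Nat.le_of_dvd hl0 hdv
  by_contra hk1
  have : 2 * l ≤ k * l := Nat.mul_le_mul_right _ (by omega)
  omega

end Cfsg.Agent.S3684
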