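import Mathlib
import Cfsg.Statements.S3693
import Cfsg.Agent.Lib.Perm75.TW2

set_option autoImplicit false
open Cfsg

namespace Cfsg.Agent.S3693

open Subgroup H75 MulAction

/-- Let a finite group G act faithfully and primitively on a set Ω, let a and b be points such that the orbit Δ of b under the stabilizer H of a has length d ≥ 2, and consider the permutation group induced on Δ by the elements of H fixing b. If that induced group has trivial Fitting subgroup (no non-trivial nilpotent normal subgroup), then the two-point stabilizer of a and b has trivial Fitting subgroup and the order of H divides d! · ((d - 1)!)^d. -/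
theorem result {G Ω : Type*} [Group G] [Finite G] [MulAction G Ω] [FaithfulSMul G Ω] [Finite Ω]
    (hprim : MulAction.IsPreprimitive G Ω) (a b : Ω) (d : ℕ) (hd : Nat.card (MulAction.orbit (MulAction.stabilizer G a) b) = d) (h2 : 2 ≤ d)
    (hF : Cfsg.fittingSubgroup ↥(((MulAction.stabilizer G b).subgroupOf (MulAction.stabilizer G a)).map (MulAction.toPermHom (MulAction.stabilizer G a) (MulAction.orbit (MulAction.stabilizer G a) b))) = ⊥) :
    Cfsg.fittingSubgroup ↥(MulAction.stabilizer G a ⊓ MulAction.stabilizer G b) = ⊥ ∧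
      Nat.card (MulAction.stabilizer G a) ∣ Nat.factorial d * (Nat.factorial (d - 1)) ^ d := by
  have T := twPair_stabilizer hprim (stabilizer_ne_of_two_le hd h2)
  set M₁ := stabilizer G a with hM₁
  set M₂ := stabilizer G b with hM₂
  have key : ∀ p : ℕ, p.Prime → pCoreOf p (M₁ ⊓ M₂) = ⊥ := by
    intro p hp
    have := Fact.mk hp
    set P := pCoreOf p (M₁ ⊓ M₂)
    have hP : P ≤ M₁ ⊓ M₂ := H1.pCoreOf_le _
    have nP : M₁ ⊓ M₂ ≤ normalizer (P : Set G) := H1.le_normalizer_pCoreOf _
    have h1 : P ≤ coreIn M₁ (M₁ ⊓ M₂) := by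
      let φ := toPermHom M₁ (orbit M₁ b)
      have h3 : (P.subgroupOf M₁).map φ ≤ fittingOf ((M₂.subgroupOf M₁).map φ) := by
        refine H1.le_fittingOf (map_mono fun x hx => (hP hx).2) ?_
          (((H1.isPGroup_pCoreOf _).comap_subtype.map φ).isNilpotent)
        refine le_trans (map_mono ?_) (le_normalizer_map φ)
        rw [← subgroupOf_normalizer_eq (hP.trans inf_le_left)]
        exact fun x hx => nP ⟨x.2, hx⟩
      rw [H1.fittingOf_def, hF, Subgroup.map_bot, le_bot_iff, Subgroup.map_eq_bot_iff] at h3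
      intro x hx
      refine mem_coreIn.mpr ⟨(hP hx).1, fun g hg =>
        ⟨M₁.mul_mem (M₁.mul_mem hg (hP hx).1) (M₁.inv_mem hg), ?_⟩⟩
      have h4 := congrArg (fun s : Equiv.Perm (orbit M₁ b) =>
        (s ⟨_, mem_orbit b (⟨g, hg⟩⁻¹ : M₁)⟩ : Ω))
        (MonoidHom.mem_ker.mp (h3 (x := ⟨x, (hP hx).1⟩) hx))
      have h5 : x • g⁻¹ • b = g⁻¹ • b := h4
      change (g * x * g⁻¹) • b = b
      rw [mul_smul, mul_smul, h5, smul_inv_smul]
    have h2 : P = pCoreOf p (coreIn M₁ (M₁ ⊓ M₂)) :=
      le_antisymm (H1.le_pCoreOf h1 ((coreIn_le _ _).trans nP) (H1.isPGroup_pCoreOf _))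
        (H1.le_pCoreOf ((H1.pCoreOf_le _).trans (coreIn_le _ _))
          ((inf_le_left.trans (le_normalizer_coreIn _ _)).trans
            (H1.normalizer_le_normalizer_pCoreOf _)) (H1.isPGroup_pCoreOf _))
    have h3 : M₁ ≤ normalizer (P : Set G) :=
      h2 ▸ (le_normalizer_coreIn _ _).trans (H1.normalizer_le_normalizer_pCoreOf _)
    have h4 : P ≤ pCoreOf p M₁ := H1.le_pCoreOf (hP.trans inf_le_left) h3 (H1.isPGroup_pCoreOf _)
    by_contra hne
    have hN := T.n1 P hne (hP.trans inf_le_left) h3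
    have hn : P ≤ normalizer (pCoreOf p M₂ : Set G) :=
      (hP.trans inf_le_right).trans (H1.le_normalizer_pCoreOf _)
    have hle : pCoreOf p M₂ ≤ P := by
      by_contra hh
      have hlt : P < pCoreOf p M₂ ⊔ P :=
        lt_of_le_of_ne le_sup_right fun e => hh (e ▸ le_sup_left)
      obtain ⟨x, hx, hx1, hx2⟩ := H68.exists_mem_normalizer_of_lt
        ((H1.isPGroup_pCoreOf _).to_sup_of_normal_left' (H1.isPGroup_pCoreOf _) hn) hlt
      obtain ⟨u, hu, v, hv, rfl⟩ := (H2.mem_sup_iff_of_le_normalizer hn).mp hx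
      have h5 : u ∈ M₁ := (M₁.mul_mem_cancel_right (hP hv).1).mp (hN hx2)
      exact hx1 (mul_mem (H1.pCoreOf_inf_le inf_le_right ⟨hu, h5, H1.pCoreOf_le _ hu⟩) hv)
    have e := eq_of_le_of_card_ge (hle.trans h4) (T.card_pCoreOf p).le
    exact hne (le_bot_iff.mp (h4.trans (T.eq_bot (H1.pCoreOf_le _) (H1.le_normalizer_pCoreOf _)
      (e ▸ H1.le_normalizer_pCoreOf _)).le))
  refine ⟨?_, ?_⟩
  · rw [H1.fitting_eq_iSup_pCore, iSup_eq_bot]
    exact fun p => (map_eq_bot_iff_of_injective _ (subtype_injective _)).mp (key p p.2)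
  rcases card_dvd_or hprim.toIsPretransitive hd with h | ⟨h1, h3⟩
  · exact h
  · obtain ⟨p, hp, hA, -⟩ := T.main
      (coreIn_le _ _) (le_normalizer_coreIn _ _) h1 (coreIn_le _ _) (le_normalizer_coreIn _ _) h3
    exact absurd (le_bot_iff.mp (key p hp ▸ H1.le_pCoreOf
      (((coreIn_le _ _).trans inf_le_left).trans (coreIn_le _ _))
      (inf_le_left.trans (le_normalizer_coreIn _ _)) hA)) h1

end Cfsg.Agent.S3693
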