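import Mathlib
import Cfsg.Statements.S3687
import Cfsg.Agent.S3693
import Cfsg.Agent.Lib.Perm.KnappB

set_option autoImplicit false
open Cfsg

namespace Cfsg.Agent.S3687

open MulAction Subgroup H26.Knapp
open scoped Pointwise commutatorElement Classical

theorem not_solvable {G Ω : Type*} [Group G] [MulAction G Ω] [Finite Ω] {N : Subgroup G} {Γ : Set Ω}
    (h : Alt N Γ) (h5 : 5 ≤ Γ.ncard) {Y : Type*} [Group Y] [hY : Group.IsSolvable Y] (φ : N →* Y)
    (hk : ∀ n : N, φ n = 1 → (n : G) ∈ fixingSubgroup G Γ) : False := by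
  have key : ∀ n, Alt ((derivedSeries N n).map N.subtype) Γ := by
    intro n
    induction n with
    | zero => rw [derivedSeries_zero, ← MonoidHom.range_eq_map, range_subtype]; exact h
    | succ n ih =>
      refine h.normal h5 (map_subtype_le _) ?_ fun hf => ?_
      · rintro g hg _ ⟨x, hx, rfl⟩
        exact ⟨_, (derivedSeries_normal N (n + 1)).conj_mem x hx ⟨g, hg⟩, rfl⟩
      · rw [derivedSeries_succ, map_commutator] at hf
        exact ih.not_comm ih h5 hf
  obtain ⟨n, hn⟩ := hY.solvable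
  apply (key n).not_le_fix (by omega)
  rintro _ ⟨x, hx, rfl⟩
  apply hk
  have := map_derivedSeries_le_derivedSeries φ n ⟨x, hx, rfl⟩
  rwa [hn, mem_bot] at this

theorem exists_ext {M X : Type*} [Group M] [Group X] (C D : Subgroup M) [C.Normal]
    (h : ∀ m : M, ∃ c ∈ C, ∃ δ ∈ D, m = c * δ) (ρ : D →* X) (hρ : ∀ δ : D, (δ : M) ∈ C → ρ δ = 1) :
    ∃ ψ : M →* X, (∀ δ : D, ψ δ = ρ δ) ∧ ∀ c ∈ C, ψ c = 1 := by
  let f : D →* M ⧸ C := (QuotientGroup.mk' C).comp D.subtype
  have hf : Function.Surjective f := by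
    intro q
    obtain ⟨m, rfl⟩ := QuotientGroup.mk'_surjective C q
    obtain ⟨c, hc, δ, hδ, rfl⟩ := h m
    refine ⟨⟨δ, hδ⟩, ?_⟩
    rw [map_mul, QuotientGroup.mk'_apply C c, (QuotientGroup.eq_one_iff c).2 hc, one_mul]
    rfl
  have hk : f.ker ≤ ρ.ker := fun δ hδ => hρ δ ((QuotientGroup.eq_one_iff _).1 hδ)
  refine ⟨(f.liftOfSurjective hf ⟨ρ, hk⟩).comp (QuotientGroup.mk' C), fun δ => ?_, fun c hc => ?_⟩
  · exact f.liftOfRightInverse_comp_apply _ (Function.rightInverse_surjInv hf) ⟨ρ, hk⟩ δ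
  · rw [MonoidHom.comp_apply, QuotientGroup.mk'_apply, (QuotientGroup.eq_one_iff c).2 hc, map_one]

theorem classify {M : Type*} [Group M] {n m : ℕ} (α : M →* Equiv.Perm (Fin n))
    (ψ : M →* Equiv.Perm (Fin m)) (hinj : ∀ g, α g = 1 → ψ g = 1 → g = 1)
    (h1 : ∀ σ ∈ alternatingGroup (Fin n), ∃ g, α g = σ ∧ ψ g = 1)
    (h2 : ∀ τ ∈ alternatingGroup (Fin m), ∃ g, α g = 1 ∧ ψ g = τ) :
    ((∀ g, Equiv.Perm.sign (α g) = 1) → (∀ g, Equiv.Perm.sign (ψ g) = 1) →
      Nonempty (M ≃* alternatingGroup (Fin n) × alternatingGroup (Fin m))) ∧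
    ((∃ g, Equiv.Perm.sign (α g) = -1) →
      (Nonempty (M ≃* Equiv.Perm (Fin n) × Equiv.Perm (Fin m)) ∨
       Nonempty (M ≃* Equiv.Perm (Fin n) × alternatingGroup (Fin m)) ∨
       Nonempty (M ≃* ((Equiv.Perm.sign.comp (MonoidHom.fst (Equiv.Perm (Fin n)) (Equiv.Perm (Fin m)))) *
         (Equiv.Perm.sign.comp (MonoidHom.snd (Equiv.Perm (Fin n)) (Equiv.Perm (Fin m))))).ker))) := by
  let Φ := α.prod ψ
  have hΦ : Function.Injective Φ := (injective_iff_map_eq_one Φ).2 fun g hg =>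
    hinj g (congrArg Prod.fst hg) (congrArg Prod.snd hg)
  let e := MonoidHom.ofInjective hΦ
  have key : ∀ (g : M) (x : Equiv.Perm (Fin n) × Equiv.Perm (Fin m)),
      Equiv.Perm.sign x.1 = Equiv.Perm.sign (α g) → Equiv.Perm.sign x.2 = Equiv.Perm.sign (ψ g) →
      x ∈ Φ.range := by
    rintro g ⟨σ, τ⟩ e1 e2
    obtain ⟨c, c1, c2⟩ := h1 (σ * (α g)⁻¹) (by
      rw [Equiv.Perm.mem_alternatingGroup, map_mul, map_inv, e1, mul_inv_cancel])
    obtain ⟨k, k1, k2⟩ := h2 (τ * (ψ g)⁻¹) (by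
      rw [Equiv.Perm.mem_alternatingGroup, map_mul, map_inv, e2, mul_inv_cancel])
    refine ⟨c * k * g, Prod.ext ?_ ?_⟩
    · show α (c * k * g) = σ
      rw [map_mul, map_mul, c1, k1]; group
    · show ψ (c * k * g) = τ
      rw [map_mul, map_mul, c2, k2]; group
  refine ⟨fun a1 a2 => ?_, ?_⟩
  · have : Φ.range = (alternatingGroup (Fin n)).prod (alternatingGroup (Fin m)) := by
      ext x
      constructor
      · rintro ⟨g, rfl⟩; exact ⟨a1 g, a2 g⟩
      · rintro ⟨x1, x2⟩
        exact key 1 x (by rw [a1]; exact x1) (by rw [a2]; exact x2)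
    exact ⟨(e.trans (MulEquiv.subgroupCongr this)).trans (Subgroup.prodEquiv _ _)⟩
  rintro ⟨g₀, hg₀⟩
  by_cases a2 : ∀ g, Equiv.Perm.sign (ψ g) = 1
  · right; left
    have : Φ.range = (⊤ : Subgroup _).prod (alternatingGroup (Fin m)) := by
      ext x
      constructor
      · rintro ⟨g, rfl⟩; exact ⟨trivial, a2 g⟩
      · rintro ⟨-, x2⟩
        rcases Int.units_eq_one_or (Equiv.Perm.sign x.1) with x1 | x1
        · exact key 1 x (by rw [x1, map_one, map_one]) (by rw [a2]; exact x2)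
        · exact key g₀ x (by rw [x1, hg₀]) (by rw [a2]; exact x2)
    exact ⟨((e.trans (MulEquiv.subgroupCongr this)).trans (Subgroup.prodEquiv _ _)).trans
      (MulEquiv.prodCongr Subgroup.topEquiv (MulEquiv.refl _))⟩
  push Not at a2
  obtain ⟨g₁, hg₁⟩ := a2
  have hg₁' := (Int.units_eq_one_or _).resolve_left hg₁
  by_cases a3 : ∀ g, Equiv.Perm.sign (α g) = Equiv.Perm.sign (ψ g)
  · right; right
    refine ⟨e.trans (MulEquiv.subgroupCongr ?_)⟩
    ext x
    rw [MonoidHom.mem_ker]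
    change _ ↔ Equiv.Perm.sign x.1 * Equiv.Perm.sign x.2 = 1
    constructor
    · rintro ⟨g, rfl⟩
      change Equiv.Perm.sign (α g) * Equiv.Perm.sign (ψ g) = 1
      rw [a3, Int.units_mul_self]
    · intro hx
      rcases Int.units_eq_one_or (Equiv.Perm.sign x.1) with x1 | x1
      · rw [x1, one_mul] at hx
        exact key 1 x (by rw [x1, map_one, map_one]) (by rw [hx, map_one, map_one])
      · rw [x1, neg_one_mul, neg_eq_iff_eq_neg] at hx
        exact key g₀ x (by rw [x1, hg₀]) (by rw [hx, ← a3, hg₀])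
  push Not at a3
  obtain ⟨g₂, hg₂⟩ := a3
  left
  have : Φ.range = ⊤ := by
    rw [eq_top_iff]
    intro x _
    have : ∃ g, Equiv.Perm.sign x.1 = Equiv.Perm.sign (α g) ∧
        Equiv.Perm.sign x.2 = Equiv.Perm.sign (ψ g) := by
      by_contra hh
      push Not at hh
      have t1 := hh 1
      have t2 := hh g₀
      have t3 := hh g₁
      have t4 := hh g₂
      have t5 := hh (g₀ * g₁)
      have t6 := hh (g₀ * g₂)
      have t7 := hh (g₁ * g₂)
      simp only [map_mul, map_one, hg₀, hg₁'] at t1 t2 t3 t4 t5 t6 t7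
      revert t1 t2 t3 t4 t5 t6 t7 hg₂
      generalize Equiv.Perm.sign x.1 = u1
      generalize Equiv.Perm.sign x.2 = u2
      generalize Equiv.Perm.sign (ψ g₀) = u3
      generalize Equiv.Perm.sign (α g₁) = u4
      generalize Equiv.Perm.sign (α g₂) = u5
      generalize Equiv.Perm.sign (ψ g₂) = u6
      rcases Int.units_eq_one_or u1 with rfl | rfl <;> rcases Int.units_eq_one_or u2 with rfl | rfl <;>
      rcases Int.units_eq_one_or u3 with rfl | rfl <;> rcases Int.units_eq_one_or u4 with rfl | rfl <;>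
      rcases Int.units_eq_one_or u5 with rfl | rfl <;> rcases Int.units_eq_one_or u6 with rfl | rfl <;>
      simp
    obtain ⟨g, e1, e2⟩ := this
    exact key g x e1 e2
  exact ⟨(e.trans (MulEquiv.subgroupCongr this)).trans Subgroup.topEquiv⟩


variable {G Ω : Type*} [Group G] [MulAction G Ω]

/-- the orbital of `(a, b)` -/
def Orb (G : Type*) [Group G] [MulAction G Ω] (a b x y : Ω) : Prop := ∃ g : G, g • a = x ∧ g • b = y

theorem orb_inv {a b : Ω} (g : G) (x y : Ω) (h : Orb G a b x y) : Orb G a b (g • x) (g • y) := by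
  obtain ⟨k, rfl, rfl⟩ := h
  exact ⟨g * k, mul_smul _ _ _, mul_smul _ _ _⟩

theorem nb_eq {a b x y : Ω} (h : Orb G a b x y) : Nb (Orb G a b) x = orbit (stabilizer G x) y := by
  obtain ⟨k, rfl, rfl⟩ := h
  ext z
  constructor
  · rintro ⟨g, h1, rfl⟩
    refine ⟨⟨g * k⁻¹, ?_⟩, ?_⟩
    · rw [mem_stabilizer_iff, mul_smul, inv_smul_smul, h1]
    · show (g * k⁻¹) • k • b = g • b
      rw [mul_smul, inv_smul_smul]
  · rintro ⟨⟨g, hg⟩, rfl⟩
    exact ⟨g * k, by rw [mul_smul]; exact hg, mul_smul _ _ _⟩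

theorem flip_orb (a b : Ω) : flip (Orb G a b) = Orb G b a := by
  funext x y
  exact propext ⟨fun ⟨g, h1, h2⟩ => ⟨g, h2, h1⟩, fun ⟨g, h1, h2⟩ => ⟨g, h2, h1⟩⟩

theorem card_nb (htr : IsPretransitive G Ω) (a b x : Ω) :
    (Nb (Orb G a b) x).ncard = Nat.card (orbit (stabilizer G a) b) := by
  obtain ⟨g, rfl⟩ := htr.exists_smul_eq a x
  have : Nb (Orb G a b) (g • a) = g • Nb (Orb G a b) a := by
    ext z
    rw [Set.mem_smul_set_iff_inv_smul_mem]
    constructor
    · intro h
      have := orb_inv g⁻¹ _ _ h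
      rwa [inv_smul_smul] at this
    · intro h
      have := orb_inv g _ _ h
      rwa [smul_inv_smul] at this
  rw [this, Set.ncard_smul_set, nb_eq (y := b) ⟨1, one_smul _ _, one_smul _ _⟩, Nat.card_coe_set_eq]

theorem conj_K {O : Ω → Ω → Prop} (inv : ∀ (g : G) x y, O x y → O (g • x) (g • y)) {x : Ω} {k : G}
    (hk : k ∈ K G O x) (g : G) : g * k * g⁻¹ ∈ K G O (g • x) := by
  rw [mem_K] at hk ⊢
  refine ⟨by rw [mul_smul, mul_smul, inv_smul_smul, hk.1], fun y hy => ?_⟩
  have := inv g⁻¹ _ _ hy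
  rw [inv_smul_smul] at this
  rw [mul_smul, mul_smul, hk.2 _ this, smul_inv_smul]

/-- the second core -/
def K2 (G : Type*) [Group G] [MulAction G Ω] (O : Ω → Ω → Prop) (x : Ω) : Subgroup G :=
  K G O x ⊓ ⨅ y ∈ Nb O x, K G (flip O) y

theorem mem_K2 {O : Ω → Ω → Prop} {x : Ω} {g : G} :
    g ∈ K2 G O x ↔ g ∈ K G O x ∧ ∀ y, O x y → g ∈ K G (flip O) y := by
  simp only [K2, mem_inf, mem_iInf]; rfl

theorem conj_K2 {O : Ω → Ω → Prop} (inv : ∀ (g : G) x y, O x y → O (g • x) (g • y)) {x : Ω} {k : G}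
    (hk : k ∈ K2 G O x) (g : G) : g * k * g⁻¹ ∈ K2 G O (g • x) := by
  rw [mem_K2] at hk ⊢
  refine ⟨conj_K inv hk.1 g, fun y hy => ?_⟩
  have h1 := inv g⁻¹ _ _ hy
  rw [inv_smul_smul] at h1
  have := conj_K (O := flip O) (fun g x y => inv g y x) (hk.2 _ h1) g
  rwa [smul_inv_smul] at this

theorem K2_all {O : Ω → Ω → Prop} (inv : ∀ (g : G) x y, O x y → O (g • x) (g • y))
    (htr : IsPretransitive G Ω) {a : Ω} (h : K2 G O a = ⊥) :
    ∀ x, ∀ g ∈ K G O x, (∀ y, O x y → g ∈ K G (flip O) y) → g = 1 := by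
  intro x g h1 h2
  obtain ⟨k, rfl⟩ := htr.exists_smul_eq x a
  have := conj_K2 inv (mem_K2.2 ⟨h1, h2⟩) k
  rw [h, mem_bot] at this
  simpa using this

theorem nz_K {O : Ω → Ω → Prop} (inv : ∀ (g : G) x y, O x y → O (g • x) (g • y)) (x : Ω) :
    Nz (stabilizer G x) (K G O x) := fun g hg k hk => by
  have := conj_K inv hk g
  rwa [mem_stabilizer_iff.1 hg] at this

theorem nz_K2 {O : Ω → Ω → Prop} (inv : ∀ (g : G) x y, O x y → O (g • x) (g • y)) (x : Ω) :
    Nz (stabilizer G x) (K2 G O x) := fun g hg k hk => by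
  have := conj_K2 inv hk g
  rwa [mem_stabilizer_iff.1 hg] at this

theorem hyp [Finite G] [FaithfulSMul G Ω] [Finite Ω] (hprim : IsPreprimitive G Ω) (a b : Ω) (d : ℕ)
    (hd : Nat.card (orbit (stabilizer G a) b) = d) (h6 : 6 ≤ d)
    (hA : Alt (stabilizer G a) (orbit (stabilizer G a) b)) : Hyp G (Orb G a b) d := by
  have htr := hprim.toIsPretransitive
  have hab : Orb G a b a b := ⟨1, one_smul _ _, one_smul _ _⟩
  have c1 : ∀ x, (Nb (Orb G a b) x).ncard = d := fun x => (card_nb htr a b x).trans hd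
  have inv' : ∀ (g : G) x y, flip (Orb G a b) x y → flip (Orb G a b) (g • x) (g • y) :=
    fun g x y => orb_inv g y x
  refine ⟨orb_inv, htr, c1, fun y => ?_, h6, fun x y hxy N h1 h2 h3 h4 => ?_, ?_⟩
  · rw [flip_orb, card_nb htr, H75.card_orbit_stabilizer, H75.relIndex_stabilizer_comm htr,
      ← H75.card_orbit_stabilizer, hd]
  · have : Nat.card (orbit (stabilizer G x) y) = d := by
      rw [← nb_eq hxy, Nat.card_coe_set_eq, c1]
    exact (H75.twPair_stabilizer hprim (H75.stabilizer_ne_of_two_le this (by omega))).eq_bot h1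
      h3.le_normalizer h4.le_normalizer
  have hb : b ∈ orbit (stabilizer G a) b := mem_orbit_self b
  have hD := hA.diff hb
  have h5 : 5 ≤ (orbit (stabilizer G a) b \ {b}).ncard := by
    rw [Set.ncard_sdiff_singleton_of_mem hb, ← Nat.card_coe_set_eq, hd]; omega
  have hF := (Cfsg.Agent.S3693.result hprim a b d hd (by omega) (by
    set τ := toPermHom (stabilizer G a) (orbit (stabilizer G a) b)
    set X := ((stabilizer G b).subgroupOf (stabilizer G a)).map τ
    set F := Cfsg.fittingSubgroup X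
    let N : Subgroup G := ((F.map X.subtype).comap τ ⊓
      (stabilizer G b).subgroupOf (stabilizer G a)).map (stabilizer G a).subtype
    have hN : N ≤ stabilizer G a ⊓ stabilizer G b := by
      rintro _ ⟨x, hx, rfl⟩; exact ⟨x.2, hx.2⟩
    have hf : N ≤ fixingSubgroup G (orbit (stabilizer G a) b \ {b}) := by
      by_contra hf
      have h1 := hD.normal h5 hN (by
        rintro g hg _ ⟨x, ⟨⟨y, hy, e⟩, hx⟩, rfl⟩
        refine ⟨⟨g, hg.1⟩ * x * ⟨g, hg.1⟩⁻¹, ⟨?_, (stabilizer G b).mul_mem ((stabilizer G b).mul_mem hg.2 hx) ((stabilizer G b).inv_mem hg.2)⟩, rfl⟩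
        refine ⟨_, (inferInstance : F.Normal).conj_mem y hy ⟨τ ⟨g, hg.1⟩, ⟨_, hg.2, rfl⟩⟩, ?_⟩
        change τ _ * (y : Equiv.Perm _) * (τ _)⁻¹ = τ _
        rw [map_mul, map_mul, map_inv, ← e]; rfl) hf
      haveI : Group.IsNilpotent (F.map X.subtype) :=
        Group.nilpotent_of_mulEquiv (F.equivMapOfInjective _ X.subtype_injective)
      refine not_solvable h1 h5 (Y := F.map X.subtype)
        ((τ.comp (inclusion (hN.trans inf_le_left))).codRestrict _ ?_) ?_
      · rintro ⟨_, x, hx, rfl⟩; exact hx.1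
      · intro n hn
        rw [mem_fix]
        intro y hy
        have := congrArg (fun s : F.map X.subtype => ((s : Equiv.Perm (orbit (stabilizer G a) b)) ⟨y, hy.1⟩ : Ω)) hn
        exact this
    rw [eq_bot_iff]
    rintro ⟨_, x, hx, rfl⟩ hy
    have h1 : (x : G) ∈ N := ⟨x, ⟨⟨_, hy, rfl⟩, hx⟩, rfl⟩
    rw [mem_bot]
    apply Subtype.ext
    ext y
    change (x : G) • (y : Ω) = y
    by_cases e : (y : Ω) = b
    · rw [e]; exact hx
    · exact mem_fix.1 (hf h1) y ⟨y.2, e⟩)).1
  by_cases e1 : K2 G (Orb G a b) a = ⊥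
  · exact Or.inl (K2_all orb_inv htr e1)
  by_cases e2 : K2 G (flip (Orb G a b)) b = ⊥
  · exact Or.inr (K2_all inv' htr e2)
  exfalso
  have l1 : K G (Orb G a b) a ≤ H75.coreIn (stabilizer G a) (stabilizer G a ⊓ stabilizer G b) :=
    H75.le_coreIn K_le (le_inf K_le (K_le' hab)) (nz_K orb_inv a).le_normalizer
  have l2 : K G (flip (Orb G a b)) b ≤ H75.coreIn (stabilizer G b) (stabilizer G a ⊓ stabilizer G b) :=
    H75.le_coreIn K_le (le_inf (K_le' (O := flip (Orb G a b)) hab) K_le) (nz_K inv' b).le_normalizer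
  obtain ⟨p, hp, hP, -⟩ := (H75.twPair_stabilizer hprim (H75.stabilizer_ne_of_two_le hd (by omega))).main
    (A := K2 G (Orb G a b) a) (B := K2 G (flip (Orb G a b)) b)
    (fun g hg => ⟨l1 (mem_K2.1 hg).1, l2 ((mem_K2.1 hg).2 b hab)⟩) (nz_K2 orb_inv a).le_normalizer e1
    (fun g hg => ⟨l1 ((mem_K2.1 hg).2 a hab), l2 (mem_K2.1 hg).1⟩) (nz_K2 inv' b).le_normalizer e2
  haveI := Fact.mk hp
  have hle : K2 G (Orb G a b) a ≤ stabilizer G a ⊓ stabilizer G b :=
    inf_le_left.trans (le_inf K_le (K_le' hab))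
  haveI : ((K2 G (Orb G a b) a).subgroupOf (stabilizer G a ⊓ stabilizer G b)).Normal :=
    ⟨fun x hx g => nz_K2 (G := G) orb_inv a g g.2.1 x hx⟩
  have := H1.le_fitting (N := (K2 G (Orb G a b) a).subgroupOf (stabilizer G a ⊓ stabilizer G b))
    hP.comap_subtype.isNilpotent
  rw [hF, le_bot_iff, subgroupOf_eq_bot] at this
  exact e1 (this.eq_bot_of_le hle)


theorem relIndex_mul_card (H L : Subgroup G) : H.relIndex L * Nat.card (L ⊓ H : Subgroup G) = Nat.card L := by
  rw [← (H.subgroupOf L).index_mul_card, ← inf_subgroupOf_left,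
    Nat.card_congr (subgroupOfEquivOfLe (inf_le_left : L ⊓ H ≤ L)).toEquiv, inf_subgroupOf_left]
  rfl


/-- Let a finite group G act faithfully and primitively on a set Ω, let a and b be points such that the orbit Δ of b under the stabilizer H of a has d ≥ 6 elements, and suppose that the permutation group induced by H on Δ contains the alternating group of Δ (the image of H in the symmetric group of Δ has index at most 2) while H does not act faithfully on Δ. Then either H induces exactly the alternating group of Δ and H is isomorphic to the direct product of the alternating groups of degrees d and d - 1; or H induces the full symmetric group of Δ and H is isomorphic to one of: the direct product of the symmetric groups of degrees d and d - 1, the direct product of the symmetric group of degree d with the alternating group of degree d - 1, or the subgroup of the direct product of the symmetric groups of degrees d and d - 1 consisting of the pairs of permutations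 with equal signs. -/
theorem result {G Ω : Type*} [Group G] [Finite G] [MulAction G Ω] [FaithfulSMul G Ω] [Finite Ω]
    (hprim : MulAction.IsPreprimitive G Ω) (a b : Ω) (d : ℕ) (hd : Nat.card (MulAction.orbit (MulAction.stabilizer G a) b) = d) (h6 : 6 ≤ d)
    (halt : (MulAction.toPermHom (MulAction.stabilizer G a) (MulAction.orbit (MulAction.stabilizer G a) b)).range.index ≤ 2)
    (hunf : ¬ Function.Injective (MulAction.toPermHom (MulAction.stabilizer G a) (MulAction.orbit (MulAction.stabilizer G a) b))) :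
    ((MulAction.toPermHom (MulAction.stabilizer G a) (MulAction.orbit (MulAction.stabilizer G a) b)).range.index = 2 ∧
      Nonempty (MulAction.stabilizer G a ≃* alternatingGroup (Fin d) × alternatingGroup (Fin (d - 1)))) ∨
    ((MulAction.toPermHom (MulAction.stabilizer G a) (MulAction.orbit (MulAction.stabilizer G a) b)).range = ⊤ ∧
      (Nonempty (MulAction.stabilizer G a ≃* Equiv.Perm (Fin d) × Equiv.Perm (Fin (d - 1))) ∨
       Nonempty (MulAction.stabilizer G a ≃* Equiv.Perm (Fin d) × alternatingGroup (Fin (d - 1))) ∨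
       Nonempty (MulAction.stabilizer G a ≃* ((Equiv.Perm.sign.comp (MonoidHom.fst (Equiv.Perm (Fin d)) (Equiv.Perm (Fin (d - 1))))) *
         (Equiv.Perm.sign.comp (MonoidHom.snd (Equiv.Perm (Fin d)) (Equiv.Perm (Fin (d - 1)))))).ker))) := by
  have htr := hprim.toIsPretransitive
  set τ := toPermHom (stabilizer G a) (orbit (stabilizer G a) b) with hτ
  have hab : Orb G a b a b := ⟨1, one_smul _ _, one_smul _ _⟩
  have hΔ : Nb (Orb G a b) a = orbit (stabilizer G a) b := nb_eq hab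
  have hb : b ∈ orbit (stabilizer G a) b := mem_orbit_self b
  have hst : stabilizer G a ≤ stabilizer G (orbit (stabilizer G a) b) := fun g hg =>
    mem_stab fun y hy => by
      obtain ⟨k, rfl⟩ := hy
      exact ⟨⟨g, hg⟩ * k, mul_smul _ _ _⟩
  have τ1 : ∀ g : stabilizer G a, τ g = rho G _ ⟨g, hst g.2⟩ := fun g => rfl
  have hker : τ.ker = (fixingSubgroup G (orbit (stabilizer G a) b)).subgroupOf (stabilizer G a) := by
    ext g; rw [MonoidHom.mem_ker, τ1, rho_eq_one, mem_subgroupOf]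
  have hcount : τ.range.index * (fixingSubgroup G (orbit (stabilizer G a) b)).relIndex (stabilizer G a)
      = d.factorial := by
    rw [relIndex, ← hker, index_ker, index_mul_card, Nat.card_perm, hd]
  have hdn : (orbit (stabilizer G a) b).ncard = d := by rw [← Nat.card_coe_set_eq, hd]
  have hA0 : Alt (stabilizer G a) (orbit (stabilizer G a) b) :=
    ⟨hst, by rw [hdn, ← hcount]; exact Nat.mul_le_mul_right _ halt⟩
  have h := hyp hprim a b d hd h6 hA0
  have hKc : ∀ x y, Nat.card (K G (Orb G a b) x) = Nat.card (K G (Orb G a b) y) :=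
    fun x y => le_antisymm (h.card_K_le x y) (h.card_K_le y x)
  have hA : ∀ x, Alt (stabilizer G x) (Nb (Orb G a b) x) := by
    intro x
    refine ⟨h.stab_le x, ?_⟩
    have e1 := relIndex_mul_card (fixingSubgroup G (Nb (Orb G a b) x)) (stabilizer G x)
    have e2 := relIndex_mul_card (fixingSubgroup G (Nb (Orb G a b) a)) (stabilizer G a)
    rw [H75.card_stabilizer_eq htr x a, ← e2] at e1
    change _ * Nat.card (K G (Orb G a b) x) = _ * Nat.card (K G (Orb G a b) a) at e1
    rw [hKc x a] at e1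
    rw [Nat.eq_of_mul_eq_mul_right Nat.card_pos e1, h.c1, hΔ, ← hdn]
    exact hA0.2
  have hne : ∀ x, K G (Orb G a b) x ≠ ⊥ := by
    intro x e
    apply hunf
    have : K G (Orb G a b) a = ⊥ := by rw [← card_eq_one, hKc a x, e, card_bot]
    rw [← MonoidHom.ker_eq_bot_iff, hker, subgroupOf_eq_bot, disjoint_iff, inf_comm, ← hΔ]
    exact this
  have hE := h.inf_eq_bot hA hne hab
  have hK := h.K_eq hA
  obtain ⟨Γ, hΓ⟩ : ∃ Γ, Γ = Nb (flip (Orb G a b)) b \ {a} := ⟨_, rfl⟩
  have hΓc : Γ.ncard = d - 1 := hΓ ▸ h.flip.card_diff (x := b) (y := a) hab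
  have aK : Alt (K G (Orb G a b) a) Γ :=
    hΓ ▸ h.flip.altK (h.alt_flip hA) (fun x => hK x ▸ hne x) (a := b) (b := a) hab
  have aK' : Alt (K G (flip (Orb G a b)) b) (Nb (Orb G a b) a \ {b}) := h.altK hA hne hab
  have hDΓ : stabilizer G a ⊓ stabilizer G b ≤ stabilizer G Γ :=
    hΓ ▸ h.flip.stab_le2 inf_le_right inf_le_left
  let e1 : orbit (stabilizer G a) b ≃ Fin d := Finite.equivFinOfCardEq hd
  let e2 : Γ ≃ Fin (d - 1) := Finite.equivFinOfCardEq (by rw [Nat.card_coe_set_eq, hΓc])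
  let α : stabilizer G a →* Equiv.Perm (Fin d) := (Equiv.permCongrHom e1).toMonoidHom.comp τ
  let D : Subgroup (stabilizer G a) := (stabilizer G b).subgroupOf (stabilizer G a)
  let ρ₀ : D →* stabilizer G Γ :=
    ((stabilizer G a).subtype.comp D.subtype).codRestrict _ fun δ => hDΓ ⟨δ.1.2, δ.2⟩
  let ρ : D →* Equiv.Perm (Fin (d - 1)) :=
    (Equiv.permCongrHom e2).toMonoidHom.comp ((rho G Γ).comp ρ₀)
  let Cg : Subgroup G := stabilizer G a ⊓ centralizer (K G (Orb G a b) a : Set G)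
  have nC : Nz (stabilizer G a) Cg := by
    refine (Nz.self _).inf fun g hg c hc k hk => ?_
    have := hc _ (h.nz_K a g⁻¹ (inv_mem hg) k hk)
    calc k * (g * c * g⁻¹) = g * (g⁻¹ * k * g⁻¹⁻¹ * c) * g⁻¹ := by group
      _ = g * c * g⁻¹ * k := by rw [this]; group
  have hK'C : K G (flip (Orb G a b)) b ≤ Cg := by
    refine le_inf (K_le' (O := flip (Orb G a b)) hab) ?_
    rw [← commutator_eq_bot_iff_le_centralizer, eq_bot_iff, ← hE, inf_comm]
    exact Nz.commutator_le (H := stabilizer G a ⊓ stabilizer G b) ((h.flip.nz_K b).mono inf_le_right)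
      ((h.nz_K a).mono inf_le_left) (le_inf (K_le' (O := flip (Orb G a b)) hab) K_le)
      (le_inf K_le (K_le' hab))
  have aC : Alt Cg (orbit (stabilizer G a) b) := by
    refine hA0.normal (by omega) inf_le_left nC fun hf => ?_
    apply aK'.not_le_fix (by rw [h.card_diff hab]; omega)
    refine (hK'C.trans hf).trans (fixingSubgroup_antitone G Ω ?_)
    rw [hΔ]; exact Set.sdiff_subset
  let C : Subgroup (stabilizer G a) := Cg.subgroupOf (stabilizer G a)
  haveI : C.Normal := ⟨fun x hx g => nC g g.2 x hx⟩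
  have hCD : ∀ m : stabilizer G a, ∃ c ∈ C, ∃ δ ∈ D, m = c * δ := by
    intro m
    obtain ⟨c, hc, e⟩ := aC.trans (by omega) hb (mem_orbit b m)
    refine ⟨⟨c, hc.1⟩, hc, ⟨c, hc.1⟩⁻¹ * m, ?_, by group⟩
    change (c⁻¹ * (m : G)) • b = b
    rw [mul_smul, inv_smul_eq_iff, e]; rfl
  obtain ⟨ψ, ψ1, ψ2⟩ := exists_ext C D hCD ρ (fun δ hδ => by
    have : rho G Γ (ρ₀ δ) = 1 := rho_eq_one.2 (aK.mem_fix_of_comm (by omega) (hDΓ ⟨δ.1.2, δ.2⟩)
      fun x hx => (commutatorElement_eq_one_iff_mul_comm.2 (hδ.2 x hx)).symm ▸ one_mem _)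
    change Equiv.permCongrHom e2 (rho G Γ (ρ₀ δ)) = 1
    rw [this, map_one])
  have sα : ∀ g, Equiv.Perm.sign (α g) = Equiv.Perm.sign (τ g) := fun g =>
    Equiv.Perm.sign_permCongr e1 (τ g)
  have sρ : ∀ δ, Equiv.Perm.sign (ρ δ) = Equiv.Perm.sign (rho G Γ (ρ₀ δ)) := fun δ =>
    Equiv.Perm.sign_permCongr e2 _
  obtain ⟨r1, r2⟩ := classify α ψ (fun g h1 h2 => by
      have h3 : τ g = 1 := (map_eq_one_iff _ (Equiv.permCongrHom e1).injective).1 h1
      rw [τ1, rho_eq_one] at h3
      have h4 : (g : G) ∈ K G (Orb G a b) a := ⟨g.2, by rw [hΔ]; exact h3⟩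
      have h5 : g ∈ D := K_le' hab h4
      rw [ψ1 ⟨g, h5⟩] at h2
      have h6 : rho G Γ (ρ₀ ⟨g, h5⟩) = 1 := (map_eq_one_iff _ (Equiv.permCongrHom e2).injective).1 h2
      have h7 : (g : G) ∈ K G (Orb G a b) a ⊓ K G (flip (Orb G a b)) b :=
        ⟨h4, mem_K_of h5 g.2 (by rw [← hΓ]; exact rho_eq_one.1 h6)⟩
      rw [hE, mem_bot] at h7
      exact Subtype.ext h7)
    (fun σ hσ => by
      obtain ⟨g, hg, e⟩ := aC.exists (σ := e1.symm.permCongr σ) (by
        rw [Equiv.Perm.mem_alternatingGroup, Equiv.Perm.sign_permCongr]; exact hσ)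
      refine ⟨⟨g, hg.1⟩, ?_, ψ2 _ hg⟩
      change e1.permCongr (τ _) = σ
      rw [τ1]
      change e1.permCongr (rho G _ ⟨g, _⟩) = σ
      rw [e, ← Equiv.permCongr_symm, Equiv.apply_symm_apply])
    (fun σ hσ => by
      obtain ⟨g, hg, e⟩ := aK.exists (σ := e2.symm.permCongr σ) (by
        rw [Equiv.Perm.mem_alternatingGroup, Equiv.Perm.sign_permCongr]; exact hσ)
      refine ⟨⟨g, hg.1⟩, ?_, ?_⟩
      · change Equiv.permCongrHom e1 (τ _) = 1
        rw [τ1, rho_eq_one.2 (by have := (mem_inf.1 hg).2; rwa [hΔ] at this), map_one]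
      · rw [ψ1 ⟨⟨g, hg.1⟩, K_le' hab hg⟩]
        change e2.permCongr (rho G _ ⟨g, _⟩) = σ
        rw [e, ← Equiv.permCongr_symm, Equiv.apply_symm_apply])
  have hi0 : τ.range.index ≠ 0 := index_ne_zero_of_finite
  by_cases hi : τ.range.index = 2
  · left
    refine ⟨hi, r1 (fun g => ?_) (fun g => ?_)⟩
    · rw [sα, ← Equiv.Perm.mem_alternatingGroup, ← Equiv.Perm.eq_alternatingGroup_of_index_eq_two hi]
      exact ⟨g, rfl⟩
    · obtain ⟨c, hc, δ, hδ, rfl⟩ := hCD g
      rw [map_mul, ψ2 c hc, one_mul, ψ1 ⟨δ, hδ⟩, sρ, ← Equiv.Perm.mem_alternatingGroup]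
      have i2 : (img (stabilizer G a ⊓ stabilizer G b) Γ).index = 2 := by
        have f1 := (img (stabilizer G a ⊓ stabilizer G b) Γ).index_mul_card
        rw [card_img hDΓ, Nat.card_perm, Nat.card_coe_set_eq, hΓc] at f1
        have f2 := relIndex_mul_card (fixingSubgroup G Γ) (stabilizer G a ⊓ stabilizer G b)
        have f3 := relIndex_mul_card (fixingSubgroup G (orbit (stabilizer G a) b \ {b}))
          (stabilizer G a ⊓ stabilizer G b)
        have g2 : stabilizer G a ⊓ stabilizer G b ⊓ fixingSubgroup G Γ = K G (flip (Orb G a b)) b :=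
          hΓ ▸ le_antisymm (fun g hg => mem_K_of hg.1.2 hg.1.1 hg.2)
            (le_inf (le_inf (K_le' (O := flip (Orb G a b)) hab) K_le)
              (inf_le_right.trans (fixingSubgroup_antitone G Ω Set.sdiff_subset)))
        have g3 : stabilizer G a ⊓ stabilizer G b ⊓ fixingSubgroup G (orbit (stabilizer G a) b \ {b}) =
            K G (Orb G a b) a := by
          rw [← hΔ]
          exact le_antisymm (fun g hg => mem_K_of hg.1.1 hg.1.2 hg.2)
            (le_inf (le_inf K_le (K_le' hab))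
              (inf_le_right.trans (fixingSubgroup_antitone G Ω Set.sdiff_subset)))
        rw [g2, ← hK b, hKc b a] at f2
        rw [g3, ← f2] at f3
        have f4 := Nat.eq_of_mul_eq_mul_right Nat.card_pos f3
        rw [relIndex_fix_eq hb, f4, hi, ← H75.card_orbit_stabilizer, hd,
          ← Nat.mul_factorial_pred (by omega : d ≠ 0), ← f1] at hcount
        have f5 := relIndex_pos hDΓ
        have f6 : 0 < d * (fixingSubgroup G Γ).relIndex (stabilizer G a ⊓ stabilizer G b) :=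
          Nat.mul_pos (by omega) f5
        apply Nat.eq_of_mul_eq_mul_right f6
        linarith
      rw [← Equiv.Perm.eq_alternatingGroup_of_index_eq_two i2]
      exact ⟨ρ₀ ⟨δ, hδ⟩, ⟨δ.2, hδ⟩, rfl⟩
  · right
    have ht : τ.range = ⊤ := index_eq_one.1 (by omega)
    refine ⟨ht, r2 ?_⟩
    obtain ⟨x, y, hxy⟩ : Nontrivial (orbit (stabilizer G a) b) := by
      rw [← Finite.one_lt_card_iff_nontrivial, hd]; omega
    obtain ⟨g, hg⟩ : Equiv.swap x y ∈ τ.range := ht ▸ mem_top _
    exact ⟨g, by rw [sα, hg, Equiv.Perm.sign_swap hxy]⟩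

end Cfsg.Agent.S3687
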