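import Mathlib
import Cfsg.Statements.S3696
import Cfsg.Agent.Lib.Perm75.Prim

set_option autoImplicit false
open Cfsg

namespace Cfsg.Agent.S3696

open Subgroup MulAction

theorem amgm (m u j i : ℕ) (hj : 0 < j) (hi : 0 < i) :
    m ^ j * u ^ i * (j + i) ^ (j + i) ≤ (m + u) ^ (j + i) * (j ^ j * i ^ i) := by
  have hk : (0 : ℝ) < (j + i : ℕ) := by positivity
  have hj' : (0 : ℝ) < j := by positivity
  have hi' : (0 : ℝ) < i := by positivity
  have h := Real.geom_mean_le_arith_mean2_weighted (w₁ := j / (j + i : ℕ)) (w₂ := i / (j + i : ℕ))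
    (p₁ := m / j) (p₂ := u / i) (by positivity) (by positivity) (by positivity) (by positivity)
    (by field_simp; push_cast; ring)
  have h2 := pow_le_pow_left₀ (by positivity) h (j + i)
  rw [mul_pow, ← Real.rpow_natCast, ← Real.rpow_natCast, ← Real.rpow_mul (by positivity),
    ← Real.rpow_mul (by positivity), div_mul_cancel₀ _ hk.ne', div_mul_cancel₀ _ hk.ne',
    Real.rpow_natCast, Real.rpow_natCast] at h2
  have e : (j : ℝ) / (j + i : ℕ) * (m / j) + i / (j + i : ℕ) * (u / i) = (m + u) / (j + i : ℕ) := by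
    field_simp
  rw [e, div_pow, div_pow, div_pow, div_mul_div_comm, div_le_div_iff₀ (by positivity)
    (by positivity)] at h2
  exact_mod_cast h2

theorem key {A Ω : Type*} [CommGroup A] [Finite A] [MulAction A Ω] {p : ℕ} (hp : p.Prime)
    (hA : IsPGroup p A) (k : ℕ) : ∀ (H : Subgroup A) (S : Finset Ω),
      (∀ h ∈ H, ∀ x ∈ S, h • x ∈ S) → (∀ h ∈ H, (∀ x ∈ S, h • x = x) → h = 1) →
      Nat.card (H ⊓ (powMonoidHom p).ker : Subgroup A) = p ^ k → Nat.card H * k ^ k ≤ S.card ^ k := by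
  classical
  have := Fact.mk hp
  induction k using Nat.strong_induction_on with
  | _ k ih =>
  intro H S hS hf hk
  rcases Nat.eq_zero_or_pos k with rfl | h0
  · rw [pow_zero, card_eq_one] at hk
    have : H = ⊥ := by
      by_contra hne
      obtain ⟨n, hn⟩ := IsPGroup.iff_card.mp (hA.to_subgroup H)
      have hn0 : n ≠ 0 := by
        rintro rfl
        exact hne (card_eq_one.mp hn)
      obtain ⟨x, hx⟩ := exists_prime_orderOf_dvd_card' (G := H) p (hn ▸ dvd_pow_self p hn0)
      have h1 : (x : A) ∈ (H ⊓ (powMonoidHom p).ker : Subgroup A) :=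
        ⟨x.2, congrArg Subtype.val (hx ▸ pow_orderOf_eq_one x : x ^ p = 1)⟩
      rw [hk, mem_bot] at h1
      rw [show x = 1 from Subtype.ext h1, orderOf_one] at hx
      exact hp.one_lt.ne hx
    simp [this]
  set W : Subgroup A := (powMonoidHom p).ker
  obtain ⟨⟨h, hH, hW⟩, h1⟩ := ne_bot_iff_exists_ne_one.mp (show H ⊓ W ≠ ⊥ from fun e => by
    rw [e, card_bot] at hk
    exact absurd hk (Nat.one_lt_pow h0.ne' hp.one_lt).ne)
  obtain ⟨x, hx, hhx⟩ : ∃ x ∈ S, h • x ≠ x := by
    by_contra hh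
    push Not at hh
    exact h1 (Subtype.ext (hf h hH hh))
  have e1 := relIndex_mul_relIndex ⊥ (stabilizer A x ⊓ (H ⊓ W)) (H ⊓ W) bot_le inf_le_right
  rw [relIndex_bot_left, relIndex_bot_left, inf_relIndex_right, hk] at e1
  obtain ⟨i, hi, e2⟩ := (Nat.dvd_prime_pow hp).mp (Dvd.intro _ e1)
  obtain ⟨j, rfl⟩ := Nat.exists_eq_add_of_le' hi
  rw [e2, pow_add, mul_comm, Nat.mul_left_inj (pow_pos hp.pos i).ne'] at e1
  have hj : 0 < j := by
    rcases Nat.eq_zero_or_pos j with rfl | h
    · rw [pow_zero, relIndex_eq_one] at e1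
      exact absurd (e1 ⟨hH, hW⟩) hhx
    · exact h
  have hfin : (orbit H x).Finite := Set.finite_range _
  set D := hfin.toFinset
  have hD : D ⊆ S := by
    intro y hy
    obtain ⟨a, rfl⟩ := hfin.mem_toFinset.mp hy
    exact hS a a.2 x hx
  have hm : D.card = (stabilizer A x).relIndex H := by
    rw [← H75.card_orbit_subgroup, Nat.card_coe_set_eq, Set.ncard_eq_toFinset_card _ hfin]
  have h2 := ih i (by omega) (stabilizer A x ⊓ H) (S \ D) (fun a ha y hy => by
      rw [Finset.mem_sdiff] at hy ⊢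
      refine ⟨hS a ha.2 y hy.1, fun h => hy.2 ?_⟩
      obtain ⟨b, hb⟩ := hfin.mem_toFinset.mp h
      refine hfin.mem_toFinset.mpr ⟨(⟨a, ha.2⟩ : H)⁻¹ * b, ?_⟩
      simp only [mul_smul] at hb ⊢
      rw [hb]; exact inv_smul_smul a y)
    (fun a ha h => hf a ha.2 fun y hy => by
      by_cases e : y ∈ D
      · obtain ⟨b, rfl⟩ := hfin.mem_toFinset.mp e
        change a • (b : A) • x = (b : A) • x
        rw [smul_comm, mem_stabilizer_iff.mp ha.1]
      · exact h y (Finset.mem_sdiff.mpr ⟨hy, e⟩))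
    (by rw [inf_assoc, e2])
  have e3 := relIndex_mul_relIndex ⊥ (stabilizer A x ⊓ H) H bot_le inf_le_right
  rw [relIndex_bot_left, relIndex_bot_left, inf_relIndex_right, ← hm] at e3
  have h3 : p ^ j ≤ D.card := by
    rw [← e1, hm]
    exact relIndex_le_of_le_right inf_le_left index_ne_zero_of_finite
  have h4 : D.card * j ^ j ≤ D.card ^ j := by
    obtain ⟨j, rfl⟩ := Nat.exists_eq_add_of_le' hj
    rw [pow_succ' D.card]
    refine Nat.mul_le_mul_left _ ?_
    calc (j + 1) ^ (j + 1) ≤ (2 ^ j) ^ (j + 1) := Nat.pow_le_pow_left Nat.lt_two_pow_self _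
      _ = (2 ^ (j + 1)) ^ j := by rw [← pow_mul, ← pow_mul, mul_comm]
      _ ≤ D.card ^ j := Nat.pow_le_pow_left ((Nat.pow_le_pow_left hp.two_le _).trans h3) _
  rw [← e3, ← Finset.card_sdiff_add_card_eq_card hD, add_comm (S \ D).card]
  rcases Nat.eq_zero_or_pos i with rfl | hi0
  · simp only [pow_zero, mul_one, add_zero] at h2 ⊢
    calc _ ≤ 1 * D.card * j ^ j := by gcongr
      _ ≤ D.card ^ j := by rw [one_mul]; exact h4
      _ ≤ _ := Nat.pow_le_pow_left (Nat.le_add_right _ _) _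
  · apply Nat.le_of_mul_le_mul_right (c := j ^ j * i ^ i) _ (by positivity)
    refine le_trans ?_ (amgm D.card (S \ D).card j i hj hi0)
    calc _ = (D.card * j ^ j) * (Nat.card (stabilizer A x ⊓ H : Subgroup A) * i ^ i) *
          (j + i) ^ (j + i) := by ring
      _ ≤ _ := by gcongr

open scoped IsMulCommutative in

/-- Let p be a prime, Ω a finite set with n ≥ p elements, and A an abelian p-subgroup of the symmetric group on Ω whose elements of order dividing p number p^k (so k is the rank of A). Then |A| · k^k ≤ n^k, that is, |A| ≤ (n/k)^k. -/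
theorem result {Ω : Type*} [Fintype Ω] [DecidableEq Ω]
    (p : ℕ) (hp : p.Prime) (hn : p ≤ Fintype.card Ω) (A : Subgroup (Equiv.Perm Ω)) (hA : IsPGroup p A) (hab : IsMulCommutative A)
    (k : ℕ) (hk : Nat.card {x : A // x ^ p = 1} = p ^ k) :
    Nat.card A * k ^ k ≤ Fintype.card Ω ^ k := by
  have h := key (A := A) (Ω := Ω) hp hA k ⊤ Finset.univ (by simp)
    (fun h _ hh => Subtype.ext (Equiv.ext fun x => hh x (Finset.mem_univ x)))
    (by rw [top_inf_eq, ← hk]; rfl)
  rwa [card_top, Finset.card_univ] at h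

end Cfsg.Agent.S3696
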