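import Mathlib
import Cfsg.Statements.S3703
import Cfsg.Agent.Lib.Core.Frobenius
import Cfsg.Agent.Lib.Core.CoprimeSylow
import Cfsg.Agent.Lib.Core.HallSZ
import Cfsg.Agent.Lib.Spec.Basic

set_option autoImplicit false
open Cfsg

namespace Cfsg.Agent.S3703

open Subgroup H68
open scoped commutatorElement

theorem norm_trick {A V : Type*} [Group A] [CommGroup V] [Finite V] (φ : A →* MulAut V)
    (R : Subgroup A) [Finite R] (h : A) (m : ℕ) (hn : h ∈ normalizer (R : Set A))
    (hf : ∀ i, 0 < i → i < m + 1 → R ⊓ centralizer {h ^ i} = ⊥)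
    (hN : ∀ w, ∏ i ∈ Finset.range (m + 1), φ (h ^ i) w = 1)
    (hcop : (Nat.card R).Coprime (Nat.card V)) (k : A) (hk : k ∈ R) (v : V) : φ k v = v := by
  classical
  have := Fintype.ofFinite R
  have key : ∀ w, ∏ y : R, φ y w = w ^ Nat.card R := by
    intro w
    have e1 : ∏ y : R, ∏ i ∈ Finset.range (m + 1), φ (y * h ^ i * (y : A)⁻¹) w = 1 := by
      refine Finset.prod_eq_one fun y _ => ?_
      have := congrArg (φ y) (hN (φ (y : A)⁻¹ w))
      rw [map_prod, map_one] at this
      rw [← this]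
      exact Finset.prod_congr rfl fun i _ => by simp
    have e2 : ∏ y : R, ∏ i ∈ Finset.range (m + 1), φ (y * h ^ i) w = 1 := by
      refine Finset.prod_eq_one fun y _ => ?_
      have := congrArg (φ y) (hN w)
      rw [map_prod, map_one] at this
      rw [← this]
      exact Finset.prod_congr rfl fun i _ => by simp
    rw [Finset.prod_comm, Finset.prod_range_succ'] at e1 e2
    have e3 : ∏ i ∈ Finset.range m, ∏ y : R, φ (y * h ^ (i + 1) * (y : A)⁻¹) w =
        ∏ i ∈ Finset.range m, ∏ y : R, φ (y * h ^ (i + 1)) w := by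
      refine Finset.prod_congr rfl fun i hi => ?_
      have hi' := Finset.mem_range.mp hi
      have hn' : h ^ (i + 1) ∈ normalizer (R : Set A) := pow_mem hn _
      let f : R → R := fun x => ⟨x * h ^ (i + 1) * (x : A)⁻¹ * (h ^ (i + 1))⁻¹, by
        have := R.mul_mem x.2 (conj_mem_of_mem_normalizer hn' (R.inv_mem x.2))
        simpa only [mul_assoc] using this⟩
      have hs : Function.Surjective f := fun y => by
        obtain ⟨x, hx, e⟩ := H2.exists_commutator_eq_of_fpf hn' (hf _ (by omega) (by omega)) y.2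
        exact ⟨⟨x, hx⟩, Subtype.ext e⟩
      refine Fintype.prod_bijective f (Finite.surjective_iff_bijective.mp hs) _ _ fun x => ?_
      simp only [f, inv_mul_cancel_right]
    rw [e3] at e1
    have := mul_left_cancel (e1.trans e2.symm)
    simpa [Nat.card_eq_fintype_card] using this.symm
  have h1 : (φ k v) ^ Nat.card R = v ^ Nat.card R := by
    rw [← map_pow, ← key v, map_prod]
    exact Fintype.prod_equiv (Equiv.mulLeft (⟨k, hk⟩ : R)) _ _ (fun a => by simp)
  exact (Nat.Coprime.pow_left_bijective hcop.symm).1 h1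

open scoped IsMulCommutative in
theorem cent {G : Type*} [Group G] [Finite G] {p : ℕ} [Fact p.Prime] {R P : Subgroup G} {h : G}
    {m : ℕ} (hP : IsPGroup p P) (hR : h ∈ normalizer (R : Set G)) (hh : h ∈ normalizer (P : Set G))
    (hRP : R ≤ normalizer (P : Set G)) (hcop : (Nat.card R).Coprime (Nat.card P))
    (hf : ∀ i, 0 < i → i < m + 1 → R ⊓ centralizer {h ^ i} = ⊥)
    (hN : ∀ w ∈ P, (w * h) ^ (m + 1) = 1) : R ≤ centralizer (P : Set G) := by
  refine H2.le_centralizer_of_commutator_le_frattini hRP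
    (hcop.coprime_dvd_right (card_subgroup_dvd_card _)) ?_
  set N := (frattini P).map P.subtype
  have hMN : ⁅P, P⁆ ≤ N := H5.commutator_le_map_frattini hP
  have := H2.normal_subgroupOf_of_commutator_le hMN
  have := H2.isMulCommutative_section hMN
  have hA : normalizer (P : Set G) ≤ normalizer (N : Set G) :=
    H2.le_normalizer_map_subtype_of_characteristic le_rfl (frattini P)
  rw [commutator_le]
  intro x hx k hk
  refine (H2.mem_ker_sectionAut le_rfl hA ⟨k, hRP hk⟩).mp ?_ x hx
  rw [MonoidHom.mem_ker, MulEquiv.ext_iff]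
  have hc : Nat.card (R.subgroupOf (normalizer (P : Set G))) = Nat.card R :=
    H3.card_subgroupOf_of_le hRP
  refine norm_trick (H2.sectionAut le_rfl hA) (R.subgroupOf _) ⟨h, hh⟩ m ?_ ?_ ?_ ?_ _ hk
  · rw [mem_normalizer_iff]
    intro y
    exact mem_normalizer_iff.mp hR y
  · intro i h1 h2
    rw [H2.inf_centralizer_singleton_eq_bot_iff]
    intro y hy e
    exact Subtype.ext (H2.inf_centralizer_singleton_eq_bot_iff.mp (hf i h1 h2) y hy
      (congrArg Subtype.val e))
  · intro w
    obtain ⟨w, rfl⟩ := QuotientGroup.mk_surjective w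
    have key : ∀ n : ℕ, ∃ hx : ((w : G) * h) ^ n * (h ^ n)⁻¹ ∈ P,
        ∏ i ∈ Finset.range n, H2.sectionAut le_rfl hA (⟨h, hh⟩ ^ i) (w : P ⧸ N.subgroupOf P) =
          ((⟨_, hx⟩ : P) : P ⧸ N.subgroupOf P) := by
      intro n
      induction n with
      | zero => exact ⟨by simp, by
          rw [Finset.prod_range_zero, ← QuotientGroup.mk_one]; congr 1; ext; simp⟩
      | succ n ih =>
        obtain ⟨hx, e⟩ := ih
        have e1 : ((w : G) * h) ^ (n + 1) * (h ^ (n + 1))⁻¹ =
            ((w : G) * h) ^ n * (h ^ n)⁻¹ * (h ^ n * w * (h ^ n)⁻¹) := by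
          rw [pow_succ, pow_succ]; group
        refine ⟨e1 ▸ P.mul_mem hx (conj_mem_of_mem_normalizer (pow_mem hh n) w.2), ?_⟩
        rw [Finset.prod_range_succ, e, H2.sectionAut_mk, ← QuotientGroup.mk_mul]
        congr 1
        ext
        exact e1.symm
    obtain ⟨hx, e⟩ := key (m + 1)
    rw [e, ← QuotientGroup.mk_one]
    congr 1
    ext
    have := hN 1 P.one_mem
    rw [one_mul] at this
    simp [hN w w.2, this]
  · rw [hc]
    exact hcop.coprime_dvd_right (card_quotient_dvd_card _)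


/-- Let N be a normal subgroup of the finite group G such that G/N is a Frobenius group with kernel F and cyclic complement H, where the order of F is coprime to that of N and F is not contained in the image of C_G(N) in G/N. Then G has an element of order p·#H for some prime p dividing the order of N. (A standard tool in recognising groups by their element orders.) -/
theorem result {G : Type*} [Group G] [Finite G] (N : Subgroup G) [N.Normal]
    (Fb Hb : Subgroup (G ⧸ N)) [Fb.Normal] (hHb : Cfsg.IsFrobeniusComplement Hb) (hker : Cfsg.frobeniusKernel Hb = (Fb : Set (G ⧸ N)))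
    (hcyc : IsCyclic Hb) (hcop : (Nat.card Fb).Coprime (Nat.card N))
    (hnot : ¬ Fb ≤ (Subgroup.centralizer (N : Set G)).map (QuotientGroup.mk' N)) :
    ∃ p : ℕ, p.Prime ∧ p ∣ Nat.card N ∧ ∃ g : G, orderOf g = p * Nat.card Hb := by
  by_contra hcon
  have hsemi : ∀ a ∈ Hb, a ≠ 1 → Fb ⊓ centralizer {a} = ⊥ := by
    intro a ha ha1
    rw [H2.inf_centralizer_singleton_eq_bot_iff]
    intro f hf e
    have hf' : f ∈ Cfsg.frobeniusKernel Hb := hker ▸ hf
    refine hf'.resolve_right fun h => ?_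
    by_cases hfH : f ∈ Hb
    · exact h 1 (by simpa using hfH)
    · apply ha1
      rw [← mem_bot, ← hHb.2.2 f hfH]
      refine ⟨ha, H3.mem_conj_smul_iff.mpr ?_⟩
      rw [mul_assoc, ← e, inv_mul_cancel_left]; exact ha
  have hcop1 := H2.coprime_of_semiregular le_normalizer_of_normal hsemi
  obtain ⟨t0, ht0⟩ := hcyc.exists_generator
  have hord : orderOf (t0 : G ⧸ N) = Nat.card Hb := by
    rw [orderOf_coe, orderOf_eq_card_of_forall_mem_zpowers ht0]
  obtain ⟨r, hr, Rb, hRb, hRbn, hRbC⟩ : ∃ r : ℕ, ∃ _ : Fact r.Prime, ∃ Rb, SylowIn r Rb Fb ∧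
      Hb ≤ normalizer (Rb : Set (G ⧸ N)) ∧
        ¬ Rb ≤ (centralizer (N : Set G)).map (QuotientGroup.mk' N) := by
    by_contra hh
    push Not at hh
    exact hnot (H2.le_of_forall_invariant_sylowIn_le le_normalizer_of_normal hcop1
      (Or.inl (Group.isSolvable_of_comm fun a b => hcyc.commGroup.mul_comm a b))
      (fun r hr P h1 h2 => hh r hr P h1 h2))
  obtain ⟨R, hR⟩ := exists_sylowIn r (Rb.comap (QuotientGroup.mk' N))
  have hRm : R.map (QuotientGroup.mk' N) = Rb := by
    have := hR.map (QuotientGroup.mk' N)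
    rw [map_comap_eq_self_of_surjective (QuotientGroup.mk'_surjective N)] at this
    exact (this.eq_of_le hRb.isPGroup this.le le_rfl).symm
  have hRb1 : Rb ≠ ⊥ := fun e => hRbC (e ▸ bot_le)
  have hrN : r.Coprime (Nat.card N) :=
    hcop.coprime_dvd_left (dvd_card_of_isPGroup_of_ne_bot hRb.isPGroup hRb1 hRb.le)
  have hRN : (Nat.card R).Coprime (Nat.card N) := by
    rw [hR.card_eq]; exact hrN.pow_left _
  have hsolR : Group.IsSolvable R := by
    have := hR.isPGroup.isNilpotent
    infer_instance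
  have hRinf : ∀ y ∈ R, y ∈ N → y = 1 := fun y h1 h2 =>
    mem_bot.mp ((inf_eq_bot_of_coprime hRN).le ⟨h1, h2⟩)
  obtain ⟨p, hp, P, hP, hPn, hPC⟩ : ∃ p : ℕ, ∃ _ : Fact p.Prime, ∃ P, SylowIn p P N ∧
      R ≤ normalizer (P : Set G) ∧ ¬ P ≤ centralizer (R : Set G) := by
    by_contra hh
    push Not at hh
    have := H2.le_of_forall_invariant_sylowIn_le le_normalizer_of_normal hRN (Or.inl hsolR)
      (fun r hr P h1 h2 => hh r hr P h1 h2)
    exact hRbC (hRm ▸ map_mono (le_centralizer_iff.mp this))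
  obtain ⟨t, ht⟩ := QuotientGroup.mk'_surjective N t0
  have htX : t ∈ normalizer (Rb.comap (QuotientGroup.mk' N) : Set G) :=
    le_normalizer_comap _ (show QuotientGroup.mk' N t ∈ _ from ht ▸ hRbn t0.2)
  obtain ⟨x, hx, y, hy, e⟩ := hR.frattini' htX
  obtain ⟨z, hz, ez⟩ : QuotientGroup.mk' N y ∈ R.map (QuotientGroup.mk' N) := hRm ▸ hy
  have hx1 : x * z ∈ normalizer (R : Set G) := mul_mem hx (le_normalizer hz)
  have hπ1 : QuotientGroup.mk' N (x * z) = t0 := by rw [map_mul, ez, ← map_mul, ← e, ht]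
  obtain ⟨c, hc, ec⟩ := H2.exists_centralizer_cj_eq_of_sylowIn le_normalizer_of_normal hRN
    (Or.inl hsolR) (hP.cj_of_mem_normalizer (g := x * z) (by rw [normalizer_eq_top]; trivial)) hP
    (by rw [← cj_normalizer, ← cj_eq_of_mem_normalizer hx1]; exact cj_mono _ hPn) hPn
  have hh1 : c * (x * z) ∈ normalizer (R : Set G) :=
    mul_mem (centralizer_le_normalizer _ hc.2) hx1
  have hh2 : c * (x * z) ∈ normalizer (P : Set G) := by
    rw [mem_normalizer_iff_cj, cj_mul, ec]
  have hπ : ∀ w ∈ N, QuotientGroup.mk' N (w * (c * (x * z))) = t0 := fun w hw => by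
    rw [map_mul, map_mul, hπ1, QuotientGroup.mk'_apply, QuotientGroup.mk'_apply,
      (QuotientGroup.eq_one_iff w).mpr hw, (QuotientGroup.eq_one_iff c).mpr hc.1, one_mul, one_mul]
  obtain ⟨m, hm⟩ : ∃ m, Nat.card Hb = m + 1 := ⟨_, (Nat.succ_pred_eq_of_pos Nat.card_pos).symm⟩
  have hpow : ∀ g : G, QuotientGroup.mk' N g = t0 → g ^ (m + 1) = 1 := by
    intro g hg
    by_contra h1
    have h2 := H74.Spec.orderOf_eq_mul_of_hom (QuotientGroup.mk' N) g
    rw [hg, hord] at h2
    have h3 : g ^ Nat.card Hb ∈ N := by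
      rw [← QuotientGroup.eq_one_iff, ← QuotientGroup.mk'_apply, map_pow, hg, ← hord,
        pow_orderOf_eq_one]
    obtain ⟨u, hu, hu'⟩ := Nat.exists_prime_and_dvd
      (show orderOf (g ^ Nat.card Hb) ≠ 1 by rw [hm]; simpa using h1)
    exact hcon ⟨u, hu, hu'.trans (orderOf_dvd_natCard N h3),
      H74.Spec.mem_range_orderOf_of_dvd ⟨g, rfl⟩
        (by rw [h2, mul_comm]; exact Nat.mul_dvd_mul_left _ hu')⟩
  refine hPC (le_centralizer_iff.mp (cent (m := m) hP.isPGroup hh1 hh2 hPn
    (hRN.coprime_dvd_right (card_dvd_of_le hP.le)) ?_ fun w hw => hpow _ (hπ w (hP.le hw))))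
  intro i h1 h2
  rw [H2.inf_centralizer_singleton_eq_bot_iff]
  intro y hy e
  apply hRinf y hy
  rw [← QuotientGroup.eq_one_iff, ← QuotientGroup.mk'_apply]
  have h3 := hπ 1 N.one_mem
  rw [one_mul] at h3
  refine H2.inf_centralizer_singleton_eq_bot_iff.mp (hsemi (t0 ^ i) (pow_mem t0.2 i)
    (pow_ne_one_of_lt_orderOf h1.ne' (by omega))) _ (hRb.le (hRm ▸ mem_map_of_mem _ hy)) ?_
  rw [← h3, ← map_pow, ← map_mul, ← map_mul, e]

end Cfsg.Agent.S3703
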