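import Cfsg.Statements.S3758
import Mathlib
import Cfsg.Agent.Base
import Cfsg.Agent.Lib.LocEven.ZC
import Cfsg.Agent.Lib.LocEven.JTrans
import Cfsg.Agent.Lib.CompW.Key
import Cfsg.Agent.S3224

set_option autoImplicit false
open Cfsg

namespace Cfsg.Agent.S3758

open Subgroup H69 H70

variable {G : Type*} [Group G] [Finite G]

theorem se_equiv {B : Type*} [Group B] (e : G ≃* B) {M : Subgroup G} (h : IsStronglyEmbedded M) :
    ∃ M : Subgroup B, IsStronglyEmbedded M := by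
  have : Finite B := Finite.of_equiv _ e.toEquiv
  have h1 : IsStronglyPEmbedded 2 M := H68.spe_iff_inter.2 ⟨h.1, even_iff_two_dvd.1 h.2.1, fun g hg => by
    rw [← even_iff_two_dvd, Nat.not_even_iff_odd]; exact h.2.2 g hg⟩
  obtain ⟨h1, h2, h3⟩ := H68.spe_iff_inter.1 (H68.spe_map_equiv h1 e)
  exact ⟨_, h1, even_iff_two_dvd.2 h2, fun g hg => Nat.odd_iff.2 (Nat.two_dvd_ne_zero.1 (h3 g hg))⟩

theorem dihedral_of_four {R W : Subgroup G} (hR : IsPGroup 2 R) (hW : W ≤ R) (h4 : Nat.card W = 4)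
    (ea : IsElementaryAbelian 2 W) (hc : 𝐂(W) ⊓ R ≤ W) :
    (∃ n : ℕ, 2 ≤ n ∧ Nonempty (R ≃* DihedralGroup n)) ∨ IsQuasiDihedral R := by
  have hle := card_le_of_le hW
  obtain ⟨z, hz, hz1⟩ := exists_ne_one_of_ne_bot (center_ne_bot hR fun e => by simp [e, h4] at hle)
  have hzW : z ∈ W := hc ⟨H69.centralizer_anti hW hz.2, hz.1⟩
  obtain ⟨t, ht, ht1, htz⟩ := H19.exists_mem_ne_ne (by omega : 2 < Nat.card W) z
  have h1 : centralizer ({⟨t, hW ht⟩} : Set R) = W.subgroupOf R := by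
    ext x
    rw [mem_centralizer_singleton_iff, mem_subgroupOf, Subtype.ext_iff]
    refine ⟨fun h => hc ⟨four_cent h4 ea ht hzW ht1 hz1 htz (mul_inv_eq_iff_eq_mul.2 h)
      (mul_inv_eq_iff_eq_mul.2 (hz.2 x x.2)), x.2⟩, fun h => H24.EA.comm ea h ht⟩
  rcases S3224.result hR ⟨t, hW ht⟩ (by rw [← Subgroup.orderOf_coe]; exact ord2 (ea_mul_self ea ht) ht1)
    (by rw [h1, H69.card_subgroupOf hW, h4]) with ⟨n, ⟨e⟩⟩ | h | h
  · refine .inl ⟨n, ?_, ⟨e⟩⟩
    have := Nat.card_congr e.toEquiv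
    rw [DihedralGroup.nat_card] at this
    omega
  · exact .inr h
  · obtain rfl := eq_of_le_of_card_ge hW (by omega)
    have := H19.isKleinFour_of_card h4 fun x hx => ea_mul_self ea hx
    exact .inl ⟨2, le_rfl, IsKleinFour.nonempty_mulEquiv⟩

theorem zn_sub (hN : ∀ L : Subgroup G, IsTwoLocal L → Group.IsSolvable L) (hG : ZC G) {S X : Subgroup G}
    (hS : IsSylowIn 2 S ⊤) [X.Normal] (hZ : 𝐙(S) ≤ X) (hX : IsCharacteristicTwoType X) : ZN X := by
  refine ⟨hX, ?_, fun P => ?_⟩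
  · rintro N ⟨Q, hQ, hQ1, rfl⟩
    have := hN _ (isTwoLocal_normalizer (hQ.map X.subtype) fun e => hQ1 (map_subtype_eq_bot_iff.1 e))
    have := H2.isSolvable_of_le (map_normalizer_le X.subtype (le_rfl : 𝐍(Q) ≤ 𝐍(Q))) this
    exact Group.isSolvable_of_isSolvable_injective (f := (equivMapOfInjective _ _ X.subtype_injective).toMonoidHom)
      (MulEquiv.injective _)
  · rw [← map_subtype_le_iff, map_subtype_centralizer, map_subtype_normalizer, map_oz2 X.subtype_injective]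
    have hP := isSylowIn_map_subtype P
    generalize (P : Subgroup X).map X.subtype = T at hP
    obtain ⟨g, -, hg⟩ := hS.exists_le_cj hP.isP le_top
    have hS' := hS.cj_of_mem (mem_top g)
    have h1 : S ^ᶜ g ⊓ X = T := hP.max _ (le_inf hg hP.le) inf_le_right (hS'.isP.to_le inf_le_left)
    have h2 : 𝐙(S ^ᶜ g) ≤ 𝐙(T) := le_oz2 (oz2_ea _) (h1 ▸ le_inf (oz2_le _) (by
      rw [← cj_oz2]; exact (cj_mono g hZ).trans (cj_eq_of_normal X g).le))
      ((oz2_le_cent _).trans (H69.centralizer_anti hg))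
    refine le_inf inf_le_left ?_
    conv_rhs => rw [← h1]
    exact H69.le_normalizer_inf (inf_le_right.trans ((H69.centralizer_anti h2).trans (hG.cz _ hS')))
      le_normalizer_of_normal


/-- Let G be a finite group of even order in which every 2-local subgroup is solvable and C_G(Ω₁(Z(S))) ≤ N_G(S) for every Sylow 2-subgroup S, and suppose O_{2'}(G) = 1 = O₂(G). Fix a Sylow 2-subgroup S, put Z = Ω₁(Z(S)), H = O²(G) (generated by the elements of odd order) and R = S ∩ H. Then one of the following holds: H has a strongly embedded subgroup; R is dihedral (of order at least 4) or semidihedral; Z ∩ R has order 2 and is weakly closed in R with respect to H; or Z has order 4 and is exactly the subgroup generated by the involutions of R. -/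
theorem result {G : Type*} [Group G] [Finite G] (heven : Even (Nat.card G)) (hN : ∀ L : Subgroup G, Cfsg.IsTwoLocal L → Group.IsSolvable L) (hZ : ∀ S : Sylow 2 G, Subgroup.centralizer (Cfsg.omegaOne 2 ((S : Subgroup G) ⊓ Subgroup.centralizer ((S : Subgroup G) : Set G)) : Set G) ≤ Subgroup.normalizer ((S : Subgroup G) : Set G)) (hO' : Cfsg.pPrimeCore 2 G = ⊥) (hO : Cfsg.pCore 2 G = ⊥) (S : Sylow 2 G) : (∃ M : Subgroup ↥(Cfsg.pResidual 2 G), Cfsg.IsStronglyEmbedded M) ∨ ((∃ n : ℕ, 2 ≤ n ∧ Nonempty (↥((S : Subgroup G) ⊓ Cfsg.pResidual 2 G) ≃* DihedralGroup n)) ∨ Cfsg.IsQuasiDihedral ↥((S : Subgroup G) ⊓ Cfsg.pResidual 2 G)) ∨ (Nat.card ↥(Cfsg.omegaOne 2 ((S : Subgroup G) ⊓ Subgroup.centralizer ((S : Subgroup G) : Set G)) ⊓ Cfsg.pResidual 2 G) = 2 ∧ ∀ h ∈ Cfsg.pResidual 2 G, ∀ z ∈ Cfsg.omegaOne 2 ((S : Subgroup G) ⊓ Subgroup.centralizer ((S : Subgroup G) : Set G)) ⊓ Cfsg.pResidual 2 G, h * z * h⁻¹ ∈ (S : Subgroup G) → h * z * h⁻¹ ∈ Cfsg.omegaOne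 2 ((S : Subgroup G) ⊓ Subgroup.centralizer ((S : Subgroup G) : Set G))) ∨ (Nat.card ↥(Cfsg.omegaOne 2 ((S : Subgroup G) ⊓ Subgroup.centralizer ((S : Subgroup G) : Set G))) = 4 ∧ Cfsg.omegaOne 2 ((S : Subgroup G) ⊓ Cfsg.pResidual 2 G) = Cfsg.omegaOne 2 ((S : Subgroup G) ⊓ Subgroup.centralizer ((S : Subgroup G) : Set G))) := by
  have hG : ZC G := ⟨fun t ht => H2.isSolvable_of_le (by
      rw [← H69.centralizer_zpowers]; exact centralizer_le_normalizer _) (hN _ (isTwoLocal_normalizer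
      (H9.isPGroup_zpowers_of_mul_self (mul_self_of_ord2 ht)) (zpowers_ne_bot.2 (ne_one_of_ord2 ht)))),
    fun S' hS' => by
      obtain ⟨P, rfl⟩ := hS'.exists_sylow_top
      exact hZ P⟩
  have hS := isSylowIn_top S
  rcases hG.main (H3.CW.sft 2 G) heven hO' hO hS with h | h | h | h
  · exact .inl h
  · exact .inr (.inr (.inl h))
  · exact .inr (.inr (.inr h))
  obtain ⟨X, hX⟩ : ∃ X, X = pResidual 2 G ⊔ 𝐙((S : Subgroup G)) := ⟨_, rfl⟩
  rw [← hX] at h
  have hHX : pResidual 2 G ≤ X := hX ▸ le_sup_left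
  have hn : X.Normal := normal_iff_top_le_normalizer.2 (hS.eq_of_res_le (hX ▸ H69.le_normalizer_sup
    le_normalizer_of_normal (le_normalizer.trans (norm_le_norm_oz2 _)))
    (res_top.le.trans (hHX.trans le_normalizer)))
  have hOX : pCore 2 X = ⊥ := pCoreOf_eq_bot_iff.1 (eq_bot_iff.2
    ((pCoreOf_le_pCore_of_isSubnormal hn.isSubnormal).trans hO.le))
  have hR : (pResidual 2 X).map X.subtype = pResidual 2 G :=
    (res_eq_of_le (res_top.le.trans hHX) le_top).trans res_top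
  rcases (zn_sub hN hG hS (hX ▸ le_sup_right) h).main hOX with ⟨M, hM⟩ | ⟨T, K, L, K', L', p⟩
  · refine .inl (se_equiv ((equivMapOfInjective _ _ X.subtype_injective).trans (MulEquiv.subgroupCongr hR))
      (se_subgroupOf_res hM ?_))
    rw [← H69.card_map_subtype, hR]
    exact even_card_res heven hO' hO
  · have h1 : (wOf K).map X.subtype ≤ pResidual 2 G := hR ▸ map_mono ((wOf_le K).trans p.h.K_le_res)
    have h2 := map_mono (f := X.subtype) p.cent_inf_res
    rw [Subgroup.map_inf _ _ _ X.subtype_injective, map_subtype_centralizer, hR, inf_right_comm,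
      inf_eq_right.2 hHX, inf_comm] at h2
    have hS' := hS.inf_normal (N := pResidual 2 G) le_top le_normalizer_of_normal
    obtain ⟨g, hg, h3⟩ := hS'.exists_cj_le ((wOf_isPGroup K).map _) h1
    refine .inr (.inl (dihedral_of_four hS'.isP h3 (by rw [card_cj, H69.card_map_subtype, p.h.jc.card])
      (H24.EA.map (H24.EA.map (wOf_ea K) _) _) ((inf_le_inf_left _ inf_le_right).trans ?_)))
    rw [← cj_centralizer, ← cj_eq_of_mem hg, ← cj_inf]
    exact cj_mono g h2

end Cfsg.Agent.S3758
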