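import Cfsg.Statements.S3803
import Cfsg.Agent.Lib.BG.Api.Hall
import Cfsg.Agent.Lib.Core.CoprimeAbelian
import Cfsg.Agent.Lib.Tech58.Small
import Cfsg.Agent.Lib.Transfer.HSub
import Cfsg.Agent.Lib.PGroup.Basic
-- import your own Cfsg.Agent.* helpers here

set_option autoImplicit false
open Cfsg

namespace Cfsg.Agent.S3803

section
open Subgroup H69 H45
open scoped commutatorElement

variable {X : Type*} [Group X] [Finite X]

omit [Finite X] in
theorem comm_le_two {K E A : Subgroup X} (hE : A ≤ 𝐍(E)) (hK : A ≤ 𝐍(K)) (h : K.relIndex E = 2) :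
    ⁅E, A⁆ ≤ K := by
  rw [commutator_le]
  intro x hx a ha
  have hy : a * x⁻¹ * a⁻¹ ∈ E := conj_mem_of_mem_normalizer (hE ha) (E.inv_mem hx)
  have := (mul_mem_iff_of_index_two (H := K.subgroupOf E) h (a := ⟨x, hx⟩) (b := ⟨_, hy⟩)).mpr (by
    simp only [mem_subgroupOf]
    rw [← mem_normalizer_iff.mp (hK ha), K.inv_mem_iff])
  simpa [mem_subgroupOf, commutatorElement_def, mul_assoc] using this

theorem cyc {E A : Subgroup X} (hE : IsPGroup 2 E) (hc : IsCyclic E) (hA : Odd (Nat.card A))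
    (hAE : A ≤ 𝐍(E)) : E ≤ 𝐂(A) := by
  have hcop : (Nat.card A).Coprime (Nat.card E) :=
    (coprime_of_isPGroup_of_not_dvd Nat.prime_two hE hA.not_two_dvd_nat).symm
  refine centsC.mp (H2.le_centralizer_of_prime_order (cyclic_abelian hc) hAE hcop fun v hv ho => ?_)
  obtain ⟨k, hk⟩ := isPGroup_iff_mem.mp hE v hv
  have h2 : orderOf v = 2 := (Nat.prime_dvd_prime_iff_eq ho Nat.prime_two).mp
    (ho.dvd_of_dvd_pow (orderOf_dvd_of_pow_eq_one hk))
  have hn : A ≤ 𝐍(zpowers v) := (charIn_of_cyclic hc (zpowers_le.mpr hv)).norm_trans hAE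
  have := comm_le_two (K := ⊥) hn le_normalizer_of_normal
    (by rw [relIndex_bot_left, Nat.card_zpowers, h2])
  exact le_centralizer_of_commutator_eq_bot (eq_bot_iff.mpr this) (mem_zpowers v)

theorem key {E F A : Subgroup X} (hF : IsPGroup 2 F) (hEF : E ≤ F)
    (hc : Nat.card F = 2 * Nat.card E) (hA : Odd (Nat.card A))
    (hinv : ∀ M, M ≤ F → Nat.card M = Nat.card E → A ≤ 𝐍(M)) : E ≤ 𝐂(A) := by
  have hpos : 0 < Nat.card E := Nat.card_pos
  have hdiv : ∀ M, M < F → Nat.card M ∣ Nat.card E := by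
    intro M hM
    have h1 := H1.card_mul_relIndex_of_le hM.le
    obtain ⟨k, hk⟩ := (hF.index (M.subgroupOf F))
    have hk' : M.relIndex F = 2 ^ k := hk
    cases k with
    | zero => exact absurd (relIndex_eq_one.mp (by simpa using hk')) hM.not_ge
    | succ k =>
      rw [hk', hc, pow_succ] at h1
      exact ⟨2 ^ k, by linarith⟩
  by_cases h : ∀ M, M ≤ F → Nat.card M = Nat.card E → M = E
  · refine cyc (hF.to_le hEF) (cyclicS ?_ hEF) hA (hinv E hEF rfl)
    have hne : ¬ F ≤ E := fun h' => by have := card_le_of_le h'; omega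
    obtain ⟨y, hy, hyE⟩ := SetLike.not_le_iff_exists.mp hne
    by_cases hz : zpowers y = F
    · rw [← hz]; infer_instance
    · obtain ⟨M, h1, h2, h3⟩ := H4.exists_card_eq_between hF (zpowers_le.mpr hy)
        (hdiv _ (lt_of_le_of_ne (zpowers_le.mpr hy) hz)) (hc ▸ Dvd.intro_left 2 rfl)
      exact absurd (h M h2 h3 ▸ h1 (mem_zpowers y)) hyE
  · push Not at h
    obtain ⟨M, hM, hMc, hne⟩ := h
    have hsup : M ⊔ E = F := by
      by_contra h'
      have h1 := Nat.le_of_dvd hpos (hdiv _ (lt_of_le_of_ne (sup_le hM hEF) h'))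
      have h2 : E = M ⊔ E := eq_of_le_of_card_ge le_sup_right h1
      exact hne (eq_of_le_of_card_ge (le_sup_left.trans h2.ge) hMc.ge)
    have hAF : A ≤ 𝐍(F) := hsup ▸ le_normalizer_sup (hinv M hM hMc) (hinv E hEF rfl)
    refine hEF.trans (centsC.mp (H2.le_centralizer_of_commutator_le_frattini hAF
      (coprime_of_isPGroup_of_not_dvd Nat.prime_two (hF.to_subgroup _) hA.not_two_dvd_nat).symm ?_))
    rw [← subgroupOf_le_iff (commutator_le_left_of_le_normalizer hAF)]
    unfold frattini Order.radical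
    refine le_iInf₂ fun N hN => ?_
    rw [subgroupOf_le_iff (commutator_le_left_of_le_normalizer hAF)]
    have hi : N.index = 2 := H5.index_of_isCoatom hF hN
    refine comm_le_two hAF (hinv _ (map_subtype_le _) ?_) ?_
    · rw [card_map_subtype]
      have := N.card_mul_index
      rw [hi, hc] at this
      omega
    · rw [relIndex, subgroupOf_map_subtype', hi]

theorem main (P A D : Subgroup X) (hP : IsPGroup 2 P) (hA : Odd (Nat.card A))
    (hAP : A ≤ 𝐍(P)) (hDP : D ≤ P) (hD1 : 1 < Nat.card D) (hD2 : Nat.card D < Nat.card P)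
    (hinv : ∀ E : Subgroup X, E ≤ P →
      (Nat.card E = Nat.card D ∨ (Nat.card D = 2 ∧ Nat.card E = 4)) → A ≤ 𝐍(E)) :
    A ≤ 𝐂(P) := by
  refine centsC.mp (H58.le_centralizer_of_small hP hAP (Nat.coprime_two_right.mpr hA)
    fun x hx hx4 => ?_)
  have h4 : orderOf x ∣ 2 ^ 2 := orderOf_dvd_of_pow_eq_one (by
    rcases hx4 with h | h
    · rw [show 2 ^ 2 = 2 * 2 from rfl, pow_mul, h, one_pow]
    · exact h.2)
  have hz : zpowers x ≤ P := zpowers_le.mpr hx
  obtain ⟨k, hk⟩ := (hP.to_le hDP).exists_card_eq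
  obtain ⟨n, hn⟩ := hP.exists_card_eq
  obtain ⟨j, hj, hxj⟩ := (Nat.dvd_prime_pow Nat.prime_two).mp h4
  have hkn : k < n := by rw [hk, hn] at hD2; exact (Nat.pow_lt_pow_iff_right one_lt_two).mp hD2
  have hk0 : k ≠ 0 := by rintro rfl; simp [hk] at hD1
  by_cases hjk : j ≤ k
  · obtain ⟨E, h1, h2, h3⟩ := H4.exists_card_eq_between hP hz (d := 2 ^ k)
      (by rw [Nat.card_zpowers, hxj]; exact pow_dvd_pow 2 hjk) (hn ▸ pow_dvd_pow 2 hkn.le)
    obtain ⟨F, h4, h5, h6⟩ := H4.exists_card_eq_between hP h2 (d := 2 ^ (k + 1))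
      (by rw [h3]; exact pow_dvd_pow 2 k.le_succ) (hn ▸ pow_dvd_pow 2 hkn)
    exact key (hP.to_le h5) h4 (by rw [h6, h3, pow_succ']) hA
      (fun M hM hc => hinv M (hM.trans h5) (Or.inl (by rw [hc, h3, hk]))) (h1 (mem_zpowers x))
  · obtain ⟨rfl, rfl⟩ : k = 1 ∧ j = 2 := by omega
    exact cyc (hP.to_le hz) inferInstance hA
      (hinv _ hz (Or.inr ⟨by simpa using hk, by rw [Nat.card_zpowers, hxj]; rfl⟩)) (mem_zpowers x)

end

/-- Let P be a 2-subgroup and A a subgroup of odd order of a finite group, with A normalizing P. Let D ≤ P with 1 < |D| < |P|. If every subgroup of P of order |D|, and also every subgroup of P of order 4 in case |D| = 2, is normalized by A, then A centralizes P. -/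
theorem result {X : Type*} [Group X] [Finite X] (P A D : Subgroup X) (hP : IsPGroup 2 P) (hA : Odd (Nat.card A))
    (hAP : A ≤ Subgroup.normalizer (P : Set X)) (hDP : D ≤ P) (hD1 : 1 < Nat.card D) (hD2 : Nat.card D < Nat.card P)
    (hinv : ∀ E : Subgroup X, E ≤ P → (Nat.card E = Nat.card D ∨ (Nat.card D = 2 ∧ Nat.card E = 4)) → A ≤ Subgroup.normalizer (E : Set X)) :
    A ≤ Subgroup.centralizer (P : Set X) := by
  exact main P A D hP hA hAP hDP hD1 hD2 hinv

end Cfsg.Agent.S3803
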