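import Mathlib
import Cfsg.Statements.S3818
import Cfsg.Agent.Lib.Flav26.Fix4
import Cfsg.Agent.Lib.ModRep.Sg
import Cfsg.Agent.Lib.BG3.Ambient

set_option autoImplicit false
open Cfsg

namespace Cfsg.Agent.S3818

open Subgroup Module


/-- Let G be a finite solvable group and P a subgroup of G of prime order p > 3 whose conjugates generate G. Let V be a faithful irreducible representation of G over a field of positive characteristic, finite-dimensional. Then the subspace of V fixed by P has dimension less than half the dimension of V. -/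
theorem result {G : Type*} [Group G] [Finite G] [Group.IsSolvable G]
    {p : ℕ} [Fact p.Prime] (hp : 3 < p) (P : Subgroup G) (hP : Nat.card P = p) (hgen : Subgroup.normalClosure (P : Set G) = ⊤)
    {k : Type*} [Field k] (ℓ : ℕ) [Fact ℓ.Prime] [CharP k ℓ]
    {V : Type*} [AddCommGroup V] [Module k V] [FiniteDimensional k V]
    (ρ : Representation k G V) [ρ.IsIrreducible] (hfaith : Function.Injective ρ) :
    2 * Module.finrank k ↥(⨅ g : ↥P, LinearMap.ker (ρ (g : G) - LinearMap.id)) < Module.finrank k V := by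
  have hp' : p.Prime := Fact.out
  obtain ⟨x, rfl, hx1, hx⟩ := H46.exists_generator_of_prime_card (hP ▸ hp')
  rw [hP] at hx
  have hirr : ∀ W : Submodule k V, (∀ g, ∀ v ∈ W, ρ g v ∈ W) → W = ⊥ ∨ W = ⊤ := fun W hW =>
    (eq_bot_or_eq_top (⟨W, fun g v hv => hW g v hv⟩ : Subrepresentation ρ)).imp
      (congrArg Subrepresentation.toSubmodule) (congrArg Subrepresentation.toSubmodule)
  have hV : Nontrivial V := by
    by_contra h
    rw [not_nontrivial_iff_subsingleton] at h
    exact hx1 (hfaith (Subsingleton.elim _ _))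
  have hgen' : normalClosure ({x} : Set G) = ⊤ := by
    rw [eq_top_iff, ← hgen]
    exact normalClosure_le_normal (zpowers_le.2 (subset_normalClosure rfl))
  have h5 : 5 ≤ p := hp'.five_le_of_ne_two_of_ne_three (by omega) (by omega)
  obtain ⟨N, hN, -⟩ := H3.exists_isMinNormal_le (⊤ : Subgroup G) fun h =>
    hx1 (mem_bot.1 (h ▸ mem_top x))
  obtain ⟨-, r, hr, -, -, hNr⟩ := hN.elementary inferInstance
  have hNn := hN.normal
  have hfix : ∀ v, (∀ g ∈ N, ρ g v = v) → v = 0 := by
    intro v hv
    rcases hirr (⨅ g ∈ N, LinearMap.eqLocus (ρ g) 1) (fun g w hw => by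
      simp only [Submodule.mem_iInf, LinearMap.mem_eqLocus, End.one_apply] at hw ⊢
      intro a ha
      rw [← End.mul_apply, ← map_mul, show a * g = g * (g⁻¹ * a * g) by group, map_mul,
        End.mul_apply, hw _ (hNn.conj_mem' a ha g)]) with h | h
    · rw [← Submodule.mem_bot k, ← h]
      simpa [Submodule.mem_iInf, LinearMap.mem_eqLocus] using hv
    · refine absurd (eq_bot_iff.2 fun a ha => hfaith (LinearMap.ext fun w => ?_)) hN.ne_bot
      have : w ∈ ⨅ g ∈ N, LinearMap.eqLocus (ρ g) 1 := h ▸ Submodule.mem_top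
      simp only [Submodule.mem_iInf, LinearMap.mem_eqLocus] at this
      rw [this a ha, map_one]
  have h := H26.FF.main hp' h5 hx hgen' ρ N (fun h0 => by
    have := Fact.mk hr
    obtain ⟨n, hn⟩ := hNr.exists_card_eq
    rw [hn, CharP.cast_eq_zero_iff k ℓ] at h0
    obtain rfl := (Nat.prime_dvd_prime_iff_eq Fact.out hr).1 ((Fact.out : ℓ.Prime).dvd_of_dvd_pow h0)
    obtain ⟨v, h1, h2⟩ := H64.MR.exists_fixed ρ ℓ hNr
    exact h1 (hfix v h2)) hfix
  refine lt_of_le_of_lt (Nat.mul_le_mul_left 2 (Submodule.finrank_mono ?_)) h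
  exact iInf_le (fun g : zpowers x => LinearMap.ker (ρ (g : G) - LinearMap.id)) ⟨x, mem_zpowers x⟩

end Cfsg.Agent.S3818
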