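import Mathlib
import Cfsg.Statements.S3819
import Cfsg.Agent.Lib.Core.Coprime
import Cfsg.Agent.Lib.Core.Fitting

set_option autoImplicit false
open Cfsg

namespace Cfsg.Agent.S3819

open Subgroup

theorem core {G : Type*} [Group G] [Finite G] {q : ℕ} [Fact q.Prime] {H P D E : Subgroup G}
    [H.Normal] (hPH : H ⊔ P = ⊤) (hcop : (Nat.card P).Coprime (Nat.card H))
    (hPs : Group.IsSolvable P) (hsol : Group.IsSolvable ↥⁅H, P⁆) {z : G}
    (hz : IsPGroup q (zpowers z))
    (h0 : ∀ N : Subgroup G, N ≤ H → H ≤ normalizer (N : Set G) → (Nat.card N).Coprime q → N = ⊥)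
    (hDH : D ≤ H) (hDz : D ≤ centralizer (zpowers z : Set G)) (hD : (Nat.card D).Coprime q)
    (hDn : H ⊓ centralizer (zpowers z : Set G) ≤ normalizer (D : Set G))
    (hPD : P ≤ normalizer (D : Set G))
    (hEH : E ≤ H) (hE : (Nat.card E).Coprime q)
    (hEn : H ⊓ centralizer (P : Set G) ≤ normalizer (E : Set G)) :
    (D ⊓ E) ⊔ ⁅D, P⁆ = ⊥ := by
  set K : Subgroup G := ⁅H, P⁆ with hK
  have hKH : K ≤ H := H2.commutator_le_of_le_normalizer le_normalizer_of_normal
  have hKn : K.Normal := by
    rw [← normalizer_eq_top_iff, eq_top_iff, ← hPH]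
    exact sup_le (normalizer_commutator_ge_left H P) (normalizer_commutator_ge_right H P)
  set Q : Subgroup G := pCoreOf q K with hQ
  have hQp : IsPGroup q Q := H1.isPGroup_pCoreOf K
  have hQK : Q ≤ K := H1.pCoreOf_le K
  have hQn : Q.Normal := by
    rw [← normalizer_eq_top_iff, eq_top_iff]
    exact le_normalizer_of_normal.trans (H1.normalizer_le_normalizer_pCoreOf K)
  have hO : pPrimeCore q K = ⊥ := by
    have := h0 ((pPrimeCore q K).map K.subtype) ((map_subtype_le _).trans hKH)
      (le_normalizer_of_normal.trans (H1.normalizer_le_normalizer_map_subtype_pPrimeCore K))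
      (H1.coprime_card_map_subtype_pPrimeCore K)
    exact (map_eq_bot_iff_of_injective _ K.subtype_injective).mp this
  have hCQ : K ⊓ centralizer (Q : Set G) ≤ Q := by
    have h1 := map_mono (f := K.subtype) (H1.centralizer_pCore_le_of_isSolvable (G := K) hO)
    rwa [H1.map_subtype_centralizer_subgroup] at h1
  have hDQ : (Nat.card D).Coprime (Nat.card Q) := H2.coprime_card_of_isPGroup hD hQp
  have hDC : D ≤ centralizer (Q : Set G) := by
    refine H2.thompson_PxQ hz hD hQp (le_centralizer_iff.mp hDz) le_normalizer_of_normal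
      le_normalizer_of_normal ?_
    rw [← commutator_eq_bot_iff_le_centralizer, eq_bot_iff, ← H2.inf_eq_bot_of_coprime_card hDQ]
    refine le_inf ?_ ?_
    · rw [commutator_comm]
      exact H2.commutator_le_of_le_normalizer
        ((inf_le_inf_right _ (hQK.trans hKH)).trans hDn)
    · exact (commutator_mono inf_le_left le_rfl).trans
        (H2.commutator_le_of_le_normalizer le_normalizer_of_normal)
  have hCn : (centralizer (Q : Set G)).Normal := inferInstance
  rw [sup_eq_bot_iff]
  constructor
  · have hX : D ⊓ E ≤ centralizer (K : Set G) := by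
      refine H2.le_centralizer_of_commutator_le (N := Q)
        (H2.coprime_of_le_left hDQ inf_le_left) ?_ (inf_le_left.trans hDC)
      refine le_trans (le_inf ?_ ?_) hCQ
      · exact H2.commutator_le_of_le_normalizer le_normalizer_of_normal
      · refine (commutator_mono le_rfl (inf_le_left.trans hDC)).trans ?_
        rw [commutator_comm]
        exact H2.commutator_le_of_le_normalizer le_normalizer_of_normal
    have hN := h0 (E ⊓ centralizer (K : Set G)) (inf_le_left.trans hEH) ?_
      (hE.coprime_dvd_left (card_dvd_of_le inf_le_left))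
    · rw [eq_bot_iff, ← hN]
      exact le_inf inf_le_right hX
    · have hs := H2.commutator_sup_centralizer (A := P) (K := H) le_normalizer_of_normal hcop
        (Or.inl hPs)
      rw [← hs]
      refine sup_le ?_ (H2.le_normalizer_inf hEn le_normalizer_of_normal)
      refine le_trans ?_ (centralizer_le_normalizer _)
      exact le_centralizer_iff.mp inf_le_right
  · rw [eq_bot_iff, ← H2.inf_eq_bot_of_coprime_card hDQ]
    have h1 : ⁅D, P⁆ ≤ D := H2.commutator_le_of_le_normalizer hPD
    exact le_inf h1 (le_trans (le_inf (commutator_mono hDH le_rfl) (h1.trans hDC)) hCQ)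

theorem map_le_normalizer_map {G G' : Type*} [Group G] [Group G'] (f : G →* G')
    {A K : Subgroup G} (h : A ≤ normalizer (K : Set G)) :
    A.map f ≤ normalizer ((K.map f : Subgroup G') : Set G') :=
  (map_mono h).trans (le_normalizer_map f)


/-- Let G be a finite group with Sylow p-subgroup P and H = O_{p'}(G), and suppose G = PH and the commutator subgroup [H, P] is solvable. Let q be a prime and z an element of q-power order of C_H(P). Then (O_{q'}(C_H(z)) ∩ O_{q'}(C_H(P))) · [O_{q'}(C_H(z)), P] ≤ O_{q'}(H). -/
theorem result {G : Type*} [Group G] [Finite G] {p : ℕ} [Fact p.Prime]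
    (P : Sylow p G) (hPH : Cfsg.pPrimeCore p G ⊔ (P : Subgroup G) = ⊤)
    (hsol : Group.IsSolvable ↥⁅Cfsg.pPrimeCore p G, (P : Subgroup G)⁆)
    {q : ℕ} [Fact q.Prime] (z : G) (hzH : z ∈ Cfsg.pPrimeCore p G) (hzP : z ∈ Subgroup.centralizer ((P : Subgroup G) : Set G))
    (hz : ∃ k : ℕ, orderOf z = q ^ k) :
    ((Cfsg.pPrimeCore q ↥(Cfsg.pPrimeCore p G ⊓ Subgroup.centralizer ({z} : Set G))).map
        (Cfsg.pPrimeCore p G ⊓ Subgroup.centralizer ({z} : Set G)).subtype ⊓
      (Cfsg.pPrimeCore q ↥(Cfsg.pPrimeCore p G ⊓ Subgroup.centralizer ((P : Subgroup G) : Set G))).map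
        (Cfsg.pPrimeCore p G ⊓ Subgroup.centralizer ((P : Subgroup G) : Set G)).subtype) ⊔
    ⁅(Cfsg.pPrimeCore q ↥(Cfsg.pPrimeCore p G ⊓ Subgroup.centralizer ({z} : Set G))).map
        (Cfsg.pPrimeCore p G ⊓ Subgroup.centralizer ({z} : Set G)).subtype, (P : Subgroup G)⁆ ≤
    (Cfsg.pPrimeCore q ↥(Cfsg.pPrimeCore p G)).map (Cfsg.pPrimeCore p G).subtype := by
  classical
  set H : Subgroup G := pPrimeCore p G with hH
  set O : Subgroup G := (pPrimeCore q H).map H.subtype with hO
  have hOn : O.Normal := by
    rw [← normalizer_eq_top_iff, eq_top_iff]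
    exact le_normalizer_of_normal.trans (H1.normalizer_le_normalizer_map_subtype_pPrimeCore H)
  have hOq : (Nat.card O).Coprime q := H1.coprime_card_map_subtype_pPrimeCore H
  have hOH : O ≤ H := map_subtype_le _
  let f : G →* G ⧸ O := QuotientGroup.mk' O
  have hf : Function.Surjective f := QuotientGroup.mk'_surjective O
  have hker : f.ker = O := QuotientGroup.ker_mk' O
  have hzq : IsPGroup q (zpowers z) := by
    obtain ⟨k, hk⟩ := hz
    exact IsPGroup.of_card (by rw [Nat.card_zpowers, hk])
  have hcz : centralizer ({z} : Set G) = centralizer (zpowers z : Set G) := by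
    rw [zpowers_eq_closure, centralizer_closure]
  have hcop : (Nat.card P).Coprime (Nat.card H) :=
    H1.coprime_card_of_isPGroup_of_coprime P.isPGroup' H1.coprime_card_pPrimeCore
  have hPs : Group.IsSolvable (P : Subgroup G) :=
    have := P.isPGroup'.isNilpotent
    inferInstance
  rw [hcz]
  set D : Subgroup G := (pPrimeCore q ↥(H ⊓ centralizer (zpowers z : Set G))).map
    (H ⊓ centralizer (zpowers z : Set G)).subtype with hD
  set E : Subgroup G := (pPrimeCore q ↥(H ⊓ centralizer ((P : Subgroup G) : Set G))).map
    (H ⊓ centralizer ((P : Subgroup G) : Set G)).subtype with hE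
  have hHn : (H.map f).Normal := Normal.map inferInstance f hf
  have hPz : (P : Subgroup G) ≤ normalizer (zpowers z : Set G) :=
    le_trans (le_centralizer_iff.mp (zpowers_le.mpr hzP)) (centralizer_le_normalizer _)
  have key := core (q := q) (H := H.map f) (P := (P : Subgroup G).map f) (D := D.map f)
    (E := E.map f) (z := f z) (by rw [← Subgroup.map_sup, hPH, map_top_of_surjective f hf])
    ((hcop.coprime_dvd_left (card_map_dvd _ f)).coprime_dvd_right (card_map_dvd _ f))
    (H1.isSolvable_map hPs f) (by rw [← map_commutator]; exact H1.isSolvable_map hsol f)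
    (by rw [← MonoidHom.map_zpowers]; exact hzq.map f) ?_
    (map_mono ((map_subtype_le _).trans inf_le_left)) ?_
    ((H1.coprime_card_map_subtype_pPrimeCore _).coprime_dvd_left (card_map_dvd _ f)) ?_
    (map_le_normalizer_map f ((H2.le_normalizer_inf le_normalizer_of_normal
      (H2.le_normalizer_centralizer hPz)).trans
      (H1.normalizer_le_normalizer_map_subtype_pPrimeCore _)))
    (map_mono ((map_subtype_le _).trans inf_le_left))
    ((H1.coprime_card_map_subtype_pPrimeCore _).coprime_dvd_left (card_map_dvd _ f)) ?_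
  · refine le_trans ?_ hker.le
    rw [← Subgroup.map_eq_bot_iff, eq_bot_iff, ← key, Subgroup.map_sup, map_commutator]
    exact sup_le_sup_right (map_inf_le _ _ f) _
  · intro N hNH hn hN
    have h1 : N.comap f ≤ O := by
      have hle : N.comap f ≤ H := by
        have := comap_mono (f := f) hNH
        rwa [comap_map_eq, hker, sup_of_le_left hOH] at this
      refine H1.le_map_subtype_pPrimeCore hle ?_ ?_
      · exact (le_comap_map f H).trans ((comap_mono hn).trans (le_normalizer_comap f))
      · have h2 : Nat.card (N.comap f) = Nat.card f.ker * Nat.card N := by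
          rw [H1.card_comap_of_surjective hf, mul_comm]
        rw [h2, hker]
        exact Nat.Coprime.mul_left hOq hN
    have := (Subgroup.map_eq_bot_iff _).mpr (h1.trans hker.ge)
    rwa [map_comap_eq_self_of_surjective hf] at this
  · rw [← MonoidHom.map_zpowers]
    refine (map_mono ((map_subtype_le _).trans inf_le_right)).trans ?_
    exact map_centralizer_le_centralizer_image (zpowers z : Set G) f
  · rw [← MonoidHom.map_zpowers, ← H2.map_inf_centralizer le_normalizer_of_normal f
      (H1.coprime_card_of_isPGroup_of_coprime hzq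
        (hOq.coprime_dvd_left (card_dvd_of_le (inf_le_right.trans hker.le))))
      (Or.inl (H2.isSolvable_zpowers z))]
    exact map_le_normalizer_map f
      (le_normalizer.trans (H1.normalizer_le_normalizer_map_subtype_pPrimeCore _))
  · rw [← H2.map_inf_centralizer_of_coprime le_normalizer_of_normal hcop (Or.inl hPs) f]
    exact map_le_normalizer_map f
      (le_normalizer.trans (H1.normalizer_le_normalizer_map_subtype_pPrimeCore _))

end Cfsg.Agent.S3819
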