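import Cfsg.Statements.S3821
import Mathlib
import Cfsg.Agent.Lib.FGS.Pronormal

set_option autoImplicit false
open Cfsg

namespace Cfsg.Agent.S3821

open Subgroup
open scoped Pointwise commutatorElement

/-- Let A be a normal subgroup of the finite group G and H a subgroup of A. Then H is pronormal in G (H and gHg⁻¹ conjugate inside ⟨H, gHg⁻¹⟩ for every g ∈ G) if and only if H is pronormal in A and G = A · N_G(H). -/
theorem result {G : Type*} [Group G] [Finite G] (A H : Subgroup G) [A.Normal] (hHA : H ≤ A) :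
    Cfsg.IsPronormal H ↔ (Cfsg.IsPronormal (H.subgroupOf A) ∧ A ⊔ Subgroup.normalizer (H : Set G) = ⊤) := by
  rw [H77.isPronormal_subgroupOf_iff hHA, H77.isPronormal_iff]
  constructor
  · intro h
    refine ⟨fun g _ => h g, eq_top_iff.mpr fun g _ => ?_⟩
    obtain ⟨x, hx, h1⟩ := h g
    have h2 : x ∈ A := (sup_le hHA ((H77.conj_smul_mono g hHA).trans
      (H1.mem_normalizer_iff_conj_smul_eq.mp (by rw [normalizer_eq_top]; trivial)).le)) hx
    simpa using mul_mem_sup h2 h1
  · rintro ⟨h1, h2⟩ g
    have : g ∈ A ⊔ normalizer (H : Set G) := h2 ▸ mem_top g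
    obtain ⟨a, ha, n, hn, rfl⟩ := mem_sup_of_normal_left.mp this
    exact (h1 a ha).mul_normalizer hn

end Cfsg.Agent.S3821
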