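import Mathlib
import Cfsg.Statements.S3822
import Cfsg.Agent.Lib.Flav26.Fix4
import Cfsg.Agent.Lib.BG47.Pre
import Cfsg.Agent.Lib.BG3.Ambient
import Cfsg.Agent.Lib.Core.CoprimeAbelian
import Cfsg.Agent.Lib.Core.Frattini

set_option autoImplicit false
open Cfsg

namespace Cfsg.Agent.S3822

open Subgroup H45 H69
open scoped commutatorElement

theorem exists_v {Γ : Type*} [Group Γ] [Finite Γ] {A R W : Subgroup Γ} {x a : Γ} {p q : ℕ}
    (hp : p.Prime) (h5 : 5 ≤ p) (hx : x ^ p = 1) (hA : Group.IsSolvable A) (ha : a ∈ A)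
    (hAx : A = zpowers x ⊔ zpowers (a * x * a⁻¹)) (hRA : R ≤ A) (hAR : A ≤ 𝐍(R))
    (hAW : A ≤ 𝐍(W)) (hq : q.Prime) (hW : IsElementaryAbelian q W) (hW0 : W ≠ ⊥)
    (hR : ¬ q ∣ Nat.card R) (hC : W ⊓ 𝐂(R) = ⊥)
    (hirr : ∀ U ≤ W, A ≤ 𝐍(U) → U = ⊥ ∨ U = W) :
    ∃ v ∈ W, W ≤ zpowers x ⊔ zpowers (v * (a * x * a⁻¹) * v⁻¹) := by
  by_contra! hcon
  have := Fact.mk hq
  set y := a * x * a⁻¹ with hy
  have hxA : x ∈ A := hAx ▸ mem_sup_left (mem_zpowers x)
  have hyA : y ∈ A := hAx ▸ mem_sup_right (mem_zpowers y)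
  have hWq : IsPGroup q W := fun w => ⟨1, Subtype.ext (by rw [pow_one]; exact hW.2 w w.2)⟩
  have hcop := H2.coprime_card_of_isPGroup ((hq.coprime_iff_not_dvd.2 hR).symm) hWq
  have hWc : W ≤ 𝐂(W) := le_centralizer_iff_isMulCommutative.2 hW.1
  have key : ∀ v ∈ W, ∃ w ∈ W ⊓ 𝐂[x], w⁻¹ * v ∈ 𝐂[y] := by
    intro v hv
    set H := zpowers x ⊔ zpowers (v * y * v⁻¹) with hH
    have hxH : x ∈ H := mem_sup_left (mem_zpowers _)
    have hyH : v * y * v⁻¹ ∈ H := mem_sup_right (mem_zpowers _)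
    have hHW : H ≤ 𝐍(W) := sup_le (zpowers_le.2 (hAW hxA)) (zpowers_le.2
      (mul_mem (mul_mem (le_normalizer hv) (hAW hyA)) (le_normalizer (inv_mem hv))))
    have hAH : A ≤ W ⊔ H := by
      rw [hAx]
      refine sup_le (zpowers_le.2 (mem_sup_right hxH)) (zpowers_le.2 ?_)
      rw [show y = v⁻¹ * (v * y * v⁻¹) * v by group]
      exact mul_mem (mul_mem (mem_sup_left (inv_mem hv)) (mem_sup_right hyH)) (mem_sup_left hv)
    have hU : W ⊓ H = ⊥ := by
      refine (hirr _ inf_le_left (hAH.trans (sup_le ?_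
        (H2.le_normalizer_inf hHW le_normalizer)))).resolve_right fun e => hcon v hv (inf_eq_left.1 e)
      exact (hWc.trans (centralizer_le inf_le_left)).trans (centralizer_le_normalizer _)
    obtain ⟨w, hw, hwR⟩ := H2.exists_conj_le_of_forall_mul_mem (hRA.trans hAW) hcop
      (Or.inl (H1.isSolvable_of_le hA hRA)) (H := H) fun r hr => by
        obtain ⟨k, hk, h, hh, e⟩ := (H2.mem_sup_iff_of_le_normalizer hHW).1 (hAH (hRA hr))
        exact ⟨k⁻¹, inv_mem hk, by rw [← e, inv_mul_cancel_left]; exact hh⟩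
    have h1 : ∀ k ∈ W, ∀ g ∈ A, w * (k * g) * w⁻¹ ∈ H → k = 1 := by
      intro k hk g hg hkg
      rw [← mem_bot, ← hC]
      refine ⟨hk, fun r hr => ?_⟩
      have h2 := hwR _ (H2.inv_conj_mem_of_le_normalizer hAR hg hr)
      have h3 : w * (k * r * k⁻¹ * r⁻¹) * w⁻¹ ∈ W ⊓ H := by
        refine ⟨W.mul_mem (W.mul_mem hw ?_) (W.inv_mem hw), ?_⟩
        · rw [mul_assoc, mul_assoc, ← mul_assoc r]
          exact mul_mem hk (H2.conj_mem_of_le_normalizer hAW (hRA hr) (inv_mem hk))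
        · have := mul_mem (mul_mem (mul_mem hkg h2) (inv_mem hkg)) (inv_mem (hwR r hr))
          rwa [show w * (k * g) * w⁻¹ * (w * (g⁻¹ * r * g) * w⁻¹) * (w * (k * g) * w⁻¹)⁻¹ *
            (w * r * w⁻¹)⁻¹ = w * (k * r * k⁻¹ * r⁻¹) * w⁻¹ by group] at this
      rw [hU, mem_bot, mul_inv_eq_one, mul_eq_left, mul_inv_eq_one, mul_inv_eq_iff_eq_mul] at h3
      exact h3.symm
    refine ⟨w, ⟨hw, mem_centralizer_singleton_iff.2 ?_⟩, mem_centralizer_singleton_iff.2 ?_⟩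
    · have := h1 (w⁻¹ * (x * w * x⁻¹)) (mul_mem (inv_mem hw)
        (H2.conj_mem_of_le_normalizer hAW hxA hw)) x hxA (by
          rw [show w * (w⁻¹ * (x * w * x⁻¹) * x) * w⁻¹ = x by group]; exact hxH)
      rw [inv_mul_eq_one, eq_mul_inv_iff_mul_eq] at this
      exact this
    · have h2 := mul_mem (inv_mem hw) hv
      have := h1 (w⁻¹ * v * (y * (w⁻¹ * v)⁻¹ * y⁻¹)) (mul_mem h2
        (H2.conj_mem_of_le_normalizer hAW hyA (inv_mem h2))) y hyA (by
          rw [show w * (w⁻¹ * v * (y * (w⁻¹ * v)⁻¹ * y⁻¹) * y) * w⁻¹ = v * y * v⁻¹ by group]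
          exact hyH)
      rw [← mul_assoc, ← mul_assoc, mul_inv_eq_one, mul_inv_eq_iff_eq_mul] at this
      exact this
  have h1 := H26.FF.card_sq_lt hp h5 hx hA hxA (fun N hN hn => by
      rw [hAx]
      exact sup_le (zpowers_le.2 hN) (zpowers_le.2 (H2.conj_mem_of_le_normalizer hn ha hN)))
    hRA hAW hq ⟨hW.1, fun w => Subtype.ext (hW.2 w w.2)⟩ hW0 hR hC
  let φ : ↥(W ⊓ 𝐂[x]) × ↥(W ⊓ 𝐂[x]) → W := fun t =>
    ⟨t.1 * (a * t.2 * a⁻¹), mul_mem t.1.2.1 (H2.conj_mem_of_le_normalizer hAW ha t.2.2.1)⟩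
  have hφ : Function.Surjective φ := by
    rintro ⟨v, hv⟩
    obtain ⟨w, hw, hwv⟩ := key v hv
    refine ⟨(⟨w, hw⟩, ⟨a⁻¹ * (w⁻¹ * v) * a, H2.inv_conj_mem_of_le_normalizer hAW ha
      (mul_mem (inv_mem hw.1) hv), mem_centralizer_singleton_iff.2 ?_⟩), Subtype.ext ?_⟩
    · have := mem_centralizer_singleton_iff.1 hwv
      calc a⁻¹ * (w⁻¹ * v) * a * x = a⁻¹ * (w⁻¹ * v * y) * a := by rw [hy]; group
        _ = _ := by rw [this, hy]; group
    · change w * (a * (a⁻¹ * (w⁻¹ * v) * a) * a⁻¹) = v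
      group
  have h2 := Nat.card_le_card_of_surjective φ hφ
  rw [Nat.card_prod, ← sq] at h2
  omega

theorem commutator_eq_bot_of_ne {G : Type*} [Group G] [Finite G] {q r : ℕ} [Fact q.Prime]
    [Fact r.Prime] (h : q ≠ r) {X Y : Subgroup G} (hX : IsPGroup q X) (hY : IsPGroup r Y)
    (h1 : X ≤ 𝐍(Y)) (h2 : Y ≤ 𝐍(X)) : ⁅X, Y⁆ = ⊥ := by
  rw [eq_bot_iff, ← (IsPGroup.disjoint_of_ne q r h X Y hX hY).eq_bot]
  exact le_inf (H2.commutator_le_of_le_normalizer h2)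
    (commutator_comm X Y ▸ H2.commutator_le_of_le_normalizer h1)

theorem step {G : Type*} [Group G] [Finite G] {A : Subgroup G} {x a : G} {p q r : ℕ}
    (hp : p.Prime) (h5 : 5 ≤ p) (hx : x ^ p = 1) (hA : Group.IsSolvable A) (ha : a ∈ A)
    (hAx : A = zpowers x ⊔ zpowers (a * x * a⁻¹))
    (hmax : ∀ B : Subgroup G, A ≤ B → Group.IsSolvable B →
      (∃ b ∈ B, B = zpowers x ⊔ zpowers (b * x * b⁻¹)) → B = A)
    [hq : Fact q.Prime] [hr : Fact r.Prime] (hqr : q ≠ r) {V : Subgroup G} (hV : IsPGroup q V)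
    (hAV : A ≤ 𝐍(V)) : ⁅V, pCoreOf r A⁆ = ⊥ := by
  by_contra h0
  set R := pCoreOf r A with hR
  have hRA : R ≤ A := H1.pCoreOf_le A
  have hRr : IsPGroup r R := H1.isPGroup_pCoreOf A
  have hAR : A ≤ 𝐍(R) := le_normalizer.trans (H1.normalizer_le_normalizer_pCoreOf A)
  obtain ⟨W, ⟨hW, hAW, hWR⟩, hmin⟩ := exists_minimal_of_wellFoundedLT
    (fun W : Subgroup G => IsPGroup q W ∧ A ≤ 𝐍(W) ∧ ⁅W, R⁆ ≠ ⊥) ⟨V, hV, hAV, h0⟩
  have hqR : ¬ q ∣ Nat.card R := fun h => by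
    obtain ⟨n, hn⟩ := hRr.exists_card_eq
    exact hqr ((Nat.prime_dvd_prime_iff_eq hq.out hr.out).1 (hq.out.dvd_of_dvd_pow (hn ▸ h)))
  have hcop := H2.coprime_card_of_isPGroup ((hq.out.coprime_iff_not_dvd.2 hqR).symm) hW
  have hle : ⁅W, R⁆ ≤ W := H2.commutator_le_of_le_normalizer (hRA.trans hAW)
  have heq : ⁅W, R⁆ = W := le_antisymm hle (hmin ⟨hW.to_le hle, H2.le_normalizer_commutator hAW hAR,
    by rwa [H2.commutator_commutator_eq (hRA.trans hAW) hcop]⟩ hle)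
  have hWN : W ≤ 𝐍(Phi W) := le_normalizer.trans (H47.normalizer_le_normalizer_Phi W)
  have hAN : A ≤ 𝐍(Phi W) := hAW.trans (H47.normalizer_le_normalizer_Phi W)
  have hxA : x ∈ A := hAx ▸ mem_sup_left (mem_zpowers x)
  let f := coset (Phi W)
  have hE := H47.quo_Phi_isElementaryAbelian hW
  have hC : W /ₙ Phi W ⊓ 𝐂(R /ₙ Phi W) = ⊥ := by
    have := H2.commutator_inf_centralizer_eq_bot hE.1 (H47.im_le_normalizer f (hRA.trans hAW))
      ((hcop.coprime_dvd_left (H47.card_im_dvd f R)).coprime_dvd_right (H47.card_im_dvd f W))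
    rwa [← H47.im_commutator f hWN (hRA.trans hAN), heq] at this
  have hyN : a * x * a⁻¹ ∈ 𝐍(Phi W) := hAN (mul_mem (mul_mem ha hxA) (inv_mem ha))
  obtain ⟨_, ⟨⟨v, hvN⟩, hv, rfl⟩, h1⟩ := exists_v (A := A /ₙ Phi W) (R := R /ₙ Phi W)
    (W := W /ₙ Phi W) (x := f ⟨x, hAN hxA⟩) (a := f ⟨a, hAN ha⟩) hp h5
    (by rw [← map_pow]; exact (congrArg f (Subtype.ext hx)).trans (map_one f))
    (H47.isSolvable_im f hA) ⟨⟨a, hAN ha⟩, ha, rfl⟩ (by
      rw [← map_inv, ← map_mul, ← map_mul, ← H47.im_zpowers f (hAN hxA)]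
      change _ = _ ⊔ zpowers (f ⟨_, hyN⟩)
      rw [← H47.im_zpowers f hyN, ← H47.im_sup f (zpowers_le.2 (hAN hxA)) (zpowers_le.2 hyN), ← hAx])
    (H47.im_mono f hRA) (H47.im_le_normalizer f hAR) (H47.im_le_normalizer f hAW) hq.out hE
    (fun e => hWR (by
      have := H2.eq_of_sup_frattini (H := ⊥) bot_le (((H47.quo_eq_bot_iff hWN).1 e).trans le_sup_left)
      rw [← this, commutator_bot_left]))
    (fun h => hqR (h.trans (H47.card_im_dvd f R))) hC fun U hU hn => by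
      have h2 : qpre (Phi W) U ≤ W := H47.qpre_le_of_le_quo hWN (H47.Phi_le W) hU
      rw [← H47.quo_qpre (Phi W) U]
      by_cases h3 : ⁅qpre (Phi W) U, R⁆ = ⊥
      · left
        rw [eq_bot_iff, ← hC]
        exact le_inf (H47.im_mono f h2)
          (H47.im_le_centralizer f (commutator_eq_bot_iff_le_centralizer.1 h3))
      · right
        rw [le_antisymm h2 (hmin ⟨hW.to_le h2, H47.le_normalizer_pre f hAN hn, h3⟩ h2)]
  have hv : v ∈ W := hv
  have hzN : v * (a * x * a⁻¹) * v⁻¹ ∈ 𝐍(Phi W) := mul_mem (mul_mem hvN hyN) (inv_mem hvN)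
  set H := zpowers x ⊔ zpowers (v * (a * x * a⁻¹) * v⁻¹) with hH
  have hHN : H ≤ 𝐍(Phi W) := sup_le (zpowers_le.2 (hAN hxA)) (zpowers_le.2 hzN)
  have h2 : W ≤ H ⊔ Phi W := by
    rw [← H47.quo_le_quo_iff hWN hHN, hH, quo, quo, H47.im_sup _ (zpowers_le.2 (hAN hxA))
      (zpowers_le.2 hzN), H47.im_zpowers _ (hAN hxA), H47.im_zpowers _ hzN]
    rw [show coset (Phi W) ⟨_, hzN⟩ = f ⟨v, hvN⟩ * (f ⟨a, hAN ha⟩ * f ⟨x, hAN hxA⟩ *
      (f ⟨a, hAN ha⟩)⁻¹) * (f ⟨v, hvN⟩)⁻¹ by simp only [← map_inv, ← map_mul]; rfl]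
    exact h1
  have h3 : W ≤ H := by
    have := H2.eq_of_sup_frattini (H := H ⊓ W) inf_le_right (by
      have h4 := H1.sup_inf_eq_of_le_of_le_normalizer (H47.Phi_le W) hHN
      exact le_trans (le_inf (h2.trans (sup_comm _ _).le) le_rfl) h4.le)
    exact this.ge.trans inf_le_left
  have h4 : A ⊔ W = H := by
    refine le_antisymm (sup_le ?_ h3) (sup_le (zpowers_le.2 (mem_sup_left hxA)) (zpowers_le.2 ?_))
    · rw [hAx]
      refine sup_le le_sup_left (zpowers_le.2 ?_)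
      rw [show a * x * a⁻¹ = v⁻¹ * (v * (a * x * a⁻¹) * v⁻¹) * v by group]
      exact mul_mem (mul_mem (h3 (inv_mem hv)) (mem_sup_right (mem_zpowers _))) (h3 hv)
    · exact mul_mem (mul_mem (mem_sup_right hv) (mem_sup_left
        (mul_mem (mul_mem ha hxA) (inv_mem ha)))) (mem_sup_right (inv_mem hv))
  have h5 := hmax (A ⊔ W) le_sup_left
    (H1.isSolvable_sup_of_le_normalizer hA (H1.isSolvable_of_isPGroup hW) hAW)
    ⟨v * a, mul_mem (mem_sup_right hv) (mem_sup_left ha), by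
      rw [h4, hH]; congr 2; group⟩
  exact hWR (commutator_eq_bot_of_ne hqr hW hRr ((le_sup_right.trans h5.le).trans hAR)
    (hRA.trans hAW))


/-- Let G be a finite group and P a subgroup of prime order p > 3. Consider the solvable subgroups A of G of the form A = ⟨P, aPa⁻¹⟩ for some a ∈ A, and let A be maximal under inclusion among them. Then for every nilpotent subgroup V of G normalized by A, the subgroup F(A)V generated by the Fitting subgroup of A and V is nilpotent. -/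
theorem result {G : Type*} [Group G] [Finite G]
    {p : ℕ} [Fact p.Prime] (hp : 3 < p) (P : Subgroup G) (hP : Nat.card P = p) (A : Subgroup G)
    (hA : Group.IsSolvable ↥A ∧ ∃ a ∈ A, A = P ⊔ P.map (MulAut.conj a).toMonoidHom)
    (hmax : ∀ B : Subgroup G, A ≤ B → Group.IsSolvable ↥B → (∃ b ∈ B, B = P ⊔ P.map (MulAut.conj b).toMonoidHom) → B = A)
    (V : Subgroup G) (hV : Group.IsNilpotent ↥V) (hAV : A ≤ Subgroup.normalizer (V : Set G)) :
    Group.IsNilpotent ↥((Cfsg.fittingSubgroup ↥A).map A.subtype ⊔ V) := by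
  have hp' : p.Prime := Fact.out
  obtain ⟨x, rfl, -, hx⟩ := H46.exists_generator_of_prime_card (hP ▸ hp')
  rw [hP] at hx
  have h5 : 5 ≤ p := hp'.five_le_of_ne_two_of_ne_three (by omega) (by omega)
  simp only [MonoidHom.map_zpowers, MulEquiv.toMonoidHom_eq_coe, MonoidHom.coe_coe,
    MulAut.conj_apply] at hA hmax
  obtain ⟨hs, a, ha, hAx⟩ := hA
  have hst := fun (q r : ℕ) [Fact q.Prime] [Fact r.Prime] (h : q ≠ r) =>
    step hp' h5 hx hs ha hAx hmax h (H1.isPGroup_pCoreOf (p := q) V)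
      (hAV.trans (H1.normalizer_le_normalizer_pCoreOf V))
  change Group.IsNilpotent ↥(fittingOf A ⊔ V)
  have hVF : V = ⨆ q : Nat.Primes, pCoreOf (q : ℕ) V := by
    rw [← H1.fittingOf_eq_iSup_pCoreOf]
    exact le_antisymm (H1.le_fittingOf le_rfl le_normalizer hV) (H1.fittingOf_le V)
  have key : ∀ r : Nat.Primes, pCoreOf (r : ℕ) A ⊔ pCoreOf (r : ℕ) V ≤ fittingOf (fittingOf A ⊔ V) := by
    intro r
    have := Fact.mk r.2
    have h1 : A ≤ 𝐍(pCoreOf (r : ℕ) V) := hAV.trans (H1.normalizer_le_normalizer_pCoreOf V)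
    have h2 : A ≤ 𝐍(pCoreOf (r : ℕ) A) := le_normalizer.trans (H1.normalizer_le_normalizer_pCoreOf A)
    refine H1.le_fittingOf (sup_le_sup (H1.pCoreOf_le_fittingOf _ A) (H1.pCoreOf_le V))
      (sup_le ((H1.fittingOf_le A).trans (H2.le_normalizer_sup h2 h1)) ?_)
      (IsPGroup.to_sup_of_normal_right' (H1.isPGroup_pCoreOf A) (H1.isPGroup_pCoreOf V)
        ((H1.pCoreOf_le A).trans h1)).isNilpotent
    refine hVF.le.trans (iSup_le fun q => ?_)
    have := Fact.mk q.2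
    by_cases e : q = r
    · subst e
      exact le_sup_right.trans le_normalizer
    · refine H2.le_normalizer_sup ?_
        ((H1.pCoreOf_le V).trans (le_normalizer.trans (H1.normalizer_le_normalizer_pCoreOf V)))
      exact (commutator_eq_bot_iff_le_centralizer.1 (hst q r fun h => e (Subtype.ext h))).trans
        (centralizer_le_normalizer _)
  refine H1.isNilpotent_of_le (H1.isNilpotent_fittingOf (fittingOf A ⊔ V)) (sup_le ?_ ?_)
  · exact (H1.fittingOf_eq_iSup_pCoreOf A).le.trans (iSup_le fun r => le_sup_left.trans (key r))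
  · exact hVF.le.trans (iSup_le fun r => le_sup_right.trans (key r))

end Cfsg.Agent.S3822
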