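import Cfsg.Statements.S3825
import Mathlib
import Cfsg.Agent.Lib.Core.GrpBasic
import Cfsg.Agent.Lib.Invol.Dihedral

set_option autoImplicit false
open Cfsg

namespace Cfsg.Agent.S3825

open Subgroup
open scoped Pointwise commutatorElement

/-- Let U be a subgroup of a finite group H and w an involution of H normalizing U and commuting with exactly two elements of U, the identity and y. If V is a non-cyclic elementary abelian 2-subgroup of U containing y which is normal in U and invariant under w, then V is a Sylow 2-subgroup of U, V has order 4, and U/V is abelian. -/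
theorem result {H : Type*} [Group H] [Finite H] (U : Subgroup H) (w : H) (hw : orderOf w = 2)
    (hwU : w ∈ Subgroup.normalizer (U : Set H)) (y : H) (hy : y ≠ 1) (hyU : y ∈ U)
    (hfix : ∀ u ∈ U, w * u * w⁻¹ = u ↔ (u = 1 ∨ u = y))
    (V : Subgroup H) (hVU : V ≤ U) (hVn : (V.subgroupOf U).Normal) (hVw : ∀ v ∈ V, w * v * w⁻¹ ∈ V)
    (hVe : Cfsg.IsElementaryAbelian 2 V) (hVc : ¬ IsCyclic ↥V) (hyV : y ∈ V) :
    ¬ 2 ∣ V.relIndex U ∧ Nat.card ↥V = 4 ∧ ⁅U, U⁆ ≤ V := by
  have hww := H9.mul_self_of_orderOf_two hw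
  have hwi := H9.inv_eq_of_orderOf_two hw
  have hc : ∀ a ∈ V, ∀ b ∈ V, a * b = b * a := fun x hx y hy =>
    congrArg Subtype.val (hVe.1.is_comm.comm ⟨x, hx⟩ ⟨y, hy⟩)
  have hsq : ∀ a ∈ V, a * a = 1 := fun a ha => by rw [← sq]; exact hVe.2 a ha
  let f : V →* H := MonoidHom.mk' (fun a => w * a * w⁻¹ * a) fun a b => by
    have := hc _ (hVw b b.2) a a.2
    calc w * (a * b : H) * w⁻¹ * (a * b) = w * a * w⁻¹ * ((w * b * w⁻¹) * a) * b := by group
      _ = w * a * w⁻¹ * a * (w * b * w⁻¹ * b) := by rw [this]; group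
  have hf : ∀ a : V, f a = w * a * w⁻¹ * a := fun a => rfl
  have hy2 : orderOf y = 2 := H9.orderOf_eq_two_of_mul_self hy (hsq y hyV)
  have hzy : ∀ u, u ∈ zpowers y ↔ u = 1 ∨ u = y := by
    intro u
    constructor
    · intro hu
      obtain ⟨k, rfl⟩ := mem_zpowers_iff.mp hu
      have h1 : y ^ (2 : ℤ) = 1 := by rw [zpow_two]; exact hsq y hyV
      rcases Int.even_or_odd' k with ⟨j, rfl | rfl⟩
      · left; rw [zpow_mul, h1, one_zpow]
      · right; rw [zpow_add, zpow_mul, h1, one_zpow, one_mul, zpow_one]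
    · rintro (rfl | rfl)
      exacts [one_mem _, mem_zpowers _]
  have hfix' : ∀ a : V, w * (f a) * w⁻¹ = f a := by
    intro a
    rw [hf, ← hc _ a.2 _ (hVw a a.2)]
    calc w * (a * (w * a * w⁻¹)) * w⁻¹ = w * a * w⁻¹ * ((w * w) * a * (w * w)⁻¹) := by group
      _ = w * a * w⁻¹ * a := by rw [hww]; group
      _ = _ := (hc _ a.2 _ (hVw a a.2)).symm
  have hr : f.range ≤ zpowers y := by
    rintro _ ⟨a, rfl⟩
    exact (hzy _).mpr ((hfix _ (hVU (V.mul_mem (hVw a a.2) a.2))).mp (hfix' a))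
  have hk : f.ker = (zpowers y).subgroupOf V := by
    ext a
    rw [MonoidHom.mem_ker, mem_subgroupOf, hzy, ← hfix _ (hVU a.2), hf, mul_eq_one_iff_eq_inv,
      inv_eq_of_mul_eq_one_right (hsq a a.2)]
  have hck : Nat.card f.ker = 2 := by
    rw [hk, H1.card_subgroupOf_of_le (zpowers_le.mpr hyV), Nat.card_zpowers, hy2]
  have hcr : Nat.card f.range ∣ 2 := by
    rw [← hy2, ← Nat.card_zpowers]; exact card_dvd_of_le hr
  have hV : Nat.card V = 2 * Nat.card f.range := by
    rw [← hck, ← index_ker, card_mul_index]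
  have hr2 : Nat.card f.range = 2 := by
    rcases (Nat.dvd_prime Nat.prime_two).mp hcr with h | h
    · rw [h] at hV
      exact absurd (isCyclic_of_prime_card (p := 2) hV) hVc
    · exact h
  have hre : f.range = zpowers y :=
    eq_of_le_of_card_ge hr (by rw [Nat.card_zpowers, hy2, hr2])
  obtain ⟨v₀, hv₀⟩ : y ∈ f.range := hre ▸ mem_zpowers y
  have key : ∀ u ∈ U, u⁻¹ * (w * u * w⁻¹) ∈ V → u ∈ V := by
    intro u hu hv
    set v := u⁻¹ * (w * u * w⁻¹) with hvd
    have h1 : w * v * w⁻¹ = v := by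
      have e1 : v * (w * v * w⁻¹) = u⁻¹ * ((w * u * w⁻¹) * (w * u⁻¹ * w⁻¹)) *
        ((w * w) * u * (w * w)⁻¹) := by rw [hvd]; group
      have e2 : v * (w * v * w⁻¹) = 1 := by rw [e1, hww]; group
      rw [eq_inv_of_mul_eq_one_right e2, inv_eq_of_mul_eq_one_right (hsq v hv)]
    have h2 : ∀ t ∈ U, w * t * w⁻¹ = t → t ∈ V := fun t ht h => by
      rcases (hfix t ht).mp h with rfl | rfl
      exacts [V.one_mem, hyV]
    rcases (hfix v (hVU hv)).mp h1 with h | h
    · exact h2 u hu (inv_mul_eq_one.mp (hvd ▸ h)).symm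
    · have h3 : w * (u * v₀) * w⁻¹ = u * v₀ := by
        have e1 : w * u * w⁻¹ = u * y := by rw [← h, hvd]; group
        have e2 : w * v₀ * w⁻¹ = y * v₀ := by
          rw [← hv₀, hf, mul_assoc (w * v₀ * w⁻¹), hsq _ v₀.2, mul_one]
        calc w * (u * v₀) * w⁻¹ = (w * u * w⁻¹) * (w * v₀ * w⁻¹) := by group
          _ = u * (y * y) * v₀ := by rw [e1, e2]; group
          _ = u * v₀ := by rw [hsq y hyV, mul_one]
      have := h2 _ (U.mul_mem hu (hVU v₀.2)) h3
      exact (V.mul_mem_cancel_right v₀.2).mp this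
  let α : U →* U := ((MulAut.conj w).toMonoidHom.comp U.subtype).codRestrict U
    fun u => (mem_normalizer_iff.mp hwU u).mp u.2
  let φ := QuotientGroup.map (V.subgroupOf U) (V.subgroupOf U) α fun u hu => hVw u hu
  have hφ : MonoidHom.FixedPointFree φ := by
    intro q hq
    obtain ⟨u, rfl⟩ := QuotientGroup.mk_surjective q
    have : (u : U ⧸ V.subgroupOf U) = α u := hq.symm
    rw [QuotientGroup.eq] at this
    exact (QuotientGroup.eq_one_iff u).mpr (key u u.2 this)
  have hinv : Function.Involutive φ := by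
    intro q
    obtain ⟨u, rfl⟩ := QuotientGroup.mk_surjective q
    have : α (α u) = u := Subtype.ext (by
      change w * (w * u * w⁻¹) * w⁻¹ = u
      calc w * (w * u * w⁻¹) * w⁻¹ = (w * w) * u * (w * w)⁻¹ := by group
        _ = u := by rw [hww]; group)
    exact congrArg (fun t : U => (t : U ⧸ V.subgroupOf U)) this
  refine ⟨fun h => ?_, by rw [hV, hr2], commutator_le.mpr fun a ha b hb => ?_⟩
  · exact (Nat.not_even_iff_odd.mpr (hφ.odd_card_of_involutive hinv)) (even_iff_two_dvd.mpr h)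
  · have := hφ.commute_all_of_involutive hinv ((⟨a, ha⟩ : U) : U ⧸ V.subgroupOf U)
      ((⟨b, hb⟩ : U) : U ⧸ V.subgroupOf U)
    rw [← commutatorElement_eq_one_iff_commute] at this
    exact (QuotientGroup.eq_one_iff (N := V.subgroupOf U) ⁅(⟨a, ha⟩ : U), (⟨b, hb⟩ : U)⁆).mp this

end Cfsg.Agent.S3825
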