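import Mathlib
import Cfsg.Statements.S3835
import Cfsg.Agent.Lib.SN.Small

set_option autoImplicit false
open Cfsg

namespace Cfsg.Agent.S3835

/-- Let p be an odd prime and n a natural number. The alternating group of degree n has a subgroup isomorphic to Qd(p) (the natural semidirect product of an elementary abelian group of order p² by SL₂(p)) if and only if n ≥ p²; and if n < p² then Qd(p) is not even involved in it. -/
theorem result {p : ℕ} [Fact p.Prime] (hp : p ≠ 2) (n : ℕ) : ((∃ H : Subgroup (alternatingGroup (Fin n)), Nonempty (↥H ≃* ↥(Cfsg.qd p))) ↔ p ^ 2 ≤ n) ∧ (n < p ^ 2 → ¬ Cfsg.Involves ↥(Cfsg.qd p) ↥(alternatingGroup (Fin n))) := by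
  have hcomm : n < p ^ 2 → ∀ (K : Subgroup (alternatingGroup (Fin n))) (P : Subgroup K),
      IsPGroup p P → ∀ a ∈ P, ∀ b ∈ P, a * b = b * a := fun h K =>
    H5.SN.comm_of_injective ((alternatingGroup (Fin n)).subtype.comp K.subtype)
      (Subtype.val_injective.comp Subtype.val_injective)
      fun P hP _ ha _ hb => H5.SN.comm_of_card_lt (by simpa using h) hP ha hb
  refine ⟨⟨?_, fun h => ?_⟩, ?_⟩
  · rintro ⟨H, ⟨e⟩⟩
    by_contra h
    exact H5.SN.not_surjective_qd e.toMonoidHom e.surjective (hcomm (not_le.mp h) H)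
  · obtain ⟨f, hf⟩ := H5.SN.exists_qd_perm (p := p)
    have : NeZero p := ⟨(Fact.out : p.Prime).ne_zero⟩
    obtain ⟨φ, hφ⟩ := H5.SN.exists_alt_embedding f hf
      (fun g => H5.SN.qd_hom_eq_one hp (Equiv.Perm.sign.comp f) g) (n := n)
      (by rw [Fintype.card_prod, ZMod.card, ← sq]; exact h)
    exact ⟨φ.range, ⟨(MonoidHom.ofInjective hφ).symm⟩⟩
  · rintro h ⟨K, R, _, ⟨e⟩⟩
    exact H5.SN.not_surjective_qd (e.toMonoidHom.comp (QuotientGroup.mk' _))
      (e.surjective.comp (QuotientGroup.mk'_surjective _)) (hcomm h K)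

end Cfsg.Agent.S3835
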