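import Cfsg.Statements.S3836
import Mathlib
import Cfsg.Agent.Lib.Core.PCore

set_option autoImplicit false
open Cfsg

namespace Cfsg.Agent.S3836

open Subgroup
open scoped Pointwise commutatorElement

/-- Let G be a finite group that is p-stable in the normalizer form: for every p-subgroup Q and every x ∈ N_G(Q) with [Q, x, x] = 1, the image of x in N_G(Q)/C_G(Q) lies in O_p(N_G(Q)/C_G(Q)). Then every subgroup of G is p-stable in the same sense. -/
theorem result {G : Type*} [Group G] [Finite G] {p : ℕ} [Fact p.Prime] (hst : Cfsg.IsNormalizerPStable p G) (H : Subgroup G) : Cfsg.IsNormalizerPStable p ↥H := by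
  intro P hP g hg hc
  have hg' : (g : G) ∈ normalizer ((P.map H.subtype : Subgroup G) : Set G) :=
    le_normalizer_map H.subtype (mem_map_of_mem _ hg)
  have h1 := hst (P.map H.subtype) (hP.map _) g hg' (by
    have := congrArg (Subgroup.map H.subtype) hc
    rwa [map_commutator, map_commutator, MonoidHom.map_zpowers, Subgroup.map_bot] at this)
  let φ : normalizer (P : Set H) →* normalizer ((P.map H.subtype : Subgroup G) : Set G) :=
    (H.subtype.comp (Subgroup.subtype _)).codRestrict _
      fun x => le_normalizer_map H.subtype (mem_map_of_mem _ x.2)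
  have hφ : ∀ x, φ x ∈ (centralizer ((P.map H.subtype : Subgroup G) : Set G)).subgroupOf _ ↔
      x ∈ (centralizer (P : Set H)).subgroupOf _ := by
    intro x
    constructor
    · intro h y hy
      exact Subtype.ext (h y ⟨y, hy, rfl⟩)
    · rintro h _ ⟨y, hy, rfl⟩
      exact congrArg Subtype.val (h y hy)
  let ψ := QuotientGroup.map ((centralizer (P : Set H)).subgroupOf _)
    ((centralizer ((P.map H.subtype : Subgroup G) : Set G)).subgroupOf _) φ (fun x hx => (hφ x).mpr hx)
  have hψ : Function.Injective ψ := by
    rw [injective_iff_map_eq_one]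
    intro x hx
    obtain ⟨x, rfl⟩ := QuotientGroup.mk_surjective x
    exact (QuotientGroup.eq_one_iff x).mpr ((hφ x).mp ((QuotientGroup.eq_one_iff (φ x)).mp hx))
  exact H1.le_pCore (N := (Cfsg.pCore p _).comap ψ) (H1.isPGroup_pCore.comap_of_injective ψ hψ) h1

end Cfsg.Agent.S3836
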