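import Cfsg.Statements.S3838
import Mathlib
import Cfsg.Agent.Lib.FGS.PNilpFrattini

set_option autoImplicit false
open Cfsg

namespace Cfsg.Agent.S3838

open Subgroup
open scoped Pointwise commutatorElement

/-- Let G be a finite group with Sylow p-subgroup P such that N_G(P) has a normal p-complement. Then N_G(Q) has a normal p-complement for every subgroup Q with [P, P] ≤ Q ≤ Φ(P). -/
theorem result {G : Type*} [Group G] [Finite G] {p : ℕ} [Fact p.Prime] (P : Sylow p G) (hN : Cfsg.HasNormalPComplement p ↥(Subgroup.normalizer ((P : Subgroup G) : Set G))) (Q : Subgroup G) (h1 : (commutator ↥(P : Subgroup G)).map (P : Subgroup G).subtype ≤ Q) (h2 : Q ≤ (frattini ↥(P : Subgroup G)).map (P : Subgroup G).subtype) : Cfsg.HasNormalPComplement p ↥(Subgroup.normalizer (Q : Set G)) := by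
  rw [map_subtype_commutator] at h1
  have hQP : Q ≤ P := h2.trans (map_subtype_le _)
  have hPN : (P : Subgroup G) ≤ normalizer (Q : Set G) := by
    intro x hx
    apply H3.mem_normalizer_of_conj_mem
    intro y hy
    have := Q.mul_mem (h1 (commutator_mem_commutator hx (hQP hy))) hy
    simpa [commutatorElement_def] using this
  set N := normalizer (Q : Set G) with hNd
  have hmap : ((P.subtype hPN : Sylow p N) : Subgroup N).map N.subtype = P :=
    map_subgroupOf_eq_of_le hPN
  refine H77.hasNormalPComplement_of_normalizer_of_normal (P.subtype hPN) ?_ (Q.subgroupOf N)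
    ?_ ?_
  · refine H4.hasNormalPComplement_of_injective hN
      ((N.subtype.comp (Subgroup.subtype _)).codRestrict _ fun x => ?_) fun x y hxy => ?_
    · have := le_normalizer_map N.subtype (mem_map_of_mem N.subtype x.2)
      rwa [hmap] at this
    · exact Subtype.ext (Subtype.ext (congrArg
        (fun t : normalizer ((P : Subgroup G) : Set G) => (t : G)) hxy))
  · rw [← map_le_map_iff_of_injective N.subtype_injective, map_commutator, hmap,
      map_subgroupOf_eq_of_le le_normalizer]
    exact h1
  · rw [← map_le_map_iff_of_injective N.subtype_injective, map_subgroupOf_eq_of_le le_normalizer]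
    refine h2.trans (le_of_eq ?_)
    rw [← H1.map_frattini_equiv (subgroupOfEquivOfLe hPN), map_map, map_map]
    rfl

end Cfsg.Agent.S3838
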