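import Cfsg.Statements.S3839
import Mathlib
import Cfsg.Agent.Lib.FGS.PNilpFrattini
import Cfsg.Agent.Lib.PGroup.Basic

set_option autoImplicit false
open Cfsg

namespace Cfsg.Agent.S3839

open Subgroup
open scoped Pointwise commutatorElement

/-- A Frobenius normal p-complement criterion relative to a strongly closed subgroup. Let G be a finite group, S a Sylow p-subgroup and D a subgroup of S strongly closed in S with respect to G. Then G has a normal p-complement if and only if N_G(U) has a normal p-complement for every subgroup U of D with C_D(U) ≤ U. -/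
theorem result {G : Type*} [Group G] [Finite G] {p : ℕ} [Fact p.Prime] (S : Sylow p G) (D : Subgroup G) (hD : Cfsg.IsStronglyClosed D (S : Subgroup G)) : Cfsg.HasNormalPComplement p G ↔ ∀ U : Subgroup G, U ≤ D → D ⊓ Subgroup.centralizer (U : Set G) ≤ U → Cfsg.HasNormalPComplement p ↥(Subgroup.normalizer (U : Set G)) := by
  refine ⟨fun h U _ _ => H4.hasNormalPComplement_subgroup h _, fun h => ?_⟩
  have key : ∀ n : ℕ, ∀ Q : Subgroup G, IsPGroup p Q → Nat.card G ≤ Nat.card Q + n →
      ∀ g ∈ normalizer (Q : Set G), (orderOf g).Coprime p → g ∈ centralizer (Q : Set G) := by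
    intro n
    induction n with
    | zero =>
      intro Q hQ hc g _ hg
      have : Q = ⊤ := eq_top_of_le_card Q hc
      subst this
      rw [H4.eq_one_of_isPGroup_of_coprime (hQ.of_equiv topEquiv) hg]
      exact one_mem _
    | succ n ih =>
      suffices hs : ∀ Q : Subgroup G, Q ≤ S → Nat.card G ≤ Nat.card Q + (n + 1) →
          ∀ g ∈ normalizer (Q : Set G), (orderOf g).Coprime p → g ∈ centralizer (Q : Set G) by
        intro Q hQ hc g hg hgo
        obtain ⟨a, ha⟩ := H4.exists_conj_smul_le_sylow S hQ
        have := hs _ ha (by rwa [H1.card_conj_smul]) (a * g * a⁻¹)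
          (by rw [H1.normalizer_conj_smul]; exact H1.conj_mem_conj_smul hg)
          (by rwa [← MulAut.conj_apply, MulEquiv.orderOf_eq])
        rw [H1.centralizer_conj_smul, H1.mem_conj_smul_iff] at this
        simpa [mul_assoc] using this
      intro Q hQS hc g hg hgo
      have hQ : IsPGroup p Q := S.isPGroup'.to_le hQS
      set U := D ⊓ Q with hU
      have hNU : normalizer (Q : Set G) ≤ normalizer (U : Set G) := by
        intro x hx
        apply H3.mem_normalizer_of_conj_mem
        intro u hu
        have := H3.conj_mem_of_mem_normalizer hx hu.2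
        exact ⟨hD.2 u hu.1 x (hQS this), this⟩
      by_cases hc1 : D ⊓ centralizer (U : Set G) ≤ U
      · exact H4.mem_centralizer_of_hasNormalPComplement (h U inf_le_left hc1) hQ
          (le_normalizer.trans hNU) (hNU hg) hg hgo
      set T := D ⊓ centralizer (U : Set G) with hT
      have hSD : (S : Subgroup G) ≤ normalizer (D : Set G) := by
        intro x hx
        apply H3.mem_normalizer_of_conj_mem
        intro d hd
        exact hD.2 d hd x (S.mul_mem (S.mul_mem hx (hD.1 hd)) (S.inv_mem hx))
      have hQT : Q ≤ normalizer (T : Set G) := H2.le_normalizer_inf (hQS.trans hSD)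
        (H2.le_normalizer_centralizer (le_normalizer.trans hNU))
      have hlt : Q < T ⊔ Q := by
        refine lt_of_le_of_ne le_sup_right fun he => hc1 fun x hx => ⟨hx.1, ?_⟩
        exact he.ge (mem_sup_left hx)
      obtain ⟨y, hy, hyQ, -, hyN⟩ := H5.exists_mem_normalizer_of_lt
        (S.isPGroup'.to_le (sup_le (inf_le_left.trans hD.1) hQS)) hlt
      obtain ⟨t, ht, q, hq, rfl⟩ := (H3.mem_sup_iff_of_le_normalizer hQT).mp hy
      have htQ : t ∉ Q := fun h' => hyQ (Q.mul_mem h' hq)
      have htN : t ∈ normalizer (Q : Set G) := by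
        simpa using mul_mem hyN (inv_mem (le_normalizer hq))
      set K := normalizer (Q : Set G) ⊓ (centralizer (U : Set G) ⊓ H2.relCentralizer Q U) with hK
      have htK : t ∈ K := by
        refine ⟨htN, ht.2, H2.mem_relCentralizer.mpr ⟨hNU htN, fun z hz => ⟨?_, ?_⟩⟩⟩
        · rw [commutatorElement_def, mul_assoc, mul_assoc, ← mul_assoc z]
          exact D.mul_mem ht.1 (H3.conj_mem_of_mem_normalizer (hSD (hQS hz)) (D.inv_mem ht.1))
        · exact Q.mul_mem (H3.conj_mem_of_mem_normalizer htN hz) (Q.inv_mem hz)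
      have hgK : ∀ k ∈ K, g * k * g⁻¹ ∈ K := by
        intro k hk
        refine ⟨Subgroup.mul_mem _ (Subgroup.mul_mem _ hg hk.1) (Subgroup.inv_mem _ hg), ?_,
          H2.mem_relCentralizer.mpr ⟨hNU (mul_mem (mul_mem hg hk.1) (inv_mem hg)), fun z hz => ?_⟩⟩
        · exact H2.conj_mem_of_le_normalizer (H2.le_normalizer_centralizer hNU) hg hk.2.1
        · have : ⁅g * k * g⁻¹, z⁆ = g * ⁅k, g⁻¹ * z * g⁆ * g⁻¹ := by
            simp only [commutatorElement_def]; group
          rw [this]
          exact H3.conj_mem_of_mem_normalizer (hNU hg)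
            ((H2.mem_relCentralizer.mp hk.2.2).2 _ (H3.conj_mem_of_mem_normalizer' hg hz))
      have hres : (Cfsg.pResidual p K).map K.subtype ≤ centralizer (Q : Set G) := by
        rw [H4.map_subtype_pResidual_le_iff]
        intro k hk hko
        refine H2.le_centralizer_of_commutator_le (A := zpowers k) (N := U)
          (H2.coprime_card_of_isPGroup (by rwa [Nat.card_zpowers]) (hQ.to_le inf_le_right)) ?_
          (zpowers_le.mpr hk.2.1) (mem_zpowers k)
        rw [commutator_comm]
        exact (H2.le_relCentralizer_iff.mp (zpowers_le.mpr hk.2.2)).2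
      have htp : IsPGroup p (zpowers t) := S.isPGroup'.to_le (zpowers_le.mpr (hD.1 ht.1))
      obtain ⟨R, hR⟩ := (H4.isPGroup_subgroupOf htp K).exists_le_sylow
      set R₀ := (R : Subgroup K).map K.subtype with hR₀
      have hRp : IsPGroup p R₀ := R.isPGroup'.map _
      have hRK : R₀ ≤ K := map_subtype_le _
      have htR : t ∈ R₀ := ⟨⟨t, htK⟩, hR (mem_zpowers t), rfl⟩
      have hRi : ¬ p ∣ R₀.relIndex K := by
        rw [hR₀, relIndex, ← comap_subtype, comap_map_eq_self_of_injective K.subtype_injective]
        exact R.not_dvd_index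
      obtain ⟨k, hk, h3⟩ := H4.exists_conj_le_of_not_dvd_relIndex hRp hRi
        (H4.isPGroup_conj_smul hRp g) (H3.conj_smul_le_iff.mpr fun x hx => hgK x (hRK hx))
      obtain ⟨c, hc', r, hr, h4⟩ := H4.exists_pResidual_mul (H4.coprime_index_sylow R) ⟨k⁻¹, inv_mem hk⟩
      have h5 : (c : G) * r = k⁻¹ := congrArg Subtype.val h4
      have hcC : (c : G) ∈ centralizer (Q : Set G) := hres ⟨c, hc', rfl⟩
      have hrR : (r : G) ∈ R₀ := ⟨r, hr, rfl⟩
      have h6 : (c : G)⁻¹ * g ∈ normalizer (R₀ : Set G) := by
        apply H3.mem_normalizer_of_conj_mem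
        intro x hx
        have h7 := R₀.mul_mem (R₀.mul_mem hrR (h3 _ (H1.conj_mem_conj_smul hx))) (R₀.inv_mem hrR)
        have h8 : (c : G)⁻¹ = r * k := by
          rw [inv_eq_iff_mul_eq_one, ← mul_assoc, h5, inv_mul_cancel]
        rw [h8]
        simpa [mul_assoc] using h7
      have h7 : (c : G)⁻¹ * g ∈ normalizer (Q : Set G) :=
        mul_mem (inv_mem (centralizer_le_normalizer _ hcC)) hg
      have hQR : IsPGroup p (Q ⊔ R₀ : Subgroup G) := by
        rw [sup_comm]
        exact IsPGroup.to_sup_of_normal_right' hRp hQ (hRK.trans inf_le_left)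
      have hlt2 : Nat.card Q < Nat.card (Q ⊔ R₀ : Subgroup G) :=
        H1.card_lt_of_lt (lt_of_le_of_ne le_sup_left fun he => htQ (he.ge (mem_sup_right htR)))
      obtain ⟨j, hj⟩ := H4.exists_pow_coprime_orderOf (isOfFinOrder_of_finite ((c : G)⁻¹ * g)) p
      have h8 := ih _ hQR (by omega) _
        (pow_mem (normalizer_inf_normalizer_le_normalizer_sup _ _ (mem_inf.mpr ⟨h7, h6⟩)) _) hj
      have h9 : ((c : G)⁻¹ * g) ^ p ^ j ∈ centralizer (Q : Set G) :=
        centralizer_le (SetLike.coe_subset_coe.mpr le_sup_left) h8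
      have h10 : g ^ p ^ j ∈ centralizer (Q : Set G) := by
        let L := normalizer (Q : Set G)
        let C := (centralizer (Q : Set G)).subgroupOf L
        have e1 : ((⟨_, h7⟩ : L) : L ⧸ C) = (⟨g, hg⟩ : L) := by
          rw [eq_comm, QuotientGroup.eq, mem_subgroupOf]
          have := H2.inv_conj_mem_of_le_normalizer
            (H2.le_normalizer_centralizer (le_refl L)) hg (inv_mem hcC)
          simpa [mul_assoc] using this
        have e2 : (((⟨_, h7⟩ : L) ^ p ^ j : L) : L ⧸ C) = 1 :=
          (QuotientGroup.eq_one_iff _).mpr h9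
        rw [QuotientGroup.mk_pow, e1, ← QuotientGroup.mk_pow, QuotientGroup.eq_one_iff] at e2
        exact e2
      exact H4.mem_of_pow_mem_of_coprime h10 (hgo.pow_right j)
  exact H4.hasNormalPComplement_of_forall_normalizer fun X hX => key _ X hX (Nat.le_add_left _ _)

end Cfsg.Agent.S3839
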