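import Cfsg.Statements.S3858
import Mathlib
import Cfsg.Agent.Lib.FGS.Pronormal
import Cfsg.Agent.Lib.Core.HallSZ

set_option autoImplicit false
open Cfsg

namespace Cfsg.Agent.S3858

open Subgroup
open scoped Pointwise commutatorElement

theorem aux {G : Type*} [Group G] [Finite G] (T : Subgroup G) [T.Normal] (hT : IsSimpleGroup T)
    (hna : ¬ IsMulCommutative T) {r : ℕ} [Fact r.Prime] (R : Sylow r G)
    (hR0 : (R : Subgroup G) ⊓ T ≠ ⊥) :
    ∃ N : Subgroup G, N ≠ ⊤ ∧ normalizer ((R : Subgroup G) : Set G) ≤ N ∧ N ⊔ T = ⊤ := by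
  refine ⟨normalizer (((R : Subgroup G) ⊓ T : Subgroup G) : Set G), fun h => ?_, ?_, ?_⟩
  · have h1 : ((R : Subgroup G) ⊓ T).Normal := normalizer_eq_top_iff.mp h
    rcases hT.eq_bot_or_eq_top_of_normal (((R : Subgroup G) ⊓ T).subgroupOf T) inferInstance with
      h2 | h2
    · rw [subgroupOf_eq_bot] at h2
      exact hR0 (h2.eq_bot_of_le inf_le_right)
    · rw [subgroupOf_eq_top] at h2
      have h3 : IsPGroup r T := R.isPGroup'.to_le (h2.trans inf_le_left)
      have := h3.isNilpotent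
      exact hna ⟨⟨IsSimpleGroup.comm_iff_isSolvable.mpr inferInstance⟩⟩
  · exact le_trans (le_inf le_rfl (by rw [normalizer_eq_top T]; exact le_top))
      inf_normalizer_le_normalizer_inf
  · rw [eq_top_iff]
    intro g _
    have hTn : T.Normal := inferInstance
    obtain ⟨k, hk, h⟩ := H77.exists_conj_eq_of_not_dvd_relIndex (K := T)
      (R.isPGroup'.to_le (inf_le_left : (R : Subgroup G) ⊓ T ≤ R))
      (by rw [inf_relIndex_right]; exact H4.not_dvd_relIndex_sylow_of_normal R T) (a := g)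
      (fun x hx => by
        have := hTn.conj_mem _ (H1.mem_conj_smul_iff.mp hx).2 g
        simpa [mul_assoc] using this)
    rw [sup_comm]
    simpa using mul_mem_sup hk h

/-- Let G be a finite group with a normal non-abelian simple subgroup T whose centralizer is trivial (G almost simple with socle T), r a prime and R a Sylow r-subgroup of G meeting T nontrivially. Then R lies in exactly one maximal subgroup of G if and only if G has exactly one conjugacy class of maximal subgroups whose index is prime to r. -/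
theorem result {G : Type*} [Group G] [Finite G] (T : Subgroup G) [T.Normal] (hT : IsSimpleGroup T) (hna : ¬ IsMulCommutative T)
    (hC : Subgroup.centralizer (T : Set G) = ⊥) {r : ℕ} [Fact r.Prime] (R : Sylow r G) (hR0 : (R : Subgroup G) ⊓ T ≠ ⊥) :
    (∃! M : Subgroup G, IsCoatom M ∧ (R : Subgroup G) ≤ M) ↔
      ((∃ M : Subgroup G, IsCoatom M ∧ ¬ r ∣ M.index) ∧
        ∀ M₁ M₂ : Subgroup G, IsCoatom M₁ → ¬ r ∣ M₁.index → IsCoatom M₂ → ¬ r ∣ M₂.index → ∃ g : G, M₂ = M₁.map (MulAut.conj g).toMonoidHom) := by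
  obtain ⟨N, hN, h1, -⟩ := aux T hT hna R hR0
  have hco : ∀ (M : Subgroup G) (g : G), IsCoatom M → IsCoatom (MulAut.conj g • M) := by
    intro M g hM
    exact (OrderIso.isCoatom_iff (MulAut.conj g).mapSubgroup M).mpr hM
  have hconj : ∀ M : Subgroup G, ¬ r ∣ M.index → ∃ g : G, (R : Subgroup G) ≤ MulAut.conj g • M := by
    intro M hM
    obtain ⟨t, -, ht⟩ := H3.exists_conj_le_of_isPGroup_of_not_dvd_relIndex (T := ⊤) (K := M)
      R.isPGroup' le_top (by rwa [relIndex_top_right])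
    refine ⟨t⁻¹, ?_⟩
    have := H77.conj_smul_mono t⁻¹ ht
    rwa [H1.conj_inv_smul_conj_smul] at this
  have hidx : ∀ M : Subgroup G, (R : Subgroup G) ≤ M → ¬ r ∣ M.index := fun M hM hd =>
    R.not_dvd_index (hd.trans (index_dvd_of_le hM))
  constructor
  · rintro ⟨M, hM, hu⟩
    refine ⟨⟨M, hM.1, hidx M hM.2⟩, fun M₁ M₂ h₁ h₁' h₂ h₂' => ?_⟩
    obtain ⟨a, ha⟩ := hconj M₁ h₁'
    obtain ⟨b, hb⟩ := hconj M₂ h₂'
    have h3 := (hu _ ⟨hco _ a h₁, ha⟩).trans (hu _ ⟨hco _ b h₂, hb⟩).symm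
    refine ⟨b⁻¹ * a, ?_⟩
    rw [← H1.conj_smul_eq_map, ← H1.conj_smul_conj_smul, h3, H1.conj_inv_smul_conj_smul]
  · rintro ⟨-, hc⟩
    obtain ⟨M, hM, h2⟩ := (eq_top_or_exists_le_coatom _).resolve_left hN
    have hRM : (R : Subgroup G) ≤ M := le_normalizer.trans (h1.trans h2)
    refine ⟨M, ⟨hM, hRM⟩, fun M' hM' => ?_⟩
    obtain ⟨g, hg⟩ := hc M M' hM (hidx M hRM) hM'.1 (hidx M' hM'.2)
    rw [← H1.conj_smul_eq_map] at hg
    obtain ⟨k, hk, h3⟩ := H4.exists_mem_normalizer_sylow_of_le_normalizer R (g := g) hM'.2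
      (hg ▸ H77.conj_smul_mono g hRM)
    have h4 : MulAut.conj (k * g) • M = M :=
      H1.mem_normalizer_iff_conj_smul_eq.mp (le_normalizer (h2 (h1 h3)))
    rw [← H1.conj_smul_conj_smul, ← hg,
      H1.mem_normalizer_iff_conj_smul_eq.mp (le_normalizer hk)] at h4
    exact h4

end Cfsg.Agent.S3858
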