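import Cfsg.Statements.S3859
import Mathlib
import Cfsg.Agent.Lib.FGS.Pronormal

set_option autoImplicit false
open Cfsg

namespace Cfsg.Agent.S3859

open Subgroup
open scoped Pointwise commutatorElement

theorem aux {G : Type*} [Group G] [Finite G] (T : Subgroup G) [T.Normal] (hT : IsSimpleGroup T)
    (hna : ¬ IsMulCommutative T) {r : ℕ} [Fact r.Prime] (R : Sylow r G)
    (hR0 : (R : Subgroup G) ⊓ T ≠ ⊥) :
    ∃ N : Subgroup G, N ≠ ⊤ ∧ normalizer ((R : Subgroup G) : Set G) ≤ N ∧ N ⊔ T = ⊤ := by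
  refine ⟨normalizer (((R : Subgroup G) ⊓ T : Subgroup G) : Set G), fun h => ?_, ?_, ?_⟩
  · have h1 : ((R : Subgroup G) ⊓ T).Normal := normalizer_eq_top_iff.mp h
    rcases hT.eq_bot_or_eq_top_of_normal (((R : Subgroup G) ⊓ T).subgroupOf T) inferInstance with
      h2 | h2
    · rw [subgroupOf_eq_bot] at h2
      exact hR0 (h2.eq_bot_of_le inf_le_right)
    · rw [subgroupOf_eq_top] at h2
      have h3 : IsPGroup r T := R.isPGroup'.to_le (h2.trans inf_le_left)
      have := h3.isNilpotent
      exact hna ⟨⟨IsSimpleGroup.comm_iff_isSolvable.mpr inferInstance⟩⟩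
  · exact le_trans (le_inf le_rfl (by rw [normalizer_eq_top T]; exact le_top))
      inf_normalizer_le_normalizer_inf
  · rw [eq_top_iff]
    intro g _
    have hTn : T.Normal := inferInstance
    obtain ⟨k, hk, h⟩ := H77.exists_conj_eq_of_not_dvd_relIndex (K := T)
      (R.isPGroup'.to_le (inf_le_left : (R : Subgroup G) ⊓ T ≤ R))
      (by rw [inf_relIndex_right]; exact H4.not_dvd_relIndex_sylow_of_normal R T) (a := g)
      (fun x hx => by
        have := hTn.conj_mem _ (H1.mem_conj_smul_iff.mp hx).2 g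
        simpa [mul_assoc] using this)
    rw [sup_comm]
    simpa using mul_mem_sup hk h

/-- Let G be a finite group with a normal non-abelian simple subgroup T whose centralizer is trivial (G almost simple with socle T), r a prime and R a Sylow r-subgroup of G meeting T nontrivially. If R lies in exactly one maximal subgroup of G, then G/T is an r-group. -/
theorem result {G : Type*} [Group G] [Finite G] (T : Subgroup G) [T.Normal] (hT : IsSimpleGroup T) (hna : ¬ IsMulCommutative T)
    (hC : Subgroup.centralizer (T : Set G) = ⊥) {r : ℕ} [Fact r.Prime] (R : Sylow r G) (hR0 : (R : Subgroup G) ⊓ T ≠ ⊥)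
    (huniq : ∃! M : Subgroup G, IsCoatom M ∧ (R : Subgroup G) ≤ M) : IsPGroup r (G ⧸ T) := by
  obtain ⟨N, hN, h1, h2⟩ := aux T hT hna R hR0
  obtain ⟨M, -, hM⟩ := huniq
  have h3 : (R : Subgroup G) ⊔ T = ⊤ := by
    by_contra h
    obtain ⟨M₁, hM₁, h4⟩ := (eq_top_or_exists_le_coatom _).resolve_left h
    obtain ⟨M₂, hM₂, h5⟩ := (eq_top_or_exists_le_coatom _).resolve_left hN
    have h6 := (hM M₁ ⟨hM₁, le_sup_left.trans h4⟩).trans
      (hM M₂ ⟨hM₂, le_normalizer.trans (h1.trans h5)⟩).symm
    exact hM₂.1 (eq_top_iff.mpr (h2.ge.trans (sup_le h5 (h6 ▸ le_sup_right.trans h4))))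
  have h4 : (R : Subgroup G).map (QuotientGroup.mk' T) = ⊤ := by
    have := congrArg (Subgroup.map (QuotientGroup.mk' T)) h3
    rwa [Subgroup.map_sup, (Subgroup.map_eq_bot_iff T).mpr (by simp), sup_bot_eq,
      map_top_of_surjective _ (QuotientGroup.mk'_surjective T)] at this
  have h5 := R.isPGroup'.map (QuotientGroup.mk' T)
  rw [h4] at h5
  exact h5.of_equiv topEquiv

end Cfsg.Agent.S3859
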