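import Cfsg.Statements.S3862
import Mathlib
import Cfsg.Agent.Lib.FGS.RealElt
import Cfsg.Agent.Lib.BG47.MinAct
import Cfsg.Agent.Lib.Core.HallSZ

set_option autoImplicit false
open Cfsg

namespace Cfsg.Agent.S3862

open Subgroup
open scoped Pointwise commutatorElement

/-- If every 2-element of the finite group G that is conjugate to its inverse lies in the centre of G, then G has a normal 2-complement. -/
theorem result {G : Type*} [Group G] [Finite G] (h : ∀ x : G, (∃ j : ℕ, orderOf x = 2 ^ j) → IsConj x x⁻¹ → x ∈ Subgroup.center G) : Cfsg.HasNormalPComplement 2 G := by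
  apply H4.hasNormalPComplement_of_forall_normalizer
  intro X hX g hg hc
  by_contra hn
  have hnt : ⁅X, zpowers g⁆ ≠ ⊥ := by
    rw [Ne, commutator_comm, commutator_eq_bot_iff_le_centralizer, zpowers_le]
    exact hn
  obtain ⟨P, -, hP⟩ := H47.exists_minAct (B := zpowers g) hX (zpowers_le.mpr hg) le_rfl
    le_normalizer (by rwa [Nat.card_zpowers]) hnt
  have h2 : ∀ x ∈ P, ∃ j : ℕ, orderOf x = 2 ^ j := fun x hx => by
    obtain ⟨j, hj⟩ := (IsPGroup.iff_orderOf.mp hP.pgrp) ⟨x, hx⟩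
    exact ⟨j, by rw [← hj, orderOf_mk]⟩
  by_cases hab : ⁅P, P⁆ = ⊥
  · apply hP.nontriv
    rw [commutator_eq_bot_iff_le_centralizer]
    intro x hx
    have h3 := (hP.isElementaryAbelian hab).2 x hx
    refine center_le_centralizer _ (h x (h2 x hx) ?_)
    rw [show x⁻¹ = x from inv_eq_of_mul_eq_one_right (by rw [← sq, h3])]
  obtain ⟨x, hxP, hx⟩ := SetLike.exists_of_lt hP.commutator_lt
  have hZ : ∀ a ∈ P, ∀ b ∈ P, ∀ c ∈ P, Commute ⁅a, b⁆ c := fun a ha b hb c hc =>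
    (hP.commutator_le_center (commutator_mem_commutator ha hb) c hc).symm
  have hZg : ∀ a ∈ P, ∀ b ∈ P, ∀ c ∈ zpowers g, Commute ⁅a, b⁆ c := fun a ha b hb c hc =>
    (hP.commutator_le_centralizer (commutator_mem_commutator ha hb) c hc).symm
  have hmul : ∀ a ∈ P, ∀ b ∈ P, ∀ c ∈ P, ⁅a, b * c⁆ = ⁅a, b⁆ * ⁅a, c⁆ := by
    intro a ha b hb c hc
    have : ⁅a, b * c⁆ = ⁅a, b⁆ * (b * ⁅a, c⁆ * b⁻¹) := by
      simp only [commutatorElement_def]; group
    rw [this, ← (hZ a ha c hc b hb).eq, mul_inv_cancel_right]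
  have hmul' : ∀ a ∈ P, ∀ b ∈ P, ∀ c ∈ P, ⁅a * b, c⁆ = ⁅b, c⁆ * ⁅a, c⁆ := by
    intro a ha b hb c hc
    have : ⁅a * b, c⁆ = (a * ⁅b, c⁆ * a⁻¹) * ⁅a, c⁆ := by
      simp only [commutatorElement_def]; group
    rw [this, ← (hZ b hb c hc a ha).eq, mul_inv_cancel_right]
  let D : Subgroup G :=
    { carrier := {z | ∃ y ∈ P, z = ⁅x, y⁆}
      one_mem' := ⟨1, P.one_mem, by simp⟩
      mul_mem' := by
        rintro _ _ ⟨a, ha, rfl⟩ ⟨b, hb, rfl⟩
        exact ⟨a * b, P.mul_mem ha hb, (hmul x hxP a ha b hb).symm⟩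
      inv_mem' := by
        rintro _ ⟨a, ha, rfl⟩
        refine ⟨a⁻¹, P.inv_mem ha, inv_eq_of_mul_eq_one_right ?_⟩
        rw [← hmul x hxP a ha _ (P.inv_mem ha)]; simp }
  let K : Subgroup G :=
    { carrier := {w | w ∈ P ∧ ∀ y ∈ P, ⁅w, y⁆ ∈ D}
      one_mem' := ⟨P.one_mem, fun y _ => by simp⟩
      mul_mem' := by
        rintro a b ⟨ha, ha'⟩ ⟨hb, hb'⟩
        refine ⟨P.mul_mem ha hb, fun y hy => ?_⟩
        rw [hmul' a ha b hb y hy]
        exact D.mul_mem (hb' y hy) (ha' y hy)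
      inv_mem' := by
        rintro a ⟨ha, ha'⟩
        refine ⟨P.inv_mem ha, fun y hy => ?_⟩
        have : ⁅a⁻¹, y⁆ = ⁅a, y⁆⁻¹ := by
          apply eq_inv_of_mul_eq_one_left
          rw [← hmul' a ha _ (P.inv_mem ha) y hy]; simp
        rw [this]
        exact D.inv_mem (ha' y hy) }
  have hxK : x ∈ K := ⟨hxP, fun y hy => ⟨y, hy, rfl⟩⟩
  have hKP : K = P := by
    by_contra hne
    refine hx (hP.le_commutator (U := K) (lt_of_le_of_ne (fun w hw => hw.1) hne) ?_ hxK)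
    intro b hb
    apply H3.mem_normalizer_of_conj_mem
    intro w hw
    refine ⟨H2.conj_mem_of_le_normalizer hP.hBP hb hw.1, fun y hy => ?_⟩
    have hy' := H2.inv_conj_mem_of_le_normalizer hP.hBP hb hy
    have : ⁅b * w * b⁻¹, y⁆ = b * ⁅w, b⁻¹ * y * b⁆ * b⁻¹ := by
      simp only [commutatorElement_def]; group
    rw [this, ← (hZg w hw.1 _ hy' b hb).eq, mul_inv_cancel_right]
    exact hw.2 _ hy'
  have hD : ⁅P, P⁆ ≤ D := commutator_le.mpr fun a ha b hb => (hKP.ge ha).2 b hb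
  obtain ⟨y, -, hy⟩ := hD (hP.pow_mem hxP)
  have hreal : y * x * y⁻¹ = x⁻¹ := by
    have h3 : y * x⁻¹ * y⁻¹ = x := by
      have : x * x = x * (y * x⁻¹ * y⁻¹) := by
        rw [← sq, hy, commutatorElement_def]; group
      exact (mul_left_cancel this).symm
    have := congrArg Inv.inv h3
    rwa [conj_inv, inv_inv] at this
  have hxc := h x (h2 x hxP) (isConj_iff.mpr ⟨y, hreal⟩)
  exact hx (hP.center_eq hab ▸ ⟨hxP, center_le_centralizer _ hxc⟩)

end Cfsg.Agent.S3862
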