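import Cfsg.Statements.S3864
import Mathlib
import Cfsg.Agent.Base
import Cfsg.Agent.Lib.Tech58.DihFus

set_option autoImplicit false
open Cfsg

namespace Cfsg.Agent.S3864

open H58.Dih H23.GW H69 H73 H45

/-- Let G be a finite group whose Sylow 2-subgroups are dihedral of order 2 ^ n with n ≥ 3, and count the conjugacy classes of involutions of G. Then exactly one of the following holds: there is one class of involutions and no normal subgroup of index 2; there are two classes of involutions, a normal subgroup of index 2 and none of index 4; there are three classes of involutions and G has a normal 2-complement. -/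
theorem result {G : Type*} [Group G] [Finite G] (P : Sylow 2 G) (n : ℕ) (hn : 3 ≤ n) (hdih : Nonempty (↥(P : Subgroup G) ≃* DihedralGroup (2 ^ (n - 1)))) : (Nat.card {C : ConjClasses G // ∃ g : G, ConjClasses.mk g = C ∧ orderOf g = 2} = 1 ∧ ∀ N : Subgroup G, N.Normal → N.index ≠ 2) ∨ (Nat.card {C : ConjClasses G // ∃ g : G, ConjClasses.mk g = C ∧ orderOf g = 2} = 2 ∧ (∃ N : Subgroup G, N.Normal ∧ N.index = 2) ∧ ∀ N : Subgroup G, N.Normal → N.index ≠ 4) ∨ (Nat.card {C : ConjClasses G // ∃ g : G, ConjClasses.mk g = C ∧ orderOf g = 2} = 3 ∧ Cfsg.HasNormalPComplement 2 G) := by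
  obtain ⟨e⟩ := hdih
  obtain ⟨k, rfl⟩ : ∃ k, n = k + 3 := ⟨n - 3, by omega⟩
  obtain ⟨σ, τ, h⟩ : ∃ σ τ : G, DihData (P : Subgroup G) (2 ^ (k + 2)) σ τ :=
    H73.exists_dihData (by positivity) e
  simp only [and_comm (a := ConjClasses.mk _ = _)]
  have key : ∀ {τ : G}, DihData (P : Subgroup G) (2 ^ (k + 2)) σ τ → IsConj τ (σ ^ 2 ^ (k + 1)) →
      ∀ {τ' : G}, orderOf τ' = 2 → ¬ IsConj τ' (σ ^ 2 ^ (k + 1)) →
      (∀ t, orderOf t = 2 → IsConj t (σ ^ 2 ^ (k + 1)) ∨ IsConj t τ') →
      (Nat.card {C : ConjClasses G // ∃ g : G, orderOf g = 2 ∧ ConjClasses.mk g = C} = 2 ∧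
        (∃ N : Subgroup G, N.Normal ∧ N.index = 2) ∧ ∀ N : Subgroup G, N.Normal → N.index ≠ 4) :=
    fun h h1 τ' ho h2 h3 => ⟨H41.card_classes_two (H33.Dih.orderOf_J h) ho (fun e => h2 e.symm) h3,
      exists_index_two h ho h2, fun N _ => index_ne_four h h1 N⟩
  have h' := H33.Dih.shift h
  by_cases h1 : IsConj τ (σ ^ 2 ^ (k + 1)) <;> by_cases h2 : IsConj (σ * τ) (σ ^ 2 ^ (k + 1))
  · have key2 : ∀ a : G, orderOf a = 2 → IsConj a (σ ^ 2 ^ (k + 1)) := fun a ha => by
      rcases invol_cases h ha with e | e | e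
      · exact e
      · exact e.trans h1
      · exact e.trans h2
    exact Or.inl ⟨H41.card_classes_one (H33.Dih.orderOf_J h) key2,
      fun N _ => index_ne_two h (fun a b ha hb => (key2 a ha).trans (key2 b hb).symm) N⟩
  · refine Or.inr (Or.inl (key h h1 h'.orderOf_b h2 fun t ht => ?_))
    rcases invol_cases h ht with e | e | e
    · exact Or.inl e
    · exact Or.inl (e.trans h1)
    · exact Or.inr e
  · refine Or.inr (Or.inl (key h' h2 h.orderOf_b h1 fun t ht => ?_))
    rcases invol_cases h ht with e | e | e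
    · exact Or.inl e
    · exact Or.inr e
    · exact Or.inl (e.trans h2)
  · exact Or.inr (Or.inr ⟨H41.card_classes_three (H33.Dih.orderOf_J h) h.orderOf_b h'.orderOf_b
      (fun e => h1 e.symm) (fun e => h2 e.symm) (not_isConj h h1) (fun t ht => invol_cases h ht),
      npc_of_not_conj h h1 h2⟩)

end Cfsg.Agent.S3864
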