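import Mathlib
import Cfsg.Statements.S3867
import Cfsg.Agent.Lib.FGS83.SylCount
import Cfsg.Agent.Lib.Core.GrpBasic

set_option autoImplicit false
open Cfsg

namespace Cfsg.Agent.S3867


/-- Let M and N be nontrivial normal subgroups of the finite group G with M ⊓ N trivial, and let p be a prime. Writing n(X) for the number of Sylow p-subgroups of a group X, one has n(G) · n(G/MN) = n(G/M) · n(G/N). -/
theorem result {G : Type*} [Group G] [Finite G] (p : ℕ) [Fact p.Prime] (M N : Subgroup G) [M.Normal] [N.Normal] (hM : M ≠ ⊥) (hN : N ≠ ⊥) (hMN : M ⊓ N = ⊥) : Nat.card (Sylow p G) * Nat.card (Sylow p (G ⧸ (M ⊔ N))) = Nat.card (Sylow p (G ⧸ M)) * Nat.card (Sylow p (G ⧸ N)) := by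
  obtain ⟨P⟩ : Nonempty (Sylow p G) := inferInstance
  have hcomm : ∀ m ∈ M, ∀ n ∈ N, m * n = n * m := fun m hm n hn =>
    (Subgroup.commute_of_normal_of_disjoint M N inferInstance inferInstance
      (disjoint_iff.mpr hMN) m n hm hn).eq
  -- `PM ∩ PN = P`
  have hint : ((P : Subgroup G) ⊔ M) ⊓ ((P : Subgroup G) ⊔ N) = P := by
    apply P.is_maximal' _ (le_inf le_sup_left le_sup_left)
    rintro ⟨x, hx⟩
    obtain ⟨h1, h2⟩ := Subgroup.mem_inf.mp hx
    have key : ∀ (K : Subgroup G) [K.Normal], x ∈ (P : Subgroup G) ⊔ K → ∃ k, x ^ p ^ k ∈ K := by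
      intro K _ h
      have h3 : QuotientGroup.mk' K x ∈ (P : Subgroup G).map (QuotientGroup.mk' K) := by
        rw [← SetLike.mem_coe, Subgroup.mul_normal] at h
        obtain ⟨u, hu, k, hk, rfl⟩ := h
        refine ⟨u, hu, ?_⟩
        have : (QuotientGroup.mk' K k) = 1 := (QuotientGroup.eq_one_iff k).mpr hk
        simp only [map_mul, this, mul_one]
      obtain ⟨k, hk⟩ := (P.isPGroup'.map (QuotientGroup.mk' K)) ⟨_, h3⟩
      refine ⟨k, ?_⟩
      rw [← QuotientGroup.eq_one_iff]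
      exact congrArg Subtype.val hk
    obtain ⟨a, ha⟩ := key M h1
    obtain ⟨b, hb⟩ := key N h2
    refine ⟨a + b, Subtype.ext ?_⟩
    have h4 : x ^ p ^ (a + b) ∈ M ⊓ N := by
      constructor
      · rw [pow_add, pow_mul]; exact M.pow_mem ha _
      · rw [pow_add, pow_mul']; exact N.pow_mem hb _
    rw [hMN] at h4
    simpa using h4
  set L := Subgroup.normalizer (P : Set G) with hL
  have hsplit : L ⊓ (M ⊔ N) = (L ⊓ M) ⊔ (L ⊓ N) := by
    apply le_antisymm
    · intro g hg
      obtain ⟨hgL, hg⟩ := Subgroup.mem_inf.mp hg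
      rw [← SetLike.mem_coe, Subgroup.mul_normal] at hg
      obtain ⟨m, hm, n, hn, rfl⟩ := hg
      have hmL : m ∈ L := by
        rw [hL, ← Sylow.smul_eq_iff_mem_normalizer]
        apply Sylow.ext
        symm
        apply (m • P).is_maximal' P.isPGroup'
        intro x hx
        have hx' : m⁻¹ * x * m ∈ P := H83.mem_sylow_smul_iff.mp hx
        rw [← hint]
        constructor
        · have : x = (m⁻¹ * x * m) * (((m⁻¹ * x * m)⁻¹ * m * (m⁻¹ * x * m)⁻¹⁻¹) * m⁻¹) := by group
          rw [this]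
          exact Subgroup.mul_mem_sup hx' (M.mul_mem (‹M.Normal›.conj_mem _ hm _) (M.inv_mem hm))
        · have h5 : (m * n) * (m⁻¹ * x * m) * (m * n)⁻¹ ∈ P :=
            (Subgroup.mem_set_normalizer_iff.mp hgL _).1 hx'
          have h6 : (m * n) * (m⁻¹ * x * m) * (m * n)⁻¹ = n * x * n⁻¹ := by
            rw [hcomm m hm n hn]; group
          rw [h6] at h5
          have : x = (n * x * n⁻¹) * (((n * x * n⁻¹)⁻¹ * n⁻¹ * (n * x * n⁻¹)⁻¹⁻¹) * n) := by group
          rw [this]
          exact Subgroup.mul_mem_sup h5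
            (N.mul_mem (‹N.Normal›.conj_mem _ (N.inv_mem hn) _) hn)
      refine Subgroup.mul_mem_sup ⟨hmL, hm⟩ ⟨?_, hn⟩
      have : n = m⁻¹ * (m * n) := by group
      rw [this]
      exact L.mul_mem (L.inv_mem hmL) hgL
    · exact sup_le (inf_le_inf_left _ le_sup_left) (inf_le_inf_left _ le_sup_right)
  have hidx : L.relIndex (M ⊔ N) = L.relIndex M * L.relIndex N := by
    have e1 := H1.card_inf_mul_relIndex L (M ⊔ N)
    have e2 := H1.card_inf_mul_relIndex L M
    have e3 := H1.card_inf_mul_relIndex L N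
    have e4 := H1.card_sup_mul_card_inf_of_normal M N
    have e5 := H1.card_sup_mul_card_inf_of_le_normalizer (H := L ⊓ M) (N := L ⊓ N) (by
      intro g hg
      apply Subgroup.centralizer_le_normalizer
      intro u hu
      exact (hcomm g hg.2 u hu.2).symm)
    have e6 : (L ⊓ M) ⊓ (L ⊓ N) = ⊥ := le_bot_iff.mp (hMN ▸ inf_le_inf inf_le_right inf_le_right)
    rw [hMN, Subgroup.card_bot, mul_one] at e4
    rw [e6, Subgroup.card_bot, mul_one, ← hsplit] at e5
    rw [e4, ← e2, ← e3, e5] at e1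
    have hpos : 0 < Nat.card (L ⊓ M : Subgroup G) * Nat.card (L ⊓ N : Subgroup G) :=
      Nat.mul_pos Nat.card_pos Nat.card_pos
    apply Nat.eq_of_mul_eq_mul_left hpos
    rw [e1]; ring
  have a1 := H83.card_sylow_eq_quotient_mul M P
  have a2 := H83.card_sylow_eq_quotient_mul N P
  have a3 := H83.card_sylow_eq_quotient_mul (M ⊔ N) P
  rw [← hL] at a1 a2 a3
  rw [hidx] at a3
  have hpos : 0 < L.relIndex M * L.relIndex N :=
    Nat.mul_pos (Nat.pos_of_ne_zero Subgroup.FiniteIndex.index_ne_zero)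
      (Nat.pos_of_ne_zero Subgroup.FiniteIndex.index_ne_zero)
  apply Nat.eq_of_mul_eq_mul_right hpos
  calc _ = Nat.card (Sylow p G) * Nat.card (Sylow p G) := by rw [mul_assoc, ← a3]
    _ = _ := by nth_rewrite 1 [a1]; rw [a2]; ring

end Cfsg.Agent.S3867
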