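import Mathlib
import Cfsg.Statements.S3878
import Cfsg.Agent.Lib.SN.Hall2

set_option autoImplicit false
open Cfsg

namespace Cfsg.Agent.S3878

/-- For a set of primes π the following are equivalent: every finite group has a Hall π-subgroup; in every finite group the maximal π-subgroups are pairwise conjugate; π contains at most one prime or contains every prime. -/
theorem result (π : Set ℕ) :
    ((∀ (G : Type) [Group G] [Finite G], Cfsg.IsEPiGroup π G) ↔
      ((∀ p q : ℕ, p.Prime → q.Prime → p ∈ π → q ∈ π → p = q) ∨ ∀ p : ℕ, p.Prime → p ∈ π)) ∧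
    ((∀ (G : Type) [Group G] [Finite G], Cfsg.IsDPiGroup π G) ↔
      ((∀ p q : ℕ, p.Prime → q.Prime → p ∈ π → q ∈ π → p = q) ∨ ∀ p : ℕ, p.Prime → p ∈ π)) := by
  have h1 : ((∀ p q : ℕ, p.Prime → q.Prime → p ∈ π → q ∈ π → p = q) ∨ ∀ p : ℕ, p.Prime → p ∈ π) →
      ∀ (G : Type) [Group G] [Finite G], Cfsg.IsDPiGroup π G := by
    rintro (h | h) G _ _
    · exact H5.SN.isD_of_one fun r s hr hs h1 h2 _ _ => h r s hr hs h1 h2
    · exact H5.SN.isD_of_all fun r hr _ => h r hr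
  have h2 : (∀ (G : Type) [Group G] [Finite G], Cfsg.IsEPiGroup π G) →
      ((∀ p q : ℕ, p.Prime → q.Prime → p ∈ π → q ∈ π → p = q) ∨ ∀ p : ℕ, p.Prime → p ∈ π) := by
    intro h
    by_contra hn
    push Not at hn
    obtain ⟨⟨r, s, hr, hs, h1, h2, h3⟩, t, ht, h4⟩ := hn
    obtain ⟨M, hM⟩ := h (Equiv.Perm (Fin (2 * (r + s + t + 5))))
    obtain ⟨D, -, -, h5⟩ := H5.SN.outcome_of_hallOf le_top (H3.isPiHallOf_top_iff.mpr hM)
      ⟨r, s, hr, hs, h3, h1, h2, by simp; omega, by simp; omega⟩ ⟨t, ht, by simp; omega, h4⟩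
    rw [Fintype.card_fin] at h5
    rcases h5 with h5 | h5
    · exact Nat.not_prime_mul (by norm_num) (by omega) h5.1
    · omega
  exact ⟨⟨h2, fun h G _ _ => (H5.SN.isC_of_isD (h1 h G)).1⟩,
    ⟨fun h => h2 fun G _ _ => (H5.SN.isC_of_isD (h G)).1, h1⟩⟩

end Cfsg.Agent.S3878
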