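import Cfsg.Statements.S3881
import Mathlib
import Cfsg.Agent.Lib.FGS.Metacyclic

set_option autoImplicit false
open Cfsg

namespace Cfsg.Agent.S3881

/-- Let p be an odd prime and G a finite metacyclic p-group (G has a cyclic normal subgroup with cyclic quotient). Suppose G is non-abelian with |G'| = p^n. Then for 1 ≤ i ≤ n the number of elements of G whose conjugacy class has exactly p^i elements is |Z(G)| · (p^(2i) − p^(2i−2)). -/
theorem result {G : Type*} [Group G] [Finite G] {p : ℕ} [Fact p.Prime] (hp : p ≠ 2) (hG : IsPGroup p G) (hmc : Cfsg.IsMetacyclic G) (n : ℕ) (hn : n ≠ 0) (hGn : Nat.card ↥(commutator G) = p ^ n) (i : ℕ) (hi : 1 ≤ i) (hin : i ≤ n) :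
    Nat.card {g : G // (Subgroup.centralizer ({g} : Set G)).index = p ^ i} =
      Nat.card ↥(Subgroup.center G) * (p ^ (2 * i) - p ^ (2 * i - 2)) := by
  classical
  obtain ⟨a, b, h⟩ := H77.exists_mcGen hmc
  have hp1 := (Fact.out : p.Prime).one_lt
  obtain ⟨W₁, h1, h2, -⟩ := h.exists_layer hp hG hGn (s := n - i) (Nat.sub_le _ _)
  obtain ⟨W₂, h3, h4, -⟩ := h.exists_layer hp hG hGn (s := n - (i - 1)) (Nat.sub_le _ _)
  rw [show n - (n - i) = i by omega] at h2
  rw [show n - (n - (i - 1)) = i - 1 by omega] at h4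
  have hZ := H77.mc_index_center hp hG hmc
  rw [hGn] at hZ
  have h5 := (Subgroup.center G).card_mul_index
  have h6 := W₁.card_mul_index
  have h7 := W₂.card_mul_index
  rw [hZ] at h5
  rw [h1, ← h5] at h6
  rw [h3, ← h5] at h7
  have h8 : Nat.card W₁ = Nat.card (Subgroup.center G) * p ^ (2 * i) := by
    apply Nat.eq_of_mul_eq_mul_right (pow_pos (by omega : 0 < p) (2 * (n - i)))
    rw [h6, mul_assoc, ← pow_add, ← pow_mul]
    congr 2; omega
  have h9 : Nat.card W₂ = Nat.card (Subgroup.center G) * p ^ (2 * i - 2) := by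
    apply Nat.eq_of_mul_eq_mul_right (pow_pos (by omega : 0 < p) (2 * (n - (i - 1))))
    rw [h7, mul_assoc, ← pow_add, ← pow_mul]
    congr 2; omega
  have h10 : (W₂ : Set G) ⊆ W₁ := by
    intro g hg
    rw [SetLike.mem_coe, h4] at hg
    rw [SetLike.mem_coe, h2]
    exact hg.trans (Nat.pow_le_pow_right (by omega) (by omega))
  have h11 : {g : G | (Subgroup.centralizer ({g} : Set G)).index = p ^ i} = (W₁ : Set G) \ W₂ := by
    ext g
    obtain ⟨k, hk⟩ := IsPGroup.iff_card.mp hG
    obtain ⟨j, -, hj⟩ := (Nat.dvd_prime_pow Fact.out).mp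
      (hk ▸ Subgroup.index_dvd_card (Subgroup.centralizer ({g} : Set G)))
    rw [Set.mem_diff, SetLike.mem_coe, SetLike.mem_coe, h2, h4, Set.mem_ofPred_eq, hj,
      Nat.pow_le_pow_iff_right hp1, Nat.pow_le_pow_iff_right hp1, Nat.pow_right_inj hp1]
    omega
  change Nat.card ({g : G | (Subgroup.centralizer ({g} : Set G)).index = p ^ i} : Set G) = _
  rw [h11, Nat.card_coe_set_eq, Set.ncard_diff h10, ← Nat.card_coe_set_eq, ← Nat.card_coe_set_eq,
    Nat.mul_sub]
  exact congrArg₂ (· - ·) h8 h9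

end Cfsg.Agent.S3881
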