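import Cfsg.Statements.S3883
import Mathlib
import Cfsg.Agent.Lib.FGS.Metacyclic

set_option autoImplicit false
open Cfsg

namespace Cfsg.Agent.S3883

theorem H48sq {G : Type*} [Group G] {p : ℕ} [Fact p.Prime] (A : Subgroup G) [A.Normal]
    (h : A.index = p ^ (2 * 1)) : commutator G ≤ A :=
  Subgroup.Normal.quotient_commutative_iff_commutator_le.mp
    (IsPGroup.isMulCommutative_of_card_eq_prime_sq (p := p) h)

/-- Let p be an odd prime and G a finite metacyclic p-group (G has a cyclic normal subgroup with cyclic quotient). Suppose G is non-abelian. Then an element g of G lies outside the Frattini subgroup if and only if its centralizer C_G(g) is abelian. -/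
theorem result {G : Type*} [Group G] [Finite G] {p : ℕ} [Fact p.Prime] (hp : p ≠ 2) (hG : IsPGroup p G) (hmc : Cfsg.IsMetacyclic G) (hna : ¬ IsMulCommutative G) (g : G) :
    g ∉ frattini G ↔ IsMulCommutative ↥(Subgroup.centralizer ({g} : Set G)) := by
  obtain ⟨a, b, h⟩ := H77.exists_mcGen hmc
  have hp1 := (Fact.out : p.Prime).one_lt
  obtain ⟨k, hk⟩ := IsPGroup.iff_card.mp hG
  obtain ⟨n, -, hn⟩ := (Nat.dvd_prime_pow Fact.out).mp
    (hk ▸ Subgroup.card_subgroup_dvd_card (commutator G))
  have hn0 : n ≠ 0 := by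
    rintro rfl
    rw [pow_zero, Subgroup.card_eq_one] at hn
    exact hna ((commutator_eq_bot_iff G).mp hn)
  obtain ⟨W, h1, h2, h3⟩ := h.exists_layer hp hG hn (s := 1) (by omega)
  have h4 : frattini G = W := by
    apply le_antisymm
    · rw [H5.frattini_le_iff hG]
      have : W.Normal := by
        rw [h3]
        refine ⟨fun x hx g => ?_⟩
        have := (MonoidHom.map_closure (MulAut.conj g).toMonoidHom _).le
          (Subgroup.mem_map_of_mem _ hx)
        refine Subgroup.closure_mono ?_ this
        rintro _ ⟨_, ⟨y, rfl⟩, rfl⟩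
        exact ⟨g * y * g⁻¹, by simp⟩
      refine ⟨H48sq W (by rw [h1]), fun x => ?_⟩
      rw [h3]; exact Subgroup.subset_closure ⟨x, by rw [pow_one]⟩
    · rw [h3, Subgroup.closure_le]
      rintro _ ⟨y, rfl⟩
      rw [pow_one]; exact H5.pow_mem_frattini hG y
  obtain ⟨j, -, hj⟩ := (Nat.dvd_prime_pow Fact.out).mp
    (hk ▸ Subgroup.index_dvd_card (Subgroup.centralizer ({g} : Set G)))
  rw [h4, h2, H77.mc_isMulCommutative_iff_dvd hp hG hmc, hn, hj, Nat.pow_le_pow_iff_right hp1,
    Nat.pow_dvd_pow_iff_le_right hp1]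
  omega

end Cfsg.Agent.S3883
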