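import Cfsg.Statements.S3886
import Mathlib
import Cfsg.Agent.Lib.FGS.Metacyclic

set_option autoImplicit false
open Cfsg

namespace Cfsg.Agent.S3886

/-- Let p be an odd prime and G a finite metacyclic p-group (G has a cyclic normal subgroup with cyclic quotient). Then the largest value of |R| · |Z(R)| over subgroups R of G is |G : G'|², and the subgroups attaining it (the centrally large subgroups) are exactly the non-abelian subgroups together with the maximal abelian subgroups of G. -/
theorem result {G : Type*} [Group G] [Finite G] {p : ℕ} [Fact p.Prime] (hp : p ≠ 2) (hG : IsPGroup p G) (hmc : Cfsg.IsMetacyclic G) : Cfsg.maxCentralProduct G = (commutator G).index ^ 2 ∧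
    ∀ R : Subgroup G, Cfsg.IsCentrallyLarge R ↔ (¬ IsMulCommutative ↥R ∨ Maximal (fun K : Subgroup G => IsMulCommutative ↥K) R) := by
  have h1 : Cfsg.maxCentralProduct G = (commutator G).index ^ 2 := by
    apply IsGreatest.csSup_eq
    constructor
    · refine ⟨⊤, ?_⟩
      rw [← H77.mc_card_mul_card_center hp hG hmc, Subgroup.card_top]
      congr 1
      exact Nat.card_congr (Subgroup.centerCongr Subgroup.topEquiv).toEquiv
    · rintro _ ⟨R, rfl⟩
      exact H77.mc_card_mul_center_le hp hG hmc R
  refine ⟨h1, fun R => ?_⟩
  rw [Cfsg.IsCentrallyLarge, h1]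
  by_cases hR : IsMulCommutative R
  · rw [H77.card_center_of_comm R hR, ← sq, H77.mc_maximal_iff hp hG hmc,
      Nat.pow_left_inj two_ne_zero]
    simp [hR]
  · simp [hR, H77.mc_card_mul_center_of_not hp hG hmc R hR]

end Cfsg.Agent.S3886
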