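import Cfsg.Statements.S3888
import Mathlib
import Cfsg.Agent.Base
import Cfsg.Agent.Lib.MaxCl.Rank2

set_option autoImplicit false
open Cfsg

namespace Cfsg.Agent.S3888

/-- The classification of the p-groups of rank at most two for odd p. Let p be an odd prime and G a group of order p^n with no elementary abelian subgroup of order p³. Then one of the following holds: G is metacyclic; n ≥ 3 and G is generated by elements x, y, z with x^p = y^p = z^(p^(n−2)) = 1, z commuting with x and y, and x⁻¹yx = y z^(p^(n−3)); n ≥ 4 and G is generated by elements x, y, z with x^p = y^p = z^(p^(n−2)) = 1, yz = zy, x⁻¹yx = y z^(s p^(n−3)) and x⁻¹zx = yz, where s = 1 or s is a quadratic non-residue modulo p; or p = 3 and G has maximal class (nilpotency class n − 1). -/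
theorem result {G : Type*} [Group G] [Finite G] {p : ℕ} [Fact p.Prime] (hp : p ≠ 2) (n : ℕ) (hG : Nat.card G = p ^ n)
    (hrk : Cfsg.PRankLE p 2 G) :
    Cfsg.IsMetacyclic G ∨
    (3 ≤ n ∧ ∃ x y z : G, Subgroup.closure ({x, y, z} : Set G) = ⊤ ∧ x ^ p = 1 ∧ y ^ p = 1 ∧ z ^ p ^ (n - 2) = 1 ∧
        x * z = z * x ∧ y * z = z * y ∧ x⁻¹ * y * x = y * z ^ p ^ (n - 3)) ∨
    (4 ≤ n ∧ ∃ (s : ℕ) (x y z : G), (s = 1 ∨ ¬ IsSquare (s : ZMod p)) ∧ Subgroup.closure ({x, y, z} : Set G) = ⊤ ∧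
        x ^ p = 1 ∧ y ^ p = 1 ∧ z ^ p ^ (n - 2) = 1 ∧ y * z = z * y ∧ x⁻¹ * y * x = y * z ^ (s * p ^ (n - 3)) ∧
        x⁻¹ * z * x = y * z) ∨
    (p = 3 ∧ 2 ≤ n ∧ (⊤ : Subgroup G).lowerCentralSeries (n - 2) ≠ ⊥) := by
  have hp' : p.Prime := Fact.out
  have hP := IsPGroup.of_card hG
  have hr : ∀ A : Subgroup G, IsElementaryAbelian p A → Nat.card A ≤ p ^ 2 := fun A h => hrk A h.1 h.2
  by_cases h : ∃ E : Subgroup G, E.Normal ∧ Nat.card E = p ^ 3 ∧ ∀ x ∈ E, x ^ p = 1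
  swap
  · obtain rfl | h3 := (show 3 ≤ p from hp'.two_le.lt_of_ne' hp).eq_or_lt
    · obtain h1 | ⟨m, h1⟩ := H93.ar_or_mc _ G rfl hP fun E h1 h2 h3 => h ⟨E, h1, h2, h3⟩
      · haveI := H81.powerClosure_normal (p := 3) (n := 1) (⊤ : Subgroup G)
        exact Or.inl (H93.isMetacyclic_of_index_le hp hP (H93.card_le_of_lt_pow (hP.to_quotient _) h1))
      · obtain rfl : m = n := Nat.pow_right_injective hp'.two_le (h1.card.symm.trans hG)
        exact Or.inr (Or.inr (Or.inr ⟨rfl, by have := h1.three; omega, h1.ne⟩))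
    refine Or.inl (H48.isMetacyclic_of_card_omegaOne_le h3 hP (H93.card_le_of_lt_pow (hP.to_subgroup _)
      (not_le.1 fun h1 => ?_)))
    rw [← H48.closure_pow_eq_omegaOne_top] at h1
    haveI := H5.characteristic_closure_pow_eq_one (G := G) p
    obtain ⟨E, h2, h4, h5⟩ := H5.exists_normal_le_card_eq hP _ 3 h1
    exact h ⟨E, h2, h5, fun x hx => H5.omega_pow_eq_one_of_rank_two h3 hP hr (h4 hx)⟩
  obtain ⟨E, _, h1, h2⟩ := h
  obtain ⟨x, y, z, m, s, h3, h4, hx, hy, hz, h5, h6, h7, h8, h9⟩ :=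
    H93.exists_gens_of_normal hp hP hr h1 h2
  obtain rfl : m + 3 = n := Nat.pow_right_injective hp'.two_le (h3.symm.trans hG)
  simp only [Nat.add_sub_cancel, show m + 3 - 2 = m + 1 from rfl, mul_comm _ (p ^ m), pow_mul]
  generalize hc : z ^ p ^ m = c at *
  have hzc : z * c = c * z := Subgroup.mem_center_iff.1 h6 z
  have hcp : c ^ p = 1 := by rw [← hc, ← pow_mul, ← pow_succ, hz]
  have hco : ∀ g i, Commute g (c ^ i) := fun g i => Subgroup.mem_center_iff.1 (pow_mem h6 i) g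
  have hmod : ∀ {g : G} {i : ℕ}, g ^ p = 1 → (i : ZMod p) = 1 → g ^ i = g := fun {g i} h e => by
    rw [← pow_eq_pow_of_modEq ((ZMod.natCast_eq_natCast_iff 1 i p).1 (by simp [e])) h, pow_one]
  have hs : (s : ZMod p) ≠ 0 := (ZMod.natCast_eq_zero_iff s p).not.2 h7
  have h10 : ∀ k, x⁻¹ * y ^ k * x = y ^ k * c ^ (s * k) := fun k => by
    rw [pow_mul, ← (hco y s).mul_pow, ← h8]
    simpa using (conj_pow (a := x⁻¹) (b := y) (i := k)).symm
  have hgen : ∀ x' y' : G, x ∈ Subgroup.zpowers x' → y ∈ Subgroup.closure {x', y', z} ∨ x⁻¹ * z * x = y * z →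
      Subgroup.closure {x', y', z} = ⊤ := fun x' y' h h' => by
    have e1 : x ∈ Subgroup.closure {x', y', z} := Subgroup.zpowers_le.2 (Subgroup.subset_closure (by simp)) h
    have e2 : z ∈ Subgroup.closure {x', y', z} := Subgroup.subset_closure (by simp)
    refine eq_top_iff.2 (h4.ge.trans ((Subgroup.closure_le _).2 ?_))
    rintro _ (rfl | rfl | rfl)
    exacts [e1, h'.elim id fun h' => by
      simpa [h'] using mul_mem (mul_mem (mul_mem (inv_mem e1) e2) e1) (inv_mem e2), e2]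
  rcases h9 with h9 | ⟨hm, h9⟩
  · refine Or.inr (Or.inl ⟨by omega, x, y ^ (s : ZMod p)⁻¹.val, z, hgen _ _ (Subgroup.mem_zpowers x) (Or.inl ?_),
      hx, by rw [← pow_mul, mul_comm, pow_mul, hy, one_pow], hz, ?_, (Commute.pow_left h5 _).eq, ?_⟩)
    · have := pow_mem (Subgroup.subset_closure (k := {x, y ^ (s : ZMod p)⁻¹.val, z})
        (Or.inr (Or.inl rfl))) s
      rwa [← pow_mul, hmod (i := _ * s) hy (by simp [hs])] at this
    · rw [← mul_right_inj x⁻¹, ← mul_assoc x⁻¹ z, h9, inv_mul_cancel_left]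
    · rw [h10, hc, hmod hcp (by simp [hs])]
  refine Or.inr (Or.inr (Or.inl ⟨by omega, ?_⟩))
  by_cases h11 : IsSquare (s : ZMod p)
  swap
  · exact ⟨s, x, y, z, Or.inr h11, h4, hx, hy, hz, h5, by rw [h8, hc], h9⟩
  obtain ⟨r, hr⟩ := h11
  have hr0 : r ≠ 0 := by rintro rfl; simp [hr] at hs
  have h12 : ∀ k j, (x ^ j)⁻¹ * y ^ k * x ^ j = y ^ k * c ^ (s * k * j) := fun k j => by
    induction j with
    | zero => simp
    | succ j ih =>
      rw [pow_succ, mul_inv_rev, mul_assoc x⁻¹, mul_assoc x⁻¹, ← mul_assoc _ _ x, ih, mul_assoc, ← (hco x _).eq,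
        ← mul_assoc, ← mul_assoc, h10, mul_assoc, ← pow_add]
      congr 2; ring
  have h13 : ∀ j, ∃ i, (x ^ j)⁻¹ * z * x ^ j = y ^ j * c ^ i * z := fun j => by
    induction j with
    | zero => exact ⟨0, by simp⟩
    | succ j ih =>
      obtain ⟨i, ih⟩ := ih
      refine ⟨s * j + i, ?_⟩
      rw [pow_succ, mul_inv_rev, mul_assoc x⁻¹, mul_assoc x⁻¹, ← mul_assoc _ _ x, ih,
        show x⁻¹ * (y ^ j * c ^ i * z * x) = x⁻¹ * y ^ j * x * (x⁻¹ * c ^ i * x) * (x⁻¹ * z * x) by group,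
        h10, h9, mul_assoc x⁻¹, ← (hco x i).eq, inv_mul_cancel_left, pow_add c, pow_succ y]
      simp only [mul_assoc, ← pow_add]
      rw [← mul_assoc (c ^ _), ← (hco y _).eq, mul_assoc]
  obtain ⟨i, hi⟩ := h13 r⁻¹.val
  refine ⟨1, x ^ r⁻¹.val, y ^ r⁻¹.val * c ^ i, z, Or.inl rfl, hgen _ _ ⟨r.val, ?_⟩ (Or.inr h9),
    by rw [← pow_mul, mul_comm, pow_mul, hx, one_pow], ?_, hz,
    ((Commute.pow_left h5 _).mul_left (hco z i).symm).eq, ?_, hi⟩
  · simp only [zpow_natCast, ← pow_mul]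
    exact hmod hx (by simp [hr0])
  · rw [(hco _ i).mul_pow, ← pow_mul, ← pow_mul, mul_comm _ p, mul_comm i, pow_mul, pow_mul, hy, hcp]
    simp
  · rw [← mul_assoc, mul_assoc _ (c ^ i), ← (hco _ i).eq, ← mul_assoc, h12, hc, pow_one,
      hmod hcp (by simp [hr, hr0]), mul_assoc, mul_assoc, (hco c i).eq]

end Cfsg.Agent.S3888
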