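import Cfsg.Statements.S3897
import Mathlib
import Cfsg.Agent.Lib.FGS.KPiFusion

set_option autoImplicit false
open Cfsg

namespace Cfsg.Agent.S3897

/-- Let p be an odd prime and G a finite group with Sylow p-subgroup P, and write k_p(G) for the number of conjugacy classes of G consisting of p-elements (elements of p-power order, the identity included). Then k_p(G) > (p + 1)|P|/(2p) if and only if G has a normal p-complement and P is abelian. -/
theorem result {G : Type*} [Group G] [Finite G] {p : ℕ} [Fact p.Prime] (hp : p ≠ 2) (P : Sylow p G) :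
    (p + 1) * Nat.card ↥(P : Subgroup G) < 2 * p * Nat.card {c : ConjClasses G // ∀ x ∈ c.carrier, ∃ k : ℕ, orderOf x = p ^ k} ↔
      Cfsg.HasNormalPComplement p G ∧ IsMulCommutative ↥(P : Subgroup G) := by
  have hp1 := (Fact.out : p.Prime).one_lt
  constructor
  · intro h
    have h1 := H77.normalizer_le_centralizer_of_kP P h
    exact ⟨H4.hasNormalPComplement_of_normalizer_le_centralizer P h1,
      ⟨⟨fun a b => Subtype.ext (h1 (Subgroup.le_normalizer b.2) a a.2)⟩⟩⟩
  · rintro ⟨h1, h2⟩
    have h3 := H77.kP_eq_of_hasNormalPComplement P h1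
    have h4 : Nat.card (ConjClasses (P : Subgroup G)) = Nat.card (P : Subgroup G) := by
      symm
      refine Nat.card_congr (Equiv.ofBijective ConjClasses.mk ⟨fun a b hab => ?_,
        ConjClasses.mk_surjective⟩)
      obtain ⟨c, hc⟩ := isConj_iff.mp (ConjClasses.mk_eq_mk_iff_isConj.mp hab)
      rw [← hc, mul_comm' c a, mul_inv_cancel_right]
    change _ < 2 * p * H77.kQ G (fun x => ∃ k, orderOf x = p ^ k)
    rw [h3, h4]
    exact Nat.mul_lt_mul_of_pos_right (by omega) Nat.card_pos

end Cfsg.Agent.S3897
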