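import Cfsg.Statements.S3898
import Mathlib
import Cfsg.Agent.Lib.FGS.KTwo

set_option autoImplicit false
open Cfsg

namespace Cfsg.Agent.S3898

/-- Let π be a finite set of primes containing 2 and G a finite group. Write k_π(G) for the number of conjugacy classes of G consisting of π-elements (elements all of whose order's prime divisors lie in π) and |G|_π for the π-part of the order of G. If k_π(G) > |G|_π/2, then G has a normal π-complement (a normal subgroup of order prime to π whose index is a π-number) and an abelian Hall subgroup for the set of odd primes in π. -/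
theorem result {G : Type*} [Group G] [Finite G] (π : Finset ℕ) (hπ : ∀ r ∈ π, r.Prime) (h2 : 2 ∈ π)
    (hk : π.prod (fun r => r ^ (Nat.card G).factorization r) < 2 * Nat.card {c : ConjClasses G // ∀ x ∈ c.carrier, ∀ r : ℕ, r.Prime → r ∣ orderOf x → r ∈ π}) :
    (∃ N : Subgroup G, N.Normal ∧ (∀ r : ℕ, r.Prime → r ∣ Nat.card ↥N → r ∉ π) ∧ ∀ r : ℕ, r.Prime → r ∣ N.index → r ∈ π) ∧ ∃ H : Subgroup G, Cfsg.IsPiHall ((↑π : Set ℕ) \ {2}) H ∧ IsMulCommutative ↥H := by
  change H77.piPart π (Nat.card G) < 2 * H77.kQ G (H77.IsPiElt (π : Set ℕ)) at hk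
  have hr : ∀ (r : ℕ) [Fact r.Prime], r ∈ π → ∀ P : Sylow r G,
      Nat.card (P : Subgroup G) < 2 * H77.kQ G (fun x => ∃ k, orderOf x = r ^ k) := by
    intro r hr hrπ P
    have h1 := H77.kPi_le_kP_mul (G := G) hr.out π hπ
    have h2 := H77.piPart_eq_mul_erase π hrπ (Nat.card G)
    rw [← P.card_eq_multiplicity] at h2
    rw [h2] at hk
    refine Nat.lt_of_mul_lt_mul_right (a := H77.piPart (π.erase r) (Nat.card G)) ?_
    refine hk.trans_le ?_
    rw [mul_assoc]
    exact Nat.mul_le_mul_left _ h1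
  have hK := H77.hasNormalPComplement_of_kTwo (G := G) default (hr 2 h2 default)
  set K := Cfsg.pResidual 2 G with hKdef
  have hKn : K.Normal := H4.pResidual_normal 2 G
  have hKodd : Odd (Nat.card K) :=
    Nat.not_even_iff_odd.mp fun h => H4.hasNormalPComplement_iff_not_dvd.mp hK h.two_dvd
  obtain ⟨a, ha⟩ := H4.index_pResidual_eq_pow (G := G) 2
  rw [← hKdef] at ha
  have hmemK : ∀ x : G, ¬ 2 ∣ orderOf x → x ∈ K := fun x hx =>
    H4.mem_pResidual_of_coprime ((Nat.Prime.coprime_iff_not_dvd Nat.prime_two).mpr hx).symm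
  obtain ⟨N, hN, hc⟩ := H77.exists_complement_of_forall_normalizer_le (G := K)
    ((π : Set ℕ) \ {2}) (by
    intro r hrp hrπ
    have hr2 : r ≠ 2 := hrπ.2
    have P : Sylow r K := default
    refine ⟨P, H77.normalizer_le_centralizer_of_kP_odd hKodd P ?_⟩
    have Q : Sylow r G := default
    have hcard : Nat.card (P : Subgroup K) = Nat.card (Q : Subgroup G) := by
      rw [P.card_eq_multiplicity, Q.card_eq_multiplicity, ← K.card_mul_index,
        Nat.factorization_mul Nat.card_pos.ne' Subgroup.index_ne_zero_of_finite, ha]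
      simp [Nat.prime_two.factorization, Finsupp.single_apply, hr2.symm]
    rw [hcard]
    refine (hr r hrπ.1 Q).trans_le (Nat.mul_le_mul_left _ ?_)
    refine H77.kQ_le_kQ_subgroup _ H77.pElt_conj K _ ?_ ?_
    · rintro y ⟨k, hk⟩
      exact ⟨k, by rw [← hk, Subgroup.orderOf_coe]⟩
    · rintro x ⟨k, hk⟩
      refine ⟨x, hmemK x fun hd => hr2 ?_, IsConj.refl x⟩
      rw [hk] at hd
      exact ((Nat.prime_dvd_prime_iff_eq Nat.prime_two hrp.out).mp
        (Nat.prime_two.dvd_of_dvd_pow hd)).symm)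
  have hN' : ∀ x : G, x ∈ N.map K.subtype ↔
      ∀ r : ℕ, r.Prime → r ∈ (π : Set ℕ) → ¬ r ∣ orderOf x := by
    intro x
    constructor
    · rintro ⟨y, hy, rfl⟩ r hrp hrπ hd
      rw [Subgroup.coe_subtype, Subgroup.orderOf_coe] at hd
      by_cases hr2 : r = 2
      · subst hr2
        exact (Nat.not_even_iff_odd.mpr hKodd)
          (even_iff_two_dvd.mpr (hd.trans (orderOf_dvd_natCard y)))
      · exact (hN y).mp hy r hrp ⟨hrπ, hr2⟩ hd
    · intro hx
      refine ⟨⟨x, hmemK x (hx 2 Nat.prime_two h2)⟩, (hN _).mpr fun r hrp hrπ hd => ?_, rfl⟩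
      rw [Subgroup.orderOf_mk] at hd
      exact hx r hrp hrπ.1 hd
  obtain ⟨h1, h2', h3⟩ := H77.piComplement_of_mem_iff _ hN'
  obtain ⟨H, h4, h5, h6⟩ := H77.exists_abelian_complement _ hN hc
  refine ⟨⟨_, h1, h2', h3⟩, H.map K.subtype, ⟨fun r hrp hd => h4 r hrp ?_, fun r hrp hrπ hd => ?_⟩,
    inferInstance⟩
  · rwa [Subgroup.card_subtype] at hd
  · rw [Subgroup.index_map_subtype, ha] at hd
    rcases (Nat.Prime.dvd_mul hrp).mp hd with h | h
    · exact h5 r hrp hrπ h
    · exact hrπ.2 ((Nat.prime_dvd_prime_iff_eq hrp Nat.prime_two).mp (hrp.dvd_of_dvd_pow h))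

end Cfsg.Agent.S3898
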