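import Cfsg.Statements.S3899
import Mathlib
import Cfsg.Agent.Lib.FGS.KPiFusion

set_option autoImplicit false
open Cfsg

namespace Cfsg.Agent.S3899

/-- Let π be a finite non-empty set of odd primes with smallest member p and G a finite group. Write k_π(G) for the number of conjugacy classes of G consisting of π-elements (elements all of whose order's prime divisors lie in π) and |G|_π for the π-part of the order of G. If k_π(G) > (p + 1)|G|_π/(2p), then G has a normal π-complement (a normal subgroup of order prime to π whose index is a π-number) and an abelian Hall π-subgroup. -/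
theorem result {G : Type*} [Group G] [Finite G] (π : Finset ℕ) (hπ : ∀ r ∈ π, r.Prime) (h2 : 2 ∉ π) (p : ℕ) (hp : p ∈ π)
    (hmin : ∀ r ∈ π, p ≤ r) (hk : (p + 1) * π.prod (fun r => r ^ (Nat.card G).factorization r) < 2 * p * Nat.card {c : ConjClasses G // ∀ x ∈ c.carrier, ∀ r : ℕ, r.Prime → r ∣ orderOf x → r ∈ π}) :
    (∃ N : Subgroup G, N.Normal ∧ (∀ r : ℕ, r.Prime → r ∣ Nat.card ↥N → r ∉ π) ∧ ∀ r : ℕ, r.Prime → r ∣ N.index → r ∈ π) ∧ ∃ H : Subgroup G, Cfsg.IsPiHall (↑π : Set ℕ) H ∧ IsMulCommutative ↥H := by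
  change (p + 1) * H77.piPart π (Nat.card G) < 2 * p * H77.kQ G (H77.IsPiElt (π : Set ℕ)) at hk
  obtain ⟨N, hN, hc⟩ := H77.exists_complement_of_forall_normalizer_le (G := G) (π : Set ℕ) (by
    intro r hr hrπ
    have P : Sylow r G := default
    refine ⟨P, H77.normalizer_le_centralizer_of_kP P ?_⟩
    have h1 := H77.kPi_le_kP_mul (G := G) hr.out π hπ
    have h2 := H77.piPart_eq_mul_erase π hrπ (Nat.card G)
    have h3 := H77.piPart_pos (π.erase r) (fun s hs => hπ s (Finset.mem_of_mem_erase hs)) (Nat.card G)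
    rw [← P.card_eq_multiplicity] at h2
    rw [h2] at hk
    set a := Nat.card (P : Subgroup G)
    set b := H77.piPart (π.erase r) (Nat.card G)
    set k := H77.kQ G (fun x => ∃ k, orderOf x = r ^ k)
    have h4 : (p + 1) * a < 2 * p * k := by
      refine Nat.lt_of_mul_lt_mul_right (a := b) ?_
      calc (p + 1) * a * b = (p + 1) * (a * b) := by ring
        _ < _ := hk
        _ ≤ 2 * p * (k * b) := Nat.mul_le_mul_left _ h1
        _ = _ := by ring
    have hpr := hmin r hrπ
    have hp0 := (hπ p hp).pos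
    refine Nat.lt_of_mul_lt_mul_left (a := p) ?_
    calc p * ((r + 1) * a) = (p * r + p) * a := by ring
      _ ≤ (p * r + r) * a := Nat.mul_le_mul_right _ (by omega)
      _ = r * ((p + 1) * a) := by ring
      _ < r * (2 * p * k) := Nat.mul_lt_mul_of_pos_left h4 hr.out.pos
      _ = _ := by ring)
  obtain ⟨h1, h2, h3⟩ := H77.piComplement_of_mem_iff _ hN
  obtain ⟨H, h4, h5, h6⟩ := H77.exists_abelian_complement _ hN hc
  exact ⟨⟨N, h1, h2, h3⟩, H, ⟨h4, h5⟩, h6⟩

end Cfsg.Agent.S3899
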