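import Mathlib
import Cfsg.Statements.S3903
import Cfsg.Agent.S0556

set_option autoImplicit false
open Cfsg

namespace Cfsg.Agent.S3903


theorem isPGroup_centralizer {G : Type*} [Group G] [Finite G] (N : Subgroup G)
    (h : ∀ x : G, x ∉ N → IsPrimePow (orderOf x)) {x : G} (hx : x ∉ N) {p : ℕ} (hp : p.Prime)
    (hpx : p ∣ orderOf x) : IsPGroup p (Subgroup.centralizer ({x} : Set G)) := by
  have : Fact p.Prime := ⟨hp⟩
  obtain ⟨q, k, hq, hk, hqk⟩ := (isPrimePow_nat_iff _).1 (h x hx)
  have hpq : p = q := (Nat.prime_dvd_prime_iff_eq hp hq).1 (hp.dvd_of_dvd_pow (hqk ▸ hpx))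
  subst hpq
  rw [IsPGroup.iff_card]
  refine ⟨_, Nat.eq_prime_pow_of_unique_prime_dvd Nat.card_pos.ne' fun {r} hr hrd => ?_⟩
  by_contra hne
  have : Fact r.Prime := ⟨hr⟩
  obtain ⟨z, hz⟩ := exists_prime_orderOf_dvd_card' r hrd
  have hz' : orderOf (z : G) = r := (Subgroup.orderOf_coe z).trans hz
  have hc : Commute x z := (Subgroup.mem_centralizer_singleton_iff.1 z.2).symm
  have hcop : (orderOf x).Coprime (orderOf (z : G)) := by
    rw [← hqk, hz']
    exact Nat.Coprime.pow_left _ ((Nat.coprime_primes hp hr).2 (Ne.symm hne))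
  have h1 : x * z ∈ N := by
    by_contra h2
    have h3 := h _ h2
    rw [hc.orderOf_mul_eq_mul_orderOf_of_coprime hcop, hz'] at h3
    obtain ⟨s, j, hs, -, hsj⟩ := (isPrimePow_nat_iff _).1 h3
    have h4 : p = s := (Nat.prime_dvd_prime_iff_eq hp hs).1
      (hp.dvd_of_dvd_pow (hsj ▸ hpx.mul_right r))
    have h5 : r = s := (Nat.prime_dvd_prime_iff_eq hr hs).1
      (hr.dvd_of_dvd_pow (hsj ▸ Dvd.intro_left _ rfl))
    exact hne (h5.trans h4.symm)
  have h6 : x ^ r ∈ N := by
    have := N.pow_mem h1 r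
    rwa [hc.mul_pow, ← hz', pow_orderOf_eq_one, mul_one, hz'] at this
  obtain ⟨m, hm⟩ := exists_pow_eq_self_of_coprime (x := x) (n := r) (hz' ▸ hcop.symm)
  exact hx (hm ▸ N.pow_mem h6 m)

/-- Let N be a proper normal subgroup of the finite group G such that every element x of G outside N has prime power order and has centralizer C_G(x) a maximal subgroup of G. Then N is solvable. -/
theorem result {G : Type*} [Group G] [Finite G] (N : Subgroup G) [N.Normal] (hN : N ≠ ⊤)
    (h : ∀ x : G, x ∉ N → IsPrimePow (orderOf x) ∧ IsCoatom (Subgroup.centralizer ({x} : Set G))) : Group.IsSolvable ↥N := by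
  classical
  obtain ⟨x, hx⟩ : ∃ x, x ∉ N := by
    by_contra h1
    push Not at h1
    exact hN (eq_top_iff.2 fun x _ => h1 x)
  obtain ⟨p, k, hp, hk, hpk⟩ := (isPrimePow_nat_iff _).1 (h x hx).1
  have : Fact p.Prime := ⟨hp⟩
  by_cases hG : IsPGroup p G
  · have := (hG.to_subgroup N).isNilpotent
    infer_instance
  have hsyl : ∀ y, y ∉ N → p ∣ orderOf y →
      ∃ Q : Sylow p G, (Q : Subgroup G) = Subgroup.centralizer {y} := by
    intro y hy hpy
    obtain ⟨Q, hQ⟩ := (isPGroup_centralizer N (fun x hx => (h x hx).1) hy hp hpy).exists_le_sylow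
    refine ⟨Q, ?_⟩
    rcases (h y hy).2.le_iff.1 hQ with h1 | h1
    · exact absurd ((h1 ▸ Q.isPGroup').of_equiv Subgroup.topEquiv) hG
    · exact h1
  obtain ⟨P, hP⟩ := hsyl x hx (hpk ▸ dvd_pow_self p hk.ne')
  have hmax : IsCoatom (P : Subgroup G) := hP ▸ (h x hx).2
  have hxP : x ∈ (P : Subgroup G) := hP ▸ Subgroup.mem_centralizer_singleton_iff.2 rfl
  rcases hmax.le_iff.1 (le_sup_left : (P : Subgroup G) ≤ (P : Subgroup G) ⊔ N) with h1 | h1
  swap
  · have h2 : N ≤ P := le_sup_right.trans h1.le
    have := (P.isPGroup'.to_le h2).isNilpotent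
    infer_instance
  have hall : ∀ y, y ∉ N → p ∣ orderOf y := by
    intro y hy
    have h2 : y ∈ (P : Subgroup G) ⊔ N := h1 ▸ trivial
    obtain ⟨a, ha, b, hb, rfl⟩ := Subgroup.mem_sup_of_normal_right.1 h2
    obtain ⟨j, hj⟩ := IsPGroup.iff_orderOf.1 (P.isPGroup'.map (QuotientGroup.mk' N))
      ⟨_, Subgroup.mem_map_of_mem _ ha⟩
    rw [Subgroup.orderOf_mk] at hj
    have h3 : QuotientGroup.mk' N (a * b) = QuotientGroup.mk' N a := by
      rw [map_mul, QuotientGroup.mk'_apply N b, (QuotientGroup.eq_one_iff b).2 hb, mul_one]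
    have h4 := orderOf_map_dvd (QuotientGroup.mk' N) (a * b)
    rw [h3, hj] at h4
    refine (dvd_pow_self p ?_).trans h4
    rintro rfl
    rw [pow_zero, orderOf_eq_one_iff, ← h3] at hj
    exact hy ((QuotientGroup.eq_one_iff _).1 hj)
  have := Fintype.ofFinite G
  let S : Finset G := Finset.univ.filter fun z => z ∉ N ∧ Subgroup.centralizer {z} = (P : Subgroup G)
  let T : Finset G := Finset.univ.filter fun z => z ∉ N ∧ z ∈ (P : Subgroup G)
  have hST : S ⊆ T := by
    intro z hz
    simp only [S, T, Finset.mem_filter, Finset.mem_univ, true_and] at hz ⊢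
    exact ⟨hz.1, hz.2 ▸ Subgroup.mem_centralizer_singleton_iff.2 rfl⟩
  let U : Finset G := Finset.univ.filter fun z => z ∉ N
  have := Fintype.ofFinite (G ⧸ (P : Subgroup G))
  have hU : U.card ≤ (P : Subgroup G).index * S.card := by
    have h2 : U ⊆ (Finset.univ ×ˢ S).image
        (fun q : (G ⧸ (P : Subgroup G)) × G => q.1.out * q.2 * q.1.out⁻¹) := by
      intro y hy
      simp only [U, Finset.mem_filter, Finset.mem_univ, true_and] at hy
      obtain ⟨Q, hQ⟩ := hsyl y hy (hall y hy)
      obtain ⟨g, rfl⟩ := MulAction.exists_smul_eq G P Q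
      obtain ⟨a, ha⟩ := QuotientGroup.mk_out_eq_mul (P : Subgroup G) g
      refine Finset.mem_image.2 ⟨((g : G ⧸ (P : Subgroup G)), (g * a)⁻¹ * y * (g * a)), ?_, ?_⟩
      · simp only [S, Finset.mem_product, Finset.mem_filter, Finset.mem_univ, true_and]
        refine ⟨fun h3 => hy ?_, ?_⟩
        · have := ‹N.Normal›.conj_mem _ h3 (g * a)
          simpa [mul_assoc] using this
        · ext w
          have h4 : (g * a) * w * (g * a)⁻¹ ∈ Subgroup.centralizer {y} ↔ w ∈ (P : Subgroup G) := by
            rw [← hQ, Sylow.coe_subgroup_smul, Subgroup.mem_pointwise_smul_iff_inv_smul_mem]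
            have : (MulAut.conj g)⁻¹ • ((g * a) * w * (g * a)⁻¹) = a * w * (a : G)⁻¹ := by
              simp [mul_assoc]
            rw [this, Subgroup.mul_mem_cancel_right _ (Subgroup.inv_mem _ a.2),
              Subgroup.mul_mem_cancel_left _ a.2]
          rw [← h4, Subgroup.mem_centralizer_singleton_iff, Subgroup.mem_centralizer_singleton_iff]
          constructor
          · intro h5
            calc g * a * w * (g * a)⁻¹ * y = g * a * (w * ((g * a)⁻¹ * y * (g * a))) * (g * a)⁻¹ := by
                  group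
              _ = _ := by rw [h5]; group
          · intro h5
            calc w * ((g * a)⁻¹ * y * (g * a)) = (g * a)⁻¹ * (g * a * w * (g * a)⁻¹ * y) * (g * a) := by
                  group
              _ = _ := by rw [h5]; group
      · simp only [ha]
        group
    refine (Finset.card_le_card h2).trans (Finset.card_image_le.trans ?_)
    rw [Finset.card_product, Finset.card_univ, Subgroup.index, Nat.card_eq_fintype_card]
  have hUc : U.card + Nat.card N = Nat.card G := by
    rw [Nat.card_eq_fintype_card, Nat.card_eq_fintype_card, Fintype.card_subtype, add_comm]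
    exact Finset.card_filter_add_card_filter_not _
  have hTc : T.card + Nat.card ↥((P : Subgroup G) ⊓ N) = Nat.card (P : Subgroup G) := by
    rw [Nat.card_eq_fintype_card, Nat.card_eq_fintype_card, Fintype.card_subtype,
      Fintype.card_subtype, add_comm,
      ← Finset.card_filter_add_card_filter_not (s := Finset.univ.filter (· ∈ (P : Subgroup G)))
        (· ∈ N), Finset.filter_filter, Finset.filter_filter]
    congr 2
    · ext z
      simp
    · ext z
      simp [T, and_comm]
  have hNc : Nat.card N = (P : Subgroup G).index * Nat.card ↥((P : Subgroup G) ⊓ N) := by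
    have h2 : N.relIndex P = N.index := by
      rw [← Subgroup.relIndex_sup_right, h1, Subgroup.relIndex_top_right]
    have h3 := (N.subgroupOf P).card_mul_index
    have h4 : Nat.card (N.subgroupOf P) = Nat.card ↥((P : Subgroup G) ⊓ N) := by
      rw [← Subgroup.inf_subgroupOf_left]
      exact Nat.card_congr (Subgroup.subgroupOfEquivOfLe inf_le_left).toEquiv
    change _ * N.relIndex P = _ at h3
    rw [h2, h4] at h3
    have h5 := N.card_mul_index
    rw [← (P : Subgroup G).index_mul_card, ← h3, ← mul_assoc] at h5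
    exact Nat.eq_of_mul_eq_mul_right (Nat.pos_of_ne_zero Subgroup.FiniteIndex.index_ne_zero) h5
  have hTS : T.card ≤ S.card := by
    rw [← (P : Subgroup G).index_mul_card, ← hTc, hNc, mul_add] at hUc
    refine Nat.le_of_mul_le_mul_left ?_
      (Nat.pos_of_ne_zero (Subgroup.FiniteIndex.index_ne_zero (H := (P : Subgroup G))))
    omega
  have hEq := Finset.eq_of_subset_of_card_le hST hTS
  have hcomm : ∀ z ∈ (P : Subgroup G), z ∉ N → ∀ w ∈ (P : Subgroup G), w * z = z * w := by
    intro z hz hzN w hw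
    have : z ∈ S := hEq ▸ (by simp [T, hz, hzN])
    simp only [S, Finset.mem_filter, Finset.mem_univ, true_and] at this
    exact Subgroup.mem_centralizer_singleton_iff.1 (this.2 ▸ hw)
  have hab : IsMulCommutative (P : Subgroup G) := ⟨⟨fun a b => Subtype.ext (by
    by_cases hb : (b : G) ∈ N
    · have h2 := hcomm (b * x) (Subgroup.mul_mem _ b.2 hxP)
        (fun h3 => hx ((Subgroup.mul_mem_cancel_left _ hb).1 h3)) a a.2
      rw [mul_assoc, ← hcomm x hxP hx a a.2, ← mul_assoc, ← mul_assoc] at h2
      exact mul_right_cancel h2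
    · exact hcomm b b.2 hb a a.2)⟩⟩
  have : Group.IsSolvable G := ⟨⟨3, Cfsg.Agent.S0556.result _ hmax⟩⟩
  infer_instance

end Cfsg.Agent.S3903
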