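import Cfsg.Statements.S3904
import Mathlib
import Cfsg.Agent.Base
import Cfsg.Agent.Lib.Tech58.MaxCent

set_option autoImplicit false
open Cfsg

namespace Cfsg.Agent.S3904

open Cfsg Subgroup H45 H69 H58.MaxC

/-- Let G be a non-abelian finite group in which the centralizer of every non-central element is a maximal subgroup. Then G/Z(G) is either an elementary abelian p-group for some prime p, or a minimal non-abelian group (non-abelian with all proper subgroups abelian) of order p^a · q for distinct primes p, q with a normal Sylow p-subgroup. -/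
theorem result {G : Type*} [Group G] [Finite G] (hna : ¬ IsMulCommutative G)
    (h : ∀ x : G, x ∉ Subgroup.center G → IsCoatom (Subgroup.centralizer ({x} : Set G))) :
    (∃ p : ℕ, p.Prime ∧ Cfsg.IsElementaryAbelian p (⊤ : Subgroup (G ⧸ Subgroup.center G))) ∨
    (¬ IsMulCommutative (G ⧸ Subgroup.center G) ∧ (∀ H : Subgroup (G ⧸ Subgroup.center G), H ≠ ⊤ → IsMulCommutative ↥H) ∧
      ∃ p q a : ℕ, p.Prime ∧ q.Prime ∧ p ≠ q ∧ Nat.card (G ⧸ Subgroup.center G) = p ^ a * q ∧
        ∀ P : Subgroup (G ⧸ Subgroup.center G), Nat.card ↥P = p ^ a → P.Normal) := by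
  have hk : ∀ x : G, QuotientGroup.mk' (center G) x = 1 ↔ MonoidHom.id G x ∈ 𝐂((⊤ : Subgroup G)) := by
    intro x
    rw [QuotientGroup.mk'_apply, QuotientGroup.eq_one_iff, H69.centralizer_top]; rfl
  have hs := QuotientGroup.mk'_surjective (center G)
  rcases Hyp.main (N := (⊤ : Subgroup G)) (fun x _ hx => h x (by rwa [H69.centralizer_top] at hx))
    with ⟨p, hp, h1, h2⟩ | ⟨F, A, p, q, hF⟩
  · exact Or.inl ⟨p, hp, elem_quot h1 h2 (MonoidHom.id G) (fun x => mem_top x) _ hs hk⟩
  · obtain ⟨hn, hc, h0, hq, he, hreg⟩ := hF.quot (MonoidHom.id G)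
      (MonoidHom.range_eq_top.2 Function.surjective_id) _ hs hk
    rw [comap_id] at hn hc h0 he hreg
    rw [comap_id] at hq hc hreg
    set f := QuotientGroup.mk' (center G) with hf
    set K := F.map f with hK
    set B := A.map f with hB
    haveI := Fact.mk hF.hp
    have hB0 : B ≠ ⊥ := fun e => hF.hq.one_lt.ne' (by rw [← hq, e, card_bot])
    have hKp : IsPGroup p K := isPGroup_iff_mem.2 fun x hx => ⟨1, by rw [pow_one]; exact he.2 x hx⟩
    obtain ⟨a, ha⟩ := IsPGroup.iff_card.1 hKp
    have hidx : K.index = q := by rw [← hq]; exact hc.symm.index_eq_card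
    have hchief : ∀ L : Subgroup (G ⧸ center G), L.Normal → L ≤ K → L ≠ ⊥ → K ≤ L := by
      intro L hL hLK hL0
      haveI := hF.Fn
      rintro _ ⟨x, hx, rfl⟩
      obtain ⟨c, hc, l, hl, rfl⟩ := hF.chief (L.comap f ⊓ F) inferInstance inf_le_right (by
        intro e
        apply hL0
        rw [eq_bot_iff]
        intro y hy
        obtain ⟨z, hz, rfl⟩ := hLK hy
        exact (hk z).2 (e ⟨hy, hz⟩)) x hx
      rw [map_mul, (hk c).2 hc, one_mul]
      exact hl.1
    refine Or.inr ⟨fun hcomm => ?_, fun H hH => ?_, p, q, a, hF.hp, hF.hq, hF.pq, ?_, fun P hP => ?_⟩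
    · obtain ⟨b, hb, hb1⟩ := exists_mem_ne_one hB0
      apply h0
      rw [← hreg b hb hb1]
      exact (inf_eq_left.2 fun y _ => mem_c1.2 (hcomm.is_comm.comm b y)).symm
    · by_cases hHK : H ≤ K
      · refine ⟨⟨fun x y => Subtype.ext ?_⟩⟩
        have := congrArg Subtype.val (he.1.is_comm.comm ⟨x, hHK x.2⟩ ⟨y, hHK y.2⟩)
        exact this
      · have hsup : K ⊔ H = ⊤ := by
          have hd : (K ⊔ H).index ∣ q := hidx ▸ index_dvd_of_le le_sup_left
          rcases (Nat.dvd_prime hF.hq).1 hd with e | e
          · exact index_eq_one.1 e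
          · exfalso
            have h1 := relIndex_mul_index (le_sup_left : K ≤ K ⊔ H)
            rw [e, hidx] at h1
            have h2 : K.relIndex (K ⊔ H) = 1 :=
              Nat.eq_of_mul_eq_mul_right hF.hq.pos (h1.trans (one_mul q).symm)
            exact hHK (le_sup_right.trans (relIndex_eq_one.1 h2))
        have hnorm : (K ⊓ H).Normal := by
          rw [normal_iff_top_le_normalizer, ← hsup]
          refine sup_le (le_normalizer_of_le_centralizer fun x hx y hy => ?_)
            (le_normalizer_inf le_normalizer_of_normal le_normalizer)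
          exact congrArg Subtype.val (he.1.is_comm.comm ⟨y, hy.1⟩ ⟨x, hx⟩)
        have hbot : K ⊓ H = ⊥ := by
          by_contra hne
          exact hH (by rw [← hsup, sup_eq_right.2 ((hchief _ hnorm inf_le_left hne).trans inf_le_right)])
        have hcard : Nat.card H = q := by
          have h1 := relIndex_sup_left H K
          rw [hsup, relIndex_top_right, hidx, ← inf_relIndex_right, hbot, relIndex_bot_left] at h1
          exact h1.symm
        haveI := Fact.mk hF.hq
        haveI := isCyclic_of_prime_card hcard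
        infer_instance
    · rw [← ha, ← hidx, card_mul_index]
    · have hPp : IsPGroup p P := IsPGroup.of_card hP
      have hle : P ≤ K := by
        have hnd : ¬ p ∣ K.index := by
          rw [hidx, Nat.prime_dvd_prime_iff_eq hF.hp hF.hq]; exact hF.pq
        exact (isSylowIn_of_not_dvd_relIndex (L := ⊤) hKp le_top
          (by rwa [relIndex_top_right])).le_of_le_normalizer' hPp le_top le_normalizer_of_normal
      rw [eq_of_le_of_card_ge hle (by rw [ha, hP])]
      exact hn

end Cfsg.Agent.S3904
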