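import Cfsg.Statements.S3905
import Mathlib
import Cfsg.Agent.Base
import Cfsg.Agent.Lib.Tech58.MaxCent

set_option autoImplicit false
open Cfsg

namespace Cfsg.Agent.S3905

open Cfsg Subgroup H45 H69 H58.MaxC

/-- Let N be a normal subgroup of the finite group G such that for every element x of N outside the center of N the centralizer C_G(x) is a maximal subgroup of G. Then N/Z(N) is either an elementary abelian p-group for some prime p, or a Frobenius group whose kernel is an elementary abelian normal subgroup and whose complement has prime order. -/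
theorem result {G : Type*} [Group G] [Finite G] (N : Subgroup G) [N.Normal]
    (h : ∀ x : G, x ∈ N → x ∉ Subgroup.centralizer (N : Set G) → IsCoatom (Subgroup.centralizer ({x} : Set G))) :
    (∃ p : ℕ, p.Prime ∧ Cfsg.IsElementaryAbelian p (⊤ : Subgroup (↥N ⧸ Subgroup.center ↥N))) ∨
    (∃ (Q K : Subgroup (↥N ⧸ Subgroup.center ↥N)) (p : ℕ), p.Prime ∧ Cfsg.IsFrobeniusComplement Q ∧ (Nat.card ↥Q).Prime ∧
      K.Normal ∧ (K : Set (↥N ⧸ Subgroup.center ↥N)) = Cfsg.frobeniusKernel Q ∧ Cfsg.IsElementaryAbelian p K) := by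
  have hk : ∀ x : N, QuotientGroup.mk' (center N) x = 1 ↔ N.subtype x ∈ 𝐂(N) := by
    intro x
    rw [QuotientGroup.mk'_apply, QuotientGroup.eq_one_iff, mem_center_iff]
    exact ⟨fun e g hg => congrArg Subtype.val (e ⟨g, hg⟩), fun e g => Subtype.ext (e g g.2)⟩
  rcases Hyp.main (N := N) h with ⟨p, hp, h1, h2⟩ | ⟨F, A, p, q, hF⟩
  · exact Or.inl ⟨p, hp, elem_quot h1 h2 N.subtype (fun x => x.2) _ (QuotientGroup.mk'_surjective _) hk⟩
  · obtain ⟨hn, hc, h0, hq, he, hreg⟩ := hF.quot N.subtype (range_subtype N) _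
      (QuotientGroup.mk'_surjective _) hk
    set K := (F.comap N.subtype).map (QuotientGroup.mk' (center N))
    set B := (A.comap N.subtype).map (QuotientGroup.mk' (center N))
    have hB0 : B ≠ ⊥ := fun e => hF.hq.one_lt.ne' (by rw [← hq, e, card_bot])
    have hfr : IsFrobeniusComplement B := (H2.isFrobeniusComplement_iff_semiregular hc h0 hB0).2 hreg
    refine Or.inr ⟨B, K, p, hF.hp, hfr, hq ▸ hF.hq, hn, ?_, he⟩
    ext x
    constructor
    · intro hx
      by_cases h1 : x = 1
      · exact Or.inl h1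
      · refine Or.inr fun g hg => h1 ?_
        rw [smul_eq_cj, mem_cj] at hg
        have h2 : g⁻¹ * x * g ∈ B ⊓ K := ⟨hg, by simpa using hn.conj_mem x hx g⁻¹⟩
        rw [H2.inf_eq_bot_of_semiregular hreg, mem_bot] at h2
        exact H2.inv_conj_eq_one_iff.1 h2
    · rintro (rfl | hx)
      · exact K.one_mem
      · by_contra hxK
        obtain ⟨y, _, hy⟩ := H2.exists_conj_mem_of_semiregular le_normalizer_of_normal hreg
          (show x ∈ K ⊔ B from hc.sup_eq_top ▸ mem_top x) hxK
        exact hx y (by rw [smul_eq_cj, mem_cj]; exact hy)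

end Cfsg.Agent.S3905
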