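import Cfsg.Statements.S3906
import Cfsg.Agent.Lib.Sig.LieFam

set_option autoImplicit false
open Cfsg

namespace Cfsg.Agent.S3906

/-- Let p be a prime and let k ≥ 3, c ≥ 0 and d ≥ 0 be integers with 2^d + 2 ≤ k. There is a bound B depending only on p, k, c and d such that the following holds for every finite group G of order prime to p and every elementary abelian subgroup A of order p^k of the automorphism group of G: if, for every non-identity a ∈ A, the d-th derived subgroup of the fixed-point subgroup C_G(a) (the 0-th derived subgroup of a group being the group itself) is nilpotent of class at most c, then the d-th derived subgroup of G is nilpotent of class at most B. -/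
theorem result (p k c d : ℕ) (hp : p.Prime) (hk : 3 ≤ k) (hd : 2 ^ d + 2 ≤ k) :
    ∃ B : ℕ, ∀ (G : Type) [Group G] [Finite G], (Nat.card G).Coprime p →
      ∀ A : Subgroup (MulAut G), Cfsg.IsElementaryAbelian p A → Nat.card ↥A = p ^ k →
        (∀ a ∈ A, a ≠ 1 → (derivedSeries ↥((a : MulAut G).toMonoidHom.eqLocus (MonoidHom.id G)) d).lowerCentralSeries c = ⊥) →
        (derivedSeries G d).lowerCentralSeries B = ⊥ := by
  have : Fact p.Prime := ⟨hp⟩
  obtain ⟨N, hN⟩ := H43.Lie.special_bound.{0} p k c (H43.Lie.szD (p ^ k) d) hk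
  refine ⟨N, fun G _ _ hG A hA hs h => ?_⟩
  have hAp : ∀ a : A, a ^ p = 1 := fun a => Subtype.ext (hA.2 a a.2)
  have hcop := H43.Lie.coprime_card hs hG
  have h' : ∀ a : A, a ≠ 1 →
      (derivedSeries (H2.fixSub A.subtype (Subgroup.zpowers a)) d).lowerCentralSeries c = ⊥ := by
    intro a ha
    rw [H43.Lie.fixSub_zpowers]
    exact h a a.2 fun e => ha (Subtype.ext e)
  refine hN G A A.subtype (H43.Lie.famD A.subtype d) (fun X => H43.Lie.derT X d) _
    (hs ▸ H43.Lie.ncard_famD d) hs hA.1 hAp hG (H43.Lie.good_famD hA.1 d)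
    (H43.Lie.sSup_famD hA.1 hcop d) (H43.Lie.ref_famD d) (H43.Lie.derT_mono d)
    (fun X => Subgroup.le_normalizer_iff_commutator_le_right.1 (H43.Lie.le_normalizer_derT X d))
    (fun U hU => ?_) (fun a ha => ?_) fun a ha => ?_
  · obtain ⟨B, hB, e⟩ := H43.Lie.depth_famD hA.1 hp hAp d U hU
    exact ⟨B, hB.trans (Nat.pow_le_pow_right hp.pos (by omega)), e⟩
  · have h1 := Subgroup.isNilpotent_of_lowerCentralSeries_eq_bot (h' a ha)
    refine H1.isSolvable_of_normal_of_quotient (derivedSeries _ d) inferInstance ⟨⟨d, ?_⟩⟩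
    rw [← map_derivedSeries_eq (QuotientGroup.mk'_surjective _), Subgroup.map_eq_bot_iff,
      QuotientGroup.ker_mk']
  · rw [← H43.Lie.map_derivedSeries_subtype, ← Subgroup.map_lowerCentralSeries, h' a ha,
      Subgroup.map_bot]

end Cfsg.Agent.S3906
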