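import Cfsg.Statements.S3907
import Cfsg.Agent.Lib.Sig.LieFam

set_option autoImplicit false
open Cfsg

namespace Cfsg.Agent.S3907

/-- Let p be a prime and let k ≥ 3 and c ≥ 0 be integers. There is a bound B depending only on p, k and c such that the following holds for every finite group G of order prime to p and every elementary abelian subgroup A of order p^k of the automorphism group of G: if, for every non-identity a ∈ A, the (k−2)-th term of the lower central series of the fixed-point subgroup C_G(a) (the first term being the whole group) is nilpotent of class at most c, then the (k−2)-th term of the lower central series of G is nilpotent of class at most B. -/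
theorem result (p k c : ℕ) (hp : p.Prime) (hk : 3 ≤ k) :
    ∃ B : ℕ, ∀ (G : Type) [Group G] [Finite G], (Nat.card G).Coprime p →
      ∀ A : Subgroup (MulAut G), Cfsg.IsElementaryAbelian p A → Nat.card ↥A = p ^ k →
        (∀ a ∈ A, a ≠ 1 → ((⊤ : Subgroup ↥((a : MulAut G).toMonoidHom.eqLocus (MonoidHom.id G))).lowerCentralSeries (k - 3)).lowerCentralSeries c = ⊥) →
        ((⊤ : Subgroup G).lowerCentralSeries (k - 3)).lowerCentralSeries B = ⊥ := by
  have : Fact p.Prime := ⟨hp⟩
  obtain ⟨N, hN⟩ := H43.Lie.special_bound.{0} p k c (H43.Lie.szL (p ^ k) (k - 3)) hk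
  refine ⟨N, fun G _ _ hG A hA hs h => ?_⟩
  have hAp : ∀ a : A, a ^ p = 1 := fun a => Subtype.ext (hA.2 a a.2)
  have hcop := H43.Lie.coprime_card hs hG
  have h' : ∀ a : A, a ≠ 1 → ((⊤ : Subgroup (H2.fixSub A.subtype
      (Subgroup.zpowers a))).lowerCentralSeries (k - 3)).lowerCentralSeries c = ⊥ := by
    intro a ha
    rw [H43.Lie.fixSub_zpowers]
    exact h a a.2 fun e => ha (Subtype.ext e)
  refine hN G A A.subtype (H43.Lie.famL A.subtype (k - 3))
    (fun X => X.lowerCentralSeries (k - 3)) _
    (hs ▸ H43.Lie.ncard_famL _) hs hA.1 hAp hG (H43.Lie.good_famL hA.1 _)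
    (H43.Lie.sSup_famL hA.1 hcop _)
    (((H43.Lie.Ref.refl _).step (H43.Lie.ref_famL0 _)).trans (H43.Lie.ref_famL (k - 3)))
    (Subgroup.lowerCentralSeries_mono _)
    (fun X => Subgroup.le_normalizer_iff_commutator_le_right.1
      (Subgroup.self_le_normalizer_lowerCentralSeries X _))
    (fun U hU => ?_) (fun a ha => ?_) fun a ha => ?_
  · obtain ⟨B, hB, e⟩ := H43.Lie.depth_famL hA.1 hp hAp _ U hU
    exact ⟨B, hB.trans (Nat.pow_le_pow_right hp.pos (by omega)), e⟩
  · have h1 := Subgroup.isNilpotent_of_lowerCentralSeries_eq_bot (h' a ha)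
    refine H1.isSolvable_of_normal_of_quotient ((⊤ : Subgroup _).lowerCentralSeries (k - 3))
      inferInstance ?_
    have : Group.IsNilpotent (H2.fixSub A.subtype (Subgroup.zpowers a) ⧸
        (⊤ : Subgroup _).lowerCentralSeries (k - 3)) := by
      refine Subgroup.nilpotent_iff_lowerCentralSeries.2 ⟨k - 3, ?_⟩
      rw [← Subgroup.map_top_of_surjective _ (QuotientGroup.mk'_surjective _),
        ← Subgroup.map_lowerCentralSeries, Subgroup.map_eq_bot_iff, QuotientGroup.ker_mk']
    infer_instance
  · rw [← Subgroup.top_subtype_lowerCentralSeries _ (k - 3), ← Subgroup.map_lowerCentralSeries, h' a ha,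
      Subgroup.map_bot]

end Cfsg.Agent.S3907
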