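import Mathlib
import Cfsg.Agent.Base
import Cfsg.Agent.Lib.FGS.CyclicAux
import Cfsg.Agent.S0016
import Cfsg.Agent.Lib.Core.GrpBasic
import Cfsg.Statements.S3977

set_option autoImplicit false
open Cfsg

namespace Cfsg.Agent.S3977

/-- Let `p` be a prime and `G` a group of order `p ^ m` which has exactly one subgroup of order `p ^ s`, where `1 ≤ s < m`, and where `s ≥ 2` if `p = 2`. Then `G` is cyclic. (For `p = 2` and `s = 1` the generalized quaternion groups also occur; that case is the classical criterion for a unique involution.) -/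
theorem result {G : Type*} [Group G] [Finite G] (p m s : ℕ) (hp : p.Prime) (hG : Nat.card G = p ^ m) (hs : 1 ≤ s) (hsm : s < m) (h2 : p ≠ 2 ∨ 2 ≤ s) (huniq : ∀ H K : Subgroup G, Nat.card H = p ^ s → Nat.card K = p ^ s → H = K) : IsCyclic G := by
  haveI := Fact.mk hp
  have hP : IsPGroup p G := IsPGroup.of_card hG
  obtain ⟨H, hH⟩ := Sylow.exists_subgroup_card_pow_prime p (G := G) (n := s)
    (hG ▸ pow_dvd_pow p hsm.le)
  have hle : ∀ (K : Subgroup G) (k : ℕ), Nat.card K = p ^ k → k ≤ s → K ≤ H := by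
    intro K k hK hk
    obtain ⟨L, hL, hKL⟩ := Sylow.exists_subgroup_card_pow_prime_le p (G := G) (m := s)
      (hG ▸ pow_dvd_pow p hsm.le) K hK hk
    exact huniq L H hL hH ▸ hKL
  have hne : H ≠ ⊤ := by
    rintro rfl
    rw [Subgroup.card_top, hG, Nat.pow_right_inj hp.one_lt] at hH
    omega
  have hc : IsCyclic H := by
    obtain ⟨x, -, hx⟩ := SetLike.exists_of_lt (lt_top_iff_ne_top.2 hne)
    obtain ⟨k, hk⟩ := IsPGroup.iff_card.1 (hP.to_subgroup (Subgroup.zpowers x))
    have hks : s ≤ k := by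
      by_contra h
      exact hx (hle _ k hk (by omega) (Subgroup.mem_zpowers x))
    obtain ⟨L, hL⟩ := Sylow.exists_subgroup_card_pow_prime p (G := Subgroup.zpowers x) (n := s)
      (hk ▸ pow_dvd_pow p hks)
    have := huniq (L.map (Subgroup.zpowers x).subtype) H
      (by rw [Subgroup.card_map_of_injective (Subgroup.subtype_injective _), hL]) hH
    exact Subgroup.isCyclic_of_le (this ▸ Subgroup.map_subtype_le L)
  rcases Cfsg.Agent.S0016.result p hP (fun A B hA hB => H80.eq_of_card_eq_of_le_isCyclic hc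
    (hle A 1 (by rw [hA, pow_one]) hs) (hle B 1 (by rw [hB, pow_one]) hs) (hA.trans hB.symm)) with
    h | ⟨rfl, n, ⟨e⟩⟩
  · exact h
  exfalso
  apply hne
  have h2' : 2 ≤ s := h2.resolve_left (by simp)
  have hxa : ∀ i, e.symm (QuaternionGroup.xa i) ∈ H := fun i =>
    hle (Subgroup.zpowers (e.symm (QuaternionGroup.xa i))) 2
      (by rw [Nat.card_zpowers, MulEquiv.orderOf_eq, QuaternionGroup.orderOf_xa]; rfl) h2'
      (Subgroup.mem_zpowers _)
  rw [eq_top_iff]
  rintro g -
  obtain ⟨q, rfl⟩ := e.symm.surjective g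
  rcases q with i | i
  · have := mul_mem (hxa ((2 ^ n : ℕ) : ZMod (2 * 2 ^ n))) (hxa i)
    rwa [← map_mul, QuaternionGroup.xa_mul_xa, add_sub_cancel_left] at this
  · exact hxa i

end Cfsg.Agent.S3977
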