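import Mathlib
import Cfsg.Statements.S3910
import Cfsg.Agent.Lib.FGS.ConjSub
import Cfsg.Agent.S3977
import Cfsg.Agent.Lib.PGroup.Rank
import Cfsg.Agent.Lib.Core.Fitting

set_option autoImplicit false
open Cfsg

namespace Cfsg.Agent.S3910


open Subgroup

/-- A finite nilpotent group in which any two abelian subgroups of the same order are conjugate is cyclic. -/
theorem result {G : Type*} [Group G] [Finite G] (hB : ∀ A B : Subgroup G, IsMulCommutative ↥A → IsMulCommutative ↥B → Nat.card ↥A = Nat.card ↥B → ∃ g : G, B = A.map (MulAut.conj g).toMonoidHom) (hnil : Group.IsNilpotent G) : IsCyclic G := by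
  have key : ∀ (p : ℕ) [Fact p.Prime] (P : Sylow p G) (s : ℕ), s ≤ 2 →
      ∀ H K : Subgroup P, Nat.card H = p ^ s → Nat.card K = p ^ s → H = K := by
    intro p hp P s hs H K hH hK
    obtain ⟨M, hMn, -, hM⟩ := H5.exists_normal_le_card_eq P.isPGroup' ⊤ s
      (hH ▸ card_le_of_le le_top)
    have hn : (M.map (P : Subgroup G).subtype).Normal := by
      rw [← normalizer_eq_top_iff, eq_top_iff, ← H1.pCore_sup_pPrimeCore_eq_top p, sup_le_iff]
      refine ⟨(H1.pCore_le_sylow P).trans ?_, le_trans ?_ (centralizer_le_normalizer _)⟩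
      · exact (normal_subgroupOf_iff_le_normalizer (map_subtype_le M)).mp
          (by rw [← comap_subtype, comap_map_eq_self_of_injective (subtype_injective _)]; exact hMn)
      · rw [le_centralizer_iff]
        refine (map_subtype_le M).trans ?_
        rw [← H1.pCore_eq_sylow_of_isNilpotent P]
        exact H1.pCore_le_centralizer_pPrimeCore
    have aux : ∀ L : Subgroup P, Nat.card L = p ^ s → L = M := by
      intro L hL
      have hc : ∀ X : Subgroup P, Nat.card X = p ^ s →
          IsMulCommutative (X.map (P : Subgroup G).subtype) := fun X hX => by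
        haveI : IsMulCommutative X := H5.isMulCommutative_of_card_dvd_sq (p := p)
          (hX ▸ pow_dvd_pow p hs)
        infer_instance
      obtain ⟨g, hg⟩ := hB _ _ (hc M hM) (hc L hL) (by rw [card_subtype, card_subtype, hL, hM])
      rw [← H3.conj_smul_eq_map, H3.conj_smul_eq_self_iff.mpr (le_normalizer_of_normal (mem_top g))]
        at hg
      exact map_injective (subtype_injective _) hg
    exact (aux H hH).trans (aux K hK).symm
  haveI : IsZGroup G := ⟨fun p hp P => by
    haveI : Fact p.Prime := ⟨hp⟩
    rcases Cfsg.Agent.S0016.result p P.isPGroup' (by simpa using key p P 1 one_le_two) with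
      h | ⟨rfl, n, ⟨e⟩⟩
    · exact h
    rcases n with _ | n
    · haveI : IsCyclic (QuaternionGroup (2 ^ 0)) := QuaternionGroup.quaternionGroup_one_isCyclic
      exact isCyclic_of_surjective e.symm e.symm.surjective
    · haveI : NeZero (2 ^ (n + 1)) := ⟨by positivity⟩
      exact Cfsg.Agent.S3977.result 2 (n + 3) 2 hp (by
        rw [Nat.card_congr e.toEquiv, Nat.card_eq_fintype_card, QuaternionGroup.card]; ring)
        one_le_two (by omega) (Or.inr le_rfl) (key 2 P 2 le_rfl)⟩
  infer_instance

end Cfsg.Agent.S3910
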