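import Mathlib
import Cfsg.Statements.S3917
import Cfsg.Agent.Lib.FGS.SelfCent

set_option autoImplicit false
open Cfsg

namespace Cfsg.Agent.S3917


open Subgroup

/-- Say that a group has self-centralizing non-cyclic subgroups when every non-cyclic subgroup H satisfies C_G(H) ≤ H. A finite abelian group with self-centralizing non-cyclic subgroups is cyclic or elementary abelian of order p² for a prime p. -/
theorem result {G : Type*} [CommGroup G] [Finite G] (hX : (∀ H : Subgroup G, ¬ IsCyclic ↥H → Subgroup.centralizer (H : Set G) ≤ H)) :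
    IsCyclic G ∨ ∃ p : ℕ, p.Prime ∧ Nat.card G = p ^ 2 ∧ Monoid.exponent G = p := by
  rw [or_iff_not_imp_left]
  intro hnc
  have h : ∀ H : Subgroup G, ¬ IsCyclic H → H = ⊤ := fun H hH =>
    top_le_iff.mp (le_trans (fun g _ => mem_centralizer_iff.mpr fun y _ => mul_comm y g) (hX H hH))
  obtain ⟨p, hp, P, hP⟩ : ∃ (p : ℕ) (_ : p.Prime) (P : Sylow p G), ¬ IsCyclic P := by
    by_contra hc
    push Not at hc
    haveI : IsZGroup G := ⟨hc⟩
    exact hnc inferInstance
  haveI : Fact p.Prime := ⟨hp⟩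
  have hG : IsPGroup p G := (h P hP ▸ P.isPGroup').of_equiv topEquiv
  obtain ⟨H, K, hH, hK, hne⟩ : ∃ H K : Subgroup G, Nat.card H = p ∧ Nat.card K = p ∧ H ≠ K := by
    by_contra hc
    push Not at hc
    obtain ⟨-, n, ⟨e⟩⟩ := (Cfsg.Agent.S0016.result p hG hc).resolve_left hnc
    rcases n with _ | n
    · haveI : IsCyclic (QuaternionGroup (2 ^ 0)) := QuaternionGroup.quaternionGroup_one_isCyclic
      exact hnc (isCyclic_of_surjective e.symm e.symm.surjective)
    · have := (H78.ConjSub.isMulCommutative_of_equiv e inferInstance).is_comm.comm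
        (QuaternionGroup.a 1) (QuaternionGroup.xa 0)
      simp only [QuaternionGroup.a_mul_xa, QuaternionGroup.xa_mul_a, QuaternionGroup.xa.injEq] at this
      have h2 : ((2 : ℕ) : ZMod (2 * 2 ^ (n + 1))) = 0 := by push_cast; linear_combination -this
      rw [ZMod.natCast_eq_zero_iff] at h2
      have := Nat.le_of_dvd two_pos h2
      have : 0 < 2 ^ n := by positivity
      omega
  have h1 := H1.card_sup_mul_card_inf_of_normal H K
  have h2 : H ⊓ K = ⊥ := by
    rcases (Nat.dvd_prime hp).mp (hH ▸ card_dvd_of_le (inf_le_left : H ⊓ K ≤ H)) with e | e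
    · exact card_eq_one.mp e
    · exact absurd (eq_of_le_of_card_ge (inf_eq_left.mp (eq_of_le_of_card_ge inf_le_left
        (by rw [e, hH]))) (by rw [hH, hK])) hne
  rw [h2, card_bot, mul_one, hH, hK, ← sq] at h1
  have h3 : ∀ x ∈ H ⊔ K, x ^ p = 1 := by
    intro x hx
    obtain ⟨a, ha, b, hb, rfl⟩ := mem_sup.mp hx
    have e1 : a ^ p = 1 := hH ▸ congrArg Subtype.val (pow_card_eq_one' (x := (⟨a, ha⟩ : H)))
    have e2 : b ^ p = 1 := hK ▸ congrArg Subtype.val (pow_card_eq_one' (x := (⟨b, hb⟩ : K)))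
    rw [mul_pow, e1, e2, one_mul]
  have h4 := h _ (H78.SelfCent.not_isCyclic_of_pow_eq_one hp h1 h3)
  rw [h4, card_top] at h1
  refine ⟨p, hp, h1, ?_⟩
  haveI : Nontrivial G := Finite.one_lt_card_iff_nontrivial.mp
    (h1 ▸ Nat.one_lt_pow two_ne_zero hp.one_lt)
  exact (Monoid.exponent_eq_prime_iff hp).mpr fun g hg =>
    orderOf_eq_prime (h3 g (h4 ▸ mem_top g)) hg

end Cfsg.Agent.S3917
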