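import Mathlib
import Cfsg.Statements.S3918
import Cfsg.Agent.Lib.FGS.SelfCent

set_option autoImplicit false
open Cfsg

namespace Cfsg.Agent.S3918


open Subgroup

/-- Say that a group has self-centralizing non-cyclic subgroups when every non-cyclic subgroup H satisfies C_G(H) ≤ H. For an odd prime p, a finite non-abelian p-group has self-centralizing non-cyclic subgroups if and only if it has order p³. -/
theorem result {G : Type*} [Group G] [Finite G] {p : ℕ} [Fact p.Prime] (hp : p ≠ 2) (hG : IsPGroup p G) (hna : ¬ IsMulCommutative G) :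
    (∀ H : Subgroup G, ¬ IsCyclic ↥H → Subgroup.centralizer (H : Set G) ≤ H) ↔ Nat.card G = p ^ 3 := by
  have hp' : p.Prime := Fact.out
  constructor
  · intro h
    obtain ⟨A, hAn, hE, hA⟩ := H5.exists_normal_elementary_sq hp hG
      (fun hc => hna IsCyclic.isMulCommutative)
    have h1 := h A (H78.SelfCent.not_isCyclic_of_pow_eq_one hp' hA hE.2)
    have h2 := H49.relIndex_centralizer_dvd_of_card_sq (W := ⊤) (hG.to_subgroup ⊤) hA
      le_normalizer_of_normal
    rw [relIndex_top_right] at h2
    have h3 : Nat.card G ∣ p ^ 3 := by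
      rw [← A.card_mul_index, hA, pow_succ p 2]
      exact Nat.mul_dvd_mul_left _ ((index_dvd_of_le h1).trans h2)
    obtain ⟨k, hk, e⟩ := (Nat.dvd_prime_pow hp').mp h3
    by_contra hne
    have : k ≠ 3 := fun e' => hne (e' ▸ e)
    exact hna (H5.isMulCommutative_of_card_dvd_sq (p := p) (e ▸ pow_dvd_pow p (by omega)))
  · intro h H hH w hw
    by_contra hwH
    have hlt : H < H ⊔ zpowers w :=
      lt_of_le_of_ne le_sup_left fun e => hwH (e.ge (mem_sup_right (mem_zpowers w)))
    obtain ⟨k, hk, e⟩ := (Nat.dvd_prime_pow hp').mp (h ▸ card_subgroup_dvd_card H)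
    obtain ⟨l, hl, e'⟩ := (Nat.dvd_prime_pow hp').mp (h ▸ card_subgroup_dvd_card (H ⊔ zpowers w))
    have h1 : k < l := by
      have := H1.card_lt_of_lt hlt
      rwa [e, e', Nat.pow_lt_pow_iff_right hp'.one_lt] at this
    have h2 : 2 ≤ k := by
      by_contra hc
      exact hH (isCyclic_of_card_dvd_prime (p := p)
        (by rw [e]; simpa using pow_dvd_pow p (show k ≤ 1 by omega)))
    have h3 : H ⊔ zpowers w = ⊤ := eq_top_of_card_eq _ (by rw [e', h, show l = 3 by omega])
    have h4 := H5.isMulCommutative_sup_zpowers (H5.isMulCommutative_of_card_dvd_sq (p := p)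
      (G := H) (e ▸ pow_dvd_pow p (by omega))) hw
    rw [h3] at h4
    exact hna (H78.ConjSub.isMulCommutative_of_equiv topEquiv h4)

end Cfsg.Agent.S3918
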