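import Mathlib
import Cfsg.Statements.S3919
import Cfsg.Agent.Lib.FGS.SelfCent

set_option autoImplicit false
open Cfsg

namespace Cfsg.Agent.S3919


open Subgroup

/-- Say that a group has self-centralizing non-cyclic subgroups when every non-cyclic subgroup H satisfies C_G(H) ≤ H. A finite non-abelian 2-group G of order 2^n has self-centralizing non-cyclic subgroups if and only if G has nilpotency class n − 1 (that is, G is dihedral, semidihedral or generalized quaternion). -/
theorem result {G : Type*} [Group G] [Finite G] (hna : ¬ IsMulCommutative G) (n : ℕ) (hG : Nat.card G = 2 ^ n) :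
    (∀ H : Subgroup G, ¬ IsCyclic ↥H → Subgroup.centralizer (H : Set G) ≤ H) ↔ (⊤ : Subgroup G).lowerCentralSeries (n - 2) ≠ ⊥ := by
  have hG2 : IsPGroup 2 G := IsPGroup.of_card hG
  haveI := hG2.isNilpotent
  obtain ⟨m, rfl⟩ : ∃ m, n = m + 3 := by
    refine ⟨n - 3, ?_⟩
    by_contra h
    exact hna (H5.isMulCommutative_of_card_dvd_sq (p := 2) (hG ▸ pow_dvd_pow 2 (by omega)))
  rw [Ne, Subgroup.lowerCentralSeries_eq_bot_iff_nilpotencyClass_le]
  constructor
  · intro h
    obtain ⟨x, hx⟩ := H78.SelfCent.exists_card_centralizer_le hG2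
      (fun hc => hna IsCyclic.isMulCommutative) h
    rw [H5.nilpotencyClass_eq_of_card_centralizer_le (m + 1) G hG x hx]
    omega
  · intro h
    have h1 := H5.nilpotencyClass_le_of_card_dvd (p := 2) (m + 1) G hG.dvd
    obtain ⟨h2, h3⟩ := H5.index_commutator_of_maxClass hG (by omega)
    obtain ⟨a, b, k, -, ha, hi, hb, h4⟩ := H5.exists_gens_of_index_four hG2 h2
      (fun x => sq x ▸ h3 x) (H5.commutator_ne_bot_of_class (by omega))
    refine H78.SelfCent.centralizer_le_of_gens ha ?_ hi hb
    rcases h4 with h | h | h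
    exacts [Or.inl h.2, Or.inl h.2, Or.inr ⟨h.1, h.2.2⟩]

end Cfsg.Agent.S3919
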