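import Mathlib
import Cfsg.Statements.S3920
import Cfsg.Agent.Lib.FGS.SelfCent

set_option autoImplicit false
open Cfsg

namespace Cfsg.Agent.S3920


open Subgroup DihedralGroup

/-- Say that a group has self-centralizing non-cyclic subgroups when every non-cyclic subgroup H satisfies C_G(H) ≤ H. For n ≥ 3, the dihedral group of order 2n has self-centralizing non-cyclic subgroups if and only if n is odd or a power of 2. -/
theorem result (n : ℕ) (hn : 3 ≤ n) : (∀ H : Subgroup (DihedralGroup n), ¬ IsCyclic ↥H → Subgroup.centralizer (H : Set (DihedralGroup n)) ≤ H) ↔ (Odd n ∨ ∃ k : ℕ, n = 2 ^ k) := by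
  haveI : NeZero n := ⟨by omega⟩
  constructor
  · intro h
    by_contra hc
    push Not at hc
    obtain ⟨k, m, hm, rfl⟩ := Nat.exists_eq_two_pow_mul_odd (n := n) (by omega)
    have hm1 : m ≠ 1 := fun e => hc.2 k (by rw [e, mul_one])
    obtain ⟨k, rfl⟩ : ∃ j, k = j + 1 := by
      rcases k with _ | k
      · exact absurd (by simpa using hm) hc.1
      · exact ⟨k, rfl⟩
    let φ := ZMod.castHom (dvd_mul_right (2 ^ (k + 1)) m) (ZMod (2 ^ (k + 1)))
    let H : Subgroup (DihedralGroup (2 ^ (k + 1) * m)) :=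
      { carrier := {x | ∃ i, φ i = 0 ∧ (x = r i ∨ x = sr i)}
        one_mem' := ⟨0, map_zero φ, Or.inl rfl⟩
        mul_mem' := by
          rintro _ _ ⟨i, hi, rfl | rfl⟩ ⟨j, hj, rfl | rfl⟩
          · exact ⟨i + j, by rw [map_add, hi, hj, add_zero], Or.inl rfl⟩
          · exact ⟨j - i, by rw [map_sub, hi, hj, sub_zero], Or.inr rfl⟩
          · exact ⟨i + j, by rw [map_add, hi, hj, add_zero], Or.inr rfl⟩
          · exact ⟨j - i, by rw [map_sub, hi, hj, sub_zero], Or.inl rfl⟩
        inv_mem' := by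
          rintro _ ⟨i, hi, rfl | rfl⟩
          · exact ⟨-i, by rw [map_neg, hi, neg_zero], Or.inl rfl⟩
          · exact ⟨i, hi, Or.inr rfl⟩ }
    have hz : ((2 ^ k * m : ℕ) : ZMod (2 ^ (k + 1) * m)) + ((2 ^ k * m : ℕ) : ZMod _) = 0 := by
      rw [← Nat.cast_add, ZMod.natCast_eq_zero_iff]
      exact ⟨1, by ring⟩
    obtain ⟨i, hi, e | e⟩ := h H (fun hc => by
      have := (IsCyclic.isMulCommutative (α := H)).is_comm.comm
        ⟨r ((2 ^ (k + 1) : ℕ) : ZMod _), _, by rw [map_natCast, ZMod.natCast_self], Or.inl rfl⟩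
        ⟨sr 0, 0, map_zero φ, Or.inr rfl⟩
      have h1 : (0 : ZMod (2 ^ (k + 1) * m)) - ((2 ^ (k + 1) : ℕ) : ZMod _) =
        0 + ((2 ^ (k + 1) : ℕ) : ZMod _) := sr.inj (congrArg Subtype.val this)
      have h2 : ((2 ^ (k + 1) * 2 : ℕ) : ZMod (2 ^ (k + 1) * m)) = 0 := by
        rw [Nat.cast_mul, Nat.cast_ofNat]; linear_combination -h1
      rw [ZMod.natCast_eq_zero_iff] at h2
      have h3 := Nat.le_of_dvd two_pos (Nat.dvd_of_mul_dvd_mul_left (by positivity) h2)
      obtain ⟨j, rfl⟩ := hm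
      omega) (x := r ((2 ^ k * m : ℕ) : ZMod _)) (by
      rintro (j | j) -
      · rw [r_mul_r, r_mul_r, add_comm j]
      · rw [sr_mul_r, r_mul_sr]
        congr 1
        linear_combination hz)
    · rw [← r.inj e, map_natCast, ZMod.natCast_eq_zero_iff, pow_succ] at hi
      exact (Nat.not_even_iff_odd.mpr hm)
        (even_iff_two_dvd.mpr (Nat.dvd_of_mul_dvd_mul_left (by positivity) hi))
    · cases e
  · have hr : ∀ i : ZMod n, (r i : DihedralGroup n) ∈ zpowers (r 1) := fun i =>
      ⟨(i.val : ℤ), by simp⟩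
    rintro (h | ⟨k, rfl⟩)
    · intro H hH c hc
      obtain ⟨x, hxH, hx⟩ := SetLike.not_le_iff_exists.mp
        (fun e : H ≤ zpowers (r 1) => hH (Subgroup.isCyclic_of_le e))
      have h2 : ∀ i : ZMod n, i + i = 0 → i = 0 := fun i hi => by
        have := (ZMod.unitOfCoprime 2 (Nat.coprime_two_left.mpr h)).mul_right_eq_zero (a := i)
        rw [ZMod.coe_unitOfCoprime, Nat.cast_ofNat, two_mul] at this
        exact this.mp hi
      rcases x with i | i
      · exact absurd (hr i) hx
      have h1 := hc _ hxH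
      rcases c with j | j
      · rw [sr_mul_r, r_mul_sr, sr.injEq] at h1
        rw [h2 j (by linear_combination h1)]
        exact one_mem _
      · rw [sr_mul_sr, sr_mul_sr, r.injEq] at h1
        rwa [sub_eq_zero.mp (h2 (j - i) (by linear_combination h1))]
    · obtain ⟨k, rfl⟩ : ∃ j, k = j + 1 := by
        rcases k with _ | k
        · omega
        · exact ⟨k, rfl⟩
      refine H78.SelfCent.centralizer_le_of_gens (a := r 1) (b := sr 0) orderOf_r_one
        (Or.inl (by simp)) ?_ ?_
      · have h1 := (zpowers (r 1 : DihedralGroup (2 ^ (k + 1)))).card_mul_index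
        rw [Nat.card_zpowers, orderOf_r_one, nat_card, mul_comm 2] at h1
        exact Nat.eq_of_mul_eq_mul_left (by positivity) h1
      · rintro ⟨i, hi⟩
        simp at hi

end Cfsg.Agent.S3920
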