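import Cfsg.Statements.S3928
import Cfsg.Agent.S3927
import Cfsg.Agent.S3949

set_option autoImplicit false
open Cfsg

namespace Cfsg.Agent.S3928

open Subgroup

/-- A boundedly generated group has a subgroup of bounded index inside all subgroups of small index. -/
theorem core_bound (m k : ℕ) : ∃ N : ℕ, ∀ (H : Type) [Group H] [Finite H] (J : Set H),
    closure J = ⊤ → Nat.card J ≤ m →
      ∃ K : Subgroup H, K.index ≤ N ∧ ∀ U : Subgroup H, U.index ≤ k → K ≤ U := by
  classical
  refine ⟨k.factorial ^ (k.factorial ^ m), fun H _ _ J hJ hm => ?_⟩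
  let Φ : H →* ((H →* Equiv.Perm (Fin k)) → Equiv.Perm (Fin k)) := MonoidHom.pi fun φ => φ
  have hinj : Function.Injective
      fun (φ : H →* Equiv.Perm (Fin k)) (x : J) => φ x := fun φ ψ h =>
    MonoidHom.eq_of_eqOn_dense hJ fun x hx => congrFun h ⟨x, hx⟩
  have : Finite (H →* Equiv.Perm (Fin k)) := Finite.of_injective _ hinj
  have hp : Nat.card (Equiv.Perm (Fin k)) = k.factorial := by rw [Nat.card_perm, Nat.card_fin]
  have h1 : Nat.card (H →* Equiv.Perm (Fin k)) ≤ k.factorial ^ m := by
    refine (Nat.card_le_card_of_injective _ hinj).trans ?_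
    rw [Nat.card_fun, hp]
    exact Nat.pow_le_pow_right k.factorial_pos hm
  refine ⟨Φ.ker, ?_, fun U hU g hg => ?_⟩
  · rw [index_ker]
    refine (Nat.card_le_card_of_injective _ Φ.range.subtype_injective).trans ?_
    rw [Nat.card_fun, hp]
    exact Nat.pow_le_pow_right k.factorial_pos h1
  · have := Fintype.ofFinite (H ⧸ U)
    obtain ⟨e⟩ : Nonempty (H ⧸ U ↪ Fin k) := Function.Embedding.nonempty_of_card_le (by
      rw [Fintype.card_fin, ← Nat.card_eq_fintype_card]; exact hU)
    have h2 := congrFun (MonoidHom.mem_ker.1 hg)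
      ((Equiv.Perm.viaEmbeddingHom e).comp (MulAction.toPermHom H (H ⧸ U)))
    have h3 : MulAction.toPermHom H (H ⧸ U) g = 1 :=
      Equiv.Perm.viaEmbeddingHom_injective e (h2.trans (map_one _).symm)
    exact U.normalCore_le (U.normalCore_eq_ker ▸ h3)

/-- Counting inverted elements of an invariant subgroup. -/
theorem card_le_inv {H : Type} [Group H] [Finite H] (α : H →* H) (hα : ∀ g, α (α g) = g)
    (A : Subgroup H) (hA : ∀ a ∈ A, α a ∈ A) :
    Nat.card A ≤ Nat.card {g : H // α g = g} * Nat.card {g : H // g ∈ A ∧ α g = g⁻¹} := by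
  classical
  let f : A → {g : H // g ∈ A ∧ α g = g⁻¹} := fun a =>
    ⟨(a : H)⁻¹ * α a, mul_mem (inv_mem a.2) (hA _ a.2), by simp [hα]⟩
  let r : {g : H // g ∈ A ∧ α g = g⁻¹} → A := fun y => if h : ∃ a, f a = y then h.choose else 1
  have hr : ∀ a, f (r (f a)) = f a := fun a => by
    have h : ∃ b, f b = f a := ⟨a, rfl⟩
    simp only [r, dif_pos h]; exact h.choose_spec
  rw [← Nat.card_prod]
  refine Nat.card_le_card_of_injective
    (fun a : A => ((⟨(a : H) * (r (f a) : H)⁻¹, ?_⟩ : {g : H // α g = g}), f a)) fun a b h => ?_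
  · have h := congrArg Subtype.val (hr a)
    simp only [f] at h
    rw [map_mul, map_inv, mul_inv_eq_iff_eq_mul, mul_assoc]
    exact (eq_inv_mul_iff_mul_eq.1 h).symm
  · obtain ⟨h1, h2⟩ := Prod.ext_iff.1 h
    simp only [Subtype.mk.injEq] at h1 h2
    rw [h2] at h1
    exact Subtype.ext (mul_right_cancel h1)

/-- Many elements have a small conjugacy class. -/
theorem dense {H : Type} [Group H] [Finite H] (α : H →* H) (hα : ∀ g, α (α g) = g) (c : ℕ)
    (hc : Nat.card {g : H // α g = g} ≤ c) :
    Nat.card H ≤ 2 * c ^ 2 * Nat.card {g : H // (centralizer {g}).index ≤ 2 * c ^ 2} := by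
  classical
  have := Fintype.ofFinite H
  set n := Fintype.card H with hn
  have n0 : 0 < n := Fintype.card_pos
  let I : Finset H := Finset.univ.filter fun g => α g = g⁻¹
  let X : Finset H := Finset.univ.filter fun g => (centralizer {g}).index ≤ 2 * c ^ 2
  have hI : n ≤ c * I.card := by
    have := card_le_inv α hα ⊤ fun _ _ => mem_top _
    rw [card_top, Nat.card_eq_fintype_card] at this
    refine this.trans (Nat.mul_le_mul hc (le_of_eq ?_))
    simp [I, Fintype.card_subtype]
  let r : H → ℕ := fun g => (I.filter fun a => a * g ∈ I).card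
  have hr : ∀ g, r g ≤ Nat.card (centralizer {g} : Subgroup H) := fun g => by
    rcases (I.filter fun a => a * g ∈ I).eq_empty_or_nonempty with h | ⟨a, ha⟩
    · simp [r, h]
    have key : ∀ b ∈ I.filter fun a => a * g ∈ I, α g = b * g⁻¹ * b⁻¹ := fun b hb => by
      simp only [I, Finset.mem_filter, Finset.mem_univ, true_and, map_mul] at hb
      rw [hb.1, mul_inv_rev, inv_mul_eq_iff_eq_mul] at hb
      rw [hb.2, mul_assoc]
    rw [Nat.card_eq_fintype_card, Fintype.card_subtype]
    refine Finset.card_le_card_of_injOn (fun b => a⁻¹ * b) (fun b hb => ?_)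
      fun _ _ _ _ h => mul_left_cancel h
    have h := (key a ha).symm.trans (key b hb)
    simp only [Finset.coe_filter, Finset.mem_univ, true_and, Set.mem_ofPred_eq,
      mem_centralizer_singleton_iff]
    calc a⁻¹ * b * g = g * (g⁻¹ * a⁻¹) * b * g := by group
      _ = g * (a⁻¹ * (a * g⁻¹ * a⁻¹)) * b * g := by group
      _ = g * (a⁻¹ * b) := by rw [h]; group
  have hs : ∑ g, r g = I.card ^ 2 := by
    simp only [r, Finset.card_filter]
    rw [Finset.sum_comm, pow_two, ← smul_eq_mul, ← Finset.sum_const]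
    refine Finset.sum_congr rfl fun a _ => ?_
    rw [← Finset.card_filter]
    exact Finset.card_bij (fun g _ => a * g) (fun g hg => by simpa using hg)
      (fun _ _ _ _ h => mul_left_cancel h) fun b hb => ⟨a⁻¹ * b, by simpa using hb, by simp⟩
  have hb : ∀ g, 2 * c ^ 2 * r g ≤ n + if g ∈ X then 2 * c ^ 2 * n else 0 := fun g => by
    split_ifs with h
    · exact le_add_left (Nat.mul_le_mul_left _ (Finset.card_le_univ _))
    · simp only [X, Finset.mem_filter, Finset.mem_univ, true_and, not_le] at h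
      rw [add_zero, hn, ← Nat.card_eq_fintype_card, ← (centralizer {g}).index_mul_card]
      exact Nat.mul_le_mul h.le (hr g)
  have h1 := Finset.sum_le_sum fun g (_ : g ∈ Finset.univ) => hb g
  rw [← Finset.mul_sum, hs, Finset.sum_add_distrib, Finset.sum_ite_mem, Finset.univ_inter,
    Finset.sum_const, Finset.sum_const, Finset.card_univ, smul_eq_mul, smul_eq_mul, ← hn] at h1
  have h2 : n * n ≤ (c * I.card) ^ 2 := by rw [pow_two]; exact Nat.mul_le_mul hI hI
  have h3 : Nat.card {g : H // (centralizer {g}).index ≤ 2 * c ^ 2} = X.card := by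
    simp [X, Fintype.card_subtype]
  rw [h3, Nat.card_eq_fintype_card, ← hn]
  refine Nat.le_of_mul_le_mul_left ?_ n0
  nlinarith

theorem centre_bound (m c : ℕ) : ∃ N : ℕ, ∀ (H : Type) [Group H] [Finite H] (α : H →* H)
    (J : Set H), (∀ g, α (α g) = g) → closure J = ⊤ → Nat.card J ≤ m →
      (∀ x ∈ J, ∃ g, x = g⁻¹ * α g) → Nat.card {g : H // α g = g} ≤ c →
      (center H).index ≤ N := by
  obtain ⟨N, hN⟩ := core_bound m (2 * c ^ 2)
  refine ⟨((c * (N * (2 * c ^ 2))) ^ 2 + 1) ^ m, fun H _ _ α J hα hJ hm hx hc => ?_⟩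
  obtain ⟨K, hK, hU⟩ := hN H J hJ hm
  let X : Set H := {g | (centralizer {g}).index ≤ 2 * c ^ 2}
  let β : H ≃* H := { α with invFun := α, left_inv := hα, right_inv := hα }
  have hX : ∀ g ∈ X, α g ∈ X := fun g hg => by
    have : (centralizer {α g} : Subgroup H).comap α = centralizer {g} := by
      ext x
      simp only [mem_comap, mem_centralizer_singleton_iff, ← map_mul]
      exact β.injective.eq_iff
    change (centralizer {α g}).index ≤ _
    rw [← index_comap_of_surjective _ (f := α) β.surjective, this]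
    exact hg
  let A : Subgroup H := centralizer X ⊓ closure X
  have hA : ∀ a ∈ A, α a ∈ A := fun a ha => by
    refine ⟨fun x hx => ?_, ?_⟩
    · have := congrArg α (ha.1 _ (hX x hx))
      simpa only [map_mul, hα] using this
    · exact (closure_le _).2 (show X ⊆ (closure X).comap α from fun x hx =>
        subset_closure (hX x hx)) ha.2
  have hcomm : ∀ a ∈ A, ∀ b ∈ A, a * b = b * a := fun a ha b hb =>
    (centralizer_closure X ▸ hb.1 : b ∈ centralizer (closure X : Set H)) a ha.2
  have hAi : A.index ≤ N * (2 * c ^ 2) := by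
    refine index_inf_le.trans (Nat.mul_le_mul ?_ ?_)
    · refine (index_antitone fun g hg x hx => ?_).trans hK
      exact (mem_centralizer_singleton_iff.1 (hU _ hx hg)).symm
    · refine Nat.le_of_mul_le_mul_right ?_ (Nat.card_pos (α := closure X))
      rw [index_mul_card]
      refine (dense α hα c hc).trans (Nat.mul_le_mul_left _ ?_)
      exact Nat.card_le_card_of_injective (fun x => ⟨x.1, subset_closure x.2⟩)
        fun _ _ h => Subtype.ext (Subtype.mk.inj h)
  let B : Subgroup H :=
    { carrier := {g | g ∈ A ∧ α g = g⁻¹}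
      mul_mem' := fun {a b} ha hb => ⟨mul_mem ha.1 hb.1, by
        rw [map_mul, ha.2, hb.2, hcomm a ha.1 b hb.1, mul_inv_rev]⟩
      one_mem' := ⟨one_mem _, by simp⟩
      inv_mem' := fun {a} ha => ⟨inv_mem ha.1, by rw [map_inv, ha.2]⟩ }
  have hB : B.index ≤ c * (N * (2 * c ^ 2)) := by
    refine Nat.le_of_mul_le_mul_right ?_ (Nat.card_pos (α := B))
    rw [index_mul_card, ← A.index_mul_card, mul_comm c, mul_assoc _ c]
    exact Nat.mul_le_mul hAi ((card_le_inv α hα A hA).trans (Nat.mul_le_mul_right _ hc))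
  have hC : ∀ x : J, (centralizer {(x : H)}).index ≤ (c * (N * (2 * c ^ 2))) ^ 2 + 1 := fun x => by
    obtain ⟨g, hg⟩ := hx x x.2
    have : B ⊓ B.comap (MulAut.conj g).toMonoidHom ≤ centralizer {(x : H)} := fun b hb => by
      have h1 : α b = b⁻¹ := hb.1.2
      have h2 : α (g * b * g⁻¹) = (g * b * g⁻¹)⁻¹ := hb.2.2
      rw [map_mul, map_mul, map_inv, h1] at h2
      rw [mem_centralizer_singleton_iff, hg]
      calc b * (g⁻¹ * α g) = b * g⁻¹ * (α g * b⁻¹ * (α g)⁻¹) * α g * b := by group
        _ = g⁻¹ * α g * b := by rw [h2]; group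
    refine (index_antitone this).trans (index_inf_le.trans ?_)
    rw [index_comap_of_surjective _ (MulAut.conj g).surjective, pow_two]
    exact (Nat.mul_le_mul hB hB).trans (Nat.le_succ _)
  have := Fintype.ofFinite J
  have hZ : (⨅ x : J, centralizer {(x : H)}) ≤ center H := fun g hg => by
    rw [← centralizer_univ, ← coe_top, ← hJ, centralizer_closure]
    exact fun x hx => (mem_centralizer_singleton_iff.1 (mem_iInf.1 hg ⟨x, hx⟩)).symm
  refine (index_antitone hZ).trans ((index_iInf_le _).trans ?_)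
  refine (Finset.prod_le_pow_card _ _ _ fun x _ => hC x).trans ?_
  rw [Finset.card_univ, ← Nat.card_eq_fintype_card]
  exact Nat.pow_le_pow_right (Nat.succ_pos _) hm

theorem schur_bound (m n : ℕ) : ∃ N : ℕ, ∀ (H : Type) [Group H] [Finite H] (J : Set H),
    closure J = ⊤ → Nat.card J ≤ m → (∀ x ∈ J, x ^ m.factorial = 1) → (center H).index ≤ n →
      Nat.card H ≤ N := by
  classical
  refine ⟨n * (n * m.factorial + 1) ^ (n * m), fun H _ _ J hJ hm hx hn => ?_⟩
  let _ : CommGroup (center H) := { (inferInstance : Group (center H)) with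
    mul_comm := fun a b => Subtype.ext (mem_center_iff.1 b.2 a) }
  have h1 : ∀ g : H, MonoidHom.transferCenterPow H g ^ m.factorial = 1 := fun g => by
    have : (powMonoidHom m.factorial).comp (MonoidHom.transferCenterPow H) = 1 :=
      MonoidHom.eq_of_eqOn_dense hJ fun x h => by
        simp only [MonoidHom.comp_apply, powMonoidHom_apply, ← map_pow, hx x h, map_one,
          MonoidHom.one_apply]
    exact DFunLike.congr_fun this g
  have h2 : ∀ z : center H, z ^ ((center H).index * m.factorial) = 1 := fun z => by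
    have := congrArg Subtype.val (h1 z)
    rw [SubmonoidClass.coe_pow, MonoidHom.transferCenterPow_apply, ← pow_mul] at this
    exact Subtype.ext this
  have h3 : Group.rank H ≤ m := by
    have := Fintype.ofFinite J
    refine (Group.rank_le (S := J.toFinset) (by simpa using hJ)).trans ?_
    rwa [Set.toFinset_card, ← Nat.card_eq_fintype_card]
  have h4 := Nat.le_of_dvd (pow_pos (Nat.mul_pos (Nat.pos_of_ne_zero index_ne_zero_of_finite)
    m.factorial_pos) _) (card_dvd_exponent_pow_rank' (center H) h2)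
  rw [← (center H).index_mul_card]
  refine Nat.mul_le_mul hn (h4.trans ?_)
  refine (Nat.pow_le_pow_left ((Nat.mul_le_mul_right _ hn).trans (Nat.le_succ _)) _).trans ?_
  exact Nat.pow_le_pow_right (Nat.succ_pos _)
    ((rank_le_index_mul_rank _).trans (Nat.mul_le_mul hn h3))

/-- There is a function f such that for every non-trivial finite group G and every automorphism α of G of order 2 with [G, α] = G (the elements g·α(g)⁻¹ generate G), the order of G is at most f(m), where m is the number of elements of odd order inverted by α. -/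
theorem result : ∃ f : ℕ → ℕ, ∀ (G : Type) [Group G] [Finite G] [Nontrivial G] (α : MulAut G), orderOf α = 2 →
    Subgroup.closure (Set.range (fun c : G => c * (α c)⁻¹)) = ⊤ →
      Nat.card G ≤ f (Nat.card {g : G // Odd (orderOf g) ∧ α g = g⁻¹}) := by
  choose f hf using centre_bound
  choose s hs using schur_bound
  refine ⟨fun m => s m (s m (f m (m ^ m))), fun G _ _ _ α hα hG => ?_⟩
  let J : Set G := {g | Odd (orderOf g) ∧ α g = g⁻¹}
  change _ ≤ s (Nat.card J) (s (Nat.card J) (f (Nat.card J) (Nat.card J ^ Nat.card J)))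
  have hJ : closure J = ⊤ := by
    have h4 := S3927.result _ hG (Nat.card G) Nat.card_pos
    rwa [S3949.result _ hα hG _ fun g _ d => absurd (Nat.le_of_dvd Nat.card_pos
      (d.trans (orderOf_dvd_natCard g))) (not_le.2 Nat.lt_two_pow_self)] at h4
  have h2 : ∀ g, α (α g) = g := fun g => by
    rw [← MulAut.mul_apply, ← pow_two, ← hα, pow_orderOf_eq_one, MulAut.one_apply]
  have hp : ∀ x ∈ J, ∀ k : ℕ, x ^ k ∈ J := fun x hx k =>
    ⟨hx.1.of_dvd_nat (orderOf_pow_dvd k), by rw [map_pow, hx.2, inv_pow]⟩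
  have ho : ∀ x ∈ J, x ^ (Nat.card J).factorial = 1 := fun x hx => by
    refine orderOf_dvd_iff_pow_eq_one.1 (Nat.dvd_factorial (orderOf_pos x) ?_)
    rw [← Nat.card_zpowers]
    refine Nat.card_le_card_of_injective (fun y : zpowers x => (⟨y.1, ?_⟩ : J))
      fun _ _ h => Subtype.ext (Subtype.mk.inj h)
    obtain ⟨k, hk⟩ := (mem_powers_iff_mem_zpowers.2 y.2)
    exact hk ▸ hp x hx k
  refine hs _ _ G J hJ le_rfl ho ?_
  have hZ : center G ≤ (center G).comap α.toMonoidHom := fun z hz =>
    mem_center_iff.2 fun g => by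
      have := congrArg α (mem_center_iff.1 hz (α g))
      rw [map_mul, map_mul, h2] at this
      exact this
  let π := QuotientGroup.mk' (center G)
  let β := QuotientGroup.map _ _ α.toMonoidHom hZ
  have hβ : ∀ g, β (π g) = π (α g) := fun g => rfl
  have hJ' : closure (π '' J) = ⊤ := by
    rw [← MonoidHom.map_closure, hJ, map_top_of_surjective _ (QuotientGroup.mk'_surjective _)]
  have hm : Nat.card (π '' J) ≤ Nat.card J := Nat.card_image_le (Set.toFinite _)
  refine hs _ _ (G ⧸ center G) (π '' J) hJ' hm ?_ (hf _ _ _ β (π '' J) ?_ hJ' hm ?_ ?_)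
  · rintro _ ⟨x, hx, rfl⟩
    rw [← map_pow, ho x hx, map_one]
  · intro g
    obtain ⟨g, rfl⟩ := QuotientGroup.mk'_surjective _ g
    exact congrArg π (h2 g)
  · rintro _ ⟨x, hx, rfl⟩
    obtain ⟨k, hk⟩ := hx.1
    refine ⟨π (x ^ (k + 1))⁻¹, ?_⟩
    rw [hβ, map_inv α, (hp x hx _).2, ← map_inv, ← map_mul, inv_inv, ← pow_add,
      show k + 1 + (k + 1) = orderOf x + 1 by omega, pow_succ, pow_orderOf_eq_one, one_mul]
  · rw [← Nat.card_fun]
    have key : ∀ g : {g // β g = g}, ∀ x ∈ J, g.1.out * x * g.1.out⁻¹ ∈ J := fun g x hx => by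
      refine ⟨by simpa [← (MulAut.conj g.1.out).orderOf_eq x] using hx.1, ?_⟩
      have h : π (α g.1.out) = π g.1.out := by
        rw [← hβ, show π g.1.out = g.1 from g.1.out_eq, g.2]
      obtain ⟨z, hz, h⟩ := (QuotientGroup.mk'_eq_mk' _).1 h.symm
      rw [map_mul, map_mul, map_inv, hx.2, ← h, mul_assoc _ z, ← mem_center_iff.1 hz]
      group
    refine Nat.card_le_card_of_injective (fun g (x : J) => (⟨_, key g x x.2⟩ : J)) fun g h e => ?_
    refine Subtype.ext ?_
    rw [← g.1.out_eq, ← h.1.out_eq]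
    refine QuotientGroup.eq.2 ?_
    have hz : centralizer J ≤ center G := by
      rw [← centralizer_univ, ← coe_top, ← hJ, centralizer_closure]
    refine hz fun x hx => ?_
    have := congrArg Subtype.val (congrFun e ⟨x, hx⟩)
    simp only at this
    calc x * (g.1.out⁻¹ * h.1.out) = g.1.out⁻¹ * (g.1.out * x * g.1.out⁻¹) * h.1.out := by group
      _ = _ := by rw [this]; group

end Cfsg.Agent.S3928
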