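import Mathlib
import Cfsg.Statements.S3933
import Cfsg.Agent.S0144
import Cfsg.Agent.Lib.H5.SylNum

set_option autoImplicit false
open Cfsg

namespace Cfsg.Agent.S3933

/-- If for every prime r the number of Sylow r-subgroups of the finite group G is a prime power or 1, then G is solvable. -/
theorem result {G : Type*} [Group G] [Finite G] (h : ∀ (r : ℕ) [Fact r.Prime], Nat.card (Sylow r G) = 1 ∨ IsPrimePow (Nat.card (Sylow r G))) :
    Group.IsSolvable G := by
  classical
  induction hn : Nat.card G using Nat.strong_induction_on generalizing G with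
  | _ n ih =>
  have hdiv : ∀ a b : ℕ, a ∣ b → (b = 1 ∨ IsPrimePow b) → (a = 1 ∨ IsPrimePow a) := by
    rintro a b hab (rfl | hb)
    · exact Or.inl (Nat.dvd_one.mp hab)
    · by_cases ha : a = 1
      · exact Or.inl ha
      · exact Or.inr (hb.dvd hab ha)
  by_cases hN : ∃ N : Subgroup G, N.Normal ∧ N ≠ ⊥ ∧ N ≠ ⊤
  · obtain ⟨N, hN, h1, h2⟩ := hN
    have h3 := N.card_mul_index
    have h4 : 1 < Nat.card N := N.one_lt_card_iff_ne_bot.mpr h1
    have h5 : 1 < N.index := Subgroup.one_lt_index_of_ne_top h2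
    have : Group.IsSolvable N := ih _ (by rw [← hn, ← h3]; nlinarith)
      (fun r _ => hdiv _ _ (H5.card_sylow_normal_dvd N) (h r)) rfl
    have : Group.IsSolvable (G ⧸ N) := ih _ (by rw [← hn, ← h3, ← Subgroup.index_eq_card]; nlinarith)
      (fun r _ => hdiv _ _ (H5.card_sylow_dvd_of_surjective (QuotientGroup.mk'_surjective N)) (h r))
      rfl
    exact Group.isSolvable_of_ker_le_range N.subtype (QuotientGroup.mk' N) (by simp)
  push Not at hN
  by_contra hns
  have hG0 : Nat.card G ≠ 0 := Nat.card_pos.ne'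
  have htwo : ∀ p q : ℕ, p.Prime → q.Prime → ∃ s, s.Prime ∧ s ∣ Nat.card G ∧ s ≠ p ∧ s ≠ q := by
    intro p q hp hq
    by_contra hc
    push Not at hc
    have h0 : ∀ r : ℕ, r.Prime → r ∣ Nat.card G → r = p ∨ r = q := fun r h1 h2 =>
      (eq_or_ne r p).imp_right (hc r h1 h2)
    by_cases hpq : p = q
    · subst hpq
      refine hns (Cfsg.Agent.S0144.result p p (Nat.card G).primeFactorsList.length 0 hp hp ?_)
      rw [pow_zero, mul_one]
      exact Nat.eq_prime_pow_of_unique_prime_dvd hG0 fun {d} hd hdv => by simpa using h0 d hd hdv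
    · refine hns (Cfsg.Agent.S0144.result p q ((Nat.card G).factorization p)
        ((Nat.card G).factorization q) hp hq ?_)
      conv_lhs => rw [← Nat.prod_factorization_pow_eq_self hG0]
      rw [Finsupp.prod_of_support_subset _ (s := {p, q}) ?_ _ (by simp), Finset.prod_pair hpq]
      intro r hr
      rw [Nat.support_factorization, Nat.mem_primeFactors] at hr
      simpa using h0 r hr.1 hr.2.1
  have hnot : ∀ (p s : ℕ) [Fact p.Prime] [Fact s.Prime], p ∣ Nat.card G → s ∣ Nat.card G → p ≠ s →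
      (Nat.card (Sylow p G)).Coprime (Nat.card (Sylow s G)) → s ∣ Nat.card (Sylow p G) := by
    intro p s _ _ hp hs hps hc
    by_contra hd
    obtain ⟨P⟩ : Nonempty (Sylow p G) := inferInstance
    obtain ⟨S⟩ : Nonempty (Sylow s G) := inferInstance
    have h1 := H5.sylow_le_normalizer_of_coprime P hc hd
    have h2 : Subgroup.normalClosure ((S : Subgroup G) : Set G) ≤ Subgroup.normalizer (P : Set G) := by
      refine (Subgroup.closure_le _).mpr fun x hx => ?_
      obtain ⟨y, hy, hxy⟩ := Group.mem_conjugatesOfSet_iff.mp hx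
      obtain ⟨g, rfl⟩ := isConj_iff.mp hxy
      exact h1 (g • S) ⟨y, hy, rfl⟩
    rw [hN _ inferInstance fun e => S.ne_bot_of_dvd_card hs
      (le_bot_iff.mp (e ▸ Subgroup.le_normalClosure)), top_le_iff] at h2
    have h3 := hN _ (Subgroup.normalizer_eq_top_iff.mp h2) (P.ne_bot_of_dvd_card hp)
    have h4 := P.isPGroup'
    rw [h3] at h4
    obtain ⟨k, hk⟩ := IsPGroup.iff_card.mp h4
    rw [Subgroup.card_top] at hk
    exact hps ((Nat.prime_dvd_prime_iff_eq Fact.out Fact.out).mp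
      ((Fact.out : s.Prime).dvd_of_dvd_pow (hk ▸ hs))).symm
  have hf : ∀ (p : ℕ) [Fact p.Prime], ∃ q k : ℕ, q.Prime ∧ Nat.card (Sylow p G) = q ^ k := by
    intro p _
    rcases h p with h1 | ⟨q, k, hq, -, h1⟩
    · exact ⟨2, 0, Nat.prime_two, h1⟩
    · exact ⟨q, k, hq.nat_prime, h1.symm⟩
  obtain ⟨p, hp, hpG, -⟩ := htwo 2 2 Nat.prime_two Nat.prime_two
  have := Fact.mk hp
  obtain ⟨q, i, hq, hi⟩ := hf p
  have := Fact.mk hq
  obtain ⟨s, hs, hsG, hsp, hsq⟩ := htwo p q hp hq
  have := Fact.mk hs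
  obtain ⟨b, j, hb, hj⟩ := hf s
  obtain ⟨d, m, hd, hm⟩ := hf q
  have h1 : ¬ (Nat.card (Sylow p G)).Coprime (Nat.card (Sylow s G)) := fun hc =>
    hsq ((Nat.prime_dvd_prime_iff_eq hs hq).mp
      (hs.dvd_of_dvd_pow (hi ▸ hnot p s hpG hsG hsp.symm hc)))
  have hi0 : i ≠ 0 := fun e => h1 (by rw [hi, e]; simp)
  have hbq : b = q := by
    by_contra hne
    exact h1 (by rw [hi, hj]; exact Nat.coprime_pow_primes _ _ hq hb (Ne.symm hne))
  have hqp : q ∣ Nat.card (Sylow p G) := hi ▸ dvd_pow_self q hi0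
  obtain ⟨P⟩ : Nonempty (Sylow p G) := inferInstance
  have hqG : q ∣ Nat.card G := (hqp.trans P.card_dvd_index).trans (Subgroup.index_dvd_card _)
  have hpq : q ≠ p := fun e => not_dvd_card_sylow p G (e ▸ hqp)
  have hc : ∀ k, (Nat.card (Sylow q G)).Coprime (q ^ k) := fun k =>
    ((Nat.Prime.coprime_iff_not_dvd hq).mpr (not_dvd_card_sylow q G)).symm.pow_right k
  have h2 := hnot q p hqG hpG hpq (hi ▸ hc i)
  have h3 := hnot q s hqG hsG hsq.symm (by rw [hj, hbq]; exact hc j)
  rw [hm] at h2 h3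
  exact hsp (((Nat.prime_dvd_prime_iff_eq hs hd).mp (hs.dvd_of_dvd_pow h3)).trans
    ((Nat.prime_dvd_prime_iff_eq hp hd).mp (hp.dvd_of_dvd_pow h2)).symm)

end Cfsg.Agent.S3933
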