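import Mathlib
import Cfsg.Statements.S3937
import Cfsg.Agent.Lib.Core.Wielandt

set_option autoImplicit false
open Cfsg

namespace Cfsg.Agent.S3937


open Subgroup
open scoped commutatorElement Pointwise

theorem foldl_eq {G : Type*} [Group G] (g : G) (n : ℕ) (x : G) :
    (List.replicate n g).foldl (fun a b => a * b * a⁻¹ * b⁻¹) x = (fun a => ⁅a, g⁆)^[n] x := by
  induction n generalizing x with
  | zero => rfl
  | succ n ih => rw [List.replicate_succ, List.foldl_cons, ih]; rfl

theorem aux (n : ℕ) : ∀ {G : Type*} [Group G] [Finite G], Nat.card G = n → ∀ g : G,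
    (∀ x : G, ∃ n : ℕ, (fun a => ⁅a, g⁆)^[n] x = 1) → (zpowers g).IsSubnormal := by
  induction n using Nat.strong_induction_on with
  | _ n ih =>
  intro G _ _ hG g h
  by_contra hA
  have h1 : ∀ V : Subgroup G, V ≠ ⊤ → zpowers g ≤ V → ((zpowers g).subgroupOf V).IsSubnormal := by
    intro V hV hAV
    have h2 := ih _ (hG ▸ H1.card_lt_of_ne_top hV) rfl (⟨g, hAV (mem_zpowers g)⟩ : V) fun x => by
      obtain ⟨k, hk⟩ := h x
      refine ⟨k, Subtype.ext (Eq.trans ?_ hk)⟩
      exact (Function.Semiconj.iterate_right (f := (Subtype.val : V → G))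
        (ga := fun a => ⁅a, (⟨g, hAV (mem_zpowers g)⟩ : V)⁆) (gb := fun a => ⁅a, g⁆)
        (fun _ => rfl) k) x
    convert h2 using 1
    ext x
    exact ⟨fun ⟨k, hk⟩ => ⟨k, Subtype.ext hk⟩, fun ⟨k, hk⟩ => ⟨k, congrArg Subtype.val hk⟩⟩
  obtain ⟨M, hM, hAM, hmax⟩ := H1.zipper h1 hA
  have hN : normalizer (M : Set G) ≤ M := hmax _ (fun e => hA (Subgroup.IsSubnormal.trans hAM
    (h1 M hM hAM) (normalizer_eq_top_iff.mp e).isSubnormal)) (hAM.trans le_normalizer)
  have h2 : ∀ x, ⁅x, g⁆ ∈ M → x ∈ M := by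
    intro x hx
    have h3 : x * g * x⁻¹ ∈ M := by
      simpa [commutatorElement_def] using mul_mem hx (hAM (mem_zpowers g))
    have h4 := hmax (MulAut.conj x⁻¹ • M) (fun e => hM (by
      rw [← index_eq_one, ← H1.index_conj_smul x⁻¹, e, index_top]))
      (zpowers_le.mpr (H1.mem_conj_smul_iff.mpr (by rwa [inv_inv])))
    refine (inv_mem_iff).mp (hN (H1.mem_normalizer_iff_conj_smul_eq.mpr ?_))
    exact eq_of_le_of_card_ge h4 (H1.card_conj_smul _ _).ge
  have h3 : ∀ k x, (fun a => ⁅a, g⁆)^[k] x ∈ M → x ∈ M := by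
    intro k
    induction k with
    | zero => exact fun x hx => hx
    | succ k ih => exact fun x hx => h2 x (ih _ hx)
  refine hM (eq_top_iff.mpr fun x _ => ?_)
  obtain ⟨k, hk⟩ := h x
  exact h3 k x (hk ▸ one_mem M)

/-- Baer's characterization of the Fitting subgroup: in a finite group G, an element g lies in the Fitting subgroup if and only if g is a left Engel element, that is, for every x there is n with [x, g, g, …, g] = 1 (n entries g, [a, b] = aba⁻¹b⁻¹). -/
theorem result {G : Type*} [Group G] [Finite G] (g : G) :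
    g ∈ Cfsg.fittingSubgroup G ↔ ∀ x : G, ∃ n : ℕ, (List.replicate n g).foldl (fun a b => a * b * a⁻¹ * b⁻¹) x = 1 := by
  simp only [foldl_eq]
  constructor
  · intro hg x
    obtain ⟨n, hn⟩ := (isNilpotent_iff_lowerCentralSeries (fittingSubgroup G)).mp
      H1.isNilpotent_fitting
    have : ∀ k, (fun a => ⁅a, g⁆)^[k + 1] x ∈ (fittingSubgroup G).lowerCentralSeries k := by
      intro k
      induction k with
      | zero => exact commutator_le_right ⊤ _ (commutator_mem_commutator (mem_top x) hg)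
      | succ k ih =>
        rw [Function.iterate_succ_apply']
        exact commutator_mem_commutator ih hg
    exact ⟨n + 1, mem_bot.mp (hn ▸ this n)⟩
  · intro h
    exact H1.le_fitting_of_isSubnormal (aux _ rfl g h) H1.isNilpotent_of_isMulCommutative
      (mem_zpowers g)

end Cfsg.Agent.S3937
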