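import Mathlib
import Cfsg.Statements.S3939
import Cfsg.Agent.Lib.Core.Wielandt
import Cfsg.Agent.Lib.FGS.NilpCover
import Cfsg.Agent.Lib.FGS.ClassSize
import Cfsg.Agent.Lib.PGroup.Basic
import Cfsg.Agent.Lib.Core.CoprimeAbelian

set_option autoImplicit false
open Cfsg

namespace Cfsg.Agent.S3939


open Subgroup
open scoped commutatorElement Pointwise

theorem map_pair {G H : Type*} [Group G] [Group H] (f : G →* H) (x g : G) :
    (closure ({x, g} : Set G)).map f = closure {f x, f g} := by
  rw [MonoidHom.map_closure, Set.image_pair]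

theorem aux1 (n : ℕ) : ∀ {G : Type*} [Group G] (g : G), g ∈ Subgroup.upperCentralSeries G n →
    ∀ x : G, Group.IsNilpotent (closure ({x, g} : Set G)) := by
  induction n with
  | zero =>
    intro G _ g hg x
    have : closure ({x, g} : Set G) ≤ zpowers x := by
      rw [closure_le, Set.insert_subset_iff, Set.singleton_subset_iff, mem_bot.mp hg]
      exact ⟨mem_zpowers x, one_mem _⟩
    exact H1.isNilpotent_of_le H1.isNilpotent_of_isMulCommutative this
  | succ n ih =>
    intro G _ g hg x
    rw [← Subgroup.comap_upperCentralSeries_quotient_center] at hg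
    have h1 := ih _ hg (QuotientGroup.mk' (center G) x)
    rw [← map_pair] at h1
    refine Subgroup.isNilpotent_of_ker_le_center
      ((QuotientGroup.mk' (center G)).subgroupMap (closure ({x, g} : Set G))) fun y hy => ?_
    have h2 : (y : G) ∈ center G := (QuotientGroup.eq_one_iff _).mp (congrArg Subtype.val hy)
    exact mem_center_iff.mpr fun z => Subtype.ext (mem_center_iff.mp h2 z)

theorem aux2 (n : ℕ) : ∀ {G : Type*} [Group G] [Finite G], Nat.card G = n → ∀ g : G,
    (∀ x : G, Group.IsNilpotent (closure ({x, g} : Set G))) →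
    ∃ k, g ∈ Subgroup.upperCentralSeries G k := by
  induction n using Nat.strong_induction_on with
  | _ n ih =>
  intro G _ _ hG g h
  by_cases hZ : center G = ⊥
  swap
  · obtain ⟨k, hk⟩ := ih _ (hG ▸ H1.card_quotient_lt hZ) rfl (QuotientGroup.mk' (center G) g)
      fun x => by
        obtain ⟨x, rfl⟩ := QuotientGroup.mk'_surjective (center G) x
        rw [← map_pair]
        exact H1.isNilpotent_map (h x) _
    exact ⟨k + 1, by rw [← Subgroup.comap_upperCentralSeries_quotient_center]; exact hk⟩
  refine ⟨0, ?_⟩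
  by_contra hg
  obtain ⟨y, hy, hp⟩ := H2.exists_mem_prime_orderOf (H := zpowers g)
    (fun e => hg (zpowers_eq_bot.mp e))
  have hyg : ∀ x, y ∈ closure ({x, g} : Set G) := fun x =>
    zpowers_le.mpr (subset_closure (by simp)) hy
  have hxg : ∀ x, x ∈ closure ({x, g} : Set G) := fun x => subset_closure (by simp)
  set p := orderOf y with hpdef
  haveI : Fact p.Prime := ⟨hp⟩
  have h1 : zpowers y ≤ pCore p G := by
    refine H1.le_pCore_of_le_fitting
      (IsPGroup.of_card (n := 1) (by rw [Nat.card_zpowers, pow_one]))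
      (H1.le_fitting_of_forall_sup_conj_isNilpotent fun x => H1.isNilpotent_of_le (h x) ?_)
    rw [H1.conj_smul_eq_map, MonoidHom.map_zpowers, sup_le_iff, zpowers_le, zpowers_le]
    exact ⟨hyg x, mul_mem (mul_mem (hxg x) (hyg x)) (inv_mem (hxg x))⟩
  let C := centralizer {x : G | (orderOf x).Coprime p}
  haveI : C.Normal := ⟨fun c hc u => mem_centralizer_iff.mpr fun x hx => by
    have := hc (u⁻¹ * x * u) (by
      have e := (MulAut.conj u⁻¹).orderOf_eq x
      rw [MulAut.conj_apply, inv_inv] at e
      rw [Set.mem_setOf_eq, e]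
      exact hx)
    calc x * (u * c * u⁻¹) = u * (u⁻¹ * x * u * c) * u⁻¹ := by group
      _ = _ := by rw [this]; group⟩
  have h2 : y ∈ C := fun x hx =>
    (H77.commute_of_isNilpotent_of_coprime (h x) (hxg x) (hyg x) hx).eq
  obtain ⟨P⟩ : Nonempty (Sylow p G) := inferInstance
  obtain ⟨z, hz, hz1, -, hz2⟩ := H5.exists_mem_centralizer_of_normalizes P.isPGroup'
    (N := pCore p G ⊓ C) (H1.isPGroup_pCore.to_inf_left) le_normalizer_of_normal (fun e => by
      have : y ∈ pCore p G ⊓ C := ⟨h1 (mem_zpowers y), h2⟩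
      rw [e, mem_bot] at this
      rw [this, orderOf_one] at hpdef
      exact hp.one_lt.ne' hpdef)
  have h3 : centralizer ({z} : Set G) = ⊤ := by
    refine H1.eq_top_of_forall_prime_not_dvd_index fun q hq => ?_
    haveI : Fact q.Prime := ⟨hq⟩
    by_cases hqp : q = p
    · subst hqp
      exact H80.not_dvd_index_of_sylow_le P (H80.le_Cx_iff.mpr hz1)
    · obtain ⟨Q⟩ : Nonempty (Sylow q G) := inferInstance
      refine H80.not_dvd_index_of_sylow_le Q fun x hx => H80.mem_Cx.mpr (hz.2 x ?_)
      obtain ⟨k, hk⟩ := IsPGroup.iff_orderOf.mp Q.isPGroup' ⟨x, hx⟩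
      rw [Set.mem_setOf_eq, ← orderOf_mk x hx, hk]
      exact ((Nat.coprime_primes hq hp).mpr hqp).pow_left k
  have h4 := H80.Cx_eq_top_iff.mp h3
  rw [hZ, mem_bot] at h4
  rw [h4, orderOf_one] at hz2
  exact hp.one_lt.ne hz2

/-- In a finite group G the set of elements g such that the subgroup generated by g and x is nilpotent for every x ∈ G is exactly the hypercenter of G (the last term of the upper central series). -/
theorem result {G : Type*} [Group G] [Finite G] (g : G) :
    (∀ x : G, Group.IsNilpotent ↥(Subgroup.closure ({x, g} : Set G))) ↔ g ∈ ⨆ n : ℕ, Subgroup.upperCentralSeries G n := by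
  rw [mem_iSup_of_directed (Subgroup.upperCentralSeries_mono G).directed_le]
  exact ⟨aux2 _ rfl g, fun ⟨k, hk⟩ => aux1 k g hk⟩

end Cfsg.Agent.S3939
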