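import Mathlib
import Cfsg.Statements.S3941

set_option autoImplicit false
open Cfsg

namespace Cfsg.Agent.S3941


/-- Let n ≥ 5 and p an odd prime with p ≤ n, and suppose that every proper subgroup of the alternating group of degree n whose order is divisible by p has a normal Sylow p-subgroup. Then n = p. -/
theorem result (n p : ℕ) (hn : 5 ≤ n) [Fact p.Prime] (hp : p ≠ 2) (hpn : p ≤ n)
    (h : ∀ H : Subgroup ↥(alternatingGroup (Fin n)), H ≠ ⊤ → p ∣ Nat.card ↥H → Cfsg.IsPClosed p ↥H) : n = p := by
  classical
  by_contra hne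
  have hp' : p.Prime := Fact.out
  let s : Finset (Fin n) := Finset.univ.erase ⟨0, by omega⟩
  have hs : Nat.card s = n - 1 := by simp [s]
  haveI : Nontrivial s := Finite.one_lt_card_iff_nontrivial.mp (by omega)
  haveI : Nontrivial (Fin n) := Fin.nontrivial_iff_two_le.mpr (by omega)
  let e := MonoidHom.ofInjective (alternatingGroup.ofSubtype_injective (s := s))
  have hc : 2 * Nat.card (alternatingGroup s) = (n - 1).factorial := by
    rw [two_mul_nat_card_alternatingGroup, Nat.card_perm, hs]
  have hc' : 2 * Nat.card (alternatingGroup (Fin n)) = n.factorial := by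
    rw [two_mul_nat_card_alternatingGroup, Nat.card_perm, Nat.card_fin]
  have hd : p ∣ Nat.card (alternatingGroup.ofSubtype s).range := by
    rw [← Nat.card_congr e.toEquiv]
    refine ((Nat.coprime_primes hp' Nat.prime_two).mpr hp).dvd_of_dvd_mul_left ?_
    rw [hc]
    exact hp'.dvd_factorial.mpr (by omega)
  obtain ⟨P⟩ : Nonempty (Sylow p (alternatingGroup.ofSubtype s).range) := inferInstance
  have hP := h _ (fun ht => by
    have h1 := Nat.card_congr e.toEquiv
    rw [ht, Subgroup.card_top] at h1
    have := Nat.factorial_lt (n := n - 1) (m := n) (by omega)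
    omega) hd P
  let N := (P : Subgroup _).comap e.toMonoidHom
  haveI : N.Normal := hP.comap _
  have hN : IsPGroup p N := P.isPGroup'.comap_of_injective _ e.injective
  have hN1 : N ≠ ⊥ := fun h1 => P.ne_bot_of_dvd_card hd (by
    rw [← Subgroup.map_comap_eq_self_of_surjective (f := e.toMonoidHom) e.surjective P]
    exact (congrArg _ h1).trans (Subgroup.map_bot _))
  by_cases h5 : 5 ≤ Nat.card s
  · haveI := alternatingGroup.isSimpleGroup h5
    have h1 : N = ⊤ := (Subgroup.Normal.eq_bot_or_eq_top inferInstance).resolve_left hN1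
    rw [h1] at hN
    obtain ⟨k, hk⟩ := hN.exists_card_eq
    rw [Subgroup.card_top] at hk
    have h2 : 2 ∣ p ^ k := by
      have : Nat.factorial 4 ∣ (n - 1).factorial := Nat.factorial_dvd_factorial (by omega)
      rw [← hc, hk, show Nat.factorial 4 = 24 from rfl] at this
      omega
    exact hp ((Nat.prime_dvd_prime_iff_eq Nat.prime_two hp').mp
      (Nat.prime_two.dvd_of_dvd_pow h2)).symm
  have h4 : Nat.card s = 4 := by omega
  haveI : Fact (Nat.Prime 2) := ⟨Nat.prime_two⟩
  have h1 : Disjoint N (commutator (alternatingGroup s)) :=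
    IsPGroup.disjoint_of_ne p 2 hp _ _ hN (IsPGroup.of_card (n := 2) (by
      rw [← alternatingGroup.kleinFour_eq_commutator h4,
        alternatingGroup.kleinFour_card_of_card_eq_four h4]; rfl))
  refine hN1 (eq_bot_iff.mpr ?_)
  rw [← alternatingGroup.center_eq_bot h4.ge, ← Subgroup.centralizer_univ, ← Subgroup.coe_top,
    ← Subgroup.commutator_eq_bot_iff_le_centralizer, eq_bot_iff]
  exact h1.le_bot.trans' (le_inf (Subgroup.commutator_le_left _ _)
    (Subgroup.commutator_mono le_top le_rfl))

end Cfsg.Agent.S3941
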