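import Mathlib
import Cfsg.Statements.S3972
import Cfsg.Agent.Lib.Perm75.Schur

set_option autoImplicit false
open Cfsg

namespace Cfsg.Agent.S3972

open Pointwise in
/-- Let `p` be a prime, `m ≥ 2`, and `G` a transitive but not doubly transitive permutation group on `p ^ m` points containing a permutation of order `p ^ m` (necessarily a full cycle). Then `G` is imprimitive, and the normal closure in `G` of the `p ^ (m - 1)`-th power of that permutation is an intransitive normal subgroup. -/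
theorem result {Ω : Type*} [Fintype Ω] [DecidableEq Ω] (p m : ℕ) (hp : p.Prime) (hm : 2 ≤ m) (hΩ : Fintype.card Ω = p ^ m) (G : Subgroup (Equiv.Perm Ω)) (htr : MulAction.IsPretransitive G Ω) (h2 : ¬ MulAction.IsMultiplyPretransitive G Ω 2) (g : G) (hg : orderOf g = p ^ m) : ¬ MulAction.IsPreprimitive G Ω ∧ ¬ MulAction.IsPretransitive (Subgroup.normalClosure ({g ^ (p ^ (m - 1))} : Set G)) Ω := by

  have hz : g ^ p ^ (m - 1) ≠ 1 := by
    intro h
    have h1 := orderOf_dvd_of_pow_eq_one h
    rw [hg, Nat.pow_dvd_pow_iff_le_right hp.one_lt] at h1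
    omega
  obtain ⟨ω, hω⟩ : ∃ ω : Ω, g ^ p ^ (m - 1) • ω ≠ ω := by
    by_contra h
    push Not at h
    exact hz (Subtype.ext (Equiv.ext h))
  have hfree := (H75.pow_smul_eq_or_free hp hg ω).resolve_left hω
  have hcard : Nat.card (Subgroup.zpowers g) = p ^ m := by rw [Nat.card_zpowers, hg]
  have hb : Function.Bijective fun a : Subgroup.zpowers g => (Subgroup.zpowers g).subtype a • ω := by
    rw [Nat.bijective_iff_injective_and_card]
    refine ⟨fun a b hab => ?_, by rw [hcard, Nat.card_eq_fintype_card, hΩ]⟩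
    have := hfree _ (a⁻¹ * b).2 (by
      rw [Subgroup.coe_mul, mul_smul, Subgroup.coe_inv, inv_smul_eq_iff]
      exact hab.symm)
    rw [Subgroup.coe_mul, Subgroup.coe_inv, inv_mul_eq_one] at this
    exact Subtype.ext this
  have hnp : ¬ MulAction.IsPreprimitive G Ω := by
    intro h
    refine h2 (H75.two_trans_of_regular_cyclic _ ω hb h ?_ ?_)
    · rw [hcard]; exact (Nat.one_lt_pow (by omega) hp.one_lt).ne'
    · rw [hcard]; exact Nat.Prime.not_prime_pow hm
  refine ⟨hnp, fun hN => hnp ?_⟩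
  refine { toIsPretransitive := htr, isTrivialBlock_of_isBlock := fun {B} hB => ?_ }
  by_contra hnt
  rw [MulAction.IsTrivialBlock, not_or, Set.not_subsingleton_iff] at hnt
  obtain ⟨⟨x, hx, y, hy, hxy⟩, hU⟩ := hnt
  have htrA : ∀ u v : Ω, ∃ a ∈ Subgroup.zpowers g, a • u = v := by
    intro u v
    obtain ⟨a, rfl⟩ := hb.2 u
    obtain ⟨b, rfl⟩ := hb.2 v
    refine ⟨b * a⁻¹, (b * a⁻¹).2, ?_⟩
    simp [mul_smul]
  have hzB : g ^ p ^ (m - 1) • B = B := by
    refine (H75.pow_smul_eq_or_free hp hg B).resolve_right fun h => ?_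
    obtain ⟨a, ha, hax⟩ := htrA x y
    have := h a ha (hB.smul_eq_of_mem hx (hax ▸ hy))
    rw [this, one_smul] at hax
    exact hxy hax
  have hle : Subgroup.normalClosure ({g ^ (p ^ (m - 1))} : Set G) ≤
      (MulAction.stabilizer G B).normalCore := by
    apply Subgroup.normalClosure_le_normal
    rintro _ rfl
    intro h
    rw [MulAction.mem_stabilizer_iff, mul_smul, mul_smul]
    obtain ⟨a, ⟨k, rfl⟩, hax⟩ := htrA x (h⁻¹ • x)
    simp only at hax
    have h1 : (h * g ^ k) • B = B := hB.smul_eq_of_mem hx (by rw [mul_smul, hax, smul_inv_smul]; exact hx)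
    have h2 : h⁻¹ • B = g ^ k • B := by rw [inv_smul_eq_iff, ← mul_smul, h1]
    rw [h2, ← mul_smul (g ^ p ^ (m - 1)), ← zpow_natCast, ← zpow_add, add_comm, zpow_add, zpow_natCast,
      mul_smul, hzB, ← mul_smul, h1]
  apply hU
  rw [Set.eq_univ_iff_forall]
  intro v
  obtain ⟨n, hn⟩ := hN.exists_smul_eq x v
  have h3 := Subgroup.normalCore_le _ (hle n.2)
  rw [MulAction.mem_stabilizer_iff] at h3
  rw [← h3, ← hn]
  exact Set.smul_mem_smul_set hx

end Cfsg.Agent.S3972
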