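import Mathlib
import Cfsg.Agent.Base
import Cfsg.Agent.Lib.LocEven.Basic
import Cfsg.Agent.Lib.Invol.BaerSuzuki
import Cfsg.Agent.Lib.Invol.Dihedral
import Cfsg.Agent.Lib.Core.CoprimeSylow
import Cfsg.Agent.Lib.Core.HallSZ
import Cfsg.Agent.Lib.Inv73.Basic
import Cfsg.Agent.Lib.H71.Sidki
import Cfsg.Agent.Lib.Block.PPart
import Cfsg.Agent.Lib.Core.GrpBasic
import Cfsg.Statements.S3982

set_option autoImplicit false
open Cfsg

namespace Cfsg.Agent.S3982

open scoped Pointwise

/-- Let p be an odd prime and G a finite group of even order divisible by p in which the centralizer of every non-identity p-element has odd order. If some nontrivial p-subgroup of G has a normalizer of even order, then the normalizer of every Sylow p-subgroup of G has even order. -/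
theorem result {G : Type*} [Group G] [Finite G] (p : ℕ) [Fact p.Prime] (hp2 : p ≠ 2) (hpG : p ∣ Nat.card G) (h2G : 2 ∣ Nat.card G) (hC : ∀ g : G, g ≠ 1 → (∃ k : ℕ, orderOf g = p ^ k) → Odd (Nat.card ↥(Subgroup.centralizer ({g} : Set G)))) (Q : Subgroup G) (hQ : IsPGroup p ↥Q) (hQ1 : Q ≠ ⊥) (hev : Even (Nat.card ↥(Subgroup.normalizer (Q : Set G)))) (P : Sylow p G) : Even (Nat.card ↥(Subgroup.normalizer ((P : Subgroup G) : Set G))) := by
  have hp : p.Prime := Fact.out
  obtain ⟨y, hyQ, hy⟩ := (H9.even_card_iff_exists_involution _).1 hev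
  have hyy : y * y = 1 := H9.mul_self_of_orderOf_two hy
  have hfix : ∀ g : G, H35.IsPElt p g → Commute g y → g = 1 := by
    intro g hg hc
    by_contra hne
    have := hC g hne hg
    rw [H9.odd_card_iff_forall_orderOf_ne_two] at this
    exact this y (Subgroup.mem_centralizer_singleton_iff.2 hc.symm.eq) hy
  obtain ⟨R, ⟨hR, hQR, hyR⟩, hmax⟩ := (Set.toFinite {R : Subgroup G | IsPGroup p R ∧ Q ≤ R ∧
    y ∈ Subgroup.normalizer (R : Set G)}).exists_maximal ⟨Q, hQ, le_rfl, hyQ⟩
  have hinv : ∀ r ∈ R, y * r * y⁻¹ = r⁻¹ := H73.inverts_of_fpf hyy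
    (fun n hn => H68.conj_mem_of_mem_normalizer hyR hn)
    (fun n hn hc => hfix n (H35.isPElt_of_mem hR hn) hc)
  set C := Subgroup.centralizer (R : Set G) with hCdef
  have hRC : R ≤ C := fun a ha b hb => (H73.commute_of_inverts hinv hb ha).eq
  have hCodd : Odd (Nat.card C) := by
    obtain ⟨⟨r, hr⟩, hr1⟩ := Subgroup.ne_bot_iff_exists_ne_one.1 hQ1
    have hr1' : r ≠ 1 := fun e => hr1 (Subtype.ext e)
    refine Odd.of_dvd_nat (hC r hr1' (H35.isPElt_of_mem hQ hr)) (Subgroup.card_dvd_of_le ?_)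
    exact Subgroup.centralizer_le (Set.singleton_subset_iff.2 (hQR hr))
  have hAC : Subgroup.zpowers y ≤ Subgroup.normalizer (C : Set G) :=
    H2.le_normalizer_centralizer (Subgroup.zpowers_le.2 hyR)
  have hcop : (Nat.card (Subgroup.zpowers y)).Coprime (Nat.card C) := by
    rw [Nat.card_zpowers, hy]; exact Nat.coprime_two_left.2 hCodd
  obtain ⟨T, hT, hRT, hAT⟩ := H2.exists_invariant_sylowIn_ge hAC hcop
    (Or.inl (H2.isSolvable_zpowers y)) hRC hR (Subgroup.zpowers_le.2 hyR)
  have hTR : T = R := le_antisymm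
    (hmax ⟨hT.isPGroup, hQR.trans hRT, hAT (Subgroup.mem_zpowers y)⟩ hRT) hRT
  subst hTR
  obtain ⟨S, hS⟩ := H73.exists_sylow_eq_of_normalizer_le hR (fun n hn hnp => by
    have hnp' : H35.IsPElt p n := by
      obtain ⟨k, hk⟩ := hR ⟨_, hnp⟩
      have : (n ^ p) ^ p ^ k = 1 := congrArg Subtype.val hk
      exact H35.isPElt_of_pow_eq_one (k := k + 1) (by rwa [← pow_mul, ← pow_succ'] at this)
    have hnC : n ∈ C := by
      obtain ⟨c, hc, hm⟩ := H2.exists_mul_mem_centralizer' hAC hcop
        (Or.inl (H2.isSolvable_zpowers y)) (g := n) (by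
          intro a ha
          rcases (H73.mem_zpowers_of_mul_self hyy).1 ha with rfl | rfl
          · simp
          · intro r hr
            have h1 := hinv r⁻¹ (inv_mem hr)
            have h2 := hinv _ (H68.conj_mem_of_mem_normalizer' hn (inv_mem hr))
            have h3 : a⁻¹ * r * a = r⁻¹ := by
              rw [inv_inv] at h1
              calc a⁻¹ * r * a = a⁻¹ * (a * r⁻¹ * a⁻¹) * a := by rw [h1]
                _ = r⁻¹ := by group
            calc r * (n * a * n⁻¹ * a⁻¹) = n * (n⁻¹ * r⁻¹ * n)⁻¹ * a * n⁻¹ * a⁻¹ := by group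
              _ = n * (a * (n⁻¹ * r⁻¹ * n) * a⁻¹) * a * n⁻¹ * a⁻¹ := by rw [h2]
              _ = n * a * n⁻¹ * (r⁻¹) * a⁻¹ := by group
              _ = n * a * n⁻¹ * (a⁻¹ * r * a) * a⁻¹ := by rw [h3]
              _ = n * a * n⁻¹ * a⁻¹ * r := by group)
      have hmy : Commute (c * n) y := (hm y (Subgroup.mem_zpowers y)).symm
      have hnd : ¬ p ∣ orderOf (c * n) := by
        rw [← H35.pPart_eq_one_iff p]
        exact hfix _ (H35.isPElt_pPart p _) (H35.commute_pPart_of_commute p hmy.symm).symm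
      have hpw : ∀ k : ℕ, ∀ r ∈ T, (c * n) ^ k * r * ((c * n) ^ k)⁻¹ = n ^ k * r * (n ^ k)⁻¹ := by
        intro k
        induction k with
        | zero => simp
        | succ k ih =>
          intro r hr
          have h1 := H68.conj_mem_of_mem_normalizer (pow_mem hn (k + 1)) hr
          have h2 := hc _ h1
          calc (c * n) ^ (k + 1) * r * ((c * n) ^ (k + 1))⁻¹
              = c * n * ((c * n) ^ k * r * ((c * n) ^ k)⁻¹) * n⁻¹ * c⁻¹ := by
                rw [pow_succ']; simp only [mul_inv_rev, mul_assoc]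
            _ = c * (n ^ (k + 1) * r * (n ^ (k + 1))⁻¹) * c⁻¹ := by
                rw [ih r hr, pow_succ']; group
            _ = _ := by rw [← h2]; group
      intro r hr
      have h1 := hpw (orderOf (c * n)) r hr
      rw [pow_orderOf_eq_one] at h1
      refine (H71.commute_of_commute_pow (w := r) (n := orderOf (c * n))
        (H35.coprime_orderOf hnp' hnd).symm ?_).eq
      have : n ^ orderOf (c * n) * r = r * n ^ orderOf (c * n) := by
        rw [← mul_inv_eq_iff_eq_mul, ← h1]; group
      exact this.symm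
    have := hT.eq_of_le (H9.isPGroup_sup_of_le_normalizer hR (H35.isPElt_iff_zpowers.1 hnp')
      (Subgroup.zpowers_le.2 hn)) le_sup_left (sup_le hRC (Subgroup.zpowers_le.2 hnC))
    exact this ▸ Subgroup.mem_sup_right (Subgroup.mem_zpowers n))
  obtain ⟨a, ha⟩ := MulAction.exists_smul_eq G S P
  have : (P : Subgroup G) = MulAut.conj a • (S : Subgroup G) := by
    rw [← ha]; rfl
  rw [this, H1.normalizer_conj_smul, H1.card_conj_smul, hS]
  exact (H9.even_card_iff_exists_involution _).2 ⟨y, hyR, hy⟩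

end Cfsg.Agent.S3982
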