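import Mathlib
import Cfsg.Agent.Base
import Cfsg.Agent.Lib.FGS.SylowTI
import Cfsg.Agent.Lib.LocEven.Basic
import Cfsg.Statements.S3983

set_option autoImplicit false
open scoped Pointwise
open Cfsg

namespace Cfsg.Agent.S3983

/-- Let P be a Sylow p-subgroup of the finite group G that meets each conjugate g P g⁻¹ with g outside N_G(P) trivially, and let U be a subgroup of G of order divisible by p. Then a Sylow p-subgroup Q of U has the same property inside U: Q meets each conjugate u Q u⁻¹ with u ∈ U outside N_U(Q) trivially. -/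
theorem result {G : Type*} [Group G] [Finite G] (p : ℕ) [Fact p.Prime] (P : Sylow p G) (hTI : ∀ g : G, g ∉ Subgroup.normalizer ((P : Subgroup G) : Set G) → (P : Subgroup G) ⊓ (MulAut.conj g • (P : Subgroup G)) = ⊥) (U : Subgroup G) (hU : p ∣ Nat.card ↥U) (Q : Sylow p ↥U) : ∀ u : ↥U, u ∉ Subgroup.normalizer ((Q : Subgroup ↥U) : Set ↥U) → (Q : Subgroup ↥U) ⊓ (MulAut.conj u • (Q : Subgroup ↥U)) = ⊥ := by
  rw [H79.sylow_ti_iff] at hTI ⊢
  intro A B x hx hA hB
  obtain ⟨A', hA'⟩ := (A.isPGroup'.map U.subtype).exists_le_sylow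
  obtain ⟨B', hB'⟩ := (B.isPGroup'.map U.subtype).exists_le_sylow
  have := hTI A' B' x (fun e => hx (Subtype.ext e)) (hA' ⟨x, hA, rfl⟩) (hB' ⟨x, hB, rfl⟩)
  subst this
  have h1 := A.is_maximal' (H68.isPGroup_subgroupOf A'.isPGroup' U)
    (Subgroup.map_le_iff_le_comap.1 hA')
  have h2 := B.is_maximal' (H68.isPGroup_subgroupOf A'.isPGroup' U)
    (Subgroup.map_le_iff_le_comap.1 hB')
  exact Sylow.ext (h1.symm.trans h2)

end Cfsg.Agent.S3983
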