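import Mathlib
import Cfsg.Agent.Base
import Cfsg.Agent.Lib.FGS.SylowTI
import Cfsg.Agent.Lib.Core.HallSZ
import Cfsg.Agent.Lib.Block.PPart
import Cfsg.Statements.S3984

set_option autoImplicit false
open scoped Pointwise
open Cfsg

namespace Cfsg.Agent.S3984

/-- Let P be a Sylow p-subgroup of the finite group G that meets each conjugate g P g⁻¹ with g outside N_G(P) trivially, and let N be a normal subgroup of G of order prime to p. Then every Sylow p-subgroup Q of G ⧸ N meets each conjugate x Q x⁻¹ with x outside its normalizer trivially. -/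
theorem result {G : Type*} [Group G] [Finite G] (p : ℕ) [Fact p.Prime] (P : Sylow p G) (hTI : ∀ g : G, g ∉ Subgroup.normalizer ((P : Subgroup G) : Set G) → (P : Subgroup G) ⊓ (MulAut.conj g • (P : Subgroup G)) = ⊥) (N : Subgroup G) [N.Normal] (hN : (Nat.card ↥N).Coprime p) (Q : Sylow p (G ⧸ N)) : ∀ x : G ⧸ N, x ∉ Subgroup.normalizer ((Q : Subgroup (G ⧸ N)) : Set (G ⧸ N)) → (Q : Subgroup (G ⧸ N)) ⊓ (MulAut.conj x • (Q : Subgroup (G ⧸ N))) = ⊥ := by
  have hp : p.Prime := Fact.out
  rw [H79.sylow_ti_iff] at hTI ⊢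
  intro A B x hx hA hB
  obtain ⟨A', rfl⟩ := Sylow.mapSurjective_surjective (QuotientGroup.mk'_surjective N) p A
  obtain ⟨B', rfl⟩ := Sylow.mapSurjective_surjective (QuotientGroup.mk'_surjective N) p B
  obtain ⟨a, ha, rfl⟩ := hA
  obtain ⟨b, hb, hab⟩ := hB
  have hle : Subgroup.zpowers b ≤ N ⊔ (A' : Subgroup G) := by
    rw [Subgroup.zpowers_le]
    have : b * a⁻¹ ∈ N := by
      rw [← QuotientGroup.eq_one_iff]
      simp only [QuotientGroup.mk'_apply] at hab
      simp [hab]
    have e : b = b * a⁻¹ * a := by group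
    rw [e]
    exact mul_mem (Subgroup.mem_sup_left this) (Subgroup.mem_sup_right ha)
  obtain ⟨e, he, hle'⟩ := H3.exists_conj_le_of_isPGroup (N := N) (K := (A' : Subgroup G))
    (Subgroup.le_normalizer_of_normal) (B'.isPGroup'.to_le (Subgroup.zpowers_le.2 hb)) hle
    ((Nat.Prime.coprime_iff_not_dvd hp).1 hN.symm)
  have hb1 : e * b * e⁻¹ ≠ 1 := by
    intro h
    apply hx
    have : b = 1 := by
      calc b = e⁻¹ * (e * b * e⁻¹) * e := by group
        _ = 1 := by rw [h]; group
    rw [← hab, this, map_one]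
  have := hTI A' (e • B') _ hb1 (hle' (H1.conj_mem_conj_smul (Subgroup.mem_zpowers b)))
    (H1.conj_mem_conj_smul hb)
  apply Sylow.ext
  rw [this, Sylow.coe_mapSurjective, Sylow.coe_mapSurjective, Sylow.coe_subgroup_smul,
    H1.map_conj_smul, QuotientGroup.mk'_apply, (QuotientGroup.eq_one_iff e).2 he]
  simp

end Cfsg.Agent.S3984
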