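import Mathlib
import Cfsg.Agent.Base
import Cfsg.Agent.Lib.FGS.SylowTI
import Cfsg.Agent.Lib.Core.CoprimeAbelian
import Cfsg.Agent.Lib.Block.PPart
import Cfsg.Agent.Lib.FGS.CyclicAux
import Cfsg.Agent.Lib.Invol.BaerSuzuki
import Cfsg.Statements.S3985

set_option autoImplicit false
open scoped Pointwise
open Cfsg

namespace Cfsg.Agent.S3985

/-- Let P be a cyclic Sylow p-subgroup of the finite group G. Then P meets each conjugate g P g⁻¹ with g outside N_G(P) trivially if and only if P is weakly self-centralizing: C_G(x) = C_G(P) for every non-identity x ∈ P. -/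
theorem result {G : Type*} [Group G] [Finite G] (p : ℕ) [Fact p.Prime] (P : Sylow p G) (hcyc : IsCyclic ↥(P : Subgroup G)) : (∀ g : G, g ∉ Subgroup.normalizer ((P : Subgroup G) : Set G) → (P : Subgroup G) ⊓ (MulAut.conj g • (P : Subgroup G)) = ⊥) ↔ ∀ x : G, x ∈ (P : Subgroup G) → x ≠ 1 → Subgroup.centralizer ({x} : Set G) = Subgroup.centralizer ((P : Subgroup G) : Set G) := by
  have hp : p.Prime := Fact.out
  have hcomm : IsMulCommutative (P : Subgroup G) := inferInstance
  have hPC : (P : Subgroup G) ≤ Subgroup.centralizer ((P : Subgroup G) : Set G) :=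
    fun a ha b hb => congrArg Subtype.val (hcomm.is_comm.comm (⟨b, hb⟩ : (P : Subgroup G)) ⟨a, ha⟩)
  constructor
  · intro h x hx hx1
    refine le_antisymm ?_ (Subgroup.centralizer_le (Set.singleton_subset_iff.2 hx))
    have hN : Subgroup.centralizer ({x} : Set G) ≤ Subgroup.normalizer ((P : Subgroup G) : Set G) := by
      intro c hc
      by_contra hn
      have h1 := h c hn
      have : x ∈ (P : Subgroup G) ⊓ (MulAut.conj c • (P : Subgroup G)) := by
        refine ⟨hx, ?_⟩
        show x ∈ (MulAut.conj c • (P : Subgroup G))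
        rw [H1.mem_conj_smul_iff]
        rw [Subgroup.mem_centralizer_singleton_iff] at hc
        rwa [mul_assoc, ← hc, inv_mul_cancel_left]
      rw [h1, Subgroup.mem_bot] at this
      exact hx1 this
    intro c hc
    rw [H35.mem_iff_pPart_mem_and_pReg_mem p]
    constructor
    · apply hPC
      have h1 := hN (H35.pPart_mem p hc)
      have := P.is_maximal' (H9.isPGroup_sup_of_le_normalizer P.isPGroup'
        (H35.isPElt_iff_zpowers.1 (H35.isPElt_pPart p c)) (Subgroup.zpowers_le.2 h1)) le_sup_left
      exact this ▸ Subgroup.mem_sup_right (Subgroup.mem_zpowers _)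
    · have hc' := H35.pReg_mem p hc
      have h1 := hN hc'
      rw [← Subgroup.zpowers_le]
      apply H2.le_centralizer_of_prime_order hcomm (Subgroup.zpowers_le.2 h1)
      · apply H2.coprime_card_of_isPGroup _ P.isPGroup'
        rw [Nat.card_zpowers]
        exact ((Nat.Prime.coprime_iff_not_dvd hp).2 (H35.not_dvd_orderOf_pReg p c)).symm
      · intro v hv hvp
        have hvx : v ∈ Subgroup.zpowers x := by
          apply H80.mem_zpowers_of_orderOf_dvd hcyc hv hx
          obtain ⟨k, hk⟩ := H35.isPElt_of_mem P.isPGroup' hv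
          have : orderOf v = p := by
            rw [hk] at hvp ⊢
            rw [hvp.eq_one_of_pow, pow_one]
          rw [this]
          exact (H35.isPElt_of_mem P.isPGroup' hx).dvd_orderOf hx1
        have : Subgroup.zpowers x ≤ Subgroup.centralizer (Subgroup.zpowers (H35.pReg p c) : Set G) := by
          rw [Subgroup.zpowers_le, ← Subgroup.zpowers_le, Subgroup.le_centralizer_iff,
            Subgroup.zpowers_le]
          intro y hy
          obtain ⟨k, rfl⟩ := hy
          exact (Commute.zpow_right (Subgroup.mem_centralizer_singleton_iff.1 hc') k).symm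
        exact this hvx
  · intro h g hg
    rw [eq_bot_iff]
    intro x hx
    by_contra hne
    have hne' : x ≠ 1 := hne
    apply hg
    have h1 := h x hx.1 hne'
    have hx2 : g⁻¹ * x * g ∈ (P : Subgroup G) := H1.mem_conj_smul_iff.1 hx.2
    have h2 := h _ hx2 (fun e => hne' (by
      calc x = g * (g⁻¹ * x * g) * g⁻¹ := by group
        _ = 1 := by rw [e]; group))
    have h3 : MulAut.conj g • (P : Subgroup G) ≤ Subgroup.centralizer ((P : Subgroup G) : Set G) := by
      rw [← h1]
      intro y hy
      have := hPC (H1.mem_conj_smul_iff.1 hy)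
      rw [← h2, Subgroup.mem_centralizer_singleton_iff] at this
      rw [Subgroup.mem_centralizer_singleton_iff]
      calc y * x = g * (g⁻¹ * y * g * (g⁻¹ * x * g)) * g⁻¹ := by group
        _ = x * y := by rw [this]; group
    have h4 := P.is_maximal' (H9.isPGroup_sup_of_le_normalizer P.isPGroup' (g • P).isPGroup'
      (h3.trans (Subgroup.centralizer_le_normalizer _))) le_sup_left
    have h5 : ((g • P : Sylow p G) : Subgroup G) ≤ P := h4 ▸ le_sup_right
    exact Sylow.smul_eq_iff_mem_normalizer.1
      (Sylow.ext ((g • P).is_maximal' P.isPGroup' h5).symm)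

end Cfsg.Agent.S3985
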