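import Mathlib
import Cfsg.Agent.Base
import Cfsg.Agent.Lib.FGS.DirFactor
import Cfsg.Statements.S3986

set_option autoImplicit false
open Cfsg

namespace Cfsg.Agent.S3986

/-- Let p be a prime and G a finite group. Then some Sylow p-subgroup of G is a direct factor of G (it is normal and has a normal complement) if and only if every element of p-power order commutes with every element whose order is a power of a prime other than p. -/
theorem result {G : Type*} [Group G] [Finite G] (p : ℕ) [Fact p.Prime] : (∃ (P : Sylow p G) (K : Subgroup G), (P : Subgroup G).Normal ∧ K.Normal ∧ (P : Subgroup G) ⊓ K = ⊥ ∧ (P : Subgroup G) ⊔ K = ⊤) ↔ ∀ x y : G, (∃ a : ℕ, orderOf x = p ^ a) → (∃ q b : ℕ, q.Prime ∧ q ≠ p ∧ orderOf y = q ^ b) → x * y = y * x := by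
  have hp : p.Prime := Fact.out
  constructor
  · rintro ⟨P, K, hP, hK, h1, h2⟩ x y hx ⟨q, b, hq, hne, hy⟩
    obtain ⟨a1, a2, a3, -⟩ := H79.direct_factor_facts P K h1 h2
    exact a3 x (a1 x hx) y (a2 y (H79.not_dvd_orderOf_of_isPElt_ne hp hq hne ⟨b, hy⟩))
  · intro h
    obtain ⟨P⟩ : Nonempty (Sylow p G) := inferInstance
    have hc : ∀ (q : ℕ) (y : G), q.Prime → q ≠ p → H35.IsPElt q y →
        y ∈ Subgroup.centralizer ((P : Subgroup G) : Set G) := by
      rintro q y hq hne ⟨b, hb⟩ x hx
      exact h x y (H35.isPElt_of_mem P.isPGroup' hx) ⟨q, b, hq, hne, hb⟩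
    haveI hP : (P : Subgroup G).Normal := by
      rw [← Subgroup.normalizer_eq_top_iff, ← Subgroup.index_eq_one]
      by_contra hne
      obtain ⟨q, hq, hqd⟩ := Nat.exists_prime_and_dvd hne
      haveI := Fact.mk hq
      by_cases hqp : q = p
      · subst hqp
        exact H80.not_dvd_index_of_sylow_le P Subgroup.le_normalizer hqd
      · obtain ⟨Q⟩ : Nonempty (Sylow q G) := inferInstance
        refine H80.not_dvd_index_of_sylow_le Q (fun y hy => ?_) hqd
        exact Subgroup.centralizer_le_normalizer _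
          (hc q y hq hqp (H35.isPElt_of_mem Q.isPGroup' hy))
    obtain ⟨K, hK, -, h1, h2⟩ := H79.exists_normal_compl_of_centralizes P hc
    exact ⟨P, K, hP, hK, h1, h2⟩

end Cfsg.Agent.S3986
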