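import Mathlib
import Cfsg.Agent.Base
import Cfsg.Agent.Lib.FGS.DirFactor
import Cfsg.Agent.S3986
import Cfsg.Statements.S3987

set_option autoImplicit false
open Cfsg

namespace Cfsg.Agent.S3987

/-- Let p be a prime and G a finite group. Then some Sylow p-subgroup of G is a direct factor of G (normal with a normal complement) if and only if for every element x of p-power order and every element y whose order is a power of a prime other than p, the conjugacy class of x y has as many elements as the product of the sizes of the classes of x and of y. -/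
theorem result {G : Type*} [Group G] [Finite G] (p : ℕ) [Fact p.Prime] : (∃ (P : Sylow p G) (K : Subgroup G), (P : Subgroup G).Normal ∧ K.Normal ∧ (P : Subgroup G) ⊓ K = ⊥ ∧ (P : Subgroup G) ⊔ K = ⊤) ↔ ∀ x y : G, (∃ a : ℕ, orderOf x = p ^ a) → (∃ q b : ℕ, q.Prime ∧ q ≠ p ∧ orderOf y = q ^ b) → (Subgroup.centralizer ({x * y} : Set G)).index = (Subgroup.centralizer ({x} : Set G)).index * (Subgroup.centralizer ({y} : Set G)).index := by
  have hp : p.Prime := Fact.out
  constructor
  · rintro ⟨P, K, hP, hK, h1, h2⟩ x y hx ⟨q, b, hq, hne, hy⟩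
    obtain ⟨a1, a2, a3, k, hk⟩ := H79.direct_factor_facts P K h1 h2
    have hy' := H79.not_dvd_orderOf_of_isPElt_ne hp hq hne ⟨b, hy⟩
    have hxP := a1 x hx
    have hyK := a2 y hy'
    rw [H80.Cx_mul_of_coprime (a3 x hxP y hyK) (H35.coprime_orderOf hx hy')]
    apply H80.index_inf_of_coprime
    have e1 : K ≤ Subgroup.centralizer ({x} : Set G) := fun z hz => by
      rw [H80.mem_Cx']; exact a3 x hxP z hz
    have e2 : (P : Subgroup G) ≤ Subgroup.centralizer ({y} : Set G) := fun z hz => by
      rw [H80.mem_Cx]; exact a3 z hz y hyK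
    refine Nat.Coprime.coprime_dvd_left (hk ▸ Subgroup.index_dvd_of_le e1) ?_
    exact Nat.Coprime.pow_left _ ((Nat.Prime.coprime_iff_not_dvd hp).2
      (H80.not_dvd_index_of_sylow_le P e2))
  · intro h
    rw [Cfsg.Agent.S3986.result]
    intro x y hx hy
    have e := h x y hx hy
    have hle := H80.inf_le_Cx_mul x y
    have h1 : (Subgroup.centralizer ({x} : Set G) ⊓ Subgroup.centralizer ({y} : Set G)).index ≤
        (Subgroup.centralizer ({x * y} : Set G)).index := e ▸ Subgroup.index_inf_le
    have h2 : Subgroup.centralizer ({x} : Set G) ⊓ Subgroup.centralizer ({y} : Set G) =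
        Subgroup.centralizer ({x * y} : Set G) := by
      by_contra hne
      have := Subgroup.index_strictAnti (lt_of_le_of_ne hle hne)
      omega
    have h3 : x * y ∈ Subgroup.centralizer ({x} : Set G) := (h2 ▸ H80.self_mem_Cx (x * y)).1
    rw [H80.mem_Cx, mul_assoc] at h3
    exact (mul_left_cancel h3).symm

end Cfsg.Agent.S3987
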