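import Cfsg.Statements.S3989
import Mathlib
import Cfsg.Agent.Lib.Core.GrpBasic
import Cfsg.Agent.Lib.FGS.PLength
import Cfsg.Agent.S0071

set_option autoImplicit false
open Cfsg

namespace Cfsg.Agent.S3989

universe u

theorem lift_pow {G G' : Type*} [Group G] [Finite G] [Group G'] (f : G →* G') (hf : Function.Surjective f)
    {r b : ℕ} (hr : r.Prime) {z : G'} (hz : z ^ r ^ b = 1) : ∃ y, f y = z ∧ ∃ c, y ^ r ^ c = 1 := by
  obtain ⟨y, rfl⟩ := hf z
  obtain ⟨c, m, hm, e⟩ := Nat.exists_eq_pow_mul_and_not_dvd (orderOf_pos y).ne' r hr.ne_one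
  have h1 : m.Coprime (orderOf (f y)) :=
    Nat.Coprime.coprime_dvd_right (orderOf_dvd_of_pow_eq_one hz)
      (((Nat.Prime.coprime_iff_not_dvd hr).2 hm).symm.pow_right b)
  obtain ⟨k, hk⟩ := exists_pow_eq_self_of_coprime h1
  refine ⟨(y ^ m) ^ k, by rw [map_pow, map_pow, hk], c, ?_⟩
  rw [← pow_mul, ← pow_mul, show m * (k * r ^ c) = r ^ c * m * k by ring, ← e, pow_mul, pow_orderOf_eq_one,
    one_pow]

theorem mem_of_parts {G : Type*} [Group G] (C : Subgroup G) {p : ℕ} (hp : p.Prime) (n : ℕ) :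
    0 < n → ∀ g : G, g ^ n = 1 → n.Coprime p →
      (∀ k q b : ℕ, q.Prime → q ≠ p → (g ^ k) ^ q ^ b = 1 → g ^ k ∈ C) → g ∈ C := by
  induction n using Nat.recOnPosPrimePosCoprime with
  | zero => exact fun h => absurd h (lt_irrefl 0)
  | one => exact fun _ g hg _ _ => by rw [← pow_one g, hg]; exact one_mem _
  | prime_pow q b hq hb =>
    intro _ g hg hc h
    have hq' : q.Prime := hq
    have := h 1 q b hq' (fun e => hp.one_lt.ne' (by
      rw [e] at hc
      exact Nat.Coprime.eq_one_of_dvd hc.symm (dvd_pow_self p hb.ne'))) (by rw [pow_one, hg])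
    rwa [pow_one] at this
  | coprime a b ha hb hab iha ihb =>
    intro _ g hg hc h
    have h1 : g ^ b ∈ C := iha (by omega) _ (by rw [← pow_mul, mul_comm, hg]) (Nat.Coprime.coprime_mul_right hc)
      fun k q c hq hn e => by rw [← pow_mul g] at e ⊢; exact h _ q c hq hn e
    have h2 : g ^ a ∈ C := ihb (by omega) _ (by rw [← pow_mul, hg]) (Nat.Coprime.coprime_mul_left hc)
      fun k q c hq hn e => by rw [← pow_mul g] at e ⊢; exact h _ q c hq hn e
    have h3 : g = (g ^ a) ^ Nat.gcdA a b * (g ^ b) ^ Nat.gcdB a b := by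
      rw [← zpow_natCast, ← zpow_natCast, ← zpow_mul, ← zpow_mul, ← zpow_add, ← Nat.gcd_eq_gcd_ab, hab]
      simp
    rw [h3]
    exact mul_mem (zpow_mem h2 _) (zpow_mem h1 _)

/-- if multiplication by the conjugates of `x` preserves the class of `y`, then `y` is not in a minimal normal
subgroup containing `x` -/
theorem eq_one_of_class {G : Type*} [Group G] [Finite G] {N : Subgroup G} [N.Normal]
    (hmin : ∀ K : Subgroup G, K.Normal → K ≤ N → K = ⊥ ∨ K = N) {x y : G} (hx : x ∈ N) (hy : y ∈ N) (x1 : x ≠ 1)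
    (h : ∀ a z, IsConj y z → IsConj y (a * x * a⁻¹ * z)) : y = 1 := by
  have mul : ∀ m n : G, (∀ a z, IsConj y z → IsConj y (a * m * a⁻¹ * z)) →
      (∀ a z, IsConj y z → IsConj y (a * n * a⁻¹ * z)) → ∀ a z, IsConj y z → IsConj y (a * (m * n) * a⁻¹ * z) :=
    fun m n hm hn a z hz => by
      have := hm a _ (hn a z hz)
      convert this using 1
      group
  let M : Subgroup G :=
    { carrier := {m | ∀ a z, IsConj y z → IsConj y (a * m * a⁻¹ * z)}
      one_mem' := fun a z hz => by simpa using hz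
      mul_mem' := fun {m n} hm hn => mul m n hm hn
      inv_mem' := fun {m} hm => by
        have pw : ∀ k : ℕ, ∀ a z, IsConj y z → IsConj y (a * m ^ k * a⁻¹ * z) := fun k => by
          induction k with
          | zero => exact fun a z hz => by simpa using hz
          | succ k ih => rw [pow_succ]; exact mul _ _ ih hm
        have e : m⁻¹ = m ^ (orderOf m - 1) := by
          rw [inv_eq_iff_mul_eq_one, ← pow_succ', Nat.sub_add_cancel (orderOf_pos m), pow_orderOf_eq_one]
        rw [e]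
        exact pw _ }
  have hM : M.Normal := ⟨fun m hm g a z hz => by
    have := hm (a * g) z hz
    convert this using 1
    group⟩
  rcases hmin (M ⊓ N) inferInstance inf_le_right with e | e
  · exact absurd (Subgroup.mem_bot.1 (e ▸ (⟨h, hx⟩ : x ∈ M ⊓ N))) x1
  · have h1 : y⁻¹ ∈ M := (e.ge (inv_mem hy)).1
    simpa using h1 1 y (IsConj.refl y)

theorem main (p : ℕ) [hp : Fact p.Prime] (n : ℕ) : ∀ (G : Type u) [Group G] [Finite G], Nat.card G = n →
    (∀ x y : G, (∃ a, x ^ p ^ a = 1) → (∃ q b : ℕ, q.Prime ∧ q ≠ p ∧ y ^ q ^ b = 1) →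
      ∀ a b : G, IsConj (x * y) (a * x * a⁻¹ * (b * y * b⁻¹))) → IsPSolvable p G := by
  induction n using Nat.strong_induction_on with
  | _ n ih =>
  intro G _ _ hn h
  rcases subsingleton_or_nontrivial G with hG | hG
  · exact H76.isPSolvable_of_coprime (by rw [Nat.card_of_subsingleton (1 : G)]; exact Nat.coprime_one_left p)
  obtain ⟨N, hN, n0, -, hmin⟩ := H1.exists_minimal_normal_le (⊤ : Subgroup G) top_ne_bot
  refine H76.isPSolvable_extension N ?_ (ih _ ?_ (G ⧸ N) rfl ?_)
  · obtain ⟨P⟩ : Nonempty (Sylow p N) := inferInstance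
    obtain ⟨K, hK, hc⟩ := (Cfsg.Agent.S0071.result P).2 fun Q hQ g hg ho => by
      refine mem_of_parts _ hp.out _ (orderOf_pos g) g (pow_orderOf_eq_one g) ho fun k q b hq hne e => ?_
      have hy := pow_mem hg k
      generalize g ^ k = y at e hy
      intro v hv
      by_contra hvy
      have xQ : v * (y * v⁻¹ * y⁻¹) ∈ Q := mul_mem hv ((Subgroup.mem_normalizer_iff.1 hy _).1 (inv_mem hv))
      obtain ⟨a, ha⟩ := P.isPGroup' ⟨_, hQ xQ⟩
      have ha : ((v * (y * v⁻¹ * y⁻¹) : N) : G) ^ p ^ a = 1 := congrArg (fun t : P => ((t : N) : G)) ha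
      have x1 : ((v * (y * v⁻¹ * y⁻¹) : N) : G) ≠ 1 := fun k => hvy (by
        have k : v * (y * v⁻¹ * y⁻¹) = 1 := Subtype.ext k
        calc v * y = v * (y * v⁻¹ * y⁻¹) * (y * v) := by group
          _ = y * v := by rw [k, one_mul])
      have c : IsConj (y : G) (((v * (y * v⁻¹ * y⁻¹) : N) : G) * y) :=
        isConj_iff.2 ⟨v, by push_cast; group⟩
      have y1 := eq_one_of_class (fun K a b => hmin K a b) (v * (y * v⁻¹ * y⁻¹)).2 y.2 x1 fun s z hz => by
        obtain ⟨t, rfl⟩ := isConj_iff.1 hz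
        exact c.trans (h _ _ ⟨a, ha⟩ ⟨q, b, hq, hne, congrArg Subtype.val e⟩ s t)
      exact hvy (by rw [show y = 1 from Subtype.ext y1, mul_one, one_mul])
    refine H76.isPSolvable_extension K (H76.isPSolvable_of_coprime ?_) (H76.isPSolvable_of_isPGroup ?_)
    · rw [← hc.index_eq_card]
      exact ((Nat.Prime.coprime_iff_not_dvd hp.out).2 P.not_dvd_index).symm
    · obtain ⟨m, hm⟩ := P.isPGroup'.exists_card_eq
      exact IsPGroup.of_card (n := m) (by rw [← hm, ← hc.symm.index_eq_card]; rfl)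
  · rw [← hn, ← N.index_mul_card]
    exact lt_mul_of_one_lt_right (Nat.pos_of_ne_zero N.index_ne_zero_of_finite) (N.one_lt_card_iff_ne_bot.2 n0)
  · rintro x y ⟨a, ha⟩ ⟨q, b, hq, hne, hb⟩ s t
    obtain ⟨x, rfl, hx⟩ := lift_pow (QuotientGroup.mk' N) (QuotientGroup.mk'_surjective N) hp.out ha
    obtain ⟨y, rfl, c, hy⟩ := lift_pow (QuotientGroup.mk' N) (QuotientGroup.mk'_surjective N) hq hb
    obtain ⟨s, rfl⟩ := QuotientGroup.mk'_surjective N s
    obtain ⟨t, rfl⟩ := QuotientGroup.mk'_surjective N t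
    simpa only [map_mul, map_inv] using (QuotientGroup.mk' N).map_isConj (h x y hx ⟨q, c, hq, hne, hy⟩ s t)

/-- Let p be a prime and G a finite group such that for every element x of p-power order and every element y whose order is a power of a prime other than p, the conjugacy class of x y is the set of all products of a conjugate of x with a conjugate of y. Then G is p-solvable. -/
theorem result {G : Type*} [Group G] [Finite G] (p : ℕ) [Fact p.Prime] (h : ∀ x y : G, (∃ a : ℕ, orderOf x = p ^ a) → (∃ q b : ℕ, q.Prime ∧ q ≠ p ∧ orderOf y = q ^ b) → ∀ z : G, IsConj (x * y) z ↔ ∃ a b : G, z = a * x * a⁻¹ * (b * y * b⁻¹)) : Cfsg.IsPSolvable p G := by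
  refine main p _ G rfl ?_
  rintro x y ⟨a, ha⟩ ⟨q, b, hq, hne, hb⟩ s t
  obtain ⟨c, -, hc⟩ := (Nat.dvd_prime_pow (Fact.out : p.Prime)).1 (orderOf_dvd_of_pow_eq_one ha)
  obtain ⟨d, -, hd⟩ := (Nat.dvd_prime_pow hq).1 (orderOf_dvd_of_pow_eq_one hb)
  exact (h x y ⟨c, hc⟩ ⟨q, d, hq, hne, hd⟩ _).2 ⟨s, t, rfl⟩

end Cfsg.Agent.S3989
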