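import Mathlib
import Cfsg.Agent.Base
import Cfsg.Agent.Lib.FGS.ClassSize
import Cfsg.Agent.Lib.FGS.Count
import Cfsg.Statements.S4013

set_option autoImplicit false
open Cfsg

namespace Cfsg.Agent.S4013

/-- Let G be a finite p-group (p prime) and N < M normal subgroups of G such that for some g ∈ M ∖ N the conjugacy class of g is exactly M ∖ N. Then p = 2 and N has index 2 in M. -/
theorem result {G : Type*} [Group G] [Finite G] (p : ℕ) [Fact p.Prime] (hG : IsPGroup p G) (N M : Subgroup G) [N.Normal] [M.Normal] (hNM : N < M) (g : G) (hgM : g ∈ M) (hgN : g ∉ N) (hcl : {h : G | IsConj g h} = (M : Set G) \ (N : Set G)) : p = 2 ∧ N.relIndex M = 2 := by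
  have hp : p.Prime := Fact.out
  have h1 := H80.ncard_isConj g
  rw [hcl, Set.ncard_diff (show (N : Set G) ⊆ M from hNM.le), H80.ncard_coe_subgroup,
    H80.ncard_coe_subgroup, ← H1.card_mul_relIndex_of_le hNM.le] at h1
  obtain ⟨n, hn⟩ := IsPGroup.iff_card.1 hG
  obtain ⟨a, -, ha⟩ := (Nat.dvd_prime_pow hp).1 (hn ▸ H80.cs_dvd_card g)
  have hd : N.relIndex M ∣ Nat.card G :=
    (Subgroup.index_dvd_card _).trans (Subgroup.card_subgroup_dvd_card M)
  obtain ⟨k, -, hk⟩ := (Nat.dvd_prime_pow hp).1 (hn ▸ hd)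
  have hk0 : k ≠ 0 := by
    rintro rfl
    rw [pow_zero, Subgroup.relIndex_eq_one] at hk
    exact hgN (hk hgM)
  have h2 : p ^ k - 1 ∣ p ^ a := by
    rw [← ha, ← h1, hk]
    exact ⟨Nat.card N, by rw [Nat.sub_mul, one_mul, mul_comm]⟩
  obtain ⟨b, -, hb⟩ := (Nat.dvd_prime_pow hp).1 h2
  have hb0 : b = 0 := by
    by_contra hb0
    have h3 : p ∣ p ^ k - 1 := hb ▸ dvd_pow_self p hb0
    have h4 : p ∣ p ^ k := dvd_pow_self p hk0
    have h5 := (Nat.dvd_sub_iff_right (Nat.one_le_pow _ _ hp.pos) h4).1 h3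
    exact hp.one_lt.ne' (Nat.dvd_one.1 h5)
  have h6 : p ^ k = 2 := by
    rw [hb0, pow_zero] at hb; omega
  exact ⟨(Nat.prime_dvd_prime_iff_eq hp Nat.prime_two).1 (h6 ▸ dvd_pow_self p hk0), hk.trans h6⟩

end Cfsg.Agent.S4013
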