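import Mathlib
import Cfsg.Statements.S4020
import Cfsg.Agent.Lib.FGS.ConjSub

set_option autoImplicit false
open Cfsg

namespace Cfsg.Agent.S4020


/-- Let G be a finite group in which, for every prime p, any two p-subgroups of the same order are conjugate. Then every Sylow subgroup of G is cyclic, elementary abelian, or a quaternion group of order 8. -/
theorem result {G : Type*} [Group G] [Finite G]
    (hD : ∀ p : ℕ, p.Prime → ∀ H K : Subgroup G, IsPGroup p H → IsPGroup p K → Nat.card H = Nat.card K →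
      ∃ g : G, K = H.map (MulAut.conj g).toMonoidHom) {p : ℕ} [Fact p.Prime] (P : Sylow p G) :
    IsCyclic P ∨ Cfsg.IsElementaryAbelian p (P : Subgroup G) ∨ Nonempty ((P : Subgroup G) ≃* QuaternionGroup 2) := by
  rcases H78.ConjSub.classify P.isPGroup'
    (H78.ConjSub.homog_of_conj P.isPGroup' (hD p Fact.out)) with h | h | h | ⟨h1, h2, h3, h4⟩
  · exact Or.inl h
  · exact Or.inr (Or.inl ⟨h.1, fun a ha => congrArg Subtype.val (h.2 ⟨a, ha⟩)⟩)
  · exact Or.inr (Or.inr h.2)
  refine (H78.ConjSub.false_of_cube h1 P h3 h2 (fun a ha => congrArg Subtype.val (h4 ⟨a, ha⟩))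
    (fun H K hH hK _ _ e => hD p Fact.out H K (P.isPGroup'.to_le hH) (P.isPGroup'.to_le hK) e)
    fun R hR u hu s hs => ?_).elim
  have h5 : IsMulCommutative R ∨ Nonempty (R ≃* QuaternionGroup 2) := by
    rcases H78.ConjSub.classify hR (H78.ConjSub.homog_of_conj hR (hD 2 Nat.prime_two)) with
      h | h | h | h
    · exact Or.inl inferInstance
    · exact Or.inl h.1
    · exact Or.inr h.2
    · exact absurd rfl h.1
  exact (H78.ConjSub.conj_eq_or_of_cases h5 ⟨u, hu⟩ ⟨s, hs⟩).imp (congrArg Subtype.val)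
    (congrArg Subtype.val)

end Cfsg.Agent.S4020
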