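import Mathlib
import Cfsg.Statements.S4023
import Cfsg.Agent.Lib.FGS.ConjSub

set_option autoImplicit false
open Cfsg

namespace Cfsg.Agent.S4023


/-- Let p be a prime and G a finite group in which any two p-subgroups of the same order are conjugate, with Sylow p-subgroup P. Then P is cyclic, or elementary abelian, or p = 2 and P is a quaternion group of order 8, or p is odd and P is non-abelian of order p³ and exponent p. -/
theorem result {G : Type*} [Group G] [Finite G]
    {p : ℕ} [Fact p.Prime] (hC : ∀ H K : Subgroup G, IsPGroup p H → IsPGroup p K → Nat.card H = Nat.card K →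
      ∃ g : G, K = H.map (MulAut.conj g).toMonoidHom) (P : Sylow p G) :
    IsCyclic P ∨ Cfsg.IsElementaryAbelian p (P : Subgroup G) ∨
      (p = 2 ∧ Nonempty ((P : Subgroup G) ≃* QuaternionGroup 2)) ∨
      (p ≠ 2 ∧ ¬ IsMulCommutative P ∧ Nat.card P = p ^ 3 ∧ Monoid.exponent P = p) := by
  rcases H78.ConjSub.classify P.isPGroup' (H78.ConjSub.homog_of_conj P.isPGroup' hC) with
    h | h | h | ⟨h1, h2, h3, h4⟩
  · exact Or.inl h
  · exact Or.inr (Or.inl ⟨h.1, fun a ha => congrArg Subtype.val (h.2 ⟨a, ha⟩)⟩)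
  · exact Or.inr (Or.inr (Or.inl h))
  · refine Or.inr (Or.inr (Or.inr ⟨h1, h2, h3, ?_⟩))
    haveI : Nontrivial P := Finite.one_lt_card_iff_nontrivial.mp
      (h3 ▸ Nat.one_lt_pow three_ne_zero (Fact.out : p.Prime).one_lt)
    exact (Monoid.exponent_eq_prime_iff Fact.out).mpr fun g hg => orderOf_eq_prime (h4 g) hg

end Cfsg.Agent.S4023
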