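import Cfsg.Statements.S4025
import Cfsg.Agent.Lib.WCor.Affine
import Cfsg.Agent.Lib.Comp.FStar
import Cfsg.Agent.Lib.InvChar.SylowIn

set_option autoImplicit false
open Cfsg

namespace Cfsg.Agent.S4025

/-- Let p be a prime and G a finite group in which any two p-subgroups of the same order are conjugate, and suppose a Sylow p-subgroup P of G is elementary abelian of order pⁿ with n ≥ 3. Let N be the normalizer of P and K the largest normal subgroup of N of order prime to p, and assume N/K is solvable. Then either n = 3 and N/K embeds in the one-dimensional semi-affine group over the field with p³ elements (and for p = 2 it is isomorphic to the affine or the semi-affine group over the field with 8 elements), or n = 5, p = 2 and N/K is isomorphic to the one-dimensional semi-affine group over the field with 32 elements. -/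
theorem result {G : Type*} [Group G] [Finite G]
    {p : ℕ} [Fact p.Prime] (hC : ∀ H K : Subgroup G, IsPGroup p H → IsPGroup p K → Nat.card H = Nat.card K →
      ∃ g : G, K = H.map (MulAut.conj g).toMonoidHom) (P : Sylow p G) (n : ℕ) (hn : 3 ≤ n)
    (hel : Cfsg.IsElementaryAbelian p (P : Subgroup G)) (hcard : Nat.card P = p ^ n)
    (N : Subgroup G) (hN : N = Subgroup.normalizer ((P : Subgroup G) : Set G))
    (hsolv : Group.IsSolvable (↥N ⧸ Cfsg.pPrimeCore p ↥N)) :
    (n = 3 ∧ (∃ f : ↥N ⧸ Cfsg.pPrimeCore p ↥N →* ↥(Cfsg.semiaffineGroup (GaloisField p 3)), Function.Injective f) ∧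
      (p = 2 → Nonempty (↥N ⧸ Cfsg.pPrimeCore p ↥N ≃* Cfsg.semiaffineGroup (GaloisField 2 3)) ∨
               Nonempty (↥N ⧸ Cfsg.pPrimeCore p ↥N ≃* Cfsg.affineGroup (GaloisField 2 3)))) ∨
    (n = 5 ∧ p = 2 ∧ Nonempty (↥N ⧸ Cfsg.pPrimeCore p ↥N ≃* Cfsg.semiaffineGroup (GaloisField 2 5))) := by
  subst hN
  set N := Subgroup.normalizer ((P : Subgroup G) : Set G)
  let π := QuotientGroup.mk' (Cfsg.pPrimeCore p N)
  have hπ : Function.Surjective π := QuotientGroup.mk'_surjective _
  let Q : Sylow p N := P.subtype Subgroup.le_normalizer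
  have hQ : (Q : Subgroup N) = (P : Subgroup G).subgroupOf N := rfl
  haveI : (Q : Subgroup N).Normal := Subgroup.normal_in_normalizer
  let R := Q.mapSurjective hπ
  have hR : (R : Subgroup (N ⧸ Cfsg.pPrimeCore p N)) = (Q : Subgroup N).map π := rfl
  haveI : (R : Subgroup (N ⧸ Cfsg.pPrimeCore p N)).Normal := Subgroup.Normal.map (H := (Q : Subgroup N)) inferInstance π hπ
  have hinj : ∀ A : Subgroup N, A ≤ Q → Nat.card (A.map π) = Nat.card A := fun A hA => by
    rw [← Subgroup.relIndex_ker, QuotientGroup.ker_mk', ← Subgroup.inf_relIndex_right, inf_comm,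
      H1.inf_pPrimeCore_eq_bot (Q.2.to_le hA), Subgroup.relIndex_bot_left]
  have hc : Nat.card (R : Subgroup (N ⧸ Cfsg.pPrimeCore p N)) = p ^ n := by
    rw [hR, hinj _ le_rfl, hQ, Nat.card_congr
      (Subgroup.subgroupOfEquivOfLe Subgroup.le_normalizer).toEquiv, hcard]
  haveI := hel.1
  have hV : IsMulCommutative (R : Subgroup (N ⧸ Cfsg.pPrimeCore p N)) ∧ ∀ x : (R : Subgroup (N ⧸ Cfsg.pPrimeCore p N)), x ^ p = 1 := by
    refine ⟨by rw [hR, hQ]; infer_instance, ?_⟩
    rintro ⟨_, x, hx, rfl⟩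
    apply Subtype.ext
    change π x ^ p = 1
    rw [← map_pow, show x ^ p = 1 from Subtype.ext (hel.2 x hx), map_one]
  have hC2 : Subgroup.centralizer ((R : Subgroup (N ⧸ Cfsg.pPrimeCore p N)) : Set (N ⧸ Cfsg.pPrimeCore p N)) ≤ R := by
    rw [← H1.pCore_eq_of_sylow_normal R]
    exact H23.centralizer_pCore_le_iff.2 ⟨H1.pPrimeCore_quotient_pPrimeCore,
      H23.layer_eq_bot_of_fStar_isSolvable inferInstance⟩
  have hcj : ∀ A B : Subgroup (N ⧸ Cfsg.pPrimeCore p N), A ≤ R → B ≤ R → Nat.card A = Nat.card B →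
      ∃ g, B = A.map (MulAut.conj g).toMonoidHom := by
    intro A B hA hB h
    have key : ∀ A : Subgroup (N ⧸ Cfsg.pPrimeCore p N), A ≤ R →
        ∃ A' : Subgroup N, A' ≤ Q ∧ A'.map π = A := fun A hA =>
      ⟨A.comap π ⊓ Q, inf_le_right, le_antisymm
        (Subgroup.map_le_iff_le_comap.2 inf_le_left) fun x hx => by
          obtain ⟨y, hy, rfl⟩ := hA hx
          exact ⟨y, ⟨hx, hy⟩, rfl⟩⟩
    obtain ⟨A, hA', rfl⟩ := key A hA
    obtain ⟨B, hB', rfl⟩ := key B hB
    rw [hinj A hA', hinj B hB'] at h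
    have hle : ∀ A : Subgroup N, A ≤ Q → A.map N.subtype ≤ P := fun A hA => by
      rintro _ ⟨x, hx, rfl⟩
      exact hA hx
    have hnorm : ∀ A : Subgroup G, A ≤ P → (P : Subgroup G) ≤ Subgroup.normalizer (A : Set G) :=
      fun A hA x hx => Subgroup.centralizer_le_normalizer _ fun y hy =>
        congrArg Subtype.val (hel.1.is_comm.comm ⟨y, hA hy⟩ ⟨x, hx⟩)
    obtain ⟨g, hg⟩ := hC _ _ (P.2.to_le (hle A hA')) (P.2.to_le (hle B hB'))
      (by rw [Subgroup.card_map_of_injective N.subtype_injective,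
        Subgroup.card_map_of_injective N.subtype_injective, h])
    obtain ⟨m, hm, e⟩ := H72.exists_mem_normalizer_sylow_conj P (g := g) (hnorm _ (hle A hA'))
      (hg ▸ hnorm _ (hle B hB'))
    have hB2 : B = A.map (MulAut.conj (⟨m, hm⟩ : N)).toMonoidHom := by
      apply Subgroup.map_injective N.subtype_injective
      rw [hg, ← e, Subgroup.map_map, Subgroup.map_map]
      congr 1
    refine ⟨π ⟨m, hm⟩, ?_⟩
    rw [hB2, Subgroup.map_map, Subgroup.map_map]
    congr 1
  by_cases h2 : p = 2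
  · subst h2
    rcases H14.W.affine_two hV hc hn R.not_dvd_index hC2 hcj with ⟨rfl, h⟩ | ⟨rfl, h⟩
    · refine Or.inl ⟨rfl, ?_, fun _ => h⟩
      rcases h with ⟨⟨e⟩⟩ | ⟨⟨e⟩⟩
      · exact ⟨e.toMonoidHom, e.injective⟩
      · have hle : Cfsg.affineGroup (GaloisField 2 3) ≤ Cfsg.semiaffineGroup (GaloisField 2 3) :=
          fun _ ⟨a, b, h⟩ => ⟨a, b, RingEquiv.refl _, h⟩
        exact ⟨(Subgroup.inclusion hle).comp e.toMonoidHom,
          (Subgroup.inclusion_injective hle).comp e.injective⟩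
    · exact Or.inr ⟨rfl, rfl, h⟩
  · obtain ⟨f, h1, h3, -, -, h4⟩ := H14.W.affine_core hV hc (by omega) (by omega)
      R.not_dvd_index hC2 hcj
    rcases h4.cases (GaloisField.card p n (by omega)) with h5 | ⟨-, h5, -⟩
    · obtain rfl : n = 3 := by omega
      exact Or.inl ⟨rfl, ⟨f.codRestrict _ fun x => h3 ⟨x, rfl⟩,
        fun a b e => h1 (congrArg Subtype.val e)⟩, fun h => absurd h h2⟩
    · exact absurd h5 h2

end Cfsg.Agent.S4025
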