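import Mathlib
import Cfsg.Agent.Base
import Cfsg.Agent.Lib.FGS.Real2
import Cfsg.Statements.S4027

set_option autoImplicit false
open Cfsg

namespace Cfsg.Agent.S4027

/-- Let G be a finite group in which every element x of odd order satisfies N_G(⟨x⟩) = C_G(x). Then the Sylow 2-subgroups of G are normal. -/
theorem result {G : Type*} [Group G] [Finite G]
    (hirr : ∀ x : G, (∀ r : ℕ, r.Prime → r ∣ orderOf x → r ≠ 2) →
      Subgroup.normalizer ((Subgroup.zpowers x : Subgroup G) : Set G) ≤ Subgroup.centralizer {x}) (P : Sylow 2 G) :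
    (P : Subgroup G).Normal := by
  refine H79.sylow_two_normal_of_no_odd_real (fun x g hx hg => ?_) P
  have := hirr x (fun r hr hd e => by
      subst e; exact (Nat.not_even_iff_odd.2 hx) (even_iff_two_dvd.2 hd))
    (H79.mem_normalizer_zpowers_of_conj_mem (hg ▸ inv_mem (Subgroup.mem_zpowers x)))
  rw [H80.mem_Cx_iff_conj, hg] at this
  exact H71.eq_one_of_odd_of_eq_inv hx this.symm

end Cfsg.Agent.S4027
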