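import Mathlib
import Cfsg.Agent.Base
import Cfsg.Agent.Lib.FGS.Real
import Cfsg.Agent.Lib.Core.CoprimeAbelian
import Cfsg.Agent.Lib.FGS.CyclicAux
import Cfsg.Agent.Lib.FGS.OrderType
import Cfsg.Agent.Lib.Invol.BaerSuzuki
import Cfsg.Agent.Lib.LocEven.Basic
import Cfsg.Agent.Lib.Inv73.Basic
import Cfsg.Statements.S4028

set_option autoImplicit false
open Cfsg

namespace Cfsg.Agent.S4028

/-- Let G be a finite group with Sylow 2-subgroup P. Then N_G(⟨x⟩) = C_G(x) holds for every 2-element x of G if and only if N_P(⟨y⟩) = C_P(y) holds for every y ∈ P (computed inside P). -/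
theorem result {G : Type*} [Group G] [Finite G] (P : Sylow 2 G) :
    (∀ x : G, (∀ r : ℕ, r.Prime → r ∣ orderOf x → r = 2) →
      Subgroup.normalizer ((Subgroup.zpowers x : Subgroup G) : Set G) ≤ Subgroup.centralizer {x}) ↔
    (∀ y : ↥(P : Subgroup G), Subgroup.normalizer ((Subgroup.zpowers y : Subgroup ↥(P : Subgroup G)) : Set ↥(P : Subgroup G)) ≤
        Subgroup.centralizer {y}) := by
  constructor
  · intro h y n hn
    have hy : ∀ r : ℕ, r.Prime → r ∣ orderOf (y : G) → r = 2 := fun r hr hd =>
      (H79.isPiElt_singleton_iff Nat.prime_two).2 (H35.isPElt_of_mem P.isPGroup' y.2) r hr hd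
    have h1 : (n : G) ∈ Subgroup.normalizer ((Subgroup.zpowers (y : G) : Subgroup G) : Set G) := by
      have := Subgroup.le_normalizer_map (P : Subgroup G).subtype ⟨n, hn, rfl⟩
      rwa [MonoidHom.map_zpowers] at this
    have h2 := h y hy h1
    rw [Subgroup.mem_centralizer_singleton_iff] at h2 ⊢
    exact Subtype.ext h2
  · intro h x hx g hg
    have hx2 : H35.IsPElt 2 x := (H79.isPiElt_singleton_iff Nat.prime_two).1 hx
    have hX : IsPGroup 2 (Subgroup.zpowers x) := H35.isPElt_iff_zpowers.1 hx2
    rw [H35.mem_iff_pPart_mem_and_pReg_mem 2]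
    constructor
    · have hu := H35.pPart_mem 2 hg
      set u := H35.pPart 2 g
      have hT := H9.isPGroup_sup_of_le_normalizer hX
        (H35.isPElt_iff_zpowers.1 (H35.isPElt_pPart 2 g)) (Subgroup.zpowers_le.2 hu)
      obtain ⟨a, ha⟩ := H9.exists_conj_mem_sylow P hT
      have hxa := ha x (Subgroup.mem_sup_left (Subgroup.mem_zpowers x))
      have hua := ha u (Subgroup.mem_sup_right (Subgroup.mem_zpowers u))
      have h1 := h ⟨_, hxa⟩ (x := ⟨_, hua⟩) (by
        apply H68.mem_normalizer_of_cj_le
        rw [H68.cj, MonoidHom.map_zpowers, Subgroup.zpowers_le]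
        obtain ⟨k, hk⟩ := H68.conj_mem_of_mem_normalizer hu (Subgroup.mem_zpowers x)
        refine ⟨k, Subtype.ext ?_⟩
        simp only [SubgroupClass.coe_zpow, MulEquiv.toMonoidHom_eq_coe, MonoidHom.coe_coe,
          MulAut.conj_apply, Subgroup.coe_mul, InvMemClass.coe_inv, conj_zpow]
        simp only at hk
        rw [hk]; group)
      rw [Subgroup.mem_centralizer_singleton_iff] at h1
      have h2 : a * u * a⁻¹ * (a * x * a⁻¹) = a * x * a⁻¹ * (a * u * a⁻¹) := congrArg Subtype.val h1
      rw [Subgroup.mem_centralizer_singleton_iff]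
      calc u * x = a⁻¹ * (a * u * a⁻¹ * (a * x * a⁻¹)) * a := by group
        _ = x * u := by rw [h2]; group
    · have hv := H35.pReg_mem 2 hg
      have hvo := H35.not_dvd_orderOf_pReg 2 g
      set v := H35.pReg 2 g
      rw [← H80.centralizer_zpowers, ← Subgroup.zpowers_le]
      apply H2.le_centralizer_of_prime_order inferInstance (Subgroup.zpowers_le.2 hv)
      · apply H2.coprime_card_of_isPGroup _ hX
        rw [Nat.card_zpowers]
        exact ((Nat.Prime.coprime_iff_not_dvd Nat.prime_two).2 hvo).symm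
      · intro w hw hwp
        obtain ⟨k, hk⟩ := H35.isPElt_of_mem hX hw
        have hw2 : orderOf w = 2 := by
          rw [hk] at hwp ⊢
          rw [hwp.eq_one_of_pow, pow_one]
        rw [H80.centralizer_zpowers, H80.mem_Cx_comm, H80.mem_Cx_iff_conj]
        have h1 := H80.mem_zpowers_of_orderOf_dvd (C := Subgroup.zpowers x) inferInstance
          (H68.conj_mem_of_mem_normalizer hv hw) hw (by rw [H35.orderOf_conj])
        rcases (H73.mem_zpowers_of_mul_self (H9.mul_self_of_orderOf_two hw2)).1 h1 with h2 | h2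
        · have := H35.orderOf_conj w v
          rw [h2, hw2, orderOf_one] at this
          omega
        · exact h2

end Cfsg.Agent.S4028
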