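import Mathlib
import Cfsg.Agent.Base
import Cfsg.Agent.Lib.FGS.KPi
import Cfsg.Agent.Lib.FGS.Real2
import Cfsg.Agent.Lib.PGroup.Frattini
import Cfsg.Agent.Lib.FGS.Count
import Cfsg.Statements.S4029

set_option autoImplicit false
open Cfsg

namespace Cfsg.Agent.S4029

/-- Let P be a finite 2-group in which N_P(⟨y⟩) = C_P(y) for every y ∈ P. If s is the number of conjugacy classes of involutions of P, then #(P/Φ(P)) ≤ s + 1; in particular the subgroup generated by the involutions of P has order at least #(P/Φ(P)). -/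
theorem result {P : Type*} [Group P] [Finite P] (hP : IsPGroup 2 P)
    (hirr : ∀ y : P, Subgroup.normalizer ((Subgroup.zpowers y : Subgroup P) : Set P) ≤ Subgroup.centralizer {y}) :
    Nat.card (P ⧸ frattini P) ≤ Nat.card {c : ConjClasses P // ∃ y : P, ConjClasses.mk y = c ∧ orderOf y = 2} + 1 ∧
    Nat.card (P ⧸ frattini P) ≤ Nat.card (Subgroup.closure {y : P | orderOf y = 2}) := by
  classical
  haveI := Fintype.ofFinite P
  have hQ : ∀ x y : P, IsConj x y → x * x = 1 → y * y = 1 := by
    intro x y h hx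
    obtain ⟨g, rfl⟩ := isConj_iff.1 h
    rw [conj_mul, hx]; simp
  have h1 := H77.kQ_mul_card (fun x : P => x * x = 1) hQ
  have h2 : ∑ x ∈ Finset.univ.filter (fun x : P => x * x = 1),
      Nat.card (Subgroup.centralizer ({x} : Set P)) =
      (Finset.univ.filter (fun z : P × P => z.1 ^ 2 = z.2 ^ 2)).card := by
    rw [Finset.card_eq_sum_card_fiberwise (f := fun z : P × P => z.1 * z.2⁻¹)
      (t := Finset.univ.filter (fun x : P => x * x = 1))]
    · refine Finset.sum_congr rfl fun x hx => ?_
      have hx' : x * x = 1 := (Finset.mem_filter.1 hx).2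
      rw [← H80.ncard_coe_subgroup, ← Set.ncard_coe_finset]
      refine Set.ncard_congr (fun y _ => (x * y, y)) ?_ (fun a b _ _ h => (Prod.ext_iff.1 h).2) ?_
      · intro y hy
        have hc : Commute x y := H80.mem_Cx_iff_commute.1 hy
        simp [hc.mul_pow, pow_two x, hx']
      · rintro ⟨a, b⟩ hab
        simp only [Finset.coe_filter, Finset.mem_filter, Finset.mem_univ, true_and,
          Set.mem_ofPred_eq] at hab
        obtain ⟨e1, rfl⟩ := hab
        refine ⟨b, ?_, by simp⟩
        refine hirr _ (H79.mem_normalizer_zpowers_of_conj_mem ?_)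
        have : b * (a * b⁻¹) * b⁻¹ = (a * b⁻¹)⁻¹ := by
          calc b * (a * b⁻¹) * b⁻¹ = b * a * (b ^ 2)⁻¹ := by rw [pow_two]; group
            _ = _ := by rw [← e1, pow_two]; group
        rw [this]; exact inv_mem (Subgroup.mem_zpowers _)
    · rintro ⟨a, b⟩ hab
      simp only [Finset.coe_filter, Finset.mem_univ, true_and, Set.mem_ofPred_eq] at hab ⊢
      have e : b * (a * b⁻¹) * b⁻¹ = (a * b⁻¹)⁻¹ := by
        calc b * (a * b⁻¹) * b⁻¹ = b * a * (b ^ 2)⁻¹ := by rw [pow_two]; group
          _ = _ := by rw [← hab, pow_two]; group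
      have := hirr _ (H79.mem_normalizer_zpowers_of_conj_mem (g := b) (x := a * b⁻¹)
        (e ▸ inv_mem (Subgroup.mem_zpowers _)))
      rw [H80.mem_Cx_iff_conj, e] at this
      exact inv_eq_iff_mul_eq_one.1 this
  let T : Finset P := Finset.univ.filter (· ∈ frattini P)
  have hT : T.card = Nat.card (frattini P) := by
    rw [Nat.card_eq_fintype_card, Fintype.card_subtype]
  have hsq : ∀ x : P, x ^ 2 ∈ T := fun x =>
    Finset.mem_filter.2 ⟨Finset.mem_univ _, H5.pow_mem_frattini hP x⟩
  have h3 : Nat.card P = ∑ z ∈ T, (Finset.univ.filter (fun x : P => x ^ 2 = z)).card := by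
    rw [Nat.card_eq_fintype_card, ← Finset.card_univ,
      Finset.card_eq_sum_card_fiberwise (f := fun x : P => x ^ 2) (t := T) fun x _ => hsq x]
  have h4 : (Finset.univ.filter (fun z : P × P => z.1 ^ 2 = z.2 ^ 2)).card =
      ∑ z ∈ T, (Finset.univ.filter (fun x : P => x ^ 2 = z)).card ^ 2 := by
    rw [Finset.card_eq_sum_card_fiberwise (f := fun z : P × P => z.1 ^ 2) (t := T)
      fun x _ => hsq x.1]
    refine Finset.sum_congr rfl fun z _ => ?_
    rw [pow_two (Finset.card _), ← Finset.card_product]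
    congr 1
    ext ⟨a, b⟩
    simp only [Finset.mem_filter, Finset.mem_univ, true_and, Finset.mem_product]
    constructor
    · rintro ⟨e1, e2⟩; exact ⟨e2, e1 ▸ e2⟩
    · rintro ⟨e1, e2⟩; exact ⟨e1.trans e2.symm, e1⟩
  have h5 := sq_sum_le_card_mul_sum_sq (s := T)
    (f := fun z => (Finset.univ.filter (fun x : P => x ^ 2 = z)).card)
  rw [← h3, ← h4, ← h2, ← h1, hT] at h5
  have h6 : Nat.card (P ⧸ frattini P) ≤ H77.kQ P (fun x : P => x * x = 1) := by
    have e := Subgroup.card_eq_card_quotient_mul_card_subgroup (frattini P)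
    rw [pow_two] at h5
    nth_rewrite 1 [e] at h5
    rw [Nat.cast_id, ← mul_assoc, mul_comm (Nat.card (frattini P))] at h5
    exact Nat.le_of_mul_le_mul_right (Nat.le_of_mul_le_mul_right h5 Nat.card_pos) Nat.card_pos
  change _ ≤ {c : ConjClasses P | ∀ x ∈ c.carrier, x * x = 1}.ncard at h6
  refine ⟨h6.trans ?_, h6.trans ?_⟩
  · change _ ≤ {c : ConjClasses P | ∃ y : P, ConjClasses.mk y = c ∧ orderOf y = 2}.ncard + 1
    refine le_trans (Set.ncard_le_ncard ?_) (Set.ncard_insert_le (ConjClasses.mk 1) _)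
    intro c hc
    obtain ⟨y, rfl⟩ := ConjClasses.mk_surjective c
    by_cases hy : y = 1
    · left; rw [hy]
    · exact Or.inr ⟨y, rfl, H9.orderOf_eq_two_of_mul_self hy
        (hc y (ConjClasses.mem_carrier_mk))⟩
  · rw [← H80.ncard_coe_subgroup]
    refine le_trans (Set.ncard_le_ncard ?_) (Set.ncard_image_le (f := ConjClasses.mk))
    intro c hc
    obtain ⟨y, rfl⟩ := ConjClasses.mk_surjective c
    refine ⟨y, ?_, rfl⟩
    by_cases hy : y = 1
    · rw [hy]; exact one_mem _
    · exact Subgroup.subset_closure (H9.orderOf_eq_two_of_mul_self hy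
        (hc y (ConjClasses.mem_carrier_mk)))

end Cfsg.Agent.S4029
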