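import Mathlib
import Cfsg.Agent.Base
import Cfsg.Agent.Lib.FGS.OrderType
import Cfsg.Agent.Lib.Core.Coprime
import Cfsg.Agent.Lib.FGS.ClassSize
import Cfsg.Statements.S4032

set_option autoImplicit false
open Cfsg

namespace Cfsg.Agent.S4032

/-- Let π be a set of primes and G a finite group in which N_G(⟨x⟩) = C_G(x) for every π-element x. If N is a normal subgroup of G whose order is divisible by no prime of π, then G/N has the same property: N_{G/N}(⟨y⟩) = C_{G/N}(y) for every π-element y of G/N. -/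
theorem result {G : Type*} [Group G] [Finite G] (π : Set ℕ)
    (hirr : ∀ x : G, (∀ r : ℕ, r.Prime → r ∣ orderOf x → r ∈ π) →
      Subgroup.normalizer ((Subgroup.zpowers x : Subgroup G) : Set G) ≤ Subgroup.centralizer {x})
    (N : Subgroup G) [N.Normal] (hN : ∀ r : ℕ, r.Prime → r ∣ Nat.card N → r ∉ π) :
    ∀ y : G ⧸ N, (∀ r : ℕ, r.Prime → r ∣ orderOf y → r ∈ π) →
      Subgroup.normalizer ((Subgroup.zpowers y : Subgroup (G ⧸ N)) : Set (G ⧸ N)) ≤ Subgroup.centralizer {y} := by
  intro y hy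
  obtain ⟨g, rfl⟩ := QuotientGroup.mk'_surjective N y
  obtain ⟨a, ha, he⟩ := H79.exists_isPiElt_lift (π := π) (QuotientGroup.mk' N) g hy
  rw [← he]
  have hcop : (Nat.card (Subgroup.zpowers (g ^ a))).Coprime (Nat.card N) := by
    rw [Nat.card_zpowers]
    exact Nat.Coprime.symm (Nat.coprime_of_dvd fun r hr h1 h2 => hN r hr h1 (ha r hr h2))
  rw [← MonoidHom.map_zpowers, ← H2.map_mk'_normalizer hcop (Or.inl (H2.isSolvable_zpowers _))]
  exact (Subgroup.map_mono (hirr _ ha)).trans (H80.map_Cx_le _ _)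

end Cfsg.Agent.S4032
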