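import Mathlib
import Cfsg.Agent.Base
import Cfsg.Agent.Lib.Core.GrpBasic
import Cfsg.Statements.S4036

set_option autoImplicit false
open Cfsg

namespace Cfsg.Agent.S4036

/-- Let P be a finite abelian p-group and K a group of automorphisms of P (a subgroup of Aut P) whose order is divisible by p. If all non-identity elements of K have the same fixed-point subgroup on P, then K has no non-trivial normal subgroup of order prime to p. -/
theorem result {P : Type*} [CommGroup P] [Finite P] {p : ℕ}
    [Fact p.Prime] (hP : IsPGroup p P) (K : Subgroup (MulAut P)) (hK : p ∣ Nat.card K)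
    (hfix : ∀ x y : MulAut P, x ∈ K → y ∈ K → x ≠ 1 → y ≠ 1 → ∀ v : P, x v = v ↔ y v = v) :
    ∀ N : Subgroup ↥K, N.Normal → ¬ p ∣ Nat.card N → N = ⊥ := by
  classical
  have hp : p.Prime := Fact.out
  intro N hNn hN
  by_contra hne
  haveI : Fintype N := Fintype.ofFinite N
  let ν : P →* P := ∏ n : N, ((n : K) : MulAut P).toMonoidHom
  have hν : ∀ v, ν v = ∏ n : N, ((n : K) : MulAut P) v := fun v => by
    simp [ν, MonoidHom.finsetProd_apply]
  have hequiv : ∀ (k : K) (v : P), ν ((k : MulAut P) v) = (k : MulAut P) (ν v) := by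
    intro k v
    rw [hν, hν, map_prod]
    refine Fintype.prod_equiv (MulAut.conjNormal (H := N) k⁻¹).toEquiv _ _ ?_
    intro n
    simp
  have hinv : ∀ (m : N) (v : P), ν (((m : K) : MulAut P) v) = ν v := by
    intro m v
    rw [hν, hν]
    exact Fintype.prod_equiv (Equiv.mulRight m) _ _ (fun n => by simp)
  obtain ⟨n0, hn0⟩ := Subgroup.ne_bot_iff_exists_ne_one.1 hne
  have hn0' : ((n0 : K) : MulAut P) ≠ 1 := fun e => hn0 (Subtype.ext (Subtype.ext e))
  obtain ⟨k, hk⟩ := exists_prime_orderOf_dvd_card' p hK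
  have hk1 : (k : MulAut P) ≠ 1 := fun e => by
    have : k = 1 := Subtype.ext e
    rw [this, orderOf_one] at hk; exact hp.ne_one hk.symm
  have hW : ν.ker ≠ ⊥ := by
    intro e
    apply hn0'
    ext v
    have : v⁻¹ * ((n0 : K) : MulAut P) v ∈ ν.ker := by
      rw [MonoidHom.mem_ker, map_mul, map_inv, hinv, inv_mul_cancel]
    rw [e, Subgroup.mem_bot, inv_mul_eq_one] at this
    exact this.symm
  let S : SubMulAction (Subgroup.zpowers k) P :=
    { carrier := ν.ker
      smul_mem' := fun c v hv => by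
        have hv' : ν v = 1 := hv
        show ν (((c : K) : MulAut P) v) = 1
        rw [hequiv, hv', map_one] }
  have hpk : IsPGroup p (Subgroup.zpowers k) := IsPGroup.of_card (n := 1) (by
    rw [Nat.card_zpowers, hk, pow_one])
  have hdvd : p ∣ Nat.card S := by
    have : Nat.card S = Nat.card ν.ker := rfl
    rw [this]
    obtain ⟨m, hm⟩ := IsPGroup.iff_card.1 (hP.to_subgroup ν.ker)
    rw [hm]
    refine dvd_pow_self p ?_
    rintro rfl
    exact hW (Subgroup.card_eq_one.1 (by simpa using hm))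
  obtain ⟨b, hb, hb1⟩ := hpk.exists_fixed_point_of_prime_dvd_card_of_fixed_point S hdvd
    (a := ⟨1, ν.ker.one_mem⟩) (fun c => Subtype.ext (map_one ((c : K) : MulAut P)))
  apply hb1
  apply Subtype.ext
  have h1 : (k : MulAut P) b = b := congrArg Subtype.val (hb ⟨k, Subgroup.mem_zpowers k⟩)
  have h2 : ∀ n : N, ((n : K) : MulAut P) b = b := by
    intro n
    by_cases hn : ((n : K) : MulAut P) = 1
    · rw [hn]; rfl
    · exact (hfix _ _ k.2 (n : K).2 hk1 hn b).1 h1
  have h3 : ν b = 1 := b.2
  rw [hν] at h3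
  simp only [h2, Finset.prod_const, Finset.card_univ, ← Nat.card_eq_fintype_card] at h3
  obtain ⟨m, hm⟩ := hP (b : P)
  have h4 : (b : P) ^ Nat.gcd (Nat.card N) (p ^ m) = 1 := pow_gcd_eq_one.2 ⟨h3, hm⟩
  rw [Nat.Coprime.gcd_eq_one (Nat.Coprime.pow_right m
    ((Nat.Prime.coprime_iff_not_dvd hp).2 hN).symm), pow_one] at h4
  exact h4.symm

end Cfsg.Agent.S4036
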