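import Mathlib
import Cfsg.Statements.S4039
import Cfsg.Agent.Lib.Core.CoprimeSylow
import Cfsg.Agent.Lib.Core.Fitting
import Cfsg.Agent.Lib.Core.MaxSolv
import Cfsg.Agent.Lib.Transfer.Control
import Cfsg.Agent.Lib.LocStruct.SylowIn

set_option autoImplicit false
open Cfsg

namespace Cfsg.Agent.S4039

theorem aux.{u} (n : ℕ) : ∀ {G : Type u} [Group G] [Finite G], Nat.card G = n → ∀ (M : Subgroup G),
    IsCoatom M → Group.IsNilpotent M → ⁅⁅M, M⁆, M⁆ = ⊥ → Group.IsSolvable G := by
  induction n using Nat.strong_induction_on with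
  | _ n ih =>
  intro G _ _ hn M hmax hnil hcl
  have hMs : Group.IsSolvable M := inferInstance
  -- a nontrivial normal subgroup inside `M`
  by_cases hcore : ∃ K : Subgroup G, K.Normal ∧ K ≠ ⊥ ∧ K ≤ M
  · obtain ⟨K, hK, hK0, hKM⟩ := hcore
    refine H1.isSolvable_of_normal_of_quotient K (H1.isSolvable_of_le hMs hKM) ?_
    refine ih _ (hn ▸ H1.card_quotient_lt hK0) rfl (M.map (QuotientGroup.mk' K))
      (H3.isCoatom_map_of_ker_le (QuotientGroup.mk'_surjective K) hmax
        (by rwa [QuotientGroup.ker_mk'])) (H1.isNilpotent_map hnil _)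
      (by rw [← Subgroup.map_commutator, ← Subgroup.map_commutator, hcl, Subgroup.map_bot])
  push Not at hcore
  have hnorm : ∀ K : Subgroup G, K ≠ ⊥ → K ≤ M → M ≤ Subgroup.normalizer (K : Set G) →
      Subgroup.normalizer (K : Set G) = M := fun K h0 hKM h => by
    by_contra hne
    exact hcore K (Subgroup.normalizer_eq_top_iff.1 (hmax.2 _ (lt_of_le_of_ne h (Ne.symm hne)))) h0 hKM
  -- normal `p`-complements
  have hpc : ∀ (p : ℕ) [Fact p.Prime], p ∣ Nat.card M →
      Cfsg.HasNormalPComplement p G ∧ ¬ p ∣ M.index := by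
    intro p _ hp
    obtain ⟨P₀⟩ : Nonempty (Sylow p M) := inferInstance
    have hP₀n : (P₀ : Subgroup M).Normal := Sylow.normal_of_normalizerCondition
      Group.normalizerCondition_of_isNilpotent P₀
    have hP₀c : (P₀ : Subgroup M).Characteristic := Sylow.characteristic_of_normal P₀ hP₀n
    set P := (P₀ : Subgroup M).map M.subtype with hP
    have hPp : IsPGroup p P := P₀.isPGroup'.map _
    have hP0 : P ≠ ⊥ := fun e => P₀.ne_bot_of_dvd_card hp
      ((Subgroup.map_eq_bot_iff_of_injective _ M.subtype_injective).1 e)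
    have hNP := hnorm P hP0 (Subgroup.map_subtype_le _)
      (H2.le_normalizer_map_subtype_of_characteristic Subgroup.le_normalizer _)
    obtain ⟨S, hS⟩ := hPp.exists_le_sylow
    have hSP : (S : Subgroup G) = P := by
      by_contra hne
      have h1 := H4.lt_inf_normalizer_of_lt S.isPGroup' (lt_of_le_of_ne hS (Ne.symm hne))
      rw [hNP] at h1
      have h2 : P₀ = ((S : Subgroup G) ⊓ M).subgroupOf M := by
        refine (P₀.is_maximal' ((S.isPGroup'.to_le inf_le_left).comap_subtype) ?_).symm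
        rw [← Subgroup.map_le_iff_le_comap]
        exact h1.le
      apply h1.ne
      rw [hP, h2, Subgroup.subgroupOf_map_subtype, inf_assoc, inf_idem]
    have hSM : (S : Subgroup G) ≤ M := hSP ▸ Subgroup.map_subtype_le _
    refine ⟨?_, fun h => S.not_dvd_index (h.trans (Subgroup.index_dvd_of_le hSM))⟩
    have hMS : M ≤ Subgroup.normalizer ((S : Subgroup G) : Set G) := (hSP ▸ hNP).ge
    set Z := (S : Subgroup G) ⊓ Subgroup.centralizer ((S : Subgroup G) : Set G) with hZ
    have hZ0 : Z ≠ ⊥ := H69.center_ne_bot S.isPGroup' (hSP ▸ hP0)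
    have hD : ∀ D : Subgroup G, Z ≤ D → D ≤ S → Subgroup.normalizer (D : Set G) = M := by
      intro D h1 h2
      refine hnorm D (fun e => hZ0 (le_bot_iff.1 (e ▸ h1))) (h2.trans hSM) ?_
      rw [Subgroup.le_normalizer_iff_commutator_le_left]
      refine le_trans (le_inf ?_ ?_) h1
      · exact (Subgroup.commutator_mono h2 le_rfl).trans
          (Subgroup.le_normalizer_iff_commutator_le_left.1 hMS)
      · exact (Subgroup.commutator_mono (h2.trans hSM) le_rfl).trans
          ((Subgroup.commutator_eq_bot_iff_le_centralizer.1 hcl).trans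
            (Subgroup.centralizer_le hSM))
    have hwc : Cfsg.IsWeaklyClosed Z (S : Subgroup G) := by
      refine H4.isWeaklyClosed_iff.2 ⟨inf_le_left, fun g hg => ?_⟩
      rw [hD Z le_rfl inf_le_left, ← hNP, ← hSP]
      have h1 : Z ≤ ((g⁻¹ • S : Sylow p G) : Subgroup G) := fun w hw =>
        H4.mem_smul_sylow_iff.2 (by rw [inv_inv]; exact hg w hw)
      have h2 : ((g⁻¹ • S : Sylow p G) : Subgroup G) ≤ S := by
        by_contra hc
        have h3 := H4.lt_inf_normalizer_of_lt (g⁻¹ • S).isPGroup'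
          (inf_lt_right.2 hc : (S : Subgroup G) ⊓ ((g⁻¹ • S : Sylow p G) : Subgroup G) < _)
        rw [hD _ (le_inf inf_le_left h1) inf_le_left] at h3
        refine h3.not_ge (le_inf ?_ inf_le_left)
        exact (H69.isSylowIn_top S).le_of_le_normalizer' ((g⁻¹ • S).isPGroup'.to_le inf_le_left)
          le_top (inf_le_right.trans hMS)
      rw [← Subgroup.inv_mem_iff]
      exact Sylow.smul_eq_iff_mem_normalizer.1 (H4.sylow_eq_of_le h2)
    refine H4.hasNormalPComplement_of_controls_fusion S hSM H4.hasNormalPComplement_of_isNilpotent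
      fun x hx g hg => ?_
    rw [← hD Z le_rfl inf_le_left]
    exact H4.IsWeaklyClosed.normalizer_controls_fusion S inf_le_right hwc x hx g hg
  obtain ⟨q, hq, hqd⟩ := Nat.exists_prime_and_dvd (n := M.index)
    (fun e => hmax.1 (Subgroup.index_eq_one.1 e))
  have := Fact.mk hq
  let N : Subgroup G := ⨅ p : {p : ℕ // p.Prime ∧ p ∣ Nat.card M}, Cfsg.pResidual p G
  have hNn : N.Normal := Subgroup.normal_iInf_normal fun p => H4.pResidual_normal _ _
  have hcop : (Nat.card M).Coprime (Nat.card N) := by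
    refine Nat.coprime_of_dvd fun p hp h1 h2 => ?_
    have := Fact.mk hp
    have h3 : N ≤ Cfsg.pResidual p G := iInf_le
      (fun p : {p : ℕ // p.Prime ∧ p ∣ Nat.card M} => Cfsg.pResidual p G) ⟨p, hp, h1⟩
    exact H4.hasNormalPComplement_iff_not_dvd.1 (hpc p h1).1 (h2.trans (Subgroup.card_dvd_of_le h3))
  obtain ⟨x, hx⟩ := exists_prime_orderOf_dvd_card' (G := G) q (hqd.trans M.index_dvd_card)
  have hxN : x ∈ N := Subgroup.mem_iInf.2 fun p => H4.mem_pResidual_of_coprime (by
    rw [hx, Nat.coprime_primes hq p.2.1]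
    intro e
    have := Fact.mk p.2.1
    exact (hpc p p.2.2).2 (e ▸ hqd))
  obtain ⟨Q, hQ, hMQ⟩ := H2.exists_invariant_sylowIn (A := M) (K := N)
    Subgroup.le_normalizer_of_normal hcop (Or.inl hMs) q
  have hQ0 : ¬ Q ≤ M := by
    intro h
    have h1 : Q = ⊥ := by
      rw [eq_bot_iff, ← H2.inf_eq_bot_of_coprime_card hcop]
      exact le_inf h hQ.le
    apply hQ.not_dvd_relIndex
    rw [h1, Subgroup.relIndex_bot_left, ← hx]
    exact H1.orderOf_dvd_card_of_mem hxN
  have h1 : M ⊔ Q = ⊤ := hmax.2 _ (left_lt_sup.2 hQ0)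
  have h2 := H1.isSolvable_sup_of_le_normalizer hMs (H1.isSolvable_of_isPGroup hQ.isPGroup) hMQ
  rw [h1] at h2
  exact H1.isSolvable_of_mulEquiv Subgroup.topEquiv h2

/-- A finite group possessing a maximal subgroup that is nilpotent of class at most 2 is solvable. -/
theorem result {G : Type*} [Group G] [Finite G]
    (M : Subgroup G) (hmax : IsCoatom M) (hnil : Group.IsNilpotent M) (hcl : Group.nilpotencyClass ↥M ≤ 2) :
    Group.IsSolvable G := by
  refine aux _ rfl M hmax hnil ?_
  have h1 := congrArg (Subgroup.map M.subtype)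
    (Subgroup.lowerCentralSeries_eq_bot_iff_nilpotencyClass_le.2 hcl)
  change (⁅⁅(⊤ : Subgroup M), ⊤⁆, ⊤⁆ : Subgroup M).map M.subtype = _ at h1
  rwa [Subgroup.map_commutator, Subgroup.map_commutator, ← MonoidHom.range_eq_map,
    Subgroup.range_subtype, Subgroup.map_bot] at h1

end Cfsg.Agent.S4039
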