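import Mathlib
import Cfsg.Agent.Base
import Cfsg.Agent.Lib.Transfer.NormalComplement
import Cfsg.Agent.Lib.Core.HallSZ
import Cfsg.Agent.Lib.Core.Coprime
import Cfsg.Agent.Lib.PGroup.Basic
import Cfsg.Agent.Lib.Block.PPart
import Cfsg.Agent.Lib.Core.GrpBasic
import Cfsg.Statements.S4043

set_option autoImplicit false
open Cfsg

namespace Cfsg.Agent.S4043

open Subgroup
open scoped Pointwise

/-- The normal complement as a subgroup of `G`. -/
theorem facts {G : Type*} [Group G] [Finite G] {p : ℕ}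
    [Fact p.Prime] (N : Subgroup G) [N.Normal] (hN : IsPGroup p N) (A : Subgroup G)
    (hA : A.IsComplement' N) (hAp : Cfsg.HasNormalPComplement p A)
    (hC : ∀ n : G, n ∈ N → (∀ a : G, a ∈ A → a * n * a⁻¹ = n) → n = 1) :
    ∃ K : Subgroup G, ¬ p ∣ Nat.card K ∧ normalizer (K : Set G) = A ∧
      (∀ x : G, ¬ p ∣ orderOf x → x ∈ N ⊔ K) ∧ ∃ k, K.index = p ^ k := by
  obtain ⟨P, K, hKn, hK⟩ := hAp
  have hKp : ¬ p ∣ Nat.card K := by
    rw [← hK.index_eq_card]; exact P.not_dvd_index
  obtain ⟨a, ha⟩ := IsPGroup.iff_card.1 P.isPGroup'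
  obtain ⟨b, hb⟩ := IsPGroup.iff_card.1 hN
  have hKi : K.index = p ^ a := hK.symm.index_eq_card.trans ha
  have hAK : A ≤ normalizer ((K.map A.subtype : Subgroup G) : Set G) := by
    have := le_normalizer_map (H := K) A.subtype
    rwa [normalizer_eq_top, ← MonoidHom.range_eq_map, range_subtype] at this
  have hcard : Nat.card (K.map A.subtype) = Nat.card K := card_map_of_injective A.subtype_injective
  refine ⟨K.map A.subtype, hcard ▸ hKp, le_antisymm ?_ hAK, ?_, a + b, ?_⟩
  · have hCb : N ⊓ centralizer ((K.map A.subtype : Subgroup G) : Set G) = ⊥ := by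
      by_contra hne
      obtain ⟨z, hz, hzP, -, hzo⟩ := H5.exists_mem_centralizer_of_normalizes
        (P := (P : Subgroup A).map A.subtype) (P.isPGroup'.map _) (hN.to_le inf_le_left)
        (H2.le_normalizer_inf le_normalizer_of_normal
          (H2.le_normalizer_centralizer ((map_subtype_le _).trans hAK))) hne
      have : z = 1 := hC z hz.1 fun x hx => by
        obtain ⟨⟨k, u⟩, hku⟩ := hK.2 ⟨x, hx⟩
        have e : x = ((k : A) : G) * ((u : A) : G) := (congrArg Subtype.val hku).symm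
        have e1 := hz.2 _ ⟨k, k.2, rfl⟩
        have e2 := hzP _ ⟨u, u.2, rfl⟩
        simp only [coe_subtype] at e1 e2
        rw [mul_inv_eq_iff_eq_mul, e, mul_assoc, e2, ← mul_assoc, e1, mul_assoc]
      rw [this, orderOf_one] at hzo
      exact (Fact.out : p.Prime).ne_one hzo.symm
    intro g hg
    obtain ⟨⟨x, n⟩, rfl⟩ := hA.2 g
    simp only at hg ⊢
    have hn : (n : G) ∈ normalizer ((K.map A.subtype : Subgroup G) : Set G) :=
      (mul_mem_cancel_left (hAK x.2)).1 hg
    have : (n : G) ∈ N ⊓ centralizer ((K.map A.subtype : Subgroup G) : Set G) := by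
      refine ⟨n.2, fun k hk => ?_⟩
      have h1 : n * k * (n : G)⁻¹ * k⁻¹ ∈ A :=
        map_subtype_le _ (mul_mem ((mem_normalizer_iff.1 hn k).1 hk) (inv_mem hk))
      have h2 : n * k * (n : G)⁻¹ * k⁻¹ ∈ N := by
        have := ‹N.Normal›.conj_mem _ (inv_mem n.2) k
        have e : n * k * (n : G)⁻¹ * k⁻¹ = n * (k * (n : G)⁻¹ * k⁻¹) := by group
        rw [e]; exact mul_mem n.2 this
      have h3 := disjoint_def.1 hA.disjoint h1 h2
      rw [mul_inv_eq_one, mul_inv_eq_iff_eq_mul] at h3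
      exact h3.symm
    rw [hCb, mem_bot] at this
    rw [this, mul_one]; exact x.2
  · intro x hx
    obtain ⟨⟨y, n⟩, rfl⟩ := hA.2 x
    simp only at hx ⊢
    refine mul_mem (mem_sup_right ⟨y, H35.mem_of_not_dvd_of_index hKi ?_, rfl⟩) (mem_sup_left n.2)
    rw [← H35.pPart_eq_one_iff p]
    apply Subtype.ext
    have h1 := H35.not_dvd_orderOf_map (QuotientGroup.mk' N) hx
    rw [map_mul, QuotientGroup.mk'_apply, QuotientGroup.mk'_apply,
      (QuotientGroup.eq_one_iff (n : G)).2 n.2, mul_one, H35.not_dvd_orderOf_mk_iff p,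
      H35.pPart_coe] at h1
    exact disjoint_def.1 hA.disjoint (H35.pPart p y).2 h1
  · rw [index_map_subtype, hKi, hA.symm.index_eq_card, hb, pow_add]

/-- Let G be a finite group that is the semidirect product of a normal p-subgroup N by a subgroup A, and also of N by a subgroup A₁, where p is a prime and A and A₁ both have normal p-complements. If C_N(A) = C_N(A₁) = 1, then A₁ is conjugate to A by an element of N. -/
theorem result {G : Type*} [Group G] [Finite G] {p : ℕ}
    [Fact p.Prime] (N : Subgroup G) [N.Normal] (hN : IsPGroup p N) (A A₁ : Subgroup G)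
    (hA : A.IsComplement' N) (hA₁ : A₁.IsComplement' N)
    (hAp : Cfsg.HasNormalPComplement p A) (hA₁p : Cfsg.HasNormalPComplement p A₁)
    (hC : ∀ n : G, n ∈ N → (∀ a : G, a ∈ A → a * n * a⁻¹ = n) → n = 1)
    (hC₁ : ∀ n : G, n ∈ N → (∀ a : G, a ∈ A₁ → a * n * a⁻¹ = n) → n = 1) :
    ∃ n : G, n ∈ N ∧ A₁ = A.map (MulAut.conj n).toMonoidHom := by
  have hp : p.Prime := Fact.out
  obtain ⟨K, hK, hKA, hK1, k, hk⟩ := facts N hN A hA hAp hC
  obtain ⟨L, hL, hLA, hL1, l, hl⟩ := facts N hN A₁ hA₁ hA₁p hC₁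
  obtain ⟨b, hb⟩ := IsPGroup.iff_card.1 hN
  haveI := hN.isNilpotent
  have hcard : Nat.card K = Nat.card L := by
    have e := K.card_mul_index.trans L.card_mul_index.symm
    rw [hk, hl] at e
    exact Nat.dvd_antisymm
      ((Nat.Coprime.pow_right l ((Nat.Prime.coprime_iff_not_dvd hp).2 hK).symm).dvd_of_dvd_mul_right
        (e ▸ dvd_mul_right _ _))
      ((Nat.Coprime.pow_right k ((Nat.Prime.coprime_iff_not_dvd hp).2 hL).symm).dvd_of_dvd_mul_right
        (e.symm ▸ dvd_mul_right _ _))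
  obtain ⟨e, he, hKL⟩ := H3.exists_conj_eq_of_coprime (N := N) (H := K) (K := L)
    le_normalizer_of_normal (fun x hx => hL1 x (H35.not_dvd_orderOf_of_mem hK hx)) hcard
    (hb ▸ Nat.Coprime.pow_left b ((Nat.Prime.coprime_iff_not_dvd hp).2 hL))
    (Or.inl IsNilpotent.to_isSolvable)
  exact ⟨e, he, by rw [← hLA, ← hKL, H1.normalizer_conj_smul, hKA, H1.conj_smul_eq_map]⟩

end Cfsg.Agent.S4043
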