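import Mathlib
import Cfsg.Agent.Base
import Cfsg.Agent.Lib.FGS.Real2
import Cfsg.Statements.S4049

set_option autoImplicit false
open Cfsg

namespace Cfsg.Agent.S4049

/-- Let G be a finite group such that N_G(H)/C_G(H) has odd order for every nontrivial subgroup H of odd order. Then the Sylow 2-subgroups of G are normal. -/
theorem result {G : Type*} [Group G] [Finite G]
    (hhom : ∀ H : Subgroup G, H ≠ ⊥ → ¬ 2 ∣ Nat.card ↥H →
        ¬ 2 ∣ (Subgroup.centralizer (H : Set G)).relIndex (Subgroup.normalizer (H : Set G))) (P : Sylow 2 G) :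
    (P : Subgroup G).Normal := by
  refine H79.sylow_two_normal_of_no_odd_real (fun x g hx hg => ?_) P
  by_contra hx1
  apply hhom (Subgroup.zpowers x) (by simpa using hx1)
    (by rw [Nat.card_zpowers, ← even_iff_two_dvd]; exact Nat.not_even_iff_odd.2 hx)
  have hgN := H79.mem_normalizer_zpowers_of_conj_mem (hg ▸ inv_mem (Subgroup.mem_zpowers x))
  have hle : Subgroup.centralizer (Subgroup.zpowers x : Set G) ⊔ Subgroup.zpowers g ≤
      Subgroup.normalizer ((Subgroup.zpowers x : Subgroup G) : Set G) :=
    sup_le (Subgroup.centralizer_le_normalizer _) (Subgroup.zpowers_le.2 hgN)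
  have h2 := H5.relIndex_sup_zpowers Nat.prime_two
    (K := Subgroup.centralizer (Subgroup.zpowers x : Set G)) (x := g)
    (H2.le_normalizer_centralizer le_rfl hgN)
    (by
      rw [H80.centralizer_zpowers, H80.mem_Cx_iff_conj, hg]
      exact fun e => hx1 (H71.eq_one_of_odd_of_eq_inv hx e.symm))
    (by
      rw [H80.centralizer_zpowers, pow_two, H80.mem_Cx_iff_commute]
      exact H79.commute_sq_of_inverts hg)
  rw [← Subgroup.relIndex_mul_relIndex _ _ _ le_sup_left hle, h2]
  exact dvd_mul_right _ _

end Cfsg.Agent.S4049
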