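import Mathlib
import Cfsg.Agent.Base
import Cfsg.Agent.Lib.FGS.PiClosed
import Cfsg.Statements.S4050

set_option autoImplicit false
open Cfsg

namespace Cfsg.Agent.S4050

/-- Let π be a set of primes and G a finite group. The π-elements of G (elements whose order is divisible only by primes of π) form a subgroup if and only if G is π-separable (it has a chain of normal subgroups from 1 to G with each successive index divisible only by primes in π or only by primes outside π) and N_G(H)/C_G(H) is a π'-group for every nontrivial π'-subgroup H of G. -/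
theorem result {G : Type*} [Group G] [Finite G] (π : Set ℕ)
    (hπ : ∀ p ∈ π, p.Prime) :
    (∃ K : Subgroup G, ∀ x : G, x ∈ K ↔ ∀ p : ℕ, p.Prime → p ∣ orderOf x → p ∈ π) ↔
    ((∃ (n : ℕ) (H : Fin (n + 1) → Subgroup G), H 0 = ⊥ ∧ H (Fin.last n) = ⊤ ∧ Monotone H ∧ (∀ i, (H i).Normal) ∧
      ∀ i : Fin n, (∀ q : ℕ, q.Prime → q ∣ (H i.castSucc).relIndex (H i.succ) → q ∈ π) ∨
        (∀ q : ℕ, q.Prime → q ∣ (H i.castSucc).relIndex (H i.succ) → q ∉ π)) ∧
     (∀ H : Subgroup G, H ≠ ⊥ → (∀ p : ℕ, p.Prime → p ∣ Nat.card ↥H → p ∉ π) →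
        ∀ p : ℕ, p.Prime → p ∣ (Subgroup.centralizer (H : Set G)).relIndex (Subgroup.normalizer (H : Set G)) → p ∉ π)) := by
  constructor
  · rintro ⟨K, hK⟩
    haveI := H79.normal_of_iff_isPiElt hK
    have h1 := H79.prime_mem_of_forall_isPiElt fun x (hx : x ∈ K) => (hK x).1 hx
    have h2 := H79.prime_not_mem_index fun x hx => (hK x).2 hx
    refine ⟨(H3.IsPiSeparable.extension K (H3.isPiSeparable_of_piNum h1) ?_).exists_chain, ?_⟩
    · have := (H3.isPiSeparable_of_piNum (G := G ⧸ K) (π := πᶜ) h2).compl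
      rwa [compl_compl] at this
    · intro H hH hHπ p hp hd hpπ
      haveI := Fact.mk hp
      obtain ⟨P⟩ : Nonempty (Sylow p (Subgroup.normalizer (H : Set G))) := inferInstance
      refine H80.not_dvd_index_of_sylow_le P (fun x hx => ?_) hd
      have hxK : (x : G) ∈ K := (hK _).2 (((H79.isPiElt_singleton_iff hp).2
        ((H35.isPElt_coe x).2 (H35.isPElt_of_mem P.isPGroup' hx))).mono
          (Set.singleton_subset_iff.2 hpπ))
      intro y hy
      have a1 : x * y * (x : G)⁻¹ * y⁻¹ ∈ H :=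
        mul_mem ((Subgroup.mem_normalizer_iff.1 x.2 y).1 hy) (inv_mem hy)
      have a2 : x * y * (x : G)⁻¹ * y⁻¹ ∈ K := by
        have := ‹K.Normal›.conj_mem _ (inv_mem hxK) y
        have e : x * y * (x : G)⁻¹ * y⁻¹ = x * (y * (x : G)⁻¹ * y⁻¹) := by group
        rw [e]; exact mul_mem hxK this
      have a3 := H79.IsPiElt.eq_one ((hK _).1 a2) (H79.isPiElt_of_mem hHπ a1)
      rw [mul_inv_eq_one, mul_inv_eq_iff_eq_mul] at a3
      exact a3.symm
  · rintro ⟨h1, h2⟩
    exact (H79.piHomog_of_relIndex h2).piClosed_of_separable (H3.isPiSeparable_iff_chain.2 h1)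

end Cfsg.Agent.S4050
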