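import Mathlib
import Cfsg.Agent.Base
import Cfsg.Agent.Lib.FGS.Real
import Cfsg.Agent.Lib.PGroup.Frattini
import Cfsg.Statements.S4056

set_option autoImplicit false
open Cfsg

namespace Cfsg.Agent.S4056

open scoped commutatorElement

/-- In a finite 2-group of nilpotency class at most 2 and exponent dividing 4, the Frattini subgroup lies in the centre and is elementary abelian. -/
theorem result {P : Type*} [Group P] [Finite P] (hP : IsPGroup 2 P)
    (hcl : Group.nilpotencyClass P ≤ 2) (hexp : Monoid.exponent P ∣ 4) :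
    frattini P ≤ Subgroup.center P ∧ Cfsg.IsElementaryAbelian 2 (frattini P) := by
  haveI := hP.isNilpotent
  have hc := H79.commutator_mem_center_of_class_le_two hcl
  have h4 : ∀ x : P, x ^ 4 = 1 := fun x => Monoid.exponent_dvd_iff_forall_pow_eq_one.1 hexp x
  have hcm : ∀ x y z : P, Commute z ⁅x, y⁆ := fun x y z => Subgroup.mem_center_iff.1 (hc x y) z
  have h2 : ∀ x y : P, ⁅y, x⁆ ^ 2 = 1 := by
    intro x y
    have := H5.mul_pow_of_class_two (hcm y x x) (hcm y x y) 4
    rw [h4, h4, h4, one_mul, one_mul, show Nat.choose 4 2 = 4 + 2 by rfl, pow_add, h4,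
      one_mul] at this
    exact this.symm
  have hsq : ∀ x : P, x ^ 2 ∈ Subgroup.center P := by
    intro x
    rw [Subgroup.mem_center_iff]
    intro y
    have := H5.commutator_pow_left (hcm x y x) 2
    rw [h2, commutatorElement_eq_one_iff_mul_comm] at this
    exact this.symm
  have hle : frattini P ≤ Subgroup.center P := by
    rw [H5.frattini_eq_closure_sq hP, Subgroup.closure_le]
    rintro _ ⟨x, rfl⟩
    exact hsq x
  refine ⟨hle, ⟨⟨fun a b => Subtype.ext (Subgroup.mem_center_iff.1 (hle b.2) a)⟩⟩, ?_⟩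
  intro a ha
  rw [H5.frattini_eq_closure_sq hP] at ha
  refine H5.pow_eq_one_of_isMulCommutative (H := Subgroup.center P) inferInstance ?_ ?_ ha
  · rintro _ ⟨x, rfl⟩
    exact hsq x
  · rintro _ ⟨x, rfl⟩
    simp only [← pow_mul]; exact h4 x

end Cfsg.Agent.S4056
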