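import Cfsg.Statements.S4057
import Cfsg.Agent.Lib.Misc92.PGens
import Cfsg.Agent.Lib.Core.Frattini
-- import your own Cfsg.Agent.* helpers here

set_option autoImplicit false
open Cfsg

namespace Cfsg.Agent.S4057

/-- Let p be an odd prime and P a finite p-group in which every normal abelian subgroup can be generated by k elements. Then every subgroup of P can be generated by at most ⌊k(k+4)/4⌋ elements. -/
theorem result {P : Type*} [Group P] [Finite P] {p : ℕ} [Fact p.Prime]
    (hp : p ≠ 2) (hP : IsPGroup p P) (k : ℕ)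
    (hab : ∀ A : Subgroup P, A.Normal → IsMulCommutative A → ∃ S : Finset P, S.card ≤ k ∧ Subgroup.closure (S : Set P) = A) :
    ∀ H : Subgroup P, ∃ S : Finset P, S.card ≤ k * (k + 4) / 4 ∧ Subgroup.closure (S : Set P) = H := by
  open Subgroup H69 H92 in
  classical
  intro H
  have hp' : p.Prime := Fact.out
  obtain ⟨A, hAn, hA, -, hmax⟩ := H5.exists_maximal_normal_elementary (p := p) (⊥ : Subgroup P)
    ⟨inferInstance, fun x hx => by rw [mem_bot.1 hx, one_pow]⟩
  obtain ⟨a, ha⟩ := IsPGroup.iff_card.1 (hP.to_subgroup A)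
  have hak : a ≤ k := by
    obtain ⟨S, h1, h2⟩ := hab A hAn hA.1
    have h3 : closure ((S.subtype (· ∈ A) : Finset A) : Set A) = ⊤ := by
      apply map_injective A.subtype_injective
      rw [MonoidHom.map_closure, map_subtype_top]
      conv_rhs => rw [← h2]
      congr 1
      ext x
      constructor
      · rintro ⟨y, hy, rfl⟩
        simpa using hy
      · intro hx
        exact ⟨⟨x, h2.le (subset_closure hx)⟩, by simpa using hx, rfl⟩
    have h4 := H1.index_frattini_dvd_pow_card (hP.to_subgroup A) _ h3
    rw [(H5.frattini_eq_bot_iff (hP.to_subgroup A)).2 ⟨hA.1, fun x => Subtype.ext (hA.2 x x.2)⟩, index_bot, ha,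
      Nat.pow_dvd_pow_iff_le_right hp'.one_lt] at h4
    exact h4.trans ((Finset.card_subtype _ _).le.trans ((Finset.card_filter_le _ _).trans h1))
  have hAc : A ≤ 𝐂(A) := le_centralizer_iff_isMulCommutative.2 hA.1
  set D := H ⊓ 𝐂(A) with hD
  obtain ⟨S, s1, s2, s3⟩ := exists_gens_mod_centralizer hP A hAc ha H
    ((frattini H).map H.subtype ⊔ D) (fun g hg h hh => mem_sup_left
      (H5.commutator_le_map_frattini (hP.to_subgroup H) (commutator_mem_commutator hg hh)))
    le_sup_right
  have h1 := index_frattini_le_of_pCentral hp _ D rfl (hP.to_subgroup D) (A.subgroupOf D)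
    (fun x hx => mem_center_iff.2 fun y => Subtype.ext
      (mem_centralizer_iff_commute.1 y.2.2 x hx).symm)
    (fun y => ⟨fun hy => Subtype.ext (hA.2 y hy), fun hy =>
      H5.mem_of_maximal_normal_elementary hp hP A hA hmax y.2.2 (congrArg Subtype.val hy)⟩)
  obtain ⟨T, t1, t2⟩ := H93.exists_finset_of_relIndex_le (hP.to_subgroup D) (r := a)
    (h1.trans (by
      rw [← ha, ← inf_subgroupOf_right, card_subgroupOf inf_le_right]
      exact card_le_of_le inf_le_left))
  refine ⟨S ∪ T, (Finset.card_union_le _ _).trans ?_, ?_⟩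
  · have h2 : a ^ 2 / 4 ≤ k ^ 2 / 4 := Nat.div_le_div_right (Nat.pow_le_pow_left hak 2)
    have h3 : k * (k + 4) = k ^ 2 + 4 * k := by ring
    omega
  have h2 : closure ((S ∪ T : Finset P) : Set P) ≤ H := by
    rw [Finset.coe_union, Subgroup.closure_union, t2]
    exact sup_le ((closure_le _).2 s2) inf_le_left
  have h3 : (closure ((S ∪ T : Finset P) : Set P)).subgroupOf H = ⊤ := by
    refine H1.eq_top_of_sup_eq_top_of_le_frattini le_rfl ?_
    apply map_injective H.subtype_injective
    rw [Subgroup.map_sup, map_subtype_top, map_subgroupOf_eq_of_le h2]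
    refine le_antisymm (sup_le h2 (map_subtype_le _)) (s3.trans ?_)
    rw [Finset.coe_union, Subgroup.closure_union, t2]
    exact sup_le (le_sup_left.trans le_sup_left) (sup_le le_sup_right
      (le_sup_right.trans le_sup_left))
  exact le_antisymm h2 (subgroupOf_eq_top.1 h3)

end Cfsg.Agent.S4057
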