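import Mathlib
import Cfsg.Agent.Base
import Cfsg.Agent.Lib.Deg.Basic
import Cfsg.Agent.Lib.Deg.FS
import Cfsg.Agent.Lib.PGroup.Frattini
import Cfsg.Statements.S4058

set_option autoImplicit false
open Cfsg

namespace Cfsg.Agent.S4058

open scoped ComplexConjugate

theorem dvd_sum_of_orbit {Λ X : Type*} [Group Λ] [MulAction Λ X] [Fintype X] (f : X → ℤ)
    (hf : ∀ (l : Λ) (x : X), f (l • x) = f x) (d : ℤ)
    (hd : ∀ x : X, d ∣ (MulAction.stabilizer Λ x).index * f x) : d ∣ ∑ x, f x := by
  classical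
  rw [← Finset.sum_fiberwise_of_maps_to (s := Finset.univ)
    (t := Finset.univ.image (Quotient.mk (MulAction.orbitRel Λ X)))
    (g := Quotient.mk (MulAction.orbitRel Λ X)) (fun x _ => Finset.mem_image_of_mem _ (by simp))]
  refine Finset.dvd_sum fun t ht => ?_
  obtain ⟨x, -, rfl⟩ := Finset.mem_image.mp ht
  have h1 : ((Finset.univ.filter fun y => Quotient.mk (MulAction.orbitRel Λ X) y =
      Quotient.mk (MulAction.orbitRel Λ X) x : Finset X) : Set X) = MulAction.orbit Λ x := by
    ext y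
    simp only [Finset.coe_filter, Finset.mem_univ, true_and, Set.mem_ofPred_eq, Quotient.eq]
    exact MulAction.orbitRel_apply
  rw [Finset.sum_congr rfl (g := fun _ => f x), Finset.sum_const, ← Set.ncard_coe_finset, h1,
    ← MulAction.index_stabilizer, nsmul_eq_mul]
  · exact hd x
  · intro y hy
    have : y ∈ MulAction.orbit Λ x := h1 ▸ hy
    obtain ⟨l, rfl⟩ := this
    exact hf l x

/-- Linear characters of a quotient act on the irreducible characters. -/
@[reducible] noncomputable def act {G Q : Type*} [Group G] [Finite G] [CommGroup Q]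
    (π : G →* Q) : MulAction (Q →* ℂˣ) (IrrCharacter G) where
  smul l χ := ⟨fun g => (χ : G → ℂ) g * ((l.comp π) g : ℂ), H6.isIrrCharacter_mul_hom χ.2 _⟩
  one_smul χ := Subtype.ext (funext fun g => by
    change (χ : G → ℂ) g * (((1 : Q →* ℂˣ).comp π) g : ℂ) = _
    simp)
  mul_smul l m χ := Subtype.ext (funext fun g => by
    change (χ : G → ℂ) g * (((l * m).comp π) g : ℂ) =
      (χ : G → ℂ) g * ((m.comp π) g : ℂ) * ((l.comp π) g : ℂ)
    simp only [MonoidHom.comp_apply, MonoidHom.mul_apply, Units.val_mul]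
    ring)

theorem card_stabilizer_le {G Q : Type*} [Group G] [Fintype G] [CommGroup Q] [Finite Q]
    (π : G →* Q) (hπ : Function.Surjective π) (χ : IrrCharacter G) :
    Nat.card (@MulAction.stabilizer (Q →* ℂˣ) _ _ (act π) χ) ≤ charDegree (χ : G → ℂ) ^ 2 := by
  classical
  letI := act π
  have hθ : IsCharacter G ((χ : G → ℂ) * fun g => conj ((χ : G → ℂ) g)) :=
    H6.isCharacter_mul (H6.irr_isCharacter χ.2) (H6.isCharacter_conj (H6.irr_isCharacter χ.2))
  obtain ⟨m, hm, -, hdeg⟩ := H87.char_decomp hθ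
  have hd : charDegree ((χ : G → ℂ) * fun g => conj ((χ : G → ℂ) g)) =
      charDegree (χ : G → ℂ) ^ 2 := by
    have := H87.deg_mul (H6.irr_isCharacter χ.2) (H6.isCharacter_conj (H6.irr_isCharacter χ.2))
    rw [H87.deg_conj (H6.irr_isCharacter χ.2), ← sq] at this
    exact this
  let ι : MulAction.stabilizer (Q →* ℂˣ) χ → IrrCharacter G := fun l =>
    ⟨fun g => ((l.1.comp π) g : ℂ), H6.isIrrCharacter_hom _⟩
  have hι : Function.Injective ι := by
    intro l l' h
    apply Subtype.ext
    ext q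
    obtain ⟨g, rfl⟩ := hπ q
    exact congrFun (congrArg Subtype.val h) g
  have hm1 : ∀ l, m (ι l) = 1 := by
    intro l
    have h1 := hm (ι l)
    have h2 : ∀ g, (χ : G → ℂ) g * ((l.1.comp π) g : ℂ) = (χ : G → ℂ) g := fun g =>
      congrFun (congrArg Subtype.val (MulAction.mem_stabilizer_iff.mp l.2)) g
    have h3 := H6.irr_inner_self χ.2
    have h4 : classInner ((χ : G → ℂ) * fun g => conj ((χ : G → ℂ) g)) (ι l) =
        classInner (χ : G → ℂ) χ := by
      unfold classInner
      congr 1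
      refine Finset.sum_congr rfl fun g _ => ?_
      change (χ : G → ℂ) g * conj ((χ : G → ℂ) g) * conj ((l.1.comp π) g : ℂ) = _
      rw [mul_assoc, ← map_mul, h2]
    rw [h4, h3] at h1
    exact_mod_cast h1.symm
  have : Finite (Q →* ℂˣ) := inferInstance
  have := Fintype.ofFinite (MulAction.stabilizer (Q →* ℂˣ) χ)
  rw [← hd, hdeg, Nat.card_eq_fintype_card, ← Finset.card_univ,
    ← Finset.card_image_of_injective _ hι, Finset.card_eq_sum_ones]
  refine le_trans (Finset.sum_le_sum fun ψ hψ => ?_)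
    (Finset.sum_le_sum_of_subset (Finset.subset_univ _))
  obtain ⟨l, -, rfl⟩ := Finset.mem_image.mp hψ
  rw [hm1, one_mul]
  exact H87.deg_pos (ι l).2

/-- Let G be a finite 2-group with #(G/Φ(G)) ≥ 2^(2k+1). Then the number of elements x of G with x² = 1 is divisible by 2^(k+1). -/
theorem result {G : Type*} [Group G] [Finite G] (hG : IsPGroup 2 G) (k : ℕ)
    (hgen : 2 ^ (2 * k + 1) ≤ Nat.card (G ⧸ frattini G)) :
    2 ^ (k + 1) ∣ Nat.card {x : G // x ^ 2 = 1} := by
  classical
  have := Fintype.ofFinite G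
  have : Fact (Nat.Prime 2) := ⟨Nat.prime_two⟩
  letI : CommGroup (G ⧸ frattini G) :=
    { (inferInstance : Group (G ⧸ frattini G)) with
      mul_comm := (Subgroup.Normal.quotient_commutative_iff_commutator_le.mpr
        (H5.commutator_le_frattini hG)).is_comm.comm }
  let π : G →* G ⧸ frattini G := QuotientGroup.mk' _
  letI := act π
  have hΛ : Nat.card (G ⧸ frattini G →* ℂˣ) = Nat.card (G ⧸ frattini G) :=
    CommGroup.card_monoidHom_of_hasEnoughRootsOfUnity _ _
  choose e he using fun χ : IrrCharacter G => H87.nu_int χ.2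
  have h1 : (Nat.card {x : G // x ^ 2 = 1} : ℤ) =
      ∑ χ : IrrCharacter G, e χ * charDegree (χ : G → ℂ) := by
    have := H87.card_sqrt_eq_sum (1 : G)
    simp only [← sq] at this
    apply Int.cast_injective (α := ℂ)
    push_cast
    rw [this]
    exact Finset.sum_congr rfl fun χ _ => by rw [(he χ).1, H87.deg_cast']
  rw [← Int.natCast_dvd_natCast, h1]
  refine dvd_sum_of_orbit (Λ := G ⧸ frattini G →* ℂˣ) _ (fun l χ => ?_) _ fun χ => ?_
  · have h2 : charDegree ((l • χ : IrrCharacter G) : G → ℂ) = charDegree (χ : G → ℂ) :=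
      H87.deg_mul_hom (l.comp π)
    have h3 : H87.nu ((l • χ : IrrCharacter G) : G → ℂ) = H87.nu (χ : G → ℂ) := by
      rw [H87.nu_def, H87.nu_def]
      congr 1
      refine Finset.sum_congr rfl fun s _ => ?_
      change (χ : G → ℂ) (s * s) * ((l (π (s * s)) : ℂˣ) : ℂ) = _
      have : π (s * s) = 1 := by
        rw [← sq]
        exact (QuotientGroup.eq_one_iff _).mpr (H5.pow_mem_frattini hG s)
      rw [this, map_one, Units.val_one, mul_one]
    rw [(he _).1, (he _).1] at h3
    rw [h2, Int.cast_injective h3]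
  · obtain ⟨a, ha⟩ := H87.deg_pow_of_isPGroup hG χ.2
    have hle := card_stabilizer_le π (QuotientGroup.mk'_surjective _) χ
    obtain ⟨d, hd⟩ := IsPGroup.iff_card.mp (hG.to_quotient (frattini G))
    have hmul := (MulAction.stabilizer (G ⧸ frattini G →* ℂˣ) χ).index_mul_card
    rw [hΛ, hd] at hmul
    obtain ⟨i, -, hi⟩ := (Nat.dvd_prime_pow Nat.prime_two).mp (Dvd.intro _ hmul)
    obtain ⟨j, -, hj⟩ := (Nat.dvd_prime_pow Nat.prime_two).mp (Dvd.intro_left _ hmul)
    rw [hi, hj, ← pow_add] at hmul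
    rw [hj, ha, ← pow_mul] at hle
    rw [hd] at hgen
    have h1 := Nat.pow_right_injective le_rfl hmul
    have h2 := (Nat.pow_le_pow_iff_right (by norm_num)).mp hle
    have h3 := (Nat.pow_le_pow_iff_right (by norm_num)).mp hgen
    rw [hi, ha, mul_left_comm]
    refine Dvd.dvd.mul_left ?_ _
    rw [← Nat.cast_mul, ← pow_add, Int.natCast_dvd_natCast]
    exact pow_dvd_pow 2 (by omega)

end Cfsg.Agent.S4058
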