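import Mathlib
import Cfsg.Agent.Base
import Cfsg.Agent.Lib.SL2Elt.Basic
import Cfsg.Agent.Lib.FGS.ClassSize
import Cfsg.Statements.S4065

set_option autoImplicit false
open Cfsg

namespace Cfsg.Agent.S4065

open scoped Pointwise MatrixGroups

theorem ti_of_ct {G : Type*} [Group G]
    (h : ∀ x y : G, x ≠ 1 → y ≠ 1 → y ∈ Subgroup.centralizer ({x} : Set G) →
      Subgroup.centralizer ({y} : Set G) = Subgroup.centralizer ({x} : Set G)) (x : G) :
    Cfsg.IsTISubset (Subgroup.centralizer ({x} : Set G) : Set G) := by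
  intro g hg y hy hgy
  by_contra hy1
  apply hg
  by_cases hx : x = 1
  · subst hx
    rw [H80.Cx_one, Subgroup.normalizer_eq_top]; trivial
  have h1 := h x y hx hy1 hy
  have h2 := h x _ hx (fun e => hy1 (by
    calc y = g⁻¹ * (g * y * g⁻¹) * g := by group
      _ = 1 := by rw [e]; group)) hgy
  rw [H1.mem_normalizer_iff_conj_smul_eq, ← h1, ← H80.Cx_conj, h2, h1]

/-- Let F be a finite field with 2ⁿ elements, n ≥ 2. In PSL₂(F) the centralizer of every element meets each of its conjugates by elements outside its normalizer trivially. -/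
theorem result (n : ℕ) (hn : 2 ≤ n)
    (x : Matrix.ProjectiveSpecialLinearGroup (Fin 2) (GaloisField 2 n)) :
    Cfsg.IsTISubset (Subgroup.centralizer ({x} : Set (Matrix.ProjectiveSpecialLinearGroup (Fin 2) (GaloisField 2 n))) :
      Set (Matrix.ProjectiveSpecialLinearGroup (Fin 2) (GaloisField 2 n))) := by
  apply ti_of_ct
  have h2 : (2 : GaloisField 2 n) = 0 := CharTwo.two_eq_zero
  have hc := H64.SL2.center_eq_bot_of_two_eq_zero h2
  have hinj : Function.Injective
      (QuotientGroup.mk' (Subgroup.center SL(2, GaloisField 2 n))) := by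
    rw [← MonoidHom.ker_eq_bot_iff, QuotientGroup.ker_mk', hc]
  intro x y hx hy hxy
  obtain ⟨x, rfl⟩ := QuotientGroup.mk'_surjective _ x
  obtain ⟨y, rfl⟩ := QuotientGroup.mk'_surjective _ y
  have key : ∀ a b : SL(2, GaloisField 2 n),
      QuotientGroup.mk' (Subgroup.center SL(2, GaloisField 2 n)) a ∈
        Subgroup.centralizer {QuotientGroup.mk' (Subgroup.center SL(2, GaloisField 2 n)) b} ↔
      a ∈ Subgroup.centralizer {b} := fun a b => by
    rw [← H80.comap_Cx_of_injective hinj b]; rfl
  have := H64.SL2.centralizer_eq_of_mem (g := x) (h := y)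
    (fun e => hx ((QuotientGroup.eq_one_iff x).2 e)) ((key y x).1 hxy)
    (fun e => hy ((QuotientGroup.eq_one_iff y).2 e))
  ext z
  obtain ⟨z, rfl⟩ := QuotientGroup.mk'_surjective _ z
  exact (key z y).trans (this ▸ (key z x).symm)

end Cfsg.Agent.S4065
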