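import Mathlib
import Cfsg.Agent.Base
import Cfsg.Agent.Lib.FGS.SylowTI
import Cfsg.Agent.Lib.FGS.ClassSize
import Cfsg.Agent.Lib.Invol.BaerSuzuki
import Cfsg.Agent.Lib.PGroup.Basic
import Cfsg.Agent.Lib.LocEven.Basic
import Cfsg.Statements.S4066

set_option autoImplicit false
open Cfsg

namespace Cfsg.Agent.S4066

open scoped Pointwise

/-- Let G be a finite group in which the centralizer of every element meets each of its conjugates by elements outside its normalizer trivially. Then any two distinct Sylow p-subgroups of G, for any prime p, intersect trivially. -/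
theorem result {G : Type*} [Group G] [Finite G] (hTI : ∀ x : G, Cfsg.IsTISubset (Subgroup.centralizer ({x} : Set G) : Set G))
    {p : ℕ} [Fact p.Prime] (P Q : Sylow p G) (hPQ : P ≠ Q) : (P : Subgroup G) ⊓ (Q : Subgroup G) = ⊥ := by
  rw [eq_bot_iff]
  intro x hx
  by_contra hx1
  apply hPQ
  have hP1 : (P : Subgroup G) ≠ ⊥ := fun e => hx1 (e ▸ hx.1)
  obtain ⟨z, hzP, hzC, hz⟩ := H5.exists_mem_centralizer_orderOf_eq P.isPGroup' le_rfl
    Subgroup.le_normalizer hP1
  have hz1 : z ≠ 1 := fun e => by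
    rw [e, orderOf_one] at hz; exact (Fact.out : p.Prime).ne_one hz.symm
  set C := Subgroup.centralizer ({z} : Set G) with hC
  have hPC : (P : Subgroup G) ≤ C := H80.le_Cx_iff.2 hzC
  obtain ⟨g, hg⟩ := MulAction.exists_smul_eq G P Q
  have hQ : (Q : Subgroup G) = MulAut.conj g • (P : Subgroup G) := by rw [← hg]; rfl
  have hgN : g⁻¹ ∈ Subgroup.normalizer (C : Set G) := by
    by_contra hn
    refine hx1 (hTI z g⁻¹ hn x (hPC hx.1) (hPC ?_))
    have := hx.2
    rw [hQ] at this
    simpa using H1.mem_conj_smul_iff.1 this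
  have hQC : (Q : Subgroup G) ≤ C := by
    have hg' : g ∈ Subgroup.normalizer (C : Set G) := inv_mem_iff.1 hgN
    rw [hQ, ← H1.mem_normalizer_iff_conj_smul_eq.1 hg']
    exact Subgroup.pointwise_smul_le_pointwise_smul_iff.2 hPC
  have key : ∀ y ∈ C, ∀ c ∈ C, Commute y (c * y * c⁻¹) := by
    intro y hy c hc
    have hcN : c ∈ Subgroup.normalizer
        ((Subgroup.centralizer ({y} : Set G) : Subgroup G) : Set G) := by
      by_contra hn
      refine hz1 (hTI y c hn z (H80.mem_Cx_comm.1 hy) ?_)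
      rw [H80.mem_Cx_iff_conj.1 hc]
      exact H80.mem_Cx_comm.1 hy
    exact H80.mem_Cx_iff_commute.1 (H68.conj_mem_of_mem_normalizer hcN (H80.self_mem_Cx y))
  refine Sylow.ext (P.is_maximal' Q.isPGroup' ?_).symm
  intro y hy
  have hyp : H35.IsPElt p (⟨y, hPC hy⟩ : C) :=
    (H35.isPElt_coe _).1 (H35.isPElt_of_mem P.isPGroup' hy)
  have h1 : IsPGroup p (Subgroup.normalClosure ({⟨y, hPC hy⟩} : Set C)) := by
    apply H9.isPGroup_normalClosure_of_forall_conj
    intro c
    rw [Set.insert_eq, Subgroup.closure_union, ← Subgroup.zpowers_eq_closure,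
      ← Subgroup.zpowers_eq_closure]
    refine H9.isPGroup_sup_of_le_normalizer (H35.isPElt_iff_zpowers.1 hyp)
      (H35.isPElt_iff_zpowers.1 (hyp.conj c)) ?_
    refine le_trans ?_ (Subgroup.centralizer_le_normalizer _)
    rw [H80.centralizer_zpowers, Subgroup.zpowers_le, H80.mem_Cx_iff_commute]
    exact Subtype.ext (key y (hPC hy) c c.2)
  have h2 := (H1.le_pCore h1).trans (H1.pCore_le_sylow (Q.subtype hQC))
    (Subgroup.subset_normalClosure (Set.mem_singleton _))
  exact h2

end Cfsg.Agent.S4066
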