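import Mathlib
import Cfsg.Statements.S4067
import Cfsg.Agent.Base
import Cfsg.Agent.Lib.FGS.ClassSize
import Cfsg.Agent.Lib.FGS.Ito
import Cfsg.Agent.Lib.Char.More
import Cfsg.Agent.Lib.PGroup.Basic
import Cfsg.Agent.Lib.PGroup.Commutator
-- import your own Cfsg.Agent.* helpers here

set_option autoImplicit false
open Cfsg

namespace Cfsg.Agent.S4067

open Subgroup H80 MulAction
open scoped commutatorElement Pointwise

theorem exists_aut {G : Type*} [Group G] [Finite G] {p : ℕ} (hp : p.Prime) {M : Subgroup G}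
    [M.Normal] (hM : M.index = p) {b b' : G} (hb : b ∉ M) (h1 : b⁻¹ * b' ∈ M)
    (h2 : ∀ m ∈ M, b' * m * b'⁻¹ = b * m * b⁻¹) (h3 : b' ^ p = b ^ p) :
    ∃ α : MulAut G, α b = b' := by
  have hbp : b ^ p ∈ M := H5.pow_mem_of_index_eq hM b
  have hb' : b' ∉ M := fun h => hb (by simpa using M.inv_mem (M.mul_mem h1 (M.inv_mem h)))
  have hdec : ∀ g : G, ∃ m ∈ M, ∃ i : ℤ, g = m * b ^ i := fun g =>
    (H5.mem_sup_zpowers_iff (le_top.trans (normalizer_eq_top M).ge (mem_top b))).1
      (by rw [H5.sup_zpowers_eq_top_of_isCoatom (H5.isCoatom_of_index_prime (hM ▸ hp)) hb]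
          exact mem_top g)
  choose m hm i hi using hdec
  have hpow : ∀ k : ℤ, (p : ℤ) ∣ k → b' ^ k = b ^ k := by
    rintro _ ⟨k, rfl⟩
    rw [zpow_mul, zpow_mul, zpow_natCast, zpow_natCast, h3]
  have hwd : ∀ n ∈ M, ∀ k : ℤ, m (n * b ^ k) * b' ^ i (n * b ^ k) = n * b' ^ k := by
    intro n hn k
    have e := hi (n * b ^ k)
    set m' := m (n * b ^ k)
    set j := i (n * b ^ k)
    have e1 : b ^ (k - j) = n⁻¹ * m' := by
      rw [zpow_sub, eq_inv_mul_iff_mul_eq, ← mul_assoc, e, mul_inv_cancel_right]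
    have e2 := hpow _ (H5.dvd_of_zpow_mem hp hb hbp (e1 ▸ M.mul_mem (M.inv_mem hn) (hm _)))
    rw [e1, zpow_sub] at e2
    calc m' * b' ^ j = n * (n⁻¹ * m') * b' ^ j := by group
      _ = _ := by rw [← e2]; group
  have hconj : ∀ k : ℤ, ∀ n ∈ M, b' ^ k * n * (b' ^ k)⁻¹ = b ^ k * n * (b ^ k)⁻¹ := by
    intro k n hn
    have e : (MulAut.conjNormal b' : MulAut M) = MulAut.conjNormal b := by
      ext x; exact h2 x x.2
    have e2 : (MulAut.conjNormal (b' ^ k) : MulAut M) = MulAut.conjNormal (b ^ k) := by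
      rw [map_zpow, map_zpow, e]
    exact congrArg (fun a : MulAut M => ((a ⟨n, hn⟩ : M) : G)) e2
  let f : G →* G := MonoidHom.mk' (fun g => m g * b' ^ i g) (by
    intro g h
    have e : g * h = (m g * (b ^ i g * m h * (b ^ i g)⁻¹)) * b ^ (i g + i h) := by
      conv_lhs => rw [hi g, hi h]
      group
    rw [e, hwd _ (M.mul_mem (hm g) (Normal.conj_mem inferInstance _ (hm h) _)),
      ← hconj _ _ (hm h)]
    group)
  have hf : Function.Injective f := by
    rw [injective_iff_map_eq_one]
    intro g hg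
    change m g * b' ^ i g = 1 at hg
    have e1 : b' ^ i g ∈ M := by
      rw [← eq_inv_iff_mul_eq_one] at hg
      exact (M.inv_mem_iff).1 (hg ▸ hm g)
    rw [hpow _ (H5.dvd_of_zpow_mem hp hb' (h3 ▸ hbp) e1), ← hi] at hg
    exact hg
  refine ⟨MulEquiv.ofBijective f (Finite.injective_iff_bijective.1 hf), ?_⟩
  have := hwd 1 M.one_mem 1
  simp only [one_mul, zpow_one] at this
  exact this

theorem card_orbits_eq (A X : Type*) [Group A] [MulAction A X] [Fintype X] :
    (Nat.card (orbitRel.Quotient A X) : ℚ) = ∑ x : X, (1 / ((orbit A x).ncard : ℚ)) := by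
  classical
  haveI := Fintype.ofFinite (orbitRel.Quotient A X)
  rw [← Finset.sum_fiberwise_of_maps_to (t := Finset.univ)
    (g := fun x : X => (Quotient.mk'' x : orbitRel.Quotient A X)) (fun _ _ => Finset.mem_univ _),
    Nat.card_eq_fintype_card, Fintype.card_eq_sum_ones, Nat.cast_sum]
  refine Finset.sum_congr rfl fun q _ => ?_
  induction q using Quotient.inductionOn' with
  | h x₀ =>
  have e : ∀ x : X, (Quotient.mk'' x : orbitRel.Quotient A X) = Quotient.mk'' x₀ ↔
      x ∈ orbit A x₀ := fun x => by rw [Quotient.eq'', orbitRel_apply]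
  rw [Finset.sum_congr rfl (g := fun _ => 1 / ((orbit A x₀).ncard : ℚ)) (fun x hx => by
    rw [orbit_eq_iff.2 ((e x).1 (Finset.mem_filter.1 hx).2)]), Finset.sum_const, nsmul_eq_mul]
  have e2 : (Finset.univ.filter fun x : X =>
      (Quotient.mk'' x : orbitRel.Quotient A X) = Quotient.mk'' x₀).card =
      (orbit A x₀).ncard := by
    rw [← Set.ncard_coe_finset]
    congr 1
    ext x; simp [e]
  have e3 : (orbit A x₀).ncard ≠ 0 :=
    ((Set.ncard_pos (Set.toFinite _)).2 ⟨x₀, mem_orbit_self x₀⟩).ne'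
  rw [e2]
  field_simp
  simp

theorem sum_ite_mem {G : Type*} [Group G] [Fintype G] (H : Subgroup G) [DecidablePred (· ∈ H)]
    (c : ℚ) : ∑ x : G, (if x ∈ H then c else 0) = Nat.card H * c := by
  rw [← Finset.sum_filter, Finset.sum_const, nsmul_eq_mul, Nat.card_eq_fintype_card,
    Fintype.card_subtype]

theorem class_subset_orbit {G : Type*} [Group G] (x : G) :
    {y | IsConj x y} ⊆ orbit (MulAut G) x := by
  intro y hy
  obtain ⟨g, rfl⟩ := isConj_iff.1 hy
  exact ⟨MulAut.conj g, rfl⟩

theorem partA {G : Type*} [Group G] [Finite G] {p : ℕ} (hp : p = (Nat.card G).minFac)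
    (h : p + 1 ≤ Nat.card (commutator G)) : Nat.card (ConjClasses G) * p ≤ Nat.card G := by
  classical
  haveI := Fintype.ofFinite (IrrCharacter G)
  choose d hd0 hd1 hd2 using fun χ : IrrCharacter G => H6.irr_one_dvd_card χ.2
  have h1 := H6.sum_irr_one_sq (G := G)
  have h1' : ∑ χ : IrrCharacter G, d χ ^ 2 = Nat.card G := by
    have : ∑ χ : IrrCharacter G, ((d χ : ℂ)) ^ 2 = Nat.card G := by
      rw [← h1]
      exact Finset.sum_congr (by ext; simp) fun χ _ => by rw [← hd1 χ]
    exact_mod_cast this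
  have h2 : (Finset.univ.filter fun χ : IrrCharacter G => d χ = 1).card = (commutator G).index := by
    rw [← H6.card_linear_irr, Nat.card_eq_fintype_card, Fintype.card_subtype]
    congr 1
    ext χ
    simp only [Finset.mem_filter, Finset.mem_univ, true_and]
    rw [show (χ : G → ℂ) 1 = d χ from hd1 χ]
    norm_cast
  have hp0 : 0 < p := hp ▸ Nat.minFac_pos _
  obtain ⟨q, rfl⟩ : ∃ q, p = q + 1 := ⟨p - 1, by omega⟩
  have h3 : ∑ χ : IrrCharacter G, (q + 1) ^ 2 ≤
      ∑ χ : IrrCharacter G, (d χ ^ 2 + if d χ = 1 then q * (q + 2) else 0) := by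
    refine Finset.sum_le_sum fun χ _ => ?_
    split_ifs with e
    · rw [e]; nlinarith
    · have : q + 1 ≤ d χ := hp ▸ Nat.minFac_le_of_dvd (by have := hd0 χ; omega) (hd2 χ)
      simpa using Nat.pow_le_pow_left this 2
  rw [Finset.sum_add_distrib, h1', ← Finset.sum_filter, Finset.sum_const, Finset.sum_const, h2,
    Finset.card_univ, ← Nat.card_eq_fintype_card, H6.card_irr_eq_card_conjClasses, smul_eq_mul,
    smul_eq_mul] at h3
  have h4 := (commutator G).card_mul_index
  have h5 : (q + 2) * (commutator G).index ≤ Nat.card G := h4 ▸ Nat.mul_le_mul_right _ h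
  have h6 : (q + 1) * (Nat.card (ConjClasses G) * (q + 1)) ≤ (q + 1) * Nat.card G := by
    nlinarith
  exact Nat.le_of_mul_le_mul_left h6 hp0

/-- The setting where the derived subgroup has order the least prime divisor. -/
structure Small (G : Type*) [Group G] (p : ℕ) : Prop where
  prime : p.Prime
  min : p = (Nat.card G).minFac
  card : Nat.card (commutator G) = p

namespace Small
variable {G : Type*} [Group G] [Finite G] {p : ℕ}

theorem le (h : Small G p) {n : ℕ} (h1 : n ≠ 1) (h2 : n ∣ Nat.card G) : p ≤ n := by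
  have : n ≠ 0 := fun e => by rw [e, zero_dvd_iff] at h2; exact Nat.card_pos.ne' h2
  exact h.min ▸ Nat.minFac_le_of_dvd (by omega) h2

theorem le_cs (h : Small G p) {x : G} (hx : x ∉ center G) : p ≤ cs⟦x⟧ :=
  h.le (mt cs_eq_one_iff.1 hx) (cs_dvd_card x)

theorem comm_mem (a b : G) : ⁅a, b⁆ ∈ commutator G :=
  commutator_mem_commutator (mem_top a) (mem_top b)

theorem le_center (h : Small G p) : commutator G ≤ center G := by
  intro x hx
  by_contra hc
  have h1 := h.le_cs hc
  have h2 : {y | IsConj x y} ⊆ (commutator G : Set G) \ {1} := by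
    intro y hy
    obtain ⟨g, rfl⟩ := isConj_iff.1 hy
    refine ⟨Normal.conj_mem inferInstance x hx g, fun e => hc ?_⟩
    have : x = 1 := by simpa using e
    rw [this]; exact one_mem _
  have h3 := Set.ncard_le_ncard h2 (Set.toFinite _)
  have h4 := Set.ncard_sdiff_singleton_lt_of_mem (s := (commutator G : Set G)) (one_mem _)
    (Set.toFinite _)
  rw [← Nat.card_coe_set_eq (commutator G : Set G), SetLike.coe_sort_coe, h.card] at h4
  rw [ncard_isConj] at h3
  omega

theorem cs_eq (h : Small G p) {x : G} (hx : x ∉ center G) : cs⟦x⟧ = p := by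
  refine le_antisymm ?_ (h.le_cs hx)
  rw [← ncard_isConj, ← h.card, ← SetLike.coe_sort_coe, Nat.card_coe_set_eq]
  refine Set.ncard_le_ncard_of_injOn (fun y => y * x⁻¹) ?_ (fun a _ b _ e => mul_right_cancel e)
    (Set.toFinite _)
  intro y hy
  obtain ⟨g, rfl⟩ := isConj_iff.1 hy
  exact comm_mem g x

theorem comm_pow (h : Small G p) {z : G} (hz : z ∈ commutator G) : z ^ p = 1 := by
  rw [← h.card]; exact congrArg Subtype.val (pow_card_eq_one' (x := (⟨z, hz⟩ : commutator G)))

theorem pow_mem (h : Small G p) (a : G) : a ^ p ∈ center G := by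
  rw [mem_center_iff]
  intro g
  have := commutator_pow_left_of_central (a := a) (b := g)
    (mem_center_iff.1 (h.le_center (comm_mem a g)) a) p
  rw [h.comm_pow (comm_mem a g), commutatorElement_eq_one_iff_commute] at this
  exact this.symm.eq

theorem exists_noncentral (h : Small G p) : ∃ a, a ∉ center G := by
  by_contra hc
  push Not at hc
  have : commutator G = ⊥ := by
    rw [eq_bot_iff, commutator_def, commutator_le]
    intro a _ b _
    rw [mem_bot, commutatorElement_eq_one_iff_commute]
    exact mem_center_iff.1 (hc b) a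
  have h1 := h.card
  rw [this, card_bot] at h1
  exact h.prime.one_lt.ne h1

theorem sq_le (h : Small G p) : Nat.card (center G) * (p * p) ≤ Nat.card G := by
  obtain ⟨a, ha⟩ := h.exists_noncentral
  rw [← (center G).card_mul_index, ← relIndex_mul_index (center_le_Cx a), h.cs_eq ha]
  refine Nat.mul_le_mul_left _ (Nat.mul_le_mul_right _ (h.le (fun e => ha ?_) ?_))
  · exact relIndex_eq_one.1 e (self_mem_Cx a)
  · exact (relIndex_dvd_index_of_le (center_le_Cx a)).trans (index_dvd_card _)

theorem aut (h : Small G p) {a b u : G} (hb : b ∉ Cx⟦a⟧) (hu : u ∈ Cx⟦a⟧)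
    (hu' : Cx⟦a⟧ ≤ Cx⟦u⟧) (h3 : (b * u) ^ p = b ^ p) : ∃ α : MulAut G, α b = b * u := by
  have ha : a ∉ center G := fun e => hb (by rw [Cx_eq_top_iff.2 e]; exact mem_top b)
  haveI : (Cx⟦a⟧).Normal := Normal.of_commutator_le _ (h.le_center.trans (center_le_Cx a))
  refine exists_aut h.prime (h.cs_eq ha) hb (by simpa using hu) (fun m hm => ?_) h3
  calc b * u * m * (b * u)⁻¹ = b * (u * m) * u⁻¹ * b⁻¹ := by group
    _ = _ := by rw [← mem_Cx.1 (hu' hm)]; group

theorem case1 (h : Small G p) {b u : G} (hb : b ∉ Cx⟦u⟧) (h3 : (b * u) ^ p = b ^ p) :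
    Nat.card (orbitRel.Quotient (MulAut G) G) * p ≤ Nat.card G := by
  classical
  haveI := Fintype.ofFinite G
  obtain ⟨α, hα⟩ := h.aut hb (self_mem_Cx u) le_rfl h3
  have hu : u ∉ center G := fun e => hb (by rw [Cx_eq_top_iff.2 e]; exact mem_top b)
  set F := MonoidHom.eqLocus ((QuotientGroup.mk' (center G)).comp α.toMonoidHom)
    (QuotientGroup.mk' (center G)) with hF
  have hmem : ∀ g, g ∈ F ↔ ((α g : G) : G ⧸ center G) = (g : G ⧸ center G) := fun g => Iff.rfl
  have hbF : b ∉ F := by
    rw [hmem, hα, QuotientGroup.mk_mul, mul_eq_left, QuotientGroup.eq_one_iff]; exact hu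
  have hF1 : Nat.card F * p ≤ Nat.card G := by
    rw [← F.card_mul_index]
    refine Nat.mul_le_mul_left _ (h.le (fun e => hbF ?_) (index_dvd_card _))
    rw [index_eq_one.1 e]; exact mem_top b
  have hcl : ∀ x y : G, IsConj x y → (y : G ⧸ center G) = x := by
    intro x y hy
    obtain ⟨g, rfl⟩ := isConj_iff.1 hy
    rw [eq_comm, QuotientGroup.eq]
    have := h.le_center (comm_mem x⁻¹ g)
    rw [commutatorElement_def] at this
    simpa [mul_assoc] using this
  have hp0 : (0 : ℚ) < p := by exact_mod_cast h.prime.pos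
  have hp2 : (2 : ℚ) ≤ p := by exact_mod_cast h.prime.two_le
  have key : ∀ x : G, (1 / ((orbit (MulAut G) x).ncard : ℚ)) ≤
      1 / (2 * p) + (if x ∈ F then (1 / (2 * p) : ℚ) else 0) +
        (if x ∈ center G then (1 - 1 / p : ℚ) else 0) := by
    intro x
    by_cases hx : x ∈ center G
    · have hxF : x ∈ F := by
        rw [hmem, (QuotientGroup.eq_one_iff x).2 hx, QuotientGroup.eq_one_iff, ← cs_eq_one_iff,
          cs_equiv, cs_eq_one_iff]
        exact hx
      have h1 : (1 : ℚ) ≤ (orbit (MulAut G) x).ncard := by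
        exact_mod_cast (Set.ncard_pos (Set.toFinite _)).2 ⟨x, mem_orbit_self x⟩
      rw [if_pos hx, if_pos hxF]
      refine (one_div_le_one_div_of_le one_pos h1).trans (le_of_eq ?_)
      field_simp; ring
    rw [if_neg hx, add_zero]
    by_cases hxF : x ∈ F
    · have h1 : (p : ℚ) ≤ (orbit (MulAut G) x).ncard := by
        have := Set.ncard_le_ncard (class_subset_orbit x) (Set.toFinite _)
        rw [ncard_isConj, h.cs_eq hx] at this
        exact_mod_cast this
      rw [if_pos hxF]
      refine (one_div_le_one_div_of_le hp0 h1).trans (le_of_eq ?_)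
      field_simp; ring
    · have h1 : (2 * p : ℚ) ≤ (orbit (MulAut G) x).ncard := by
        have hs : {y | IsConj x y} ∪ {y | IsConj (α x) y} ⊆ orbit (MulAut G) x := by
          refine Set.union_subset (class_subset_orbit x) ((class_subset_orbit _).trans ?_)
          rw [orbit_eq_iff.2 (show α x ∈ orbit (MulAut G) x from ⟨α, rfl⟩)]
        have := Set.ncard_le_ncard hs (Set.toFinite _)
        have hdj : Disjoint {y | IsConj x y} {y | IsConj (α x) y} :=
          Set.disjoint_left.2 fun y h1 h2 =>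
            hxF ((hmem x).2 ((hcl _ _ h2).symm.trans (hcl _ _ h1)))
        rw [Set.ncard_union_eq hdj (Set.toFinite _) (Set.toFinite _), ncard_isConj, ncard_isConj, cs_equiv, h.cs_eq hx, ← two_mul] at this
        exact_mod_cast this
      rw [if_neg hxF, add_zero]
      exact one_div_le_one_div_of_le (by positivity) h1
  have h1 := (card_orbits_eq (MulAut G) G).le.trans (Finset.sum_le_sum fun x _ => key x)
  rw [Finset.sum_add_distrib, Finset.sum_add_distrib, sum_ite_mem, sum_ite_mem, Finset.sum_const,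
    Finset.card_univ, ← Nat.card_eq_fintype_card, nsmul_eq_mul] at h1
  have h2 : (Nat.card F : ℚ) * p ≤ Nat.card G := by exact_mod_cast hF1
  have h4 : (Nat.card (center G) : ℚ) * (p * p) ≤ Nat.card G := by exact_mod_cast h.sq_le
  have h5 : (Nat.card (orbitRel.Quotient (MulAut G) G) : ℚ) * p ≤ Nat.card G := by
    have e : ((Nat.card G : ℚ) * (1 / (2 * p)) + Nat.card F * (1 / (2 * p)) +
        Nat.card (center G) * (1 - 1 / p)) * p =
        Nat.card G / 2 + Nat.card F / 2 + Nat.card (center G) * (p - 1) := by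
      field_simp
    have h6 := mul_le_mul_of_nonneg_right h1 hp0.le
    rw [e] at h6
    refine h6.trans ?_
    have hG : (0 : ℚ) ≤ Nat.card G := by positivity
    have h7 : ((Nat.card F : ℚ) + 2 * Nat.card (center G) * (p - 1)) * (p * p) ≤
        Nat.card G * (p * p) := by
      have a1 := mul_le_mul_of_nonneg_right h2 hp0.le
      have a2 := mul_le_mul_of_nonneg_right h4 (show (0 : ℚ) ≤ 2 * (p - 1) by linarith)
      have a3 : (0 : ℚ) ≤ Nat.card G * ((p - 1) * (p - 2)) :=
        mul_nonneg hG (mul_nonneg (by linarith) (by linarith))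
      nlinarith
    have h8 := le_of_mul_le_mul_right h7 (by positivity)
    linarith
  exact_mod_cast h5

theorem case2 (h : Small G p) {K : Subgroup G} (hK : K ≤ center G) (hKp : ∀ c ∈ K, c ^ p = 1)
    (hc : p * p ≤ Nat.card K) :
    Nat.card (orbitRel.Quotient (MulAut G) G) * p ≤ Nat.card G := by
  classical
  haveI := Fintype.ofFinite G
  have hp0 : (0 : ℚ) < p := by exact_mod_cast h.prime.pos
  have hp2 : (2 : ℚ) ≤ p := by exact_mod_cast h.prime.two_le
  have key : ∀ x : G, (1 / ((orbit (MulAut G) x).ncard : ℚ)) ≤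
      1 / (p * p) + (if x ∈ center G then (1 - 1 / (p * p) : ℚ) else 0) := by
    intro x
    by_cases hx : x ∈ center G
    · have h1 : (1 : ℚ) ≤ (orbit (MulAut G) x).ncard := by
        exact_mod_cast (Set.ncard_pos (Set.toFinite _)).2 ⟨x, mem_orbit_self x⟩
      rw [if_pos hx]
      refine (one_div_le_one_div_of_le one_pos h1).trans (le_of_eq ?_)
      ring
    · rw [if_neg hx, add_zero]
      refine one_div_le_one_div_of_le (by positivity) ?_
      obtain ⟨a, ha⟩ : ∃ a, x ∉ Cx⟦a⟧ := by
        by_contra hh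
        push Not at hh
        exact hx (mem_center_iff.2 fun g => (mem_Cx.1 (hh g)).symm)
      have := Set.ncard_le_ncard_of_injOn (s := (K : Set G)) (t := orbit (MulAut G) x)
        (fun c => x * c) (fun c hc' => by
          obtain ⟨α, hα⟩ := h.aut ha (center_le_Cx a (hK hc'))
            (by rw [Cx_eq_top_iff.2 (hK hc')]; exact le_top)
            (by rw [(show Commute x c from mem_center_iff.1 (hK hc') x).mul_pow, hKp c hc', mul_one])
          exact ⟨α, hα⟩) (fun a _ b _ e => mul_left_cancel e) (Set.toFinite _)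
      rw [← Nat.card_coe_set_eq (K : Set G), SetLike.coe_sort_coe] at this
      exact_mod_cast hc.trans this
  have h1 := (card_orbits_eq (MulAut G) G).le.trans (Finset.sum_le_sum fun x _ => key x)
  rw [Finset.sum_add_distrib, sum_ite_mem, Finset.sum_const,
    Finset.card_univ, ← Nat.card_eq_fintype_card, nsmul_eq_mul] at h1
  have h4 : (Nat.card (center G) : ℚ) * (p * p) ≤ Nat.card G := by exact_mod_cast h.sq_le
  have h5 : (Nat.card (orbitRel.Quotient (MulAut G) G) : ℚ) * p ≤ Nat.card G := by
    have e : ((Nat.card G : ℚ) * (1 / (p * p)) + Nat.card (center G) * (1 - 1 / (p * p))) *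
        (p * p) = Nat.card G + Nat.card (center G) * (p * p - 1) := by
      field_simp
    have h6 := mul_le_mul_of_nonneg_right h1 (show (0 : ℚ) ≤ p * p by positivity)
    rw [e] at h6
    have hZ : (0 : ℚ) ≤ Nat.card (center G) := by positivity
    have a1 : (Nat.card (center G) : ℚ) * (p + 1) ≤ Nat.card G :=
      (mul_le_mul_of_nonneg_left (by nlinarith) hZ).trans h4
    have a2 := mul_le_mul_of_nonneg_right a1 (show (0 : ℚ) ≤ p - 1 by linarith)
    have h7 : (Nat.card (orbitRel.Quotient (MulAut G) G) : ℚ) * p * p ≤ Nat.card G * p := by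
      nlinarith
    exact le_of_mul_le_mul_right h7 hp0
  exact_mod_cast h5

theorem exists_not_mem {u : G} (hu : u ∉ center G) : ∃ b, b ∉ Cx⟦u⟧ := by
  by_contra hh
  push Not at hh
  exact hu (mem_center_iff.2 fun g => mem_Cx.1 (hh g))

theorem odd (h : Small G p) (h2 : p ≠ 2) :
    Nat.card (orbitRel.Quotient (MulAut G) G) * p ≤ Nat.card G := by
  have hm : ∀ x y : G, (x * y) ^ p = x ^ p * y ^ p := fun x y =>
    H5.mul_pow_eq_of_class_two_of_odd (mem_center_iff.1 (h.le_center (comm_mem y x)) x)
      (mem_center_iff.1 (h.le_center (comm_mem y x)) y) (h.prime.odd_of_ne_two h2)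
      (h.comm_pow (comm_mem y x))
  let f : G →* G := MonoidHom.mk' (fun x => x ^ p) hm
  by_cases hK : f.ker ≤ center G
  · refine h.case2 hK (fun c hc => hc) ?_
    have h1 := H1.card_map_mul_card_inf_ker f ⊤
    rw [inf_top_eq, card_top] at h1
    have h3 : Nat.card ((⊤ : Subgroup G).map f) ≤ Nat.card (center G) :=
      card_le_of_le (by rintro _ ⟨x, -, rfl⟩; exact h.pow_mem x)
    have h4 := h.sq_le
    rw [← h1] at h4
    exact Nat.le_of_mul_le_mul_left (h4.trans (Nat.mul_le_mul_right _ h3)) Nat.card_pos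
  · obtain ⟨u, hu, huZ⟩ := SetLike.not_le_iff_exists.1 hK
    obtain ⟨b, hb⟩ := exists_not_mem huZ
    exact h.case1 hb (by rw [hm, show u ^ p = 1 from hu, mul_one])

theorem two (h : Small G 2) :
    Nat.card (orbitRel.Quotient (MulAut G) G) * 2 ≤ Nat.card G := by
  by_cases h1 : ∃ c ∈ center G, c ^ 2 = 1 ∧ c ∉ commutator G
  · obtain ⟨c, hc, hc2, hc'⟩ := h1
    refine h.case2 (K := commutator G ⊔ zpowers c) (sup_le h.le_center (zpowers_le.2 hc)) ?_ ?_
    · intro d hd
      obtain ⟨k, hk, i, rfl⟩ := (H5.mem_sup_zpowers_iff_nat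
        (le_top.trans (normalizer_eq_top _).ge (mem_top c))).1 hd
      rw [(show Commute k (c ^ i) from mem_center_iff.1 (Subgroup.pow_mem _ hc i) k).mul_pow, h.comm_pow hk,
        ← pow_mul, mul_comm i, pow_mul, hc2]; simp
    · rw [H5.card_sup_zpowers Nat.prime_two (le_top.trans (normalizer_eq_top _).ge (mem_top c)) hc'
        (by rw [hc2]; exact one_mem _), h.card]
  push Not at h1
  by_cases h2 : ∃ u, u ∉ center G ∧ u ^ 2 ∈ commutator G ∧ u ^ 2 ≠ 1
  · obtain ⟨u, hu, hu1, hu2⟩ := h2
    obtain ⟨b, hb⟩ := exists_not_mem hu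
    refine h.case1 hb ?_
    have hc : ⁅u, b⁆ ≠ 1 := fun e =>
      hb (mem_Cx_iff_commute.2 (commutatorElement_eq_one_iff_commute.1 e))
    have e : u ^ 2 = ⁅u, b⁆ := by
      obtain ⟨y, -, hy⟩ := (Nat.card_eq_two_iff' (1 : commutator G)).1 h.card
      exact congrArg Subtype.val ((hy ⟨_, hu1⟩ fun e => hu2 (congrArg Subtype.val e)).trans
        (hy ⟨_, comm_mem u b⟩ fun e => hc (congrArg Subtype.val e)).symm)
    rw [H5.mul_pow_of_class_two (mem_center_iff.1 (h.le_center (comm_mem u b)) b)
      (mem_center_iff.1 (h.le_center (comm_mem u b)) u), e]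
    have := h.comm_pow (comm_mem u b)
    simp only [Nat.choose_self, pow_one]
    rw [mul_assoc, ← pow_two, this, mul_one]
  exfalso
  push Not at h2
  let f : G →* G ⧸ commutator G := MonoidHom.mk' (fun x => ((x ^ 2 : G) : G ⧸ commutator G))
    (fun x y => by
      have : Commute (x : G ⧸ commutator G) (y : G ⧸ commutator G) :=
        commutator_mem_of_commute_mk.2 (comm_mem x y)
      simp only [QuotientGroup.mk_pow, QuotientGroup.mk_mul]
      exact this.mul_pow 2)
  have hker : ∀ x, x ∈ f.ker ↔ x ^ 2 ∈ commutator G := fun x => QuotientGroup.eq_one_iff _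
  have h3 := H1.card_map_mul_card_inf_ker f ⊤
  rw [inf_top_eq, card_top] at h3
  have h4 : Nat.card ((⊤ : Subgroup G).map f) ≤
      Nat.card ((center G).map (QuotientGroup.mk' (commutator G))) :=
    card_le_of_le (by rintro _ ⟨x, -, rfl⟩; exact ⟨_, h.pow_mem x, rfl⟩)
  have h5 := H1.card_map_mk'_mul (commutator G) (center G)
  rw [inf_eq_left.2 h.le_center, h.card] at h5
  have h6 : 2 * Nat.card G ≤ Nat.card (center G) * Nat.card f.ker := by
    rw [← h3, ← h5]; nlinarith
  by_cases hK : f.ker ≤ center G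
  · let s : center G →* center G := MonoidHom.mk' (fun x => x ^ 2) fun x y =>
      (show Commute x y from mul_comm' x y).mul_pow 2
    have a1 := H1.card_map_mul_card_inf_ker s (f.ker.subgroupOf (center G))
    have a0 : Nat.card ((commutator G).subgroupOf (center G)) = 2 := by
      rw [H1.card_subgroupOf_of_le h.le_center, h.card]
    have a2 : Nat.card ((f.ker.subgroupOf (center G)).map s) ≤ 2 := by
      rw [← a0]
      exact card_le_of_le (by rintro _ ⟨x, hx, rfl⟩; exact (hker x).1 hx)
    have a3 : Nat.card (s.ker ⊓ f.ker.subgroupOf (center G) : Subgroup _) ≤ 2 := by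
      rw [← a0]
      exact card_le_of_le fun x hx => h1 x x.2 (congrArg Subtype.val hx.1)
    rw [H1.card_subgroupOf_of_le hK] at a1
    have a4 := h.sq_le
    have a5 : Nat.card f.ker ≤ 4 := by rw [← a1]; nlinarith
    have a6 : 0 < Nat.card (center G) := Nat.card_pos
    nlinarith
  · obtain ⟨u, hu, huZ⟩ := SetLike.not_le_iff_exists.1 hK
    have hall : ∀ c ∈ f.ker, c ^ 2 = 1 := by
      intro c hc
      by_cases hcZ : c ∈ center G
      · have := h2 (u * c) (fun e => huZ (by simpa using mul_mem e (inv_mem hcZ)))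
          ((hker _).1 (mul_mem hu hc))
        rwa [(show Commute u c from mem_center_iff.1 hcZ u).mul_pow, h2 u huZ ((hker u).1 hu),
          one_mul] at this
      · exact h2 c hcZ ((hker c).1 hc)
    have hcomm : IsMulCommutative f.ker := ⟨⟨fun a b => Subtype.ext
      (Commute.of_orderOf_dvd_two (G := f.ker) (fun g => orderOf_dvd_of_pow_eq_one
        (Subtype.ext (hall g g.2))) a b |> congrArg Subtype.val)⟩⟩
    have a1 := H1.card_sup_mul_card_inf_of_normal f.ker (center G)
    have a2 : Nat.card (f.ker ⊓ center G : Subgroup G) ≤ 2 := by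
      rw [← h.card]
      exact card_le_of_le fun x hx => h1 x hx.2 (hall x hx.1)
    have a3 : f.ker ⊔ center G = ⊤ := by
      refine eq_top_of_le_card _ ?_
      nlinarith
    obtain ⟨b, hb⟩ := exists_not_mem huZ
    obtain ⟨k, hk, z, hz, rfl⟩ := mem_sup_of_normal_right.1 (a3 ▸ mem_top b)
    exact hb (mul_mem (mem_Cx.2 (setLike_mul_comm hk hu)) (center_le_Cx u hz))

end Small


/-- Let G be a finite non-abelian group and p the least prime dividing its order. Then the automorphism group of G has at most #G/p orbits on G. -/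
theorem result {G : Type*} [Group G] [Finite G] (hna : ¬ IsMulCommutative G) :
    Nat.card (MulAction.orbitRel.Quotient (MulAut G) G) ≤ Nat.card G / (Nat.card G).minFac := by
  have hne : commutator G ≠ ⊥ := fun e => hna ⟨⟨fun a b => by
    have := Small.comm_mem a b
    rw [e, mem_bot, commutatorElement_eq_one_iff_commute] at this
    exact this⟩⟩
  have h1 : 1 < Nat.card (commutator G) := (one_lt_card_iff_ne_bot _).2 hne
  have hp : (Nat.card G).minFac.Prime := Nat.minFac_prime fun e => by
    have := Nat.le_of_dvd Nat.card_pos (card_subgroup_dvd_card (commutator G)); omega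
  rw [Nat.le_div_iff_mul_le hp.pos]
  rcases (Nat.minFac_le_of_dvd h1 (card_subgroup_dvd_card (commutator G))).eq_or_lt with h | h
  · have hs : Small G (Nat.card G).minFac := ⟨hp, rfl, h.symm⟩
    by_cases h2 : (Nat.card G).minFac = 2
    · rw [h2] at hs ⊢; exact hs.two
    · exact hs.odd h2
  · refine (Nat.mul_le_mul_right _ ?_).trans (partA rfl h)
    refine Nat.card_le_card_of_surjective (Quotient.lift
      (fun x : G => (Quotient.mk'' x : orbitRel.Quotient (MulAut G) G)) fun a b hab => ?_) ?_
    · rw [eq_comm, Quotient.eq'', orbitRel_apply]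
      exact class_subset_orbit a hab
    · intro q
      induction q using Quotient.inductionOn' with
      | h x => exact ⟨ConjClasses.mk x, rfl⟩

end Cfsg.Agent.S4067
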