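import Mathlib
import Cfsg.Statements.S4071
import Cfsg.Agent.Lib.FGS.ClassSize
import Cfsg.Agent.Lib.Core.Fitting
import Cfsg.Agent.Lib.Core.CoprimeAbelian
import Cfsg.Agent.Lib.Transfer.Control
import Cfsg.Agent.Lib.Core.HallSZ
import Cfsg.Agent.Lib.Core.MinNormal
import Cfsg.Agent.Lib.PGroup.Frattini
import Cfsg.Agent.Lib.Core.Frobenius
import Cfsg.Agent.Lib.PGroup.Omega
-- import your own Cfsg.Agent.* helpers here

set_option autoImplicit false
open Cfsg

namespace Cfsg.Agent.S4071

open H80 Subgroup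

theorem comm_of_normal {G : Type*} [Group G]
    (hS : ∀ H : Subgroup G, ¬ IsMulCommutative H → Subgroup.normalizer (H : Set G) = H)
    (K : Subgroup G) [K.Normal] (h : K ≠ ⊤) : IsMulCommutative K := by
  by_contra hc
  exact h (by rw [← hS K hc, normalizer_eq_top])

/-- Let G be a finite solvable non-nilpotent group. Every non-abelian subgroup of G is self-normalizing if and only if G is a semidirect product ⟨x⟩ ⋉ A in which ⟨x⟩ is a p-group for some prime p, A is a normal abelian subgroup of order prime to p, x^p is central in G, and x acts fixed-point-freely on A (no non-identity element of A commutes with x). -/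
theorem result {G : Type*} [Group G] [Finite G]
    [Group.IsSolvable G] (hnn : ¬ Group.IsNilpotent G) :
    (∀ H : Subgroup G, ¬ IsMulCommutative H → Subgroup.normalizer (H : Set G) = H) ↔
    ∃ (x : G) (A : Subgroup G) (p : ℕ), p.Prime ∧ A.Normal ∧ IsMulCommutative A ∧ (∃ k : ℕ, orderOf x = p ^ k) ∧
      ¬ p ∣ Nat.card A ∧ (Subgroup.zpowers x).IsComplement' A ∧ x ^ p ∈ Subgroup.center G ∧
      ∀ a : G, a ∈ A → a ≠ 1 → x * a * x⁻¹ ≠ a := by
  constructor
  · intro hS
    have : Nontrivial G := by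
      by_contra h
      rw [not_nontrivial_iff_subsingleton] at h
      exact hnn inferInstance
    obtain ⟨M, hM, hp⟩ := H3.exists_normal_prime_index G
    set p := M.index with hpM
    have := Fact.mk hp
    have hMc := comm_of_normal hS M (by
      intro h
      rw [h, index_top] at hpM
      exact hp.one_lt.ne' hpM)
    have := H4.pResidual_normal p G
    set A := pResidual p G with hA
    have hAM : A ≤ M := H4.pResidual_le_of_index_dvd_pow (k := 1) (by simp [hpM])
    have hAc : IsMulCommutative A := ⟨⟨fun a b => Subtype.ext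
      (setLike_mul_comm (hAM a.2) (hAM b.2))⟩⟩
    have hpA : ¬ p ∣ Nat.card A := by
      rw [H4.not_dvd_card_iff_forall_coprime]
      intro x hx
      refine closure_induction (p := fun x _ => (orderOf x).Coprime p) (fun x hx => hx)
        (by simp) (fun x y hx hy h1 h2 => ?_) (fun x _ h => by simpa using h) hx
      have hc : Commute x y := setLike_mul_comm (s := A) hx hy
      exact (Nat.Coprime.mul_left h1 h2).coprime_dvd_left hc.orderOf_mul_dvd_mul_orderOf
    have hnc : HasNormalPComplement p G := H4.hasNormalPComplement_iff_not_dvd.2 hpA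
    obtain ⟨P⟩ : Nonempty (Sylow p G) := inferInstance
    have hcomp := H4.isComplement'_pResidual hnc P
    have hcop : (Nat.card (P : Subgroup G)).Coprime (Nat.card A) :=
      H1.coprime_card_of_isPGroup_of_coprime P.2 ((Nat.Prime.coprime_iff_not_dvd hp).2 hpA).symm
    have hPA : ¬ (P : Subgroup G) ≤ centralizer (A : Set G) := by
      intro h
      apply hnn
      have hPn : (P : Subgroup G).Normal := by
        rw [← normalizer_eq_top_iff, eq_top_iff, ← hcomp.sup_eq_top]
        exact sup_le ((le_centralizer_iff.1 h).trans (centralizer_le_normalizer _)) le_normalizer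
      rw [← H1.fitting_eq_top_iff, eq_top_iff, ← hcomp.sup_eq_top]
      exact sup_le H1.le_fitting_of_isMulCommutative (H1.le_fitting P.2.isNilpotent)
    have hmax : ∀ Q : Subgroup G, Q ≤ P → (P : Subgroup G) ≤ normalizer (Q : Set G) → Q ≠ P →
        Q ≤ centralizer (A : Set G) := by
      intro Q hQ hn hne
      have h1 : (A ⊔ Q).Normal := by
        rw [← normalizer_eq_top_iff, eq_top_iff, ← hcomp.sup_eq_top]
        refine sup_le (le_sup_left.trans le_normalizer) (H2.le_normalizer_sup ?_ hn)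
        rw [normalizer_eq_top]; exact le_top
      have h2 : A ⊔ Q ≠ ⊤ := by
        intro h
        apply hne
        refine le_antisymm hQ fun x hx => ?_
        obtain ⟨a, ha, y, hy, e⟩ := H3.mem_sup_iff_of_normal.1 (h ▸ mem_top x : x ∈ A ⊔ Q)
        have h3 : a ∈ A ⊓ (P : Subgroup G) := mem_inf.2 ⟨ha, by
          rw [eq_mul_inv_of_mul_eq e]; exact mul_mem hx (inv_mem (hQ hy))⟩
        rw [hcomp.disjoint.eq_bot, mem_bot] at h3
        rwa [← e, h3, one_mul]
      have := comm_of_normal hS _ h2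
      exact fun x hx a ha => setLike_mul_comm (s := A ⊔ Q) (mem_sup_left ha) (mem_sup_right hx)
    obtain ⟨x, hxP, hxC⟩ := SetLike.not_le_iff_exists.1 hPA
    have hx : zpowers x = P := by
      by_contra hne
      have h1 : (zpowers x).subgroupOf P ≠ ⊤ := by
        intro h
        exact hne (le_antisymm (zpowers_le.2 hxP) (subgroupOf_eq_top.1 h))
      obtain ⟨Q, hQ, hQn, -, hQc⟩ := H5.exists_le_normal_index_eq P.2 h1
      refine hxC (hmax (Q.map (P : Subgroup G).subtype) (map_subtype_le _) ?_ ?_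
        ⟨⟨x, hxP⟩, hQ (mem_zpowers x), rfl⟩)
      · intro g hg
        apply H3.mem_normalizer_of_conj_mem
        rintro _ ⟨y, hy, rfl⟩
        exact ⟨_, hQn.conj_mem y hy ⟨g, hg⟩, rfl⟩
      · intro h
        apply hQc.1
        apply map_injective (P : Subgroup G).subtype_injective
        rw [h, ← MonoidHom.range_eq_map, range_subtype]
    refine ⟨x, A, p, hp, inferInstance, hAc, H35.isPElt_of_mem P.2 hxP, hpA, hx ▸ hcomp.symm, ?_, ?_⟩
    · have h1 : x ^ p ∈ M := hpM ▸ M.pow_index_mem x
      have h2 : Cx⟦x ^ p⟧ = ⊤ := by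
        rw [eq_top_iff, ← hcomp.sup_eq_top, ← hx]
        exact sup_le (fun a ha => mem_Cx.2 (setLike_mul_comm (hAM ha) h1))
          (zpowers_le.2 (mem_Cx_iff_commute'.2 (Commute.self_pow x p)))
      exact mem_center_iff.2 fun g => mem_Cx.1 (h2 ▸ mem_top g)
    · have hPN : (P : Subgroup G) ≤ normalizer (A : Set G) := by
        rw [normalizer_eq_top]; exact le_top
      have h1 := H2.commutator_inf_centralizer_eq_bot hAc hPN hcop
      have h2 : (P : Subgroup G) ≤ normalizer ((⁅A, (P : Subgroup G)⁆ : Subgroup G) : Set G) :=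
        H2.le_normalizer_commutator hPN le_normalizer
      have h3 : ¬ IsMulCommutative ↥(⁅A, (P : Subgroup G)⁆ ⊔ P) := by
        intro h
        apply hPA
        have : ⁅A, (P : Subgroup G)⁆ = ⊥ := by
          rw [← h1]
          refine (inf_eq_left.2 fun a ha b hb => ?_).symm
          exact setLike_mul_comm (mem_sup_right hb) (mem_sup_left ha)
        rwa [commutator_comm, commutator_eq_bot_iff_le_centralizer] at this
      intro a ha ha1 hxa
      have h4 : a ∈ centralizer ((P : Subgroup G) : Set G) := by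
        rw [← hx, centralizer_zpowers, mem_Cx', ← mul_inv_eq_iff_eq_mul, hxa]
      have hle := H2.commutator_le_of_le_normalizer hPN
      have h5 : a ∈ ⁅A, (P : Subgroup G)⁆ ⊔ P := by
        rw [← hS _ h3]
        apply centralizer_le_normalizer
        have : ⁅A, (P : Subgroup G)⁆ ⊔ P ≤ Cx⟦a⟧ :=
          sup_le (fun b hb => mem_Cx.2 (setLike_mul_comm (hle hb) ha))
            (fun b hb => mem_Cx.2 (h4 b hb))
        exact fun b hb => mem_Cx.1 (this hb)
      obtain ⟨c, hc, b, hb, e⟩ := (H3.mem_sup_iff_of_le_normalizer h2).1 h5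
      have h6 : b ∈ A ⊓ (P : Subgroup G) := mem_inf.2 ⟨by
        rw [eq_inv_mul_of_mul_eq e]; exact mul_mem (inv_mem (hle hc)) ha, hb⟩
      rw [hcomp.disjoint.eq_bot, mem_bot] at h6
      rw [h6, mul_one] at e
      have h7 : a ∈ ⁅A, (P : Subgroup G)⁆ ⊓ centralizer ((P : Subgroup G) : Set G) := ⟨e ▸ hc, h4⟩
      rw [h1, mem_bot] at h7
      exact ha1 h7
  · rintro ⟨x, A, p, hp, hAn, hAc, ⟨k, hk⟩, hpA, hcomp, hz, hf⟩ H hH
    have := Fact.mk hp
    have hdec : ∀ g : G, ∃ a ∈ A, ∃ i : ℕ, g = a * x ^ i := fun g =>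
      (H5.mem_sup_zpowers_iff_nat (by rw [normalizer_eq_top]; exact mem_top x)).1
        (hcomp.symm.sup_eq_top ▸ mem_top g)
    obtain ⟨h, hh, a, ha, i, hi, rfl⟩ : ∃ h ∈ H, ∃ a ∈ A, ∃ i : ℕ, ¬ p ∣ i ∧ h = a * x ^ i := by
      by_contra hc
      push Not at hc
      apply hH
      refine ⟨⟨fun u v => Subtype.ext ?_⟩⟩
      obtain ⟨a, ha, i, hi⟩ := hdec u
      obtain ⟨b, hb, j, hj⟩ := hdec v
      obtain ⟨i, rfl⟩ : p ∣ i := by_contra fun h => hc u u.2 a ha i h hi
      obtain ⟨j, rfl⟩ : p ∣ j := by_contra fun h => hc v v.2 b hb j h hj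
      have h1 := mem_center_iff.1 (pow_mem hz i)
      have h2 := mem_center_iff.1 (pow_mem hz j)
      rw [coe_mul, coe_mul, hi, hj, pow_mul, pow_mul, ← mul_assoc, ← mul_assoc, mul_assoc a, ← h1 b,
        mul_assoc b, ← h2 a, ← mul_assoc, ← mul_assoc, setLike_mul_comm ha hb, mul_assoc, mul_assoc,
        mul_assoc, mul_assoc, h2]
    have hxi : x ∈ zpowers (x ^ i) := by
      rw [mem_zpowers_pow_iff, hk]
      exact ((Nat.Prime.coprime_iff_not_dvd hp).2 hi).symm.pow_right k
    have hfpf : A ⊓ centralizer {a * x ^ i} = ⊥ := by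
      rw [eq_bot_iff]
      rintro b ⟨hb, hb'⟩
      by_contra hb1
      apply hf b hb hb1
      have h1 : x ^ i ∈ Cx⟦b⟧ := by
        have h2 : a ∈ Cx⟦b⟧ := mem_Cx.2 (setLike_mul_comm ha hb)
        have := mul_mem (inv_mem h2) (mem_Cx_comm.1 hb')
        simpa using this
      rw [mul_inv_eq_iff_eq_mul]
      exact mem_Cx.1 ((zpowers_le.2 h1) hxi)
    have hgen : A ⊔ zpowers (a * x ^ i) = ⊤ := by
      rw [eq_top_iff, ← hcomp.symm.sup_eq_top]
      refine sup_le le_sup_left (zpowers_le.2 ((zpowers_le.2 ?_ : zpowers (x ^ i) ≤ _) hxi))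
      have := mul_mem (inv_mem (mem_sup_left ha : a ∈ A ⊔ zpowers (a * x ^ i)))
        (mem_sup_right (mem_zpowers _))
      simpa using this
    refine le_antisymm (fun g hg => ?_) le_normalizer
    obtain ⟨b, hb, y, hy, rfl⟩ := H3.mem_sup_iff_of_normal.1 (hgen ▸ mem_top g)
    have hyH : y ∈ H := (zpowers_le.2 hh) hy
    have hbN : b ∈ normalizer (H : Set G) := by
      simpa using mul_mem hg (inv_mem (le_normalizer hyH))
    refine mul_mem ?_ hyH
    refine (H2.mem_of_commutator_mem_of_fpf (N := A ⊓ H) inf_le_left ?_ hfpf hb (mem_inf.2 ⟨?_, ?_⟩)).2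
    · exact (H2.le_normalizer_inf (A := H) (by rw [normalizer_eq_top]; exact le_top)
        le_normalizer) hh
    · rw [mul_assoc, mul_assoc, ← mul_assoc _ b]
      exact mul_mem (inv_mem hb) (hAn.conj_mem b hb _)
    · exact mul_mem (H3.conj_mem_of_mem_normalizer' hbN hh) (inv_mem hh)

end Cfsg.Agent.S4071
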