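import Mathlib
import Cfsg.Statements.S4072
import Cfsg.Agent.Lib.FGS.ClassSize
import Cfsg.Agent.Lib.Core.Fitting
import Cfsg.Agent.Lib.Core.CoprimeAbelian
import Cfsg.Agent.Lib.Transfer.Control
import Cfsg.Agent.Lib.Core.HallSZ
-- import your own Cfsg.Agent.* helpers here

set_option autoImplicit false
open Cfsg

namespace Cfsg.Agent.S4072

open H80 Subgroup

theorem comm_of_normal {G : Type*} [Group G]
    (hS : ∀ H : Subgroup G, ¬ IsMulCommutative H → Subgroup.normalizer (H : Set G) = H)
    (K : Subgroup G) [K.Normal] (h : K ≠ ⊤) : IsMulCommutative K := by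
  by_contra hc
  exact h (by rw [← hS K hc, normalizer_eq_top])

/-- A finite group in which every non-abelian subgroup is self-normalizing is solvable or simple. -/
theorem result {G : Type*} [Group G] [Finite G] (hS : ∀ H : Subgroup G, ¬ IsMulCommutative H → Subgroup.normalizer (H : Set G) = H) :
    Group.IsSolvable G ∨ IsSimpleGroup G := by
  by_contra hc
  push Not at hc
  obtain ⟨hns, hnsimp⟩ := hc
  have : Nontrivial G := by
    by_contra h
    rw [not_nontrivial_iff_subsingleton] at h
    exact hns inferInstance
  obtain ⟨N, hN, hN1, hN2⟩ : ∃ N : Subgroup G, N.Normal ∧ N ≠ ⊥ ∧ N ≠ ⊤ := by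
    by_contra h
    push Not at h
    exact hnsimp ⟨fun H hH => or_iff_not_imp_left.2 (h H hH)⟩
  have hsol : ∀ (K : Subgroup G) [K.Normal] (q : ℕ) [Fact q.Prime], K ≠ ⊤ → IsPGroup q (G ⧸ K) →
      False := by
    intro K _ q _ h1 h2
    exact hns (H1.isSolvable_of_normal_of_quotient K
      (H2.isSolvable_of_isMulCommutative (comm_of_normal hS K h1)) (H1.isSolvable_of_isPGroup h2))
  have hNc := comm_of_normal hS N hN2
  by_cases hC : centralizer (N : Set G) = ⊤
  · obtain ⟨z, hzN, hq⟩ := H2.exists_mem_prime_orderOf hN1
    set q := orderOf z with hqz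
    have := Fact.mk hq
    have hz : z ∈ center G := mem_center_iff.2 fun g => ((hC ▸ mem_top g :
      g ∈ centralizer (N : Set G)) z hzN).symm
    have hp : HasNormalPComplement q G := by
      apply H4.hasNormalPComplement_of_forall_normalizer
      intro R hR y hy hcop
      by_contra hyC
      have hRc : IsMulCommutative R := by
        by_contra h
        rw [hS R h] at hy
        apply hyC
        rw [(H35.isPElt_of_mem hR hy).eq_one_of_not_dvd
          ((Nat.Prime.coprime_iff_not_dvd hq).1 hcop.symm)]
        exact one_mem _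
      have hy' : zpowers y ≤ normalizer (R : Set G) := zpowers_le.2 hy
      have hcop' : (Nat.card (zpowers y)).Coprime (Nat.card R) :=
        H2.coprime_card_of_isPGroup (by rwa [Nat.card_zpowers]) hR
      have h1 := H2.commutator_inf_centralizer_eq_bot hRc hy' hcop'
      have h2 : zpowers y ≤ normalizer ((⁅R, zpowers y⁆ : Subgroup G) : Set G) :=
        H2.le_normalizer_commutator hy' le_normalizer
      have h3 : ¬ IsMulCommutative ↥(⁅R, zpowers y⁆ ⊔ zpowers y) := by
        intro h
        apply hyC
        have : ⁅R, zpowers y⁆ = ⊥ := by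
          rw [← h1]
          refine (inf_eq_left.2 fun a ha b hb => ?_).symm
          exact setLike_mul_comm (mem_sup_right hb) (mem_sup_left ha)
        rw [commutator_comm, commutator_eq_bot_iff_le_centralizer] at this
        exact this (mem_zpowers y)
      have h4 : z ∈ ⁅R, zpowers y⁆ ⊔ zpowers y := by
        rw [← hS _ h3]
        exact center_le_normalizer _ hz
      obtain ⟨a, ha, b, hb, hab⟩ := (H3.mem_sup_iff_of_le_normalizer h2).1 h4
      have haR : a ∈ R := H2.commutator_le_of_le_normalizer hy' ha
      have hb1 : b = 1 := by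
        have e : b = a⁻¹ * z := by rw [← hab]; simp
        have h5 : H35.IsPElt q b := by
          rw [e]
          exact (H35.isPElt_of_mem hR haR).inv.mul ⟨1, by simp [hqz]⟩ (mem_center_iff.1 hz _)
        exact h5.eq_one_of_not_dvd (H35.not_dvd_orderOf_of_mem_zpowers
          ((Nat.Prime.coprime_iff_not_dvd hq).1 hcop.symm) hb)
      rw [hb1, mul_one] at hab
      have h6 : z ∈ ⁅R, zpowers y⁆ ⊓ centralizer (zpowers y : Set G) :=
        ⟨hab ▸ ha, center_le_centralizer _ hz⟩
      rw [h1, mem_bot] at h6
      rw [h6, orderOf_one] at hqz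
      exact hq.one_lt.ne' hqz
    have := H4.pResidual_normal q G
    refine hsol (pResidual q G) q (fun h => ?_) H4.isPGroup_quotient_pResidual
    exact H4.not_hasNormalPComplement_of_pResidual_eq_top h (orderOf_dvd_natCard z) hp
  · set C := centralizer (N : Set G) with hCdef
    have hCc := comm_of_normal hS C hC
    have hNC : N ≤ C := fun a ha b hb => setLike_mul_comm hb ha
    have key : ∀ H : Subgroup (G ⧸ C), H ≠ ⊥ → normalizer (H : Set (G ⧸ C)) ≤ H := by
      intro H hH
      have h1 : ¬ IsMulCommutative (H.comap (QuotientGroup.mk' C)) := by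
        intro h
        apply hH
        rw [eq_bot_iff]
        intro x hx
        obtain ⟨x, rfl⟩ := QuotientGroup.mk_surjective x
        refine (QuotientGroup.eq_one_iff x).2 fun n hn => ?_
        refine setLike_mul_comm (s := H.comap (QuotientGroup.mk' C)) ?_ hx
        rw [mem_comap, QuotientGroup.mk'_apply, (QuotientGroup.eq_one_iff n).2 (hNC hn)]
        exact one_mem _
      have h2 := hS _ h1
      rw [← comap_normalizer_eq_of_surjective _ (QuotientGroup.mk'_surjective C)] at h2
      exact (comap_injective (QuotientGroup.mk'_surjective C) h2).le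
    have : Nontrivial (G ⧸ C) := QuotientGroup.nontrivial_iff.2 hC
    obtain ⟨x, -, hq⟩ := H2.exists_mem_prime_orderOf (H := (⊤ : Subgroup (G ⧸ C))) top_ne_bot
    set q := orderOf x with hqx
    have := Fact.mk hq
    have hx1 : zpowers x ≠ ⊥ := by
      rw [Ne, zpowers_eq_bot]
      rintro rfl
      rw [orderOf_one] at hqx
      exact hq.one_lt.ne' hqx
    obtain ⟨P, hP⟩ := (H35.IsPElt.exists_sylow (p := q) (x := x) ⟨1, by simp [hqx]⟩)
    have h1 : (P : Subgroup (G ⧸ C)) = zpowers x := by
      refine le_antisymm (H2.le_of_normalizer_inf_le P.2.isNilpotent (zpowers_le.2 hP)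
        (inf_le_right.trans (key _ hx1))) (zpowers_le.2 hP)
    have hp : HasNormalPComplement q (G ⧸ C) := by
      apply H4.hasNormalPComplement_of_normalizer_le_centralizer P
      change normalizer ((P : Subgroup (G ⧸ C)) : Set (G ⧸ C)) ≤
        centralizer ((P : Subgroup (G ⧸ C)) : Set (G ⧸ C))
      rw [h1]
      exact (key _ hx1).trans (le_centralizer _)
    have := H4.pResidual_normal q (G ⧸ C)
    refine hsol C q hC (H4.isPGroup_of_pResidual_eq_bot ?_)
    by_contra h
    have h2 := key _ h
    rw [normalizer_eq_top, top_le_iff] at h2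
    exact H4.not_hasNormalPComplement_of_pResidual_eq_top h2 (orderOf_dvd_natCard x) hp

end Cfsg.Agent.S4072
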