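import Mathlib
import Cfsg.Statements.S4074
-- import your own Cfsg.Agent.* helpers here

set_option autoImplicit false
open Cfsg

namespace Cfsg.Agent.S4074

open DihedralGroup Subgroup

theorem exists_sr {n : ℕ} {H : Subgroup (DihedralGroup n)} (h : ¬ IsMulCommutative H) :
    ∃ i, sr i ∈ H := by
  by_contra hc
  push Not at hc
  apply h
  refine ⟨⟨?_⟩⟩
  rintro ⟨a | a, ha⟩ ⟨b | b, hb⟩
  · exact Subtype.ext (by simp [add_comm])
  · exact absurd hb (hc b)
  · exact absurd ha (hc a)
  · exact absurd ha (hc a)

/-- For n > 2, every non-abelian subgroup of the dihedral group of order 2n is self-normalizing if and only if n = 4 or n is odd. -/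
theorem result (n : ℕ) (hn : 2 < n) :
    (∀ H : Subgroup (DihedralGroup n), ¬ IsMulCommutative H → Subgroup.normalizer (H : Set (DihedralGroup n)) = H) ↔
    (n = 4 ∨ Odd n) := by
  constructor
  · intro h
    by_contra hc
    push Not at hc
    obtain ⟨h4, ho⟩ := hc
    rw [Nat.not_odd_iff_even] at ho
    have h2 : 2 ∣ n := ho.two_dvd
    let φ : ZMod n →+* ZMod 2 := ZMod.castHom h2 (ZMod 2)
    let H : Subgroup (DihedralGroup n) :=
      { carrier := {x | match x with | r i => φ i = 0 | sr i => φ i = 0}
        one_mem' := by change φ 0 = 0; simp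
        mul_mem' := by
          rintro (a | a) (b | b) ha hb
          · change φ (a + b) = 0
            rw [map_add, show φ a = 0 from ha, show φ b = 0 from hb]; simp
          · change φ (b - a) = 0
            rw [map_sub, show φ a = 0 from ha, show φ b = 0 from hb]; simp
          · change φ (a + b) = 0
            rw [map_add, show φ a = 0 from ha, show φ b = 0 from hb]; simp
          · change φ (b - a) = 0
            rw [map_sub, show φ a = 0 from ha, show φ b = 0 from hb]; simp
        inv_mem' := by
          rintro (a | a) ha
          · change φ (-a) = 0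
            rw [map_neg, show φ a = 0 from ha]; simp
          · exact ha }
    have hr : ∀ i, r i ∈ H ↔ φ i = 0 := fun i => Iff.rfl
    have hsr : ∀ i, sr i ∈ H ↔ φ i = 0 := fun i => Iff.rfl
    have hφ2 : φ 2 = 0 := by rw [map_ofNat]; rfl
    have hnc : ¬ IsMulCommutative H := by
      intro hc
      have := congrArg Subtype.val (hc.is_comm.comm ⟨r 2, (hr _).2 hφ2⟩ ⟨sr 0, (hsr _).2 (map_zero φ)⟩)
      simp only [coe_mul, r_mul_sr, sr_mul_r, sr.injEq] at this
      have h4' : ((4 : ℕ) : ZMod n) = 0 := by push_cast; linear_combination -this
      rw [ZMod.natCast_eq_zero_iff] at h4'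
      have := Nat.le_of_dvd (by norm_num) h4'
      interval_cases n <;> simp_all
    have h1 : r 1 ∈ normalizer (H : Set (DihedralGroup n)) := by
      rw [mem_normalizer_iff]
      rintro (a | a)
      · simp [hr]
      · simp only [r_mul_sr, inv_r, sr_mul_r, hsr, map_add, map_sub, map_one, map_neg]
        generalize φ a = x
        revert x; decide
    rw [h H hnc, hr, map_one] at h1
    exact absurd h1 (by decide)
  · rintro (rfl | ho) H hH
    · have hcard : Nat.card H ∣ 2 ^ 3 := by
        have := card_subgroup_dvd_card H
        rwa [DihedralGroup.nat_card] at this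
      obtain ⟨k, hk, hk'⟩ := (Nat.dvd_prime_pow Nat.prime_two).1 hcard
      have : H = ⊤ := by
        have := Fact.mk Nat.prime_two
        interval_cases k
        · exact absurd (by rw [card_eq_one.1 hk']; infer_instance) hH
        · have := isCyclic_of_prime_card (p := 2) hk'
          exact absurd IsCyclic.isMulCommutative hH
        · exact absurd (IsPGroup.isMulCommutative_of_card_eq_prime_sq hk') hH
        · exact eq_top_of_card_eq _ (by rw [hk', DihedralGroup.nat_card]; rfl)
      subst this
      exact top_le_iff.1 le_normalizer
    · obtain ⟨i, hi⟩ := exists_sr hH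
      have key : ∀ j, r j ∈ normalizer (H : Set (DihedralGroup n)) → r j ∈ H := by
        intro j hj
        have h1 := H.mul_mem hi (((mem_normalizer_iff.1 hj) _).1 hi)
        simp only [r_mul_sr, inv_r, sr_mul_r, sr_mul_sr] at h1
        obtain ⟨m, hm⟩ := ho
        have h2 := H.pow_mem h1 m
        rw [r_pow] at h2
        convert h2 using 2
        have h3 : ((n : ℕ) : ZMod n) = 0 := ZMod.natCast_self n
        have h4 : (2 * m + 1 : ZMod n) = 0 := by
          have h5 : ((n : ℕ) : ZMod n) = ((2 * m + 1 : ℕ) : ZMod n) := congrArg _ hm
          rw [← h3, h5]; push_cast; rfl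
        linear_combination j * h4
      refine le_antisymm ?_ le_normalizer
      rintro (j | j) hj
      · exact key j hj
      · have h1 := key _ (mul_mem (le_normalizer hi) hj)
        simpa using H.mul_mem hi h1

end Cfsg.Agent.S4074
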