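import Mathlib
import Cfsg.Statements.S4075
import Cfsg.Agent.Lib.FGS.ClassSize
-- import your own Cfsg.Agent.* helpers here

set_option autoImplicit false
open Cfsg

namespace Cfsg.Agent.S4075

open H80 Subgroup

/-- Let G be a finite nilpotent group. Every non-abelian subgroup of G is self-normalizing if and only if G is abelian or G is a minimal non-abelian p-group for some prime p (non-abelian of prime-power order with every proper subgroup abelian). -/
theorem result {G : Type*} [Group G] [Finite G]
    [Group.IsNilpotent G] :
    (∀ H : Subgroup G, ¬ IsMulCommutative H → Subgroup.normalizer (H : Set G) = H) ↔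
    (IsMulCommutative G ∨ (IsPrimePow (Nat.card G) ∧ ¬ IsMulCommutative G ∧ ∀ H : Subgroup G, H ≠ ⊤ → IsMulCommutative H)) := by
  constructor
  · intro h
    by_cases hG : IsMulCommutative G
    · exact Or.inl hG
    have hprop : ∀ H : Subgroup G, H ≠ ⊤ → IsMulCommutative H := by
      intro H hH
      by_contra hc
      have := Group.normalizerCondition_of_isNilpotent (G := G) H (lt_top_iff_ne_top.2 hH)
      rw [h H hc] at this
      exact lt_irrefl _ this
    refine Or.inr ⟨?_, hG, hprop⟩
    by_contra hpp
    apply hG
    have hmem : ∀ (p : ℕ) [Fact p.Prime] (x : G), H35.IsPElt p x → x ∈ pCore p G := by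
      intro p _ x hx
      obtain ⟨P, hP⟩ := hx.exists_sylow
      rwa [H1.pCore_eq_sylow_of_isNilpotent P]
    have hZ : center G = ⊤ := by
      apply eq_top_of_forall_isPElt
      intro p x hp hx
      haveI := Fact.mk hp
      have hC : Cx⟦x⟧ = ⊤ := by
        apply eq_top_of_forall_isPElt
        intro q y hq hy
        haveI := Fact.mk hq
        by_cases hpq : p = q
        · subst hpq
          have hne : pCore p G ≠ ⊤ := by
            intro ht
            obtain ⟨k, hk⟩ := IsPGroup.iff_card.1 (H1.pCore_eq_top_iff.1 ht)
            rcases Nat.eq_zero_or_pos k with rfl | hk0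
            · apply hG
              haveI : Subsingleton G := (Nat.card_eq_one_iff_unique.1 (by simpa using hk)).1
              exact ⟨⟨fun a b => Subsingleton.elim _ _⟩⟩
            · exact hpp ((isPrimePow_nat_iff _).2 ⟨p, k, hp, hk0, hk.symm⟩)
          haveI := hprop _ hne
          exact mem_Cx.2 (setLike_mul_comm (hmem p y hy) (hmem p x hx))
        · exact mem_Cx'.2 (H1.pCore_le_centralizer_pCore (Ne.symm hpq) (hmem q y hy) x (hmem p x hx))
      rw [mem_center_iff]
      intro g
      exact mem_Cx.1 (hC ▸ mem_top g)
    exact ⟨⟨fun a b => (mem_center_iff.1 (hZ ▸ mem_top b) a)⟩⟩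
  · rintro (h | ⟨-, hG, h⟩) H hH
    · exact absurd ⟨⟨fun a b => Subtype.ext (h.is_comm.comm _ _)⟩⟩ hH
    · by_cases hH' : H = ⊤
      · subst hH'
        exact top_le_iff.1 le_normalizer
      · exact absurd (h H hH') hH

end Cfsg.Agent.S4075
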