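import Cfsg.Statements.S4079
import Mathlib
import Cfsg.Agent.Base
import Cfsg.Agent.Lib.MaxCl.Rank2
import Cfsg.Agent.Lib.Fusion.MetaChar

set_option autoImplicit false
open Cfsg

namespace Cfsg.Agent.S4079

open Subgroup H81 H93 in
open scoped commutatorElement in
theorem aux {L : Type*} [Group L] [Finite L] {p : ℕ} [hp : Fact p.Prime] (h2 : p ≠ 2)
    (hL : IsPGroup p L) (hi : (powerClosure p 1 (⊤ : Subgroup L)).index ≤ p ^ 2) (a : MulAut L)
    (ha : a ^ p = 1) (hfix : ∀ w, w ^ p = 1 → a (w⁻¹ * a w) = w⁻¹ * a w)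
    (hpow : ∀ w : L, w ^ p = 1 → ∃ u, w = u ^ p) {d : L} (hd : d ^ p = 1) (hd' : a d ≠ d) :
    p = 3 ∧ Nat.card (H5.fixedSub a) ≤ p := by
  obtain ⟨d, rfl⟩ := hpow d hd
  have hr := (ar_of_index_le h2 hi).reg1 hL
  have hW := (Reg1.card_omega hL hr).trans_le hi
  have m1 : ∀ x, x ∈ hr.omega hL 1 ↔ x ^ p = 1 := fun x => by rw [hr.mem_omega, pow_one]
  have m2 : ∀ x, x ∈ hr.omega hL 2 ↔ (x ^ p) ^ p = 1 := fun x => by rw [hr.mem_omega, sq, pow_mul]
  haveI := hr.omega_characteristic hL 1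
  have h1 : ∀ u ∈ hr.omega hL 2, ∀ v ∈ hr.omega hL 2, ⁅u, v⁆ ^ p = 1 := fun u hu v hv => by
    refine (m1 _).1 (lc_le_of_index_dvd (p := p) (r := 0) (N := (hr.omega hL 1).subgroupOf (hr.omega hL 2))
      (H5.card_dvd_pow_of_le ((hL.to_subgroup _).to_quotient _) (le_trans ((hr.card_omega_mul hL _ 1).trans_le
        (card_le_of_le (powerClosure_le_iff.2 fun x hx => (m1 _).2 ?_))) hW))
      (comm_mem_lc_succ ⟨u, hu⟩ (mem_lc_zero ⟨v, hv⟩)))
    rw [pow_one, (m2 x).1 hx]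
  have h3 : ∀ u ∈ hr.omega hL 2, a u ∈ hr.omega hL 2 := fun u hu => (m2 _).2 (by
    rw [← map_pow, ← map_pow, (m2 u).1 hu, map_one])
  have h4 : ∀ u ∈ hr.omega hL 2, (u⁻¹ * a u) ^ p = (u ^ p)⁻¹ * a (u ^ p) := fun u hu => by
    rw [hr.mul_pow_of_commutator hL (h1 _ (inv_mem hu) _ (h3 u hu)), inv_pow, map_pow]
  have hdm := (m2 d).2 hd
  obtain ⟨δ, hδ⟩ : ∃ δ, δ = d⁻¹ * a d := ⟨_, rfl⟩
  obtain ⟨ε, hε⟩ : ∃ ε, ε = δ⁻¹ * a δ := ⟨_, rfl⟩
  obtain ⟨ζ, hζ⟩ : ∃ ζ, ζ = ε⁻¹ * a ε := ⟨_, rfl⟩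
  have hδm : δ ∈ hr.omega hL 2 := hδ ▸ mul_mem (inv_mem hdm) (h3 d hdm)
  have h5 : δ ^ p ≠ 1 := by rw [hδ, h4 d hdm]; exact fun e => hd' (inv_mul_eq_one.1 e).symm
  have h6 : a (δ ^ p) = δ ^ p := by rw [hδ, h4 d hdm]; exact hfix _ hd
  have hεp : ε ^ p = 1 := by rw [hε, h4 δ hδm, h6, inv_mul_cancel]
  have hζm : ζ ∈ hr.omega hL 1 := hζ ▸ mul_mem (inv_mem ((m1 ε).2 hεp))
    ((m1 _).2 (by rw [← map_pow, hεp, map_one]))
  have hF : hr.omega hL 1 ⊓ H5.fixedSub a ≤ zpowers (δ ^ p) := (eq_of_le_of_card_ge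
    (zpowers_le.2 (mem_inf.2 ⟨(m1 _).2 ((m2 _).1 hδm), h6⟩)) (by
      rw [Nat.card_zpowers, orderOf_eq_prime ((m2 _).1 hδm) h5]
      exact (card_le_of_lt (k := 1) (inf_lt_left.2 fun h => hd' (h ((m1 _).2 hd))) hL hW).trans_eq
        (pow_one p))).ge
  have h7 : ∀ w ∈ hr.omega hL 1, Commute δ w := fun w hw => by
    obtain ⟨u, rfl⟩ := hpow w ((m1 _).1 hw)
    simpa using ((hr.commute_pow_iff hL 1 u δ).2 (by simpa using h1 u ((m2 _).2 ((m1 _).1 hw)) δ hδm)).symm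
  have e0 : a d = d * δ := by rw [hδ, mul_inv_cancel_left]
  have e1 : a δ = δ * ε := by rw [hε, mul_inv_cancel_left]
  have e2 : a ε = ε * ζ := by rw [hζ, mul_inv_cancel_left]
  have e3 : a ζ = ζ := hζ ▸ hfix ε hεp
  have c1 := h7 ε ((m1 _).2 hεp)
  have c2 := h7 ζ hζm
  have c3 : Commute ε ζ := by
    obtain ⟨i, e⟩ := hF ⟨hζm, e3⟩
    exact e ▸ (c1.symm.pow_right p).zpow_right i
  have h8 : ∀ k, (a ^ k) d = d * δ ^ k * ε ^ k.choose 2 * ζ ^ k.choose 3 := fun k => by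
    induction k with
    | zero => simp
    | succ k ih =>
      rw [pow_succ', MulAut.mul_apply, ih]
      simp only [map_mul, map_pow, e0, e1, e2, e3, c1.mul_pow, c3.mul_pow, Nat.choose_succ_succ', pow_add,
        Nat.choose_one_right, pow_succ' δ, mul_assoc]
  have h9 := h8 p
  obtain ⟨j, hj⟩ := H5.dvd_choose_two hp.out h2
  rw [ha, MulAut.one_apply, hj, pow_mul, hεp, one_pow, mul_one, mul_assoc, left_eq_mul] at h9
  obtain rfl : p = 3 := by_contra fun h => by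
    obtain ⟨j, hj⟩ := hp.out.dvd_choose_self (k := 3) (by omega) (by have := hp.out.two_le; omega)
    rw [hj, pow_mul, (m1 _).1 hζm, one_pow, mul_one] at h9
    exact h5 h9
  refine ⟨rfl, (card_le_of_le fun c hc => hF ⟨by_contra fun h10 => ?_, hc⟩).trans_eq
    (by rw [Nat.card_zpowers, orderOf_eq_prime ((m2 _).1 hδm) h5])⟩
  obtain ⟨k, hk⟩ := hL c
  obtain ⟨j, h11, h12⟩ := H5.exists_pow_not_mem_pow_mem h10 (hk ▸ one_mem _ : c ^ 3 ^ k ∈ _)
  have h13 : a (c ^ 3 ^ j) = c ^ 3 ^ j := pow_mem hc _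
  generalize c ^ 3 ^ j = c at *
  obtain ⟨i, hi⟩ := H48.exists_pow_eq_of_mem_zpowers (hF ⟨h12, pow_mem (show c ∈ H5.fixedSub a from h13) 3⟩)
  have h14 := (hr.pow_eq_iff_one hL c (δ ^ i)).1 (by rw [← hi, ← pow_mul, mul_comm, pow_mul])
  have h15 := hfix _ h14
  rw [show (c * (δ ^ i)⁻¹)⁻¹ * a (c * (δ ^ i)⁻¹) = (ε ^ i)⁻¹ by
    rw [map_mul, map_inv, map_pow, h13, e1, c1.mul_pow, (c1.pow_pow i i).eq]; group, map_inv, inv_inj,
    map_pow, e2, c3.mul_pow, mul_eq_left] at h15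
  refine h11 ((m1 c).2 ?_)
  rw [← hi, eq_inv_of_mul_eq_one_left h9, Nat.choose_self, pow_one, inv_pow, h15, inv_one]

/-- Let p be an odd prime and L a finite metacyclic p-group with no cyclic subgroup of index p, and let a be an automorphism of L of order p. Then a moves some element of order p of L if and only if p = 3 and the semidirect product L ⋊ ⟨a⟩ (of order 3·#L) has maximal class, i.e. nilpotency class m where #L = 3^m. -/
theorem result {L : Type*} [Group L] [Finite L] {p : ℕ} [Fact p.Prime]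
    (hp : p ≠ 2) (hL : IsPGroup p L) (hmc : Cfsg.IsMetacyclic L) (hnc : ∀ C : Subgroup L, IsCyclic C → C.index ≠ p)
    (a : MulAut L) (ha : orderOf a = p) (m : ℕ) (hm : Nat.card L = p ^ m) :
    (∃ x : L, orderOf x = p ∧ a x ≠ x) ↔
    (p = 3 ∧ Group.nilpotencyClass (SemidirectProduct L ↥(Subgroup.zpowers a) (Subgroup.zpowers a).subtype) = m) := by
  have hp' : p.Prime := Fact.out
  obtain ⟨u, v, huv⟩ := H77.exists_mcGen hmc
  haveI := H81.powerClosure_normal (p := p) (n := 1) (⊤ : Subgroup L)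
  have hi : (powerClosure p 1 (⊤ : Subgroup L)).index ≤ p ^ 2 := sq p ▸ H93.index_le_of_gen hp'.pos hp'.pos
    (H93.pow_mem_powerClosure_one trivial) (H93.pow_mem_powerClosure_one trivial) huv.gen
  have hr := (H93.ar_of_index_le hp hi).reg1 hL
  haveI : Nontrivial L := not_subsingleton_iff_nontrivial.1 fun h => hp'.ne_one (by
    rw [← ha, show a = 1 from MulEquiv.ext fun _ => Subsingleton.elim _ _, orderOf_one])
  have h1 : ∀ C : Subgroup L, IsCyclic C → p ^ 2 ≤ C.index := fun C hC => by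
    obtain ⟨k, hk⟩ := hL.index C
    obtain _ | _ | k := k
    · obtain rfl := Subgroup.index_eq_one.1 hk
      obtain ⟨M, -, -, h, -⟩ := H5.exists_le_normal_index_eq hL (K := ⊥) bot_ne_top
      exact absurd h (hnc M (Subgroup.isCyclic_of_le le_top))
    · exact absurd (hk.trans (pow_one p)) (hnc C hC)
    exact hk ▸ Nat.pow_le_pow_right hp'.pos (by omega)
  have hpow : ∀ w : L, w ^ p = 1 → ∃ u, w = u ^ p := fun w hw => by_contra fun h => by
    have h2 : w ∉ powerClosure p 1 ⊤ := fun h2 => h (by simpa using (hr.mem_powerClosure_iff hL 1 ⊤ w).1 h2)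
    obtain ⟨c, hc⟩ := H5.exists_zpowers_eq (H48.isCyclic_of_forall_pow_eq_one_mem hp (hL.to_subgroup _)
      (H48.isCyclic_of_card_le_prime (hL.to_subgroup _) ((H93.card_le_of_lt (k := 1) (inf_lt_left.2 fun e =>
        h2 (e ((hr.mem_omega hL).2 (by simpa using hw)))) hL ((H93.Reg1.card_omega hL hr).trans_le hi)).trans_eq
          (pow_one p))) fun x hx e => ⟨(hr.mem_omega hL).2 (by simpa using e), hx⟩)
    obtain ⟨x, h3, h4⟩ : ∃ x, x ∉ powerClosure p 1 ⊤ ∧ c ∈ Subgroup.zpowers x := by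
      obtain ⟨x, -, rfl⟩ := (hr.mem_powerClosure_iff hL 1 ⊤ c).1 (hc.le (Subgroup.mem_zpowers c))
      obtain ⟨_ | k, hk⟩ := IsPGroup.iff_orderOf.1 hL x
      · exact ⟨w, h2, by simp [orderOf_eq_one_iff.1 hk]⟩
      refine ⟨x, fun h3 => hp'.ne_one ?_, Subgroup.npow_mem_zpowers x _⟩
      simpa [hk, Nat.gcd_eq_left (dvd_pow_self p k.succ_ne_zero)] using mem_zpowers_pow_iff.1 (hc.ge h3)
    have h5 := hc.ge.trans (Subgroup.zpowers_le.2 h4)
    exact absurd ((h1 _ inferInstance).trans_lt (Subgroup.index_strictAnti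
      (h5.lt_of_ne fun e => h3 (e.ge (Subgroup.mem_zpowers x))))) (not_lt.2 hi)
  let G := L ⋊[(Subgroup.zpowers a).subtype] Subgroup.zpowers a
  haveI : Finite G := Finite.of_equiv _ SemidirectProduct.equivProd.symm
  have hc : Nat.card G = p ^ (m + 1) := by rw [SemidirectProduct.card, hm, Nat.card_zpowers, ha, pow_succ]
  have hG := IsPGroup.of_card hc
  let s : G := SemidirectProduct.inr ⟨a, Subgroup.mem_zpowers a⟩
  have hs : ∀ x, s * SemidirectProduct.inl x * s⁻¹ = SemidirectProduct.inl (a x) := fun x => by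
    rw [← map_inv]; exact (SemidirectProduct.inl_aut (φ := (Subgroup.zpowers a).subtype) _ x).symm
  have hap : a ^ p = 1 := ha ▸ pow_orderOf_eq_one a
  obtain ⟨W, _, hW, h2⟩ := H5.exists_normal_elementary_sq hp hL fun h => by
    simpa [hp'.one_lt.not_ge] using h1 ⊤ inferInstance
  have h3 : ∀ w, w ^ p = 1 → w ∈ W := fun w hw => (Subgroup.eq_of_le_of_card_ge (fun x hx =>
    (hr.mem_omega hL).2 (by simpa using hW.2 x hx)) (h2 ▸ (H93.Reg1.card_omega hL hr).trans_le hi)).ge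
      ((hr.mem_omega hL).2 (by simpa using hw))
  let V := W.map (SemidirectProduct.inl : L →* G)
  have hV : Nat.card V = p ^ 2 := (Subgroup.card_map_of_injective SemidirectProduct.inl_injective).trans h2
  have h4 : 4 ≤ m := by
    obtain ⟨w, hw, h4⟩ := (Subgroup.bot_or_exists_ne_one W).resolve_left (by
      rintro rfl; exact (Nat.one_lt_pow two_ne_zero hp'.one_lt).ne (by simpa using h2))
    obtain ⟨d, rfl⟩ := hpow w (hW.2 w hw)
    have h5 := (Subgroup.zpowers d).card_mul_index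
    rw [Nat.card_zpowers, orderOf_eq_prime_pow (n := 1) (by simpa using h4)
      (by rw [pow_succ, pow_one, pow_mul]; exact hW.2 _ hw), hm] at h5
    exact (Nat.pow_le_pow_iff_right hp'.one_lt).1
      (((pow_add p 2 2).le.trans (Nat.mul_le_mul_left _ (h1 _ inferInstance))).trans_eq h5)
  refine ⟨fun ⟨x, hx, h5⟩ => ?_, fun ⟨h5, h6⟩ => by_contra fun h7 => ?_⟩
  · haveI : V.Normal := ⟨by
      rintro _ ⟨w, hw, rfl⟩ g
      refine ⟨g.left * g.right.1 w * g.left⁻¹, h3 _ (by rw [conj_pow, ← map_pow, hW.2 w hw]; simp), ?_⟩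
      ext <;> simp⟩
    obtain ⟨rfl, h6⟩ := aux hp hL hi a hap (fun w hw => SemidirectProduct.inl_injective (φ := (Subgroup.zpowers a).subtype) (by
      have := Subgroup.mem_center_iff.1 (H48.commutator_mem_center_of_card_sq hG V hV
        (x := (SemidirectProduct.inl w)⁻¹) (inv_mem ⟨_, h3 w hw, rfl⟩) s) s
      rw [← hs, map_mul, ← hs, mul_inv_eq_iff_eq_mul]
      rw [commutatorElement_def, inv_inv] at this
      simpa [mul_assoc] using this)) hpow (hx ▸ pow_orderOf_eq_one x) h5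
    obtain ⟨m, rfl⟩ := Nat.exists_eq_add_of_le' (show 1 ≤ m by omega)
    refine ⟨rfl, H5.nilpotencyClass_eq_of_card_centralizer_le m G hc s ?_⟩
    rw [H48.card_eq_card_ker_mul_card_range (SemidirectProduct.rightHom.comp (Subgroup.subtype _)), sq]
    refine Nat.mul_le_mul (le_trans (Nat.card_le_card_of_injective (fun g => (⟨g.1.1.left, ?_⟩ : H5.fixedSub a))
      fun g h e => Subtype.ext (Subtype.ext (SemidirectProduct.ext (congrArg Subtype.val e)
        (g.2.trans h.2.symm)))) h6) ((Subgroup.card_le_card_group _).trans_eq (by rw [Nat.card_zpowers, ha]))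
    exact (one_mul _).symm.trans ((congrArg SemidirectProduct.left (g.1.2 s rfl)).trans
      ((congrArg (_ * ·) (map_one _)).trans (mul_one _)))
  subst h5
  have h8 := H93.mem_of_rank (x := s) (fun A hA => by
    have := (H93.mc_of_class hc (by omega) h6).index_frattini_le (by omega) A
    rwa [(H5.frattini_eq_bot_iff (hG.to_subgroup A)).2 ⟨hA.1, fun x => Subtype.ext (hA.2 x x.2)⟩,
      Subgroup.index_bot] at this) ⟨H48.isMulCommutative_of_card_sq hV, by
        rintro _ ⟨w, hw, rfl⟩; rw [← map_pow, hW.2 w hw, map_one]⟩ hV (by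
      rintro _ ⟨w, hw, rfl⟩
      rw [eq_comm, ← mul_inv_eq_iff_eq_mul, hs]
      exact congrArg _ (by_contra fun h => h7 ⟨w, orderOf_eq_prime (hW.2 w hw) fun e => h (by simp [e]), h⟩))
    (by rw [← map_pow, show (⟨a, _⟩ : Subgroup.zpowers a) ^ 3 = 1 from Subtype.ext hap, map_one])
  obtain ⟨w, -, e⟩ := h8
  rw [show a = 1 from (congrArg (fun g : G => g.right.1) e).symm, orderOf_one] at ha
  omega

end Cfsg.Agent.S4079
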