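import Mathlib
import Cfsg.Statements.S4080
-- import your own Cfsg.Agent.* helpers here

set_option autoImplicit false
open Cfsg

namespace Cfsg.Agent.S4080

open Polynomial

theorem exists_mul_of_cast_eq_zero {p : ℕ} [hp : Fact p.Prime] (x : ZMod (p ^ 2))
    (h : ZMod.castHom (dvd_pow_self p two_ne_zero) (ZMod p) x = 0) : ∃ y : ZMod (p ^ 2), x = (p : ZMod (p ^ 2)) * y := by
  obtain ⟨n, rfl⟩ := ZMod.natCast_zmod_surjective x
  rw [map_natCast, ZMod.natCast_eq_zero_iff] at h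
  obtain ⟨m, rfl⟩ := h
  exact ⟨m, by simp⟩

theorem exists_mul_of_mul_eq_zero {p : ℕ} [hp : Fact p.Prime] (x : ZMod (p ^ 2))
    (h : (p : ZMod (p ^ 2)) * x = 0) : ∃ y : ZMod (p ^ 2), x = (p : ZMod (p ^ 2)) * y := by
  obtain ⟨n, rfl⟩ := ZMod.natCast_zmod_surjective x
  rw [← Nat.cast_mul, ZMod.natCast_eq_zero_iff, sq, Nat.mul_dvd_mul_iff_left hp.out.pos] at h
  obtain ⟨m, rfl⟩ := h
  exact ⟨m, by simp⟩

theorem key {p : ℕ} [hp : Fact p.Prime] (h3 : 3 < p) (A : Matrix (Fin 2) (Fin 2) (ZMod (p ^ 2)))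
    (hA : A ^ p = 1) : (p : Matrix (Fin 2) (Fin 2) (ZMod (p ^ 2))) * (A - 1) = 0 := by
  set T := A - 1 with hT
  let φ := (ZMod.castHom (dvd_pow_self p two_ne_zero) (ZMod p)).mapMatrix (m := Fin 2)
  have h1 : IsNilpotent (φ T) := ⟨p, by
    rw [hT, map_sub, map_one, sub_pow_char_of_commute _ (Commute.one_right _), ← map_pow, hA]
    simp⟩
  have h2 : φ (T ^ 2) = 0 := by
    have h := (Matrix.isNilpotent_charpoly_sub_pow_of_isNilpotent h1).eq_zero
    rw [sub_eq_zero] at h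
    have h' := Matrix.aeval_self_charpoly (φ T)
    rw [h] at h'
    simpa using h'
  obtain ⟨S, hS⟩ : ∃ S, T ^ 2 = (p : ZMod (p ^ 2)) • S := by
    choose S hS using fun i j => exists_mul_of_cast_eq_zero ((T ^ 2) i j)
      (congrFun (congrFun h2 i) j)
    exact ⟨Matrix.of S, by ext i j; simp [hS]⟩
  have hpp : (p : ZMod (p ^ 2)) * p = 0 := by
    rw [← Nat.cast_mul, ← sq, ZMod.natCast_self]
  have h4 : T ^ p = 0 := by
    obtain ⟨k, rfl⟩ := Nat.exists_eq_add_of_le (show 2 + 2 ≤ p by omega)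
    rw [pow_add, pow_add, hS, smul_mul_smul_comm, hpp]
    simp
  have h5 : ∀ k, 2 ≤ k → (p : Matrix (Fin 2) (Fin 2) (ZMod (p ^ 2))) * T ^ k = 0 := by
    intro k hk
    obtain ⟨k, rfl⟩ := Nat.exists_eq_add_of_le hk
    rw [pow_add, hS, ← nsmul_eq_mul, ← Nat.cast_smul_eq_nsmul (ZMod (p ^ 2)), smul_mul_assoc,
      smul_smul, hpp, zero_smul]
  have h6 := (Commute.one_right T).add_pow_prime_eq' hp.out
  rw [hT, sub_add_cancel, hA, ← hT, h4, one_pow, zero_add, left_eq_add, Finset.mul_sum,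
    Finset.sum_eq_single 1] at h6
  · simpa [Nat.div_self hp.out.pos] using h6
  · intro k hk hk1
    rw [Finset.mem_Ioo] at hk
    rw [← mul_assoc, ← mul_assoc, h5 k (by omega)]
    simp
  · intro h
    exact absurd (Finset.mem_Ioo.2 ⟨one_pos, hp.out.one_lt⟩) h

/-- Let p > 3 be a prime and L the direct product of two cyclic groups of order p². Every automorphism of L of order p fixes every element of order p of L. -/
theorem result {p : ℕ} [Fact p.Prime] (hp : 3 < p)
    (a : MulAut (Multiplicative (ZMod (p ^ 2) × ZMod (p ^ 2)))) (ha : orderOf a = p)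
    (x : Multiplicative (ZMod (p ^ 2) × ZMod (p ^ 2))) (hx : orderOf x = p) : a x = x := by
  let F : MulAut (Multiplicative (ZMod (p ^ 2) × ZMod (p ^ 2))) →*
      Module.End (ZMod (p ^ 2)) (ZMod (p ^ 2) × ZMod (p ^ 2)) :=
    { toFun := fun b => AddMonoidHom.toZModLinearMap (p ^ 2)
        (MonoidHom.toAdditiveLeft b.toMonoidHom)
      map_one' := rfl
      map_mul' := fun _ _ => rfl }
  have hF : ∀ b y, F b y = Multiplicative.toAdd (b (Multiplicative.ofAdd y)) := fun _ _ => rfl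
  let e := LinearMap.toMatrixAlgEquiv (Module.Basis.finTwoProd (ZMod (p ^ 2)))
  have h1 := key hp (e (F a)) (by rw [← map_pow, ← map_pow, orderOf_dvd_iff_pow_eq_one.1 ha.dvd]; simp)
  have h2 : (p : Module.End (ZMod (p ^ 2)) (ZMod (p ^ 2) × ZMod (p ^ 2))) * (F a - 1) = 0 := by
    apply e.injective
    simpa using h1
  have h3 : p • Multiplicative.toAdd x = 0 := by
    rw [← toAdd_pow, orderOf_dvd_iff_pow_eq_one.1 hx.dvd]; rfl
  obtain ⟨u, hu⟩ := exists_mul_of_mul_eq_zero (Multiplicative.toAdd x).1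
    (by simpa using congrArg Prod.fst h3)
  obtain ⟨v, hv⟩ := exists_mul_of_mul_eq_zero (Multiplicative.toAdd x).2
    (by simpa using congrArg Prod.snd h3)
  have h4 : Multiplicative.toAdd x = p • (u, v) := Prod.ext (by simp [hu]) (by simp [hv])
  have h5 : (F a - 1) (Multiplicative.toAdd x) = 0 := by
    rw [h4, map_nsmul]
    have := congrArg (fun f => f (u, v)) h2
    simpa using this
  rw [LinearMap.sub_apply, sub_eq_zero, hF] at h5
  exact Multiplicative.toAdd.injective h5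

end Cfsg.Agent.S4080
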