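import Mathlib
import Cfsg.Statements.S4081
import Cfsg.Agent.Lib.FGS.ThreeOrbits
import Cfsg.Agent.S0144

set_option autoImplicit false
open Cfsg

namespace Cfsg.Agent.S4081


open Subgroup H78.ThreeOrbits

/-- Let G be a finite group whose order is not a prime power. Then the automorphism group of G has exactly three orbits on G if and only if there are distinct primes p, q with #G = pⁿ·q (n ≥ 1) such that G has a normal elementary abelian Sylow p-subgroup P, p is a primitive root modulo q (the multiplicative order of p mod q is q − 1), and every element of order q of G acts on P without non-identity fixed points. -/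
theorem result {G : Type*} [Group G] [Finite G] (hnpp : ¬ IsPrimePow (Nat.card G)) (hnt : Nat.card G ≠ 1) :
    Nat.card (MulAction.orbitRel.Quotient (MulAut G) G) = 3 ↔
    ∃ (p q n : ℕ) (_ : Fact p.Prime) (_ : Fact q.Prime), p ≠ q ∧ 1 ≤ n ∧ Nat.card G = p ^ n * q ∧
      (∀ P : Sylow p G, (P : Subgroup G).Normal ∧ Cfsg.IsElementaryAbelian p (P : Subgroup G)) ∧
      orderOf (p : ZMod q) = q - 1 ∧
      ∀ x y : G, orderOf x = q → orderOf y = p → x * y * x⁻¹ ≠ y := by
  classical
  rw [← Set.ncard_univ]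
  constructor
  · intro h3
    obtain ⟨p, hp, hpd⟩ := Nat.exists_prime_and_dvd hnt
    obtain ⟨a, m, hm, hG⟩ := Nat.exists_eq_pow_mul_and_not_dvd (Nat.card_pos (α := G)).ne' p
      hp.ne_one
    have hm1 : m ≠ 1 := by
      rintro rfl
      rw [mul_one] at hG
      refine hnpp ((isPrimePow_nat_iff _).mpr ⟨p, a, hp, Nat.pos_of_ne_zero ?_, hG.symm⟩)
      rintro rfl
      exact hnt hG
    obtain ⟨q, hq, hqm⟩ := Nat.exists_prime_and_dvd hm1
    have hpq : p ≠ q := fun e => hm (e ▸ hqm)
    have hqd : q ∣ Nat.card G := hG ▸ hqm.mul_left _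
    haveI : Fact p.Prime := ⟨hp⟩
    haveI : Fact q.Prime := ⟨hq⟩
    obtain ⟨x, hx⟩ := exists_prime_orderOf_dvd_card' p hpd
    obtain ⟨y, hy⟩ := exists_prime_orderOf_dvd_card' q hqd
    have hall := Set.eq_of_subset_of_ncard_le (Set.subset_univ
      ({Quotient.mk _ 1, Quotient.mk _ x, Quotient.mk _ y} :
        Set (MulAction.orbitRel.Quotient (MulAut G) G))) (by
      rw [h3, Set.ncard_eq_three.mpr ⟨_, _, _, mk_ne (by rw [hx, orderOf_one]; exact hp.ne_one.symm),
        mk_ne (by rw [hy, orderOf_one]; exact hq.ne_one.symm), mk_ne (by rw [hx, hy]; exact hpq),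
        rfl⟩])
    have hc : ∀ g : G, (∃ α : MulAut G, α 1 = g) ∨ (∃ α : MulAut G, α x = g) ∨
        ∃ α : MulAut G, α y = g := by
      intro g
      have : Quotient.mk _ g ∈ ({Quotient.mk _ 1, Quotient.mk _ x, Quotient.mk _ y} :
        Set (MulAction.orbitRel.Quotient (MulAut G) G)) := hall ▸ Set.mem_univ _
      simpa only [Set.mem_insert_iff, Set.mem_singleton_iff, mk_eq_iff] using this
    have hord : ∀ g : G, orderOf g = 1 ∨ orderOf g = p ∨ orderOf g = q := by
      intro g
      rcases hc g with ⟨α, rfl⟩ | ⟨α, rfl⟩ | ⟨α, rfl⟩ <;> simp [hx, hy]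
    have htr : ∀ g h : G, orderOf g = orderOf h → ∃ α : MulAut G, α g = h := by
      intro g h e
      have h1 := hp.ne_one
      have h2 := hq.ne_one
      rcases hc g with ⟨α, rfl⟩ | ⟨α, rfl⟩ | ⟨α, rfl⟩ <;>
        rcases hc h with ⟨β, rfl⟩ | ⟨β, rfl⟩ | ⟨β, rfl⟩ <;>
        first
        | (simp only [MulEquiv.orderOf_eq, hx, hy, orderOf_one] at e; omega)
        | exact ⟨β * α⁻¹, by rw [MulAut.mul_apply, MulAut.inv_apply_self]⟩
    have hmq : m = q ^ m.primeFactorsList.length := by
      refine Nat.eq_prime_pow_of_unique_prime_dvd (fun e => hm (e ▸ dvd_zero p)) fun {r} hr hrm => ?_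
      haveI : Fact r.Prime := ⟨hr⟩
      obtain ⟨z, hz⟩ := exists_prime_orderOf_dvd_card' (G := G) r (hG ▸ hrm.mul_left _)
      rcases hord z with e | e | e <;> rw [hz] at e
      · exact absurd e hr.ne_one
      · exact absurd (e ▸ hrm) hm
      · exact e
    rw [hmq] at hG
    haveI := Cfsg.Agent.S0144.result p q _ _ hp hq hG
    haveI : Nontrivial G := Finite.one_lt_card_iff_nontrivial.mp
      (lt_of_le_of_ne Nat.card_pos hnt.symm)
    obtain ⟨r, hr, hne⟩ := H1.exists_pCore_ne_bot_of_isSolvable (G := G)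
    haveI : Fact r.Prime := ⟨hr⟩
    obtain ⟨z, hz, hz'⟩ := H2.exists_mem_prime_orderOf hne
    obtain ⟨k, hk⟩ := IsPGroup.iff_orderOf.mp (H1.isPGroup_pCore (p := r) (G := G)) ⟨z, hz⟩
    rw [← orderOf_coe] at hk
    have hzr : orderOf z = r := (Nat.prime_dvd_prime_iff_eq hz' hr).mp (hz'.dvd_of_dvd_pow hk.dvd)
    rcases hord z with e | e | e <;> rw [hzr] at e
    · exact absurd e hr.ne_one
    · subst e
      obtain ⟨n, hn⟩ := forward hpq hqd hord htr hG hne
      exact ⟨r, q, n, inferInstance, inferInstance, hpq, hn⟩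
    · subst e
      obtain ⟨n, hn⟩ := forward hpq.symm hpd (fun g => (hord g).imp_right Or.symm) htr
        (hG.trans (mul_comm _ _)) hne
      exact ⟨r, p, n, inferInstance, inferInstance, hpq.symm, hn⟩
  · rintro ⟨p, q, n, hp, hq, hpq, hn, hG, hS, hord, hfix⟩
    obtain ⟨P⟩ : Nonempty (Sylow p G) := inferInstance
    obtain ⟨hPn, hE0⟩ := hS P
    have hE : IsMulCommutative P ∧ ∀ x : P, x ^ p = 1 := ⟨hE0.1, fun x => Subtype.ext (hE0.2 x x.2)⟩
    have hP : Nat.card P = p ^ n := by
      rw [P.card_eq_multiplicity, hG, Nat.factorization_mul (pow_ne_zero _ hp.out.ne_zero)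
        hq.out.ne_zero, hp.out.factorization_pow, hq.out.factorization]
      simp [hpq.symm]
    have hidx : (P : Subgroup G).index = q := by
      have := (P : Subgroup G).card_mul_index
      rw [hP, hG] at this
      exact Nat.eq_of_mul_eq_mul_left (pow_pos hp.out.pos n) this
    haveI : Nontrivial P := Finite.one_lt_card_iff_nontrivial.mp
      (hP ▸ Nat.one_lt_pow (by omega) hp.out.one_lt)
    obtain ⟨v, hv⟩ := exists_ne (1 : P)
    have hv' : orderOf (v : G) = p := by
      rw [orderOf_coe]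
      exact orderOf_eq_prime (hE.2 v) hv
    obtain ⟨x, hx⟩ := exists_prime_orderOf_dvd_card' (G := G) q (hG ▸ dvd_mul_left _ _)
    refine Set.ncard_eq_three.mpr ⟨Quotient.mk _ 1, Quotient.mk _ (v : G), Quotient.mk _ x,
      mk_ne (by rw [hv', orderOf_one]; exact hp.out.ne_one.symm),
      mk_ne (by rw [hx, orderOf_one]; exact hq.out.ne_one.symm),
      mk_ne (by rw [hx, hv']; exact hpq), ?_⟩
    refine (Set.eq_univ_of_forall fun c => ?_).symm
    obtain ⟨g, rfl⟩ := Quotient.exists_rep c
    simp only [Set.mem_insert_iff, Set.mem_singleton_iff, mk_eq_iff]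
    by_cases h1 : g = 1
    · exact Or.inl ⟨1, h1.symm⟩
    by_cases hg : g ∈ (P : Subgroup G)
    · obtain ⟨α, -, h⟩ := exists_mulAut hpq hE hP hG hord hfix hx hx hv (w := ⟨g, hg⟩)
        (fun e => h1 (congrArg Subtype.val e))
      exact Or.inr (Or.inl ⟨α, h⟩)
    · have hgq : g ^ q = 1 := by
        by_contra hne
        have h2 : g ^ q ∈ (P : Subgroup G) := hidx ▸ pow_index_mem _ g
        have h3 : (g ^ p) ^ q = 1 := by rw [← pow_mul, mul_comm, pow_mul, hE0.2 _ h2]
        refine hfix (g ^ p) (g ^ q) (orderOf_eq_prime h3 fun e => hg ?_)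
          (orderOf_eq_prime (hE0.2 _ h2) hne) ?_
        · have h4 : IsPGroup p (zpowers g) :=
            IsPGroup.of_card (n := 1) (by rw [Nat.card_zpowers, orderOf_eq_prime e h1, pow_one])
          obtain ⟨Q, hQ⟩ := h4.exists_le_sylow
          haveI := Sylow.unique_of_normal P hPn
          rw [Subsingleton.elim P Q]
          exact hQ (mem_zpowers g)
        · rw [mul_inv_eq_iff_eq_mul]
          exact (Commute.pow_pow_self g p q).eq
      obtain ⟨α, h, -⟩ := exists_mulAut hpq hE hP hG hord hfix hx (orderOf_eq_prime hgq h1) hv hv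
      exact Or.inr (Or.inr ⟨α, h⟩)

end Cfsg.Agent.S4081
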