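import Cfsg.Statements.S4082
import Cfsg.Agent.Lib.TwoGrp.Sympl
import Cfsg.Agent.Lib.SL2.Cases

set_option autoImplicit false
open Cfsg

namespace Cfsg.Agent.S4082

open Subgroup
open scoped commutatorElement

theorem centralizer_zpowers_eq {G : Type*} [Group G] (u : G) :
    centralizer (zpowers u : Set G) = centralizer {u} := by
  rw [zpowers_eq_closure, centralizer_closure]

/-- Let p be an odd prime and G a finite group with Sylow p-subgroup P. Say that G has restricted p-by-cyclic subgroups when every subgroup H of G whose Sylow p-subgroup is normal in H with cyclic quotient is itself cyclic or dihedral of order 2pⁿ for some n. Then G has restricted p-by-cyclic subgroups if and only if P is cyclic and one of the following holds: (1) N_G(P) = C_G(P); or (2) N_G(P)/C_G(P) has order 2 and, for the subgroup Q of order p of P, the centralizer C_G(Q) is abelian and every element of N_G(Q) outside C_G(Q) is an involution inverting every element of C_G(Q). -/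
theorem result {G : Type*} [Group G] [Finite G] {p : ℕ}
    [Fact p.Prime] (hp : p ≠ 2) (P : Sylow p G) :
    (∀ H : Subgroup G, (∀ S : Sylow p ↥H, (S : Subgroup ↥H).Normal) →
        (∀ (S : Sylow p ↥H) [(S : Subgroup ↥H).Normal], IsCyclic (↥H ⧸ (S : Subgroup ↥H))) →
        IsCyclic H ∨ (∃ n : ℕ, Nonempty (H ≃* DihedralGroup (p ^ n)))) ↔
    (IsCyclic P ∧
      (Subgroup.normalizer ((P : Subgroup G) : Set G) = Subgroup.centralizer ((P : Subgroup G) : Set G) ∨
       ((Subgroup.centralizer ((P : Subgroup G) : Set G)).relIndex (Subgroup.normalizer ((P : Subgroup G) : Set G)) = 2 ∧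
        ∀ Q : Subgroup G, Q ≤ P → Nat.card Q = p →
          IsMulCommutative ↥(Subgroup.centralizer (Q : Set G)) ∧
          ∀ x : G, x ∈ Subgroup.normalizer (Q : Set G) → x ∉ Subgroup.centralizer (Q : Set G) →
            orderOf x = 2 ∧ ∀ c : G, c ∈ Subgroup.centralizer (Q : Set G) → x * c * x⁻¹ = c⁻¹))) := by
  have hodd : Odd p := (Fact.out : p.Prime).odd_of_ne_two hp
  constructor
  · intro hH
    have key : ∀ (R : Subgroup G) (x : G), IsPGroup p R → x ∈ normalizer (R : Set G) →
        IsCyclic ↥(R ⊔ zpowers x) ∨ ∃ n : ℕ, Nonempty (↥(R ⊔ zpowers x) ≃* DihedralGroup (p ^ n)) := by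
      intro R x hR hx
      haveI : (R.subgroupOf (R ⊔ zpowers x)).Normal :=
        (normal_subgroupOf_iff_le_normalizer le_sup_left).2 (sup_le le_normalizer (zpowers_le.2 hx))
      have hle : ∀ S : Sylow p ↥(R ⊔ zpowers x), R.subgroupOf _ ≤ (S : Subgroup ↥(R ⊔ zpowers x)) := fun S =>
        (hR.of_equiv (subgroupOfEquivOfLe le_sup_left).symm).le_sylow_of_normal S
      have hc : ∀ (S : Subgroup ↥(R ⊔ zpowers x)) [S.Normal], R.subgroupOf _ ≤ S → IsCyclic (_ ⧸ S) :=
        fun S _ h => ⟨⟨(⟨x, mem_sup_right (mem_zpowers x)⟩ : ↥(R ⊔ zpowers x)), fun v => by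
          obtain ⟨⟨y, hy⟩, rfl⟩ := QuotientGroup.mk_surjective v
          obtain ⟨k, hk, i, rfl⟩ := (H5.mem_sup_zpowers_iff hx).1 hy
          refine ⟨i, (QuotientGroup.eq_iff_div_mem.2 (h ?_)).symm⟩
          simpa [mem_subgroupOf] using hk⟩⟩
      refine hH _ (fun S => Normal.of_commutator_le _ (le_trans ?_ (hle S))) fun S _ => hc _ (hle S)
      haveI := hc _ le_rfl
      exact Normal.quotient_commutative_iff_commutator_le.1 IsCyclic.isMulCommutative
    have inv : ∀ (R : Subgroup G) (x : G), IsPGroup p R → x ∈ normalizer (R : Set G) →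
        x ∉ centralizer (R : Set G) → orderOf x = 2 ∧ ∀ r ∈ R, x * r * x⁻¹ = r⁻¹ := by
      intro R x hR hx hxc
      let x' : ↥(R ⊔ zpowers x) := ⟨x, mem_sup_right (mem_zpowers x)⟩
      rcases key R x hR hx with h | ⟨n, ⟨e⟩⟩
      · exact (hxc fun r hr => congrArg Subtype.val
          (h.isMulCommutative.is_comm.comm (⟨r, mem_sup_left hr⟩ : ↥(R ⊔ zpowers x)) x')).elim
      have hr : ∀ (r : G) (hr : r ∈ R), ∃ j, e ⟨r, mem_sup_left hr⟩ = DihedralGroup.r j := fun r hr => by
        rcases he : e ⟨r, mem_sup_left hr⟩ with j | j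
        · exact ⟨j, rfl⟩
        · obtain ⟨k, hk⟩ := hR ⟨r, hr⟩
          have h1 : orderOf r = 2 := by
            rw [← DihedralGroup.orderOf_sr j, ← he, e.orderOf_eq, orderOf_mk]
          exact absurd (h1 ▸ orderOf_dvd_of_pow_eq_one (congrArg Subtype.val hk)) hodd.pow.not_two_dvd_nat
      rcases he : e x' with i | i
      · refine (hxc fun r h => congrArg Subtype.val (e.injective (a₁ := ⟨r, mem_sup_left h⟩ * x')
          (a₂ := x' * ⟨r, mem_sup_left h⟩) ?_)).elim
        obtain ⟨j, hj⟩ := hr r h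
        rw [map_mul, map_mul, hj, he, DihedralGroup.r_mul_r, DihedralGroup.r_mul_r, add_comm]
      · refine ⟨by rw [← DihedralGroup.orderOf_sr i, ← he, e.orderOf_eq, orderOf_mk], fun r h => ?_⟩
        obtain ⟨j, hj⟩ := hr r h
        refine congrArg Subtype.val (e.injective (a₁ := x' * ⟨r, mem_sup_left h⟩ * x'⁻¹)
          (a₂ := ⟨r, mem_sup_left h⟩⁻¹) ?_)
        rw [map_mul, map_mul, map_inv, map_inv, hj, he]
        simp
    have hP : IsCyclic P := by
      rcases key P 1 P.2 (one_mem _) with h | ⟨n, ⟨e⟩⟩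
      · exact isCyclic_of_injective (inclusion (le_sup_left (b := zpowers 1))) (inclusion_injective _)
      · obtain ⟨k, hk⟩ := IsPGroup.iff_card.1 P.2
        have := Nat.card_congr e.toEquiv
        rw [zpowers_one_eq_bot, sup_bot_eq, hk, DihedralGroup.nat_card] at this
        exact absurd (this ▸ dvd_mul_right 2 _) hodd.pow.not_two_dvd_nat
    refine ⟨hP, or_iff_not_imp_left.2 fun hne => ?_⟩
    obtain ⟨x, hx, hxc⟩ := SetLike.exists_of_lt ((centralizer_le_normalizer _).lt_of_ne' hne)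
    obtain ⟨-, hxi⟩ := inv P x P.2 hx hxc
    refine ⟨relIndex_eq_two_iff_exists_notMem_and.2 ⟨x, hx, hxc, fun b hb => or_iff_not_imp_right.2
      fun hbc r hr => ?_⟩, fun Q hQ hQp => ?_⟩
    · rw [eq_comm, ← mul_inv_eq_iff_eq_mul, show b * x * r * (b * x)⁻¹ = b * (x * r * x⁻¹) * b⁻¹ by group,
        hxi r hr, (inv P b P.2 hb hbc).2 _ (inv_mem hr), inv_inv]
    have hQ' : IsPGroup p Q := P.2.to_le hQ
    have h2 : ∀ x ∈ normalizer (Q : Set G), x ∉ centralizer (Q : Set G) →
        orderOf x = 2 ∧ ∀ c ∈ centralizer (Q : Set G), x * c * x⁻¹ = c⁻¹ := fun x hx hxc => by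
      have h1 := (inv Q x hQ' hx hxc).1
      refine ⟨h1, fun c hc => ?_⟩
      have h3 := (inv Q (x * c) hQ' (mul_mem hx (centralizer_le_normalizer _ hc))
        (by rwa [mul_mem_cancel_right hc])).1
      rw [eq_inv_of_mul_eq_one_left (a := x⁻¹) (b := x⁻¹) (by rw [← mul_inv_rev, ← sq, ← h1,
        pow_orderOf_eq_one, inv_one]), inv_inv, eq_inv_iff_mul_eq_one, mul_assoc, ← sq, ← h3, pow_orderOf_eq_one]
    refine ⟨⟨⟨fun a b => Subtype.ext ?_⟩⟩, h2⟩
    obtain ⟨q, hq⟩ := exists_prime_orderOf_dvd_card' (G := Q) p hQp.symm.dvd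
    have h3 := (h2 x (mem_normalizer_fintype fun r hr => by rw [hxi r (hQ hr)]; exact inv_mem hr) fun h => by
      have h4 := hxi q (hQ q.2)
      rw [← h q q.2, mul_inv_cancel_right, eq_inv_iff_mul_eq_one, ← sq, ← orderOf_dvd_iff_pow_eq_one,
        orderOf_coe, hq] at h4
      exact hp ((Nat.prime_dvd_prime_iff_eq Fact.out Nat.prime_two).1 h4)).2
    rw [coe_mul, coe_mul, ← inv_inj, ← h3 _ (mul_mem a.2 b.2), ← conj_mul, h3 _ a.2, h3 _ b.2, mul_inv_rev]
  · rintro ⟨hP, h⟩ H hn hc
    obtain ⟨S⟩ : Nonempty (Sylow p H) := inferInstance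
    haveI := hn S
    haveI := hc S
    obtain ⟨T, hT⟩ := (S.2.map H.subtype).exists_le_sylow
    obtain ⟨g, rfl⟩ := MulAction.exists_smul_eq G P T
    haveI : IsCyclic (g • P : Sylow p G) := isCyclic_of_surjective _ (P.equivSMul g).surjective
    haveI hS : IsCyclic S := isCyclic_of_injective
      ((inclusion hT).comp (S.1.equivMapOfInjective _ H.subtype_injective).toMonoidHom)
      ((inclusion_injective hT).comp (MulEquiv.injective _))
    have hab : (∀ a b : H, a * b = b * a) → IsCyclic H := fun hab => by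
      letI : CommGroup H := { (inferInstance : Group H) with mul_comm := hab }
      haveI : IsCyclic (QuotientGroup.mk' (S : Subgroup H)).ker := by rwa [QuotientGroup.ker_mk']
      refine Group.isCyclic_of_coprime_card_ker (QuotientGroup.mk' (S : Subgroup H)) ?_
        (QuotientGroup.mk'_surjective _)
      rw [QuotientGroup.ker_mk']
      exact S.card_coprime_index
    have hS' : commutator H ≤ S := Normal.quotient_commutative_iff_commutator_le.1 IsCyclic.isMulCommutative
    rcases h with h | ⟨-, h⟩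
    · refine Or.inl (hab fun a b => commutatorElement_eq_one_iff_mul_comm.1 (Subtype.ext ?_))
      refine disjoint_def.1 (MonoidHom.ker_transferSylow_disjoint P h.le _ (S.2.map H.subtype)) ?_
        ⟨_, hS' (commutator_mem_commutator (mem_top a) (mem_top b)), rfl⟩
      rw [MonoidHom.mem_ker, show ((⁅a, b⁆ : H) : G) = ⁅(a : G), (b : G)⁆ from rfl, map_commutatorElement]
      exact commutatorElement_eq_one_iff_mul_comm.2 (hP.isMulCommutative.is_comm.comm _ _)
    by_cases h1 : (S : Subgroup H) = ⊥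
    · exact Or.inl (isCyclic_of_injective (QuotientGroup.mk' (S : Subgroup H))
        ((MonoidHom.ker_eq_bot_iff _).1 (by rw [QuotientGroup.ker_mk', h1])))
    obtain ⟨k, hk⟩ := IsPGroup.iff_card.1 S.2
    obtain ⟨s, hs⟩ := exists_prime_orderOf_dvd_card' (G := S) p (hk ▸ dvd_pow_self p fun e =>
      h1 (card_eq_one.1 (by rw [hk, e, pow_zero])))
    rw [← orderOf_coe] at hs
    obtain ⟨u, hu, hus⟩ : ∃ u ∈ (P : Subgroup G), g * u * g⁻¹ = s := hT ⟨s, s.2, rfl⟩
    have ho : orderOf u = p := by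
      rw [← hs, ← orderOf_coe, ← hus]; exact ((MulAut.conj g).orderOf_eq u).symm
    obtain ⟨h2, h3⟩ := h (zpowers u) (zpowers_le.2 hu) (by rw [Nat.card_zpowers, ho])
    have hC : ∀ a : H, g⁻¹ * a * g ∈ centralizer (zpowers u : Set G) ↔ a * s = s * a := fun a => by
      rw [centralizer_zpowers_eq, mem_centralizer_singleton_iff, Subtype.ext_iff, coe_mul, coe_mul, ← hus]
      constructor <;> intro e
      · calc _ = g * (g⁻¹ * a * g * u) * g⁻¹ := by group
          _ = _ := by rw [e]; group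
      · calc _ = g⁻¹ * (a * (g * u * g⁻¹)) * g := by group
          _ = _ := by rw [e]; group
    have hN : ∀ a : H, g⁻¹ * a * g ∈ normalizer (zpowers u : Set G) := fun a => by
      obtain ⟨i, hi⟩ := H13.TG.mem_zpowers_of_cyclic hS s.2 hs ((hn S).conj_mem _ s.2 a)
        (by rw [conj_pow, orderOf_dvd_iff_pow_eq_one.1 hs.dvd]; group)
      refine mem_normalizer_fintype ?_
      rintro _ ⟨j, rfl⟩
      refine ⟨i * j, ?_⟩
      have e : g⁻¹ * a * g * u * (g⁻¹ * a * g)⁻¹ = u ^ i := by
        calc _ = g⁻¹ * (a * (g * u * g⁻¹) * (a : G)⁻¹) * g := by group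
          _ = _ := by
            rw [hus, show (a : G) * s * (a : G)⁻¹ = (s : G) ^ i from (congrArg Subtype.val hi).symm, ← hus,
              conj_zpow]; group
      simp only [← conj_zpow, e, zpow_mul]
    have h4 : ∀ a : H, a * s ≠ s * a → a * a = 1 ∧ ∀ c : H, c * s = s * c → a * c * a⁻¹ = c⁻¹ := fun a ha => by
      obtain ⟨h5, h6⟩ := h3 _ (hN a) (mt (hC a).1 ha)
      refine ⟨Subtype.ext ?_, fun c hc => Subtype.ext ?_⟩
      · calc (a : G) * a = g * (g⁻¹ * a * g) ^ 2 * g⁻¹ := by rw [sq]; group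
          _ = 1 := by rw [← h5, pow_orderOf_eq_one]; group
      · calc (a : G) * c * (a : G)⁻¹ = g * (g⁻¹ * a * g * (g⁻¹ * c * g) * (g⁻¹ * a * g)⁻¹) * g⁻¹ := by group
          _ = (c : G)⁻¹ := by rw [h6 _ ((hC c).2 hc)]; group
    by_cases h5 : ∀ a : H, a * s = s * a
    · refine Or.inl (hab fun a b => Subtype.ext ?_)
      have : g⁻¹ * a * g * (g⁻¹ * b * g) = g⁻¹ * b * g * (g⁻¹ * a * g) :=
        congrArg Subtype.val (h2.is_comm.comm ⟨_, (hC a).2 (h5 a)⟩ ⟨_, (hC b).2 (h5 b)⟩)
      calc (a : G) * b = g * (g⁻¹ * a * g * (g⁻¹ * b * g)) * g⁻¹ := by group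
        _ = b * a := by rw [this]; group
    push Not at h5
    obtain ⟨x, hx⟩ := h5
    obtain ⟨x2, xi⟩ := h4 x hx
    have sc : ∀ c ∈ (S : Subgroup H), c * s = s * c := fun c hc =>
      congrArg Subtype.val (hS.isMulCommutative.is_comm.comm ⟨c, hc⟩ s)
    have xS : x ∉ (S : Subgroup H) := fun e => hx (sc x e)
    have cS : ∀ c : H, c * s = s * c → c ∈ (S : Subgroup H) := fun c hc => by
      by_contra hcS
      haveI : Fact (Nat.Prime 2) := ⟨Nat.prime_two⟩
      have o1 : orderOf (c : H ⧸ (S : Subgroup H)) = 2 := orderOf_eq_prime (by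
        have := congrArg (QuotientGroup.mk' (S : Subgroup H)) (xi c hc)
        rw [map_mul, map_mul, IsCyclic.isMulCommutative.is_comm.comm (QuotientGroup.mk' _ x), map_inv,
          mul_inv_cancel_right, map_inv] at this
        rw [sq]; exact mul_eq_one_iff_eq_inv.2 this) (mt (QuotientGroup.eq_one_iff c).1 hcS)
      obtain ⟨i, hi⟩ := H13.TG.mem_zpowers_of_cyclic (Y := ⊤)
        (isCyclic_of_surjective _ topEquiv.symm.surjective) (mem_top _) o1 (mem_top (x : H ⧸ (S : Subgroup H)))
        (by rw [sq, ← QuotientGroup.mk_mul, x2]; rfl)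
      have := sc _ (QuotientGroup.eq.1 hi)
      apply hx
      rw [← mul_inv_cancel_left (c ^ i) x, mul_assoc, this, ← mul_assoc, (Commute.zpow_left hc i).eq, mul_assoc]
    obtain ⟨r, hr⟩ := (isCyclic_iff_exists_zpowers_eq_top.1 hS)
    have hr' : zpowers (r : H) = S := by
      rw [← coe_subtype, ← MonoidHom.map_zpowers, hr, ← MonoidHom.range_eq_map, range_subtype]
    have hor : orderOf (r : H) = p ^ k := by rw [← Nat.card_zpowers, hr', hk]
    have hi : (S : Subgroup H).index = 2 := index_eq_two_iff_exists_notMem_and.2 ⟨x, xS, fun b =>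
      or_iff_not_imp_right.2 fun hb => cS _ (by
        rw [← mul_inv_eq_iff_eq_mul, show b * x * s * (b * x)⁻¹ = b * (x * s * x⁻¹) * b⁻¹ by group, xi _ rfl,
          (h4 b (mt (cS b) hb)).2 _ (Commute.refl _).inv_left, inv_inv])⟩
    refine Or.inr ⟨k, hor ▸ H29.dihedral_of_inverted (fun e => h1 (by rw [← hr', e, zpowers_one_eq_bot]))
      (hr'.symm ▸ xS) x2 ?_ (by rw [← (S : Subgroup H).index_mul_card, hi, hk, hor])⟩
    rw [← mul_assoc, ← inv_mul_cancel (r : H), ← xi _ (sc _ r.2), ← eq_inv_of_mul_eq_one_left x2]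

end Cfsg.Agent.S4082
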