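import Cfsg.Statements.S4083
import Mathlib
import Cfsg.Agent.Lib.GWCor.Dih

set_option autoImplicit false
open Cfsg

namespace Cfsg.Agent.S4083


open H29 Subgroup

/-- four-groups are self-centralising -/
def SC (G : Type*) [Group G] : Prop := ∀ s t g : G, IsPair s t → g * s = s * g → g * t = t * g →
  g = 1 ∨ g = s ∨ g = t ∨ g = s * t

theorem SC.sub {G : Type*} [Group G] (h : SC G) (H : Subgroup G) : SC H := by
  intro s t g hp h1 h2
  have := h s t g ⟨congrArg Subtype.val hp.sq₁, fun e => hp.ne₁ (Subtype.ext e),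
    congrArg Subtype.val hp.sq₂, fun e => hp.ne₂ (Subtype.ext e), fun e => hp.ne (Subtype.ext e),
    congrArg Subtype.val hp.comm⟩ (congrArg Subtype.val h1) (congrArg Subtype.val h2)
  rcases this with e | e | e | e
  exacts [.inl (Subtype.ext e), .inr (.inl (Subtype.ext e)), .inr (.inr (.inl (Subtype.ext e))),
    .inr (.inr (.inr (Subtype.ext e)))]

theorem SC.cent {G : Type*} [Group G] [Finite G] (h : SC G) {V : Subgroup G} (hV : IsKleinFour V) :
    centralizer (V : Set G) = V := by
  refine le_antisymm (fun g hg => ?_) fun x hx y hy => H19.mul_comm_of_isKleinFour hV hy hx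
  obtain ⟨s, t, hp, rfl⟩ := exists_isPair hV
  exact hp.mem_closure.2 (h s t g hp (hg s (subset_closure (by simp))).symm
    (hg t (subset_closure (by simp))).symm)

theorem pow_of_dih {G : Type*} [Group G] [Finite G] (hG : IsPGroup 2 G) {n : ℕ}
    (e : G ≃* DihedralGroup n) : ∃ k, Nonempty (G ≃* DihedralGroup (2 ^ k)) := by
  obtain ⟨m, hm⟩ := IsPGroup.iff_card.1 hG
  have h1 := Nat.card_congr e.toEquiv
  rw [DihedralGroup.nat_card, hm] at h1
  obtain ⟨k, -, hk⟩ := (Nat.dvd_prime_pow Nat.prime_two).1 (h1 ▸ Dvd.intro_left 2 rfl : n ∣ 2 ^ m)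
  exact ⟨k, ⟨hk ▸ e⟩⟩

theorem key {G : Type*} [Group G] [Finite G] (hD : D2 G) (hS : SC G) (S : Sylow 2 G)
    [hn : (S : Subgroup G).Normal] (hc : IsCyclic (G ⧸ (S : Subgroup G))) :
    IsCyclic G ∨ (∃ n : ℕ, Nonempty (G ≃* DihedralGroup (2 ^ n))) ∨
      Nonempty (G ≃* alternatingGroup (Fin 4)) := by
  have hodd : Odd (S : Subgroup G).index := H73.odd_index_sylow S
  obtain ⟨g, go, hg⟩ : ∃ g : G, Odd (orderOf g) ∧ ∀ x : G, ∃ i : ℤ, x * (g ^ i)⁻¹ ∈ (S : Subgroup G) := by
    obtain ⟨q, hq⟩ := hc.exists_generator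
    obtain ⟨y, rfl⟩ := QuotientGroup.mk_surjective q
    obtain ⟨k, m, hm, e⟩ := Nat.exists_eq_two_pow_mul_odd (orderOf_pos y).ne'
    refine ⟨y ^ 2 ^ k, ?_, fun x => ?_⟩
    · exact Odd.of_dvd_nat hm (orderOf_dvd_of_pow_eq_one (by rw [← pow_mul, ← e, pow_orderOf_eq_one]))
    · have h1 : (y : G ⧸ (S : Subgroup G)) ∈ zpowers ((y : G ⧸ (S : Subgroup G)) ^ 2 ^ k) :=
        mem_zpowers_pow_iff.2 (Nat.Coprime.pow_left k (Nat.coprime_two_left.2
          (Odd.of_dvd_nat hodd (orderOf_dvd_natCard _))))
      obtain ⟨i, hi⟩ := (zpowers_le.2 h1) (hq (x : G ⧸ (S : Subgroup G)))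
      refine ⟨i, (QuotientGroup.eq_one_iff _).1 ?_⟩
      simp only at hi
      rw [QuotientGroup.mk_mul, QuotientGroup.mk_inv, QuotientGroup.mk_zpow, QuotientGroup.mk_pow, hi,
        mul_inv_cancel]
  by_cases hC : (S : Subgroup G) ≤ centralizer ({g} : Set G)
  · rcases hD.cases S.2 with h1 | ⟨a, b, h1, h2⟩
    · left
      obtain ⟨a, ha⟩ := h1.exists_generator
      have cm : Commute (a : G) g := mem_centralizer_singleton_iff.1 (hC a.2)
      obtain ⟨k, hk⟩ := S.2 a
      have co : (orderOf (a : G)).Coprime (orderOf g) := Nat.Coprime.coprime_dvd_left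
        (orderOf_dvd_of_pow_eq_one (congrArg Subtype.val hk))
        (Nat.Coprime.pow_left k (Nat.coprime_two_left.2 go))
      have m1 : (a : G) ∈ zpowers ((a : G) * g) := by
        have : ((a : G) * g) ^ orderOf g = (a : G) ^ orderOf g := by
          rw [cm.mul_pow, pow_orderOf_eq_one, mul_one]
        exact zpowers_le.2 (this ▸ npow_mem_zpowers _ _) (mem_zpowers_pow_iff.2 co.symm)
      have m2 : g ∈ zpowers ((a : G) * g) := by
        simpa using mul_mem (inv_mem m1) (mem_zpowers ((a : G) * g))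
      refine ⟨(a : G) * g, fun x => ?_⟩
      obtain ⟨i, hi⟩ := hg x
      obtain ⟨j, hj⟩ := ha ⟨_, hi⟩
      have hj' : (a : G) ^ j = x * (g ^ i)⁻¹ := congrArg Subtype.val hj
      have : x = (a : G) ^ j * g ^ i := by rw [hj']; group
      exact this ▸ mul_mem (zpow_mem m1 j) (zpow_mem m2 i)
    · right; left
      obtain ⟨s, hs, hp⟩ := exists_isPair_of_dihData S.2 h1 h2
      have g1 : g = 1 := by
        have hh : g * g = 1 := by
          rcases hS s b g hp (mem_centralizer_singleton_iff.1 (hC (h2.zpowers_le hs))).symm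
            (mem_centralizer_singleton_iff.1 (hC ((h2.mem b).2 ⟨0, .inr (by simp)⟩))).symm with
            e | e | e | e
          · simp [e]
          · rw [e, hp.sq₁]
          · rw [e, hp.sq₂]
          · rw [e, hp.rot.sq₂]
        rw [← orderOf_eq_one_iff]
        exact Nat.eq_one_of_dvd_coprimes (Nat.coprime_two_left.2 go)
          (orderOf_dvd_of_pow_eq_one (by rw [pow_two, hh])) dvd_rfl
      have ht : (S : Subgroup G) = ⊤ := eq_top_iff.2 fun x _ => by simpa [g1] using hg x
      obtain ⟨e⟩ := H41.nonempty_mulEquiv_dihedral (by omega) h2.ord h2.bb h2.conj h2.notMem h2.mem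
      exact pow_of_dih ((ht ▸ S.2).of_equiv topEquiv)
        (topEquiv.symm.trans ((MulEquiv.subgroupCongr ht.symm).trans e))
  · right; right
    have hV := hD.isKleinFour S.2 go (by rw [normalizer_eq_top (S : Subgroup G)]; trivial) hC
    have h1 := H41.klein_relIndex_dvd_six hV
    have h2 := hS.cent hV
    rw [normalizer_eq_top, relIndex_top_right, h2] at h1
    have h3 := (S : Subgroup G).card_mul_index
    rw [hV.card_four] at h3
    have h4 := Nat.le_of_dvd (by norm_num) h1
    have h5 : (S : Subgroup G).index ≠ 1 := fun e => hC (by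
      rw [index_eq_one] at e
      intro x hx
      exact mem_centralizer_singleton_iff.2 (H19.mul_comm_of_isKleinFour hV hx (e ▸ mem_top g)))
    have h7 : (S : Subgroup G).index = 3 := by
      generalize (S : Subgroup G).index = n at *
      obtain ⟨k, hk⟩ := hodd
      interval_cases n <;> omega
    refine alt_four_of_card (by omega) ?_
    have hd : Disjoint (Cfsg.pPrimeCore 2 G) (S : Subgroup G) :=
      disjoint_iff.2 (by rw [inf_comm]; exact H1.inf_pPrimeCore_eq_bot S.2)
    rw [eq_bot_iff, ← disjoint_iff.1 hd, le_inf_iff, ← h2]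
    exact ⟨le_rfl, fun x hx y hy => (commute_of_normal_of_disjoint _ _ inferInstance hn hd x y hx hy).symm⟩

theorem sylow_top {G : Type*} [Group G] (h : IsPGroup 2 G) (S : Sylow 2 G) : (S : Subgroup G) = ⊤ :=
  (S.is_maximal' (h.to_subgroup ⊤) le_top).symm

theorem not_cyc {G : Type*} [Group G] [IsCyclic G] {s t : G} (hp : IsPair s t) : False := by
  haveI := hp.isKleinFour
  exact IsKleinFour.not_isCyclic (G := closure ({s, t} : Set G)) inferInstance

/-- Let G be a finite group with Sylow 2-subgroup P. Every subgroup H of G whose Sylow 2-subgroup is normal in H with cyclic quotient is cyclic, dihedral of 2-power order, or isomorphic to the alternating group of degree 4, if and only if either P is cyclic, or P is dihedral (of order at least 4) and every elementary abelian subgroup K of order 4 of P satisfies C_G(K) = K. -/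
theorem result {G : Type*} [Group G] [Finite G] (P : Sylow 2 G) :
    (∀ H : Subgroup G, (∀ S : Sylow 2 ↥H, (S : Subgroup ↥H).Normal) →
        (∀ (S : Sylow 2 ↥H) [(S : Subgroup ↥H).Normal], IsCyclic (↥H ⧸ (S : Subgroup ↥H))) →
        IsCyclic H ∨ (∃ n : ℕ, Nonempty (H ≃* DihedralGroup (2 ^ n))) ∨ Nonempty (H ≃* alternatingGroup (Fin 4))) ↔
    (IsCyclic P ∨
      ((∃ n : ℕ, 1 ≤ n ∧ Nonempty ((P : Subgroup G) ≃* DihedralGroup (2 ^ n))) ∧
        ∀ K : Subgroup G, K ≤ P → Nat.card K = 4 → (∀ k ∈ K, k ^ 2 = 1) → Subgroup.centralizer (K : Set G) = K)) := by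
  constructor
  · intro h
    have hP := h P (fun S => by rw [sylow_top P.2 S]; infer_instance) (fun S _ => by
      haveI : Subsingleton (P ⧸ (S : Subgroup P)) :=
        QuotientGroup.subsingleton_iff.2 (sylow_top P.2 S)
      infer_instance)
    have hK : ∀ K : Subgroup G, Nat.card K = 4 → (∀ k ∈ K, k ^ 2 = 1) →
        centralizer (K : Set G) = K := by
      intro K h4 h2
      have hV := H19.isKleinFour_of_card h4 fun x hx => by rw [← pow_two, h2 x hx]
      refine le_antisymm (fun x hx => ?_) fun x hx y hy => H19.mul_comm_of_isKleinFour hV hy hx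
      let H := K ⊔ zpowers x
      have hz : ∀ a ∈ H, H ≤ centralizer {a} := by
        have h1 : H ≤ centralizer (K : Set G) := sup_le
          (fun x hx y hy => H19.mul_comm_of_isKleinFour hV hy hx) (zpowers_le.2 hx)
        have h2 : H ≤ centralizer (zpowers x : Set G) := sup_le
          (le_centralizer_iff.1 (zpowers_le.2 hx)) (le_centralizer (zpowers x))
        have h3 : H ≤ centralizer (H : Set G) :=
          sup_le (le_centralizer_iff.1 h1) (le_centralizer_iff.1 h2)
        exact fun a ha b hb => mem_centralizer_singleton_iff.2 (h3 ha b hb)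
      haveI hc : IsMulCommutative H := ⟨⟨fun a b =>
        Subtype.ext (mem_centralizer_singleton_iff.1 (hz b b.2 a.2))⟩⟩
      have hKH : K ≤ H := le_sup_left
      have hn : ∀ T : Subgroup H, T.Normal := fun T => ⟨fun n hn g => by
        rwa [mul_comm' g n, mul_inv_cancel_right]⟩
      rcases h H (fun S => hn _) (fun S _ => by
        have h1 : K.subgroupOf H ≤ S := by
          obtain ⟨Q, hQ⟩ := ((IsPGroup.of_card (p := 2) (n := 2) h4).of_equiv
            (subgroupOfEquivOfLe hKH).symm).exists_le_sylow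
          haveI := Sylow.unique_of_normal S (hn _)
          rwa [Subsingleton.elim Q S] at hQ
        refine ⟨((⟨x, mem_sup_right (mem_zpowers x)⟩ : H) : H ⧸ (S : Subgroup H)), fun q => ?_⟩
        obtain ⟨⟨y, hy⟩, rfl⟩ := QuotientGroup.mk_surjective q
        have h2 : H ≤ ((zpowers ((⟨x, mem_sup_right (mem_zpowers x)⟩ : H) : H ⧸ (S : Subgroup H))).comap
            (QuotientGroup.mk' _)).map H.subtype := sup_le
          (fun k hk => ⟨⟨k, hKH hk⟩, by
            have : ((⟨k, hKH hk⟩ : H) : H ⧸ (S : Subgroup H)) = 1 :=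
              (QuotientGroup.eq_one_iff _).2 (h1 hk)
            show ((⟨k, hKH hk⟩ : H) : H ⧸ (S : Subgroup H)) ∈ zpowers _
            rw [this]; exact one_mem _, rfl⟩)
          (zpowers_le.2 ⟨_, mem_zpowers _, rfl⟩)
        obtain ⟨z, hz, e⟩ := h2 hy
        obtain rfl : z = ⟨y, hy⟩ := Subtype.ext e
        exact hz) with h1 | ⟨n, ⟨e⟩⟩ | ⟨⟨e⟩⟩
      · haveI := hV
        exact absurd (isCyclic_of_injective (inclusion hKH) (inclusion_injective hKH))
          IsKleinFour.not_isCyclic
      · have h1 : (DihedralGroup.r 1 : DihedralGroup (2 ^ n)) * DihedralGroup.sr 0 =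
            DihedralGroup.sr 0 * DihedralGroup.r 1 := by
          exact e.symm.injective (by rw [map_mul, map_mul, mul_comm'])
        simp only [DihedralGroup.r_mul_sr, DihedralGroup.sr_mul_r, DihedralGroup.sr.injEq] at h1
        have h2 : ((2 : ℕ) : ZMod (2 ^ n)) = 0 := by
          push_cast
          linear_combination -h1
        rw [ZMod.natCast_eq_zero_iff] at h2
        have h3 := Nat.le_of_dvd two_pos h2
        have h5 : K = H := eq_of_le_of_card_ge hKH (by
          rw [Nat.card_congr e.toEquiv, DihedralGroup.nat_card, h4]; omega)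
        exact h5.ge (mem_sup_right (mem_zpowers x))
      · exfalso
        have h1 : ∀ a b : alternatingGroup (Fin 4), a * b = b * a := fun a b =>
          e.symm.injective (by rw [map_mul, map_mul, mul_comm'])
        exact absurd (congrArg Subtype.val (h1 ⟨Equiv.swap 0 1 * Equiv.swap 1 2, Equiv.Perm.mem_alternatingGroup.2 (by decide)⟩
          ⟨Equiv.swap 1 2 * Equiv.swap 2 3, Equiv.Perm.mem_alternatingGroup.2 (by decide)⟩)) (by decide)
    rcases hP with h1 | ⟨n, ⟨e⟩⟩ | ⟨⟨e⟩⟩
    · exact .inl h1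
    · rcases Nat.eq_zero_or_pos n with rfl | hn
      · left
        refine isCyclic_of_prime_card (p := 2) ?_
        rw [Nat.card_congr e.toEquiv, DihedralGroup.nat_card]; rfl
      · exact .inr ⟨⟨n, hn, ⟨e⟩⟩, fun K _ => hK K⟩
    · exfalso
      obtain ⟨m, hm⟩ := IsPGroup.iff_card.1 P.2
      have h1 := Nat.card_congr e.toEquiv
      rw [hm, nat_card_alternatingGroup] at h1
      have : 3 ∣ 2 ^ m := by rw [h1]; simp; decide
      exact absurd (Nat.prime_three.dvd_of_dvd_pow this) (by decide)
  · intro h H hn hc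
    obtain ⟨S⟩ : Nonempty (Sylow 2 H) := inferInstance
    haveI := hn S
    have conj : ∀ s t : G, IsPair s t → ∃ g : G, g * s * g⁻¹ ∈ (P : Subgroup G) ∧
        g * t * g⁻¹ ∈ (P : Subgroup G) := fun s t hp => by
      obtain ⟨Q, hQ⟩ := (IsPGroup.of_card (p := 2) (n := 2) hp.isKleinFour.card_four).exists_le_sylow
      obtain ⟨g, rfl⟩ := MulAction.exists_smul_eq G P Q
      refine ⟨g⁻¹, ?_, ?_⟩
      · simpa using mem_pointwise_smul_iff_inv_smul_mem.1 (hQ (subset_closure (by simp) : s ∈ _))
      · simpa using mem_pointwise_smul_iff_inv_smul_mem.1 (hQ (subset_closure (by simp) : t ∈ _))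
    have hh : D2 G ∧ SC G := by
      rcases h with h | ⟨⟨n, -, ⟨e⟩⟩, h⟩
      · refine ⟨D2.of_sylow P (n := Nat.card P) ((MonoidHom.mk'
          (fun x : Multiplicative (ZMod (Nat.card P)) => DihedralGroup.r x.toAdd) fun _ _ => rfl).comp
          (zmodCyclicMulEquiv h).symm.toMonoidHom) fun a b e =>
            (zmodCyclicMulEquiv h).symm.injective (DihedralGroup.r.inj e), fun s t g hp _ _ => ?_⟩
        obtain ⟨c, h1, h2⟩ := conj s t hp
        have hp' := hp.conj c
        exact (not_cyc (G := P) (s := ⟨_, h1⟩) (t := ⟨_, h2⟩) ⟨Subtype.ext hp'.sq₁,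
          fun e => hp'.ne₁ (congrArg Subtype.val e), Subtype.ext hp'.sq₂,
          fun e => hp'.ne₂ (congrArg Subtype.val e), fun e => hp'.ne (congrArg Subtype.val e),
          Subtype.ext hp'.comm⟩).elim
      · refine ⟨D2.of_sylow_equiv P e, fun s t g hp h1 h2 => ?_⟩
        obtain ⟨c, h3, h4⟩ := conj s t hp
        have hp' := hp.conj c
        have h5 := h _ ((closure_le _).2 (by rintro _ (rfl | rfl); exacts [h3, h4]))
          hp'.isKleinFour.card_four fun k hk => by
            rw [pow_two]; exact H19.mul_self_of_isKleinFour hp'.isKleinFour hk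
        have h6 : c * g * c⁻¹ ∈ closure ({c * s * c⁻¹, c * t * c⁻¹} : Set G) := by
          rw [← h5, centralizer_closure]
          rintro _ (rfl | rfl)
          · calc _ = c * (s * g) * c⁻¹ := by group
              _ = _ := by rw [← h1]; group
          · calc _ = c * (t * g) * c⁻¹ := by group
              _ = _ := by rw [← h2]; group
        rw [hp'.mem_closure, show c * s * c⁻¹ * (c * t * c⁻¹) = c * (s * t) * c⁻¹ by group] at h6
        simpa only [mul_left_inj, mul_right_inj, mul_inv_eq_one, mul_eq_left] using h6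
    exact key (hh.1.subgroup H) (hh.2.sub H) S (hc S)

end Cfsg.Agent.S4083
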