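import Mathlib
import Cfsg.Statements.S4084
import Cfsg.Agent.Lib.FGS.ClassSize
-- import your own Cfsg.Agent.* helpers here

set_option autoImplicit false
open Cfsg

namespace Cfsg.Agent.S4084

open H80 Subgroup

theorem aux {G H : Type*} [Group G] [Finite G] [Group H] [Finite H] (e : G ≃ H)
    (he : ∀ x y : G, Commute x y ↔ Commute (e x) (e y))
    {p q : ℕ} (hp : p.Prime) (hq : q.Prime) (hpq : p ≠ q) :
    (∃ g : G, orderOf g = p * q) → (∃ h : H, orderOf h = p * q) := by
  rintro ⟨g, hg⟩
  set A : Subgroup G := centralizer ((centralizer {g} : Subgroup G) : Set G) with hA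
  set B : Subgroup H := centralizer ((centralizer {e g} : Subgroup H) : Set H) with hB
  have hAB : ∀ x, x ∈ A ↔ e x ∈ B := by
    intro x
    simp only [hA, hB, mem_centralizer_iff, SetLike.mem_coe, Set.mem_singleton_iff,
      forall_eq]
    constructor
    · intro h y hy
      obtain ⟨y, rfl⟩ := e.surjective y
      exact (he y x).1 (h y ((he g y).2 hy))
    · intro h y hy
      exact (he y x).2 (h (e y) ((he g y).1 hy))
  have hcard : Nat.card A = Nat.card B := Nat.card_congr (e.subtypeEquiv hAB)
  have hgA : g ∈ A := by
    simp only [hA, mem_centralizer_iff, SetLike.mem_coe, Set.mem_singleton_iff, forall_eq]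
    intro y hy
    exact hy.symm
  have hdvd : p * q ∣ Nat.card B := by
    rw [← hcard, ← hg]
    exact orderOf_dvd_natCard A hgA
  obtain ⟨x, hx, hxp⟩ := H1.exists_mem_orderOf_eq_prime (H := B) hp ((dvd_mul_right p q).trans hdvd)
  obtain ⟨y, hy, hyq⟩ := H1.exists_mem_orderOf_eq_prime (H := B) hq ((dvd_mul_left q p).trans hdvd)
  have hxy : Commute x y := by
    have h1 : x ∈ centralizer ({e g} : Set H) := by
      rw [mem_centralizer_iff]
      rintro _ rfl
      exact hx (e g) (by simp [mem_centralizer_iff])
    exact hy x h1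
  refine ⟨x * y, ?_⟩
  rw [hxy.orderOf_mul_eq_mul_orderOf_of_coprime, hxp, hyq]
  rw [hxp, hyq]
  exact (Nat.coprime_primes hp hq).2 hpq

/-- Let G and H be finite groups whose commuting graphs are isomorphic: there is a bijection e : G → H with x, y commuting exactly when e(x), e(y) commute. Then G and H have the same prime graph: for distinct primes p, q, G has an element of order pq if and only if H does (and #G = #H, so the prime divisors agree). -/
theorem result {G H : Type*} [Group G] [Finite G] [Group H] [Finite H] (e : G ≃ H)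
    (he : ∀ x y : G, Commute x y ↔ Commute (e x) (e y))
    {p q : ℕ} (hp : p.Prime) (hq : q.Prime) (hpq : p ≠ q) :
    (∃ g : G, orderOf g = p * q) ↔ (∃ h : H, orderOf h = p * q) := by
  refine ⟨aux e he hp hq hpq, aux e.symm (fun x y => ?_) hp hq hpq⟩
  rw [he, e.apply_symm_apply, e.apply_symm_apply]

end Cfsg.Agent.S4084
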