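import Mathlib
import Cfsg.Statements.S4085
import Cfsg.Agent.Base
import Cfsg.Agent.Lib.FGS.CyclicAux
-- import your own Cfsg.Agent.* helpers here

set_option autoImplicit false
open Cfsg

namespace Cfsg.Agent.S4085

open Subgroup

/-- Adjacency (or equality) in the power graph. -/
def Adj {G : Type*} [Group G] (x y : G) : Prop := x ∈ zpowers y ∨ y ∈ zpowers x

section
variable {G : Type*} [Group G] [Finite G]

theorem Adj.symm {x y : G} (h : Adj x y) : Adj y x := Or.symm h

theorem Adj.dvd {x y : G} (h : Adj x y) : orderOf x ∣ orderOf y ∨ orderOf y ∣ orderOf x :=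
  h.imp orderOf_dvd_of_mem_zpowers orderOf_dvd_of_mem_zpowers

theorem exists_ord (a : G) {d : ℕ} (hd : d ∣ orderOf a) : ∃ x ∈ zpowers a, orderOf x = d :=
  ⟨a ^ (orderOf a / d), npow_mem_zpowers _ _, orderOf_pow_orderOf_div (orderOf_pos a).ne' hd⟩

theorem mem_of_dvd {a x y : G} (hx : x ∈ zpowers a) (hy : y ∈ zpowers a)
    (h : orderOf x ∣ orderOf y) : x ∈ zpowers y :=
  H80.mem_zpowers_of_orderOf_dvd inferInstance hx hy h

theorem zp_eq {x y : G} (h : x ∈ zpowers y) (ho : orderOf y ≤ orderOf x) :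
    zpowers x = zpowers y :=
  eq_of_le_of_card_ge (zpowers_le.2 h) (by rwa [Nat.card_zpowers, Nat.card_zpowers])

theorem ncard_ord (a : G) {d : ℕ} (hd : d ∣ orderOf a) :
    {x | x ∈ zpowers a ∧ orderOf x = d}.ncard = d.totient := by
  classical
  haveI := Fintype.ofFinite (zpowers a)
  have := IsCyclic.card_orderOf_eq_totient (α := zpowers a) (d := d)
    (by rwa [← Nat.card_eq_fintype_card, Nat.card_zpowers])
  rw [← this, ← Set.ncard_coe_finset,
    ← Set.ncard_image_of_injective _ (zpowers a).subtype_injective]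
  congr 1
  ext x
  simp only [Set.mem_setOf_eq, Finset.coe_filter, Finset.mem_univ, true_and, Set.mem_image]
  constructor
  · rintro ⟨h1, h2⟩
    exact ⟨⟨x, h1⟩, by rwa [← orderOf_coe], rfl⟩
  · rintro ⟨y, h1, rfl⟩
    exact ⟨y.2, by rwa [← orderOf_coe] at h1⟩

theorem conn {a : G} {p q : ℕ} (hp : p.Prime) (hq : q.Prime) (hpq : p ≠ q) (h1 : p ∣ orderOf a)
    (h2 : q ∣ orderOf a) (B : G → Prop)
    (hB : ∀ x ∈ zpowers a, ∀ w ∈ zpowers a, ¬ Adj x w → (B x ↔ B w)) {u : G} (hu : u ∈ zpowers a)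
    (hup : orderOf u = p) {x : G} (hx : x ∈ zpowers a) (hx1 : orderOf x ≠ 1)
    (hx2 : orderOf x ≠ orderOf a) : B x ↔ B u := by
  have s0 : ∀ x ∈ zpowers a, ∀ w ∈ zpowers a, orderOf x ≠ 1 → (orderOf w).Prime →
      ¬ orderOf w ∣ orderOf x → (B x ↔ B w) := by
    intro x hx w hw hx1 hr hd
    refine hB x hx w hw fun h => ?_
    rcases h.dvd with h | h
    · rcases (Nat.dvd_prime hr).1 h with h | h
      · exact hx1 h
      · exact hd (h ▸ dvd_rfl)
    · exact hd h
  have s1 : ∀ w ∈ zpowers a, (orderOf w).Prime → (B w ↔ B u) := by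
    intro w hw hr
    by_cases e : orderOf w = p
    · obtain ⟨v, hv, hvq⟩ := exists_ord a h2
      have hn : ¬ q ∣ p := fun h => hpq ((Nat.prime_dvd_prime_iff_eq hq hp).1 h).symm
      rw [s0 w hw v hv hr.ne_one (hvq ▸ hq) (by rwa [hvq, e]),
        s0 u hu v hv (hup ▸ hp.ne_one) (hvq ▸ hq) (by rwa [hvq, hup])]
    · exact s0 w hw u hu hr.ne_one (hup ▸ hp) (by
        rw [hup]; exact fun h => e ((Nat.prime_dvd_prime_iff_eq hp hr).1 h).symm)
  have s2 : ∀ x ∈ zpowers a, orderOf x ≠ 1 → ∀ r : ℕ, r.Prime → r ∣ orderOf a → ¬ r ∣ orderOf x →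
      (B x ↔ B u) := by
    intro x hx hx1 r hr hd hn
    obtain ⟨w, hw, hwr⟩ := exists_ord a hd
    rw [s0 x hx w hw hx1 (hwr ▸ hr) (by rwa [hwr]), s1 w hw (hwr ▸ hr)]
  by_cases e1 : p ∣ orderOf x
  swap
  · exact s2 x hx hx1 p hp h1 e1
  by_cases e2 : q ∣ orderOf x
  swap
  · exact s2 x hx hx1 q hq h2 e2
  have hn : ¬ orderOf a ∣ orderOf x := fun h =>
    hx2 (Nat.dvd_antisymm (orderOf_dvd_of_mem_zpowers hx) h)
  rw [Nat.dvd_iff_prime_pow_dvd_dvd] at hn
  push Not at hn
  obtain ⟨r, k, hr, hk1, hk2⟩ := hn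
  obtain ⟨w, hw, hwr⟩ := exists_ord a hk1
  have hw1 : orderOf w ≠ 1 := fun h => hk2 (by rw [← hwr, h]; exact one_dvd _)
  have hpq' : ¬ (p ∣ r ^ k ∧ q ∣ r ^ k) := fun ⟨a1, a2⟩ => hpq
    (((Nat.prime_dvd_prime_iff_eq hp hr).1 (hp.dvd_of_dvd_pow a1)).trans
      ((Nat.prime_dvd_prime_iff_eq hq hr).1 (hq.dvd_of_dvd_pow a2)).symm)
  rw [hB x hx w hw fun h => by
    rcases h.dvd with h | h
    · rw [hwr] at h; exact hpq' ⟨e1.trans h, e2.trans h⟩
    · rw [hwr] at h; exact hk2 h]
  by_cases e3 : p ∣ r ^ k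
  · exact s2 w hw hw1 q hq h2 (by rw [hwr]; exact fun h => hpq' ⟨e3, h⟩)
  · exact s2 w hw hw1 p hp h1 (by rwa [hwr])

theorem le_two_totient {b : G} (h : ∀ x ∈ zpowers b, ∀ y ∈ zpowers b, Adj x y) :
    orderOf b ≤ 2 * (orderOf b).totient := by
  by_cases h1 : orderOf b = 1
  · rw [h1]; simp
  obtain ⟨r, hr, hd⟩ := Nat.exists_prime_and_dvd h1
  have e := Nat.eq_prime_pow_of_unique_prime_dvd (p := r) (orderOf_pos b).ne' fun {s} hs hs' => by
    obtain ⟨x, hx, hxr⟩ := exists_ord b hd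
    obtain ⟨y, hy, hys⟩ := exists_ord b hs'
    rcases (h x hx y hy).dvd with h | h
    · rw [hxr, hys] at h; exact ((Nat.prime_dvd_prime_iff_eq hr hs).1 h).symm
    · rw [hxr, hys] at h; exact (Nat.prime_dvd_prime_iff_eq hs hr).1 h
  generalize (orderOf b).primeFactorsList.length = k at e
  rw [e]
  rcases k with _ | k
  · simp
  · rw [Nat.totient_prime_pow_succ hr, pow_succ]
    obtain ⟨t, rfl⟩ : ∃ t, r = t + 2 := ⟨r - 2, by have := hr.two_le; omega⟩
    simp only [show t + 2 - 1 = t + 1 from rfl]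
    nlinarith [Nat.zero_le ((t + 2) ^ k * t)]

end

theorem main {G H : Type*} [Group G] [Finite G] [Group H] [Finite H] (e : G ≃ H)
    (he : ∀ x y : G, Adj x y ↔ Adj (e x) (e y)) {p q : ℕ} (hp : p.Prime) (hq : q.Prime)
    (hpq : p < q) {g : G} (hg : orderOf g = p * q) : ∃ h : H, orderOf h = p * q := by
  obtain ⟨a, ha, hmax⟩ := Set.exists_max_image {x : G | p * q ∣ orderOf x} orderOf
    (Set.toFinite _) ⟨g, hg ▸ dvd_rfl⟩
  have ha : p * q ∣ orderOf a := ha
  have h1 : p ∣ orderOf a := (dvd_mul_right p q).trans ha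
  have h2 : q ∣ orderOf a := (dvd_mul_left q p).trans ha
  have hN : ∀ x, Adj a x ↔ x ∈ zpowers a := fun x => ⟨fun h => h.elim (fun h => by
    rw [zp_eq h (hmax x (ha.trans (orderOf_dvd_of_mem_zpowers h)))]; exact mem_zpowers x) id,
    Or.inr⟩
  have hgen : ∀ x ∈ zpowers a, orderOf x = orderOf a → ∀ w, Adj x w ↔ w ∈ zpowers a := by
    intro x hx ho w
    rw [← hN, Adj, Adj, zp_eq hx ho.ge]
    refine or_congr_left ⟨fun h => ?_, fun h => zpowers_le.2 h hx⟩
    exact zpowers_le.2 h (by rw [zp_eq hx ho.ge]; exact mem_zpowers a)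
  set D : Set G := {x | x ∈ zpowers a ∧ (orderOf x = 1 ∨ orderOf x = orderOf a)} with hD
  have hDadj : ∀ x ∈ D, ∀ w ∈ zpowers a, Adj x w := by
    rintro x ⟨hx, h | h⟩ w hw
    · rw [orderOf_eq_one_iff.1 h]; exact Or.inl (one_mem _)
    · exact (hgen x hx h w).2 hw
  obtain ⟨c, hc, hcmax⟩ := Set.exists_max_image D (fun x => orderOf (e x)) (Set.toFinite _)
    ⟨a, mem_zpowers a, Or.inr rfl⟩
  have hDb : ∀ x ∈ D, e x ∈ zpowers (e c) := by
    intro x hx
    rcases (he _ _).1 (hDadj x hx c hc.1) with h | h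
    · exact h
    · rw [zp_eq h (hcmax x hx)]; exact mem_zpowers _
  have ha1 : a ≠ 1 := by
    rintro rfl
    rw [orderOf_one, Nat.dvd_one] at h1
    exact hp.ne_one h1
  have hNc : ∀ w, Adj c w ↔ w ∈ zpowers a := by
    rcases hc.2 with h | h
    · intro w
      refine ⟨fun _ => ?_, hDadj c hc w⟩
      by_cases e1 : ∃ x ∈ zpowers a, orderOf x = orderOf a ∧ e x = 1
      · obtain ⟨x, hx, hx1, hx2⟩ := e1
        rw [← hgen x hx hx1, he, hx2]; exact Or.inl (one_mem _)
      · exfalso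
        have h3 : e.symm 1 ∈ zpowers a := by
          rw [← hN, he, e.apply_symm_apply]; exact Or.inr (one_mem _)
        have h4 : e.symm 1 = 1 := by
          by_contra h4
          obtain ⟨u, hu, hup⟩ := exists_ord a h1
          obtain ⟨v, hv, hvq⟩ := exists_ord a h2
          have h5 := (conn hp hq hpq.ne h1 h2 (fun w => w = e.symm 1) (fun x hx w hw hn => by
            constructor
            · rintro rfl
              exact absurd ((he _ _).2 (by rw [e.apply_symm_apply]; exact Or.inl (one_mem _))) hn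
            · rintro rfl
              exact absurd ((he _ _).2 (by rw [e.apply_symm_apply]; exact Or.inr (one_mem _))) hn)
            hu hup h3 (mt orderOf_eq_one_iff.1 h4)
            (fun h => e1 ⟨_, h3, h, e.apply_symm_apply 1⟩)).1 rfl
          have h6 : Adj u v := by
            rw [h5, he, e.apply_symm_apply]; exact Or.inl (one_mem _)
          rcases h6.dvd with h | h
          · rw [hup, hvq] at h; exact hpq.ne ((Nat.prime_dvd_prime_iff_eq hp hq).1 h)
          · rw [hup, hvq] at h; exact hpq.ne' ((Nat.prime_dvd_prime_iff_eq hq hp).1 h)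
        have h5 := hDb a ⟨mem_zpowers a, Or.inr rfl⟩
        rw [orderOf_eq_one_iff.1 h, ← h4, e.apply_symm_apply, zpowers_one_eq_bot, mem_bot] at h5
        exact ha1 (by rw [← h4, ← h5, e.symm_apply_apply])
    · exact hgen c hc.1 h
  have hsub : ∀ x, e x ∈ zpowers (e c) → x ∈ zpowers a := fun x hx =>
    (hNc x).1 ((he _ _).2 (Or.inr hx))
  have hup' : ∀ x ∈ zpowers a, e x ∉ zpowers (e c) → e c ∈ zpowers (e x) := fun x hx hn =>
    ((he _ _).1 ((hNc x).2 hx)).resolve_right hn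
  obtain ⟨u, hu, hup⟩ := exists_ord a h1
  have hconn := @conn G _ _ a p q hp hq hpq.ne h1 h2 (fun w => e w ∈ zpowers (e c))
    (fun x hx w hw hn => by
      constructor
      · intro h
        by_contra h'
        exact hn ((he _ _).2 (Or.inl (zpowers_le.2 (hup' w hw h') h)))
      · intro h
        by_contra h'
        exact hn ((he _ _).2 (Or.inr (zpowers_le.2 (hup' x hx h') h)))) u hu hup
  by_cases hB : e u ∈ zpowers (e c)
  · have hall : ∀ x ∈ zpowers a, e x ∈ zpowers (e c) := by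
      intro x hx
      by_cases hx1 : orderOf x = 1
      · exact hDb x ⟨hx, Or.inl hx1⟩
      by_cases hx2 : orderOf x = orderOf a
      · exact hDb x ⟨hx, Or.inr hx2⟩
      exact (hconn hx hx1 hx2).2 hB
    have hcard : orderOf (e c) = orderOf a := by
      rw [← Nat.card_zpowers, ← Nat.card_zpowers]
      exact (Nat.card_congr (e.subtypeEquiv fun x => ⟨hall x, hsub x⟩)).symm
    obtain ⟨h, -, hh⟩ := exists_ord (e c) (hcard ▸ ha)
    exact ⟨h, hh⟩
  exfalso
  have hD' : ∀ x, e x ∈ zpowers (e c) → x ∈ D := by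
    intro x hx
    refine ⟨hsub x hx, ?_⟩
    by_contra hn
    push Not at hn
    exact hB ((hconn (hsub x hx) hn.1 hn.2).1 hx)
  have a1 : orderOf (e c) ≤ 2 * (orderOf (e c)).totient := le_two_totient fun x hx y hy => by
    obtain ⟨x, rfl⟩ := e.surjective x
    obtain ⟨y, rfl⟩ := e.surjective y
    exact (he _ _).1 (hDadj x (hD' x hx) y (hsub y hy))
  have a2 : (orderOf (e c)).totient ≤ (orderOf (e u)).totient :=
    Nat.le_of_dvd (Nat.totient_pos.2 (orderOf_pos _))
      (Nat.totient_dvd_of_dvd (orderOf_dvd_of_mem_zpowers (hup' u hu hB)))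
  have a3 : (orderOf (e u)).totient ≤ p.totient := by
    rw [← ncard_ord (e u) dvd_rfl, ← ncard_ord a h1]
    refine Set.ncard_le_ncard_of_injOn e.symm ?_ e.symm.injective.injOn (Set.toFinite _)
    rintro y ⟨hy1, hy2⟩
    obtain ⟨z, rfl⟩ := e.surjective y
    rw [e.symm_apply_apply]
    have htw : ∀ w, Adj z w ↔ Adj u w := by
      intro w
      have e1 := zp_eq hy1 hy2.ge
      rw [he, he, Adj, Adj, e1]
      refine or_congr_left ⟨fun h => ?_, fun h => zpowers_le.2 h hy1⟩
      exact zpowers_le.2 h (by rw [e1]; exact mem_zpowers _)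
    have hz : z ∈ zpowers a := (hN z).1 ((htw a).2 (Or.inl hu)).symm
    refine ⟨hz, ?_⟩
    obtain ⟨v, hv, hvq⟩ := exists_ord a h2
    obtain ⟨t, ht, htpq⟩ := exists_ord a ha
    have b1 : ¬ Adj z v := by
      rw [htw]
      intro h6
      rcases h6.dvd with h | h
      · rw [hup, hvq] at h; exact hpq.ne ((Nat.prime_dvd_prime_iff_eq hp hq).1 h)
      · rw [hup, hvq] at h; exact hpq.ne' ((Nat.prime_dvd_prime_iff_eq hq hp).1 h)
    have b2 : ¬ q ∣ orderOf z := fun h => b1 (Or.inr (mem_of_dvd hv hz (hvq ▸ h)))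
    have b3 : ¬ orderOf z ∣ q := fun h => b1 (Or.inl (mem_of_dvd hz hv (hvq ▸ h)))
    have b4 : Adj z t := (htw t).2 (Or.inl (mem_of_dvd hu ht (by
      rw [hup, htpq]; exact dvd_mul_right p q)))
    rcases b4.dvd with h | h
    · rw [htpq] at h
      have := (((Nat.Prime.coprime_iff_not_dvd hq).2 b2).symm).dvd_of_dvd_mul_right h
      rcases (Nat.dvd_prime hp).1 this with h | h
      · exact absurd (h ▸ one_dvd q) b3
      · exact h
    · rw [htpq] at h
      exact absurd ((dvd_mul_left q p).trans h) b2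
  have a4 : (orderOf a).totient < orderOf (e c) := by
    rw [← ncard_ord a dvd_rfl, ← Nat.card_zpowers (e c), ← SetLike.coe_sort_coe,
      Nat.card_coe_set_eq]
    refine lt_of_lt_of_le (Set.ncard_lt_ncard (t := D) ⟨fun x hx => ⟨hx.1, Or.inr hx.2⟩,
      fun h => ?_⟩ (Set.toFinite _))
      (Set.ncard_le_ncard_of_injOn e hDb e.injective.injOn (Set.toFinite _))
    have := (h ⟨one_mem _, Or.inl orderOf_one⟩).2
    rw [orderOf_one, eq_comm, orderOf_eq_one_iff] at this
    exact ha1 this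
  have a5 : (p * q).totient ≤ (orderOf a).totient :=
    Nat.le_of_dvd (Nat.totient_pos.2 (orderOf_pos _)) (Nat.totient_dvd_of_dvd ha)
  rw [Nat.totient_mul ((Nat.coprime_primes hp hq).2 hpq.ne), Nat.totient_prime hq] at a5
  have a6 : 2 ≤ q - 1 := by have := hp.two_le; omega
  nlinarith


/-- Let G and H be finite groups whose power graphs are isomorphic: there is a bijection e : G → H such that, for all x, y, one of x, y is a power of the other exactly when one of e(x), e(y) is a power of the other. Then G and H have the same prime graph: for distinct primes p, q, G has an element of order pq if and only if H does. -/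
theorem result {G H : Type*} [Group G] [Finite G] [Group H] [Finite H] (e : G ≃ H)
    (he : ∀ x y : G, (x ∈ Subgroup.zpowers y ∨ y ∈ Subgroup.zpowers x) ↔
      (e x ∈ Subgroup.zpowers (e y) ∨ e y ∈ Subgroup.zpowers (e x)))
    {p q : ℕ} (hp : p.Prime) (hq : q.Prime) (hpq : p ≠ q) :
    (∃ g : G, orderOf g = p * q) ↔ (∃ h : H, orderOf h = p * q) := by
  have he' : ∀ x y : H, Adj x y ↔ Adj (e.symm x) (e.symm y) := fun x y => by
    have := he (e.symm x) (e.symm y)
    rw [e.apply_symm_apply, e.apply_symm_apply] at this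
    exact this.symm
  rcases lt_or_gt_of_ne hpq with h | h
  · exact ⟨fun ⟨g, hg⟩ => main e he hp hq h hg, fun ⟨g, hg⟩ => main e.symm he' hp hq h hg⟩
  · rw [mul_comm]
    exact ⟨fun ⟨g, hg⟩ => main e he hq hp h hg, fun ⟨g, hg⟩ => main e.symm he' hq hp h hg⟩

end Cfsg.Agent.S4085
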