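import Mathlib
import Cfsg.Statements.S4086
import Cfsg.Agent.Lib.FGS.ClassSize
import Cfsg.Agent.Lib.FGS.CyclicAux
-- import your own Cfsg.Agent.* helpers here

set_option autoImplicit false
open Cfsg

namespace Cfsg.Agent.S4086

open H80 Subgroup

/-- For a finite group G the following are equivalent: every non-identity element has prime-power order; whenever two elements generate a cyclic subgroup, one of them is a power of the other (the enhanced power graph of G coincides with its power graph). -/
theorem result {G : Type*} [Group G] [Finite G] :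
    (∀ g : G, g ≠ 1 → IsPrimePow (orderOf g)) ↔
    (∀ x y : G, IsCyclic ↥(Subgroup.closure ({x, y} : Set G)) → (x ∈ Subgroup.zpowers y ∨ y ∈ Subgroup.zpowers x)) := by
  constructor
  · intro h x y hc
    obtain ⟨z, hz⟩ := IsCyclic.exists_generator (α := Subgroup.closure ({x, y} : Set G))
    have hx : x ∈ zpowers (z : G) := by
      obtain ⟨k, hk⟩ := hz ⟨x, subset_closure (by simp)⟩
      exact ⟨k, congrArg Subtype.val hk⟩
    have hy : y ∈ zpowers (z : G) := by
      obtain ⟨k, hk⟩ := hz ⟨y, subset_closure (by simp)⟩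
      exact ⟨k, congrArg Subtype.val hk⟩
    have key : ∀ a b : G, a ∈ zpowers (z : G) → b ∈ zpowers (z : G) → orderOf a ∣ orderOf b →
        a ∈ zpowers b := by
      intro a b ha hb hab
      exact mem_zpowers_of_orderOf_dvd inferInstance ha hb hab
    by_cases hz1 : (z : G) = 1
    · rw [hz1, zpowers_one_eq_bot, mem_bot] at hx
      exact Or.inl (hx ▸ one_mem _)
    · obtain ⟨p, k, hp, -, hk⟩ := (isPrimePow_nat_iff _).1 (h z hz1)
      obtain ⟨i, -, hi⟩ := (Nat.dvd_prime_pow hp).1 (hk ▸ orderOf_dvd_of_mem_zpowers hx)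
      obtain ⟨j, -, hj⟩ := (Nat.dvd_prime_pow hp).1 (hk ▸ orderOf_dvd_of_mem_zpowers hy)
      rcases le_total i j with hij | hij
      · exact Or.inl (key x y hx hy (by rw [hi, hj]; exact pow_dvd_pow p hij))
      · exact Or.inr (key y x hy hx (by rw [hi, hj]; exact pow_dvd_pow p hij))
  · intro h g hg
    have h1 : orderOf g ≠ 1 := mt orderOf_eq_one_iff.1 hg
    rw [isPrimePow_iff_unique_prime_dvd]
    obtain ⟨p, hp, hpg⟩ := Nat.exists_prime_and_dvd h1
    refine ⟨p, ⟨hp, hpg⟩, fun q ⟨hq, hqg⟩ => ?_⟩
    obtain ⟨x, hx, hxp⟩ := H1.exists_mem_orderOf_eq_prime (H := zpowers g) hp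
      (by rwa [Nat.card_zpowers])
    obtain ⟨y, hy, hyq⟩ := H1.exists_mem_orderOf_eq_prime (H := zpowers g) hq
      (by rwa [Nat.card_zpowers])
    have hle : closure ({x, y} : Set G) ≤ zpowers g := by
      rw [closure_le]
      rintro w (rfl | rfl)
      exacts [hx, hy]
    rcases h x y (isCyclic_of_le hle) with h2 | h2
    · have := orderOf_dvd_of_mem_zpowers h2
      rw [hxp, hyq] at this
      exact ((Nat.prime_dvd_prime_iff_eq hp hq).1 this).symm
    · have := orderOf_dvd_of_mem_zpowers h2
      rw [hxp, hyq] at this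
      exact (Nat.prime_dvd_prime_iff_eq hq hp).1 this

end Cfsg.Agent.S4086
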