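import Mathlib
import Cfsg.Statements.S4089
import Cfsg.Agent.Lib.FGS.Casolo
-- import your own Cfsg.Agent.* helpers here

set_option autoImplicit false
open Cfsg

namespace Cfsg.Agent.S4089

open H80 Subgroup H68

/-- Let G be a finite group, p a prime and H a p-subgroup of G. Then the set of elements g of G such that H is subnormal in the subgroup generated by H and g is the union of the normalizers N_G(R) over the subgroups R of G containing H with R = O_p(N_G(R)); and this set does not change when H is replaced by the intersection of all Sylow p-subgroups of G containing H. -/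
theorem result {G : Type*} [Group G] [Finite G] (p : ℕ) [Fact p.Prime]
    (H : Subgroup G) (hH : IsPGroup p H) :
    {g : G | ((H).subgroupOf (H ⊔ Subgroup.zpowers g)).IsSubnormal} =
      {g : G | ∃ R : Subgroup G, H ≤ R ∧ (Cfsg.pCore p (Subgroup.normalizer (R : Set G))).map (Subgroup.normalizer (R : Set G)).subtype = R ∧ g ∈ Subgroup.normalizer (R : Set G)} ∧
    ∀ g : G, (((H).subgroupOf (H ⊔ Subgroup.zpowers g)).IsSubnormal ↔
      (((sInf {K : Subgroup G | ∃ Q : Sylow p G, H ≤ (Q : Subgroup G) ∧ K = (Q : Subgroup G)})).subgroupOf ((sInf {K : Subgroup G | ∃ Q : Sylow p G, H ≤ (Q : Subgroup G) ∧ K = (Q : Subgroup G)}) ⊔ Subgroup.zpowers g)).IsSubnormal) := by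
  refine ⟨?_, fun g => ?_⟩
  · ext g
    simp only [Set.mem_ofPred_eq]
    rw [subnormalizer_iff hH]
    constructor
    · rintro ⟨R, h⟩
      obtain ⟨m, hm⟩ := Set.Finite.exists_maximal (Set.toFinite
        {R : Subgroup G | IsPGroup p R ∧ H ≤ R ∧ g ∈ normalizer (R : Set G)}) ⟨R, h⟩
      obtain ⟨⟨h1, h2, h3⟩, h4⟩ := hm
      have h5 : m ≤ pCoreOf p (normalizer (m : Set G)) := H1.le_pCoreOf le_normalizer le_rfl h1
      exact ⟨m, h2, le_antisymm (h4 ⟨H1.isPGroup_pCoreOf _, h2.trans h5,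
        H1.le_normalizer_pCoreOf _ h3⟩ h5) h5, h3⟩
    · rintro ⟨R, h1, h2, h3⟩
      exact ⟨R, h2 ▸ H1.isPGroup_pCoreOf _, h1, h3⟩
  · obtain ⟨P, hP⟩ := hH.exists_le_sylow
    rw [subnormalizer_iff hH, subnormalizer_iff (P.2.to_le (sInf_le (by exact ⟨P, hP, rfl⟩)))]
    constructor
    · rintro ⟨R, h1, h2, h3⟩
      obtain ⟨Q, hQ⟩ := h1.exists_le_sylow
      refine ⟨sInf {K : Subgroup G | ∃ Q : Sylow p G, R ≤ (Q : Subgroup G) ∧ K = (Q : Subgroup G)},
        Q.2.to_le (sInf_le (by exact ⟨Q, hQ, rfl⟩)), sInf_le_sInf ?_, ?_⟩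
      · rintro _ ⟨S, hS, rfl⟩
        exact ⟨S, h2.trans hS, rfl⟩
      · apply mem_normalizer_of_cj_le
        refine le_sInf ?_
        rintro _ ⟨S, hS, rfl⟩
        rw [cj_le_iff]
        obtain ⟨T, hT⟩ := ((sylowIn_top S).cj_of_mem (mem_top g⁻¹)).exists_sylow_top
        refine sInf_le ⟨T, ?_, hT.symm⟩
        rw [hT, le_cj_iff, inv_inv, cj_eq_of_mem_normalizer h3]
        exact hS
    · rintro ⟨R, h1, h2, h3⟩
      refine ⟨R, h1, le_trans (le_sInf ?_) h2, h3⟩
      rintro _ ⟨S, hS, rfl⟩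
      exact hS

end Cfsg.Agent.S4089
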