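import Mathlib
import Cfsg.Statements.S4091
import Cfsg.Agent.Lib.FGS.SylowOver
import Cfsg.Agent.Lib.FGS.FixProd
import Cfsg.Agent.Lib.Block.PPart
-- import your own Cfsg.Agent.* helpers here

set_option autoImplicit false
open Cfsg

namespace Cfsg.Agent.S4091

open H80 Subgroup H68

theorem relIndex_secCent {G : Type*} [Group G] (H : Subgroup G) {M L : Subgroup G} [M.Normal]
    (hML : M ≤ L) : M.relIndex (secCent H M L) = Nat.card (L.map (QuotientGroup.mk' M) ⊓
      centralizer (H.map (QuotientGroup.mk' M) : Set (G ⧸ M)) : Subgroup (G ⧸ M)) := by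
  rw [← H1.card_map_mk'_eq_relIndex]
  congr 2
  ext y
  constructor
  · rintro ⟨u, ⟨h1, h2⟩, rfl⟩
    refine ⟨⟨u, h1, rfl⟩, ?_⟩
    rintro _ ⟨h, hh, rfl⟩
    have := (QuotientGroup.eq_one_iff _).2 (h2 h hh)
    simpa [mul_inv_eq_iff_eq_mul] using this
  · rintro ⟨⟨u, h1, rfl⟩, h2⟩
    refine ⟨u, ⟨h1, fun h hh => (QuotientGroup.eq_one_iff _).1 ?_⟩, rfl⟩
    have := h2 _ ⟨h, hh, rfl⟩
    simpa [mul_inv_eq_iff_eq_mul] using this

theorem prod_le {G : Type*} [Group G] [Finite G] (p : ℕ) [hp : Fact p.Prime]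
    (hG : Cfsg.IsPSolvable p G) (P : Sylow p G) [Fintype (P : Subgroup G)] :
    ∏ x : (P : Subgroup G), {y : G | cj y (zpowers (x : G)) ≤ P}.ncard ^ p ≤
      Nat.card G ^ Nat.card (P : Subgroup G) *
        {y : G | cj y (P : Subgroup G) ≤ P}.ncard ^ ((p - 1) * Nat.card (P : Subgroup G)) := by
  obtain ⟨n, M, h0, hn, hmono, hnormal, hfac⟩ := hG
  have h := fun (H : Subgroup G) (hH : IsPGroup p H) =>
    ncard_cj_le_chain P hH n M hn hmono hnormal hfac
  simp only [h0, sup_bot_eq] at h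
  have hb : Nat.card G = {y : G | cj y (⊥ : Subgroup G) ≤ P}.ncard := by simp
  have hx : ∀ x : (P : Subgroup G), IsPGroup p (zpowers (x : G)) :=
    fun x => P.2.to_le (zpowers_le.2 x.2)
  rw [hb, h _ IsPGroup.of_bot, h _ P.2, Finset.prod_congr rfl fun x _ => by rw [h _ (hx x)]]
  simp only [mul_pow, ← Finset.prod_pow, Finset.prod_mul_distrib]
  rw [Finset.prod_comm, mul_mul_mul_comm, ← Finset.prod_mul_distrib, Finset.prod_const,
    Finset.card_univ, ← Nat.card_eq_fintype_card, ← pow_mul, ← pow_add]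
  refine Nat.mul_le_mul (le_of_eq ?_) (Finset.prod_le_prod' fun i _ => ?_)
  · congr 1
    obtain ⟨k, hk⟩ := Nat.exists_eq_add_of_lt hp.out.pos
    generalize Nat.card (P : Subgroup G) = m
    rw [hk]; simp; ring
  split_ifs with hc
  · have hle := hmono (Fin.castSucc_le_succ i)
    simp only [relIndex_secCent _ hle]
    have := Subgroup.Normal.map (hnormal i.succ) _ (QuotientGroup.mk'_surjective (M i.castSucc))
    have h1 := navarro_rizo P.2 ((QuotientGroup.mk' (M i.castSucc)).comp (P : Subgroup G).subtype)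
      (K := (M i.succ).map (QuotientGroup.mk' (M i.castSucc)))
      (by rw [normalizer_eq_top]; exact le_top)
      (by rw [H1.card_map_mk'_eq_relIndex]; exact hp.out.coprime_iff_not_dvd.1 hc.symm)
    have h2 : centralizer ({1} : Set (G ⧸ M i.castSucc)) = ⊤ := by
      ext; simp [mem_centralizer_iff]
    simpa [MonoidHom.range_comp, H2.centralizer_zpowers, h2] using h1
  · simp

theorem card_eq_sum {G : Type*} [Group G] [Finite G] (p : ℕ) [hp : Fact p.Prime]
    (P : Sylow p G) [Fintype (P : Subgroup G)] :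
    (Nat.card {g : G // ∃ k : ℕ, orderOf g = p ^ k} : ℝ) =
      ∑ x : (P : Subgroup G), (Nat.card G : ℝ) / {y : G | cj y (zpowers (x : G)) ≤ P}.ncard := by
  classical
  have := Fintype.ofFinite G
  let τ : G → ℕ := fun s => (Finset.univ.filter fun y : G => y * s * y⁻¹ ∈ (P : Subgroup G)).card
  have h1 : ∀ s, {y : G | cj y (zpowers s) ≤ P}.ncard = τ s := by
    intro s
    simp only [τ]
    rw [← Set.ncard_coe_finset]
    congr 1
    ext y
    simp [cj]
  have h2 : ∀ s y, τ (y⁻¹ * s * y) = τ s := by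
    intro s y
    refine Finset.card_bij (fun a _ => a * y⁻¹) ?_ ?_ ?_
    · simp [mul_assoc]
    · simp
    · intro b hb
      exact ⟨b * y, by simpa [mul_assoc] using hb, by simp⟩
  have h3 : (Nat.card {g : G // ∃ k : ℕ, orderOf g = p ^ k} : ℝ) =
      ∑ s : G, ∑ y ∈ Finset.univ.filter fun y : G => y * s * y⁻¹ ∈ (P : Subgroup G),
        (τ s : ℝ)⁻¹ := by
    rw [Nat.card_eq_fintype_card, Fintype.card_subtype, Finset.card_filter]
    push_cast
    refine Finset.sum_congr rfl fun s _ => ?_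
    rw [Finset.sum_const, nsmul_eq_mul]
    split_ifs with hs
    · obtain ⟨a, ha⟩ := H35.IsPElt.exists_conj_mem (p := p) hs P
      have : 0 < τ s := Finset.card_pos.2 ⟨a, by simpa using ha⟩
      exact (mul_inv_cancel₀ (by exact_mod_cast this.ne')).symm
    · rw [Finset.filter_eq_empty_iff.2, Finset.card_empty, Nat.cast_zero, zero_mul]
      intro y _ hy
      have := (H35.isPElt_of_mem P.2 hy).conj y⁻¹
      exact hs (by simpa [mul_assoc] using this)
  rw [h3, Finset.sum_comm' (t' := Finset.univ)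
    (s' := fun y => Finset.univ.filter fun s : G => y * s * y⁻¹ ∈ (P : Subgroup G)) (by simp)]
  have h4 : ∀ y : G, ∑ s ∈ Finset.univ.filter fun s : G => y * s * y⁻¹ ∈ (P : Subgroup G),
      (τ s : ℝ)⁻¹ = ∑ x : (P : Subgroup G), (τ x : ℝ)⁻¹ := by
    intro y
    symm
    refine Finset.sum_bij (fun x _ => y⁻¹ * x * y) ?_ ?_ ?_ ?_
    · simp [mul_assoc]
    · simp
    · intro b hb
      exact ⟨⟨y * b * y⁻¹, by simpa using hb⟩, by simp, by simp [mul_assoc]⟩
    · intro x _
      rw [h2]
  simp only [h4, h1, Finset.sum_const, Finset.card_univ, nsmul_eq_mul, Finset.mul_sum,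
    div_eq_mul_inv, Nat.card_eq_fintype_card]

/-- Let G be a finite p-solvable group, P a Sylow p-subgroup of G, u the number of p-elements of G (elements of p-power order, the identity included) and n the number of Sylow p-subgroups of G. Then u/#P ≥ n^((p−1)/p), stated as u^p ≥ #P^p · n^(p−1). -/
theorem result {G : Type*} [Group G] [Finite G] (p : ℕ) [Fact p.Prime]
    (hG : Cfsg.IsPSolvable p G) (P : Sylow p G) :
    Nat.card (P : Subgroup G) ^ p * Nat.card (Sylow p G) ^ (p - 1) ≤ Nat.card {g : G // ∃ k : ℕ, orderOf g = p ^ k} ^ p := by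
  have hp : p.Prime := Fact.out
  have := Fintype.ofFinite (P : Subgroup G)
  have h1 := prod_le p hG P
  have h2 := card_eq_sum p P
  have h3 : Nat.card G = Nat.card (Sylow p G) * {y : G | cj y (P : Subgroup G) ≤ P}.ncard := by
    rw [P.card_eq_index_normalizer, ← (normalizer ((P : Subgroup G) : Set G)).index_mul_card]
    congr 1
    rw [← ncard_coe_subgroup]
    congr 1
    ext y
    exact ⟨fun h => (cj_eq_of_mem_normalizer h).le, mem_normalizer_of_cj_le⟩
  set m := Nat.card (P : Subgroup G) with hm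
  set T := {y : G | cj y (P : Subgroup G) ≤ P}.ncard
  set n := Nat.card (Sylow p G)
  set u := Nat.card {g : G // ∃ k : ℕ, orderOf g = p ^ k}
  set t : ↥(P : Subgroup G) → ℕ := fun x => {y : G | cj y (zpowers (x : G)) ≤ P}.ncard
  have hm0 : 0 < m := Nat.card_pos
  have hg0 : 0 < Nat.card G := Nat.card_pos
  have ht : ∀ x, 0 < t x := fun x =>
    (Set.ncard_pos (Set.toFinite _)).2 ⟨1, by simp [cj_one]⟩
  have hm0' : (0 : ℝ) < m := by exact_mod_cast hm0
  have h4 := Real.geom_mean_le_arith_mean_weighted Finset.univ (fun _ => (m : ℝ)⁻¹)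
    (fun x => (Nat.card G : ℝ) / t x) (fun _ _ => by positivity)
    (by rw [Finset.sum_const, Finset.card_univ, ← Nat.card_eq_fintype_card, nsmul_eq_mul,
      mul_inv_cancel₀ hm0'.ne']) (fun _ _ => by positivity)
  rw [← Finset.mul_sum, ← h2, Real.finsetProd_rpow _ _ (fun _ _ => by positivity),
    Real.rpow_inv_le_iff_of_pos (by positivity) (by positivity) hm0', Real.rpow_natCast,
    Finset.prod_div_distrib, Finset.prod_const, Finset.card_univ, ← Nat.card_eq_fintype_card,
    ← hm, div_le_iff₀ (Finset.prod_pos fun x _ => by exact_mod_cast ht x), mul_pow, inv_pow,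
    mul_assoc, le_inv_mul_iff₀ (by positivity)] at h4
  have h5 : m ^ m * Nat.card G ^ m ≤ u ^ m * ∏ x, t x := by exact_mod_cast h4
  have h6 := Nat.pow_le_pow_left h5 p
  rw [mul_pow, mul_pow, ← Finset.prod_pow] at h6
  have h7 := h6.trans (Nat.mul_le_mul_left _ h1)
  obtain ⟨k, hk⟩ := Nat.exists_eq_add_of_lt hp.pos
  have hT : 0 < T := Nat.pos_of_mul_pos_left (h3 ▸ hg0)
  rw [← Nat.pow_le_pow_iff_left hm0.ne']
  apply Nat.le_of_mul_le_mul_right _ (Nat.mul_pos (pow_pos hg0 m) (pow_pos hT ((p - 1) * m)))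
  refine le_trans (le_of_eq ?_) (h7.trans (le_of_eq ?_))
  · rw [h3]
    generalize T = a, n = b, m = c
    rw [hk]; simp; ring
  · ring

end Cfsg.Agent.S4091
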