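import Mathlib
import Cfsg.Statements.S4092
import Cfsg.Agent.Lib.FGS.ClassSize
import Cfsg.Agent.Lib.FGS.FrobCount
-- import your own Cfsg.Agent.* helpers here

set_option autoImplicit false
open Cfsg

namespace Cfsg.Agent.S4092

open H80 Subgroup

theorem ncard_fiber {G : Type*} [Group G] [Finite G] (x : G) :
    {y : G | zpowers y = zpowers x}.ncard = Nat.totient (orderOf x) := by
  classical
  have := Fintype.ofFinite (zpowers x)
  have h1 := IsCyclic.card_orderOf_eq_totient (α := zpowers x) (d := orderOf x)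
    (by rw [← Nat.card_eq_fintype_card, Nat.card_zpowers])
  rw [← h1, ← Set.ncard_coe_finset, ← Set.ncard_image_of_injective _ Subtype.val_injective]
  congr 1
  ext y
  simp only [Set.mem_setOf_eq, Finset.coe_filter, Finset.mem_univ, true_and, Set.mem_image,
    Subtype.exists, exists_and_right, exists_eq_right]
  constructor
  · intro h
    refine ⟨h ▸ mem_zpowers y, ?_⟩
    rw [← Subgroup.orderOf_coe, ← Nat.card_zpowers, ← Nat.card_zpowers, h]
  · rintro ⟨hy, h⟩
    apply Subgroup.eq_of_le_of_card_ge (by simpa using hy)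
    rw [Nat.card_zpowers, Nat.card_zpowers, ← h, ← Subgroup.orderOf_coe]

/-- Let G be a finite group, p a prime and P a Sylow p-subgroup of G that is not normal in G. Then G has at least p·#P elements of p-power order (the identity included). -/
theorem result {G : Type*} [Group G] [Finite G] (p : ℕ) [Fact p.Prime]
    (P : Sylow p G) (hP : ¬ (P : Subgroup G).Normal) :
    p * Nat.card (P : Subgroup G) ≤ Nat.card {g : G // ∃ k : ℕ, orderOf g = p ^ k} := by
  have hp : p.Prime := Fact.out
  obtain ⟨a, ha⟩ := IsPGroup.iff_card.1 P.2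
  set S : Set G := {g : G | ∃ k : ℕ, orderOf g = p ^ k} with hS
  have hSeq : S = {x : G | x ^ Nat.card (P : Subgroup G) = 1} := by
    ext x
    constructor
    · intro hx
      obtain ⟨Q, hQ⟩ := H35.IsPElt.exists_sylow (p := p) hx
      have h1 := H1.orderOf_dvd_card_of_mem hQ
      rw [Nat.card_congr (Sylow.equiv Q P).toEquiv] at h1
      exact orderOf_dvd_iff_pow_eq_one.1 h1
    · intro hx
      exact H35.isPElt_iff_pow.2 ⟨a, ha ▸ hx⟩
  obtain ⟨m, hm⟩ := H79.frobenius (G := G) (card_subgroup_dvd_card (P : Subgroup G))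
  rw [← hSeq] at hm
  have hcard : Nat.card {g : G // ∃ k : ℕ, orderOf g = p ^ k} = S.ncard := rfl
  rw [hcard, hm, mul_comm]
  apply Nat.mul_le_mul_left
  have hlt : Nat.card (P : Subgroup G) < S.ncard := by
    have hsub : ((P : Subgroup G) : Set G) ⊂ S := by
      refine ⟨fun x hx => (H35.isPGroup_iff_isPElt.1 P.2) x hx, fun h => hP ⟨fun x hx g => h ?_⟩⟩
      exact ((H35.isPGroup_iff_isPElt.1 P.2) x hx).conj g
    exact Set.ncard_lt_ncard hsub (Set.toFinite _)
  have hm2 : 2 ≤ m := by
    by_contra hc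
    have : m ≤ 1 := by omega
    have := Nat.mul_le_mul_left (Nat.card (P : Subgroup G)) this
    omega
  have hdvd : p - 1 ∣ (S \ {1}).ncard := by
    apply H79.dvd_ncard_of_fibers _ (Set.toFinite _) _ (fun y => zpowers y)
    rintro x ⟨⟨k, hk⟩, hx1⟩
    have : {y ∈ S \ {1} | zpowers y = zpowers x} = {y : G | zpowers y = zpowers x} := by
      ext y
      refine ⟨fun h => h.2, fun h => ⟨⟨?_, ?_⟩, h⟩⟩
      · exact H35.IsPElt.of_mem_zpowers (p := p) ⟨k, hk⟩ (h ▸ mem_zpowers y)
      · rintro rfl
        have h' : zpowers (1 : G) = zpowers x := h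
        rw [zpowers_one_eq_bot, eq_comm, zpowers_eq_bot] at h'
        exact hx1 h'
    rw [this, ncard_fiber, hk]
    rcases k with _ | k
    · exact absurd (orderOf_eq_one_iff.1 (by simpa using hk)) hx1
    · rw [Nat.totient_prime_pow_succ hp]
      exact dvd_mul_left _ _
  rw [Set.ncard_diff_singleton_of_mem (show (1 : G) ∈ S from ⟨0, by simp⟩), hm, ha] at hdvd
  have h2 : p - 1 ∣ p ^ a - 1 := by simpa using Nat.sub_dvd_pow_sub_pow p 1 a
  have h3 : p - 1 ∣ m - 1 := by
    have e : p ^ a * m - 1 = (p ^ a - 1) * m + (m - 1) := by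
      have : 1 ≤ p ^ a := Nat.one_le_pow _ _ hp.pos
      zify [this, (show 1 ≤ m by omega), (show 1 ≤ p ^ a * m from Nat.mul_pos this (by omega))]
      ring
    rw [e] at hdvd
    exact (Nat.dvd_add_right (dvd_mul_of_dvd_left h2 _)).1 hdvd
  have := Nat.le_of_dvd (by omega) h3
  omega

end Cfsg.Agent.S4092
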