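import Mathlib
import Cfsg.Statements.S4093
import Cfsg.Agent.Lib.FGS.ClassSize
import Cfsg.Agent.Lib.Core.HallSZ
-- import your own Cfsg.Agent.* helpers here

set_option autoImplicit false
open scoped BigOperators
open Cfsg

namespace Cfsg.Agent.S4093

open H80 Subgroup

/-- Let G be a finite group with a normal subgroup N complementing a Sylow p-subgroup P (a normal p-complement). Then the number of elements of G of p-power order equals the sum over x ∈ P of the index of C_N(x) in N. -/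
theorem result {G : Type*} [Group G] [Finite G] (p : ℕ) [Fact p.Prime]
    (P : Sylow p G) (N : Subgroup G) [N.Normal] (hNP : N.IsComplement' (P : Subgroup G)) :
    Nat.card {g : G // ∃ k : ℕ, orderOf g = p ^ k} =
      ∑ᶠ x : (P : Subgroup G), Nat.card N / Nat.card ↥(N ⊓ Subgroup.centralizer ({(x : G)} : Set G)) := by
  classical
  have hp : p.Prime := Fact.out
  have := Fintype.ofFinite (P : Subgroup G)
  have hpN : ¬ p ∣ Nat.card N := by
    rw [← hNP.index_eq_card]
    exact P.not_dvd_index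
  let T : ↥(P : Subgroup G) → Set G := fun x => (fun n => n * (x : G) * n⁻¹) '' (N : Set G)
  have hT : ∀ x : (P : Subgroup G), Nat.card (T x) =
      Nat.card N / Nat.card ↥(N ⊓ Subgroup.centralizer ({(x : G)} : Set G)) := by
    intro x
    have h1 : Nat.card (T x) = (Cx⟦(x : G)⟧).relIndex N := ncard_image_conj N x
    rw [h1, inf_comm, ← H1.card_inf_mul_relIndex (centralizer {(x : G)}) N,
      Nat.mul_div_cancel_left _ Nat.card_pos]
  rw [finsum_eq_sum_of_fintype, ← Finset.sum_congr rfl (fun x _ => hT x), ← Nat.card_sigma]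
  symm
  refine Nat.card_congr (Equiv.ofBijective (fun z => ⟨z.2.1, ?_⟩) ⟨?_, ?_⟩)
  · obtain ⟨x, _, n, hn, rfl⟩ := z
    exact (H35.isPElt_of_mem P.2 x.2).conj n
  · rintro ⟨x, _, n, hn, rfl⟩ ⟨y, _, m, hm, rfl⟩ h
    have h1 : n * (x : G) * n⁻¹ = m * (y : G) * m⁻¹ := congrArg Subtype.val h
    have hxy : x = y := by
      have h2 : (x : G) * (y : G)⁻¹ ∈ N := by
        have : (x : G) * (y : G)⁻¹ = (n⁻¹ * m) * ((y : G) * (m⁻¹ * n) * (y : G)⁻¹) := by
          have : (x : G) = n⁻¹ * (m * (y : G) * m⁻¹) * n := by rw [← h1]; group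
          rw [this]; group
        rw [this]
        exact N.mul_mem (N.mul_mem (N.inv_mem hn) hm)
          (Subgroup.Normal.conj_mem inferInstance _ (N.mul_mem (N.inv_mem hm) hn) _)
      have h3 : (x : G) * (y : G)⁻¹ ∈ N ⊓ (P : Subgroup G) :=
        ⟨h2, (P : Subgroup G).mul_mem x.2 ((P : Subgroup G).inv_mem y.2)⟩
      rw [hNP.disjoint.eq_bot, mem_bot, mul_inv_eq_one] at h3
      exact Subtype.ext h3
    subst hxy
    congr 1
    exact Subtype.ext h1
  · rintro ⟨g, hg⟩
    obtain ⟨e, he, h⟩ := H3.exists_conj_le_of_isPGroup (p := p) (N := N) (K := P) (P := zpowers g)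
      (by rw [normalizer_eq_top]; exact le_top) (H35.isPElt_iff_zpowers.1 hg)
      (by rw [hNP.sup_eq_top]; exact le_top) hpN
    have h1 : e * g * e⁻¹ ∈ (P : Subgroup G) := h (H3.conj_mem_conj_smul e (mem_zpowers g))
    refine ⟨⟨⟨_, h1⟩, ⟨g, e⁻¹, N.inv_mem he, by simp [mul_assoc]⟩⟩, rfl⟩

end Cfsg.Agent.S4093
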