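import Cfsg.Statements.S4100
import Cfsg.Agent.Lib.SPC.Red
import Cfsg.Agent.Lib.SPC.P7
import Cfsg.Agent.Lib.SPC.Mod
import Cfsg.Agent.Lib.SPC.M2
import Cfsg.Agent.Lib.SPC.M5

set_option autoImplicit false
open Cfsg

namespace Cfsg.Agent.S4100

/-- Let G be a finite group and p a prime other than 3 such that the centralizer of every non-central element of p-power order is solvable. Then every alternating group of degree at least 5 involved in G (as a section) has degree at most p + 4, or at most p + 6 = 8 when p = 2. -/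
theorem result {G : Type*} [Group G] [Finite G] (p : ℕ) [Fact p.Prime] (hp3 : p ≠ 3)
    (h : ∀ x : G, x ∉ Subgroup.center G → (∃ k : ℕ, orderOf x = p ^ k) → Group.IsSolvable (Subgroup.centralizer ({x} : Set G)))
    (d : ℕ) (hd : 5 ≤ d) (hinv : Cfsg.Involves (alternatingGroup (Fin d)) G) :
    d ≤ p + 4 + (if p = 2 then 2 else 0) := by
  by_contra hlt
  have hP : H87.Spc.P p G := h
  have hpp : p.Prime := Fact.out
  by_cases h2 : p = 2
  · subst h2
    obtain ⟨K, π, hπ⟩ := H87.Spc.inv (n := 4 + 5) (by simp at hlt; omega) hinv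
    refine H87.Spc.red 2 ?_ K π hπ (hP.sub K)
    intro K _ _ π hπ hN hZ hK
    by_cases hk : π.ker = ⊥
    · exact H87.Spc.base 2 4 (Or.inl ⟨rfl, rfl⟩) π hπ hk hK
    · obtain ⟨V, _, _, ρ, hρ, v, hv⟩ := H87.Spc.mod 2 π hπ hN hk hZ hK
      exact hv (H87.Spc.m2 hρ v)
  · rw [if_neg h2] at hlt
    obtain ⟨K, π, hπ⟩ := H87.Spc.inv (n := p + 5) (by omega) hinv
    refine H87.Spc.red p ?_ K π hπ (hP.sub K)
    intro K _ _ π hπ hN hZ hK
    by_cases h5 : p = 5
    · subst h5
      by_cases hk : π.ker = ⊥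
      · exact H87.Spc.base 5 5 (Or.inr ⟨by decide, rfl⟩) π hπ hk hK
      · obtain ⟨V, _, _, ρ, hρ, v, hv⟩ := H87.Spc.mod 5 π hπ hN hk hZ hK
        exact hv (H87.Spc.m5 hρ v)
    · have h7 : 7 ≤ p := by
        have := hpp.two_le
        by_contra hc
        have h4 : p = 4 ∨ p = 6 := by omega
        rcases h4 with rfl | rfl <;> exact absurd hpp (by decide)
      exact H87.Spc.p7 p h7 π hπ hN hK

end Cfsg.Agent.S4100
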