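import Cfsg.Statements.S4106
import Mathlib
import Cfsg.Agent.Lib.FGS.KPi

set_option autoImplicit false
open Cfsg

namespace Cfsg.Agent.S4106

/-- Let G be a finite group, π a set of primes and m the π-part of the order of G. Then the number of conjugacy classes of G consisting of π-elements (elements whose order is divisible only by primes in π) is at most m. -/
theorem result {G : Type*} [Group G] [Finite G]
    (π : Set ℕ) (hπ : ∀ q ∈ π, q.Prime)
    (m : ℕ) (hm : m ∣ Nat.card G) (hmπ : ∀ q : ℕ, q.Prime → q ∣ m → q ∈ π)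
    (hm' : ∀ q ∈ π, ¬ q ∣ Nat.card G / m) :
    Nat.card {C : ConjClasses G // ∀ q : ℕ, q.Prime → (∃ g : G, ConjClasses.mk g = C ∧ q ∣ orderOf g) → q ∈ π} ≤ m := by
  classical
  set σ : Finset ℕ := (Nat.card G).primeFactors.filter (· ∈ π) with hσ
  have hσp : ∀ r ∈ σ, r.Prime := fun r hr => hπ r (Finset.mem_filter.mp hr).2
  have h1 := H77.kPi_le_piPart σ hσp G
  have h2 : Nat.card {C : ConjClasses G // ∀ q : ℕ, q.Prime →
      (∃ g : G, ConjClasses.mk g = C ∧ q ∣ orderOf g) → q ∈ π} =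
      H77.kQ G (H77.IsPiElt (σ : Set ℕ)) := by
    refine Nat.card_congr (Equiv.subtypeEquivRight fun C => ⟨fun h x hx r hr hd => ?_,
      fun h q hq ⟨g, hg, hd⟩ => ?_⟩)
    · rw [hσ, Finset.mem_coe, Finset.mem_filter, Nat.mem_primeFactors]
      exact ⟨⟨hr, hd.trans (orderOf_dvd_natCard x), Nat.card_pos.ne'⟩,
        h r hr ⟨x, ConjClasses.mem_carrier_iff_mk_eq.mp hx, hd⟩⟩
    · exact (Finset.mem_filter.mp (h g (ConjClasses.mem_carrier_iff_mk_eq.mpr hg) q hq hd)).2
  rw [h2]
  refine h1.trans (Nat.le_of_dvd (Nat.pos_of_dvd_of_pos hm Nat.card_pos) ?_)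
  refine Finset.prod_dvd_of_isRelPrime ?_ ?_
  · intro a ha b hb hab
    exact Nat.coprime_iff_isRelPrime.mp (Nat.coprime_pow_primes _ _ (hσp a ha) (hσp b hb) hab)
  · intro r hr
    have h3 : r ^ (Nat.card G).factorization r ∣ m * (Nat.card G / m) := by
      rw [Nat.mul_div_cancel' hm]; exact Nat.ordProj_dvd _ _
    exact (((Nat.Prime.coprime_iff_not_dvd (hσp r hr)).mpr
      (hm' r (Finset.mem_filter.mp hr).2)).pow_left _).dvd_of_dvd_mul_right h3

end Cfsg.Agent.S4106
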