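import Mathlib
import Cfsg.Statements.S4107
import Cfsg.Agent.Lib.FGS.EqOrder
import Cfsg.Agent.Lib.Core.Fitting
-- import your own Cfsg.Agent.* helpers here

set_option autoImplicit false
open Cfsg

namespace Cfsg.Agent.S4107

open H80 Subgroup

/-- Let G be a finite group and N a proper non-trivial normal subgroup such that for every x outside N all elements of the coset xN have the same order as x. Then N ≤ F(G) or F(G) ≤ N, where F(G) is the Fitting subgroup; and if N is properly contained in F(G) then F(G) has prime-power order. -/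
theorem result {G : Type*} [Group G] [Finite G] (N : Subgroup G) [N.Normal] (hN1 : N ≠ ⊥) (hN2 : N ≠ ⊤)
    (heq : ∀ x : G, x ∉ N → ∀ n ∈ N, orderOf (x * n) = orderOf x) :
    (N ≤ Cfsg.fittingSubgroup G ∨ Cfsg.fittingSubgroup G ≤ N) ∧
    (N < Cfsg.fittingSubgroup G → IsPrimePow (Nat.card (Cfsg.fittingSubgroup G))) := by
  have key : ¬ fittingSubgroup G ≤ N → ∃ p : ℕ, p.Prime ∧ N ≤ pCore p G := by
    intro h
    rw [H1.fitting_eq_iSup_pCore, iSup_le_iff] at h
    push Not at h
    obtain ⟨p, hp⟩ := h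
    obtain ⟨x, hx, hxN⟩ := SetLike.not_le_iff_exists.1 hp
    have := Fact.mk p.2
    exact ⟨p, p.2, eqo_le_pCore heq hx hxN⟩
  refine ⟨?_, fun h => ?_⟩
  · by_cases h : fittingSubgroup G ≤ N
    · exact Or.inr h
    · obtain ⟨p, hp, h1⟩ := key h
      have := Fact.mk hp
      exact Or.inl (h1.trans (H1.pCore_le_fitting p))
  · obtain ⟨p, hp, h1⟩ := key h.not_ge
    have := Fact.mk hp
    have h2 : fittingSubgroup G ≤ pCore p G := by
      rw [H1.fitting_eq_iSup_pCore, iSup_le_iff]
      intro q
      have := Fact.mk q.2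
      by_cases hq : p = q
      · rw [hq]
      · by_cases h3 : pCore (q : ℕ) G ≤ N
        · exact h3.trans h1
        · obtain ⟨x, hx, hxN⟩ := SetLike.not_le_iff_exists.1 h3
          exact absurd (eq_bot_iff.2 (H1.pCore_inf_pCore_eq_bot (G := G) hq ▸
            le_inf h1 (eqo_le_pCore heq hx hxN))) hN1
    exact isPrimePow_card_of_isPGroup (H1.isPGroup_pCore.to_le h2) (ne_bot_of_gt h)

end Cfsg.Agent.S4107
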