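import Mathlib
import Cfsg.Statements.S4108
import Cfsg.Agent.Lib.FGS.Camina
import Cfsg.Agent.Lib.Deg.Frob
import Cfsg.Agent.Lib.Core.Coprime
-- import your own Cfsg.Agent.* helpers here

set_option autoImplicit false
open Cfsg

namespace Cfsg.Agent.S4108

open H80 Subgroup

/-- Let G be a finite group, p a prime and N a proper non-trivial normal p-subgroup such that for every x outside N all elements of the coset xN have the same order as x. Then every non-trivial subgroup H of G of order prime to p acts fixed-point-freely on N: NH is a Frobenius group with complement H and kernel N. -/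
theorem result {G : Type*} [Group G] [Finite G] (N : Subgroup G) [N.Normal] (hN1 : N ≠ ⊥) (hN2 : N ≠ ⊤)
    (heq : ∀ x : G, x ∉ N → ∀ n ∈ N, orderOf (x * n) = orderOf x)
    (p : ℕ) [Fact p.Prime] (hNp : IsPGroup p N) :
    ∀ H : Subgroup G, H ≠ ⊥ → (Nat.card H).Coprime p →
      Cfsg.IsFrobeniusComplement (H.subgroupOf (N ⊔ H)) ∧ Cfsg.frobeniusKernel (H.subgroupOf (N ⊔ H)) = (N.subgroupOf (N ⊔ H) : Set ↥(N ⊔ H)) := by
  intro H hH hcop
  have hcop' : (Nat.card N).Coprime (Nat.card H) := H1.coprime_card_of_isPGroup_of_coprime hNp hcop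
  have hinf : N ⊓ H = ⊥ := disjoint_iff.1 (disjoint_of_coprime_natCard hcop')
  apply H87.frobenius_of_fpf
  · exact H2.isComplement'_subgroupOf_sup (by rw [normalizer_eq_top]; exact le_top)
      (by rw [inf_comm, hinf])
  · intro h
    rw [subgroupOf_eq_bot] at h
    exact hN1 (h.eq_bot_of_le le_sup_left)
  · intro h
    rw [subgroupOf_eq_bot] at h
    exact hH (h.eq_bot_of_le le_sup_right)
  · intro h hh h1 k hk hc
    have hh' : (h : G) ∈ H := hh
    have hk' : (k : G) ∈ N := hk
    have h1' : (h : G) ∉ N := fun hn => h1 (Subtype.ext (mem_bot.1 (hinf ▸ mem_inf.2 ⟨hn, hh⟩)))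
    apply Subtype.ext
    refine eq_one_of_orderOf_mul_eq (u := (h : G)) (isOfFinOrder_of_finite _)
      (congrArg Subtype.val hc) ?_ (heq _ h1' _ hk)
    exact ((hcop'.symm.coprime_dvd_left (H1.orderOf_dvd_card_of_mem hh')).coprime_dvd_right
      (H1.orderOf_dvd_card_of_mem hk'))

end Cfsg.Agent.S4108
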