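import Mathlib
import Cfsg.Statements.S4112
import Cfsg.Agent.Lib.FGS.Camina
-- import your own Cfsg.Agent.* helpers here

set_option autoImplicit false
open Cfsg

namespace Cfsg.Agent.S4112

open H80 Subgroup

/-- Let G be a finite group and M ≤ N non-trivial proper normal subgroups such that for every g outside N the conjugacy class of g is a union of cosets of M (equivalently gm is conjugate to g for every m ∈ M). Then (1) and (2) below are equivalent, and they imply (3): (1) every g outside N acts fixed-point-freely on M, that is C_G(x) ≤ N for every x ∈ M, x ≠ 1; (2) the index of N in G is coprime to the order of M; (3) there is a subgroup H of G with HN = G and H ∩ M = 1. -/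
theorem result {G : Type*} [Group G] [Finite G] (N M : Subgroup G) [N.Normal] [M.Normal] (hMN : M ≤ N) (hM1 : M ≠ ⊥) (hN2 : N ≠ ⊤)
    (hcam : ∀ g : G, g ∉ N → ∀ m ∈ M, ∃ x : G, x * g * x⁻¹ = g * m) :
    ((∀ x ∈ M, x ≠ 1 → Subgroup.centralizer ({x} : Set G) ≤ N) ↔ N.index.Coprime (Nat.card M)) ∧
    ((∀ x ∈ M, x ≠ 1 → Subgroup.centralizer ({x} : Set G) ≤ N) → ∃ H : Subgroup G, H ⊔ N = ⊤ ∧ H ⊓ M = ⊥) := by
  have h12 : (∀ x ∈ M, x ≠ 1 → Subgroup.centralizer ({x} : Set G) ≤ N) →
      N.index.Coprime (Nat.card M) := by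
    intro h
    refine Nat.coprime_of_dvd fun r hr hrN hrM => ?_
    have := Fact.mk hr
    obtain ⟨P⟩ : Nonempty (Sylow r G) := inferInstance
    have hne : (P : Subgroup G) ⊓ M ≠ ⊥ := by
      intro hb
      obtain ⟨x, hx, hxr⟩ := H1.exists_mem_orderOf_eq_prime hr hrM
      obtain ⟨a, ha⟩ := H35.IsPElt.exists_conj_mem (p := r) (x := x) ⟨1, by rw [hxr, pow_one]⟩ P
      have : a * x * a⁻¹ ∈ (P : Subgroup G) ⊓ M := ⟨ha, Normal.conj_mem inferInstance x hx a⟩
      rw [hb, mem_bot] at this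
      have h1 : x = 1 := by simpa [mul_inv_eq_iff_eq_mul] using this
      rw [h1, orderOf_one] at hxr
      exact hr.one_lt.ne hxr
    obtain ⟨z, hz, hzc, hzo⟩ := H5.exists_mem_centralizer_orderOf_eq P.isPGroup'
      (inf_le_left : (P : Subgroup G) ⊓ M ≤ P)
      (H2.le_normalizer_inf le_normalizer le_normalizer_of_normal) hne
    have hz1 : z ≠ 1 := by
      rintro rfl
      rw [orderOf_one] at hzo
      exact hr.one_lt.ne hzo
    exact not_dvd_index_of_sylow_le P ((le_Cx_iff.2 hzc).trans (h z hz.2 hz1)) hrN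
  refine ⟨⟨h12, fun h x hx hx1 g hg => ?_⟩, fun h => ?_⟩
  · by_contra hgN
    obtain ⟨r, u, hr, hrN, -, ⟨k, hk⟩, hug, huN⟩ := exists_isPElt_zpowers_not_mem hgN
    have hc : Commute u x := mem_Cx_iff_commute'.1 (zpowers_le.2 hg hug)
    obtain ⟨y, hy⟩ := hcam u huN x hx
    refine hx1 (eq_one_of_orderOf_mul_eq (isOfFinOrder_of_finite u) hc ?_ ?_)
    · rw [hk]
      exact ((h.coprime_dvd_left hrN).coprime_dvd_right (H1.orderOf_dvd_card_of_mem hx)).pow_left k
    · rw [← hy, H35.orderOf_conj]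
  · obtain ⟨H, hH, hp⟩ := exists_supplement N
    refine ⟨H, hH, H2.inf_eq_bot_of_coprime_card (Nat.coprime_of_dvd fun r hr h1 h2 => ?_)⟩
    exact hr.one_lt.ne' (Nat.eq_one_of_dvd_coprimes (h12 h) (hp r hr h1) h2)

end Cfsg.Agent.S4112
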