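import Mathlib
import Cfsg.Statements.S4116
import Cfsg.Agent.Lib.FGS.ClassSize
import Cfsg.Agent.Lib.Char.FrobeniusKernel
import Cfsg.Agent.Lib.Core.Hall
import Cfsg.Agent.Lib.LocEven.Basic
-- import your own Cfsg.Agent.* helpers here

set_option autoImplicit false
open Cfsg

namespace Cfsg.Agent.S4116

open Subgroup H68 H80

theorem two_ti {K : Type*} [Group K] [Finite K] {T U : Subgroup K}
    (hT : ∀ g : K, g ∉ T → ∀ t ∈ T, g * t * g⁻¹ ∈ T → t = 1)
    (hU : ∀ g : K, g ∉ U → ∀ t ∈ U, g * t * g⁻¹ ∈ U → t = 1)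
    (h : ∀ t ∈ T, ∀ g : K, g⁻¹ * t * g ∈ U → t = 1) {t u : K} (ht : t ∈ T) (hu : u ∈ U)
    (ht1 : t ≠ 1) : u = 1 := by
  obtain ⟨F, hF, hF1, hF2⟩ := H8.exists_frobenius_kernel hT
  obtain ⟨E, hE, hE1, hE2⟩ := H8.exists_frobenius_kernel hU
  have h1 : T ≤ E := fun x hx => (hE1 x).2 (or_iff_not_imp_left.2 fun h1 g hg => h1 (h x hx g hg))
  have h2 : U ≤ F := fun x hx => (hF1 x).2 (or_iff_not_imp_left.2 fun h1 g hg => h1 (by
    have := h _ hg g⁻¹ (by simpa [mul_assoc] using hx)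
    calc x = g * (g⁻¹ * x * g) * g⁻¹ := by group
      _ = 1 := by rw [this]; simp))
  have h3 : t * u ∉ F := fun h3 => ht1 (mem_bot.1 (hF2.disjoint.eq_bot ▸
    mem_inf.2 ⟨(F.mul_mem_cancel_right (h2 hu)).1 h3, ht⟩))
  rw [hF1] at h3
  push Not at h3
  obtain ⟨-, g, hg⟩ := h3
  have h4 : t * u ∈ E := by simpa [mul_assoc] using hE.conj_mem _ (h1 hg) g
  exact mem_bot.1 (hE2.disjoint.eq_bot ▸ mem_inf.2 ⟨(E.mul_mem_cancel_left (h1 ht)).1 h4, hu⟩)

/-- Let G be a finite group with a subgroup H whose order is coprime to its index (a Hall subgroup) and which meets each of its conjugates by elements outside N_G(H) trivially. Then every subgroup of G whose order is divisible only by primes dividing the order of H lies in a conjugate of H. -/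
theorem result {G : Type*} [Group G] [Finite G] (H : Subgroup G)
    (hHall : (Nat.card H).Coprime H.index) (hTI : Cfsg.IsTISubset (H : Set G))
    (K : Subgroup G) (hK : ∀ q : ℕ, q.Prime → q ∣ Nat.card K → q ∣ Nat.card H) :
    ∃ g : G, K ≤ H.map (MulAut.conj g).toMonoidHom := by
  have hN : ∀ x ∈ K, ∀ g : G, g⁻¹ * x * g ∈ normalizer (H : Set G) → g⁻¹ * x * g ∈ H := by
    intro x hx g hg
    refine H3.le_of_isPiHallOf_of_normalizes (H3.isPiHallOf_top_iff.2 (H3.isPiHall_of_coprime hHall))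
      le_top (zpowers_le.2 hg) (H1.isPiSubgroup_iff.2 fun q hq hd => hK q hq ?_) (mem_zpowers _)
    rw [Nat.card_zpowers] at hd
    refine hd.trans (dvd_trans (dvd_of_eq ?_) (H1.orderOf_dvd_card_of_mem hx))
    simpa using (MulAut.conj g⁻¹).orderOf_eq x
  have hTI' : ∀ g : G, ∀ x ∈ H, x ≠ 1 → g * x * g⁻¹ ∈ H → g ∈ normalizer (H : Set G) := by
    intro g x hx h1 h2
    by_contra h
    exact h1 (hTI g h x hx h2)
  have h1 : ∀ x ∈ K, x ≠ 1 → ∃ g, x ∈ cj g H := by
    intro x hx hx1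
    obtain ⟨q, hq, hd⟩ := Nat.exists_prime_and_dvd (mt orderOf_eq_one_iff.1 hx1)
    have := Fact.mk hq
    obtain ⟨Q, hQ⟩ := exists_sylow_le_of_not_dvd_index (p := q) (H := H) (fun h =>
      hq.one_lt.ne' (Nat.eq_one_of_dvd_coprimes hHall
        (hK q hq (hd.trans (H1.orderOf_dvd_card_of_mem hx))) h))
    obtain ⟨a, ha⟩ := (H35.isPElt_pPart q x).exists_conj_mem Q
    refine ⟨a⁻¹, mem_cj.2 (hN x hx _ (hTI' _ _ (hQ ha) ?_ ?_))⟩
    · simpa using (H35.pPart_ne_one_iff q).2 hd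
    · have := (H35.commute_pPart q x).eq
      convert hQ ha using 1
      calc _ = a * (x * H35.pPart q x) * x⁻¹ * a⁻¹ := by group
        _ = _ := by rw [← this]; group
  have h2 : ∀ g : G, ∀ k : K, k ∉ (cj g H).subgroupOf K → ∀ t ∈ (cj g H).subgroupOf K,
      k * t * k⁻¹ ∈ (cj g H).subgroupOf K → t = 1 := by
    intro g k hk t ht h
    by_contra ht1
    refine hk (mem_cj.2 (hN k k.2 g (hTI' _ _ (mem_cj.1 ht) ?_ ?_)))
    · rw [Ne, mul_assoc, inv_mul_eq_one, eq_comm, mul_eq_right]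
      exact fun h => ht1 (Subtype.ext h)
    · convert mem_cj.1 h using 1
      simp [mul_assoc]
  by_cases hK1 : K = ⊥
  · exact ⟨1, hK1 ▸ bot_le⟩
  obtain ⟨x, hx1⟩ := ne_bot_iff_exists_ne_one.1 hK1
  obtain ⟨g, hg⟩ := h1 x x.2 (fun h => hx1 (Subtype.ext h))
  refine ⟨g, ?_⟩
  have : (cj g H).subgroupOf K = ⊤ := by
    apply eq_top_of_forall_exists_conj_mem
    intro y
    by_cases hy : y = 1
    · exact ⟨1, by simp [hy]⟩
    obtain ⟨a, ha⟩ := h1 y y.2 (fun h => hy (Subtype.ext h))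
    by_contra hc
    push Not at hc
    refine hy (two_ti (h2 g) (h2 a) (fun t ht k hk => ?_) hg ha hx1)
    by_contra ht1
    apply hc k
    have h3 : a⁻¹ * k⁻¹ * g ∈ normalizer (H : Set G) := by
      refine hTI' _ _ (mem_cj.1 ht) ?_ ?_
      · rw [Ne, mul_assoc, inv_mul_eq_one, eq_comm, mul_eq_right]
        exact fun h => ht1 (Subtype.ext h)
      · convert mem_cj.1 hk using 1
        simp [mul_assoc]
    have := conj_mem_of_mem_normalizer' h3 (mem_cj.1 ha)
    refine mem_cj.2 ?_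
    convert this using 1
    simp [mul_assoc]
  exact subgroupOf_eq_top.1 this

end Cfsg.Agent.S4116
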