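import Mathlib
import Cfsg.Statements.S4117
import Cfsg.Agent.Lib.FGS.ZAct
-- import your own Cfsg.Agent.* helpers here

set_option autoImplicit false
open Cfsg

namespace Cfsg.Agent.S4117

open Subgroup H80 H2

/-- Let A be a finite group acting on the finite group G by automorphisms with the orders of A and G coprime, and suppose every Sylow subgroup of G is cyclic. Then the fixed-point subgroup C_G(A) is a Hall subgroup of G (its order is coprime to its index), the subgroup [G, A] generated by the elements g⁻¹·a(g) is cyclic and normal with [G, A] ∩ C_G(A) = 1 and [G, A]·C_G(A) = G. -/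
theorem result {G A : Type*} [Group G] [Finite G] [Group A] [Finite A]
    [MulDistribMulAction A G] (hcop : (Nat.card A).Coprime (Nat.card G))
    (hcyc : ∀ (p : ℕ) [Fact p.Prime] (P : Sylow p G), IsCyclic (P : Subgroup G)) :
    (Nat.card (MulAction.fixedPoints A G : Set G)).Coprime (Nat.card G / Nat.card (MulAction.fixedPoints A G : Set G)) ∧
    IsCyclic (Subgroup.closure {y : G | ∃ (a : A) (g : G), y = g⁻¹ * a • g}) ∧
    (Subgroup.closure {y : G | ∃ (a : A) (g : G), y = g⁻¹ * a • g}).Normal ∧
    (Subgroup.closure {y : G | ∃ (a : A) (g : G), y = g⁻¹ * a • g} : Set G) ∩ MulAction.fixedPoints A G = {1} ∧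
    Subgroup.closure {y : G | ∃ (a : A) (g : G), y = g⁻¹ * a • g} ⊔ Subgroup.closure (MulAction.fixedPoints A G) = ⊤ := by
  have hZ : IsZGroup G := ⟨fun p hp P => by have := Fact.mk hp; exact hcyc p P⟩
  let φ := MulDistribMulAction.toMulAut A G
  have hR : closure {y : G | ∃ (a : A) (g : G), y = g⁻¹ * a • g} = actComm φ ⊤ ⊤ := by
    unfold actComm
    congr 1
    ext y
    simp [φ]
  have hC : MulAction.fixedPoints A G = (fixSub φ ⊤ : Set G) := by
    ext y
    simp [mem_fixSub_top, φ]
  have hK : IsZGroup (sdL φ ⊤) := IsZGroup.of_injective (f := (sdLEquiv (φ := φ) ⊤).symm.toMonoidHom) (sdLEquiv ⊤).symm.injective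
  have hAK := sdR_le_normalizer_top (φ := φ) ⊤
  have hc : (Nat.card (sdR φ ⊤)).Coprime (Nat.card (sdL φ ⊤)) := sd_coprime (coprime_subgroups hcop)
  have h1 := zact_isCyclic hK hAK
  have h2 := zact_inf_eq_bot hK hAK hc
  have h3 := zact_card hK hAK hc
  have h4 := zact_coprime hK hAK hc
  rw [← sdL_actComm] at h1 h2 h3 h4
  rw [← sdL_inf_fixSub, top_inf_eq, card_sdL, card_sdL] at h3 h4
  rw [card_sdL, card_top] at h3
  rw [hR, hC, closure_eq]
  refine ⟨?_, isCyclic_of_surjective _ (sdLEquiv (φ := φ) _).symm.surjective, ?_, ?_, ?_⟩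
  · change (Nat.card (fixSub φ ⊤)).Coprime (Nat.card G / Nat.card (fixSub φ ⊤))
    rwa [h3, Nat.mul_div_cancel _ Nat.card_pos]
  · rw [← normalizer_eq_top_iff, eq_top_iff, ← sdL_le_normalizer_iff (φ := φ), sdL_actComm]
    exact normalizer_commutator_ge_left _ _
  · rw [← sdL_inf_fixSub, Subgroup.map_eq_bot_iff_of_injective _ SemidirectProduct.inl_injective]
      at h2
    rw [← coe_inf, h2, coe_bot]
  · have := ext_actComm_sup_fixSub (φ := φ) (K := ⊤) (B := ⊤) (fun _ _ _ _ => mem_top _)
      (coprime_subgroups hcop) (Or.inr inferInstance)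
    rwa [top_inf_eq] at this

end Cfsg.Agent.S4117
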