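import Mathlib
import Cfsg.Statements.S4126
import Cfsg.Agent.Base
import Cfsg.Agent.Lib.FGS.ClassSize
import Cfsg.Agent.Lib.PGroup.Critical
import Cfsg.Agent.Lib.PGroup.Basic
-- import your own Cfsg.Agent.* helpers here

set_option autoImplicit false
open Cfsg

namespace Cfsg.Agent.S4126

open Subgroup H80
open scoped commutatorElement Pointwise

theorem omega_cent {G : Type*} [Group G] [Finite G] {p : ℕ} [hp : Fact p.Prime] {Q : Subgroup G}
    (hQ : IsPGroup p Q) {g : G} (hg : g ∈ normalizer (Q : Set G)) (hc : (orderOf g).Coprime p)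
    (h : ∀ x ∈ Q, (orderOf x = p ∨ (p = 2 ∧ orderOf x = 4)) → g * x = x * g) :
    g ∈ centralizer (Q : Set G) := by
  have hco : (orderOf (Q.normalizerMonoidHom ⟨g, hg⟩)).Coprime p :=
    Nat.Coprime.coprime_dvd_left ((orderOf_map_dvd _ _).trans (by rw [← orderOf_coe])) hc
  have key : ∀ x : Q, (orderOf (x : G) = 1 ∨ orderOf (x : G) = p ∨ (p = 2 ∧ orderOf (x : G) = 4)) →
      Q.normalizerMonoidHom ⟨g, hg⟩ x = x := by
    intro x hx
    apply Subtype.ext
    change g * x * g⁻¹ = x
    rcases hx with hx | hx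
    · rw [orderOf_eq_one_iff.1 hx]; simp
    · rw [h x x.2 hx, mul_inv_cancel_right]
  have ha : Q.normalizerMonoidHom ⟨g, hg⟩ = 1 := by
    by_cases h2 : p = 2
    · refine H5.aut_eq_one_of_omega_two hQ _ hco fun x hx => key x ?_
      have h1 : orderOf (x : G) ∣ p ^ 2 := by
        rw [orderOf_coe]; exact orderOf_dvd_of_pow_eq_one hx
      obtain ⟨k, hk, e⟩ := (Nat.dvd_prime_pow hp.out).1 h1
      interval_cases k
      · left; simpa using e
      · right; left; simpa using e
      · right; right; exact ⟨h2, by rw [e, h2]; rfl⟩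
    · refine H5.aut_eq_one_of_omega h2 hQ _ hco fun x hx => key x ?_
      have h1 : orderOf (x : G) ∣ p := by
        rw [orderOf_coe]; exact orderOf_dvd_of_pow_eq_one hx
      rcases (Nat.dvd_prime hp.out).1 h1 with e | e
      · exact Or.inl e
      · exact Or.inr (Or.inl e)
  rw [mem_centralizer_iff]
  intro x hx
  have := congrArg (fun a : MulAut Q => ((a ⟨x, hx⟩ : Q) : G)) ha
  change g * x * g⁻¹ = x at this
  rw [mul_inv_eq_iff_eq_mul] at this
  exact this.symm

theorem comm_lt {G : Type*} [Group G] [Finite G] {p : ℕ} [hp : Fact p.Prime] {K R : Subgroup G}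
    (hR : IsPGroup p R) (hKR : K ≤ R) [K.Normal] (hK : K ≠ ⊥) : ⁅K, R⁆ < K := by
  have := hR.isNilpotent
  have h1 := H5.commutator_top_lt_of_nilpotent (K.subgroupOf R)
    (fun h => hK (by rw [← map_subgroupOf_eq_of_le hKR, h, Subgroup.map_bot]))
  have h2 := map_subtype_lt_map_subtype.2 h1
  rwa [map_commutator, map_subgroupOf_eq_of_le hKR, ← MonoidHom.range_eq_map, range_subtype] at h2

theorem normal_cent {G : Type*} [Group G] [Finite G] {p : ℕ} [hp : Fact p.Prime]
    (h : ∀ x : G, (orderOf x = p ∨ (p = 2 ∧ orderOf x = 4)) → ∃ a : ℕ, cs⟦x⟧ = p ^ a)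
    {y : G} (hy : (orderOf y).Coprime p) (R : Subgroup G) :
    R.Normal → IsPGroup p R → y ∈ centralizer (R : Set G) := by
  induction R using WellFoundedLT.induction with
  | ind R ih =>
  intro hn hR
  refine omega_cent hR (le_top.trans (normalizer_eq_top R).ge (mem_top y)) hy fun x hx ho => ?_
  by_cases hb : R = ⊥
  · rw [hb, mem_bot] at hx; simp [hx]
  obtain ⟨a, ha⟩ := h x ho
  obtain ⟨P, hP⟩ := hR.exists_le_sylow
  have hlt := comm_lt P.isPGroup' hP hb
  have hD : ⁅zpowers x, (⊤ : Subgroup G)⁆ ≤ ⁅R, (P : Subgroup G)⁆ := by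
    rw [commutator_le]
    rintro _ ⟨k, rfl⟩ g -
    obtain ⟨u, hu, e⟩ := exists_sylow_conj_eq P ha g
    have e2 : g * (x ^ k)⁻¹ * g⁻¹ = u * (x ^ k)⁻¹ * u⁻¹ := by
      rw [← zpow_neg, ← conj_zpow, ← conj_zpow, e]
    have : ⁅x ^ k, g⁆ = ⁅x ^ k, u⁆ := by
      simp only [commutatorElement_def]
      rw [mul_assoc, mul_assoc, ← mul_assoc g, e2]; group
    change ⁅x ^ k, g⁆ ∈ _
    rw [this]
    exact commutator_mem_commutator (R.zpow_mem hx k) hu
  have hDn : (⁅zpowers x, (⊤ : Subgroup G)⁆).Normal := by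
    rw [← normalizer_eq_top_iff, eq_top_iff]
    exact normalizer_commutator_ge_right _ _
  have hDy := ih _ (hD.trans_lt hlt) hDn (hR.to_le (hD.trans hlt.le))
  have hd : ⁅x⁻¹, y⁆ ∈ ⁅zpowers x, (⊤ : Subgroup G)⁆ :=
    commutator_mem_commutator (inv_mem (mem_zpowers x)) (mem_top y)
  set d := ⁅x⁻¹, y⁆ with hdd
  have hdy : d * y = y * d := hDy d hd
  have e1 : y * x * y⁻¹ = x * d := by rw [hdd, commutatorElement_def]; group
  have e2 : ∀ n : ℕ, y ^ n * x * (y ^ n)⁻¹ = x * d ^ n := by
    intro n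
    induction n with
    | zero => simp
    | succ n ih =>
      have hc : y * d ^ n * y⁻¹ = d ^ n := by
        rw [mul_inv_eq_iff_eq_mul]; exact ((show Commute d y from hdy).pow_left n).symm.eq
      calc y ^ (n + 1) * x * (y ^ (n + 1))⁻¹ = y * (y ^ n * x * (y ^ n)⁻¹) * y⁻¹ := by group
        _ = (y * x * y⁻¹) * (y * d ^ n * y⁻¹) := by rw [ih]; group
        _ = x * d ^ (n + 1) := by rw [e1, hc]; group
  have e3 := e2 (orderOf y)
  rw [pow_orderOf_eq_one] at e3
  have e4 : d ^ orderOf y = 1 := by simpa using e3.symm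
  have hdp : H35.IsPElt p d := H35.isPElt_of_mem hR (hlt.le (hD hd))
  have hd1 : d = 1 := hdp.eq_one_of_not_dvd fun hh =>
    (Nat.Prime.coprime_iff_not_dvd hp.out).1 hy.symm (hh.trans (orderOf_dvd_of_pow_eq_one e4))
  rw [hd1, mul_one, mul_inv_eq_iff_eq_mul] at e1
  exact e1


/-- Let G be a finite group and p a prime. Suppose every element of order p, and when p = 2 also every element of order 4, has a conjugacy class of p-power size. Then G has a normal p-complement. -/
theorem result {G : Type*} [Group G] [Finite G] (p : ℕ) [Fact p.Prime]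
    (h : ∀ x : G, (orderOf x = p ∨ (p = 2 ∧ orderOf x = 4)) → ∃ a : ℕ, (Subgroup.centralizer ({x} : Set G)).index = p ^ a) :
    Cfsg.HasNormalPComplement p G := by
  refine H4.hasNormalPComplement_of_forall_normalizer fun X hX g hg hc => ?_
  refine omega_cent hX hg hc fun x hx ho => ?_
  obtain ⟨a, ha⟩ := h x ho
  have hx' := mem_pCore_of_cs_eq_pow (H35.isPElt_of_mem hX hx) ha
  exact (normal_cent h hc (pCore p G) inferInstance H1.isPGroup_pCore x hx').symm

end Cfsg.Agent.S4126
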