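import Mathlib
import Cfsg.Statements.S4127
import Cfsg.Agent.Base
import Cfsg.Agent.Lib.FGS.ClassSize
import Cfsg.Agent.Lib.FGS.DirFactor
import Cfsg.Agent.Lib.Core.Coprime
-- import your own Cfsg.Agent.* helpers here

set_option autoImplicit false
open Cfsg

namespace Cfsg.Agent.S4127

open Subgroup H80
open scoped commutatorElement Pointwise

/-- If no `p'`-element has class size divisible by `p`, the group is `P × K`. -/
theorem split {C : Type*} [Group C] [Finite C] {p : ℕ} [hp : Fact p.Prime]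
    (h' : ∀ y : C, ¬ p ∣ orderOf y → ¬ p ∣ cs⟦y⟧) :
    ∃ K : Subgroup C, ¬ p ∣ Nat.card K ∧ (∀ y : C, ¬ p ∣ orderOf y → y ∈ K) ∧
      (∀ x : C, H35.IsPElt p x → ∀ y ∈ K, x * y = y * x) ∧ ∃ k, K.index = p ^ k := by
  obtain ⟨P⟩ : Nonempty (Sylow p C) := inferInstance
  haveI hP := H79.sylow_normal_of_not_dvd_cs h' P
  obtain ⟨K, hKn, hK, h1, h2⟩ := H79.exists_normal_compl_of_centralizes P (by
    intro q y hq hne hy
    obtain ⟨Q, hQ⟩ := H80.not_dvd_cs_iff.1
      (h' y (H79.not_dvd_orderOf_of_isPElt_ne hp.out hq hne hy))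
    haveI := Sylow.unique_of_normal P hP
    rw [Subsingleton.elim P Q]
    exact H80.le_Cx_iff.1 hQ)
  obtain ⟨f1, f2, f3, f4⟩ := H79.direct_factor_facts P K h1 h2
  exact ⟨K, hK, f2, fun x hx y hy => f3 x (f1 x hx) y hy, f4⟩


/-- Let G be a finite group, p a prime and p^a the largest power of p dividing the size of any conjugacy class of G. If some element of p-power order has a conjugacy class of size exactly p^a, then G has a normal p-complement. -/
theorem result {G : Type*} [Group G] [Finite G] (p : ℕ) [Fact p.Prime]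
    (a : ℕ) (hmax : ∀ y : G, ¬ p ^ (a + 1) ∣ (Subgroup.centralizer ({y} : Set G)).index)
    (hx : ∃ x : G, (∃ k : ℕ, orderOf x = p ^ k) ∧ (Subgroup.centralizer ({x} : Set G)).index = p ^ a) :
    Cfsg.HasNormalPComplement p G := by
  have hp : p.Prime := Fact.out
  obtain ⟨x, hxp, hxa⟩ := hx
  have hxO := mem_pCore_of_cs_eq_pow hxp hxa
  obtain ⟨K₀, hK, f2, f3, k, f4⟩ := split (C := Cx⟦x⟧) (p := p) (by
    intro y hy hd
    rw [cs_subtype] at hd
    have hy' : ¬ p ∣ orderOf (y : G) := by rwa [orderOf_coe]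
    have hc : Commute x y := mem_Cx_iff_commute.1 y.2
    apply hmax (x * y)
    rw [cs_mul_of_coprime hc (H35.coprime_orderOf hxp hy'), hxa, pow_succ']
    exact Nat.mul_dvd_mul_right hd _)
  set K := K₀.map (Cx⟦x⟧).subtype with hKd
  have hKc : Nat.card K = Nat.card K₀ := card_map_of_injective (Cx⟦x⟧).subtype_injective
  have hKC : K ≤ Cx⟦x⟧ := map_subtype_le _
  have g2 : ∀ y ∈ Cx⟦x⟧, ¬ p ∣ orderOf y → y ∈ K := fun y hy ho =>
    ⟨⟨y, hy⟩, f2 _ (by rwa [← orderOf_coe]), rfl⟩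
  have g3 : ∀ u ∈ Cx⟦x⟧, H35.IsPElt p u → u ∈ centralizer (K : Set G) := by
    rintro u hu hup _ ⟨y, hy, rfl⟩
    have := f3 ⟨u, hu⟩ ((H35.isPElt_coe _).1 hup) y hy
    exact (congrArg Subtype.val this).symm
  have hKO : K ≤ centralizer (pCore p G : Set G) := by
    refine H2.thompson_PxQ (P := zpowers x) (H35.isPElt_iff_zpowers.1 hxp)
      (by rw [hKc]; exact ((Nat.Prime.coprime_iff_not_dvd hp).2 hK).symm) H1.isPGroup_pCore
      (by rw [zpowers_le]; exact g3 x (self_mem_Cx x) hxp)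
      (le_top.trans (normalizer_eq_top _).ge) (le_top.trans (normalizer_eq_top _).ge) ?_
    rw [centralizer_zpowers]
    exact fun u hu => g3 u hu.2 (H35.isPElt_of_mem H1.isPGroup_pCore hu.1)
  have hDC : centralizer (pCore p G : Set G) ≤ Cx⟦x⟧ := fun u hu => mem_Cx'.2 (hu x hxO)
  haveI hKn : K.Normal := ⟨fun y hy g => by
    refine g2 _ (hDC (Normal.conj_mem inferInstance y (hKO hy) g)) ?_
    rw [H35.orderOf_conj]
    exact H35.not_dvd_orderOf_of_mem (by rwa [hKc]) hy⟩
  refine H4.hasNormalPComplement_of_index (N := K) (by rwa [hKc]) (k := k + a) ?_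
  rw [hKd, index_map_subtype, f4, hxa, pow_add]

end Cfsg.Agent.S4127
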