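import Mathlib
import Cfsg.Statements.S4138
import Cfsg.Agent.Base
import Cfsg.Agent.Lib.FGS.MaxClass
-- import your own Cfsg.Agent.* helpers here

set_option autoImplicit false
open Cfsg

namespace Cfsg.Agent.S4138

open Subgroup H80 H76 H3
open scoped Pointwise

section
variable {G : Type*} [Group G] [Finite G] {x y : G}

theorem step2 (hmax : ∀ g : G, cs⟦g⟧ ≤ cs⟦y⟧) (hgap : ∀ g : G, cs⟦g⟧ = cs⟦y⟧ ∨ cs⟦g⟧ ≤ cs⟦x⟧)
    (hn : 1 < cs⟦x⟧) (hcop : (cs⟦y⟧).Coprime cs⟦x⟧) {r : ℕ} [hr : Fact r.Prime]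
    (hm : ¬ r ∣ cs⟦y⟧) {c : G} (hc : H35.IsPElt r c) (hcx : c ∈ Cx⟦x⟧) : c ∈ center G := by
  have e := Cx_pReg_of_coprime_max hmax hcop hm
  have hcm : Commute c (H35.pReg r x) := mem_Cx_iff_commute'.1 (e ▸ hcx)
  have e2 := Cx_mul_of_coprime hcm (H35.coprime_orderOf hc (H35.not_dvd_orderOf_pReg r x))
  rw [e] at e2
  have hd : cs⟦x⟧ ∣ cs⟦c * H35.pReg r x⟧ := index_dvd_of_le (e2 ▸ inf_le_right)
  have h1 : cs⟦c * H35.pReg r x⟧ = cs⟦x⟧ := by
    rcases hgap (c * H35.pReg r x) with h | h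
    · rw [h] at hd
      have := Nat.eq_one_of_dvd_coprimes hcop hd dvd_rfl
      omega
    · exact le_antisymm h (Nat.le_of_dvd (cs_pos _) hd)
  have h2 := eq_of_le_of_index_eq (e2 ▸ inf_le_right : Cx⟦c * H35.pReg r x⟧ ≤ Cx⟦x⟧) h1
  have h3 : Cx⟦x⟧ ≤ Cx⟦c⟧ := by rw [← h2, e2]; exact inf_le_left
  exact central_of_coprime_max hmax (hcop.coprime_dvd_right (index_dvd_of_le h3))
    (coprime_of_isPElt_not_dvd hr.out hm hc)

theorem step3 (hmax : ∀ g : G, cs⟦g⟧ ≤ cs⟦y⟧) (hgap : ∀ g : G, cs⟦g⟧ = cs⟦y⟧ ∨ cs⟦g⟧ ≤ cs⟦x⟧)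
    (hn : 1 < cs⟦x⟧) (hcop : (cs⟦y⟧).Coprime cs⟦x⟧) {r : ℕ} [hr : Fact r.Prime]
    (hm : ¬ r ∣ cs⟦y⟧) {c : G} (hc : H35.IsPElt r c) (hcZ : c ∉ center G) : cs⟦c⟧ = cs⟦y⟧ := by
  have e := Cx_pReg_of_coprime_max hmax hcop hm
  obtain ⟨A, hA, hAc, hAd, hAx, h⟩ := exists_abelian_of_coprime_max (z := H35.pReg r x) hmax
    (by rw [e]; exact hcop)
  haveI : (A ⊔ zpowers (H35.pReg r x)).Normal := H5.normal_sup_zpowers fun g => by
    have := A.inv_mem (h g)
    rw [commutatorElement_def]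
    convert this using 1; group
  have hco : (orderOf c).Coprime (Nat.card (A ⊔ zpowers (H35.pReg r x) : Subgroup G)) := by
    rw [sup_comm]
    refine Nat.Coprime.coprime_dvd_right (H1.card_sup_dvd_of_normal _ A) (Nat.Coprime.mul_right ?_ ?_)
    · rw [Nat.card_zpowers]; exact H35.coprime_orderOf hc (H35.not_dvd_orderOf_pReg r x)
    · exact (coprime_of_isPElt_not_dvd hr.out hm hc).symm.coprime_dvd_right hAd
  obtain ⟨x₀, -, -, h1, h2⟩ := exists_large_class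
    (H5.isMulCommutative_sup_zpowers hAc (le_Cx_iff.1 hAx))
    (mem_sup_right (mem_zpowers (H35.pReg r x))) hco
    (by rw [e]; exact fun hh => hcZ (step2 hmax hgap hn hcop hm hc hh))
  rw [e] at h1 h2
  have h3 : cs⟦c * x₀⟧ = cs⟦y⟧ := (hgap _).resolve_right (by omega)
  rw [relIndex_eq_index_of_coprime (by rw [h3]; exact hcop.symm)] at h2
  exact (hgap _).resolve_right (by omega)

theorem step4 (hmax : ∀ g : G, cs⟦g⟧ ≤ cs⟦y⟧) (hgap : ∀ g : G, cs⟦g⟧ = cs⟦y⟧ ∨ cs⟦g⟧ ≤ cs⟦x⟧)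
    (hn : 1 < cs⟦x⟧) (hcop : (cs⟦y⟧).Coprime cs⟦x⟧) (g : G) :
    cs⟦g⟧ ∣ cs⟦y⟧ ∨ cs⟦g⟧ = cs⟦x⟧ := by
  have hmx : ∀ u : G, cs⟦y⟧ ∣ cs⟦u⟧ → cs⟦u⟧ = cs⟦y⟧ := fun u hu =>
    le_antisymm (hmax u) (Nat.le_of_dvd (cs_pos u) hu)
  by_cases hc : ∃ (r : ℕ) (c : G), r.Prime ∧ ¬ r ∣ cs⟦y⟧ ∧ H35.IsPElt r c ∧ c ∈ Cx⟦g⟧ ∧
      c ∉ center G
  · left
    obtain ⟨r, c, hr, hm, hc, hcg, hcZ⟩ := hc
    haveI := Fact.mk hr
    by_cases hZ : H35.pPart r g ∈ center G
    · have e := Cx_pReg_of_central hZ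
      have hcm : Commute c (H35.pReg r g) := mem_Cx_iff_commute'.1 (e ▸ hcg)
      have e2 := Cx_mul_of_coprime hcm (H35.coprime_orderOf hc (H35.not_dvd_orderOf_pReg r g))
      rw [e] at e2
      have h1 := step3 hmax hgap hn hcop hm hc hcZ
      have h2 := hmx (c * H35.pReg r g) (h1 ▸ index_dvd_of_le (e2 ▸ inf_le_left))
      rw [← h2]
      exact index_dvd_of_le (e2 ▸ inf_le_right)
    · have h1 := step3 hmax hgap hn hcop hm (H35.isPElt_pPart r g) hZ
      exact dvd_of_eq (hmx g (h1 ▸ cs_dvd_of_mem_zpowers (H35.pPart_mem_zpowers r g)))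
  · right
    have h1 : (cs⟦x⟧).Coprime ((center G).relIndex Cx⟦g⟧) := by
      refine Nat.Coprime.symm (Nat.coprime_of_dvd fun r hr h1 h2 => hc ?_)
      haveI := Fact.mk hr
      obtain ⟨v, hv, hvZ, hvr⟩ := exists_isPElt_of_dvd_relIndex h1
      exact ⟨r, v, hr, fun h3 => hr.one_lt.ne' (Nat.eq_one_of_dvd_coprimes hcop h3 h2), hvr, hv,
        hvZ⟩
    have h2 := cs_dvd_index_center x
    rw [← relIndex_mul_index (center_le_Cx g)] at h2
    have hd := h1.dvd_of_dvd_mul_left h2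
    rcases hgap g with h | h
    · rw [h] at hd
      have := Nat.eq_one_of_dvd_coprimes hcop hd dvd_rfl
      omega
    · exact le_antisymm h (Nat.le_of_dvd (cs_pos _) hd)

end


/-- Let G be a finite group whose two largest conjugacy class sizes m > n > 1 are coprime, and let x, y ∈ G have classes of sizes n and m respectively. Then C_G(x) and C_G(y) are abelian, and G/Z(G) is a Frobenius group with kernel C_G(x)/Z(G) and complement C_G(y)/Z(G). -/
theorem result {G : Type*} [Group G] [Finite G] (m n : ℕ) (hmn : n < m) (hn : 1 < n)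
    (hcop : m.Coprime n) (htop : ∀ z : G, (Subgroup.centralizer ({z} : Set G)).index ≤ m) (hsecond : ∀ z : G, (Subgroup.centralizer ({z} : Set G)).index < m → (Subgroup.centralizer ({z} : Set G)).index ≤ n)
    (x y : G) (hx : (Subgroup.centralizer ({x} : Set G)).index = n) (hy : (Subgroup.centralizer ({y} : Set G)).index = m) :
    IsMulCommutative (Subgroup.centralizer ({x} : Set G)) ∧ IsMulCommutative (Subgroup.centralizer ({y} : Set G)) ∧
    Cfsg.IsFrobeniusComplement ((Subgroup.centralizer ({y} : Set G)).map (QuotientGroup.mk' (Subgroup.center G))) ∧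
    Cfsg.frobeniusKernel ((Subgroup.centralizer ({y} : Set G)).map (QuotientGroup.mk' (Subgroup.center G))) =
      ((Subgroup.centralizer ({x} : Set G)).map (QuotientGroup.mk' (Subgroup.center G)) : Set (G ⧸ Subgroup.center G)) := by
  subst hx hy
  have hgap : ∀ g : G, cs⟦g⟧ = cs⟦y⟧ ∨ cs⟦g⟧ ≤ cs⟦x⟧ := fun g =>
    (htop g).eq_or_lt.imp_right (hsecond g)
  obtain ⟨L, H, h⟩ := exists_abSplit (G := G) (π := {p | p ∣ cs⟦y⟧}) (fun g => by
      rcases step4 htop hgap hn hcop g with h | h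
      · exact Or.inl fun p _ hp => hp.trans h
      · exact Or.inr fun p hp hd hm =>
          hp.one_lt.ne' (Nat.eq_one_of_dvd_coprimes hcop hm (h ▸ hd)))
    ⟨y, fun h => by
      obtain ⟨p, hp, hd⟩ := Nat.exists_prime_and_dvd (show cs⟦y⟧ ≠ 1 by omega)
      exact h p hp hd hd⟩
    ⟨x, fun h => by
      obtain ⟨p, hp, hd⟩ := Nat.exists_prime_and_dvd (show cs⟦x⟧ ≠ 1 by omega)
      exact hp.one_lt.ne' (Nat.eq_one_of_dvd_coprimes hcop (h p hp hd) hd)⟩
  have hidx : ∀ a : G, ((MulAut.conj a • H) ⊔ center G).index = (H ⊔ center G).index := by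
    intro a
    rw [← H1.index_conj_smul a (H ⊔ center G), smul_sup, Normal.conj_smul_eq_self a (center G)]
  have hlt := AbSplit.index_lt h
  have hex : ∃ g : G, cs⟦g⟧ = (H ⊔ center G).index := by
    have : (H ⊔ center G).index ∈ Set.range (fun x : G => cs⟦x⟧) := by rw [h.facts.1]; simp
    exact this
  obtain ⟨g, hg⟩ := hex
  have hyZ : y ∉ center G := by rw [← one_lt_cs_iff]; omega
  have hxZ : x ∉ center G := by rw [← one_lt_cs_iff]; omega
  obtain ⟨a, ha⟩ := (AbSplit.cases h hyZ).resolve_left fun e => by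
    have := htop g
    rw [e] at this; omega
  have hb := (AbSplit.cases h hxZ).resolve_right fun ⟨b, e⟩ => by
    rw [e, ha, hidx, hidx] at hmn; omega
  have h' := AbSplit.conj h a
  rw [ha, hb, map_mk'_sup, map_mk'_sup]
  exact ⟨isMulCommutative_sup_center h.commL, isMulCommutative_sup_center h'.commH, h'.frob⟩

end Cfsg.Agent.S4138
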