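import Mathlib
import Cfsg.Statements.S4139
import Cfsg.Agent.Base
import Cfsg.Agent.Lib.FGS.ClassSize
import Cfsg.Agent.Lib.FGS.Ito
import Cfsg.Agent.Lib.Core.Fitting
import Cfsg.Agent.Lib.PGroup.Basic
-- import your own Cfsg.Agent.* helpers here

set_option autoImplicit false
open Cfsg

namespace Cfsg.Agent.S4139

open Subgroup H80
open scoped commutatorElement Pointwise

universe u

/-- Elements whose class size is a power of `p`. -/
def SP (p : ℕ) (G : Type*) [Group G] : Set G := {x | ∃ a, cs⟦x⟧ = p ^ a}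

theorem sp_mk {G : Type*} [Group G] [Finite G] {p : ℕ} [hp : Fact p.Prime] (Z : Subgroup G)
    [Z.Normal] (hZ : Z ≤ center G) (hc : Nat.card Z = p) :
    SP p G = QuotientGroup.mk ⁻¹' SP p (G ⧸ Z) := by
  ext x
  constructor
  · rintro ⟨a, ha⟩
    have := cs_mk_dvd Z x
    rw [ha] at this
    obtain ⟨b, -, hb⟩ := (Nat.dvd_prime_pow hp.out).1 this
    exact ⟨b, hb⟩
  · rintro ⟨a, ha⟩
    refine ⟨_, Nat.eq_prime_pow_of_unique_prime_dvd (cs_ne_zero x) fun {q} hq hd => ?_⟩
    by_contra hne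
    haveI := Fact.mk hq
    have h1 : ¬ q ∣ ((Cx⟦(x : G ⧸ Z)⟧).comap (QuotientGroup.mk' Z)).index := by
      rw [index_comap_of_surjective _ (QuotientGroup.mk'_surjective Z), ha]
      exact fun h => hne ((Nat.prime_dvd_prime_iff_eq hq hp.out).1 (hq.dvd_of_dvd_pow h))
    obtain ⟨Q, hQ⟩ := exists_sylow_le_of_not_dvd_index h1
    refine not_dvd_cs_iff.2 ⟨Q, fun u hu => ?_⟩ hd
    have h2 : Commute (u : G ⧸ Z) (x : G ⧸ Z) := mem_Cx_iff_commute'.1 (hQ hu)
    have h3 : ⁅u, x⁆ ∈ Z := commutator_mem_of_commute_mk.1 h2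
    have h4 : Commute u ⁅u, x⁆ := mem_center_iff.1 (hZ h3) u
    have h5 : ⁅u, x⁆ ^ orderOf u = 1 := by
      rw [← commutator_pow_left_of_central h4, pow_orderOf_eq_one]; simp
    have h6 : ⁅u, x⁆ ^ p = 1 := by
      rw [← hc]; exact congrArg Subtype.val (pow_card_eq_one' (x := (⟨_, h3⟩ : Z)))
    obtain ⟨k, hk⟩ := H35.isPElt_of_mem Q.isPGroup' hu
    have h7 : (orderOf u).Coprime p := by
      rw [hk]; exact ((Nat.coprime_primes hq hp.out).2 hne).pow_left k
    have h8 : ⁅u, x⁆ = 1 := by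
      rw [← orderOf_eq_one_iff]
      exact Nat.eq_one_of_dvd_coprimes h7 (orderOf_dvd_of_pow_eq_one h5)
        (orderOf_dvd_of_pow_eq_one h6)
    exact mem_Cx_iff_commute'.2 (commutatorElement_eq_one_iff_commute.1 h8)

theorem card_sp_mk {G : Type*} [Group G] [Finite G] {p : ℕ} [hp : Fact p.Prime] (Z : Subgroup G)
    [Z.Normal] (hZ : Z ≤ center G) (hc : Nat.card Z = p) :
    Nat.card (SP p G) = p * Nat.card (SP p (G ⧸ Z)) := by
  rw [sp_mk Z hZ hc, QuotientGroup.card_preimage_mk, hc]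

theorem dvd_center {G : Type*} [Group G] [Finite G] {p : ℕ} [hp : Fact p.Prime]
    (h : p ∣ Nat.card (SP p G)) : p ∣ Nat.card (center G) := by
  obtain ⟨P⟩ : Nonempty (Sylow p G) := inferInstance
  letI : MulAction (P : Subgroup G) (SP p G) :=
    { smul := fun u x => ⟨u * x * (u : G)⁻¹, by
        obtain ⟨a, ha⟩ := x.2
        exact ⟨a, by rw [cs_conj, ha]⟩⟩
      one_smul := fun x => Subtype.ext (by change ((1 : P) : G) * x * ((1 : P) : G)⁻¹ = x; simp)
      mul_smul := fun u v x => Subtype.ext (by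
        change ((u * v : P) : G) * x * ((u * v : P) : G)⁻¹ = u * (v * x * (v : G)⁻¹) * (u : G)⁻¹
        simp only [coe_mul]; group) }
  have h1 := P.isPGroup'.card_modEq_card_fixedPoints (SP p G)
  have h2 : Nat.card (MulAction.fixedPoints (P : Subgroup G) (SP p G)) = Nat.card (center G) := by
    refine Nat.card_congr
      { toFun := fun x => ⟨x.1.1, ?_⟩
        invFun := fun z => ⟨⟨z.1, 0, by rw [pow_zero]; exact cs_eq_one_iff.2 z.2⟩, fun u => ?_⟩
        left_inv := fun x => rfl
        right_inv := fun x => rfl }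
    · obtain ⟨a, ha⟩ := x.1.2
      have h3 : ¬ p ∣ cs⟦x.1.1⟧ := not_dvd_cs_iff.2 ⟨P, fun u hu =>
        mem_Cx_iff_conj.2 (congrArg Subtype.val (x.2 ⟨u, hu⟩))⟩
      rw [← cs_eq_one_iff, ha]
      rw [ha] at h3
      rcases a with _ | a
      · simp
      · exact absurd (dvd_pow_self p (Nat.succ_ne_zero a)) h3
    · apply Subtype.ext
      change (u : G) * z * (u : G)⁻¹ = z
      rw [mem_center_iff.1 z.2 u, mul_inv_cancel_right]
  rw [h2] at h1
  exact (Nat.modEq_zero_iff_dvd.1 (h1.symm.trans (Nat.modEq_zero_iff_dvd.2 h)))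

theorem exists_Z {G : Type*} [Group G] [Finite G] {p : ℕ} [hp : Fact p.Prime]
    (h : p ∣ Nat.card (center G)) : ∃ Z : Subgroup G, Z ≤ center G ∧ Nat.card Z = p := by
  obtain ⟨z, hz⟩ := exists_prime_orderOf_dvd_card' p h
  refine ⟨zpowers (z : G), by rw [zpowers_le]; exact z.2, ?_⟩
  rw [Nat.card_zpowers, orderOf_coe, hz]

theorem normal_of_le_center {G : Type*} [Group G] {Z : Subgroup G} (hZ : Z ≤ center G) :
    Z.Normal := ⟨fun z hz g => by
      rw [mem_center_iff.1 (hZ hz) g, mul_inv_cancel_right]; exact hz⟩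

theorem exists_normal {p : ℕ} [hp : Fact p.Prime] (k : ℕ) : ∀ (G : Type u) [Group G] [Finite G],
    p ^ k ∣ Nat.card (SP p G) → ∃ N : Subgroup G, N.Normal ∧ Nat.card N = p ^ k := by
  induction k with
  | zero => intro G _ _ _; exact ⟨⊥, inferInstance, by simp⟩
  | succ k ih =>
    intro G _ _ h
    obtain ⟨Z, hZ, hc⟩ := exists_Z (dvd_center ((dvd_pow_self p (Nat.succ_ne_zero k)).trans h))
    haveI := normal_of_le_center hZ
    rw [card_sp_mk Z hZ hc, pow_succ'] at h
    obtain ⟨N, hN, hcN⟩ := ih (G ⧸ Z) (Nat.dvd_of_mul_dvd_mul_left hp.out.pos h)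
    refine ⟨N.comap (QuotientGroup.mk' Z), inferInstance, ?_⟩
    have := QuotientGroup.card_preimage_mk Z (N : Set (G ⧸ Z))
    rw [hc] at this
    rw [pow_succ', ← hcN]
    exact this

theorem dvd_sp {p : ℕ} [hp : Fact p.Prime] (k : ℕ) : ∀ (G : Type u) [Group G] [Finite G],
    Group.IsNilpotent G → p ^ k ∣ Nat.card G → p ^ k ∣ Nat.card (SP p G) := by
  induction k with
  | zero => intro G _ _ _ _; simp
  | succ k ih =>
    intro G _ _ hG h
    obtain ⟨P⟩ : Nonempty (Sylow p G) := inferInstance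
    haveI : (P : Subgroup G).Normal := inferInstance
    have hP : (P : Subgroup G) ≠ ⊥ :=
      P.ne_bot_of_dvd_card ((dvd_pow_self p (Nat.succ_ne_zero k)).trans h)
    have h1 := H5.inf_center_ne_bot_of_nilpotent (P : Subgroup G) hP
    have h2 : p ∣ Nat.card ((P : Subgroup G) ⊓ center G : Subgroup G) := by
      obtain ⟨j, hj⟩ := IsPGroup.iff_card.1 (P.isPGroup'.to_inf_left (K := center G))
      rcases j with _ | j
      · exact absurd (card_eq_one.1 (by simpa using hj)) h1
      · rw [hj]; exact dvd_pow_self p (Nat.succ_ne_zero j)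
    obtain ⟨Z, hZ, hc⟩ := exists_Z (h2.trans (card_dvd_of_le inf_le_right))
    haveI := normal_of_le_center hZ
    rw [card_sp_mk Z hZ hc, pow_succ']
    refine Nat.mul_dvd_mul_left p (ih (G ⧸ Z) inferInstance ?_)
    rw [card_eq_card_quotient_mul_card_subgroup Z, hc, pow_succ] at h
    exact Nat.dvd_of_mul_dvd_mul_right hp.out.pos h

theorem exists_equiv {G H : Type*} [Group G] [Finite G] [Group H] [Finite H]
    (h : ∀ k : ℕ, Nat.card {C : ConjClasses G // Nat.card C.carrier = k} =
      Nat.card {C : ConjClasses H // Nat.card C.carrier = k}) :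
    ∃ e : G ≃ H, ∀ x, cs⟦e x⟧ = cs⟦x⟧ := by
  let e0 := fun k => (Finite.card_eq.1 (h k)).some
  let σ : ConjClasses G ≃ ConjClasses H := Equiv.ofFiberEquiv
    (f := fun C : ConjClasses G => Nat.card C.carrier)
    (g := fun C : ConjClasses H => Nat.card C.carrier) e0
  have hσ : ∀ C, Nat.card (σ C).carrier = Nat.card C.carrier := Equiv.ofFiberEquiv_map e0
  have key : ∀ D : ConjClasses H, Nonempty ({x : G // σ (ConjClasses.mk x) = D} ≃
      {y : H // ConjClasses.mk y = D}) := by
    intro D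
    obtain ⟨C, rfl⟩ := σ.surjective D
    rw [← Finite.card_eq]
    have e1 : Nat.card {x : G // σ (ConjClasses.mk x) = σ C} = Nat.card C.carrier :=
      Nat.card_congr (Equiv.subtypeEquivRight fun x => by
        rw [σ.apply_eq_iff_eq, ConjClasses.mem_carrier_iff_mk_eq])
    have e2 : Nat.card {y : H // ConjClasses.mk y = σ C} = Nat.card (σ C).carrier :=
      Nat.card_congr (Equiv.subtypeEquivRight fun x => by
        rw [ConjClasses.mem_carrier_iff_mk_eq])
    rw [e1, e2, hσ]
  let e1 := fun D => (key D).some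
  refine ⟨Equiv.ofFiberEquiv (f := fun x : G => σ (ConjClasses.mk x))
    (g := fun y : H => ConjClasses.mk y) e1, fun x => ?_⟩
  have := Equiv.ofFiberEquiv_map e1 x
  rw [← card_carrier_mk, ← card_carrier_mk, this, hσ]


/-- Let G and H be finite groups such that for every natural number k, G and H have the same number of conjugacy classes of size k. If H is nilpotent then G is nilpotent. -/
theorem result {G H : Type*} [Group G] [Finite G] [Group H] [Finite H]
    (hH : Group.IsNilpotent H)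
    (h : ∀ k : ℕ, Nat.card {C : ConjClasses G // Nat.card C.carrier = k} = Nat.card {C : ConjClasses H // Nat.card C.carrier = k}) :
    Group.IsNilpotent G := by
  obtain ⟨e, he⟩ := exists_equiv h
  refine H1.isNilpotent_of_exists_sylow_normal fun p hp => ?_
  have h1 : Nat.card (SP p G) = Nat.card (SP p H) :=
    Nat.card_congr (e.subtypeEquiv fun x => by simp only [SP, Set.mem_setOf_eq, he])
  have h2 := dvd_sp (p := p) ((Nat.card G).factorization p) H hH
    (by rw [← Nat.card_congr e]; exact Nat.ordProj_dvd _ _)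
  rw [← h1] at h2
  obtain ⟨N, hN, hc⟩ := exists_normal _ G h2
  exact ⟨Sylow.ofCard N hc, hN⟩

end Cfsg.Agent.S4139
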