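import Mathlib
import Cfsg.Statements.S4145
import Cfsg.Agent.Lib.FGS.CycSylow
-- import your own Cfsg.Agent.* helpers here

set_option autoImplicit false
open Cfsg

namespace Cfsg.Agent.S4145

open H80 Subgroup

/-- Let G be a finite group with a cyclic Sylow p-subgroup and H a normal subgroup such that p divides both the order of H and the index of H. Then H has a normal p-complement and G is p-solvable. -/
theorem result {G : Type*} [Group G] [Finite G] (p : ℕ) [Fact p.Prime]
    (P : Sylow p G) (hP : IsCyclic (P : Subgroup G)) (H : Subgroup G) [H.Normal] (h1 : p ∣ Nat.card H) (h2 : p ∣ H.index) :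
    Cfsg.HasNormalPComplement p H ∧ Cfsg.IsPSolvable p G := by
  have hp : p.Prime := Fact.out
  have h3 := hasNormalPComplement_of_cycSylow_of_dvd_index P hP H h2
  refine ⟨h3, (H3.isPSolvable_iff_isPiSeparable hp).2 ?_⟩
  have := H4.map_subtype_pResidual_normal (n := p) H
  set K := (pResidual p H).map H.subtype with hK
  have hpK : ¬ p ∣ Nat.card K := (H4.hasNormalPComplement_iff_card_map H).1 h3
  refine H3.IsPiSeparable.extension K (isPiSeparable_of_not_dvd hpK) ?_
  have := Subgroup.Normal.map (inferInstance : H.Normal) _ (QuotientGroup.mk'_surjective K)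
  refine isPiSeparable_of_cycSylow_of_normal (P.mapSurjective (QuotientGroup.mk'_surjective K))
    (isCyclic_of_surjective _ ((QuotientGroup.mk' K).subgroupMap_surjective P))
    (H.map (QuotientGroup.mk' K)) ?_ ?_
  · rintro ⟨_, x, hx, rfl⟩
    obtain ⟨k, hk⟩ := H4.exists_pow_mem_pResidual (⟨x, hx⟩ : H) p
    exact ⟨k, Subtype.ext ((QuotientGroup.eq_one_iff (x ^ p ^ k)).2 ⟨_, hk, rfl⟩)⟩
  · rw [Ne, Subgroup.map_eq_bot_iff, QuotientGroup.ker_mk']
    exact fun h => hpK (h1.trans (card_dvd_of_le h))

end Cfsg.Agent.S4145
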