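import Mathlib
import Cfsg.Statements.S4149

set_option autoImplicit false
open Cfsg

namespace Cfsg.Agent.S4149


theorem exists_sylow_le {G : Type*} [Group G] [Finite G] {p : ℕ} [Fact p.Prime] (H : Subgroup G)
    (hH : ¬ p ∣ H.index) : ∃ Q : Sylow p G, (Q : Subgroup G) ≤ H := by
  obtain ⟨R⟩ : Nonempty (Sylow p H) := inferInstance
  have h1 : IsPGroup p ((R : Subgroup H).map H.subtype) := R.isPGroup'.map _
  have h2 : ¬ p ∣ ((R : Subgroup H).map H.subtype).index := by
    rw [Subgroup.index_map_subtype]
    intro h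
    rcases (Nat.Prime.dvd_mul Fact.out).mp h with h | h
    · exact R.not_dvd_index h
    · exact hH h
  exact ⟨h1.toSylow h2, by rw [IsPGroup.toSylow_coe]; exact Subgroup.map_subtype_le _⟩

theorem two_mul_card_le {G : Type*} [Group G] [Finite G] {p : ℕ} [Fact p.Prime]
    (h : ¬ Cfsg.HasNormalPComplement p G) (Q : Sylow p G) :
    2 * Nat.card (Subgroup.centralizer ((Q : Subgroup G) : Set G)) ≤
      Nat.card (Subgroup.normalizer ((Q : Subgroup G) : Set G)) := by
  have hle : Subgroup.centralizer ((Q : Subgroup G) : Set G) ≤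
      Subgroup.normalizer ((Q : Subgroup G) : Set G) := Subgroup.centralizer_le_normalizer _
  have hne : ¬ Subgroup.normalizer ((Q : Subgroup G) : Set G) ≤
      Subgroup.centralizer ((Q : Subgroup G) : Set G) := by
    intro hN
    exact h ⟨Q, _, inferInstance, MonoidHom.ker_transferSylow_isComplement' Q hN⟩
  obtain ⟨k, hk⟩ := Subgroup.card_dvd_of_le hle
  have hk1 : k ≠ 1 := by
    rintro rfl
    rw [mul_one] at hk
    exact hne (Subgroup.eq_of_le_of_card_ge hle hk.le).ge
  have hk0 : k ≠ 0 := by
    rintro rfl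
    rw [mul_zero] at hk
    exact Nat.card_pos.ne' hk
  rw [hk, mul_comm]
  exact Nat.mul_le_mul_left _ (by omega)

open Classical in
theorem half {G : Type*} [Group G] [Fintype G] {p : ℕ} [Fact p.Prime]
    (h : ¬ Cfsg.HasNormalPComplement p G) :
    Fintype.card G ≤ 2 * (Finset.univ.filter fun x : G =>
      p ∣ (Subgroup.centralizer ({x} : Set G)).index).card := by
  haveI : Fintype (Sylow p G) := Fintype.ofFinite _
  have hsub : (Finset.univ.filter fun x : G => ¬ p ∣ (Subgroup.centralizer ({x} : Set G)).index) ⊆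
      (Finset.univ : Finset (Sylow p G)).biUnion fun Q =>
        Finset.univ.filter fun x : G => x ∈ Subgroup.centralizer ((Q : Subgroup G) : Set G) := by
    intro x hx
    rw [Finset.mem_filter] at hx
    obtain ⟨Q, hQ⟩ := exists_sylow_le _ hx.2
    rw [Finset.mem_biUnion]
    refine ⟨Q, Finset.mem_univ _, Finset.mem_filter.mpr ⟨Finset.mem_univ _, ?_⟩⟩
    rw [Subgroup.mem_centralizer_iff]
    intro y hy
    have := Subgroup.mem_centralizer_iff.mp (hQ hy) x rfl
    exact this.symm
  have h1 := (Finset.card_le_card hsub).trans Finset.card_biUnion_le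
  have h2 : ∀ Q : Sylow p G, Fintype.card (Sylow p G) * (2 * (Finset.univ.filter fun x : G =>
      x ∈ Subgroup.centralizer ((Q : Subgroup G) : Set G)).card) ≤ Fintype.card G := by
    intro Q
    have e1 : (Finset.univ.filter fun x : G =>
        x ∈ Subgroup.centralizer ((Q : Subgroup G) : Set G)).card =
        Nat.card (Subgroup.centralizer ((Q : Subgroup G) : Set G)) := by
      rw [Nat.card_eq_fintype_card, Fintype.card_subtype]
    rw [e1, ← Nat.card_eq_fintype_card, ← Nat.card_eq_fintype_card, Q.card_eq_index_normalizer,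
      ← (Subgroup.normalizer ((Q : Subgroup G) : Set G)).index_mul_card]
    exact Nat.mul_le_mul_left _ (two_mul_card_le h Q)
  have h3 : Fintype.card (Sylow p G) * (2 * ∑ Q : Sylow p G, (Finset.univ.filter fun x : G =>
      x ∈ Subgroup.centralizer ((Q : Subgroup G) : Set G)).card) ≤
      Fintype.card (Sylow p G) * Fintype.card G := by
    rw [Finset.mul_sum, Finset.mul_sum]
    calc _ ≤ ∑ _Q : Sylow p G, Fintype.card G := Finset.sum_le_sum fun Q _ => h2 Q
      _ = _ := by simp
  have h4 := Nat.le_of_mul_le_mul_left h3 Fintype.card_pos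
  have h5 := Finset.card_filter_add_card_filter_not (s := (Finset.univ : Finset G))
    (fun x : G => p ∣ (Subgroup.centralizer ({x} : Set G)).index)
  rw [Finset.card_univ] at h5
  omega

/-- Let G be a finite group that has a normal p-complement for at most one prime p dividing its order, and let σ be a natural number such that every conjugacy class size of G has at most σ distinct prime divisors. Then the number of primes dividing at least one conjugacy class size of G is at most 2σ. -/
theorem result {G : Type*} [Group G] [Finite G] (σ : ℕ)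
    (hσ : ∀ x : G, ((Subgroup.centralizer ({x} : Set G)).index).primeFactors.card ≤ σ)
    (hnil : ∀ p q : ℕ, p.Prime → q.Prime → p ∣ Nat.card G → q ∣ Nat.card G →
      Cfsg.HasNormalPComplement p G → Cfsg.HasNormalPComplement q G → p = q) :
    Nat.card {p : ℕ | p.Prime ∧ ∃ x : G, p ∣ (Subgroup.centralizer ({x} : Set G)).index} ≤ 2 * σ := by
  classical
  haveI : Fintype G := Fintype.ofFinite G
  set ρ : Finset ℕ := (Nat.card G).primeFactors.filter
    fun p => ∃ x : G, p ∣ (Subgroup.centralizer ({x} : Set G)).index with hρ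
  have hset : {p : ℕ | p.Prime ∧ ∃ x : G, p ∣ (Subgroup.centralizer ({x} : Set G)).index} = (ρ : Set ℕ) := by
    ext p
    simp only [hρ, Set.mem_setOf_eq, Finset.coe_filter, Nat.mem_primeFactors]
    constructor
    · rintro ⟨hp, x, hx⟩
      exact ⟨⟨hp, hx.trans (Subgroup.index_dvd_card _), Nat.card_pos.ne'⟩, x, hx⟩
    · rintro ⟨⟨hp, -, -⟩, x, hx⟩
      exact ⟨hp, x, hx⟩
  rw [hset, Nat.card_coe_set_eq, Set.ncard_coe_finset]
  set ρ' : Finset ℕ := ρ.filter fun p => ¬ Cfsg.HasNormalPComplement p G with hρ'
  have hcard : ρ.card ≤ ρ'.card + 1 := by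
    have h1 := Finset.card_filter_add_card_filter_not (s := ρ)
      (fun p => Cfsg.HasNormalPComplement p G)
    have h2 : (ρ.filter fun p => Cfsg.HasNormalPComplement p G).card ≤ 1 := by
      rw [Finset.card_le_one]
      intro a ha b hb
      simp only [hρ, Finset.mem_filter, Nat.mem_primeFactors] at ha hb
      exact hnil a b ha.1.1.1 hb.1.1.1 ha.1.1.2.1 hb.1.1.2.1 ha.2 hb.2
    have h3 : ρ'.card = (ρ.filter fun p => ¬ Cfsg.HasNormalPComplement p G).card := by
      rw [hρ']
    rw [h3]
    have h4 : (ρ.filter fun p => Cfsg.HasNormalPComplement p G).card +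
      (ρ.filter fun p => ¬ Cfsg.HasNormalPComplement p G).card = ρ.card := by
      convert h1
    omega
  rcases Nat.eq_zero_or_pos σ with h0 | hpos
  · have : ρ = ∅ := by
      rw [Finset.eq_empty_iff_forall_notMem]
      intro p hp
      simp only [hρ, Finset.mem_filter, Nat.mem_primeFactors] at hp
      obtain ⟨⟨hp, -, -⟩, x, hx⟩ := hp
      have h1 := hσ x
      rw [h0, Nat.le_zero, Finset.card_eq_zero] at h1
      have : p ∈ ((Subgroup.centralizer ({x} : Set G)).index).primeFactors :=
        Nat.mem_primeFactors.mpr ⟨hp, hx, Subgroup.index_ne_zero_of_finite⟩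
      rw [h1] at this
      simp at this
    rw [this]
    simp
  -- double counting
  have hdc : ∑ p ∈ ρ', (Finset.univ.filter fun x : G =>
      p ∣ (Subgroup.centralizer ({x} : Set G)).index).card =
      ∑ x : G, (ρ'.filter fun p => p ∣ (Subgroup.centralizer ({x} : Set G)).index).card := by
    simp only [Finset.card_filter]
    exact Finset.sum_comm
  have hlow : ρ'.card * Fintype.card G ≤ 2 * ∑ p ∈ ρ', (Finset.univ.filter fun x : G =>
      p ∣ (Subgroup.centralizer ({x} : Set G)).index).card := by
    rw [Finset.mul_sum]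
    calc ρ'.card * Fintype.card G = ∑ _p ∈ ρ', Fintype.card G := by simp
      _ ≤ _ := Finset.sum_le_sum fun p hp => by
        simp only [hρ', hρ, Finset.mem_filter, Nat.mem_primeFactors] at hp
        haveI : Fact p.Prime := ⟨hp.1.1.1⟩
        exact half hp.2
  have hup : ∀ x : G, (ρ'.filter fun p => p ∣ (Subgroup.centralizer ({x} : Set G)).index).card ≤ σ := by
    intro x
    refine le_trans (Finset.card_le_card ?_) (hσ x)
    intro p hp
    simp only [hρ', hρ, Finset.mem_filter, Nat.mem_primeFactors] at hp
    exact Nat.mem_primeFactors.mpr ⟨hp.1.1.1.1, hp.2, Subgroup.index_ne_zero_of_finite⟩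
  have hone : (ρ'.filter fun p => p ∣ (Subgroup.centralizer ({(1 : G)} : Set G)).index).card < σ := by
    have : (Subgroup.centralizer ({(1 : G)} : Set G)) = ⊤ := by
      ext y
      simp [Subgroup.mem_centralizer_iff]
    rw [this, Subgroup.index_top]
    have : (ρ'.filter fun p => p ∣ 1) = ∅ := by
      rw [Finset.eq_empty_iff_forall_notMem]
      intro p hp
      simp only [hρ', hρ, Finset.mem_filter, Nat.mem_primeFactors] at hp
      exact hp.1.1.1.1.one_lt.ne' (Nat.dvd_one.mp hp.2)
    rw [this]
    simpa using hpos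
  have hlt : ∑ x : G, (ρ'.filter fun p => p ∣ (Subgroup.centralizer ({x} : Set G)).index).card <
      ∑ _x : G, σ :=
    Finset.sum_lt_sum (fun x _ => hup x) ⟨1, Finset.mem_univ _, hone⟩
  rw [Finset.sum_const, Finset.card_univ, smul_eq_mul] at hlt
  have h6 : ρ'.card * Fintype.card G < (2 * σ) * Fintype.card G := by
    calc ρ'.card * Fintype.card G ≤ _ := hlow
      _ < 2 * (Fintype.card G * σ) := by rw [hdc]; omega
      _ = _ := by ring
  have h7 := Nat.lt_of_mul_lt_mul_right h6
  omega

end Cfsg.Agent.S4149
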