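import Mathlib
import Cfsg.Statements.S4150
import Cfsg.Agent.Lib.FGS.PrimeCyc3
import Cfsg.Agent.Lib.FGS.TwoPrimes
-- import your own Cfsg.Agent.* helpers here

set_option autoImplicit false
open Cfsg

namespace Cfsg.Agent.S4150

open Subgroup in
theorem transfer {m : ℕ} (x y : alternatingGroup (Fin m)) :
    Nonempty (Subgroup.closure ({x, y} : Set (alternatingGroup (Fin m))) ≃*
      Subgroup.closure ({x.1, y.1} : Set (Equiv.Perm (Fin m)))) := by
  refine ⟨(Subgroup.equivMapOfInjective _ (alternatingGroup (Fin m)).subtype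
    Subtype.val_injective).trans (MulEquiv.subgroupCongr ?_)⟩
  rw [MonoidHom.map_closure, Set.image_pair]
  rfl

theorem main {m p q : ℕ} (hp : p.Prime) (hq : q.Prime) (hpq : p < q) (hn : m ≤ 2 * p)
    (h5 : 5 ≤ q) (hgood : p + 3 ≤ q ∨ p = 3 ∨ (p = 5 ∧ q = 7) ∨ (p = 11 ∧ q = 13))
    (hdouble : m = 2 * p → q + 3 ≤ 2 * p) (x y : alternatingGroup (Fin m))
    (hx : orderOf x = p) (hy : orderOf y = q) :
    ∃ d : ℕ, 5 ≤ d ∧ Nonempty (Subgroup.closure ({x, y} : Set (alternatingGroup (Fin m))) ≃*
      alternatingGroup (Fin d)) := by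
  obtain ⟨d, hd, ⟨e⟩⟩ := H80.closure_equiv_alt_of_two (α := Fin m) hp hq hpq (by simpa using hn) h5
    x.2 y.2 (by rw [Subgroup.orderOf_coe, hx]) (by rw [Subgroup.orderOf_coe, hy]) hgood (fun h => by
      have := Finset.card_le_univ x.1.support
      rw [Fintype.card_fin] at this
      exact hdouble (by omega))
  obtain ⟨e'⟩ := transfer x y
  exact ⟨d, hd, ⟨e'.trans e⟩⟩

/-- Let m ≥ 5. Then there are primes p < q with m/2 ≤ p and q ≤ m such that any two elements x, y of the alternating group of degree m with x of order p and y of order q generate a subgroup isomorphic to an alternating group of some degree d ≥ 5. -/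
theorem result (m : ℕ) (hm : 5 ≤ m) :
    ∃ p q : ℕ, p.Prime ∧ q.Prime ∧ m ≤ 2 * p ∧ p < q ∧ q ≤ m ∧
      ∀ x y : alternatingGroup (Fin m), orderOf x = p → orderOf y = q →
        ∃ d : ℕ, 5 ≤ d ∧ Nonempty (Subgroup.closure ({x, y} : Set (alternatingGroup (Fin m))) ≃* alternatingGroup (Fin d)) := by
  by_cases h5 : m = 5
  · exact ⟨3, 5, by norm_num, by norm_num, by omega, by omega, by omega,
      main (by norm_num) (by norm_num) (by omega) (by omega) (by omega) (by simp) (by omega)⟩
  by_cases h6 : m = 6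
  · refine ⟨3, 5, by norm_num, by norm_num, by omega, by omega, by omega, fun x y hx hy => ?_⟩
    obtain ⟨d, hd, ⟨e⟩⟩ := H80.closure_equiv_alt_of_six (α := Fin m) (by simpa using h6)
      x.2 y.2 (by rw [Subgroup.orderOf_coe, hx]) (by rw [Subgroup.orderOf_coe, hy])
    obtain ⟨e'⟩ := transfer x y
    exact ⟨d, hd, ⟨e'.trans e⟩⟩
  by_cases h10 : m ≤ 10
  · exact ⟨5, 7, by norm_num, by norm_num, by omega, by omega, by omega,
      main (by norm_num) (by norm_num) (by omega) (by omega) (by omega) (by simp) (by omega)⟩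
  by_cases h14 : m ≤ 14
  · exact ⟨7, 11, by norm_num, by norm_num, by omega, by omega, by omega,
      main (by norm_num) (by norm_num) (by omega) (by omega) (by omega) (by simp) (by omega)⟩
  by_cases h16 : m ≤ 16
  · exact ⟨11, 13, by norm_num, by norm_num, by omega, by omega, by omega,
      main (by norm_num) (by norm_num) (by omega) (by omega) (by omega) (by simp) (by omega)⟩
  obtain ⟨p, q, hp, hq, h1, h2, h3⟩ := H80.exists_two_primes m (by omega)
  exact ⟨p, q, hp, hq, by omega, by omega, h3,
    main hp hq (by omega) (by omega) (by omega) (Or.inl h2) (by omega)⟩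

end Cfsg.Agent.S4150
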