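import Mathlib
import Cfsg.Statements.S4151
import Cfsg.Agent.Lib.FGS.TIHall
import Cfsg.Agent.Lib.FGS.ZAct
-- import your own Cfsg.Agent.* helpers here

set_option autoImplicit false
open Cfsg

namespace Cfsg.Agent.S4151

open Subgroup H68 H80

/-- Let G be a finite group and H a non-normal subgroup meeting each of its conjugates by elements outside N_G(H) trivially, with the order of H coprime to its index in N_G(H), such that G is π-separable for π the set of primes dividing the order of H (G has a chain of normal subgroups from 1 to G each of whose factors has order divisible only by primes dividing the order of H or coprime to it). Suppose a Sylow 2-subgroup of H is abelian and Q is a complement of H in N_G(H). Then C_H(Q), the subgroup of elements of H commuting with Q, has order coprime to its index in G and has a normal complement in G. -/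
theorem result {G : Type*} [Group G] [Finite G] (H : Subgroup G)
    (hTI : Cfsg.IsTISubset (H : Set G)) (hnn : ¬ H.Normal)
    (hHall : (Nat.card H).Coprime (H.subgroupOf (Subgroup.normalizer (H : Set G))).index)
    (hsep : ∃ (n : ℕ) (M : Fin (n + 1) → Subgroup G), M 0 = ⊥ ∧ M (Fin.last n) = ⊤ ∧ Monotone M ∧ (∀ i, (M i).Normal) ∧
      ∀ i : Fin n, (∀ q : ℕ, q.Prime → q ∣ (M i.castSucc).relIndex (M i.succ) → q ∣ Nat.card H) ∨
        ((M i.castSucc).relIndex (M i.succ)).Coprime (Nat.card H))
    (h2 : ∀ P : Sylow 2 H, IsMulCommutative (P : Subgroup H))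
    (Q : Subgroup G) (hQ : Q ≤ Subgroup.normalizer (H : Set G)) (hQH : Q ⊓ H = ⊥) (hQH' : Q ⊔ H = Subgroup.normalizer (H : Set G)) :
    (Nat.card ↥(H ⊓ Subgroup.centralizer (Q : Set G))).Coprime (H ⊓ Subgroup.centralizer (Q : Set G)).index ∧
    ∃ N : Subgroup G, N.Normal ∧ N.IsComplement' (H ⊓ Subgroup.centralizer (Q : Set G)) := by
  have hne : H ≠ ⊥ := by rintro rfl; exact hnn inferInstance
  obtain ⟨n, M, h0, hl, -, hn, hi⟩ := hsep
  have hsep' : H3.IsPiSeparable {p | p ∣ Nat.card H} G :=
    H3.isPiSeparable_of_chain M h0 hl hn fun i => (hi i).imp (fun h => H3.piNum_iff.2 h)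
      (fun h => H3.piNum_compl_dvd_iff.2 h)
  have hHall' : (Nat.card H).Coprime (H.relIndex (normalizer (H : Set G))) := hHall
  obtain ⟨O, hO, hOc, hON⟩ := ti_exists_normal_coprime hTI hne hHall' hsep'
  have hZ : IsZGroup H := isZGroup_of_forall_comm_isCyclic (fun A hA => by
    have := ti_isCyclic_of_comm hTI hnn hOc hON (A := A.map H.subtype) (map_subtype_le A)
      inferInstance
    exact isCyclic_of_surjective _ (A.equivMapOfInjective _ H.subtype_injective).symm.surjective) h2
  have hQc : Nat.card Q = H.relIndex (normalizer (H : Set G)) := by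
    have h1 := H3.card_sup_of_inf_eq_bot (N := H) (K := Q) hQ (by rw [inf_comm, hQH])
    have h3 := H3.relIndex_mul_card (H := H) (K := normalizer (H : Set G)) le_normalizer
    rw [sup_comm, hQH', ← h3, mul_comm] at h1
    exact (Nat.eq_of_mul_eq_mul_left Nat.card_pos h1).symm
  have hcop : (Nat.card Q).Coprime (Nat.card H) := hQc ▸ hHall'.symm
  have h3 := zact_card hZ hQ hcop
  have h4 := zact_coprime hZ hQ hcop
  have hidx := ti_coprime_index hTI hHall'
  set C := H ⊓ centralizer (Q : Set G) with hC
  set R : Subgroup G := ⁅H, Q⁆ with hR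
  have hCH : C ≤ H := inf_le_left
  have hRH : R ≤ H := H2.commutator_le_of_le_normalizer hQ
  have hrel : C.relIndex H = Nat.card R := by
    have := H3.relIndex_mul_card hCH
    rw [h3] at this
    exact Nat.eq_of_mul_eq_mul_right Nat.card_pos this
  have hRC : R ⊔ C = H := H2.commutator_sup_centralizer hQ hcop (Or.inr inferInstance)
  have htop : O ⊔ (R ⊔ Q) ⊔ C = ⊤ := by
    rw [eq_top_iff, ← hON, ← hQH', ← hRC]
    exact sup_le (le_sup_left.trans le_sup_left) (sup_le
      ((le_sup_right.trans le_sup_right).trans le_sup_left)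
      (sup_le ((le_sup_left.trans le_sup_right).trans le_sup_left) le_sup_right))
  have hnorm : (O ⊔ (R ⊔ Q)).Normal := by
    rw [← normalizer_eq_top_iff, eq_top_iff, ← htop]
    refine sup_le le_normalizer (H2.le_normalizer_sup le_normalizer_of_normal
      (H2.le_normalizer_sup (hCH.trans (normalizer_commutator_ge_left _ _))
        (inf_le_right.trans (centralizer_le_normalizer _))))
  refine ⟨?_, O ⊔ (R ⊔ Q), hnorm, ?_⟩
  · rw [← relIndex_mul_index hCH, hrel]
    exact Nat.Coprime.mul_right h4 (hidx.coprime_dvd_left (card_dvd_of_le hCH))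
  · refine isComplement'_of_disjoint_and_mul_eq_univ (disjoint_of_coprime_natCard ?_)
      (by rw [← Subgroup.normal_mul, htop, Subgroup.coe_top])
    refine Nat.Coprime.coprime_dvd_left (H3.card_sup_dvd le_normalizer_of_normal) ?_
    refine Nat.Coprime.mul_left (hOc.coprime_dvd_right (card_dvd_of_le hCH)) ?_
    refine Nat.Coprime.coprime_dvd_left
      (H3.card_sup_dvd (normalizer_commutator_ge_right _ _)) ?_
    exact Nat.Coprime.mul_left h4.symm (hcop.coprime_dvd_right (card_dvd_of_le hCH))

end Cfsg.Agent.S4151
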