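import Mathlib
import Cfsg.Statements.S4153
import Cfsg.Agent.Lib.FGS.ClassSize
import Cfsg.Agent.Lib.Core.Hall
import Cfsg.Agent.Lib.FGS.Count
-- import your own Cfsg.Agent.* helpers here

set_option autoImplicit false
open Cfsg

namespace Cfsg.Agent.S4153

open H80 Subgroup

/-- Let G be a finite group, p a prime, N a normal subgroup, P a Sylow p-subgroup of G and P̄ a Sylow p-subgroup of G/N. Count the elements of p-power order, the identity included. Then (number of such elements of G/N)/#P̄ ≤ (number of such elements of G)/#P, stated as a cross-multiplied inequality, with equality when N is central. -/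
theorem result {G : Type*} [Group G] [Finite G] (p : ℕ) [Fact p.Prime] (N : Subgroup G) [N.Normal]
    (P : Sylow p G) (Pbar : Sylow p (G ⧸ N)) :
    Nat.card {g : (G ⧸ N) // ∃ k : ℕ, orderOf g = p ^ k} * Nat.card (P : Subgroup G) ≤ Nat.card {g : G // ∃ k : ℕ, orderOf g = p ^ k} * Nat.card (Pbar : Subgroup (G ⧸ N)) ∧
    (N ≤ Subgroup.center G → Nat.card {g : (G ⧸ N) // ∃ k : ℕ, orderOf g = p ^ k} * Nat.card (P : Subgroup G) = Nat.card {g : G // ∃ k : ℕ, orderOf g = p ^ k} * Nat.card (Pbar : Subgroup (G ⧸ N))) := by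
  have hp : p.Prime := Fact.out
  have ha : ∀ Q : Sylow p G, Nat.card ↥((Q : Subgroup G) ⊓ N) = Nat.card ↥((P : Subgroup G) ⊓ N) :=
    fun Q => H3.card_eq_of_isPiHallOf (H3.isPiHallOf_inf_normal (H3.isPiHall_sylow Q) N)
      (H3.isPiHallOf_inf_normal (H3.isPiHall_sylow P) N)
  have hP : Nat.card (P : Subgroup G) =
      Nat.card ↥((P : Subgroup G) ⊓ N) * Nat.card (Pbar : Subgroup (G ⧸ N)) := by
    rw [← H1.card_map_mk'_mul N P, inf_comm, mul_comm]
    congr 1
    exact H3.card_eq_of_isPiHall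
      (H3.isPiHall_map (H3.isPiHall_sylow P) (QuotientGroup.mk'_surjective N))
      (H3.isPiHall_sylow Pbar)
  set S : Set G := {g : G | ∃ k : ℕ, orderOf g = p ^ k} with hS
  set T : Set (G ⧸ N) := {g : G ⧸ N | ∃ k : ℕ, orderOf g = p ^ k} with hT
  have e1 : Nat.card {g : G // ∃ k : ℕ, orderOf g = p ^ k} = S.ncard := rfl
  have e2 : Nat.card {g : G ⧸ N // ∃ k : ℕ, orderOf g = p ^ k} = T.ncard := rfl
  have hf : ∀ x ∈ S, (x : G ⧸ N) ∈ T := fun x hx =>
    H35.IsPElt.map (p := p) (QuotientGroup.mk' N) hx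
  have key : ∀ y ∈ T, ∃ (x : G) (Q : Sylow p G), x ∈ (Q : Subgroup G) ∧ (x : G ⧸ N) = y := by
    intro y hy
    obtain ⟨g, rfl⟩ := QuotientGroup.mk_surjective y
    obtain ⟨Q, hQ⟩ := (H35.isPElt_pPart (p := p) g).exists_sylow
    exact ⟨_, Q, hQ, by rw [← H35.pPart_mk, H35.pPart_eq_self hy]⟩
  have hsub : ∀ (x : G) (Q : Sylow p G), x ∈ (Q : Subgroup G) →
      (fun y => x * y) '' (((Q : Subgroup G) ⊓ N : Subgroup G) : Set G) ⊆
        {z ∈ S | (z : G ⧸ N) = (x : G ⧸ N)} := by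
    rintro x Q hx _ ⟨n, ⟨hnQ, hnN⟩, rfl⟩
    refine ⟨H35.isPElt_of_mem Q.2 ((Q : Subgroup G).mul_mem hx hnQ), ?_⟩
    rw [eq_comm, QuotientGroup.eq]
    simpa using hnN
  rw [e1, e2, hP, ← mul_assoc, mul_comm T.ncard]
  refine ⟨Nat.mul_le_mul_right _ (mul_ncard_le_of_fiber S T _ hf _ fun y hy => ?_), fun hZ => ?_⟩
  · obtain ⟨x, Q, hx, rfl⟩ := key y hy
    rw [← ha Q, ← ncard_coe_subgroup, ← ncard_image_mul_left x]
    exact Set.ncard_le_ncard (hsub x Q hx) (Set.toFinite _)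
  · rw [ncard_eq_mul_of_fiber S T _ hf (Nat.card ↥((P : Subgroup G) ⊓ N)) fun y hy => ?_]
    obtain ⟨x, Q, hx, rfl⟩ := key y hy
    rw [← ha Q, ← ncard_coe_subgroup, ← ncard_image_mul_left x (((Q : Subgroup G) ⊓ N : Subgroup G) : Set G)]
    congr 1
    refine Set.Subset.antisymm ?_ (hsub x Q hx)
    rintro z ⟨hz, hzx⟩
    rw [eq_comm, QuotientGroup.eq] at hzx
    refine ⟨x⁻¹ * z, ⟨?_, hzx⟩, by simp⟩
    have hc : Commute x⁻¹ z := by
      have h1 := (mem_center_iff.1 (hZ hzx)) z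
      have h2 : z * x⁻¹ = x⁻¹ * z := by
        rw [← mul_assoc] at h1
        exact mul_right_cancel h1
      exact h2.symm
    have h3 : H35.IsPElt p (x⁻¹ * z) := (H35.isPElt_of_mem Q.2 hx).inv.mul hz hc
    obtain ⟨a, ha⟩ := h3.exists_conj_mem Q
    rwa [mem_center_iff.1 (hZ hzx) a, mul_inv_cancel_right] at ha

end Cfsg.Agent.S4153
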