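import Mathlib
import Cfsg.Statements.S4154
import Cfsg.Agent.Lib.Core.HallSZ
-- import your own Cfsg.Agent.* helpers here

set_option autoImplicit false
open Cfsg

namespace Cfsg.Agent.S4154

open Subgroup

/-- Let G be a finite group and α an automorphism of G such that every element of G is the product of an element fixed by α and an element of the form g⁻¹α(g). If N is a normal α-invariant subgroup, then the automorphism ᾱ induced on G/N has the same property, and every coset fixed by ᾱ contains an element fixed by α (so the fixed points of ᾱ are the images of the fixed points of α). -/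
theorem result {G : Type*} [Group G] [Finite G] (α : MulAut G)
    (hccp : ∀ x : G, ∃ c g : G, α c = c ∧ x = c * (g⁻¹ * α g))
    (N : Subgroup G) [N.Normal] (hN : ∀ n ∈ N, α n ∈ N) :
    (∀ x : G, ∃ c g : G, c⁻¹ * α c ∈ N ∧ x⁻¹ * (c * (g⁻¹ * α g)) ∈ N) ∧
    (∀ x : G, x⁻¹ * α x ∈ N → ∃ c : G, α c = c ∧ c⁻¹ * x ∈ N) := by
  refine ⟨fun x => ?_, ?_⟩
  · obtain ⟨c, g, hc, hx⟩ := hccp x
    exact ⟨c, g, by simp [hc], by simp [← hx]⟩
  let C : Subgroup G := MonoidHom.eqLocus α.toMonoidHom (MonoidHom.id G)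
  have hC : ∀ x, x ∈ C ↔ α x = x := fun x => Iff.rfl
  let D : Subgroup G :=
    MonoidHom.eqLocus (QuotientGroup.mk' N) ((QuotientGroup.mk' N).comp α.toMonoidHom)
  have hD : ∀ x, x ∈ D ↔ x⁻¹ * α x ∈ N := fun x => QuotientGroup.eq
  have hle : C ⊔ N ≤ D := by
    refine sup_le (fun x hx => (hD x).2 ?_) (fun x hx => (hD x).2 ?_)
    · rw [(hC x).1 hx]; simp
    · exact N.mul_mem (N.inv_mem hx) (hN x hx)
  let ψ : G ⧸ D → G ⧸ (C ⊔ N) := Quotient.lift (fun h => ((α h * h⁻¹ : G) : G ⧸ (C ⊔ N))) (by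
    intro a b hab
    have h1 : a⁻¹ * b ∈ D := QuotientGroup.leftRel_apply.1 hab
    rw [QuotientGroup.eq]
    apply mem_sup_right
    have h2 := (inferInstance : N.Normal).conj_mem _ ((hD _).1 h1) b
    convert h2 using 1
    simp [mul_assoc])
  have hψ : Function.Surjective ψ := by
    intro y
    obtain ⟨x, rfl⟩ := QuotientGroup.mk_surjective y
    obtain ⟨c, g, hc, hx⟩ := hccp x⁻¹
    refine ⟨(g⁻¹ : G), ?_⟩
    change ((α g⁻¹ * g⁻¹⁻¹ : G) : G ⧸ (C ⊔ N)) = _
    rw [QuotientGroup.eq]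
    apply mem_sup_left
    have : x = (α g)⁻¹ * g * c⁻¹ := by rw [← inv_inv x, hx]; group
    rw [this, map_inv]
    simpa [mul_assoc] using (hC c).2 hc
  have h1 : (C ⊔ N).index ≤ D.index := Nat.card_le_card_of_surjective ψ hψ
  have h2 : C ⊔ N = D := by
    apply eq_of_le_of_card_ge hle
    have h3 := (C ⊔ N).card_mul_index
    rw [← D.card_mul_index] at h3
    have h4 : 0 < D.index := Nat.pos_of_ne_zero FiniteIndex.index_ne_zero
    apply Nat.le_of_mul_le_mul_right _ h4
    rw [← h3]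
    exact Nat.mul_le_mul_left _ h1
  intro x hx
  have h5 : x ∈ C ⊔ N := h2 ▸ (hD x).2 hx
  obtain ⟨c, hc, n, hn, rfl⟩ := H3.mem_sup_iff_of_normal'.1 h5
  exact ⟨c, hc, by simpa using hn⟩

end Cfsg.Agent.S4154
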