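import Mathlib
import Cfsg.Statements.S4155
import Cfsg.Agent.Lib.FGS.EqOrder
import Cfsg.Agent.S4107
import Cfsg.Agent.S0016
-- import your own Cfsg.Agent.* helpers here

set_option autoImplicit false
open Cfsg

namespace Cfsg.Agent.S4155

open H80 Subgroup

/-- Let G be a finite group and N a proper non-trivial normal nilpotent subgroup whose order is not a prime power, such that for every x outside N all elements of the coset xN have the same order as x. Then N is the Fitting subgroup of G, and for every prime q every Sylow q-subgroup of G/N is cyclic or generalized quaternion. -/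
theorem result {G : Type*} [Group G] [Finite G] (N : Subgroup G) [N.Normal] (hN1 : N ≠ ⊥) (hN2 : N ≠ ⊤)
    (heq : ∀ x : G, x ∉ N → ∀ n ∈ N, orderOf (x * n) = orderOf x)
    (hnil : Group.IsNilpotent N) (hnpp : ¬ IsPrimePow (Nat.card N)) :
    N = Cfsg.fittingSubgroup G ∧
    ∀ (q : ℕ) [Fact q.Prime] (Q : Sylow q (G ⧸ N)), IsCyclic (Q : Subgroup (G ⧸ N)) ∨ ∃ n : ℕ, Nonempty ((Q : Subgroup (G ⧸ N)) ≃* QuaternionGroup (2 ^ n)) := by
  refine ⟨?_, fun q hq Q => ?_⟩
  · by_contra h
    have h1 : N < fittingSubgroup G := lt_of_le_of_ne (H1.le_fitting hnil) h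
    obtain ⟨p, k, hp, -, hk⟩ := (isPrimePow_nat_iff _).1 ((S4107.result N hN1 hN2 heq).2 h1)
    have := Fact.mk hp
    exact hnpp (isPrimePow_card_of_isPGroup ((IsPGroup.of_card hk.symm).to_le h1.le) hN1)
  obtain ⟨r, hr, hrN, hrq⟩ := exists_prime_ne_of_not_isPrimePow' q
    (mt card_eq_one.1 hN1) hnpp
  have := Fact.mk hr
  obtain ⟨R, hR⟩ := H68.exists_sylowIn r N
  have hRn : R.Normal := by
    obtain ⟨P, hP⟩ := hR.exists_sylow
    rw [← inf_eq_left.2 hR.le, ← subgroupOf_map_subtype, ← hP,
      ← H1.pCore_eq_sylow_of_isNilpotent P]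
    infer_instance
  have hne : R ⊓ centralizer (N : Set G) ≠ ⊥ := by
    have h1 := H5.inf_center_ne_bot_of_nilpotent (R.subgroupOf N) (by
      intro h
      rw [subgroupOf_eq_bot] at h
      exact hR.ne_bot hrN (h.eq_bot_of_le hR.le))
    obtain ⟨⟨z, hz⟩, hz1⟩ := ne_bot_iff_exists_ne_one.1 h1
    refine ne_bot_iff_exists_ne_one.2 ⟨⟨z, hz.1, fun n hn => ?_⟩, fun h => hz1 ?_⟩
    · exact congrArg Subtype.val (mem_center_iff.1 hz.2 ⟨n, hn⟩)
    · have h' : (z : G) = 1 := congrArg Subtype.val h
      exact Subtype.ext (Subtype.ext h')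
  have key : ∀ A : Subgroup (Q : Subgroup (G ⧸ N)), IsMulCommutative A → IsCyclic A := by
    intro A hA
    have h1 : IsCyclic (A.map (Q : Subgroup (G ⧸ N)).subtype) := by
      refine isCyclic_of_section_fpf (E := (Q : Subgroup (G ⧸ N)).comap (QuotientGroup.mk' N))
        (V := R ⊓ centralizer (N : Set G)) ?_ hne ?_ ?_ ?_ _ ?_ inferInstance
      · exact ⟨⟨fun a b => Subtype.ext (b.2.2 a (hR.le a.2.1))⟩⟩
      · rw [normalizer_eq_top]; exact le_top
      · exact fun x hx v hv => (hv.2 x hx.2).symm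
      · exact fun e he heN => eqo_fpf' heq hrq.symm (H35.isPElt_of_mem Q.2 he) heN
          (hR.isPGroup.to_le inf_le_left) (inf_le_left.trans hR.le)
      · rw [map_comap_eq_self_of_surjective (QuotientGroup.mk'_surjective N)]
        exact map_subtype_le _
    exact isCyclic_of_surjective _ (A.equivMapOfInjective _ (subtype_injective _)).symm.surjective
  rcases S0016.result q Q.2 (eq_of_forall_comm_isCyclic Q.2 key) with h | h
  · exact Or.inl h
  · exact Or.inr h.2

end Cfsg.Agent.S4155
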