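import Mathlib
import Cfsg.Statements.S4156
-- import your own Cfsg.Agent.* helpers here

set_option autoImplicit false
open Cfsg

namespace Cfsg.Agent.S4156

open Equiv

def ext {n : ℕ} {F : Type*} [Field F] : (Fin n → F) →ₗ[F] (Fin (n + 1) → F) where
  toFun f := Fin.snoc (α := fun _ => F) f 0
  map_add' f g := by
    funext j
    refine Fin.lastCases ?_ (fun i => ?_) j <;> simp
  map_smul' c f := by
    funext j
    refine Fin.lastCases ?_ (fun i => ?_) j <;> simp

theorem ext_last {n : ℕ} {F : Type*} [Field F] (f : Fin n → F) : ext f (Fin.last n) = 0 := by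
  simp [ext]

theorem ext_castSucc {n : ℕ} {F : Type*} [Field F] (f : Fin n → F) (i : Fin n) :
    ext f i.castSucc = f i := by
  simp [ext]

def R {n : ℕ} (F : Type*) [Field F] (σ : Perm (Fin (n + 1))) : (Fin n → F) →ₗ[F] (Fin n → F) where
  toFun f i := ext f (σ⁻¹ i.castSucc) - ext f (σ⁻¹ (Fin.last n))
  map_add' f g := by
    funext i
    simp only [map_add, Pi.add_apply]; ring
  map_smul' c f := by
    funext i
    simp only [map_smul, Pi.smul_apply, smul_eq_mul, RingHom.id_apply]; ring

theorem R_apply {n : ℕ} (F : Type*) [Field F] (σ : Perm (Fin (n + 1))) (f : Fin n → F) (i : Fin n) :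
    R F σ f i = ext f (σ⁻¹ i.castSucc) - ext f (σ⁻¹ (Fin.last n)) := rfl

theorem ext_R {n : ℕ} (F : Type*) [Field F] (σ : Perm (Fin (n + 1))) (f : Fin n → F)
    (j : Fin (n + 1)) : ext (R F σ f) j = ext f (σ⁻¹ j) - ext f (σ⁻¹ (Fin.last n)) := by
  refine Fin.lastCases ?_ (fun i => ?_) j
  · rw [ext_last, sub_self]
  · rw [ext_castSucc, R_apply]

noncomputable def M {n : ℕ} (F : Type*) [Field F] : Perm (Fin (n + 1)) →* Matrix (Fin n) (Fin n) F where
  toFun σ := LinearMap.toMatrix' (R F σ)
  map_one' := by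
    rw [← LinearMap.toMatrix'_id]
    congr 1
    refine LinearMap.ext fun f => funext fun i => ?_
    simp [R_apply, ext_last, ext_castSucc]
  map_mul' σ τ := by
    rw [← LinearMap.toMatrix'_mul]
    congr 1
    refine LinearMap.ext fun f => funext fun i => ?_
    rw [Module.End.mul_apply, R_apply F σ, ext_R, ext_R, R_apply]
    simp

/-- Let n ≥ 5 and F a finite field. Then the projective special linear group PSL_n(F) contains a subgroup isomorphic to the alternating group of degree n + 1. -/
theorem result (n : ℕ) (hn : 5 ≤ n) (F : Type*) [Field F] [Finite F] :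
    ∃ f : alternatingGroup (Fin (n + 1)) →* Matrix.ProjectiveSpecialLinearGroup (Fin n) F, Function.Injective f := by
  have h5 : 5 ≤ Nat.card (Fin (n + 1)) := by simp; omega
  have hdet : ∀ σ : alternatingGroup (Fin (n + 1)), (M F (σ : Perm (Fin (n + 1)))).det = 1 := by
    intro σ
    have h := Abelianization.commutator_subset_ker
      ((Matrix.detMonoidHom.comp ((M F).comp (alternatingGroup (Fin (n + 1))).subtype)).toHomUnits)
    rw [commutator_alternatingGroup_eq_top h5] at h
    have := congrArg Units.val (MonoidHom.mem_ker.1 (h (Subgroup.mem_top σ)))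
    simpa using this
  let g : alternatingGroup (Fin (n + 1)) →* Matrix.SpecialLinearGroup (Fin n) F :=
    { toFun := fun σ => ⟨M F (σ : Perm (Fin (n + 1))), hdet σ⟩
      map_one' := Subtype.ext (by simp)
      map_mul' := fun a b => Subtype.ext (map_mul (M F) (a : Perm (Fin (n + 1))) b) }
  refine ⟨(QuotientGroup.mk' _).comp g, ?_⟩
  rw [← MonoidHom.ker_eq_bot_iff]
  have := alternatingGroup.isSimpleGroup h5
  refine (Subgroup.Normal.eq_bot_or_eq_top (MonoidHom.normal_ker _)).resolve_right fun h => ?_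
  let a : Fin n := ⟨0, by omega⟩
  let b : Fin n := ⟨1, by omega⟩
  let c : Fin n := ⟨2, by omega⟩
  have hab : a.castSucc ≠ b.castSucc := by simp [a, b, Fin.ext_iff]
  have hac : a.castSucc ≠ c.castSucc := by simp [a, c, Fin.ext_iff]
  have hbc : b ≠ c := by simp [b, c, Fin.ext_iff]
  let σ : alternatingGroup (Fin (n + 1)) :=
    ⟨swap a.castSucc b.castSucc * swap a.castSucc c.castSucc, by
      rw [Perm.mem_alternatingGroup, map_mul, Perm.sign_swap hab, Perm.sign_swap hac]; simp⟩
  have h1 : g σ ∈ Subgroup.center _ := by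
    have : σ ∈ ((QuotientGroup.mk' (Subgroup.center (Matrix.SpecialLinearGroup (Fin n) F))).comp g).ker :=
      h ▸ Subgroup.mem_top σ
    rwa [MonoidHom.mem_ker, MonoidHom.comp_apply, QuotientGroup.mk'_apply,
      QuotientGroup.eq_one_iff] at this
  obtain ⟨r, -, hr⟩ := Matrix.SpecialLinearGroup.mem_center_iff.1 h1
  have h2 := congrFun (congrFun hr b) c
  have h3 : (g σ : Matrix (Fin n) (Fin n) F) b c = 1 := by
    change LinearMap.toMatrix' (R F _) b c = 1
    rw [LinearMap.toMatrix'_apply, R_apply]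
    have e1 : (σ : Perm (Fin (n + 1)))⁻¹ b.castSucc = c.castSucc := by
      simp [σ]
    have e2 : (σ : Perm (Fin (n + 1)))⁻¹ (Fin.last n) = Fin.last n := by
      simp only [σ, mul_inv_rev, swap_inv, Perm.mul_apply]
      rw [swap_apply_of_ne_of_ne (Fin.castSucc_lt_last _).ne' (Fin.castSucc_lt_last _).ne',
        swap_apply_of_ne_of_ne (Fin.castSucc_lt_last _).ne' (Fin.castSucc_lt_last _).ne']
    rw [e1, e2, ext_last, ext_castSucc]
    simp
  rw [h3] at h2
  simp [Matrix.scalar_apply, Matrix.diagonal_apply_ne _ hbc] at h2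

end Cfsg.Agent.S4156
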