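import Cfsg.Statements.S4161
import Cfsg.Agent.Lib.CSG.Diam

set_option autoImplicit false
open Cfsg

namespace Cfsg.Agent.S4161

/-- Let G be a finite non-solvable group and p ≠ q primes each dividing the size of some conjugacy class of G. Then either some class size is divisible by pq, or there is a prime r, different from p and q, such that some class size is divisible by pr and some class size is divisible by rq. -/
theorem result {G : Type*} [Group G] [Finite G] (hG : ¬ Group.IsSolvable G)
    (p q : ℕ) (hp : p.Prime) (hq : q.Prime) (hpq : p ≠ q) (hp' : ∃ x : G, p ∣ (Subgroup.centralizer ({x} : Set G)).index) (hq' : ∃ x : G, q ∣ (Subgroup.centralizer ({x} : Set G)).index) :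
    (∃ x : G, p * q ∣ (Subgroup.centralizer ({x} : Set G)).index) ∨ ∃ r : ℕ, r.Prime ∧ r ≠ p ∧ r ≠ q ∧ (∃ x : G, p * r ∣ (Subgroup.centralizer ({x} : Set G)).index) ∧ (∃ y : G, r * q ∣ (Subgroup.centralizer ({y} : Set G)).index) := by
  by_contra hc
  push Not at hc
  obtain ⟨h1, h2⟩ := hc
  haveI := Fact.mk hp
  haveI := Fact.mk hq
  refine hG (H93CS.solvable_of_coprime_cs (p := p) (q := q) (fun x y hx hy => ?_) hp' hq')
  refine Nat.coprime_of_dvd fun r hr h3 h4 => ?_
  have hco := (Nat.coprime_primes hp hq).2 hpq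
  by_cases hrp : r = p
  · subst hrp
    exact h1 y (hco.mul_dvd_of_dvd_of_dvd h4 hy)
  by_cases hrq : r = q
  · subst hrq
    exact h1 x (hco.mul_dvd_of_dvd_of_dvd hx h3)
  exact h2 r hr hrp hrq
    ⟨x, ((Nat.coprime_primes hp hr).2 (Ne.symm hrp)).mul_dvd_of_dvd_of_dvd hx h3⟩ y
    (((Nat.coprime_primes hr hq).2 hrq).mul_dvd_of_dvd_of_dvd h4 hy)

end Cfsg.Agent.S4161
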