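import Mathlib
import Cfsg.Statements.S4162
import Cfsg.Agent.Lib.S3C.Main
-- import your own Cfsg.Agent.* helpers here

set_option autoImplicit false
open Cfsg

namespace Cfsg.Agent.S4162

/-- Let G be a non-trivial finite solvable group in which distinct conjugacy classes have distinct sizes. Then G is isomorphic to the symmetric group of degree 3. -/
theorem result {G : Type*} [Group G] [Finite G] [Nontrivial G] (hG : Group.IsSolvable G)
    (h : Function.Injective fun C : ConjClasses G => Nat.card C.carrier) : Nonempty (G ≃* Equiv.Perm (Fin 3)) :=
  (H42.S3.ah_of_inj h).main hG

end Cfsg.Agent.S4162
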