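import Cfsg.Statements.S4169
import Cfsg.Agent.Lib.Misc82.SmallClass
import Cfsg.Agent.Lib.PGroup.Basic

set_option autoImplicit false
open Cfsg

namespace Cfsg.Agent.S4169


/-- Let P be a finite p-group whose conjugacy classes have exactly two sizes (1 and one other value). Then P has nilpotency class at most 3. -/
theorem result {P : Type*} [Group P] [Finite P] {p : ℕ} [Fact p.Prime] (hP : IsPGroup p P)
    (m : ℕ) (hm : 1 < m) (h : ∀ x : P, (Subgroup.centralizer ({x} : Set P)).index = 1 ∨ (Subgroup.centralizer ({x} : Set P)).index = m) :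
    upperCentralSeries P 3 = ⊤ := by
  have := hP.isNilpotent
  obtain ⟨A, hn, hA, -, hC⟩ := H5.exists_scn (⊥ : Subgroup P) inferInstance
  exact H82.upperCentralSeries_three_eq_top fun x y z w =>
    H82.comm_four hC (S := Set.univ) (fun x _ a ha => H82.comm_mem_center_of_small hA (m := m)
      (fun x hx => by have := h x; omega) (h x) ha) (by simp) (by simp) (by simp) w

end Cfsg.Agent.S4169
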