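import Cfsg.Statements.S4170
import Mathlib
import Cfsg.Agent.Base
import Cfsg.Agent.Lib.FGS.ClassSize

set_option autoImplicit false
open scoped Pointwise
open Cfsg

namespace Cfsg.Agent.S4170


/-- Let p be an odd prime and G a nontrivial group of permutations of a finite set Ω that is generated by its elements of p-power order. Then Ω has two disjoint nonempty subsets Δ₁ and Δ₂ such that the index in G of the subgroup of elements mapping Δ₁ onto Δ₁ and Δ₂ onto Δ₂ (and hence also the complement of their union onto itself) is divisible by p. -/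
theorem result {Ω : Type*} [Fintype Ω] (p : ℕ) [Fact p.Prime] (hp : p ≠ 2) (G : Subgroup (Equiv.Perm Ω)) (hG : G ≠ ⊥) (hgen : Subgroup.closure {g : G | ∃ k : ℕ, orderOf g = p ^ k} = ⊤) :
    ∃ Δ₁ Δ₂ : Set Ω, Δ₁.Nonempty ∧ Δ₂.Nonempty ∧ Disjoint Δ₁ Δ₂ ∧ p ∣ (MulAction.stabilizer G Δ₁ ⊓ MulAction.stabilizer G Δ₂).index := by
  classical
  obtain ⟨g, ⟨k, hk⟩, hg1⟩ : ∃ g : G, (∃ k : ℕ, orderOf g = p ^ k) ∧ g ≠ 1 := by
    by_contra hn
    push Not at hn
    apply hG
    have : (⊤ : Subgroup G) = ⊥ := by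
      rw [← hgen, eq_bot_iff, Subgroup.closure_le]
      intro x hx
      exact hn x hx
    rw [eq_bot_iff]
    intro x hx
    have h2 : (⟨x, hx⟩ : G) ∈ (⊥ : Subgroup G) := this ▸ Subgroup.mem_top _
    rw [Subgroup.mem_bot] at h2 ⊢
    exact congrArg Subtype.val h2
  have hz : IsPGroup p (Subgroup.zpowers g) := IsPGroup.of_card (n := k) (by rw [Nat.card_zpowers, hk])
  obtain ⟨P, hP⟩ := hz.exists_le_sylow
  have hgP : g ∈ (P : Subgroup G) := hP (Subgroup.mem_zpowers g)
  obtain ⟨ω, hω⟩ : ∃ ω : Ω, g • ω ≠ ω := by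
    by_contra hn
    push Not at hn
    apply hg1
    ext1
    ext x
    exact hn x
  set O : Set Ω := MulAction.orbit (P : Subgroup G) ω with hO
  have hωO : ω ∈ O := MulAction.mem_orbit_self ω
  refine ⟨{ω}, O \ {ω}, Set.singleton_nonempty _, ⟨g • ω, ⟨⟨g, hgP⟩, rfl⟩, hω⟩, Set.disjoint_sdiff_right, ?_⟩
  by_contra hnd
  obtain ⟨Q, hQ⟩ := H80.exists_sylow_le_of_not_dvd_index hnd
  have hPK : (P : Subgroup G) ≤ MulAction.stabilizer G O := by
    intro x hx
    rw [MulAction.mem_stabilizer_iff]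
    exact MulAction.smul_orbit (⟨x, hx⟩ : (P : Subgroup G)) ω
  have hQK : (Q : Subgroup G) ≤ MulAction.stabilizer G O := by
    intro x hx
    have h1 := (Subgroup.mem_inf.1 (hQ hx)).1
    have h2 := (Subgroup.mem_inf.1 (hQ hx)).2
    simp only [MulAction.mem_stabilizer_iff] at h1 h2 ⊢
    have h3 : O = {ω} ∪ (O \ {ω}) := by
      rw [Set.union_sdiff_cancel (by simpa using hωO)]
    rw [h3, Set.smul_set_union, h1, h2]
  obtain ⟨c, hc, hcP⟩ := H4.exists_smul_sylow_eq_of_le P Q hPK hQK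
  have hfix : ∀ x ∈ (P : Subgroup G), x • (c⁻¹ • ω) = c⁻¹ • ω := by
    intro x hx
    have h1 : c * x * c⁻¹ ∈ Q := hcP ▸ H4.conj_mem_smul_sylow hx
    have h2 := (Subgroup.mem_inf.1 (hQ h1)).1
    simp only [MulAction.mem_stabilizer_iff, Set.smul_set_singleton,
      Set.singleton_eq_singleton_iff] at h2
    rw [mul_smul, mul_smul] at h2
    rw [eq_inv_smul_iff, h2]
  have hmem : c⁻¹ • ω ∈ O := by
    have h1 := (MulAction.stabilizer G O).inv_mem hc
    rw [MulAction.mem_stabilizer_iff] at h1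
    rw [← h1]
    exact Set.smul_mem_smul_set hωO
  obtain ⟨⟨y, hy⟩, hyω⟩ := hmem
  have hyω' : y • ω = c⁻¹ • ω := hyω
  have h1 : ω = c⁻¹ • ω := by
    have := hfix y⁻¹ (inv_mem hy)
    rw [← hyω', inv_smul_smul] at this
    rw [← hyω']; exact this
  apply hω
  have := hfix g hgP
  rwa [← h1] at this

end Cfsg.Agent.S4170
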