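import Cfsg.Statements.S4172
import Mathlib
import Cfsg.Agent.Base
import Cfsg.Agent.Lib.Transfer.Tate
import Cfsg.Agent.Lib.Transfer.Control
import Cfsg.Agent.Lib.Comp.FStar
import Cfsg.Agent.Lib.Comp.LayerStruct
import Cfsg.Agent.Lib.LocStruct.Conj
import Cfsg.Agent.Lib.Core.Frattini

set_option autoImplicit false
open Cfsg

namespace Cfsg.Agent.S4172

open Cfsg Subgroup H69
open scoped commutatorElement

section
variable {G : Type*} [Group G] [Finite G] {p : ℕ} [hp : Fact p.Prime]

/-- every element of `P` is `w * x ^ k` with `w ∈ W`. -/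
def Gen (P W : Subgroup G) : Prop := ∃ x ∈ P, ∀ y ∈ P, ∃ w ∈ W, ∃ k : ℤ, y = w * x ^ k

theorem gen (P : Subgroup G) (hgen : (frattini P).index = p ^ 2) (W : Subgroup G)
    (hW : P ≤ normalizer (W : Set G)) (h : ¬ W ⊓ P ≤ (frattini P).map P.subtype) : Gen P W := by
  set N := W.subgroupOf P with hN
  haveI : N.Normal := (normal_subgroupOf_iff_le_normalizer_inf.2 (le_normalizer_inf hW le_normalizer))
  have key : ∀ Q R : Subgroup P, Q ≤ R → R.index = Q.index → R ≤ Q := by
    intro Q R hle he
    have h1 := relIndex_mul_index hle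
    rw [he] at h1
    have h2 : Q.index ≠ 0 := index_ne_zero_of_finite
    have h3 : Q.relIndex R = 1 := by
      have : Q.relIndex R * Q.index = 1 * Q.index := by rw [h1, one_mul]
      exact Nat.eq_of_mul_eq_mul_right (Nat.pos_of_ne_zero h2) this
    exact relIndex_eq_one.1 h3
  have hx : ∃ x : P, N ⊔ zpowers x = ⊤ := by
    have hd : (N ⊔ frattini P).index ∣ p ^ 2 := hgen ▸ index_dvd_of_le le_sup_right
    obtain ⟨i, hi, he⟩ := (Nat.dvd_prime_pow hp.out).1 hd
    interval_cases i
    · refine ⟨1, ?_⟩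
      rw [pow_zero, index_eq_one] at he
      rw [frattini_nongenerating he, top_sup_eq]
    · rw [pow_one] at he
      have hne : N ⊔ frattini P ≠ ⊤ := fun e => hp.out.one_lt.ne' (by rw [← he, e, index_top])
      obtain ⟨x, hx⟩ : ∃ x, x ∉ N ⊔ frattini P := by
        by_contra hc
        push Not at hc
        exact hne (eq_top_iff.2 fun x _ => hc x)
      refine ⟨x, frattini_nongenerating ?_⟩
      have hd2 : ((N ⊔ frattini P) ⊔ zpowers x).index ∣ p := he ▸ index_dvd_of_le le_sup_left
      rcases (Nat.dvd_prime hp.out).1 hd2 with h1 | h1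
      · rw [index_eq_one] at h1
        rw [← h1, sup_right_comm]
      · exact absurd (key _ _ le_sup_left (h1.trans he.symm)
          (mem_sup_right (mem_zpowers x))) hx
    · exfalso
      apply h
      have := key _ _ (le_sup_right : frattini P ≤ N ⊔ frattini P) (he.trans hgen.symm)
      intro y hy
      exact ⟨⟨y, hy.2⟩, this (mem_sup_left (show (⟨y, hy.2⟩ : P) ∈ N from hy.1)), rfl⟩
  obtain ⟨x, hx⟩ := hx
  refine ⟨x, x.2, fun y hy => ?_⟩
  have : (⟨y, hy⟩ : P) ∈ N ⊔ zpowers x := hx ▸ mem_top _
  obtain ⟨w, hw, z, ⟨k, rfl⟩, e⟩ := mem_sup_of_normal_left.1 this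
  refine ⟨w, hw, k, ?_⟩
  have := congrArg Subtype.val e
  simpa using this.symm

omit [Finite G] in
theorem Gen.comm_mem {P W : Subgroup G} (h : Gen P W) (hW : P ≤ normalizer (W : Set G))
    {a b : G} (ha : a ∈ P) (hb : b ∈ P) : a * b * a⁻¹ * b⁻¹ ∈ W := by
  obtain ⟨x, hx, h⟩ := h
  obtain ⟨u, hu, k, rfl⟩ := h a ha
  obtain ⟨v, hv, l, rfl⟩ := h b hb
  have hk : x ^ k ∈ normalizer (W : Set G) := hW (zpow_mem hx k)
  have hl : x ^ l ∈ normalizer (W : Set G) := hW (zpow_mem hx l)
  have e : u * x ^ k * (v * x ^ l) * (u * x ^ k)⁻¹ * (v * x ^ l)⁻¹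
      = u * (x ^ k * v * (x ^ k)⁻¹) * (x ^ l * u⁻¹ * (x ^ l)⁻¹) * v⁻¹ := by group
  rw [e]
  exact W.mul_mem (W.mul_mem (W.mul_mem hu (H69.conj_mem_of_mem_normalizer hk hv))
    (H69.conj_mem_of_mem_normalizer hl (W.inv_mem hu))) (W.inv_mem hv)

omit [Finite G] in
theorem comm_of_two {P W V : Subgroup G} (h : Gen P W) (hW : P ≤ normalizer (W : Set G))
    (h' : Gen P V) (hV : P ≤ normalizer (V : Set G)) (hb : W ⊓ V = ⊥) : IsMulCommutative P := by
  refine ⟨⟨fun a b => Subtype.ext ?_⟩⟩
  have : (a : G) * b * (a : G)⁻¹ * (b : G)⁻¹ ∈ W ⊓ V := ⟨h.comm_mem hW a.2 b.2, h'.comm_mem hV a.2 b.2⟩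
  rw [hb, mem_bot] at this
  show (a : G) * b = b * a
  calc (a : G) * b = (a * b * (a : G)⁻¹ * (b : G)⁻¹) * (b * a) := by group
    _ = b * a := by rw [this, one_mul]

omit [Finite G] in
/-- elements of `P ⊓ E` commute when `W ≤ E` is central in `E`. -/
theorem Gen.comm_inf {P W E : Subgroup G} (h : Gen P W) (hWE : W ≤ E)
    (hc : W ≤ centralizer (E : Set G)) : IsMulCommutative (P ⊓ E : Subgroup G) := by
  obtain ⟨x, hx, h⟩ := h
  refine ⟨⟨fun a b => Subtype.ext ?_⟩⟩
  show (a : G) * b = b * a
  obtain ⟨u, hu, k, ea⟩ := h a a.2.1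
  obtain ⟨v, hv, l, eb⟩ := h b b.2.1
  have hk : x ^ k ∈ E := by
    have : x ^ k = u⁻¹ * a := by rw [ea]; group
    rw [this]; exact E.mul_mem (E.inv_mem (hWE hu)) a.2.2
  have h1 : Commute (a : G) v := hc hv _ a.2.2
  have h2 : Commute u (x ^ l) := by
    have hl : x ^ l ∈ E := by
      have : x ^ l = v⁻¹ * b := by rw [eb]; group
      rw [this]; exact E.mul_mem (E.inv_mem (hWE hv)) b.2.2
    exact (show Commute (x ^ l) u from hc hu _ hl).symm
  have h3 : Commute (a : G) (x ^ l) := by
    rw [ea]; exact h2.mul_left (Commute.zpow_zpow_self x k l)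
  have : Commute (a : G) b := by rw [eb]; exact h1.mul_right h3
  exact this

theorem tate' (P : Sylow p G) (W : Subgroup G) (hW : (P : Subgroup G) ≤ normalizer (W : Set G))
    (h : W ⊓ P ≤ (frattini (P : Subgroup G)).map (P : Subgroup G).subtype) :
    HasNormalPComplement p W := by
  set K := W ⊔ (P : Subgroup G) with hK
  have hKW : K ≤ normalizer (W : Set G) := sup_le le_normalizer hW
  haveI : (W.subgroupOf K).Normal :=
    normal_subgroupOf_iff_le_normalizer_inf.2 (le_normalizer_inf hKW le_normalizer)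
  have hPK : (P : Subgroup G) ≤ K := le_sup_right
  have := H4.tate (P.subtype hPK) (W.subgroupOf K) (by
    intro y hy
    obtain ⟨z, hz, e⟩ := h (show (y : G) ∈ W ⊓ P from ⟨hy.1, hy.2⟩)
    have h1 := H1.map_frattini_equiv (subgroupOfEquivOfLe hPK).symm
    refine ⟨(subgroupOfEquivOfLe hPK).symm z, ?_, Subtype.ext e⟩
    have h2 : (subgroupOfEquivOfLe hPK).symm z ∈ frattini ((P : Subgroup G).subgroupOf K) := by
      rw [← h1]; exact ⟨z, hz, rfl⟩
    exact h2)
  exact H4.hasNormalPComplement_of_equiv this (subgroupOfEquivOfLe le_sup_left)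

/-- a fixed point of a normal subgroup of `p'`-index, by a product over a class. -/
theorem exists_fixed (V N H : Subgroup G) [V.Normal] (hV : IsMulCommutative V) [N.Normal]
    (hpow : ∀ v ∈ V, v ^ p = 1) (v : G) (hv : v ∈ V) (hvN : v ∉ N)
    (hH : ∀ g ∈ H, g * v * g⁻¹ * v⁻¹ ∈ N) (P : Sylow p G) (hPH : (P : Subgroup G) ≤ H)
    (hPv : ∀ y ∈ P, y * v = v * y) : ∃ w ∈ V, w ≠ 1 ∧ ∀ g ∈ H, g * w = w * g := by
  classical
  letI : CommGroup V := { (inferInstance : Group V) with mul_comm := hV.is_comm.comm }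
  letI : MulDistribMulAction H V := MulDistribMulAction.compHom V
    ((MulAut.conjNormal (H := V)).comp H.subtype)
  have hsm : ∀ (g : H) (u : V), ((g • u : V) : G) = g * u * (g : G)⁻¹ := fun g u => rfl
  set v' : V := ⟨v, hv⟩
  have hfin : (MulAction.orbit H v').Finite := Set.toFinite _
  set S := hfin.toFinset with hS
  set w : V := ∏ s ∈ S, s with hw
  have hcard : ¬ p ∣ S.card := by
    have h1 : S.card = (MulAction.stabilizer H v').index := by
      rw [MulAction.index_stabilizer, hS, Set.ncard_eq_toFinset_card _ hfin]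
    rw [h1]
    have h2 : ((P.subtype hPH : Sylow p H) : Subgroup H) ≤ MulAction.stabilizer H v' := by
      intro y hy
      rw [MulAction.mem_stabilizer_iff]
      apply Subtype.ext
      rw [hsm]
      show (y : G) * v * (y : G)⁻¹ = v
      rw [hPv y hy]; group
    exact fun hd => (P.subtype hPH).not_dvd_index (hd.trans (index_dvd_of_le h2))
  refine ⟨w, w.2, fun h1 => ?_, fun g hg => ?_⟩
  · let π : V →* V ⧸ N.subgroupOf V := QuotientGroup.mk' _
    have h2 : π w = π v' ^ S.card := by
      rw [hw, map_prod, ← Finset.prod_const]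
      refine Finset.prod_congr rfl fun s hs => ?_
      rw [hS, Set.Finite.mem_toFinset] at hs
      obtain ⟨g, rfl⟩ := hs
      show π (g • v') = π v'
      rw [← mul_inv_eq_one, ← map_inv, ← map_mul]
      exact (QuotientGroup.eq_one_iff _).2 (hH g g.2)
    have h3 : w = 1 := Subtype.ext h1
    rw [h3, map_one] at h2
    have h4 : π v' ^ p = 1 := by
      rw [← map_pow, show v' ^ p = 1 from Subtype.ext (hpow v hv), map_one]
    have h5 : π v' ^ Nat.gcd S.card p = 1 := pow_gcd_eq_one.2 ⟨h2.symm, h4⟩
    rw [((Nat.Prime.coprime_iff_not_dvd hp.out).2 hcard).symm, pow_one] at h5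
    exact hvN ((QuotientGroup.eq_one_iff v').1 h5)
  · have h2 : (⟨g, hg⟩ : H) • w = w := by
      rw [hw, Finset.smul_prod']
      refine Finset.prod_bij (fun s _ => (⟨g, hg⟩ : H) • s) ?_ ?_ ?_ (fun _ _ => rfl)
      · intro s hs
        rw [hS, Set.Finite.mem_toFinset] at hs ⊢
        obtain ⟨k, rfl⟩ := hs
        exact ⟨⟨g, hg⟩ * k, mul_smul _ _ _⟩
      · intro a _ b _ e
        exact MulAction.injective _ e
      · intro b hb
        refine ⟨(⟨g, hg⟩ : H)⁻¹ • b, ?_, smul_inv_smul _ _⟩
        rw [hS, Set.Finite.mem_toFinset] at hb ⊢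
        obtain ⟨k, rfl⟩ := hb
        exact ⟨(⟨g, hg⟩ : H)⁻¹ * k, mul_smul _ _ _⟩
    have h3 := congrArg Subtype.val h2
    rw [hsm] at h3
    show g * (w : G) = w * g
    calc g * (w : G) = g * w * g⁻¹ * g := by group
      _ = w * g := by rw [show g * (w : G) * g⁻¹ = w from h3]

end

/-- Let p be a prime and G a finite group with a non-commutative Sylow p-subgroup P whose Frattini subgroup has index p² in P (P is generated by two elements). Suppose G has no nontrivial normal subgroup of order prime to p and the Frattini subgroup of P contains no nontrivial normal subgroup of G. Then the generalized Fitting subgroup F*(G) is the unique minimal normal subgroup of G, the image of P in G/F*(G) is cyclic, and if F*(G) is not commutative then P permutes the components of G transitively by conjugation. -/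
theorem result {G : Type*} [Group G] [Finite G] (p : ℕ) [Fact p.Prime] (P : Sylow p G) (hna : ¬ IsMulCommutative (P : Subgroup G)) (hgen : (frattini ↥(P : Subgroup G)).index = p ^ 2) (hcore : Cfsg.pPrimeCore p G = ⊥) (hfrat : ((frattini ↥(P : Subgroup G)).map (P : Subgroup G).subtype).normalCore = ⊥) [hFn : (Cfsg.generalizedFittingSubgroup G).Normal] :
    (Cfsg.generalizedFittingSubgroup G ≠ ⊥ ∧ ∀ K : Subgroup G, K.Normal → K ≠ ⊥ → Cfsg.generalizedFittingSubgroup G ≤ K) ∧
      IsCyclic ↥((P : Subgroup G).map (QuotientGroup.mk' (Cfsg.generalizedFittingSubgroup G))) ∧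
      (¬ IsMulCommutative (Cfsg.generalizedFittingSubgroup G) → ∀ K L : Subgroup G, Cfsg.IsComponent K → Cfsg.IsComponent L → ∃ x ∈ (P : Subgroup G), L = K.map (MulAut.conj x).toMonoidHom) := by
  have hp : Fact p.Prime := inferInstance
  set Φ := (frattini ↥(P : Subgroup G)).map (P : Subgroup G).subtype with hΦ
  have hnot : ∀ W : Subgroup G, W.Normal → W ≠ ⊥ → ¬ W ⊓ P ≤ Φ := by
    intro W hW hne h
    have h1 := H4.tate P W h
    rw [H4.hasNormalPComplement_iff_card_map] at h1
    haveI := H4.map_subtype_pResidual_normal (n := p) W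
    have h2 : (pResidual p W).map W.subtype ≤ pPrimeCore p G := H1.le_pPrimeCore_of_not_dvd h1
    rw [hcore, le_bot_iff, map_subtype_eq_bot_iff] at h2
    have h3 : IsPGroup p W := H4.isPGroup_of_pResidual_eq_bot h2
    have h4 : W ≤ P := h3.le_sylow_of_normal P
    apply hne
    rw [eq_bot_iff, ← hfrat]
    exact normal_le_normalCore.2 fun x hx => h ⟨hx, h4 hx⟩
  have hG : ∀ W : Subgroup G, W.Normal → W ≠ ⊥ → Gen (P : Subgroup G) W := fun W hW hne =>
    gen _ hgen W le_normalizer_of_normal (hnot W hW hne)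
  have hinf : ∀ W V : Subgroup G, W.Normal → W ≠ ⊥ → V.Normal → V ≠ ⊥ → W ⊓ V ≠ ⊥ :=
    fun W V hW h1 hV h2 hb => hna (comm_of_two (hG W hW h1) le_normalizer_of_normal (hG V hV h2)
      le_normalizer_of_normal hb)
  have hPne : (P : Subgroup G) ≠ ⊥ := by
    intro e
    apply hna
    rw [e]; infer_instance
  haveI : Nontrivial G := by
    obtain ⟨⟨x, _⟩, hx⟩ := ne_bot_iff_exists_ne_one.1 hPne
    exact ⟨⟨x, 1, fun e => hx (Subtype.ext e)⟩⟩
  have hF0 : generalizedFittingSubgroup G ≠ ⊥ := H23.fStar_ne_bot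
  have hFit : fittingSubgroup G = pCore p G := H1.fitting_eq_pCore_of_pPrimeCore_eq_bot hcore
  set V := pCore p G with hVdef
  have hVp : IsPGroup p V := H1.isPGroup_pCore
  have hVP : V ≤ P := hVp.le_sylow_of_normal P
  have hVel : IsMulCommutative V ∧ ∀ x : V, x ^ p = 1 := by
    rw [← H1.frattini_eq_bot_iff_of_isPGroup hVp, ← map_subtype_eq_bot_iff]
    by_contra hne
    exact hnot _ inferInstance hne
      (inf_le_left.trans (H1.map_subtype_frattini_mono_of_isPGroup P.isPGroup' hVP))
  have hVpow : ∀ v ∈ V, v ^ p = 1 := fun v hv => congrArg Subtype.val (hVel.2 ⟨v, hv⟩)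
  -- if `V ≠ 1` the layer is trivial
  have hE : V ≠ ⊥ → layer G = ⊥ := by
    intro hV
    by_contra hE
    have h1 := hinf _ _ inferInstance hV inferInstance hE
    have hc : V ⊓ layer G ≤ centralizer (layer G : Set G) :=
      inf_le_left.trans (le_centralizer_iff.1 (H23.layer_le_centralizer_pCore p))
    have h2 := (hG _ inferInstance h1).comm_inf inf_le_right hc
    have h3 : Nat.Coprime (Nat.card ((P : Subgroup G) ⊓ layer G : Subgroup G))
        (((P : Subgroup G) ⊓ layer G).relIndex (layer G)) := by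
      obtain ⟨k, hk⟩ := IsPGroup.iff_card.1 (P.isPGroup'.to_le (inf_le_left : (P : Subgroup G) ⊓ layer G ≤ P))
      rw [hk, inf_relIndex_right]
      refine Nat.Coprime.pow_left k ((Nat.Prime.coprime_iff_not_dvd hp.out).2 fun hd => ?_)
      exact P.not_dvd_index (hd.trans (H4.relIndex_dvd_index_of_normal_right _ _))
    have h4 := H4.commutator_inf_centralizer_of_hall h2 inf_le_right h3
    rw [H23.commutator_layer_self] at h4
    apply h1
    rw [eq_bot_iff, ← h4]
    exact le_inf inf_le_right (le_inf (inf_le_inf_right _ hVP) hc)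
  -- transitivity of `P` on the components when `V = 1`
  have htr : V = ⊥ → ∀ K L : Subgroup G, IsComponent K → IsComponent L →
      ∃ x ∈ (P : Subgroup G), L = K.map (MulAut.conj x).toMonoidHom := by
    intro hV K L hK hL
    by_contra hc
    push Not at hc
    have hGn : ∀ K : Subgroup G, IsComponent K → Gen (P : Subgroup G) (ncl K P) := by
      intro K hK
      refine gen _ hgen _ (le_normalizer_ncl K P) fun h => ?_
      have h1 := H4.hasNormalPComplement_of_subgroup_le (tate' P _ (le_normalizer_ncl K P) h)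
        (le_ncl K P)
      have h2 : p ∣ Nat.card K := by
        by_contra hd
        have := H1.le_pPrimeCore_of_isSubnormal (H23.IsComponent.isSubnormal hK)
          (((Nat.Prime.coprime_iff_not_dvd hp.out).2 hd).symm)
        rw [hcore, le_bot_iff] at this
        exact H23.IsComponent.ne_bot hK this
      refine H4.not_hasNormalPComplement_of_pResidual_eq_top
        (H4.pResidual_eq_top_of_commutator_eq_top ?_) h2 h1
      rw [← map_subtype_eq_self_iff, _root_.commutator_def, map_commutator, map_subtype_top]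
      exact H23.IsComponent.commutator_self hK
    refine hna (comm_of_two (hGn K hK) (le_normalizer_ncl K P) (hGn L hL) (le_normalizer_ncl L P) ?_)
    have hsub : (ncl K P).IsSubnormal := by
      refine H23.isSubnormal_of_le_normalizer (K := layer G) (Normal.isSubnormal inferInstance) ?_ ?_
      · exact ncl_le (H23.IsComponent.le_layer hK) le_normalizer_of_normal
      · refine le_normalizer_of_cj_le fun g hg => ?_
        rw [ncl_def, cj_iSup]
        refine iSup_mono fun l => le_of_eq (cj_eq_of_mem_normalizer ?_)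
        exact H23.IsComponent.layer_le_normalizer (H23.IsComponent.map_conj hK l) hg
    have hcen : ncl L P ≤ centralizer (ncl K P : Set G) := by
      refine ncl_le_centralizer ?_ (le_normalizer_ncl K P)
      rw [← le_centralizer_iff]
      refine ncl_le_iff.2 fun g hg => le_centralizer_of_commutator_eq_bot ?_
      exact H23.IsComponent.commutator_eq_bot_of_ne (H23.IsComponent.map_conj hK g) hL
        fun e => hc g hg e.symm
    rw [eq_bot_iff, ← hV, ← hFit]
    exact (inf_le_inf_left _ hcen).trans (H23.inf_centralizer_le_fitting hsub)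
  refine ⟨⟨hF0, fun K hK hne => ?_⟩, ?_, fun hnc => htr ?_⟩
  · rw [H23.fStar_def, hFit]
    by_cases hV : V = ⊥
    · rw [hV, sup_bot_eq, H23.layer_le_iff]
      intro L hL
      rcases H23.IsComponent.le_or_commutator_eq_bot hL hK.isSubnormal with h | h
      · exact h
      · exfalso
        have hL0 : layer G ≠ ⊥ := fun e => H23.IsComponent.ne_bot hL
          (le_bot_iff.1 (e ▸ H23.IsComponent.le_layer hL))
        have h1 : layer G ≤ centralizer (K : Set G) := by
          rw [H23.layer_le_iff]
          intro M hM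
          obtain ⟨x, _, rfl⟩ := htr hV L M hL hM
          exact cj_le_of_mem_normalizer (le_centralizer_of_commutator_eq_bot h)
            (le_normalizer_of_normal (mem_top x))
        apply hinf _ _ hK hne inferInstance hL0
        rw [eq_bot_iff, ← hV, ← hFit]
        exact (inf_le_inf_left _ h1).trans (H23.inf_centralizer_le_fitting hK.isSubnormal)
    · rw [hE hV, bot_sup_eq]
      by_contra hVK
      set N := K ⊓ V with hN
      have hN0 : N ≠ ⊥ := hinf _ _ hK hne inferInstance hV
      obtain ⟨x, hx, hxg⟩ := hG N inferInstance hN0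
      obtain ⟨a, haV, haK⟩ := SetLike.not_le_iff_exists.1 hVK
      obtain ⟨u, hu, k, ea⟩ := hxg a (hVP haV)
      set v := x ^ k with hv
      have hvV : v ∈ V := by
        have : v = u⁻¹ * a := by rw [ea]; group
        rw [this]; exact V.mul_mem (V.inv_mem hu.2) haV
      have hvN : v ∉ N := fun h => haK (ea ▸ K.mul_mem hu.1 h.1)
      have hPv : ∀ y ∈ P, y * v = v * y := by
        intro y hy
        obtain ⟨u', hu', l, rfl⟩ := hxg y hy
        have h1 : Commute u' v := congrArg Subtype.val (hVel.1.is_comm.comm ⟨u', hu'.2⟩ ⟨v, hvV⟩)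
        exact h1.mul_left (Commute.zpow_zpow_self x l k)
      -- the centralizer of `V / N`
      set H : Subgroup G := (centralizer ((V.map (QuotientGroup.mk' N) : Subgroup (G ⧸ N)) : Set (G ⧸ N))).comap
        (QuotientGroup.mk' N) with hH
      haveI : (V.map (QuotientGroup.mk' N)).Normal :=
        Normal.map inferInstance _ (QuotientGroup.mk'_surjective N)
      haveI : H.Normal := inferInstance
      have hPH : (P : Subgroup G) ≤ H := by
        intro y hy
        rw [hH, mem_comap, mem_centralizer_iff]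
        rintro _ ⟨b, hb, rfl⟩
        have := Gen.comm_mem ⟨x, hx, hxg⟩ le_normalizer_of_normal (hVP hb) hy
        rw [← mul_inv_eq_one, ← map_mul, ← map_mul, ← map_inv, ← map_mul]
        refine (QuotientGroup.eq_one_iff _).2 ?_
        simpa [mul_assoc] using this
      obtain ⟨w, hwV, hw1, hw⟩ := exists_fixed V N H hVel.1 hVpow v hvV hvN (by
        intro g hg
        rw [hH, mem_comap, mem_centralizer_iff] at hg
        have := hg _ ⟨v, hvV, rfl⟩
        refine (QuotientGroup.eq_one_iff _).1 ?_
        show QuotientGroup.mk' N _ = 1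
        rw [map_mul, map_mul, map_mul, ← this, map_inv, map_inv]; group) P hPH hPv
      have hW0 : V ⊓ centralizer (H : Set G) ≠ ⊥ := by
        intro e
        have : w ∈ V ⊓ centralizer (H : Set G) := ⟨hwV, fun g hg => hw g hg⟩
        rw [e, mem_bot] at this
        exact hw1 this
      have h2 := (hG _ inferInstance hW0).comm_inf (E := P) (inf_le_left.trans hVP)
        (inf_le_right.trans (centralizer_anti hPH))
      rw [inf_idem] at h2
      exact hna h2
  · obtain ⟨x, hx, hxg⟩ := hG _ hFn hF0
    refine ⟨⟨⟨QuotientGroup.mk' _ x, x, hx, rfl⟩, ?_⟩⟩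
    rintro ⟨_, y, hy, rfl⟩
    obtain ⟨w, hw, k, rfl⟩ := hxg y hy
    refine ⟨k, Subtype.ext ?_⟩
    have : QuotientGroup.mk' (generalizedFittingSubgroup G) w = 1 := (QuotientGroup.eq_one_iff _).2 hw
    show QuotientGroup.mk' _ x ^ k = QuotientGroup.mk' _ (w * x ^ k)
    rw [map_mul, this, one_mul, map_zpow]
  · by_contra hV
    apply hnc
    rw [H23.fStar_def, hFit, hE hV, bot_sup_eq]
    exact hVel.1

end Cfsg.Agent.S4172
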