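import Cfsg.Statements.S4177
import Mathlib
import Cfsg.Agent.Base
import Cfsg.Agent.Lib.FGS.ClassSize

set_option autoImplicit false
open Cfsg

namespace Cfsg.Agent.S4177


section
variable {k V H : Type*} [Field k] [AddCommGroup V] [Module k V] [Group H]

/-- stabilizer of a vector -/
def stab (ρ : Representation k H V) (a : V) : Subgroup H where
  carrier := {h | ρ h a = a}
  one_mem' := by simp
  mul_mem' := by
    intro x y hx hy
    simp only [Set.mem_setOf_eq] at *
    rw [map_mul, Module.End.mul_apply, hy, hx]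
  inv_mem' := by
    intro x hx
    simp only [Set.mem_setOf_eq] at *
    conv_lhs => rw [← hx]
    rw [← Module.End.mul_apply, ← map_mul, inv_mul_cancel, map_one, Module.End.one_apply]

theorem mem_stab {ρ : Representation k H V} {a : V} {h : H} : h ∈ stab ρ a ↔ ρ h a = a := Iff.rfl

theorem eq_iff_mem_stab {ρ : Representation k H V} {a : V} {g h : H} :
    ρ g a = ρ h a ↔ g⁻¹ * h ∈ stab ρ a := by
  rw [mem_stab]
  constructor
  · intro e
    rw [map_mul, Module.End.mul_apply, ← e, ← Module.End.mul_apply, ← map_mul, inv_mul_cancel,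
      map_one, Module.End.one_apply]
  · intro e
    conv_lhs => rw [← e]
    rw [← Module.End.mul_apply, ← map_mul, mul_inv_cancel_left]

theorem card_orbit (ρ : Representation k H V) (a : V) :
    Nat.card {u : V | ∃ h : H, ρ h a = u} = (stab ρ a).index := by
  symm
  refine Nat.card_congr (Equiv.ofBijective (fun q : H ⧸ stab ρ a =>
    Quotient.liftOn' q (fun h => (⟨ρ h a, h, rfl⟩ : {u : V | ∃ h : H, ρ h a = u})) ?_) ⟨?_, ?_⟩)
  · intro g h e
    rw [QuotientGroup.leftRel_apply] at e
    exact Subtype.ext (eq_iff_mem_stab.2 e)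
  · intro x y
    induction x using QuotientGroup.induction_on
    induction y using QuotientGroup.induction_on
    intro e
    exact QuotientGroup.eq.2 (eq_iff_mem_stab.1 (congrArg Subtype.val e))
  · rintro ⟨_, h, rfl⟩
    exact ⟨(h : H ⧸ stab ρ a), rfl⟩

theorem key [Finite H] (ρ : Representation k H V) (a : V)
    (hspan : Submodule.span k {u : V | ∃ h : H, ρ h a = u} = ⊤) (B : Subgroup H)
    (hB : (Nat.card B : k) ≠ 0) (hBA : ∀ h : H, ∃ β ∈ B, ∃ α ∈ stab ρ a, h = β * α) :
    ∃ s : V, (∀ h : H, ρ h s = s) ∧ ∀ v : V, (∀ β ∈ B, ρ β v = v) → v ∈ Submodule.span k {s} := by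
  classical
  have := Fintype.ofFinite H
  let T : V →ₗ[k] V := ∑ β : B, ρ β
  have hT : ∀ v, T v = ∑ β : B, ρ β v := fun v => by simp [T, LinearMap.sum_apply]
  refine ⟨T a, ?_, ?_⟩
  · intro h
    let O : Finset V := Finset.univ.image fun h : H => ρ h a
    have hfib : ∀ u ∈ O, (Finset.univ.filter fun β : B => ρ β a = u).card =
        (Finset.univ.filter fun β : B => ρ β a = a).card := by
      intro u hu
      obtain ⟨g, -, rfl⟩ := Finset.mem_image.1 hu
      obtain ⟨β, hβ, α, hα, rfl⟩ := hBA g
      have e : ρ (β * α) a = ρ β a := by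
        rw [map_mul, Module.End.mul_apply, mem_stab.1 hα]
      rw [e]
      symm
      refine Finset.card_bij (fun x _ => ⟨β, hβ⟩ * x) ?_ ?_ ?_
      · intro x hx
        simp only [Finset.mem_filter, Finset.mem_univ, true_and] at hx ⊢
        rw [Subgroup.coe_mul, map_mul, Module.End.mul_apply, hx]
      · intro x _ y _ e
        exact mul_left_cancel e
      · intro y hy
        simp only [Finset.mem_filter, Finset.mem_univ, true_and] at hy
        refine ⟨(⟨β, hβ⟩ : B)⁻¹ * y, ?_, by simp⟩
        simp only [Finset.mem_filter, Finset.mem_univ, true_and]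
        exact mem_stab.1 (eq_iff_mem_stab.1 hy.symm)
    have hs : T a = (Finset.univ.filter fun β : B => ρ β a = a).card • ∑ u ∈ O, u := by
      rw [hT, Finset.smul_sum]
      rw [← Finset.sum_fiberwise_of_maps_to (s := Finset.univ) (t := O)
        (g := fun β : B => ρ β a) (fun x _ => Finset.mem_image.2 ⟨x, Finset.mem_univ _, rfl⟩)]
      refine Finset.sum_congr rfl fun u hu => ?_
      rw [← hfib u hu, ← Finset.sum_const]
      refine Finset.sum_congr rfl fun x hx => (Finset.mem_filter.1 hx).2
    rw [hs, map_nsmul, map_sum]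
    congr 1
    refine Finset.sum_bij (fun u _ => ρ h u) ?_ ?_ ?_ (fun _ _ => rfl)
    · intro u hu
      obtain ⟨g, -, rfl⟩ := Finset.mem_image.1 hu
      exact Finset.mem_image.2 ⟨h * g, Finset.mem_univ _, by rw [map_mul, Module.End.mul_apply]⟩
    · intro x _ y _ e
      have := congrArg (ρ h⁻¹) e
      simpa [← Module.End.mul_apply, ← map_mul] using this
    · intro u hu
      obtain ⟨g, -, rfl⟩ := Finset.mem_image.1 hu
      refine ⟨ρ (h⁻¹ * g) a, Finset.mem_image.2 ⟨_, Finset.mem_univ _, rfl⟩, ?_⟩
      rw [← Module.End.mul_apply, ← map_mul, mul_inv_cancel_left]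
  · intro v hv
    have h1 : ∀ w : V, T w ∈ Submodule.span k {T a} := by
      intro w
      have hw : w ∈ Submodule.span k {u : V | ∃ h : H, ρ h a = u} := hspan ▸ Submodule.mem_top
      have : Submodule.span k {u : V | ∃ h : H, ρ h a = u} ≤
          (Submodule.span k {T a}).comap T := by
        rw [Submodule.span_le]
        rintro _ ⟨g, rfl⟩
        obtain ⟨β, hβ, α, hα, rfl⟩ := hBA g
        have e : T (ρ (β * α) a) = T a := by
          rw [map_mul, Module.End.mul_apply, mem_stab.1 hα, hT, hT]
          refine Fintype.sum_equiv (Equiv.mulRight (⟨β, hβ⟩ : B)) _ _ fun x => ?_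
          simp
        simp only [SetLike.mem_coe, Submodule.mem_comap, e]
        exact Submodule.mem_span_singleton_self _
      exact this hw
    have h2 : T v = (Nat.card B : k) • v := by
      rw [hT, Finset.sum_congr rfl (fun (β : B) _ => hv β β.2), Finset.sum_const,
        Finset.card_univ, Nat.card_eq_fintype_card, Nat.cast_smul_eq_nsmul]
    have h3 : v = (Nat.card B : k)⁻¹ • T v := by
      rw [h2, smul_smul, inv_mul_cancel₀ hB, one_smul]
    rw [h3]
    exact Submodule.smul_mem _ _ (h1 v)

theorem finrank_le [Finite H] (ρ : Representation k H V) (a : V)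
    (hspan : Submodule.span k {u : V | ∃ h : H, ρ h a = u} = ⊤) (B : Subgroup H)
    (hB : (Nat.card B : k) ≠ 0) (hBA : ∀ h : H, ∃ β ∈ B, ∃ α ∈ stab ρ a, h = β * α) :
    Module.finrank k ρ.invariants ≤ 1 := by
  obtain ⟨s, -, hs⟩ := key ρ a hspan B hB hBA
  have hle : ρ.invariants ≤ Submodule.span k {s} := fun v hv => hs v fun β _ => hv β
  refine (Submodule.finrank_mono hle).trans ?_
  simpa using finrank_span_le_card (R := k) ({s} : Set V)

theorem fixed [Finite H] (ρ : Representation k H V) (a : V)
    (hspan : Submodule.span k {u : V | ∃ h : H, ρ h a = u} = ⊤) (B : Subgroup H)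
    (hB : (Nat.card B : k) ≠ 0) (hBA : ∀ h : H, ∃ β ∈ B, ∃ α ∈ stab ρ a, h = β * α)
    (b : V) (hb : B ≤ stab ρ b) (h : H) : ρ h b = b := by
  obtain ⟨s, hs1, hs⟩ := key ρ a hspan B hB hBA
  obtain ⟨c, rfl⟩ := Submodule.mem_span_singleton.1 (hs b fun β hβ => hb hβ)
  rw [map_smul, hs1]

end

/-- Let k be a field whose characteristic does not divide the order of the finite group H (for instance a field of characteristic zero), and ρ a k-linear representation of H on V. Let a be a vector whose H-orbit spans V. Then the space of H-fixed vectors has dimension at most 1, and every vector b whose H-orbit has size coprime to the size of the orbit of a is fixed by H. -/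
theorem result {k V H : Type*} [Field k] [AddCommGroup V] [Module k V] [Group H] [Finite H]
    (hchar : ¬ ringChar k ∣ Nat.card H) (ρ : Representation k H V) (a : V)
    (hspan : Submodule.span k {u : V | ∃ h : H, ρ h a = u} = ⊤) :
    Module.finrank k ρ.invariants ≤ 1 ∧
    ∀ b : V, (Nat.card {u : V | ∃ h : H, ρ h a = u}).Coprime (Nat.card {u : V | ∃ h : H, ρ h b = u}) → ∀ h : H, ρ h b = b := by
  have hne : ∀ B : Subgroup H, (Nat.card B : k) ≠ 0 := by
    intro B h
    exact hchar (((ringChar.spec k _).1 h).trans (Subgroup.card_subgroup_dvd_card B))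
  refine ⟨finrank_le ρ a hspan ⊤ (hne _) fun h => ⟨h, trivial, 1, Subgroup.one_mem _, by simp⟩, ?_⟩
  intro b hb
  rw [card_orbit, card_orbit] at hb
  exact fixed ρ a hspan (stab ρ b) (hne _) (H80.exists_mul_of_coprime_index hb.symm) b le_rfl

end Cfsg.Agent.S4177
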