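import Cfsg.Statements.S4176
import Mathlib
import Cfsg.Agent.Base
import Cfsg.Agent.S4177
import Cfsg.Agent.Lib.Core.Hall

set_option autoImplicit false
open Cfsg

namespace Cfsg.Agent.S4176


/-- Let k be a field of prime characteristic p, H a finite p-soluble group and ρ a k-linear representation of H on V. Let a be a vector that is fixed by some Sylow p-subgroup of H and whose H-orbit spans V. Then the space of H-fixed vectors has dimension at most 1, and every vector b whose H-orbit has size coprime to the size of the orbit of a is fixed by H. -/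
theorem result {k V H : Type*} [Field k] (p : ℕ) [Fact p.Prime] [CharP k p] [AddCommGroup V] [Module k V]
    [Group H] [Finite H] (hsol : Cfsg.IsPSolvable p H) (ρ : Representation k H V) (a : V)
    (hfix : ∃ P : Sylow p H, ∀ x : H, x ∈ (P : Subgroup H) → ρ x a = a)
    (hspan : Submodule.span k {u : V | ∃ h : H, ρ h a = u} = ⊤) :
    Module.finrank k ρ.invariants ≤ 1 ∧
    ∀ b : V, (Nat.card {u : V | ∃ h : H, ρ h a = u}).Coprime (Nat.card {u : V | ∃ h : H, ρ h b = u}) → ∀ h : H, ρ h b = b := by
  have hp : p.Prime := Fact.out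
  obtain ⟨P, hP⟩ := hfix
  have hA : ¬ p ∣ (S4177.stab ρ a).index := H80.not_dvd_index_of_sylow_le P fun x hx => hP x hx
  have hsep : H3.IsPiSeparable ({p}ᶜ) H := (H3.isPiSeparable_of_isPSolvable hp hsol).compl
  have main : ∀ B : Subgroup H, B.index.Coprime (S4177.stab ρ a).index → ∃ L : Subgroup H, L ≤ B ∧
      (Nat.card L : k) ≠ 0 ∧ ∀ h : H, ∃ β ∈ L, ∃ α ∈ S4177.stab ρ a, h = β * α := by
    intro B hB
    obtain ⟨L, hL⟩ := (hsep.subgroup B).exists_isPiHall
    obtain ⟨h1, j, h2⟩ := (H3.isPiHall_compl_singleton_iff hp).1 hL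
    refine ⟨L.map B.subtype, Subgroup.map_subtype_le _, ?_, ?_⟩
    · rw [Subgroup.card_map_of_injective B.subtype_injective, Ne, CharP.cast_eq_zero_iff k p]
      exact (Nat.Prime.coprime_iff_not_dvd hp).1 h1.symm
    · apply H80.exists_mul_of_coprime_index
      rw [Subgroup.index_map_subtype, h2]
      exact Nat.Coprime.mul_left (Nat.Coprime.pow_left _ ((Nat.Prime.coprime_iff_not_dvd hp).2 hA)) hB
  constructor
  · obtain ⟨L, -, h1, h2⟩ := main ⊤ (by simp)
    exact S4177.finrank_le ρ a hspan L h1 h2
  · intro b hb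
    rw [S4177.card_orbit, S4177.card_orbit] at hb
    obtain ⟨L, h0, h1, h2⟩ := main (S4177.stab ρ b) hb.symm
    exact S4177.fixed ρ a hspan L h1 h2 b h0

end Cfsg.Agent.S4176
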