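import Cfsg.Statements.S4178
import Mathlib
import Cfsg.Agent.Base

set_option autoImplicit false
open Cfsg

namespace Cfsg.Agent.S4178


theorem index_le_of {H X : Type*} [Group H] [Finite X] (R : Subgroup H) (f : H → X)
    (hf : ∀ g h, f g = f h → g⁻¹ * h ∈ R) : R.index ≤ Nat.card X := by
  refine Nat.card_le_card_of_injective (fun q : H ⧸ R => f q.out) fun q q' e => ?_
  have := QuotientGroup.eq.2 (hf _ _ e)
  simpa using this

theorem card_ne_zero {X : Type*} [Finite X] [Zero X] :
    Nat.card {x : X // x ≠ 0} = Nat.card X - 1 := by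
  classical
  have := Fintype.ofFinite X
  simp [Nat.card_eq_fintype_card, Fintype.card_subtype_compl]

/-- Let F be a finite field with q elements, V a non-zero finite-dimensional F-space of dimension d, H a group of invertible linear maps of V, and R the subgroup of H generated by the elements of H that fix some non-zero vector (have eigenvalue 1). Then the index of R in H is at most q^d − 1; and if H leaves invariant some proper non-zero subspace, the index is at most q^(d/2) − 1. -/
theorem result {F V : Type*} [Field F] [Fintype F] [AddCommGroup V] [Module F V] [FiniteDimensional F V] [Nontrivial V]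
    (H : Subgroup (V ≃ₗ[F] V)) :
    (Subgroup.closure {h : ↥H | ∃ v : V, v ≠ 0 ∧ (h : V ≃ₗ[F] V) v = v}).index ≤ Fintype.card F ^ Module.finrank F V - 1 ∧
    ((∃ W : Submodule F V, W ≠ ⊥ ∧ W ≠ ⊤ ∧ ∀ h ∈ H, ∀ w ∈ W, h w ∈ W) →
      ((Subgroup.closure {h : ↥H | ∃ v : V, v ≠ 0 ∧ (h : V ≃ₗ[F] V) v = v}).index : ℝ) ≤ Real.sqrt ((Fintype.card F : ℝ) ^ Module.finrank F V) - 1) := by
  have hV : Finite V := Module.finite_of_finite F
  have hcard : Nat.card V = Fintype.card F ^ Module.finrank F V := by
    rw [Module.natCard_eq_pow_finrank (K := F), Nat.card_eq_fintype_card]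
  set R := Subgroup.closure {h : ↥H | ∃ v : V, v ≠ 0 ∧ (h : V ≃ₗ[F] V) v = v} with hR
  have hst : ∀ (v : V), v ≠ 0 → ∀ g h : H, (g : V ≃ₗ[F] V) v = (h : V ≃ₗ[F] V) v →
      g⁻¹ * h ∈ R := by
    intro v hv g h e
    refine Subgroup.subset_closure ⟨v, hv, ?_⟩
    simp [← e]
  constructor
  · obtain ⟨v, hv⟩ := exists_ne (0 : V)
    rw [← hcard, ← card_ne_zero]
    exact index_le_of R (fun h => ⟨(h : V ≃ₗ[F] V) v, by simpa using hv⟩)
      fun g h e => hst v hv g h (congrArg Subtype.val e)
  · rintro ⟨W, hW0, hW1, hW⟩
    have hQ : Finite (V ⧸ W) := Finite.of_surjective _ W.mkQ_surjective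
    have h1 : R.index ≤ Nat.card W - 1 := by
      obtain ⟨v, hvW, hv⟩ := (Submodule.ne_bot_iff W).1 hW0
      rw [← card_ne_zero]
      exact index_le_of R (fun h => ⟨⟨(h : V ≃ₗ[F] V) v, hW h h.2 v hvW⟩, by simpa using hv⟩)
        fun g h e => hst v hv g h (congrArg (fun x => (x.1.1 : V)) e)
    have h2 : R.index ≤ Nat.card (V ⧸ W) - 1 := by
      obtain ⟨v, hv⟩ : ∃ v : V, v ∉ W := by
        by_contra h
        push Not at h
        exact hW1 (eq_top_iff.2 fun x _ => h x)
      rw [← card_ne_zero]
      refine index_le_of R (fun h => ⟨W.mkQ ((h : V ≃ₗ[F] V) v), ?_⟩) fun g h e => ?_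
      · intro h0
        rw [Submodule.mkQ_apply, Submodule.Quotient.mk_eq_zero] at h0
        have := hW _ (h⁻¹).2 _ h0
        simp at this
        exact hv this
      · have e1 := congrArg Subtype.val e
        simp only [Submodule.mkQ_apply] at e1
        rw [eq_comm, Submodule.Quotient.eq] at e1
        have e2 := hW _ (g⁻¹).2 _ e1
        set u : H := g⁻¹ * h with hu
        have e3 : (u : V ≃ₗ[F] V) v - v ∈ W := by
          simpa [hu] using e2
        by_contra hne
        have hinj : ∀ x : V, (u : V ≃ₗ[F] V) x = x → x = 0 := by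
          intro x hx
          by_contra hx0
          exact hne (Subgroup.subset_closure ⟨x, hx0, hx⟩)
        let t : W → W := fun w => ⟨(u : V ≃ₗ[F] V) w - w, W.sub_mem (hW _ u.2 _ w.2) w.2⟩
        have ht : Function.Injective t := by
          intro a b hab
          have := congrArg Subtype.val hab
          simp only [t] at this
          have h3 := hinj (a - b) (by rw [map_sub]; linear_combination (norm := module) this)
          exact Subtype.ext (sub_eq_zero.1 h3)
        obtain ⟨w, hw⟩ := (Finite.injective_iff_surjective.1 ht) ⟨_, e3⟩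
        have := congrArg Subtype.val hw
        simp only [t] at this
        have h3 := hinj (v - w) (by rw [map_sub]; linear_combination (norm := module) -this)
        exact hv (sub_eq_zero.1 h3 ▸ w.2)
    have h3 : Nat.card V = Nat.card W * Nat.card (V ⧸ W) := by
      exact W.card_eq_card_quotient_mul_card
    have p1 : 0 < Nat.card W := Nat.card_pos
    have p2 : 0 < Nat.card (V ⧸ W) := Nat.card_pos
    have h4 : (R.index + 1) ^ 2 ≤ Fintype.card F ^ Module.finrank F V := by
      rw [← hcard, h3, sq]
      exact Nat.mul_le_mul (by omega) (by omega)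
    rw [le_sub_iff_add_le]
    apply Real.le_sqrt_of_sq_le
    exact_mod_cast h4

end Cfsg.Agent.S4178
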