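import Cfsg.Statements.S4179
import Cfsg.Agent.Lib.CK.Top

set_option autoImplicit false
open Cfsg

namespace Cfsg.Agent.S4179

/-- Let V be a vector space of dimension n over the field with two elements with 2^n − 1 prime, and H a group of invertible linear maps of V. Then H is transitive on the non-zero vectors of V if and only if H is cyclic of order 2^n − 1, or H has order n·(2^n − 1) and contains a normal cyclic subgroup of order 2^n − 1, or H is the whole general linear group of V. -/
theorem result {V : Type*} [AddCommGroup V] [Module (ZMod 2) V] [Finite V] (n : ℕ) (hn : Module.finrank (ZMod 2) V = n)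
    (hprime : (2 ^ n - 1).Prime) (H : Subgroup (V ≃ₗ[ZMod 2] V)) :
    (∀ v w : V, v ≠ 0 → w ≠ 0 → ∃ h ∈ H, h v = w) ↔
      ((IsCyclic ↥H ∧ Nat.card ↥H = 2 ^ n - 1) ∨
       (Nat.card ↥H = n * (2 ^ n - 1) ∧ ∃ C : Subgroup (V ≃ₗ[ZMod 2] V), C ≤ H ∧ (C.subgroupOf H).Normal ∧
          IsCyclic ↥C ∧ Nat.card ↥C = 2 ^ n - 1) ∨
       H = ⊤) :=
  H98.CK.Top.main n hn hprime H

end Cfsg.Agent.S4179
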