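import Cfsg.Statements.S4182
import Mathlib
import Cfsg.Agent.Base
import Cfsg.Agent.Lib.FGS.ClassSize
import Cfsg.Agent.Lib.PGroup.Basic
import Cfsg.Agent.Lib.LocEven.PElem

set_option autoImplicit false
open Cfsg

namespace Cfsg.Agent.S4182

open Subgroup
open scoped Pointwise

universe u

theorem pgroup_cover {G : Type*} [Group G] [Finite G] {p : ℕ} [hp : Fact p.Prime] (hG : IsPGroup p G)
    {ι : Type*} (s : Finset ι) (K : ι → Subgroup G) (hs : s.card ≤ p)
    (hcov : ∀ g : G, ∃ i ∈ s, g ∈ K i) : ∃ i ∈ s, K i = ⊤ := by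
  classical
  have := Fintype.ofFinite G
  by_contra hn
  push Not at hn
  have h1 : (Finset.univ.erase (1 : G)) ⊆
      s.biUnion fun i => (Finset.univ.filter (· ∈ K i)).erase 1 := by
    intro g hg
    obtain ⟨i, hi, hgi⟩ := hcov g
    simp only [Finset.mem_biUnion, Finset.mem_erase, Finset.mem_filter, Finset.mem_univ, true_and,
      and_true] at hg ⊢
    exact ⟨i, hi, hg, hgi⟩
  have h2 := (Finset.card_le_card h1).trans Finset.card_biUnion_le
  obtain ⟨i₀, hi₀, -⟩ := hcov 1
  obtain ⟨M, -, -, hM, -⟩ := H5.exists_le_normal_index_eq hG (hn i₀ hi₀)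
  have hc : Nat.card G = Nat.card M * p := by rw [← hM, card_mul_index]
  have h3 : ∀ i ∈ s, ((Finset.univ.filter (· ∈ K i)).erase 1).card ≤ Nat.card M - 1 := by
    intro i hi
    rw [Finset.card_erase_of_mem (by simp)]
    obtain ⟨M', hle, -, hM', -⟩ := H5.exists_le_normal_index_eq hG (hn i hi)
    have e : Nat.card M' = Nat.card M := by
      have := card_mul_index M'
      rw [hM', hc] at this
      exact Nat.eq_of_mul_eq_mul_right hp.out.pos this
    have : (Finset.univ.filter (· ∈ K i)).card = Nat.card (K i) := by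
      rw [Nat.card_eq_fintype_card, Fintype.card_subtype]
    rw [this, ← e]
    exact Nat.sub_le_sub_right (card_le_of_le hle) 1
  have h4 := h2.trans (Finset.sum_le_card_nsmul _ _ _ h3)
  rw [Finset.card_erase_of_mem (by simp), Finset.card_univ, ← Nat.card_eq_fintype_card, hc,
    smul_eq_mul] at h4
  have h5 := h4.trans (Nat.mul_le_mul_right _ hs)
  have h6 : 0 < Nat.card M := Nat.card_pos
  have h7 := hp.out.two_le
  obtain ⟨m, hm⟩ : ∃ m, Nat.card M = m + 1 := ⟨_, (Nat.succ_pred_eq_of_pos h6).symm⟩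
  rw [hm, Nat.add_sub_cancel, add_mul, mul_comm m p] at h5
  omega

theorem main {p : ℕ} [hp : Fact p.Prime] {ι : Type*} (n : ℕ) :
    ∀ (G : Type u) [Group G] [Finite G], Nat.card G = n →
      closure {g : G | ∃ k : ℕ, orderOf g = p ^ k} = ⊤ → ∀ (s : Finset ι) (K : ι → Subgroup G),
      s.card ≤ p → (∀ g : G, H35.IsPElt p g → ∃ i ∈ s, g ∈ K i) → ∃ i ∈ s, K i = ⊤ := by
  classical
  induction n using Nat.strong_induction_on with
  | _ n ih =>
  intro G _ _ hn hgen s
  induction s using Finset.strongInduction with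
  | H s ihs =>
  intro K hs hcov
  by_contra hK
  push Not at hK
  have h1 : ∀ M : Subgroup G, M ≠ ⊤ → ∃ i ∈ s, pElementClosure p M ≤ K i := by
    intro M hM
    have hne : pElementClosure p M ≠ ⊤ := fun e => hM (top_le_iff.1 (e ▸ H68.pElementClosure_le M))
    obtain ⟨i, hi, hKi⟩ := ih _ (hn ▸ H1.card_lt_of_ne_top hne) (pElementClosure p M) rfl
      (by
        have e := H68.map_subtype_pElementClosure_top (p := p) (pElementClosure p M)
        rw [H68.pElementClosure_idem, H68.pElementClosure_def ⊤] at e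
        apply map_injective (pElementClosure p M).subtype_injective
        rw [← MonoidHom.range_eq_map, range_subtype]
        refine Eq.trans ?_ e
        congr 2
        ext x; simp)
      s (fun i => (K i).subgroupOf _) hs
      (fun g hg => hcov g ((H35.isPElt_coe g).2 hg))
    exact ⟨i, hi, subgroupOf_eq_top.1 hKi⟩
  have h2 : ∀ P : Sylow p G, ∃ i ∈ s, (P : Subgroup G) ≤ K i := by
    intro P
    by_cases hP : (P : Subgroup G) = ⊤
    · have hG : IsPGroup p G := by
        have := P.isPGroup'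
        rw [hP] at this
        exact this.of_equiv topEquiv
      obtain ⟨i, hi, e⟩ := pgroup_cover hG s K hs fun g =>
        hcov g (H35.isPElt_of_mem P.isPGroup' (hP ▸ mem_top g))
      exact absurd e (hK i hi)
    · obtain ⟨i, hi, e⟩ := h1 P hP
      exact ⟨i, hi, (H68.le_pElementClosure P.isPGroup' le_rfl).trans e⟩
  obtain ⟨i₀, hi₀, -⟩ := hcov 1 H35.isPElt_one
  obtain ⟨P, hP⟩ : ∃ P : Sylow p G, ∀ j ∈ s, (P : Subgroup G) ≤ K j → j = i₀ := by
    by_contra hc
    push Not at hc
    obtain ⟨i, hi, e⟩ := ihs (s.erase i₀) (Finset.erase_ssubset hi₀) K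
      ((Finset.card_erase_le).trans hs) (fun g hg => by
        obtain ⟨Q, hQ⟩ := hg.exists_sylow
        obtain ⟨j, hj, hQj, hne⟩ := hc Q
        exact ⟨j, Finset.mem_erase.2 ⟨hne, hj⟩, hQj hQ⟩)
    exact hK i (Finset.mem_of_mem_erase hi) e
  set H := pElementClosure p (K i₀) with hH
  have hstar : ∀ M : Subgroup G, M ≠ ⊤ → (P : Subgroup G) ≤ M → ∀ x ∈ M, H35.IsPElt p x → x ∈ H := by
    intro M hM hPM x hx ⟨k, hk⟩
    obtain ⟨i, hi, e⟩ := h1 M hM
    have := hP i hi ((H68.le_pElementClosure P.isPGroup' hPM).trans e)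
    subst this
    exact H68.mem_pElementClosure (e (H68.mem_pElementClosure hx hk)) hk
  have hHK : H ≤ K i₀ := H68.pElementClosure_le _
  have hPH : (P : Subgroup G) ≤ H := by
    obtain ⟨i, hi, e⟩ := h2 P
    have := hP i hi e
    subst this
    exact H68.le_pElementClosure P.isPGroup' e
  set N := normalizer (H : Set G) with hN
  have hHN : H ≤ N := le_normalizer
  have hNne : N ≠ ⊤ := by
    intro e
    have hHn : H.Normal := normalizer_eq_top_iff.1 e
    apply hK i₀ hi₀
    rw [eq_top_iff, ← hgen, closure_le]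
    intro x hx
    obtain ⟨a, ha⟩ := H35.IsPElt.exists_conj_mem (p := p) hx P
    have := hHn.conj_mem _ (hPH ha) a⁻¹
    exact hHK (by simpa [mul_assoc] using this)
  have hne : ∀ (g : G) (M : Subgroup G), M ≠ ⊤ → MulAut.conj g • M ≠ ⊤ := by
    intro g M hM e
    apply hM
    rw [← index_eq_one, ← H1.index_conj_smul g, e, index_top]
  have hF : ∀ g : G, (∀ x ∈ (P : Subgroup G), g⁻¹ * x * g ∈ N) → g ∈ N := by
    intro g hg
    rw [hN, H1.mem_normalizer_iff_conj_smul_eq]
    refine eq_of_le_of_card_ge ?_ (H1.card_conj_smul g H).ge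
    rw [H1.conj_smul_eq_map, map_le_iff_le_comap, hH, H68.pElementClosure_le_iff]
    intro y hy ⟨k, hk⟩
    exact hstar _ (hne g N hNne) (fun x hx => H1.mem_conj_smul_iff.2 (hg x hx)) _
      (H1.conj_mem_conj_smul (hHN (H68.mem_pElementClosure hy hk))) (H35.IsPElt.conj ⟨k, hk⟩ g)
  have hfix : Nat.card (MulAction.fixedPoints (P : Subgroup G) (G ⧸ N)) = 1 := by
    rw [Nat.card_eq_one_iff_exists]
    refine ⟨⟨((1 : G) : G ⧸ N), fun x => ?_⟩, ?_⟩
    · show ((x : G) • ((1 : G) : G ⧸ N)) = _
      rw [MulAction.Quotient.smul_mk, QuotientGroup.eq]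
      simpa using hHN (hPH x.2)
    · rintro ⟨q, hq⟩
      obtain ⟨g, rfl⟩ := QuotientGroup.mk_surjective q
      apply Subtype.ext
      show (g : G ⧸ N) = ((1 : G) : G ⧸ N)
      rw [QuotientGroup.eq, mul_one, inv_mem_iff]
      refine hF g fun x hx => ?_
      have : ((x⁻¹ : G) • (g : G ⧸ N)) = g := hq ⟨x⁻¹, inv_mem hx⟩
      rw [MulAction.Quotient.smul_mk, QuotientGroup.eq] at this
      simpa [mul_assoc] using this
  have hmod := P.isPGroup'.card_modEq_card_fixedPoints (G ⧸ N)
  rw [hfix] at hmod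
  have hgt : 1 < Nat.card (G ⧸ N) := one_lt_index_of_ne_top hNne
  have hge : p + 1 ≤ Nat.card (G ⧸ N) := by
    have := (Nat.modEq_iff_dvd' hgt.le).1 hmod.symm
    have := Nat.le_of_dvd (by omega) this
    omega
  choose f hf hf' using fun q : G ⧸ N => h2 (q.out • P)
  have hinj : Function.Injective fun q : G ⧸ N => (⟨f q, hf q⟩ : s) := by
    intro q q' e
    have e' : f q = f q' := congrArg Subtype.val e
    rw [← q.out_eq', ← q'.out_eq', QuotientGroup.eq, ← inv_mem_iff]
    refine hF _ fun x hx => hHN ?_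
    refine hstar (MulAut.conj q.out⁻¹ • K (f q)) (hne _ _ (hK _ (hf q))) (fun y hy => ?_) _ ?_ ?_
    · rw [H1.mem_conj_smul_iff, inv_inv]
      exact hf' q (H4.conj_mem_smul_sylow hy)
    · rw [H1.mem_conj_smul_iff, e']
      have := hf' q' (H4.conj_mem_smul_sylow (g := q'.out) hx)
      simpa [mul_assoc] using this
    · have := (H35.isPElt_of_mem P.isPGroup' hx).conj (q.out⁻¹ * q'.out)
      simpa [mul_assoc] using this
  have := Nat.card_le_card_of_injective _ hinj
  rw [Nat.card_eq_fintype_card (α := s), Fintype.card_coe] at this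
  omega


/-- Let p be a prime and G a finite group generated by its p-elements. If a finite family of proper subgroups of G covers the set of p-elements of G (every element of p-power order lies in one of them), then the family has at least p + 1 members. -/
theorem result {G : Type*} [Group G] [Finite G] (p : ℕ) [Fact p.Prime] (hgen : Subgroup.closure {g : G | ∃ k : ℕ, orderOf g = p ^ k} = ⊤)
    {ι : Type*} [Fintype ι] (K : ι → Subgroup G) (hK : ∀ i, K i ≠ ⊤)
    (hcov : ∀ g : G, (∃ k : ℕ, orderOf g = p ^ k) → ∃ i, g ∈ K i) :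
    p + 1 ≤ Fintype.card ι := by
  by_contra hn
  obtain ⟨i, -, e⟩ := main _ G rfl hgen Finset.univ K (by rw [Finset.card_univ]; omega)
    (fun g hg => by
      obtain ⟨i, hi⟩ := hcov g hg
      exact ⟨i, Finset.mem_univ _, hi⟩)
  exact hK i e

end Cfsg.Agent.S4182
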