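import Cfsg.Statements.S4184
import Mathlib
import Cfsg.Agent.Base
import Cfsg.Agent.Lib.FGS.ClassSize
import Cfsg.Agent.Lib.PGroup.Basic

set_option autoImplicit false
open Cfsg

namespace Cfsg.Agent.S4184

open H80 Subgroup

theorem exists_central_elt {G : Type*} [Group G] [Finite G] {p : ℕ} [Fact p.Prime] (P : Sylow p G)
    (h : p ∣ Nat.card G) : ∃ z ∈ (P : Subgroup G), (P : Subgroup G) ≤ Cx⟦z⟧ ∧ orderOf z = p := by
  have hne : (P : Subgroup G) ≠ ⊥ := by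
    intro hb
    have := P.dvd_card_of_dvd_card h
    rw [hb, card_bot] at this
    exact (Fact.out : p.Prime).one_lt.ne' (Nat.dvd_one.1 this)
  obtain ⟨z, hz, hzc, ho⟩ := H5.exists_mem_centralizer_orderOf_eq P.isPGroup' le_rfl le_normalizer hne
  exact ⟨z, hz, le_Cx_iff.2 hzc, ho⟩

theorem aux {G : Type*} [Group G] [Finite G] {a b c : ℕ} (hab : a.Coprime b) (hb : b ≠ 1)
    (hG : Nat.card G = a * b * c)
    (h1 : ∀ x : G, x ≠ 1 → a ∣ cs⟦x⟧ ∨ b ∣ cs⟦x⟧) (h2 : ∀ x : G, cs⟦x⟧ ∣ a * b)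
    (h3 : ∀ x : G, cs⟦x⟧ ≠ a * b) {p : ℕ} (hp : p.Prime) (hpa : p ∣ a) : ¬ p ∣ c := by
  intro hpc
  have := Fact.mk hp
  have hboth : ∀ x : G, a ∣ cs⟦x⟧ → b ∣ cs⟦x⟧ → False := fun x ha' hb' =>
    h3 x (Nat.dvd_antisymm (h2 x) (hab.mul_dvd_of_dvd_of_dvd ha' hb'))
  have hpb : ¬ p ∣ b := fun h => hp.one_lt.ne' (Nat.eq_one_of_dvd_coprimes hab hpa h)
  obtain ⟨q, hq, hqb⟩ := Nat.exists_prime_and_dvd hb
  have := Fact.mk hq
  have hpq : p ≠ q := fun h => hpb (h ▸ hqb)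
  have hcop : p.Coprime q := (Nat.coprime_primes hp hq).2 hpq
  obtain ⟨Q⟩ : Nonempty (Sylow q G) := inferInstance
  obtain ⟨w, -, hwQ, hwo⟩ := exists_central_elt Q (by rw [hG]; exact (hqb.mul_left a).mul_right c)
  have hw1 : w ≠ 1 := by
    intro h; rw [h, orderOf_one] at hwo; exact hq.one_lt.ne hwo
  have hwa : a ∣ cs⟦w⟧ := (h1 w hw1).resolve_right fun h =>
    not_dvd_cs_iff.2 ⟨Q, hwQ⟩ (hqb.trans h)
  have hpC : p ∣ Nat.card Cx⟦w⟧ := by
    obtain ⟨d, hd⟩ := h2 w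
    have e := card_Cx_mul_cs w
    rw [hG, hd, mul_comm (Nat.card _), mul_assoc] at e
    rw [Nat.eq_of_mul_eq_mul_left (cs_pos w) e]
    exact hpc.mul_left d
  obtain ⟨x, hxw, hxo⟩ := H1.exists_mem_orderOf_eq_prime hp hpC
  have hx1 : x ≠ 1 := by
    intro h; rw [h, orderOf_one] at hxo; exact hp.one_lt.ne hxo
  have hcomm : Commute x w := mem_Cx_iff_commute'.1 hxw
  have hco : (orderOf x).Coprime (orderOf w) := by rw [hxo, hwo]; exact hcop
  have hya : a ∣ cs⟦x * w⟧ := hwa.trans (cs_dvd_cs_mul_right hcomm hco)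
  have hxa : a ∣ cs⟦x⟧ := (h1 x hx1).resolve_right fun h =>
    hboth _ hya (h.trans (cs_dvd_cs_mul_left hcomm hco))
  have hyx : Cx⟦x * w⟧ ≤ Cx⟦x⟧ := by rw [Cx_mul_of_coprime hcomm hco]; exact inf_le_left
  have hyw : Cx⟦x * w⟧ ≤ Cx⟦w⟧ := by rw [Cx_mul_of_coprime hcomm hco]; exact inf_le_right
  have hrel : ¬ p ∣ (Cx⟦x * w⟧).relIndex Cx⟦x⟧ := by
    intro hd
    have e := relIndex_mul_index hyx
    have e2 : p * a ∣ a * b := ((mul_dvd_mul hd hxa).trans (dvd_of_eq e)).trans (h2 _)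
    have ha0 : 0 < a := Nat.pos_of_dvd_of_pos hxa (cs_pos x)
    rw [mul_comm p a] at e2
    exact hpb (Nat.dvd_of_mul_dvd_mul_left ha0 e2)
  obtain ⟨S, -, hS⟩ := H4.exists_sylow_ge_not_dvd_relIndex (p := p) (K := Cx⟦x * w⟧) (A := ⊥)
    IsPGroup.of_bot bot_le
  have hS' : ¬ p ∣ ((S : Subgroup G) ⊓ Cx⟦x * w⟧).relIndex Cx⟦x⟧ := by
    rw [← relIndex_mul_relIndex _ _ _ inf_le_right hyx, inf_relIndex_right]
    intro hd
    rcases (Nat.Prime.dvd_mul hp).1 hd with hd | hd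
    · exact hS hd
    · exact hrel hd
  obtain ⟨P, hxP⟩ := H35.IsPElt.exists_sylow (p := p) (x := x) ⟨1, by rw [hxo, pow_one]⟩
  obtain ⟨z, -, hzP, hzo⟩ := exists_central_elt P (by rw [hG]; exact hpc.mul_left _)
  have hzx : z ∈ Cx⟦x⟧ := mem_Cx_comm.1 (hzP hxP)
  obtain ⟨k, -, hk⟩ := H4.exists_conj_le_of_not_dvd_relIndex (S.isPGroup'.to_inf_left) hS'
    (T := zpowers z) (IsPGroup.of_card (n := 1) (by rw [Nat.card_zpowers, hzo, pow_one]))
    (zpowers_le.2 hzx)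
  have hz' := hyw (mem_inf.1 (hk z (mem_zpowers z))).2
  have hz1 : z ≠ 1 := by
    intro h; rw [h, orderOf_one] at hzo; exact hp.one_lt.ne hzo
  have hzb : b ∣ cs⟦z⟧ := (h1 z hz1).resolve_left fun h =>
    not_dvd_cs_iff.2 ⟨P, hzP⟩ (hpa.trans h)
  have hcomm' : Commute (k * z * k⁻¹) w := mem_Cx_iff_commute'.1 hz'
  have hco' : (orderOf (k * z * k⁻¹)).Coprime (orderOf w) := by
    rw [H35.orderOf_conj, hzo, hwo]; exact hcop
  refine hboth (k * z * k⁻¹ * w) (hwa.trans (cs_dvd_cs_mul_right hcomm' hco')) ?_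
  refine dvd_trans ?_ (cs_dvd_cs_mul_left hcomm' hco')
  rw [cs_conj]; exact hzb

theorem key {G : Type*} [Group G] [Finite G] (hZ : center G = ⊥) {a b : ℕ} (hab : a.Coprime b)
    (ha : a ≠ 1) (hb : b ≠ 1) (hda : a ∣ Nat.card G) (hdb : b ∣ Nat.card G)
    (h1 : ∀ x : G, x ≠ 1 → a ∣ cs⟦x⟧ ∨ b ∣ cs⟦x⟧) (h2 : ∀ x : G, cs⟦x⟧ ∣ a * b)
    (h3 : ∀ x : G, cs⟦x⟧ ≠ a * b) : Nat.card G = a * b := by
  obtain ⟨c, hc⟩ := hab.mul_dvd_of_dvd_of_dvd hda hdb
  by_contra hne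
  have hc1 : c ≠ 1 := by rintro rfl; exact hne (by simpa using hc)
  obtain ⟨p, hp, hpc⟩ := Nat.exists_prime_and_dvd hc1
  have := Fact.mk hp
  by_cases hpa : p ∣ a
  · exact aux hab hb hc h1 h2 h3 hp hpa hpc
  by_cases hpb : p ∣ b
  · refine aux hab.symm ha (by rw [hc, mul_comm a b]) (fun x hx => (h1 x hx).symm)
      (fun x => by rw [mul_comm]; exact h2 x) (fun x => by rw [mul_comm]; exact h3 x) hp hpb hpc
  obtain ⟨P⟩ : Nonempty (Sylow p G) := inferInstance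
  have hle := sylow_le_center_of_forall_not_dvd (p := p) (fun x hd => by
    rcases (Nat.Prime.dvd_mul hp).1 (hd.trans (h2 x)) with h | h
    · exact hpa h
    · exact hpb h) P
  obtain ⟨z, hz, -, hzo⟩ := exists_central_elt P (by rw [hc]; exact hpc.mul_left _)
  have := hle hz
  rw [hZ, mem_bot] at this
  rw [this, orderOf_one] at hzo
  exact hp.one_lt.ne hzo

theorem exists_split (n : ℕ) (hn : n ≠ 0) (A : Set ℕ) :
    ∃ a b : ℕ, n = a * b ∧ (∀ p, p.Prime → p ∣ a → p ∈ A) ∧ (∀ p, p.Prime → p ∣ b → p ∉ A) := by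
  induction n using Nat.recOnMul with
  | zero => exact absurd rfl hn
  | one => exact ⟨1, 1, rfl, fun p hp h => absurd (Nat.dvd_one.1 h) hp.one_lt.ne',
      fun p hp h => absurd (Nat.dvd_one.1 h) hp.one_lt.ne'⟩
  | prime q hq =>
    by_cases hA : q ∈ A
    · exact ⟨q, 1, by simp, fun p hp h => (Nat.prime_dvd_prime_iff_eq hp hq).1 h ▸ hA,
        fun p hp h => absurd (Nat.dvd_one.1 h) hp.one_lt.ne'⟩
    · exact ⟨1, q, by simp, fun p hp h => absurd (Nat.dvd_one.1 h) hp.one_lt.ne',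
        fun p hp h => (Nat.prime_dvd_prime_iff_eq hp hq).1 h ▸ hA⟩
  | mul m n ihm ihn =>
    obtain ⟨a, b, rfl, h1, h2⟩ := ihm (left_ne_zero_of_mul hn)
    obtain ⟨c, d, rfl, h3, h4⟩ := ihn (right_ne_zero_of_mul hn)
    refine ⟨a * c, b * d, by ring, fun p hp h => ?_, fun p hp h => ?_⟩
    · exact ((Nat.Prime.dvd_mul hp).1 h).elim (h1 p hp) (h3 p hp)
    · exact ((Nat.Prime.dvd_mul hp).1 h).elim (h2 p hp) (h4 p hp)

theorem dvd_cs_of {M : Type*} [Group M] [Finite M] {b r : ℕ} (hb : b ∣ Nat.card M) (hr : r.Prime)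
    (hrb : ¬ r ∣ b) {x : M} (hx : orderOf x = r)
    (h : ∀ q, q.Prime → q ∣ b → ¬ ∃ y : M, orderOf y = r * q) : b ∣ cs⟦x⟧ := by
  rw [← card_Cx_mul_cs x] at hb
  refine Nat.Coprime.dvd_of_dvd_mul_left ?_ hb
  refine Nat.coprime_of_dvd fun q hq hqb hqC => ?_
  obtain ⟨y, hy, hyo⟩ := H1.exists_mem_orderOf_eq_prime hq hqC
  have hne : r ≠ q := fun e => hrb (e ▸ hqb)
  refine h q hq hqb ⟨x * y, ?_⟩
  rw [(mem_Cx_iff_commute.1 hy).orderOf_mul_eq_mul_orderOf_of_coprime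
    (by rw [hx, hyo]; exact (Nat.coprime_primes hr hq).2 hne), hx, hyo]


/-- Let G and M be finite groups with trivial centres and the same set of conjugacy class sizes, and suppose the prime graph of M is disconnected: the prime divisors of #M split into two non-empty parts such that M has no element of order pq with p in one part and q in the other. Then #G = #M. -/
theorem result {G M : Type*}
    [Group G] [Finite G] [Group M] [Finite M] (hZG : Subgroup.center G = ⊥) (hZM : Subgroup.center M = ⊥)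
    (h : Set.range (fun g : G => (Subgroup.centralizer ({g} : Set G)).index) = Set.range (fun g : M => (Subgroup.centralizer ({g} : Set M)).index))
    (hdisc : ∃ A : Set ℕ, (∃ a ∈ A, a.Prime ∧ a ∣ Nat.card M) ∧ (∃ b ∉ A, b.Prime ∧ b ∣ Nat.card M) ∧
      ∀ a ∈ A, ∀ b ∉ A, a.Prime → b.Prime → a ∣ Nat.card M → b ∣ Nat.card M → ¬ ∃ x : M, orderOf x = a * b) :
    Nat.card G = Nat.card M := by
  obtain ⟨A, ⟨p, hpA, hp, hpM⟩, ⟨q, hqA, hq, hqM⟩, hA⟩ := hdisc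
  obtain ⟨a, b, hab, ha, hb⟩ := exists_split (Nat.card M) Nat.card_pos.ne' A
  have hcop : a.Coprime b := Nat.coprime_of_dvd fun r hr h1 h2 => hb r hr h2 (ha r hr h1)
  have hpa : p ∣ a := ((Nat.Prime.dvd_mul hp).1 (hab ▸ hpM)).resolve_right fun h => hb p hp h hpA
  have hqb : q ∣ b := ((Nat.Prime.dvd_mul hq).1 (hab ▸ hqM)).resolve_left fun h => hqA (ha q hq h)
  have haM : a ∣ Nat.card M := hab ▸ dvd_mul_right a b
  have hbM : b ∣ Nat.card M := hab ▸ dvd_mul_left b a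
  have hA1 : ∀ (r : ℕ) (x : M), r.Prime → r ∈ A → orderOf x = r → b ∣ cs⟦x⟧ := fun r x hr hrA hx =>
    dvd_cs_of hbM hr (fun h => hb r hr h hrA) hx fun s hs hsb =>
      hA r hrA s (hb s hs hsb) hr hs (hx ▸ orderOf_dvd_natCard x) (hsb.trans hbM)
  have hA2 : ∀ (r : ℕ) (x : M), r.Prime → r ∉ A → orderOf x = r → a ∣ cs⟦x⟧ := fun r x hr hrA hx =>
    dvd_cs_of haM hr (fun h => hrA (ha r hr h)) hx fun s hs hsa => by
      rw [mul_comm]
      exact hA s (ha s hs hsa) r hrA hs hr (hsa.trans haM) (hx ▸ orderOf_dvd_natCard x)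
  have hGM : ∀ x : G, ∃ y : M, cs⟦y⟧ = cs⟦x⟧ := fun x => by
    have : cs⟦x⟧ ∈ Set.range (fun g : G => cs⟦g⟧) := ⟨x, rfl⟩
    rw [h] at this
    exact this
  have hMG : ∀ y : M, ∃ x : G, cs⟦x⟧ = cs⟦y⟧ := fun y => by
    have : cs⟦y⟧ ∈ Set.range (fun g : M => cs⟦g⟧) := ⟨y, rfl⟩
    rw [← h] at this
    exact this
  have := Fact.mk hp
  have := Fact.mk hq
  obtain ⟨u, hu⟩ := exists_prime_orderOf_dvd_card' p hpM
  obtain ⟨v, hv⟩ := exists_prime_orderOf_dvd_card' q hqM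
  rw [hab]
  refine key hZG hcop (fun e => hp.one_lt.ne' (Nat.dvd_one.1 (e ▸ hpa)))
    (fun e => hq.one_lt.ne' (Nat.dvd_one.1 (e ▸ hqb))) ?_ ?_ ?_ ?_ ?_
  · obtain ⟨x, hx⟩ := hMG v
    exact (hA2 q v hq hqA hv).trans (hx ▸ cs_dvd_card x)
  · obtain ⟨x, hx⟩ := hMG u
    exact (hA1 p u hp hpA hu).trans (hx ▸ cs_dvd_card x)
  · intro x hx
    obtain ⟨y, hy⟩ := hGM x
    have hy1 : y ≠ 1 := by
      rintro rfl
      rw [cs_one, eq_comm, cs_eq_one_iff, hZG, mem_bot] at hy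
      exact hx hy
    obtain ⟨r, hr, hrd⟩ := Nat.exists_prime_and_dvd (mt orderOf_eq_one_iff.1 hy1)
    obtain ⟨w, hw, hwo⟩ := H1.exists_mem_orderOf_eq_prime (H := zpowers y) hr
      (by rwa [Nat.card_zpowers])
    rw [← hy]
    by_cases hrA : r ∈ A
    · exact Or.inr ((hA1 r w hr hrA hwo).trans (cs_dvd_of_mem_zpowers hw))
    · exact Or.inl ((hA2 r w hr hrA hwo).trans (cs_dvd_of_mem_zpowers hw))
  · intro x
    obtain ⟨y, hy⟩ := hGM x
    rw [← hy, ← hab]; exact cs_dvd_card y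
  · intro x
    obtain ⟨y, hy⟩ := hGM x
    rw [← hy, ← hab]
    intro e
    have e2 := card_Cx_mul_cs y
    rw [e] at e2
    have e3 : Nat.card Cx⟦y⟧ = 1 := by
      have hpos : 0 < Nat.card M := Nat.card_pos
      exact Nat.eq_of_mul_eq_mul_right hpos (by rw [e2, one_mul])
    have e4 : Cx⟦y⟧ = ⊥ := card_eq_one.1 e3
    have e5 : y = 1 := by
      have := self_mem_Cx y
      rwa [e4, mem_bot] at this
    subst e5
    rw [cs_one] at e
    exact hp.one_lt.ne' (Nat.dvd_one.1 (e ▸ hpM))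

end Cfsg.Agent.S4184
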