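import Cfsg.Statements.S4185
import Cfsg.Agent.Lib.PAdj.Red
import Cfsg.Agent.Lib.PAdj.Lin
import Cfsg.Agent.Lib.PAdj.Uni
import Cfsg.Agent.Lib.PAdj.Orth
import Cfsg.Agent.Lib.PAdj.Exc

set_option autoImplicit false
open Cfsg

namespace Cfsg.Agent.S4185

/-- Let G be a finite group with normal subgroups K < H such that K is nilpotent and contains every solvable normal subgroup of G, H/K is a simple group of Lie type (in some characteristic p) and the centralizer of H/K in G/K is trivial. If G/H is not cyclic, then some prime r dividing #(G/H) is adjacent to every other vertex of the prime graph of G: for every prime s ≠ r dividing #G there is an element of order rs. -/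
theorem result {G : Type*} [Group G] [Finite G]
    (K H : Subgroup G) [K.Normal] [H.Normal] (hKH : K < H)
    (hrad : ∀ M : Subgroup G, M.Normal → Group.IsSolvable ↥M → M ≤ K) (hK : Group.IsNilpotent ↥K)
    (p : ℕ) (hS : IsSimpleGroup (↥H ⧸ K.subgroupOf H)) (hS' : Cfsg.IsLieTypeChar p (↥H ⧸ K.subgroupOf H))
    (hC : Subgroup.centralizer ((H.map (QuotientGroup.mk' K) : Subgroup (G ⧸ K)) : Set (G ⧸ K)) = ⊥)
    (hnc : ¬ IsCyclic (G ⧸ H)) :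
    ∃ r : ℕ, r.Prime ∧ r ∣ Nat.card (G ⧸ H) ∧
      ∀ s : ℕ, s.Prime → s ∣ Nat.card G → s ≠ r → ∃ g : G, orderOf g = r * s := by
  open H67.PA in
  refine red K H hKH.le hK hS (fun hZ => ?_) hC hnc
  rcases hS' with ⟨F, _, _, _, n, hn, h, ⟨e⟩⟩ | ⟨F, _, _, _, m, hm, h, ⟨e⟩⟩ |
    ⟨F, _, _, _, n, q, hF, hn, h, ⟨e⟩⟩ | ⟨F, _, _, _, m, hm, hodd, ⟨e⟩⟩ |
    ⟨F, _, _, _, m, hm, ⟨e⟩⟩ | ⟨F, _, _, _, m, a, b, hm, hab, ⟨e⟩⟩ |
    ⟨F, _, _, _, ⟨h, ⟨e⟩⟩ | ⟨⟨e⟩⟩ | ⟨⟨e⟩⟩ | ⟨⟨e⟩⟩ | ⟨⟨e⟩⟩⟩ |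
    ⟨F, _, _, _, q, hq, h | h⟩ | h | h | h
  · exact (H67.PA.fam_psl hn h).congr e
  · exact (H67.PA.fam_psp hm).congr e
  · exact (H67.PA.fam_psu hF hn h).congr e
  · exact (H67.PA.fam_odd hm hodd).congr e
  · exact (H67.PA.fam_plus hm).congr e
  · exact (H67.PA.fam_minus hm hab).congr e
  · exact (H67.PA.fam_G2 h).congr e
  · exact H67.PA.fam_F4.congr e
  · exact H67.PA.fam_E6.congr e
  · exact H67.PA.fam_E7.congr e
  · exact H67.PA.fam_E8.congr e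
  · exact H67.PA.fam_2E6 hZ ⟨F, _, _, q, hq, h⟩
  · exact H67.PA.fam_3D4 ⟨F, _, _, q, hq, h⟩
  · exact H67.PA.fam_Sz h.2
  · exact H67.PA.fam_2F4 h.2
  · exact H67.PA.fam_Ree h.2

end Cfsg.Agent.S4185
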