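import Cfsg.Statements.S4186
import Mathlib
import Cfsg.Agent.Base

set_option autoImplicit false
open Cfsg

namespace Cfsg.Agent.S4186


/-- Let T and X be subgroups of a group with T a finite 2-group normalizing X but not centralizing it. Then some element of T inverts some non-identity element of X under conjugation. -/
theorem result {G : Type*} [Group G] (T X : Subgroup G) [Finite ↥T] (hT : IsPGroup 2 ↥T) (hTN : T ≤ Subgroup.normalizer (X : Set G)) (hTC : ¬ T ≤ Subgroup.centralizer (X : Set G)) : ∃ t ∈ T, ∃ x ∈ X, x ≠ 1 ∧ t * x * t⁻¹ = x⁻¹ := by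
  have key : ∀ k : ℕ, ∀ t ∈ T, t ^ 2 ^ k = 1 → t ∉ Subgroup.centralizer (X : Set G) →
      ∃ t ∈ T, ∃ x ∈ X, x ≠ 1 ∧ t * x * t⁻¹ = x⁻¹ := by
    intro k
    induction k with
    | zero =>
      intro t _ h hn
      rw [pow_zero, pow_one] at h
      exact absurd (h ▸ one_mem _) hn
    | succ k ih =>
      intro t ht h hn
      by_cases h2 : t ^ 2 ∈ Subgroup.centralizer (X : Set G)
      · rw [Subgroup.mem_centralizer_iff] at hn h2
        push Not at hn
        obtain ⟨y, hy, hne⟩ := hn
        refine ⟨t, ht, y⁻¹ * (t * y * t⁻¹), mul_mem (inv_mem hy)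
          ((Subgroup.mem_normalizer_iff.1 (hTN ht) y).1 hy), ?_, ?_⟩
        · intro e
          apply hne
          rw [inv_mul_eq_one, eq_mul_inv_iff_mul_eq] at e
          exact e
        · have h3 := h2 y hy
          calc t * (y⁻¹ * (t * y * t⁻¹)) * t⁻¹ = t * y⁻¹ * t⁻¹ * (t ^ 2 * y) * (t ^ 2)⁻¹ := by
                simp only [sq]; group
            _ = (y⁻¹ * (t * y * t⁻¹))⁻¹ := by rw [← h3]; group
      · exact ih _ (pow_mem ht 2) (by rw [← pow_mul, ← pow_succ', h]) h2
  obtain ⟨t, ht, hn⟩ := SetLike.not_le_iff_exists.1 hTC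
  obtain ⟨k, hk⟩ := hT ⟨t, ht⟩
  exact key k t ht (by simpa using congrArg Subtype.val hk) hn

end Cfsg.Agent.S4186
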