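import Cfsg.Statements.S4188
import Mathlib
import Cfsg.Agent.Base
import Cfsg.Agent.Lib.LocEven.ZC
import Cfsg.Agent.Lib.PGroup.Frattini

set_option autoImplicit false
open Cfsg

namespace Cfsg.Agent.S4188

open Subgroup

theorem relIndex_le_two {P : Type*} [Group P] [Finite P] {L M : Subgroup P} (hL : IsCyclic L)
    (h : ∀ l ∈ L, l * l ∈ M) : M.relIndex L ≤ 2 := by
  obtain ⟨d, hd⟩ := hL.exists_generator
  have h1 : ∀ x ∈ L, x ∈ M ∨ x * d ∈ M := fun x hx => by
    obtain ⟨k, hk⟩ := hd ⟨x, hx⟩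
    obtain rfl : (d : P) ^ k = x := congrArg Subtype.val hk
    rcases Int.even_or_odd' k with ⟨j, rfl | rfl⟩
    · exact Or.inl (by rw [two_mul, zpow_add]; exact h _ (zpow_mem d.2 _))
    · exact Or.inr (by
        rw [← zpow_add_one, show 2 * j + 1 + 1 = (j + 1) + (j + 1) by ring, zpow_add]
        exact h _ (zpow_mem d.2 _))
  have h2 : H70.Le2 M L := fun x hx y hy h3 h4 => by
    have := mul_mem ((h1 x hx).resolve_left h3) (inv_mem ((h1 _ (inv_mem hy)).resolve_left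
      (mt inv_mem_iff.1 h4)))
    simpa [mul_assoc] using this
  rcases h2.relIndex_cases with h | h <;> omega

theorem relIndex_le_mul {P : Type*} [Group P] [Finite P] {L M Q : Subgroup P} (h : H70.Le2 Q ⊤) :
    M.relIndex L ≤ 2 * M.relIndex (Q ⊓ L) := by
  refine (relIndex_le_of_le_left (inf_le_left (b := Q)) index_ne_zero_of_finite).trans ?_
  rw [← relIndex_inf_mul_relIndex, mul_comm]
  refine Nat.mul_le_mul_right _ ?_
  rcases (h.mono_right (le_top (a := L))).relIndex_cases with h | h <;> omega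

universe u

theorem key (n : ℕ) : ∀ (V P : Type u) [CommGroup V] [Finite V] [Group P] [Finite P]
    (ρ : P →* MulAut V), Nat.card V = n → Odd n → Nontrivial V → IsPGroup 2 P →
    (∀ W : Subgroup V, (∀ g, ∀ w ∈ W, ρ g w ∈ W) → W = ⊥ ∨ W = ⊤) → ∀ L M : Subgroup P, M ≤ L →
    L ⊓ ρ.ker ≤ M → (∀ l ∈ L, ∀ g, g * l * g⁻¹ * l⁻¹ ∈ M) → (∀ l ∈ L, l * l ∈ M) →
    n = 3 ∨ 2 * M.relIndex L ≤ n := by
  induction n using Nat.strong_induction_on with
  | _ n ih =>
  intro V P _ _ _ _ ρ hn ho hV hP hirr L M hML hk hc hs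
  wlog hρ : Function.Injective ρ generalizing P
  · have h1 : (M.map ρ.rangeRestrict).relIndex (L.map ρ.rangeRestrict) = M.relIndex L := by
      rw [← relIndex_comap, ← inf_relIndex_right]
      congr 1
      refine le_antisymm ?_ (le_inf (le_comap_map _ _) hML)
      rintro x ⟨⟨m, hm, e⟩, hx⟩
      simpa using mul_mem hm (hk (x := m⁻¹ * x) ⟨L.mul_mem (L.inv_mem (hML hm)) hx, by
        simpa [inv_mul_eq_one] using congrArg Subtype.val e⟩)
    rw [← h1]
    refine this ρ.range ρ.range.subtype (hP.of_surjective _ ρ.rangeRestrict_surjective)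
      (fun W hW => hirr W fun g => hW (ρ.rangeRestrict g)) _ _ (map_mono hML) (by simp) ?_ ?_
      Subtype.val_injective
    · rintro _ ⟨l, hl, rfl⟩ g
      obtain ⟨g, rfl⟩ := ρ.rangeRestrict_surjective g
      exact ⟨_, hc l hl g, by simp⟩
    · rintro _ ⟨l, hl, rfl⟩
      exact ⟨_, hs l hl, by simp⟩
  have h1 : 1 < n := hn ▸ Finite.one_lt_card
  by_cases hcy : IsCyclic P
  · have := relIndex_le_two (L := L) inferInstance hs
    obtain ⟨k, rfl⟩ := ho
    omega
  have h9 : 8 ≤ n := by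
    by_contra h8
    have hp : n.Prime := by
      obtain ⟨k, rfl⟩ := ho
      have : k ≤ 3 := by omega
      interval_cases k <;> simp_all <;> norm_num
    haveI := Fact.mk hp
    haveI := isCyclic_of_prime_card hn
    haveI := ZMod.isCyclic_units_prime (hn ▸ hp)
    exact hcy (isCyclic_of_injective ((IsCyclic.mulAutMulEquiv V).toMonoidHom.comp ρ)
      ((IsCyclic.mulAutMulEquiv V).injective.comp hρ))
  rcases H70.exists_normal_four_or (S := ⊤) (hP.to_subgroup _) (fun h => hcy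
    (isCyclic_of_surjective _ topEquiv.surjective)) with ⟨c, m, -, h2⟩ | ⟨U, -, hU, ⟨h2, h3⟩, h4⟩
  · have := relIndex_le_mul (L := L) (M := M) h2
    have := relIndex_le_two (L := zpowers c ⊓ L) (isCyclic_of_le inf_le_left) fun l hl => hs l hl.2
    omega
  haveI : U.Normal := normalizer_eq_top_iff.1 (top_le_iff.1 hU)
  haveI : IsKleinFour U := ⟨h4, by
    haveI := Finite.one_lt_card_iff_nontrivial.1 (show 1 < Nat.card U by omega)
    exact (Monoid.exponent_eq_prime_iff Nat.prime_two).2 fun g hg =>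
      orderOf_eq_prime (Subtype.ext (h3 g g.2)) hg⟩
  obtain ⟨⟨z, hzU, hz⟩, hz1⟩ := ne_bot_iff_exists_ne_one.1 (H5.inf_center_ne_bot hP U
    fun h => by simp [h] at h4)
  replace hz1 : z ≠ 1 := fun h => hz1 (Subtype.ext h)
  replace hz := mem_center_iff.1 hz
  obtain ⟨a, haU, ha⟩ : ∃ a ∈ U, a ∉ zpowers z := SetLike.not_le_iff_exists.1 fun h => by
    have := card_le_of_le h
    rw [Nat.card_zpowers, orderOf_eq_prime (h3 z hzU) hz1] at this
    omega
  have ha1 : a ≠ 1 := fun h => ha (h ▸ one_mem _)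
  have haz : a ≠ z := fun h => ha (h ▸ mem_zpowers _)
  have hcj : ∀ g, g * a * g⁻¹ = a ∨ g * a * g⁻¹ = a * z := fun g => or_iff_not_imp_left.2 fun h =>
    congrArg Subtype.val (IsKleinFour.eq_mul_of_ne_all (x := (⟨a, haU⟩ : U)) (y := ⟨z, hzU⟩)
      (z := ⟨_, Normal.conj_mem inferInstance a haU g⟩) (by simpa) (by simpa) (by simpa)
      (by simpa [mul_inv_eq_iff_eq_mul]) (by simpa using h) (by
        simpa [mul_inv_eq_iff_eq_mul, ← hz g] using haz))
  have hap : ∀ g h v, ρ (g * h) v = ρ g (ρ h v) := fun g h v => by simp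
  let F : P → Subgroup V := fun g => (ρ g).toMonoidHom.eqLocus (MonoidHom.id V)
  have hF : ∀ g v, v ∈ F g ↔ ρ g v = v := fun _ _ => Iff.rfl
  have hFt : ∀ g, F g = ⊤ → g = 1 := fun g h => hρ (by
    ext v
    simpa using (hF g v).1 (h ▸ mem_top v))
  have hinv : ∀ u ∈ U, F u = ⊥ → ∀ v, ρ u v = v⁻¹ := fun u hu h v => by
    refine eq_inv_of_mul_eq_one_left (mem_bot.1 (h ▸ (hF _ _).2 ?_))
    rw [map_mul, ← hap, ← pow_two, h3 u hu, map_one, mul_comm]
    rfl
  have hcen : ∀ u ∈ U, u ≠ 1 → (∀ g, g * u = u * g) → ∀ v, ρ u v = v⁻¹ := fun u hu h1 h =>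
    hinv u hu ((hirr _ fun g w hw => (hF _ _).2 (by rw [← hap, ← h, hap, (hF _ _).1 hw])).resolve_right
      (mt (hFt u) h1))
  have hzv := hcen z hzU hz1 hz
  have hna : ¬ ∀ v, ρ a v = v⁻¹ := fun h => haz (hρ (MulEquiv.ext fun v => (h v).trans (hzv v).symm))
  obtain ⟨x, hx⟩ : ∃ x, x * a * x⁻¹ = a * z := by
    by_contra h
    exact hna (hcen a haU ha1 fun g => mul_inv_eq_iff_eq_mul.1
      ((hcj g).resolve_right fun e => h ⟨g, e⟩))
  let Q := centralizer ({a} : Set P)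
  have hQ : ∀ g, g ∈ Q ↔ g * a * g⁻¹ = a := fun g =>
    mem_centralizer_singleton_iff.trans mul_inv_eq_iff_eq_mul.symm
  have hzz : z * z = 1 := by rw [← pow_two, h3 z hzU]
  have hQ2 : H70.Le2 Q ⊤ := fun g _ h _ hg hh => (hQ _).2 (by
    have e1 := (hcj g).resolve_left (mt (hQ g).2 hg)
    calc _ = g * (h * a * h⁻¹) * g⁻¹ := by group
      _ = g * a * g⁻¹ * z := by
        rw [(hcj h).resolve_left (mt (hQ h).2 hh), mul_assoc (g * a) g⁻¹, hz g⁻¹]; group
      _ = a := by rw [e1, mul_assoc, hzz, mul_one])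
  have hxQ : x ∉ Q := fun h => hz1 (mul_eq_left.1 (hx.symm.trans ((hQ x).1 h)))
  haveI : Q.Normal := normal_of_index_eq_two (relIndex_top_right Q ▸ hQ2.relIndex_eq
    fun h => hxQ (h (mem_top x)))
  have hQW : ∀ g ∈ Q, ∀ w ∈ F a, ρ g w ∈ F a := fun g hg w hw => (hF _ _).2 (by
    rw [← hap, ← mem_centralizer_singleton_iff.1 hg, hap, (hF _ _).1 hw])
  let σ : Q →* MulAut (F a) := MonoidHom.mk' (fun g =>
    { toFun := fun w => ⟨ρ g w, hQW _ g.2 _ w.2⟩
      invFun := fun w => ⟨ρ g⁻¹ w, hQW _ (inv_mem g.2) _ w.2⟩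
      left_inv := fun w => by simp
      right_inv := fun w => by simp
      map_mul' := fun v w => by simp }) fun g h => by ext; simp
  have hσ : ∀ g : Q, g ∈ σ.ker ↔ ∀ w ∈ F a, ρ g w = w := fun g =>
    ⟨fun h w hw => congrArg Subtype.val (DFunLike.congr_fun h (⟨w, hw⟩ : F a)),
      fun h => MulEquiv.ext fun w => Subtype.ext (h _ w.2)⟩
  have hx2 : ∀ w ∈ F a, ρ x w ∈ F a → w = 1 := fun w hw h => by
    have h5 := (hF _ _).1 h
    rw [← hap, show a * x = x * a * z by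
      rw [mul_inv_eq_iff_eq_mul.1 hx, mul_assoc _ x, hz x, mul_assoc a, ← mul_assoc z, hzz,
        one_mul], hap, hap, hzv, map_inv, (hF _ _).1 hw, EmbeddingLike.apply_eq_iff_eq] at h5
    exact orderOf_eq_one_iff.1 (Nat.eq_one_of_dvd_coprimes (hn ▸ ho).coprime_two_left
      (orderOf_dvd_of_pow_eq_one (by rw [pow_two, ← eq_inv_iff_mul_eq_one, h5]))
      (orderOf_dvd_natCard w))
  have hdec : ∀ U₀ ≤ F a, U₀ ≠ ⊥ → (∀ g ∈ Q, ∀ w ∈ U₀, ρ g w ∈ U₀) →
      ∀ v, ∃ u ∈ U₀, ∃ w ∈ U₀, u * ρ x w = v := fun U₀ h5 h6 h7 v => by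
    have h8 : U₀ ⊔ U₀.map (ρ x) = ⊤ := (hirr _ fun g w' hw' => by
      obtain ⟨u, hu, _, ⟨w, hw, rfl⟩, rfl⟩ := mem_sup.1 hw'
      rw [map_mul, MonoidHom.coe_coe, ← hap]
      by_cases hg : g ∈ Q
      · refine mul_mem_sup (h7 g hg u hu) ⟨_, h7 _ (Normal.conj_mem' inferInstance g hg x) w hw, ?_⟩
        simp
      · rw [mul_comm]
        refine mul_mem_sup (h7 _ (hQ2 g trivial x trivial hg hxQ) w hw)
          ⟨_, h7 _ (hQ2 _ trivial g trivial (mt inv_mem_iff.1 hxQ) hg) u hu, ?_⟩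
        simp).resolve_left fun h => h6 (eq_bot_iff.2 (le_sup_left.trans h.le))
    obtain ⟨u, hu, _, ⟨w, hw, rfl⟩, e⟩ := mem_sup.1 (h8 ▸ mem_top v)
    exact ⟨u, hu, w, hw, e⟩
  have hW : F a ≠ ⊥ := fun h => hna (hinv a haU h)
  have hirr' : ∀ W : Subgroup (F a), (∀ g, ∀ w ∈ W, σ g w ∈ W) → W = ⊥ ∨ W = ⊤ := fun W h =>
    or_iff_not_imp_left.2 fun h5 => eq_top_iff.2 fun v _ => by
      obtain ⟨_, ⟨u, hu, rfl⟩, _, ⟨w, hw, rfl⟩, e⟩ := hdec (W.map (F a).subtype) (map_subtype_le _)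
        (mt (map_eq_bot_iff_of_injective _ Subtype.val_injective).1 h5) (by
          rintro g hg _ ⟨w, hw, rfl⟩
          exact ⟨_, h ⟨g, hg⟩ w hw, rfl⟩) v
      simp only [coe_subtype] at e
      rw [hx2 w w.2 (by simpa [← e] using mul_mem (inv_mem u.2) v.2), map_one, mul_one] at e
      exact Subtype.ext e ▸ hu
  have hsq : Nat.card (F a) * Nat.card (F a) ≤ n := by
    rw [← Nat.card_prod, ← hn]
    refine Nat.card_le_card_of_injective (fun w => w.1 * ρ x w.2) fun w w' (e : _ * _ = _ * _) => ?_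
    have h5 : w.2 = w'.2 := Subtype.ext (mul_inv_eq_one.1 (hx2 _ (mul_mem w.2.2 (inv_mem w'.2.2)) (by
      rw [map_mul, map_inv, eq_inv_mul_iff_mul_eq.2 e, ← mul_assoc, mul_inv_cancel_right]
      exact mul_mem (inv_mem w.1.2) w'.1.2)))
    rw [h5, mul_left_inj] at e
    exact Prod.ext (Subtype.ext e) h5
  have hK : ∀ g : Q, g ∈ σ.ker → MulAut.conjNormal x⁻¹ g ∈ σ.ker → g = 1 := fun g h5 h6 =>
    Subtype.ext (hρ (MulEquiv.ext fun v => by
      obtain ⟨u, hu, w, hw, rfl⟩ := hdec _ le_rfl hW hQW v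
      have := congrArg (ρ x) ((hσ _).1 h6 w hw)
      simpa [(hσ _).1 h5 u hu] using this))
  let K := L.subgroupOf Q ⊓ σ.ker
  haveI : (M.subgroupOf Q).Normal := ⟨fun m hm g => by
    simpa [mem_subgroupOf] using mul_mem (hc _ (hML hm) g) hm⟩
  have h5 : M.relIndex (Q ⊓ L) = (M.subgroupOf Q).relIndex K *
      (M.subgroupOf Q ⊔ K).relIndex (L.subgroupOf Q) := by
    rw [← relIndex_sup_left K, relIndex_mul_relIndex _ (_ ⊔ K) (L.subgroupOf Q) le_sup_left
      (sup_le (fun _ h => hML h) inf_le_left), ← inf_subgroupOf_left L, relIndex_subgroupOf inf_le_left]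
  have h6 := relIndex_le_mul (L := L) (M := M) hQ2
  by_cases h7 : Nat.card (F a) = 3
  · haveI := Fact.mk Nat.prime_three
    haveI := isCyclic_of_prime_card h7
    have h8 : K.relIndex (L.subgroupOf Q) ≤ 2 := by
      rw [inf_relIndex_left]
      refine (relIndex_le_of_le_right le_top index_ne_zero_of_finite).trans ?_
      rw [relIndex_top_right, index_ker]
      refine (Nat.card_le_card_of_injective _ σ.range.subtype_injective).trans ?_
      rw [IsCyclic.card_mulAut, h7]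
      decide
    have h10 : Nat.card K ≤ Nat.card (M.subgroupOf Q) := Nat.card_le_card_of_injective
      (fun k => ⟨MulAut.conjNormal x⁻¹ k.1 * k.1⁻¹, by
        simpa [mem_subgroupOf] using hc _ k.2.1 x⁻¹⟩) fun k k' e => by
      replace e : MulAut.conjNormal x⁻¹ k.1 * k.1⁻¹ = MulAut.conjNormal x⁻¹ k'.1 * k'.1⁻¹ :=
        congrArg Subtype.val e
      refine Subtype.ext (inv_mul_eq_one.1 (hK _ (σ.ker.mul_mem (σ.ker.inv_mem k.2.2) k'.2.2) ?_))
      rw [map_mul, map_inv, mul_inv_eq_iff_eq_mul.1 e]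
      rw [mul_assoc, mul_inv_rev, inv_mul_cancel_right]
      exact inv_mem (σ.ker.mul_mem (σ.ker.inv_mem k'.2.2) k.2.2)
    have h11 := relIndex_mul_relIndex ⊥ _ _ bot_le (inf_le_left : K ≤ _)
    have h12 := relIndex_mul_relIndex ⊥ (M.subgroupOf Q) (L.subgroupOf Q) bot_le fun _ h => hML h
    rw [relIndex_bot_left, relIndex_bot_left] at h11 h12
    rw [← inf_subgroupOf_left L, relIndex_subgroupOf inf_le_left, inf_subgroupOf_left L, ← h11] at h12
    have := Nat.le_of_mul_le_mul_left (h12.trans_le (Nat.mul_le_mul h10 h8)) Nat.card_pos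
    omega
  have h8 : Nat.card (F a) < n := hn ▸ H1.card_lt_of_ne_top (mt (hFt a) ha1)
  have h10 := Odd.of_dvd_nat (hn ▸ ho) (F a).card_subgroup_dvd_card
  haveI := (nontrivial_iff_ne_bot _).2 hW
  have h11 := (ih _ h8 _ Q σ rfl h10 inferInstance (hP.to_subgroup _) hirr' (L.subgroupOf Q)
    (M.subgroupOf Q ⊔ K) (sup_le (fun _ h => hML h) inf_le_left) le_sup_right
    (fun l hl g => mem_sup_left (hc _ hl g)) fun l hl => mem_sup_left (hs _ hl)).resolve_left h7
  have h12 := (ih _ h8 _ Q (σ.comp (MulAut.conjNormal x⁻¹ : MulAut Q)) rfl h10 inferInstance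
    (hP.to_subgroup _) (fun W h => hirr' W fun g => by simpa using h (MulAut.conjNormal x g)) K
    (M.subgroupOf Q ⊓ K) inf_le_right (fun g hg => hK g hg.1.2 hg.2 ▸ one_mem _)
    (fun l hl g => ⟨hc _ hl.1 g, hML (hc _ hl.1 g), σ.ker.mul_mem (σ.normal_ker.conj_mem _ hl.2 g)
      (σ.ker.inv_mem hl.2)⟩) fun l hl => ⟨hs _ hl.1, mul_mem hl hl⟩).resolve_left h7
  rw [inf_relIndex_right] at h12
  right
  nlinarith [Nat.mul_le_mul h11 h12]

/-- Let G be a finite group that is the semidirect product of a normal abelian subgroup N of odd order by a 2-subgroup P, and suppose N is the unique minimal normal subgroup of G. Then the index of the Frattini subgroup of P in P is at most #N − 1. -/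
theorem result {G : Type*} [Group G] [Finite G] (N P : Subgroup G) (hN : N.Normal) (hNab : IsMulCommutative ↥N) (hNodd : Odd (Nat.card ↥N)) (hP : IsPGroup 2 ↥P) (hdisj : N ⊓ P = ⊥) (hprod : N ⊔ P = ⊤) (hmin : N ≠ ⊥ ∧ ∀ M : Subgroup G, M.Normal → M ≠ ⊥ → N ≤ M) : (frattini ↥P).index ≤ Nat.card ↥N - 1 := by
  letI : CommGroup N := { mul_comm := hNab.is_comm.comm }
  haveI := Fact.mk Nat.prime_two
  haveI := (nontrivial_iff_ne_bot _).2 hmin.1
  let ρ : P →* MulAut N := MulAut.conjNormal.comp P.subtype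
  have hd : ∀ g : G, ∃ n ∈ N, ∃ p ∈ P, n * p = g := fun g =>
    mem_sup_of_normal_left.1 (hprod ▸ mem_top g)
  have h1 : ρ.ker = ⊥ := by
    by_contra h
    have h2 : ∀ k ∈ ρ.ker, ∀ n ∈ N, n * k = k * n := fun k hk n hn =>
      (mul_inv_eq_iff_eq_mul.1 (congrArg Subtype.val (DFunLike.congr_fun hk (⟨n, hn⟩ : N)))).symm
    refine hmin.1 (eq_bot_iff.2 (hdisj ▸ le_inf le_rfl ((hmin.2 (ρ.ker.map P.subtype) ⟨?_⟩
      (mt (map_eq_bot_iff_of_injective _ Subtype.val_injective).1 h)).trans (map_subtype_le _))))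
    rintro _ ⟨k, hk, rfl⟩ g
    obtain ⟨n, hn, p, hp, rfl⟩ := hd g
    have h3 := ρ.normal_ker.conj_mem k hk ⟨p, hp⟩
    exact ⟨_, h3, (mul_inv_eq_iff_eq_mul.2 (h2 _ h3 n hn)).symm.trans (by simp [mul_assoc])⟩
  have h2 := key _ N P ρ rfl hNodd inferInstance hP (fun W hW => or_iff_not_imp_left.2 fun h =>
    eq_top_iff.2 fun v _ => by
      obtain ⟨w, hw, e⟩ := hmin.2 (W.map N.subtype) ⟨by
        rintro _ ⟨w, hw, rfl⟩ g
        obtain ⟨n, hn, p, hp, rfl⟩ := hd g
        exact ⟨_, hW ⟨p, hp⟩ w hw, (mul_inv_eq_iff_eq_mul.2 (congrArg Subtype.val (mul_comm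
          (⟨n, hn⟩ : N) (ρ ⟨p, hp⟩ w)))).symm.trans (by simp [ρ, mul_assoc])⟩⟩
        (mt (map_eq_bot_iff_of_injective _ Subtype.val_injective).1 h) v.2
      exact Subtype.ext e ▸ hw) ⊤ (frattini P) le_top (by simp [h1])
    (fun l _ g => H5.commutatorElement_mem_frattini hP g l) fun l _ => pow_two l ▸ H5.pow_mem_frattini hP l
  rw [relIndex_top_right] at h2
  rcases h2 with h2 | h2
  · haveI := Fact.mk Nat.prime_three
    haveI := isCyclic_of_prime_card h2
    refine (Nat.le_of_dvd Nat.card_pos (index_dvd_card _)).trans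
      ((Nat.card_le_card_of_injective _ ((MonoidHom.ker_eq_bot_iff ρ).1 h1)).trans ?_)
    rw [IsCyclic.card_mulAut, h2]
    decide
  · have := (frattini P).index_ne_zero_of_finite
    omega

end Cfsg.Agent.S4188
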