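import Cfsg.Statements.S4194
import Mathlib
import Cfsg.Agent.Base
import Cfsg.Agent.S4195

set_option autoImplicit false
open Cfsg

namespace Cfsg.Agent.S4194

open H80 Subgroup
open scoped Pointwise

universe u

section
variable {G : Type*} [Group G] [Finite G]

/-- every `2`-element has odd class size -/
def Hyp (G : Type*) [Group G] : Prop := ∀ x : G, H35.IsPElt 2 x → ¬ 2 ∣ cs⟦x⟧

theorem comm_of_sq (h : Hyp G) {R : Subgroup G} (hR : IsPGroup 2 R) {s t : G} (hs : s ∈ R)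
    (ht : t ∈ R) (hs2 : s ^ 2 = 1) (ht2 : t ^ 2 = 1) : Commute s t := by
  have e : ∀ y : G, y ^ 2 = 1 → y⁻¹ = y := fun y hy => by rw [inv_eq_iff_mul_eq_one, ← sq, hy]
  have h2 : (s * t) ^ 2 = 1 := by
    by_cases h1 : s * t = 1
    · simp [h1]
    obtain ⟨Q, hQ⟩ := not_dvd_cs_iff.1 (h _ (H35.isPElt_of_mem hR (mul_mem hs ht)))
    have hr : IsConj (s * t) (s * t)⁻¹ := by
      rw [isConj_iff]
      refine ⟨s⁻¹, ?_⟩
      rw [mul_inv_rev, e _ ht2, inv_inv, inv_mul_cancel_left, e _ hs2]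
    rw [← Cfsg.Agent.S4195.result _ h1 Q hQ hr, pow_orderOf_eq_one]
  have := e _ h2
  rw [mul_inv_rev, e _ hs2, e _ ht2] at this
  exact this.symm

theorem mem_om (h : Hyp G) {R : Subgroup G} (hR : IsPGroup 2 R) {x : G} :
    x ∈ omegaOne 2 R ↔ x ∈ R ∧ x ^ 2 = 1 := by
  refine ⟨fun hx => ?_, fun hx => subset_closure hx⟩
  induction hx using closure_induction with
  | mem y hy => exact hy
  | one => exact ⟨one_mem _, one_pow _⟩
  | mul a b _ _ ha hb =>
    exact ⟨mul_mem ha.1 hb.1, by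
      rw [(comm_of_sq h hR ha.1 hb.1 ha.2 hb.2).mul_pow, ha.2, hb.2, one_mul]⟩
  | inv a _ ha => exact ⟨inv_mem ha.1, by rw [inv_pow, ha.2, inv_one]⟩

theorem om_le (h : Hyp G) {R : Subgroup G} (hR : IsPGroup 2 R) : omegaOne 2 R ≤ R :=
  fun _ hx => ((mem_om h hR).1 hx).1

theorem om_smul (h : Hyp G) (P : Sylow 2 G) (g : G) :
    omegaOne 2 ((g • P : Sylow 2 G) : Subgroup G) = MulAut.conj g • omegaOne 2 (P : Subgroup G) := by
  ext x
  rw [H1.mem_conj_smul_iff, mem_om h (g • P).isPGroup', mem_om h P.isPGroup']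
  refine and_congr H4.mem_smul_sylow_iff ?_
  have : (g⁻¹ * x * g) ^ 2 = g⁻¹ * x ^ 2 * g := by simp only [sq]; group
  rw [this]
  constructor
  · intro e; simp [e]
  · intro e
    calc x ^ 2 = g * (g⁻¹ * x ^ 2 * g) * g⁻¹ := by group
      _ = 1 := by rw [e]; simp

theorem om_eq_of_le (h : Hyp G) (P Q : Sylow 2 G) (hle : omegaOne 2 (P : Subgroup G) ≤ Q) :
    omegaOne 2 (Q : Subgroup G) = omegaOne 2 (P : Subgroup G) := by
  symm
  refine eq_of_le_of_card_ge (fun x hx => ?_) ?_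
  · exact (mem_om h Q.isPGroup').2 ⟨hle hx, ((mem_om h P.isPGroup').1 hx).2⟩
  · obtain ⟨g, rfl⟩ := MulAction.exists_smul_eq G P Q
    rw [om_smul h, H1.card_conj_smul]

theorem exists_sylow_ge (h : Hyp G) {x : G} (hx : H35.IsPElt 2 x) {D : Subgroup G}
    (hD : IsPGroup 2 D) (hDx : D ≤ Cx⟦x⟧) : ∃ Q : Sylow 2 G, D ≤ Q ∧ (Q : Subgroup G) ≤ Cx⟦x⟧ :=
  exists_sylow_ge_le_of_not_dvd_index (h x hx) hD hDx

theorem om_le_Cx (h : Hyp G) (P : Sylow 2 G) {x : G} (hx : x ∈ (P : Subgroup G)) :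
    omegaOne 2 (P : Subgroup G) ≤ Cx⟦x⟧ := by
  set A := omegaOne 2 (P : Subgroup G) with hA
  have hAP : A ≤ P := om_le h P.isPGroup'
  have hAp : IsPGroup 2 A := P.isPGroup'.to_le hAP
  obtain ⟨Q, hDQ, hQ⟩ := exists_sylow_ge h (H35.isPElt_of_mem P.isPGroup' hx)
    (D := A ⊓ Cx⟦x⟧) hAp.to_inf_left inf_le_right
  set B := omegaOne 2 (Q : Subgroup G) with hB
  have hBQ : B ≤ Q := om_le h Q.isPGroup'
  set R := (A ⊓ Cx⟦x⟧) ⊔ zpowers x with hR
  have hRx : R ≤ Cx⟦x⟧ := sup_le inf_le_right (zpowers_le_Cx x)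
  have hUP : A ⊔ zpowers x ≤ P := sup_le hAP (zpowers_le.2 hx)
  have hRU : R ≤ A ⊔ zpowers x := sup_le_sup_right inf_le_left _
  by_contra hn
  have hlt : R < A ⊔ zpowers x := lt_of_le_of_ne hRU fun e =>
    hn (le_trans (le_sup_left.trans e.ge) hRx)
  obtain ⟨u, hu, huR, -, huN⟩ := H5.exists_mem_normalizer_of_lt (P.isPGroup'.to_le hUP) hlt
  have hxA : x ∈ normalizer (A : Set G) := by
    rw [H1.mem_normalizer_iff_conj_smul_eq, hA, ← om_smul h]
    congr 2
    rw [Sylow.smul_eq_iff_mem_normalizer]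
    exact le_normalizer hx
  obtain ⟨a, ha, i, rfl⟩ := (H5.mem_sup_zpowers_iff hxA).1 hu
  have hxi : x ^ i ∈ R := mem_sup_right (zpow_mem (mem_zpowers x) i)
  have haN : a ∈ normalizer (R : Set G) := by
    have := mul_mem huN (inv_mem (le_normalizer hxi))
    simpa using this
  have hBC : B ≤ centralizer (R : Set G) := by
    rw [le_centralizer_iff, hR, sup_le_iff]
    constructor
    · intro d hd
      rw [mem_centralizer_iff]
      intro b hb
      have hb' := (mem_om h Q.isPGroup').1 hb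
      exact comm_of_sq h Q.isPGroup' hb'.1 (hDQ hd) hb'.2
        ((mem_om h P.isPGroup').1 (mem_inf.1 hd).1).2
    · rw [zpowers_le, ← le_Cx_iff]
      exact hBQ.trans hQ
  obtain ⟨S, k, hk, hBS, hkS⟩ := H4.exists_conj_le_common_sylow (p := 2)
    (K := normalizer (R : Set G)) (A := B) (B := zpowers a) (Q.isPGroup'.to_le hBQ)
    (hBC.trans (centralizer_le_normalizer _)) (hAp.to_le (zpowers_le.2 ha)) (zpowers_le.2 haN)
  have h1 : k * a * k⁻¹ ∈ B := by
    rw [hB, ← om_eq_of_le h Q S hBS, mem_om h S.isPGroup']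
    refine ⟨hkS a (mem_zpowers a), ?_⟩
    rw [conj_pow, ((mem_om h P.isPGroup').1 ha).2]; simp
  have h2 : k * x * k⁻¹ ∈ R := (mem_normalizer_iff.1 hk x).1 (mem_sup_right (mem_zpowers x))
  have h3 := mem_centralizer_iff.1 (hBC h1) _ h2
  have h4 : a ∈ Cx⟦x⟧ := by
    rw [mem_Cx']
    have : k * (x * a) * k⁻¹ = k * (a * x) * k⁻¹ := by
      calc k * (x * a) * k⁻¹ = k * x * k⁻¹ * (k * a * k⁻¹) := by group
        _ = k * (a * x) * k⁻¹ := by rw [h3]; group
    simpa using this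
  exact huR (mul_mem (mem_sup_left (mem_inf.2 ⟨ha, h4⟩)) hxi)

theorem le_centralizer_om (h : Hyp G) (P : Sylow 2 G) :
    (P : Subgroup G) ≤ centralizer (omegaOne 2 (P : Subgroup G) : Set G) := fun _ hx =>
  le_Cx_iff.1 (om_le_Cx h P hx)

end

theorem main (n : ℕ) : ∀ (G : Type u) [Group G] [Finite G], Nat.card G = n → Hyp G →
    ∀ P : Sylow 2 G, ∀ x ∈ (P : Subgroup G), ∀ y ∈ (P : Subgroup G), x * y = y * x := by
  induction n using Nat.strong_induction_on with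
  | _ n ih =>
  intro G _ _ hn h P
  set A := omegaOne 2 (P : Subgroup G) with hA
  have hAP : A ≤ P := om_le h P.isPGroup'
  have hAp : IsPGroup 2 A := P.isPGroup'.to_le hAP
  have hPC := le_centralizer_om h P
  rw [← hA] at hPC
  by_cases hC : centralizer (A : Set G) = ⊤
  swap
  · set C := centralizer (A : Set G) with hCdef
    have hH : Hyp C := by
      intro y hy
      obtain ⟨Q, hAQ, hQ⟩ := exists_sylow_ge h ((H35.isPElt_coe y).2 hy) hAp (le_Cx_iff.2 y.2)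
      have hQC : (Q : Subgroup G) ≤ C := by
        have := le_centralizer_om h Q
        rwa [om_eq_of_le h P Q hAQ] at this
      rw [cs_subtype]
      intro hd
      refine H4.not_dvd_relIndex_sylow Q hQC (hd.trans ?_)
      exact relIndex_dvd_of_le_left _ hQ
    intro x hx y hy
    have := ih _ (hn ▸ H1.card_lt_of_ne_top hC) C rfl hH (P.subtype hPC) ⟨x, hPC hx⟩ hx
      ⟨y, hPC hy⟩ hy
    exact congrArg Subtype.val this
  have hAZ : A ≤ center G := centralizer_eq_top_iff_subset.1 hC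
  by_cases hA0 : A = ⊥
  · have hP0 : (P : Subgroup G) = ⊥ := by
      by_contra hne
      obtain ⟨z, hz, -, hzo⟩ :=
        H5.exists_mem_centralizer_orderOf_eq P.isPGroup' le_rfl le_normalizer hne
      have : z ∈ A := (mem_om h P.isPGroup').2 ⟨hz, by rw [← hzo, pow_orderOf_eq_one]⟩
      rw [hA0, mem_bot] at this
      rw [this, orderOf_one] at hzo
      omega
    intro x hx y hy
    rw [hP0, mem_bot] at hx
    simp [hx]
  haveI hAn : A.Normal := ⟨fun a ha g => by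
    rw [mem_center_iff.1 (hAZ ha) g]; simpa using ha⟩
  have hH : Hyp (G ⧸ A) := by
    intro q hq
    obtain ⟨y, hy, rfl⟩ := H35.exists_isPElt_mk_eq 2 A hq
    exact fun hd => h y hy (hd.trans (cs_mk_dvd A y))
  have hcomm : ∀ Q : Sylow 2 G, ∀ x ∈ (Q : Subgroup G), ∀ y ∈ (Q : Subgroup G),
      (x : G ⧸ A) * y = y * x := by
    intro Q x hx y hy
    obtain ⟨S, hS⟩ := (Q.isPGroup'.map (QuotientGroup.mk' A)).exists_le_sylow
    exact ih _ (hn ▸ H1.card_quotient_lt hA0) (G ⧸ A) rfl hH S _ (hS ⟨x, hx, rfl⟩) _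
      (hS ⟨y, hy, rfl⟩)
  intro x hx
  obtain ⟨Q, hQ⟩ := not_dvd_cs_iff.1 (h x (H35.isPElt_of_mem P.isPGroup' hx))
  obtain ⟨k, hk, hkQ⟩ := H4.exists_smul_sylow_eq_of_le Q P
    (K := (Cx⟦(x : G ⧸ A)⟧).comap (QuotientGroup.mk' A))
    (hQ.trans (Cx_le_comap (QuotientGroup.mk' A) x))
    (fun y hy => mem_Cx.2 (hcomm P y hy x hx))
  have h1 : (k * x * k⁻¹)⁻¹ * x ∈ A := by
    rw [← QuotientGroup.eq]
    exact mem_Cx_iff_conj.1 hk
  intro y hy
  have h2 : y ∈ Cx⟦k * x * k⁻¹⟧ := by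
    rw [Cx_conj, H1.mem_conj_smul_iff]
    exact hQ (H4.mem_smul_sylow_iff.1 (hkQ ▸ hy))
  have h3 : y ∈ Cx⟦k * x * k⁻¹ * ((k * x * k⁻¹)⁻¹ * x)⟧ := by
    rwa [Cx_mul_of_mem_center (hAZ h1)]
  rw [mul_inv_cancel_left] at h3
  exact mem_Cx'.1 h3


/-- A finite group G has commutative Sylow 2-subgroups if and only if every 2-element of G (element of order a power of 2) is 2-central, that is, its centralizer contains a Sylow 2-subgroup of G. -/
theorem result {G : Type*} [Group G] [Finite G] (P : Sylow 2 G) :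
    IsMulCommutative (P : Subgroup G) ↔ ∀ x : G, (∃ k : ℕ, orderOf x = 2 ^ k) → (∃ Q : Sylow 2 G, (Q : Subgroup G) ≤ Subgroup.centralizer ({x} : Set G)) := by
  constructor
  · intro h1 x hx
    obtain ⟨Q, hQ⟩ := H35.IsPElt.exists_sylow (p := 2) hx
    obtain ⟨g, rfl⟩ := MulAction.exists_smul_eq G P Q
    refine ⟨g • P, fun y hy => ?_⟩
    have := h1.is_comm.comm (⟨_, H4.mem_smul_sylow_iff.1 hy⟩ : (P : Subgroup G))
      ⟨_, H4.mem_smul_sylow_iff.1 hQ⟩
    have h4 : g⁻¹ * y * g * (g⁻¹ * x * g) = g⁻¹ * x * g * (g⁻¹ * y * g) := congrArg Subtype.val this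
    rw [mem_Cx]
    have h5 : g⁻¹ * (y * x) * g = g⁻¹ * (x * y) * g := by
      calc g⁻¹ * (y * x) * g = g⁻¹ * y * g * (g⁻¹ * x * g) := by group
        _ = g⁻¹ * (x * y) * g := by rw [h4]; group
    simpa using h5
  · intro h
    exact ⟨⟨fun a b => Subtype.ext
      (main _ G rfl (fun x hx => not_dvd_cs_iff.2 (h x hx)) P a a.2 b b.2)⟩⟩

end Cfsg.Agent.S4194
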