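import Cfsg.Statements.S4196
import Mathlib
import Cfsg.Agent.Base
import Cfsg.Agent.S4195

set_option autoImplicit false
open Cfsg

namespace Cfsg.Agent.S4196

open H80 Subgroup


/-- A finite group G has elementary abelian Sylow 2-subgroups (commutative with every element squaring to the identity) if and only if every 2-element of G has a Sylow 2-subgroup in its centralizer and is conjugate to its inverse. -/
theorem result {G : Type*} [Group G] [Finite G] (P : Sylow 2 G) :
    (IsMulCommutative (P : Subgroup G) ∧ ∀ x ∈ (P : Subgroup G), x ^ 2 = 1) ↔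
      ∀ x : G, (∃ k : ℕ, orderOf x = 2 ^ k) → (∃ Q : Sylow 2 G, (Q : Subgroup G) ≤ Subgroup.centralizer ({x} : Set G)) ∧ IsConj x x⁻¹ := by
  have := Fact.mk Nat.prime_two
  constructor
  · rintro ⟨h1, h2⟩ x hx
    obtain ⟨a, ha⟩ := H35.IsPElt.exists_conj_mem (p := 2) hx P
    have h3 : x ^ 2 = 1 := by
      have := h2 _ ha
      rw [conj_pow] at this
      simpa [mul_inv_eq_one, mul_eq_left] using this
    refine ⟨⟨a⁻¹ • P, fun y hy => ?_⟩, ?_⟩
    · have hy' := H4.mem_smul_sylow_iff.1 hy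
      rw [inv_inv] at hy'
      have := h1.is_comm.comm (⟨_, hy'⟩ : (P : Subgroup G)) ⟨_, ha⟩
      have h4 : a * y * a⁻¹ * (a * x * a⁻¹) = a * x * a⁻¹ * (a * y * a⁻¹) := congrArg Subtype.val this
      rw [mem_Cx]
      have h5 : a * (y * x) * a⁻¹ = a * (x * y) * a⁻¹ := by
        calc a * (y * x) * a⁻¹ = a * y * a⁻¹ * (a * x * a⁻¹) := by group
          _ = a * (x * y) * a⁻¹ := by rw [h4]; group
      simpa using h5
    · have : x⁻¹ = x := by
        rw [inv_eq_iff_mul_eq_one, ← sq, h3]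
      rw [this]
  · intro h
    have h2 : ∀ x ∈ (P : Subgroup G), x ^ 2 = 1 := by
      intro x hx
      by_cases h1 : x = 1
      · simp [h1]
      obtain ⟨⟨Q, hQ⟩, hr⟩ := h x (H35.isPElt_of_mem P.isPGroup' hx)
      rw [← Cfsg.Agent.S4195.result x h1 Q hQ hr, pow_orderOf_eq_one]
    refine ⟨⟨⟨fun a b => Subtype.ext ?_⟩⟩, h2⟩
    have ha := h2 a a.2
    have hb := h2 b b.2
    have hab := h2 _ (mul_mem a.2 b.2)
    have e : ∀ y : G, y ^ 2 = 1 → y⁻¹ = y := fun y hy => by rw [inv_eq_iff_mul_eq_one, ← sq, hy]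
    have := e _ hab
    rw [mul_inv_rev, e _ ha, e _ hb] at this
    exact this.symm

end Cfsg.Agent.S4196
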