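import Mathlib
import Cfsg.Statements.S4231
import Cfsg.Agent.Lib.SN.Small

set_option autoImplicit false
open Cfsg

namespace Cfsg.Agent.S4231

/-- Let n ≥ 5 and let G be a group of automorphisms of the alternating group of degree n containing all inner automorphisms. If p ≠ q are primes and G has no element of order pq, then every Sylow p-subgroup of G is abelian or every Sylow q-subgroup of G is abelian. -/
theorem result (n : ℕ) (hn : 5 ≤ n) (G : Subgroup (MulAut (alternatingGroup (Fin n))))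
    (hG : (MulAut.conj : alternatingGroup (Fin n) →* MulAut (alternatingGroup (Fin n))).range ≤ G)
    (p q : ℕ) [Fact p.Prime] [Fact q.Prime] (hpq : p ≠ q) (h : ∀ g : G, orderOf g ≠ p * q) :
    (∀ P : Sylow p G, IsMulCommutative (P : Subgroup G)) ∨ (∀ Q : Sylow q G, IsMulCommutative (Q : Subgroup G)) := by
  have hp : p.Prime := Fact.out
  have hq : q.Prime := Fact.out
  have key : ∀ (r : ℕ) [Fact r.Prime], r ≠ 2 → n < r ^ 2 →
      ∀ P : Sylow r G, IsMulCommutative (P : Subgroup G) := fun r _ h2 hr P =>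
    ⟨⟨fun a b => Subtype.ext (H5.SN.comm_of_injective G.subtype Subtype.val_injective
      (H5.SN.comm_aut_of_lt h2 hn hr) P P.2 a a.2 b b.2)⟩⟩
  have hno : ∀ x : alternatingGroup (Fin n), orderOf x ≠ p * q := fun x hx => by
    refine h ⟨MulAut.conj x, hG ⟨x, rfl⟩⟩ ?_
    rw [← Subgroup.orderOf_coe, ← hx]
    refine orderOf_injective (MulAut.conj : alternatingGroup (Fin n) →* _) ?_ x
    refine (injective_iff_map_eq_one _).mpr fun g hg => Subtype.ext ?_
    exact H29.eq_one_of_centralizes_alt (by simp; omega) fun x hx =>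
      congrArg Subtype.val (MulEquiv.congr_fun hg ⟨x, hx⟩)
  have h3 : ∀ r : ℕ, r.Prime → r ≠ 2 → r + 4 ≤ r ^ 2 ∧ 2 * r ≤ r ^ 2 := fun r hr h2 => by
    have := hr.two_le
    have : 3 ≤ r := by omega
    constructor <;> nlinarith
  by_contra hne
  push Not at hne
  obtain ⟨⟨P, hP⟩, ⟨Q, hQ⟩⟩ := hne
  have hP' : p ≠ 2 → p ^ 2 ≤ n := fun h2 => by
    by_contra hlt; exact hP (key p h2 (not_le.mp hlt) P)
  have hQ' : q ≠ 2 → q ^ 2 ≤ n := fun h2 => by
    by_contra hlt; exact hQ (key q h2 (not_le.mp hlt) Q)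
  by_cases hq2 : q = 2
  · have hp2 : p ≠ 2 := fun h2 => hpq (h2.trans hq2.symm)
    obtain ⟨x, hx⟩ := H5.SN.exists_alt_orderOf (n := n) hq hp hpq.symm hp2
      (Or.inl ⟨hq2, (h3 p hp hp2).1.trans (hP' hp2)⟩)
    exact hno x (by rw [hx, mul_comm])
  · by_cases hp2 : p = 2
    · obtain ⟨x, hx⟩ := H5.SN.exists_alt_orderOf (n := n) hp hq hpq hq2
        (Or.inl ⟨hp2, (h3 q hq hq2).1.trans (hQ' hq2)⟩)
      exact hno x hx
    · obtain ⟨x, hx⟩ := H5.SN.exists_alt_orderOf (n := n) hp hq hpq hq2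
        (Or.inr ⟨hp2, by
          have := (h3 q hq hq2).2.trans (hQ' hq2)
          have := (h3 p hp hp2).2.trans (hP' hp2)
          omega⟩)
      exact hno x hx

end Cfsg.Agent.S4231
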