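import Cfsg.Statements.S4234
import Cfsg.Agent.Lib.MatConj.Sol2
import Cfsg.Agent.S0806
import Cfsg.Agent.Lib.Core.GrpBasic

set_option autoImplicit false
open Cfsg

namespace Cfsg.Agent.S4234

open Subgroup H64.SL2 MatrixGroups
open scoped commutatorElement

section
variable {G : Type*} [Group G] [Finite G]

theorem index_eq {p k : ℕ} [Fact p.Prime] {P : Subgroup G} (hP : Nat.card P = p ^ k)
    (h : ¬ p ^ (k + 1) ∣ Nat.card G) :
    ∃ Q : Sylow p G, Q = P ∧ (normalizer (P : Set G)).index = Nat.card (Sylow p G) := by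
  have h1 : ¬ p ∣ P.index := fun e => h (by
    rw [← P.card_mul_index, hP, pow_succ]; exact mul_dvd_mul_left _ e)
  exact ⟨(IsPGroup.of_card hP).toSylow h1, rfl,
    ((IsPGroup.of_card hP).toSylow h1).card_eq_index_normalizer.symm⟩

theorem relIndex_mod {p k : ℕ} [Fact p.Prime] {P M : Subgroup G} (hM : P ≤ M)
    (hP : Nat.card P = p ^ k) (h : ¬ p ^ (k + 1) ∣ Nat.card M) :
    ∃ r c, r ≡ 1 [MOD p] ∧ c * r = Nat.card M ∧ p ^ k ∣ c ∧
      c ∣ Nat.card (normalizer (P : Set G)) ∧ (r = 1 → M ≤ normalizer (P : Set G)) := by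
  obtain ⟨-, -, h1⟩ := index_eq (P := P.subgroupOf M)
    ((Nat.card_congr (subgroupOfEquivOfLe hM).toEquiv).trans hP) h
  rw [← subgroupOf_normalizer_eq hM, ← relIndex] at h1
  exact ⟨_, _, h1.symm ▸ card_sylow_modEq_one p M, H1.card_inf_mul_relIndex _ M,
    hP ▸ card_dvd_of_le (le_inf le_normalizer hM), card_dvd_of_le inf_le_left,
    fun e => relIndex_eq_one.1 e⟩

theorem exists_le_card {p : ℕ} [Fact p.Prime] {M : Subgroup G} (h : p ∣ Nat.card M) :
    ∃ P ≤ M, Nat.card P = p := by
  obtain ⟨x, hx⟩ := exists_prime_orderOf_dvd_card' p h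
  exact ⟨zpowers x.1, zpowers_le.2 x.2, by rw [Nat.card_zpowers, Subgroup.orderOf_coe, hx]⟩

omit [Finite G] in
theorem comm_mem_centralizer {P : Subgroup G} [IsCyclic P] {a b : G}
    (ha : a ∈ normalizer (P : Set G)) (hb : b ∈ normalizer (P : Set G)) :
    ⁅a, b⁆ ∈ centralizer (P : Set G) := by
  have h1 : P.normalizerMonoidHom ⁅(⟨a, ha⟩ : normalizer (P : Set G)), ⟨b, hb⟩⁆ = 1 := by
    rw [map_commutatorElement, commutatorElement_eq_one_iff_mul_comm]
    exact (IsCyclic.mulAutMulEquiv P).injective (by rw [map_mul, map_mul, mul_comm])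
  rw [← MonoidHom.mem_ker, normalizerMonoidHom_ker] at h1
  exact h1

theorem abstract [IsSimpleGroup G] (hG : Nat.card G = 1092)
    (hI : ∀ H : Subgroup G, H ≠ ⊤ → 14 ≤ H.index) {g : G} (hg : orderOf g = 6)
    (hc : ∀ s t : G, orderOf s = 2 → orderOf t = 2 → IsConj s t) (H : Subgroup G)
    (hH : ¬ H.Normal) : IsCoatom (normalizer (H : Set G)) := by
  have : Fact (Nat.Prime 7) := ⟨by decide⟩
  have : Fact (Nat.Prime 13) := ⟨by decide⟩
  have hN : ∀ P : Subgroup G, Nat.card P ≠ 1 → Nat.card P ≠ 1092 → normalizer (P : Set G) ≠ ⊤ :=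
    fun P h1 h2 h => by
      rcases (normalizer_eq_top_iff.1 h).eq_bot_or_eq_top with rfl | rfl
      · exact h1 card_bot
      · exact h2 (card_top.trans hG)
  have hle : ∀ M : Subgroup G, M ≠ ⊤ → Nat.card M ≤ 78 := fun M h => by
    have h1 := hG ▸ M.card_mul_index
    have h2 := Nat.mul_le_mul_left (Nat.card M) (hI M h)
    omega
  have hS : ∀ p k, ∀ [Fact p.Prime], ∀ P : Subgroup G, Nat.card P = p ^ k → ¬ p ^ (k + 1) ∣ 1092 →
      ∃ n, n ≡ 1 [MOD p] ∧ Nat.card (normalizer (P : Set G)) * n = 1092 ∧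
        n = Nat.card (Sylow p G) := fun p k _ P h1 h2 => by
    obtain ⟨-, -, h3⟩ := index_eq h1 (hG ▸ h2)
    exact ⟨_, h3 ▸ card_sylow_modEq_one p G, hG ▸ card_mul_index _, h3⟩
  have h13 : ∀ P : Subgroup G, Nat.card P = 13 → Nat.card (normalizer (P : Set G)) = 78 :=
    fun P h => by
      obtain ⟨n, h1, h2, -⟩ := hS 13 1 P h (by decide)
      obtain ⟨j, hj⟩ := h ▸ card_dvd_of_le (le_normalizer (H := P))
      have := hle _ (hN P (by omega) (by omega))
      rw [hj] at this h2 ⊢
      have : j ≤ 6 := by omega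
      unfold Nat.ModEq at h1
      interval_cases j <;> omega
  have h7 : ∀ P : Subgroup G, Nat.card P = 7 → Nat.card (normalizer (P : Set G)) = 14 :=
    fun P h => by
      obtain ⟨n, h1, h2, -⟩ := hS 7 1 P h (by decide)
      obtain ⟨j, hj⟩ := h ▸ card_dvd_of_le (le_normalizer (H := P))
      have := hle _ (hN P (by omega) (by omega))
      rw [hj] at this h2 ⊢
      have : j ≤ 11 := by omega
      unfold Nat.ModEq at h1
      interval_cases j <;> omega
  have hT : ∀ M : Subgroup G, M ≠ ⊤ → Nat.card M ∣ 12 ∨ Nat.card M ∣ 14 ∨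
      ∃ P : Subgroup G, Nat.card P = 13 ∧ P ≤ M ∧ M ≤ normalizer (P : Set G) := fun M h => by
    have h1 := hle M h
    have h2 := hG ▸ card_subgroup_dvd_card M
    by_cases a1 : 13 ∣ Nat.card M
    · obtain ⟨P, h3, h4⟩ := exists_le_card a1
      obtain ⟨r, c, h5, h6, h7, -, h8⟩ := relIndex_mod (p := 13) (k := 1) h3 h4
        fun e => absurd (e.trans h2) (by decide)
      refine Or.inr (Or.inr ⟨P, h4, h3, h8 ?_⟩)
      have := Nat.mul_le_mul_right r (Nat.le_of_dvd (Nat.pos_of_mul_pos_right
        (h6 ▸ Nat.card_pos)) h7)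
      unfold Nat.ModEq at h5
      omega
    by_cases a2 : 7 ∣ Nat.card M
    · obtain ⟨P, h3, h4⟩ := exists_le_card a2
      obtain ⟨r, c, h5, h6, ⟨j, rfl⟩, h8, -⟩ := relIndex_mod (p := 7) (k := 1) h3 h4
        fun e => absurd (e.trans h2) (by decide)
      rw [h7 P h4] at h8
      rw [← h6] at h1 h2 ⊢
      have := Nat.le_of_dvd (by decide) h8
      have : j ≤ 2 := by omega
      unfold Nat.ModEq at h5
      have : j = 0 ∨ r = 1 ∨ r = 8 := by interval_cases j <;> omega
      rcases this with rfl | rfl | rfl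
      · simp at h8
      · exact Or.inr (Or.inl (by rwa [mul_one]))
      · interval_cases j <;> omega
    exact Or.inl (((Nat.Prime.coprime_iff_not_dvd (by decide)).2 a2).symm.dvd_of_dvd_mul_right
      (((Nat.Prime.coprime_iff_not_dvd (by decide)).2 a1).symm.dvd_of_dvd_mul_right h2))
  have hT' : ∀ M : Subgroup G, M ≠ ⊤ → Nat.card M ∣ 12 ∨ Nat.card M ∣ 14 ∨ Nat.card M ∣ 78 :=
    fun M h => (hT M h).imp_right (·.imp_right fun ⟨P, h1, _, h2⟩ => h13 P h1 ▸ card_dvd_of_le h2)
  have h2 : ∀ P : Subgroup G, Nat.card P = 2 → 12 ∣ Nat.card (normalizer (P : Set G)) :=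
    fun P h => by
      obtain ⟨t, ht, h1⟩ := exists_prime_orderOf_dvd_card' (G := P) 2 h.symm.dvd |>.imp
        fun t (ht : orderOf t = 2) => (⟨ht, eq_of_le_of_card_ge (zpowers_le.2 t.2)
          (by rw [Nat.card_zpowers, Subgroup.orderOf_coe, ht, h])⟩ : _ ∧ zpowers t.1 = P)
      have h3 : orderOf (g ^ 3) = 2 := by rw [orderOf_pow, hg]; rfl
      obtain ⟨e⟩ := nonempty_centralizer_equiv_of_isConj
        (hc _ _ h3 ((Subgroup.orderOf_coe t).trans ht))
      have h4 : centralizer {t.1} ≤ normalizer (P : Set G) := by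
        rw [← centralizer_closure, ← zpowers_eq_closure, h1]
        exact centralizer_le_normalizer _
      have h5 : 6 ∣ Nat.card (centralizer {g ^ 3}) := hg ▸ orderOf_dvd_natCard _
        (mem_centralizer_singleton_iff.2 (Commute.self_pow g 3))
      obtain ⟨Q, hQ⟩ := (IsPGroup.of_card (p := 2) (n := 1) h).exists_le_sylow
      have h6 : Nat.card Q = 2 ^ 2 := by
        rw [Q.card_eq_multiplicity, hG]
        exact congrArg _ (Nat.factorization_eq_of_coprime_left (a := 2 ^ 2) (b := 273)
          (by decide) (by simp) |>.trans (by rw [Nat.prime_two.factorization_pow]; simp))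
      have := IsPGroup.isMulCommutative_of_card_eq_prime_sq h6
      have h7 : 4 ∣ Nat.card (centralizer {t.1}) := h6.symm.dvd.trans (card_dvd_of_le
        (Q.1.le_centralizer.trans (centralizer_le (Set.singleton_subset_iff.2 (hQ t.2)))))
      rw [Nat.card_congr e.toEquiv] at h5
      exact (show 12 ∣ _ by omega).trans (card_dvd_of_le h4)
  have h3 : ∀ P : Subgroup G, Nat.card P = 3 → Nat.card (normalizer (P : Set G)) = 12 :=
    fun P h => by
      have h4 : Nat.card (zpowers (g ^ 2)) = 3 := by rw [Nat.card_zpowers, orderOf_pow, hg]; rfl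
      obtain ⟨n, -, h1, rfl⟩ := hS 3 1 P h (by decide)
      obtain ⟨n, h5, h6, rfl⟩ := hS 3 1 _ h4 (by decide)
      obtain ⟨j, hj⟩ : 6 ∣ Nat.card (normalizer (zpowers (g ^ 2) : Set G)) :=
        hg ▸ orderOf_dvd_natCard _ (centralizer_le_normalizer _ (by
          rw [zpowers_eq_closure, centralizer_closure]
          exact mem_centralizer_singleton_iff.2 (Commute.self_pow g 2)))
      have h8 := hT' _ (hN _ (by omega) (by omega : Nat.card (zpowers (g ^ 2)) ≠ _))
      have := hle _ (hN _ (by omega) (by omega : Nat.card (zpowers (g ^ 2)) ≠ _))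
      rw [hj] at this h6 h8
      have : j ≤ 13 := by omega
      unfold Nat.ModEq at h5
      have : Nat.card (Sylow 3 G) = 91 := by interval_cases j <;> omega
      rw [this] at h1
      omega
  have hH' : H ≠ ⊤ := fun e => hH (e ▸ normal_top)
  have hN' := mt normalizer_eq_top_iff.1 hH
  suffices h : 12 ∣ Nat.card (normalizer (H : Set G)) ∨ 14 ∣ Nat.card (normalizer (H : Set G)) ∨
      78 ∣ Nat.card (normalizer (H : Set G)) by
    refine ⟨hN', fun M hM => by_contra fun e => hM.ne (eq_of_le_of_card_ge hM.le ?_)⟩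
    have h4 := card_dvd_of_le hM.le
    have h5 : 0 < Nat.card (normalizer (H : Set G)) := Nat.card_pos
    rcases hT' M e with a | a | a <;> rcases h with h | h | h <;>
      first
      | exact (Nat.le_of_dvd (by decide) a).trans (Nat.le_of_dvd h5 h)
      | exact absurd (h.trans (h4.trans a)) (by decide)
  have h1 : Nat.card H ≠ 1 := fun e => hH (card_eq_one.1 e ▸ normal_bot)
  have h4 := card_dvd_of_le (le_normalizer (H := H))
  rcases hT H hH' with h | h | ⟨P, h5, h6, h8⟩
  · left
    have := Nat.le_of_dvd (by decide) h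
    have : Nat.card H = 2 ∨ Nat.card H = 3 ∨ Nat.card H = 4 ∨ Nat.card H = 6 ∨ Nat.card H = 12 := by
      generalize Nat.card H = d at *
      interval_cases d <;> omega
    rcases this with e | e | e | e | e
    · exact h2 H e
    · exact (h3 H e).symm.dvd
    · obtain ⟨Q, rfl, -⟩ := index_eq (p := 2) (k := 2) e (by rw [hG]; decide)
      have := IsPGroup.isMulCommutative_of_card_eq_prime_sq (p := 2) e
      by_contra a
      have h5 : Nat.card (normalizer (Q : Set G)) ≤ 4 := by
        change ¬ 12 ∣ Nat.card (normalizer (Q : Set G)) at a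
        change Nat.card Q ∣ Nat.card (normalizer (Q : Set G)) at h4
        have := hT' _ hN'
        change Nat.card (normalizer (Q : Set G)) ∣ _ ∨ Nat.card (normalizer (Q : Set G)) ∣ _ ∨
          Nat.card (normalizer (Q : Set G)) ∣ _ at this
        obtain ⟨j, hj⟩ := e ▸ h4
        rw [hj] at this a ⊢
        rcases this with h | h | h
        · have := Nat.le_of_dvd (by decide) h
          have : j ≤ 3 := by omega
          interval_cases j <;> omega
        · exact absurd ((dvd_mul_right 4 j).trans h) (by decide)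
        · exact absurd ((dvd_mul_right 4 j).trans h) (by decide)
      have h6 := (MonoidHom.ker_transferSylow_isComplement' Q ((eq_of_le_of_card_ge le_normalizer
        (h5.trans e.ge)).ge.trans Q.1.le_centralizer)).card_mul_card
      rcases (MonoidHom.normal_ker (MonoidHom.transferSylow Q _)).eq_bot_or_eq_top with b | b <;>
        rw [b] at h6 <;> simp [hG, e] at h6
    · obtain ⟨P, h5, h6⟩ := exists_le_card (p := 3) (M := H) (by omega)
      obtain ⟨r, c, h8, h9, ⟨j, rfl⟩, -, h10⟩ := relIndex_mod (p := 3) (k := 1) h5 h6 (by omega)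
      have h11 := h10 (by
        have : j * r = 2 := by rw [mul_assoc] at h9; omega
        have := Nat.le_of_dvd two_pos (Dvd.intro_left _ this)
        unfold Nat.ModEq at h8
        omega)
      have h12 := H1.card_mul_relIndex_of_le h11
      have := normal_of_index_eq_two (H := H.subgroupOf (normalizer (P : Set G)))
        (by rw [h3 P h6, e] at h12; exact Nat.eq_of_mul_eq_mul_left (by decide) h12)
      exact h3 P h6 ▸ card_dvd_of_le (le_normalizer_of_normal_subgroupOf h11)
    · exact e ▸ h4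
  · have := Nat.le_of_dvd (by decide) h
    have : Nat.card H = 2 ∨ Nat.card H = 7 ∨ Nat.card H = 14 := by
      generalize Nat.card H = d at *
      interval_cases d <;> omega
    rcases this with e | e | e
    · exact Or.inl (h2 H e)
    · exact Or.inr (Or.inl (h7 H e).symm.dvd)
    · exact Or.inr (Or.inl (e ▸ h4))
  · have := isCyclic_of_prime_card h5
    have h9 : ∀ p, p = 2 ∨ p = 3 → ¬ p ∣ Nat.card (centralizer (P : Set G)) := fun p hp e => by
      have : Fact p.Prime := ⟨by rcases hp with rfl | rfl <;> decide⟩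
      obtain ⟨Q, h9, h10⟩ := exists_le_card e
      have a1 := h5 ▸ card_dvd_of_le ((le_centralizer_iff.1 h9).trans (centralizer_le_normalizer _))
      have a2 : 12 ∣ Nat.card (normalizer (Q : Set G)) :=
        hp.elim (fun e => h2 Q (h10.trans e)) fun e => (h3 Q (h10.trans e)).symm.dvd
      have := hle _ (hN Q (by omega) (by omega))
      have : 0 < Nat.card (normalizer (Q : Set G)) := Nat.card_pos
      omega
    have h10 : P = centralizer (P : Set G) := eq_of_le_of_card_ge P.le_centralizer
      (h5 ▸ Nat.le_of_dvd (by decide) (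
        ((Nat.prime_three.coprime_iff_not_dvd.2 (h9 3 (by simp))).symm.dvd_of_dvd_mul_right
          ((Nat.prime_two.coprime_iff_not_dvd.2 (h9 2 (by simp))).symm.dvd_of_dvd_mul_right
            ((card_dvd_of_le (centralizer_le_normalizer _)).trans (h13 P h5).dvd)))))
    refine Or.inr (Or.inr (h13 P h5 ▸ card_dvd_of_le fun a ha => ?_))
    refine mem_normalizer_fintype fun b hb => ?_
    rw [show a * b * a⁻¹ = ⁅a, b⁆ * b by group]
    exact mul_mem (h6 (h10.ge (comm_mem_centralizer ha (h8 hb)))) hb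

end

instance : Fact (Nat.Prime 13) := ⟨by decide⟩

theorem psl (H : Subgroup PSL(2, ZMod 13)) (hH : ¬ H.Normal) :
    IsCoatom (normalizer (H : Set PSL(2, ZMod 13))) := by
  have h2 : (2 : ZMod 13) ≠ 0 := by decide
  have hG := H10.card_PSL_two (F := ZMod 13)
  rw [Nat.card_zmod] at hG
  have := H10.isSimpleGroup_PSL_fin (F := ZMod 13) (n := 2) le_rfl (by simp)
  obtain ⟨g, hg⟩ := exists_orderOf_eq_card_sub_one (F := ZMod 13)
  rw [Nat.card_zmod] at hg
  refine abstract (Nat.eq_of_mul_eq_mul_left two_pos hG)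
    (Cfsg.Agent.S0806.result (ZMod.card 13) (by decide)).1
    (orderOf_proj_of_orderOf_eq_two_mul h2 (m := 6) hg) (fun s t hs ht => ?_) H hH
  obtain ⟨s, rfl⟩ := proj_surjective s
  obtain ⟨t, rfl⟩ := proj_surjective t
  have h : ∀ s : SL(2, ZMod 13), orderOf (proj s) = 2 → tr s = 0 := fun s hs =>
    H65.tr_eq_zero_of_sq (sq (proj s) ▸ (orderOf_eq_prime_iff.1 hs).1) (orderOf_eq_prime_iff.1 hs).2
  exact proj.map_isConj (isConj_of_tr_eq (by rw [h s hs]; decide) ((h s hs).trans (h t ht).symm))

theorem sl (H : Subgroup SL(2, ZMod 13)) (hH : ¬ H.Normal) :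
    IsCoatom (normalizer (H : Set SL(2, ZMod 13))) := by
  have h : normalizer (H : Set SL(2, ZMod 13)) =
      (normalizer (H.map proj : Set PSL(2, ZMod 13))).comap proj := by
    refine le_antisymm (map_le_iff_le_comap.1 (le_normalizer_map _)) fun g hg =>
      mem_normalizer_fintype fun x hx => ?_
    obtain ⟨y, hy, e⟩ := (mem_normalizer_iff.1 hg (proj x)).1 (mem_map_of_mem _ hx)
    rw [← map_inv, ← map_mul, ← map_mul, proj_eq_iff] at e
    rcases e with rfl | e
    · exact hy
    by_cases h1 : -1 ∈ H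
    · rw [← neg_eq_iff_eq_neg.2 e, ← neg_one_mul]
      exact mul_mem h1 hy
    rcases Nat.even_or_odd' (orderOf x) with ⟨k, hk | hk⟩
    · have h2 := pow_orderOf_eq_one x
      rw [hk, two_mul, pow_add] at h2
      rcases mem_center_iff'.1 (mem_center_of_mul_self_eq_one (by decide) h2) with h3 | h3
      · have := orderOf_pos x
        have := Nat.le_of_dvd (by omega) (orderOf_dvd_of_pow_eq_one h3)
        omega
      · exact absurd (h3 ▸ pow_mem hx k) h1
    · have h2 : x ^ (2 * (k + 1)) = x := by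
        rw [show 2 * (k + 1) = orderOf x + 1 by omega, pow_succ, pow_orderOf_eq_one, one_mul]
      rw [← h2, ← conj_pow, pow_mul, ← neg_sq, ← e, ← pow_mul]
      exact pow_mem hy _
  rw [h]
  refine isCoatom_comap_of_surjective proj_surjective (psl _ fun e => hH ?_)
  rw [← normalizer_eq_top_iff, h, normalizer_eq_top, comap_top]


/-- Let K be isomorphic to PSL(2, 13) or to SL(2, 13) and let S be a finite abelian group of order coprime to the order of K. Then in the direct product K × S every subgroup that is not normal has a normalizer that is a maximal subgroup. -/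
theorem result {K S : Type*} [Group K] [CommGroup S] [Finite K] [Finite S]
    (hK : Nonempty (K ≃* Matrix.ProjectiveSpecialLinearGroup (Fin 2) (ZMod 13)) ∨
      Nonempty (K ≃* Matrix.SpecialLinearGroup (Fin 2) (ZMod 13)))
    (hKS : (Nat.card K).Coprime (Nat.card S)) (H : Subgroup (K × S)) (hH : ¬ H.Normal) :
    IsCoatom (Subgroup.normalizer (H : Set (K × S))) := by
  have hK' : ∀ A : Subgroup K, ¬ A.Normal → IsCoatom (normalizer (A : Set K)) := by
    have key : ∀ {L : Type} [Group L], (∀ A : Subgroup L, ¬ A.Normal →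
        IsCoatom (normalizer (A : Set L))) → (K ≃* L) → ∀ A : Subgroup K, ¬ A.Normal →
        IsCoatom (normalizer (A : Set K)) := fun h e A hA => by
      have h1 := comap_map_eq_self_of_injective (f := e.toMonoidHom) e.injective A
      rw [← h1, ← comap_normalizer_eq_of_surjective _ e.surjective]
      exact isCoatom_comap_of_surjective e.surjective (h _ fun a => hA (h1 ▸ a.comap _))
    rcases hK with ⟨⟨e⟩⟩ | ⟨⟨e⟩⟩
    · exact key psl e
    · exact key sl e
  have h1 : ∀ x ∈ H, (x.1, (1 : S)) ∈ H := fun x hx => by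
    obtain ⟨k, hk⟩ := Nat.chineseRemainder hKS 1 0
    have h2 : x ^ k = (x.1, 1) := by
      refine Prod.ext ?_ (orderOf_dvd_iff_pow_eq_one.1 ((_root_.orderOf_dvd_natCard x.2).trans
        (Nat.modEq_zero_iff_dvd.1 hk.2)))
      exact (pow_eq_pow_iff_modEq.2 (hk.1.of_dvd (_root_.orderOf_dvd_natCard x.1))).trans (pow_one _)
    exact h2 ▸ pow_mem hx k
  have h : normalizer (H : Set (K × S)) =
      (normalizer (H.map (MonoidHom.fst K S) : Set K)).comap (MonoidHom.fst K S) := by
    refine le_antisymm (map_le_iff_le_comap.1 (le_normalizer_map _)) fun g hg =>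
      mem_normalizer_fintype fun x hx => ?_
    obtain ⟨y, hy, e⟩ := (mem_normalizer_iff.1 hg x.1).1 (mem_map_of_mem _ hx)
    have h2 : g * x * g⁻¹ = (y.1, 1) * ((x.1, 1)⁻¹ * x) :=
      Prod.ext (by simpa using e.symm) (by simp)
    exact h2 ▸ mul_mem (h1 y hy) (mul_mem (inv_mem (h1 x hx)) hx)
  rw [h]
  refine isCoatom_comap_of_surjective Prod.fst_surjective (hK' _ fun e => hH ?_)
  rw [← normalizer_eq_top_iff, h, normalizer_eq_top, comap_top]

end Cfsg.Agent.S4234
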