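import Mathlib
import Cfsg.Agent.Base
import Cfsg.Agent.Lib.FGS.CycCount
import Cfsg.Statements.S4237

set_option autoImplicit false
open Cfsg

namespace Cfsg.Agent.S4237

/-- Let G be a finite group, p a prime and a a natural number such that p^(a+1) divides the order of G. Then the number of subgroups of G of order p^a is congruent to 1 or to 1 + p modulo p². -/
theorem result {G : Type*} [Group G] [Finite G] (p a : ℕ) (hp : p.Prime) (hdvd : p ^ (a + 1) ∣ Nat.card G) :
    Nat.card {H : Subgroup G // Nat.card H = p ^ a} ≡ 1 [MOD p ^ 2] ∨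
      Nat.card {H : Subgroup G // Nat.card H = p ^ a} ≡ 1 + p [MOD p ^ 2] := by
  haveI := Fact.mk hp
  change {H : Subgroup G | Nat.card H = p ^ a}.ncard ≡ 1 [MOD p ^ 2] ∨
    {H : Subgroup G | Nat.card H = p ^ a}.ncard ≡ 1 + p [MOD p ^ 2]
  by_cases h2 : p = 2
  · subst h2
    have := H79.ncard_subgroups_modEq_one (G := G) hp ((pow_dvd_pow 2 a.le_succ).trans hdvd)
    unfold Nat.ModEq at this ⊢
    omega
  rcases a with _ | j
  · left
    have : {K : Subgroup G | Nat.card K = p ^ 0} = {⊥} := by
      ext K; simp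
    rw [this, Set.ncard_singleton]
  have h1 := H79.ncard_subgroups_add_cyclic_modEq (G := G) hp (Nat.succ_pos j) hdvd
  obtain ⟨P⟩ : Nonempty (Sylow p G) := inferInstance
  by_cases hc : IsCyclic (P : Subgroup G)
  · left
    have h3 := H79.ncard_cyclic_modEq_sylow P (j + 2)
    have h4 : {K : Subgroup (P : Subgroup G) | Nat.card K = p ^ (j + 2) ∧ IsCyclic K}.ncard = 1 := by
      refine Eq.trans ?_ (H79.ncard_subgroups_of_isCyclic (G := (P : Subgroup G)) hp (k := j + 2)
        (by rw [P.card_eq_multiplicity]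
            exact pow_dvd_pow p ((hp.pow_dvd_iff_le_factorization Nat.card_pos.ne').1 hdvd)))
      congr 1; ext K
      exact ⟨fun h => h.1, fun h => ⟨h, inferInstance⟩⟩
    rw [h4] at h3
    have h5 := h3.mul_left' p
    rw [← pow_two, mul_one] at h5
    exact Nat.ModEq.add_right_cancel h5 h1
  · right
    obtain ⟨c, hc⟩ := H79.dvd_ncard_cyclic_of_sylow h2 P hc j
    rw [hc, ← mul_assoc, ← pow_two] at h1
    refine Nat.ModEq.trans ?_ h1
    exact (Nat.modEq_iff_dvd' (Nat.le_add_right _ _)).2
      (by rw [Nat.add_sub_cancel_left]; exact dvd_mul_right _ _)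

end Cfsg.Agent.S4237
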