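import Cfsg.Statements.S4238
import Mathlib
import Cfsg.Agent.Base
import Cfsg.Agent.Lib.Transfer.NormalComplement
import Cfsg.Agent.Lib.Core.Coprime
import Cfsg.Agent.Lib.Core.PCore
import Cfsg.Agent.Lib.Core.HallSZ

set_option autoImplicit false
open Cfsg

namespace Cfsg.Agent.S4238

open Subgroup
open scoped commutatorElement

theorem key {K : Type*} [Group K] [Finite K] {p : ℕ} [hp : Fact p.Prime] (V : Subgroup K) [V.Normal]
    (hV : IsPGroup p V) (hV0 : V ≠ ⊥) (y : K) (hy : (orderOf y).Coprime p)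
    (htop : V ⊔ zpowers y = ⊤) (hmin : ∀ N : Subgroup K, N.Normal → N ≠ ⊥ → V ≤ N)
    (hyc : y ∉ centralizer (V : Set K)) (k : K) : orderOf k ≠ Monoid.exponent K := by
  intro hk
  have hVV : V ≤ centralizer (V : Set K) := by
    refine (hmin (V ⊓ centralizer (V : Set K)) inferInstance ?_).trans inf_le_right
    haveI : Nontrivial V := (nontrivial_iff_ne_bot V).2 hV0
    haveI := hV.center_nontrivial
    obtain ⟨z, hz⟩ := exists_ne (1 : center V)
    intro h0
    have : ((z : V) : K) ∈ V ⊓ centralizer (V : Set K) :=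
      ⟨(z : V).2, fun v hv => congrArg Subtype.val (mem_center_iff.1 z.2 ⟨v, hv⟩)⟩
    rw [h0, mem_bot] at this
    exact hz (Subtype.ext (Subtype.ext this))
  have hNV : ∀ L : Subgroup K, L ≤ normalizer (V : Set K) := fun L => by
    rw [normalizer_eq_top]; exact le_top
  have hidx : V.index ∣ orderOf y := by
    rw [← relIndex_top_right, ← htop, H3.relIndex_sup_left_of_le_normalizer (hNV _),
      ← Nat.card_zpowers]
    exact index_dvd_card _
  obtain ⟨s, r, hr, hsr⟩ := Nat.exists_eq_pow_mul_and_not_dvd (orderOf_pos k).ne' p hp.out.ne_one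
  have hr0 : r ≠ 0 := by rintro rfl; exact hr (dvd_zero p)
  have hor : orderOf (k ^ p ^ s) = r := by
    rw [orderOf_pow' _ (pow_ne_zero _ hp.out.ne_zero), hsr, Nat.gcd_mul_right_left,
      Nat.mul_div_cancel_left _ (pow_pos hp.out.pos _)]
  have hop : orderOf (k ^ r) = p ^ s := by
    rw [orderOf_pow' _ hr0, hsr, Nat.gcd_mul_left_left,
      Nat.mul_div_cancel _ (Nat.pos_of_ne_zero hr0)]
  have hyr : orderOf y ∣ r := by
    have h1 : orderOf y ∣ p ^ s * r := by rw [← hsr, hk]; exact Monoid.order_dvd_exponent y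
    exact (Nat.Coprime.pow_right s hy).dvd_of_dvd_mul_left h1
  have hx1 : k ^ r ≠ 1 := by
    intro h1
    rw [h1, orderOf_one] at hop
    obtain ⟨⟨v, hv⟩, hv1⟩ := (ne_bot_iff_exists_ne_one).1 hV0
    obtain ⟨j, hj⟩ := IsPGroup.iff_orderOf.1 hV ⟨v, hv⟩
    have h2 : p ^ j ∣ r := by
      rw [← hj, ← one_mul r, hop, ← hsr, hk, ← orderOf_coe]
      exact Monoid.order_dvd_exponent _
    rcases j with _ | j
    · exact hv1 (by simpa using hj)
    · exact hr ((dvd_pow_self p j.succ_ne_zero).trans h2)
  have hxV : k ^ r ∈ V := by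
    rw [← QuotientGroup.eq_one_iff, ← orderOf_eq_one_iff]
    have h1 : orderOf ((k ^ r : K) : K ⧸ V) ∣ p ^ s := by
      rw [← hop]; exact orderOf_map_dvd (QuotientGroup.mk' V) _
    have h2 : orderOf ((k ^ r : K) : K ⧸ V) ∣ orderOf y := (_root_.orderOf_dvd_natCard _).trans hidx
    exact Nat.eq_one_of_dvd_coprimes (Nat.Coprime.pow_right s hy) h2 h1
  set w := k ^ p ^ s with hw
  have hVw : V ⊔ zpowers w = ⊤ := by
    refine eq_top_of_le_card _ (Nat.le_of_dvd Nat.card_pos ?_)
    rw [H3.card_sup_of_inf_eq_bot (hNV _), Nat.card_zpowers, hor, ← V.card_mul_index]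
    · exact Nat.mul_dvd_mul_left _ (hidx.trans hyr)
    · rw [inf_comm]
      exact H4.inf_eq_bot_of_not_dvd_card (by rwa [Nat.card_zpowers, hor]) hV
  have hC : (V ⊓ centralizer {w}).Normal := by
    rw [← normalizer_eq_top_iff, eq_top_iff, ← hVw]
    refine le_trans ?_ (centralizer_le_normalizer _)
    refine sup_le (hVV.trans (centralizer_le inf_le_left)) ?_
    rw [zpowers_le]
    intro x hx
    exact mem_centralizer_singleton_iff.1 hx.2
  have h1 : V ≤ V ⊓ centralizer {w} := by
    refine hmin _ hC fun h0 => hx1 ?_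
    rw [← mem_bot, ← h0]
    refine ⟨hxV, mem_centralizer_singleton_iff.2 ?_⟩
    exact (Commute.pow_pow_self k _ _).eq
  refine hyc ?_
  have h2 : (⊤ : Subgroup K) ≤ centralizer (V : Set K) := by
    rw [← hVw]
    refine sup_le hVV ?_
    rw [zpowers_le]
    intro x hx
    exact mem_centralizer_singleton_iff.1 (h1 hx).2
  exact h2 (mem_top y)

/-- Let G be a finite group and p a prime. Then G has a normal p-complement if and only if every section K = H/N of G (N a normal subgroup of a subgroup H) whose largest normal subgroup of order prime to p is trivial contains an element whose order equals the exponent of K. -/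
theorem result {G : Type*} [Group G] [Finite G] (p : ℕ) [Fact p.Prime] :
    Cfsg.HasNormalPComplement p G ↔
      ∀ (H : Subgroup G) (N : Subgroup H) [N.Normal], Cfsg.pPrimeCore p (H ⧸ N) = ⊥ →
        ∃ k : H ⧸ N, orderOf k = Monoid.exponent (H ⧸ N) := by
  classical
  constructor
  · intro h H N _ h0
    have h1 := H4.hasNormalPComplement_quotient (H4.hasNormalPComplement_subgroup h H) N
    have h2 : IsPGroup p (H ⧸ N) := by
      refine H4.isPGroup_of_pResidual_eq_bot ?_
      haveI := H4.pResidual_normal p (H ⧸ N)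
      rw [eq_bot_iff, ← h0]
      exact H1.le_pPrimeCore_of_not_dvd (H4.hasNormalPComplement_iff_not_dvd.1 h1)
    obtain ⟨n, hn⟩ := IsPGroup.iff_card.1 h2
    have h3 : Monoid.exponent (H ⧸ N) ∣ p ^ n := hn ▸ Group.exponent_dvd_nat_card
    obtain ⟨j, -, hj⟩ := (Nat.dvd_prime_pow Fact.out).1 h3
    obtain ⟨g, hg⟩ := Nat.Prime.exists_orderOf_eq_pow_factorization_exponent (H ⧸ N)
      (Fact.out : p.Prime)
    refine ⟨g, ?_⟩
    rw [hg, hj, Nat.Prime.factorization_pow Fact.out]
    simp
  · intro h
    refine H4.hasNormalPComplement_of_forall_normalizer fun X hX g hg hgp => ?_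
    by_contra hgc
    have hgX : zpowers g ≤ normalizer (X : Set G) := by rwa [zpowers_le]
    have hcop : (Nat.card (zpowers g)).Coprime (Nat.card X) := by
      rw [Nat.card_zpowers]
      exact (H1.coprime_card_of_isPGroup_of_coprime hX hgp).symm
    set Q := ⁅X, zpowers g⁆ with hQ
    have hQQ : ⁅Q, zpowers g⁆ = Q := H2.commutator_commutator_eq hgX hcop
    have hQX : Q ≤ X := le_normalizer_iff_commutator_le_left.1 hgX
    have hQ0 : Q ≠ ⊥ := by
      intro h0
      rw [hQ, commutator_comm, commutator_eq_bot_iff_le_centralizer, zpowers_le] at h0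
      exact hgc h0
    set H := Q ⊔ zpowers g with hH
    have hHQ : H ≤ normalizer (Q : Set G) :=
      sup_le le_normalizer (normalizer_commutator_ge_right _ _)
    set Q' := Q.subgroupOf H with hQ'
    haveI hQ'n : Q'.Normal := (normal_subgroupOf_iff_le_normalizer le_sup_left).2 hHQ
    set g' : H := ⟨g, mem_sup_right (mem_zpowers g)⟩ with hg'
    have hmapg : (zpowers g').map H.subtype = zpowers g := by rw [MonoidHom.map_zpowers]; rfl
    have hmapQ : Q'.map H.subtype = Q := by
      rw [hQ', subgroupOf_map_subtype, inf_eq_left.2 le_sup_left]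
    have hQ'0 : Q' ≠ ⊥ := by
      intro h0; rw [h0, Subgroup.map_bot] at hmapQ; exact hQ0 hmapQ.symm
    have hQ'Q' : ⁅Q', zpowers g'⁆ = Q' := by
      refine map_injective (subtype_injective H) ?_
      rw [Subgroup.map_commutator, hmapg, hmapQ, hQQ]
    have htop : Q' ⊔ zpowers g' = ⊤ := by
      refine map_injective (subtype_injective H) ?_
      rw [Subgroup.map_sup, hmapg, hmapQ, ← MonoidHom.range_eq_map, range_subtype]
    obtain ⟨N, ⟨hN, hQN⟩, hmax⟩ := Set.Finite.exists_maximal
      (s := {N : Subgroup H | N.Normal ∧ ¬ Q' ≤ N}) (Set.toFinite _)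
      ⟨⊥, inferInstance, fun h0 => hQ'0 (le_bot_iff.1 h0)⟩
    have hf := QuotientGroup.mk'_surjective N
    set f := QuotientGroup.mk' N with hfdef
    have hVp : IsPGroup p (Q'.map f) := (H4.isPGroup_subgroupOf (hX.to_le hQX) H).map f
    have hV0 : Q'.map f ≠ ⊥ := by
      rwa [Ne, Subgroup.map_eq_bot_iff, QuotientGroup.ker_mk']
    haveI : (Q'.map f).Normal := hQ'n.map f hf
    have hmin : ∀ M : Subgroup (H ⧸ N), M.Normal → M ≠ ⊥ → Q'.map f ≤ M := by
      intro M hM hM0
      rw [map_le_iff_le_comap]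
      by_contra hc
      have h1 : N ≤ M.comap f := by
        intro x hx
        rw [mem_comap, show f x = 1 from (QuotientGroup.eq_one_iff x).2 hx]
        exact M.one_mem
      have h2 := hmax (y := M.comap f) ⟨hM.comap f, hc⟩ h1
      refine hM0 ?_
      rw [← map_comap_eq_self_of_surjective hf M, Subgroup.map_eq_bot_iff, QuotientGroup.ker_mk']
      exact h2
    obtain ⟨k, hk⟩ := h H N (by
      by_contra h0
      exact hV0 (le_bot_iff.1 ((le_inf le_rfl (hmin _ inferInstance h0)).trans
        (H1.inf_pPrimeCore_eq_bot hVp).le)))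
    refine key (Q'.map f) hVp hV0 (f g') ?_ ?_ hmin ?_ k hk
    · refine Nat.Coprime.coprime_dvd_left (orderOf_map_dvd f g') ?_
      rwa [← orderOf_coe]
    · rw [← MonoidHom.map_zpowers, ← Subgroup.map_sup, htop, map_top_of_surjective _ hf]
    · intro hc
      rw [← zpowers_le, ← commutator_eq_bot_iff_le_centralizer, commutator_comm,
        ← MonoidHom.map_zpowers, ← Subgroup.map_commutator, hQ'Q'] at hc
      exact hV0 hc

end Cfsg.Agent.S4238
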