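import Cfsg.Statements.S4242
import Mathlib
import Cfsg.Agent.Base
import Cfsg.Agent.Lib.Tech58.Schmidt
import Cfsg.Agent.Lib.Core.CoprimeSylow
import Cfsg.Agent.Lib.Transfer.NormalComplement
import Cfsg.Agent.Lib.Core.HallSZ

set_option autoImplicit false
open Cfsg

namespace Cfsg.Agent.S4242

open Subgroup

/-- Let G be a finite group and p a prime dividing its order. Every maximal subgroup of G of order divisible by p is nilpotent if and only if G is nilpotent, or G is a minimal non-nilpotent group, or G is the internal direct product of a normal subgroup of order p and a normal minimal non-nilpotent subgroup of order prime to p. -/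
theorem result {G : Type*} [Group G] [Finite G] (p : ℕ) (hp : p.Prime) (hpG : p ∣ Nat.card G) :
    (∀ M : Subgroup G, IsCoatom M → p ∣ Nat.card M → Group.IsNilpotent M) ↔
      (Group.IsNilpotent G ∨ Cfsg.IsMinimalNonNilpotent G ∨
        ∃ Z K : Subgroup G, Z.Normal ∧ K.Normal ∧ Z ⊓ K = ⊥ ∧ Z ⊔ K = ⊤ ∧ Nat.card Z = p ∧
          Cfsg.IsMinimalNonNilpotent K ∧ ¬ p ∣ Nat.card K) := by
  classical
  haveI := Fact.mk hp
  have hnorm : ∀ (N L : Subgroup G) [N.Normal], L ≤ normalizer (N : Set G) := fun N L _ => by
    rw [normalizer_eq_top]; exact le_top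
  constructor
  · intro h
    have h' : ∀ H : Subgroup G, H ≠ ⊤ → p ∣ Nat.card H → Group.IsNilpotent H := by
      intro H hH hd
      obtain ⟨M, hM, hHM⟩ := (eq_top_or_exists_le_coatom H).resolve_left hH
      exact H1.isNilpotent_of_le (h M hM (hd.trans (card_dvd_of_le hHM))) hHM
    by_cases h1 : Group.IsNilpotent G
    · exact Or.inl h1
    by_cases h2 : IsMinimalNonNilpotent G
    · exact Or.inr (Or.inl h2)
    refine Or.inr (Or.inr ?_)
    obtain ⟨H, hH, hHn⟩ : ∃ H : Subgroup G, H ≠ ⊤ ∧ ¬ Group.IsNilpotent H := by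
      by_contra hc
      push Not at hc
      exact h2 ⟨h1, hc⟩
    obtain ⟨M, hM, hHM⟩ := (eq_top_or_exists_le_coatom H).resolve_left hH
    have hMn : ¬ Group.IsNilpotent M := fun hn => hHn (H1.isNilpotent_of_le hn hHM)
    have hpM : ¬ p ∣ Nat.card M := fun hd => hMn (h M hM hd)
    have hcent : ∀ (q : ℕ) [Fact q.Prime], q ≠ p → ∀ S X : Subgroup G, IsPGroup q S →
        IsPGroup p X → X ≠ ⊥ → S ⊔ X ≠ ⊤ → S ≤ centralizer (X : Set G) := by
      intro q _ hqp S X hS hX hX0 hne s hs
      have hd : p ∣ Nat.card X := (hX.card_eq_or_dvd.resolve_left fun h0 => hX0 (card_eq_one.1 h0))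
      refine H58.mem_centralizer_of_isNilpotent hqp
        (h' _ hne (hd.trans (card_dvd_of_le le_sup_right))) hX le_sup_right ?_ (mem_sup_left hs)
      obtain ⟨k, hk⟩ := IsPGroup.iff_orderOf.1 hS ⟨s, hs⟩
      exact ⟨k, by rw [← hk, ← orderOf_coe]⟩
    have hO : pCore p G ≠ ⊥ := by
      intro h0
      have hnpc : HasNormalPComplement p G := by
        refine H4.hasNormalPComplement_iff_forall_local.2 fun Q hQ hQ0 => ?_
        have hd : p ∣ Nat.card Q :=
          (hQ.card_eq_or_dvd.resolve_left fun h0 => hQ0 (card_eq_one.1 h0))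
        haveI := h' (normalizer (Q : Set G)) (fun ht => by
          haveI := normalizer_eq_top_iff.1 ht
          exact hQ0 (le_bot_iff.1 (h0 ▸ H1.le_pCore hQ))) (hd.trans (card_dvd_of_le le_normalizer))
        exact H4.hasNormalPComplement_of_isNilpotent
      obtain ⟨P⟩ : Nonempty (Sylow p G) := inferInstance
      have hP0 : (P : Subgroup G) ≠ ⊥ := P.ne_bot_of_dvd_card hpG
      haveI := H4.pResidual_normal p G
      have hK := H4.hasNormalPComplement_iff_not_dvd.1 hnpc
      have hKP : pResidual p G ≤ centralizer ((P : Subgroup G) : Set G) := by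
        refine H2.le_of_forall_invariant_sylowIn_le (A := P) (hnorm _ _)
          (H1.coprime_card_of_isPGroup_of_coprime P.isPGroup'
            ((Nat.Prime.coprime_iff_not_dvd hp).2 hK).symm)
          (Or.inl (H1.isSolvable_of_isPGroup P.isPGroup')) fun q _ S hS hPS => ?_
        by_cases hqp : q = p
        · subst hqp
          have := H4.inf_eq_bot_of_not_dvd_card hK hS.isPGroup
          rw [inf_eq_right.2 hS.le] at this
          rw [this]; exact bot_le
        refine hcent q hqp S P hS.isPGroup P.isPGroup' hP0 fun ht => hMn ?_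
        obtain ⟨a, ha⟩ := IsPGroup.iff_card.1 hS.isPGroup
        obtain ⟨b, hb⟩ := IsPGroup.iff_card.1 P.isPGroup'
        have h3 := H3.card_sup_dvd hPS
        rw [ht, card_top, ha, hb] at h3
        have h4 : Nat.card M ∣ q ^ a :=
          (Nat.Coprime.pow_right b ((Nat.Prime.coprime_iff_not_dvd hp).2 hpM).symm).dvd_of_dvd_mul_right
            ((card_subgroup_dvd_card M).trans h3)
        obtain ⟨c, -, hc⟩ := (Nat.dvd_prime_pow Fact.out).1 h4
        exact (IsPGroup.of_card hc).isNilpotent
      haveI : (P : Subgroup G).Normal := by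
        rw [← normalizer_eq_top_iff, eq_top_iff, ← H4.pResidual_sup_sylow P]
        exact sup_le (hKP.trans (centralizer_le_normalizer _)) le_normalizer
      exact hP0 (le_bot_iff.1 (h0 ▸ H1.le_pCore P.isPGroup'))
    have hMO : M ≤ centralizer (pCore p G : Set G) := by
      refine H2.le_of_forall_sylowIn_le fun q hq => ?_
      haveI := Fact.mk hq
      obtain ⟨S, hS⟩ := H68.exists_sylowIn q M
      refine ⟨S, hS, ?_⟩
      by_cases hqp : q = p
      · subst hqp
        have := H4.inf_eq_bot_of_not_dvd_card hpM hS.isPGroup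
        rw [inf_eq_right.2 hS.le] at this
        rw [this]; exact bot_le
      refine hcent q hqp S _ hS.isPGroup H1.isPGroup_pCore hO fun ht => hMn ?_
      have h3 := H3.sup_inf_assoc_of_le_normalizer' (N := pCore p G) (hnorm _ S) hS.le
      rw [sup_comm, ht, top_inf_eq, inf_comm, H4.inf_eq_bot_of_not_dvd_card hpM H1.isPGroup_pCore,
        bot_sup_eq] at h3
      rw [h3]
      exact hS.isPGroup.isNilpotent
    obtain ⟨z, hzO, hz⟩ := H1.exists_mem_orderOf_eq_prime hp
      ((H1.isPGroup_pCore (p := p) (G := G)).card_eq_or_dvd.resolve_left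
        fun h0 => hO (card_eq_one.1 h0))
    have hZc : Nat.card (zpowers z) = p := by rw [Nat.card_zpowers, hz]
    have hZp : IsPGroup p (zpowers z) := IsPGroup.of_card (n := 1) (by rw [hZc, pow_one])
    have hMZ : M ≤ centralizer (zpowers z : Set G) :=
      hMO.trans (centralizer_le (by simpa using hzO))
    have hZM : zpowers z ⊓ M = ⊥ := by
      rw [inf_comm]; exact H4.inf_eq_bot_of_not_dvd_card hpM hZp
    have htop : zpowers z ⊔ M = ⊤ := by
      refine hM.2 _ (lt_of_le_of_ne le_sup_right fun he => ?_)
      exact hpM (hZc ▸ card_dvd_of_le (he ▸ le_sup_left))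
    have hZn : (zpowers z).Normal := by
      rw [← normalizer_eq_top_iff, eq_top_iff, ← htop]
      exact sup_le le_normalizer (hMZ.trans (centralizer_le_normalizer _))
    refine ⟨zpowers z, M, hZn, ?_, hZM, htop, hZc, ⟨hMn, fun L hL => ?_⟩, hpM⟩
    · rw [← normalizer_eq_top_iff, eq_top_iff, ← htop]
      exact sup_le ((le_centralizer_iff.1 hMZ).trans (centralizer_le_normalizer _)) le_normalizer
    · refine H1.isNilpotent_of_map_injective (subtype_injective M) ?_
      refine H1.isNilpotent_of_le (h' (zpowers z ⊔ L.map M.subtype) (fun ht => hL ?_)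
        (hZc ▸ card_dvd_of_le le_sup_left)) le_sup_right
      have h3 := H3.sup_inf_assoc_of_le_normalizer' (N := zpowers z) (hnorm _ (L.map M.subtype))
        (map_subtype_le L)
      rw [ht, top_inf_eq, hZM, bot_sup_eq] at h3
      refine map_injective (subtype_injective M) ?_
      rw [← h3, ← MonoidHom.range_eq_map, range_subtype]
  · rintro (h | h | ⟨Z, K, hZ, hK, hZK, htop, hZc, hKm, hpK⟩) M hM hd
    · infer_instance
    · exact h.2 M hM.1
    · have hZp : IsPGroup p Z := IsPGroup.of_card (n := 1) (by rw [hZc, pow_one])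
      have hZM : Z ≤ M := by
        obtain ⟨z, hzM, hz⟩ := H1.exists_mem_orderOf_eq_prime hp hd
        have hzZ : z ∈ Z := by
          refine H1.mem_of_coprime_index ?_
          rw [hz, Nat.Prime.coprime_iff_not_dvd hp, ← relIndex_top_right, ← htop,
            H3.relIndex_sup_left_of_le_normalizer (hnorm _ _)]
          exact fun h3 => hpK (h3.trans (index_dvd_card _))
        have : zpowers z = Z := eq_of_le_of_card_ge (by simpa using hzZ)
          (by rw [Nat.card_zpowers, hz, hZc])
        rw [← this]; simpa using hzM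
      have h3 := H3.sup_inf_assoc_of_le_normalizer (hnorm Z K) hZM
      rw [htop, top_inf_eq] at h3
      have h4 : Group.IsNilpotent (K ⊓ M : Subgroup G) := by
        have h5 := hKm.2 (M.subgroupOf K) (fun ht => hM.1 (by
          rw [subgroupOf_eq_top] at ht
          rw [eq_top_iff, ← htop]; exact sup_le hZM ht))
        have h6 := H1.isNilpotent_map h5 K.subtype
        rwa [subgroupOf_map_subtype, inf_comm] at h6
      rw [h3]
      refine H1.isNilpotent_sup_of_le_normalizer ?_ (hnorm _ _) hZp.isNilpotent h4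
      refine le_trans ?_ (inf_normalizer_le_normalizer_inf (H := K) (K := M))
      exact le_inf (hnorm _ _) (hZM.trans le_normalizer)

end Cfsg.Agent.S4242
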