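import Cfsg.Statements.S4250
import Mathlib
import Cfsg.Agent.Lib.LocStruct.Res
import Cfsg.Agent.Lib.Transfer.Alperin

set_option autoImplicit false
open Cfsg

namespace Cfsg.Agent.S4250

open Subgroup H69
open scoped commutatorElement Pointwise

theorem fc {G : Type*} [Group G] (P K : Subgroup G) :
    H4.FusionClosed P fun A g => ∀ a ∈ A, ⁅g, a⁆ ∈ K where
  res := fun h _ _ h' a ha => h' a (h ha)
  mul := by
    intro A g h _ _ _ h1 h2 a ha
    have h3 := h2 (g * a * g⁻¹) (cj_mem g ha)
    have := mul_mem h3 (h1 a ha)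
    convert this using 1
    simp only [commutatorElement_def]; group
  inv := by
    intro A g _ _ h1 b hb
    obtain ⟨a, ha, rfl⟩ := mem_cj'.1 hb
    have := inv_mem (h1 a ha)
    convert this using 1
    simp only [commutatorElement_def]; group


/-- Let P be a Sylow p-subgroup of a finite group G. Call an intersection H = P ∩ Q with a Sylow p-subgroup Q tame when N_P(H) and N_Q(H) are Sylow p-subgroups of N_G(H). Then P ∩ G′ is generated by [P, N_G(P)] together with the commutator subgroups [P ∩ Q, ⟨x⟩] for all tame intersections P ∩ Q and all p-elements x of N_G(P ∩ Q). -/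
theorem result {G : Type*} [Group G] [Finite G] (p : ℕ) [Fact p.Prime] (P : Sylow p G) :
    (P : Subgroup G) ⊓ commutator G =
      ⁅(P : Subgroup G), Subgroup.normalizer ((P : Subgroup G) : Set G)⁆ ⊔
        ⨆ (Q : Sylow p G) (_ : (¬ p ∣ ((P : Subgroup G) ⊓ Subgroup.normalizer (((P : Subgroup G) ⊓ (Q : Subgroup G) : Subgroup G) : Set G)).relIndex (Subgroup.normalizer (((P : Subgroup G) ⊓ (Q : Subgroup G) : Subgroup G) : Set G)) ∧ ¬ p ∣ ((Q : Subgroup G) ⊓ Subgroup.normalizer (((P : Subgroup G) ⊓ (Q : Subgroup G) : Subgroup G) : Set G)).relIndex (Subgroup.normalizer (((P : Subgroup G) ⊓ (Q : Subgroup G) : Subgroup G) : Set G))))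
          (x : G) (_ : x ∈ Subgroup.normalizer (((P : Subgroup G) ⊓ (Q : Subgroup G) : Subgroup G) : Set G) ∧ ∃ k : ℕ, orderOf x = p ^ k),
          ⁅(P : Subgroup G) ⊓ (Q : Subgroup G), Subgroup.zpowers x⁆ := by
  apply le_antisymm
  · rw [inf_comm]
    refine H4.commutator_inf_sylow_le_of_fusion P fun x hx u hu => ?_
    refine H4.alperin_tame P (fc _ _) ?_ ?_ (A := zpowers x) (zpowers_le.2 hx) ?_ x (mem_zpowers x)
    · intro g hg a ha
      refine mem_sup_left ?_
      rw [commutator_comm]
      exact commutator_mem_commutator hg ha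
    · intro Q h1 h2 y hy hy' a ha
      refine mem_sup_right ?_
      refine mem_iSup_of_mem Q (mem_iSup_of_mem ⟨h1, h2⟩
        (mem_iSup_of_mem y (mem_iSup_of_mem ⟨hy, hy'⟩ ?_)))
      rw [commutator_comm]
      exact commutator_mem_commutator (mem_zpowers y) ha
    · rw [smul_eq_cj, cj_zpowers]
      exact zpowers_le.2 hu
  · refine sup_le (le_inf (H69.commutator_le_left_of_le_normalizer le_rfl)
      (commutator_mono le_top le_top)) (iSup_le fun Q => iSup_le fun _ => iSup_le fun x =>
        iSup_le fun hx => le_inf ?_ (commutator_mono le_top le_top))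
    exact (H69.commutator_le_left_of_le_normalizer (zpowers_le.2 hx.1)).trans inf_le_left

end Cfsg.Agent.S4250
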