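import Cfsg.Statements.S4251
import Mathlib
import Cfsg.Agent.Lib.LocStruct.Res
import Cfsg.Agent.Lib.Transfer.Alperin

set_option autoImplicit false
open Cfsg

namespace Cfsg.Agent.S4251

open Subgroup H69
open scoped commutatorElement Pointwise

theorem loc {G : Type*} [Group G] [Finite G] {p : ℕ} [Fact p.Prime] {P D : Subgroup G}
    (hP : IsPGroup p P) (hD : H4.FullyNorm p P D)
    (h : D ≠ ⊥ → IsPGroup p (𝐍(D) ⧸ (𝐂(D)).subgroupOf 𝐍(D))) {x : G} (hx : x ∈ 𝐍(D)) :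
    ∃ v ∈ P, ∀ a ∈ D, v * a * v⁻¹ = x * a * x⁻¹ := by
  by_cases h0 : D = ⊥
  · refine ⟨1, one_mem _, fun a ha => ?_⟩
    rw [h0, mem_bot] at ha
    simp [ha]
  have hT : IsSylowIn p (P ⊓ 𝐍(D)) 𝐍(D) :=
    isSylowIn_of_not_dvd_relIndex (hP.to_le inf_le_left) inf_le_right hD
  have hR : 𝐑(p, 𝐍(D)) ≤ 𝐂(D) :=
    map_le_iff_le_comap.2 (H4.pResidual_le_of_isPGroup_quotient
      (N := (𝐂(D)).subgroupOf 𝐍(D)) (h h0))
  rw [← hT.sup_res] at hx
  obtain ⟨v, hv, c, hc, rfl⟩ := (mem_sup_of_le_normalizer_right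
    (inf_le_right.trans (le_normalizer_res _))).1 hx
  refine ⟨v, hv.1, fun a ha => ?_⟩
  have := conj_eq_of_mem_centralizer (hR hc) ha
  calc v * a * v⁻¹ = v * (c * a * c⁻¹) * v⁻¹ := by rw [this]
    _ = _ := by group


/-- Let P be a Sylow p-subgroup of a finite group G. Call an intersection H = P ∩ Q with a Sylow p-subgroup Q tame when N_P(H) and N_Q(H) are Sylow p-subgroups of N_G(H). If N_G(H)/C_G(H) is a p-group for every nontrivial tame intersection H = P ∩ Q, then G has a normal p-complement. -/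
theorem result {G : Type*} [Group G] [Finite G] (p : ℕ) [Fact p.Prime] (P : Sylow p G)
    (h : ∀ Q : Sylow p G, (P : Subgroup G) ⊓ (Q : Subgroup G) ≠ ⊥ → (¬ p ∣ ((P : Subgroup G) ⊓ Subgroup.normalizer (((P : Subgroup G) ⊓ (Q : Subgroup G) : Subgroup G) : Set G)).relIndex (Subgroup.normalizer (((P : Subgroup G) ⊓ (Q : Subgroup G) : Subgroup G) : Set G)) ∧ ¬ p ∣ ((Q : Subgroup G) ⊓ Subgroup.normalizer (((P : Subgroup G) ⊓ (Q : Subgroup G) : Subgroup G) : Set G)).relIndex (Subgroup.normalizer (((P : Subgroup G) ⊓ (Q : Subgroup G) : Subgroup G) : Set G))) →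
      IsPGroup p (Subgroup.normalizer (((P : Subgroup G) ⊓ (Q : Subgroup G) : Subgroup G) : Set G) ⧸
        (Subgroup.centralizer (((P : Subgroup G) ⊓ (Q : Subgroup G) : Subgroup G) : Set G)).subgroupOf
          (Subgroup.normalizer (((P : Subgroup G) ⊓ (Q : Subgroup G) : Subgroup G) : Set G)))) :
    Cfsg.HasNormalPComplement p G := by
  rw [H4.hasNormalPComplement_iff_controls_fusion P]
  intro x hx g hg
  have := H4.alperin_tame P (H4.fusionClosed_induced (P : Subgroup G) P) ?_ ?_ (A := zpowers x)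
    (g := g) (zpowers_le.2 hx) ?_
  · obtain ⟨v, hv, h⟩ := this
    exact ⟨v, hv, h x (mem_zpowers x)⟩
  · intro g hg
    have h1 : H4.FullyNorm p (P : Subgroup G) ((P : Subgroup G) ⊓ P) := by
      rw [inf_idem]; exact H4.fullyNorm_sylow P
    have := loc P.isPGroup' h1 (fun h0 => h P h0 ⟨h1, h1⟩) (x := g) (by rwa [inf_idem])
    rwa [inf_idem] at this
  · intro Q h1 h2 y hy _
    exact loc P.isPGroup' h1 (fun h0 => h Q h0 ⟨h1, h2⟩) hy
  · rw [smul_eq_cj, cj_zpowers]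
    exact zpowers_le.2 hg

end Cfsg.Agent.S4251
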