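import Cfsg.Statements.S4253

set_option autoImplicit false
open Cfsg
open scoped Pointwise

namespace Cfsg.Agent.S4253


/-- Let H be a Frobenius complement in a finite group G (a nontrivial proper subgroup meeting each conjugate gHg⁻¹ with g outside H trivially). Then in the action of G on the left cosets of H by left multiplication, no non-identity element of G fixes two distinct cosets. -/
theorem result {G : Type*} [Group G] [Finite G] (H : Subgroup G) (hH : Cfsg.IsFrobeniusComplement H)
    (g : G) (hg : g ≠ 1) (a b : G ⧸ H) (ha : g • a = a) (hb : g • b = b) : a = b := by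
  induction a using QuotientGroup.induction_on with | _ a => ?_
  induction b using QuotientGroup.induction_on with | _ b => ?_
  rw [MulAction.Quotient.smul_mk, QuotientGroup.eq, smul_eq_mul] at ha hb
  rw [QuotientGroup.eq]
  by_contra hab
  have h := hH.2.2 _ hab
  have : a⁻¹ * g⁻¹ * a ∈ H ⊓ (MulAut.conj (a⁻¹ * b) • H) := by
    refine ⟨by simpa [mul_assoc] using ha, ?_⟩
    show _ ∈ (MulAut.conj (a⁻¹ * b) • H : Subgroup G)
    rw [Subgroup.mem_pointwise_smul_iff_inv_smul_mem, MulAut.smul_def, MulAut.conj_inv_apply]
    simpa [mul_assoc] using hb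
  rw [h, Subgroup.mem_bot] at this
  apply hg
  have h2 : g = a * (a⁻¹ * g⁻¹ * a)⁻¹ * a⁻¹ := by group
  rw [h2, this]; group

end Cfsg.Agent.S4253
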