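import Cfsg.Statements.S4261
import Cfsg.Agent.S0048

set_option autoImplicit false
open Cfsg

namespace Cfsg.Agent.S4261


/-- Let M be a maximal subgroup of a finite solvable group G such that x^[G : M] lies in M for every x in G. Then M is normal in G. -/
theorem result {G : Type*} [Group G] [Finite G] (hG : Group.IsSolvable G) (M : Subgroup G) (hM : IsCoatom M)
    (hexp : ∀ x : G, x ^ M.index ∈ M) : M.Normal := by
  obtain ⟨p, k, hp, hk, hpk⟩ := Cfsg.Agent.S0048.result M hM
  have hp' : p.Prime := hp.nat_prime
  have : Fact p.Prime := ⟨hp'⟩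
  -- every element of order prime to p lies in M
  have h1 : ∀ x : G, (orderOf x).Coprime p → x ∈ M := by
    intro x hx
    have h2 : x ∈ Subgroup.zpowers (x ^ M.index) := by
      rw [mem_zpowers_pow_iff, ← hpk]
      exact (Nat.Coprime.pow_right k hx).symm
    exact (Subgroup.zpowers_le.2 (hexp _)) h2
  have h3 : ∀ x : G, (orderOf x).Coprime p → x ∈ M.normalCore := by
    intro x hx g
    apply h1
    have : orderOf (g * x * g⁻¹) = orderOf x := by
      simpa using (MulAut.conj g).orderOf_eq x
    rwa [this]
  have hP : IsPGroup p (G ⧸ M.normalCore) := by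
    intro y
    induction y using QuotientGroup.induction_on with | _ x => ?_
    have hx0 : orderOf x ≠ 0 := (orderOf_pos x).ne'
    refine ⟨(orderOf x).factorization p, ?_⟩
    rw [← QuotientGroup.mk_pow, QuotientGroup.eq_one_iff]
    apply h3
    rw [orderOf_pow' _ (pow_ne_zero _ hp'.ne_zero), Nat.gcd_eq_right (Nat.ordProj_dvd _ _)]
    exact (Nat.coprime_ordCompl hp' hx0).symm
  have := hP.isNilpotent
  have hle : M.normalCore ≤ M := Subgroup.normalCore_le M
  have hco : IsCoatom (M.map (QuotientGroup.mk' M.normalCore)) := by
    have hc : (M.map (QuotientGroup.mk' M.normalCore)).comap (QuotientGroup.mk' M.normalCore) = M := by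
      rw [Subgroup.comap_map_eq, QuotientGroup.ker_mk', sup_eq_left.2 hle]
    constructor
    · intro h
      apply hM.1
      rw [← hc, h, Subgroup.comap_top]
    · intro b hb
      have : M < b.comap (QuotientGroup.mk' M.normalCore) := by
        exact hc.symm.trans_lt ((Subgroup.comap_lt_comap_of_surjective (QuotientGroup.mk'_surjective _)).2 hb)
      have h2 := hM.2 _ this
      rw [← Subgroup.map_comap_eq_self_of_surjective (QuotientGroup.mk'_surjective _) b, h2,
        ← MonoidHom.range_eq_map, QuotientGroup.range_mk']
  have hn : (M.map (QuotientGroup.mk' M.normalCore)).Normal :=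
    Subgroup.NormalizerCondition.normal_of_coatom _ Group.normalizerCondition_of_isNilpotent hco
  have hc : (M.map (QuotientGroup.mk' M.normalCore)).comap (QuotientGroup.mk' M.normalCore) = M := by
    rw [Subgroup.comap_map_eq, QuotientGroup.ker_mk', sup_eq_left.2 hle]
  rw [← hc]
  infer_instance

end Cfsg.Agent.S4261
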