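import Mathlib
import Cfsg.Statements.S4263
import Cfsg.Agent.Lib.Core.Fitting

set_option autoImplicit false
open Cfsg
open scoped Pointwise

namespace Cfsg.Agent.S4263

theorem pow_index_mem_of_nilpotent {F : Type*} [Group F] [Finite F] [Group.IsNilpotent F] (x : F)
    (D : Subgroup F) : x ^ D.index ∈ D := by
  induction' hn : D.index using Nat.strong_induction_on with n ih generalizing D
  subst hn
  by_cases hD : D = ⊤
  · rw [hD]; exact Subgroup.mem_top _
  have hlt : D < Subgroup.normalizer (D : Set F) :=
    normalizerCondition_of_isNilpotent D (lt_top_iff_ne_top.2 hD)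
  set N := Subgroup.normalizer (D : Set F)
  have h1 : D.relIndex N * N.index = D.index := Subgroup.relIndex_mul_index hlt.le
  have h2 : D.relIndex N ≠ 1 := fun e => hlt.not_ge (Subgroup.relIndex_eq_one.1 e)
  have h3 : N.index ≠ 0 := Subgroup.index_ne_zero_of_finite
  have h4 : D.relIndex N ≠ 0 := Subgroup.index_ne_zero_of_finite
  have h5 := ih N.index (by
    rw [← h1]
    exact lt_mul_of_one_lt_left (Nat.pos_of_ne_zero h3) (by omega)) N rfl
  have h6 := Subgroup.pow_index_mem (H := D.subgroupOf N) ⟨_, h5⟩
  rw [← h1, mul_comm, pow_mul]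
  exact h6

/-- Let G be a finite group. An element x lies in the Fitting subgroup F(G) if and only if, for every subgroup H of G, the power x^[G : H] lies in H. -/
theorem result {G : Type*} [Group G] [Finite G] (x : G) :
    x ∈ Cfsg.fittingSubgroup G ↔ ∀ H : Subgroup G, x ^ H.index ∈ H := by
  constructor
  · intro hx H
    set F := Cfsg.fittingSubgroup G
    have h1 : x ^ H.relIndex F ∈ H := pow_index_mem_of_nilpotent (⟨x, hx⟩ : F) (H.subgroupOf F)
    have h2 : H.relIndex F = H.relIndex (H ⊔ F) := by
      have a1 := H1.card_sup_mul_card_inf_of_normal H F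
      have a2 := H1.card_inf_mul_relIndex H F
      have a3 := H1.card_mul_relIndex_of_le (le_sup_left : H ≤ H ⊔ F)
      rw [← a3, ← a2, mul_assoc] at a1
      have a4 := Nat.eq_of_mul_eq_mul_left Nat.card_pos a1
      rw [mul_comm] at a4
      exact (Nat.eq_of_mul_eq_mul_left Nat.card_pos a4).symm
    obtain ⟨k, hk⟩ : H.relIndex F ∣ H.index := h2 ▸ Subgroup.relIndex_dvd_index_of_le le_sup_left
    rw [hk, pow_mul]
    exact H.pow_mem h1 k
  · intro h
    set F := Cfsg.fittingSubgroup G
    rw [← QuotientGroup.eq_one_iff, ← orderOf_eq_one_iff]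
    by_contra hne
    obtain ⟨q, hq, hd⟩ := Nat.exists_prime_and_dvd hne
    haveI := Fact.mk hq
    obtain ⟨Q⟩ : Nonempty (Sylow q G) := inferInstance
    have h1 : x ^ (Q : Subgroup G).index ∈ (Q : Subgroup G).normalCore := by
      intro g
      have := h (MulAut.conj g⁻¹ • (Q : Subgroup G))
      rw [H1.index_conj_smul, H1.mem_conj_smul_iff, inv_inv] at this
      exact this
    have h2 : (Q : Subgroup G).normalCore ≤ F :=
      (H1.le_pCore (Q.isPGroup'.to_le (Subgroup.normalCore_le _))).trans (H1.pCore_le_fitting q)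
    have h3 : (x : G ⧸ F) ^ (Q : Subgroup G).index = 1 := by
      rw [← QuotientGroup.mk_pow, QuotientGroup.eq_one_iff]
      exact h2 h1
    exact Q.not_dvd_index (hd.trans (orderOf_dvd_of_pow_eq_one h3))

end Cfsg.Agent.S4263
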