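import Cfsg.Statements.S4265
import Cfsg.Agent.Lib.KR.Main

set_option autoImplicit false
open Cfsg

namespace Cfsg.Agent.S4265

/-- Let G be a finite solvable subgroup of GL_r(ℂ), r ≥ 1, with Fitting subgroup F(G) normal in G. Then for every subgroup H of G the quotient H/(H ∩ F(G)) has at most 3^{r−1} conjugacy classes. -/
theorem result (r : ℕ) (hr : 1 ≤ r) (G : Subgroup (GL (Fin r) ℂ)) [Finite ↥G] (hsolv : Group.IsSolvable ↥G) [hF : (Cfsg.fittingSubgroup ↥G).Normal] (H : Subgroup ↥G) : Nat.card (ConjClasses (↥H ⧸ (Cfsg.fittingSubgroup ↥G).subgroupOf H)) ≤ 3 ^ (r - 1) := by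
  let ρ : Representation ℂ G (Fin r → ℂ) :=
    (Matrix.toLinAlgEquiv' (R := ℂ) (n := Fin r)).toMonoidHom.comp
      ((Units.coeHom _).comp G.subtype)
  have hρ : Function.Injective ρ :=
    Matrix.toLinAlgEquiv'.injective.comp (Units.val_injective.comp G.subtype_injective)
  obtain ⟨M, hM, h1, h2⟩ := H81.KR.bs r ℂ (Fin r → ℂ) (by simp) G hsolv ρ
  have h3 := h1.le_fitting hρ (fun p hp hk => absurd (CharP.eq ℂ hk (CharP.ofCharZero ℂ)) hp.ne_zero)
    hM.isSubnormal
  exact ((h2.quot_mono h3).comap H.subtype).top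

end Cfsg.Agent.S4265
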