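import Cfsg.Statements.S4269
import Mathlib
import Cfsg.Agent.Lib.FGS.Pronormal

set_option autoImplicit false
open Cfsg

namespace Cfsg.Agent.S4269

open Subgroup
open scoped Pointwise commutatorElement

/-- Let G be a finite group, V an abelian normal subgroup and H a subgroup with HV = G. Then H is pronormal in G (H and gHg⁻¹ are conjugate inside the subgroup they generate, for every g) if and only if every H-invariant subgroup U of V satisfies U = N_U(H)·[H, U], that is, U is the join of U ∩ N_G(H) and the commutator subgroup [H, U]. -/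
theorem result {G : Type*} [Group G] [Finite G]
    (V : Subgroup G) [V.Normal] (hV : IsMulCommutative ↥V) (H : Subgroup G) (hHV : H ⊔ V = ⊤) :
    Cfsg.IsPronormal H ↔
      ∀ U : Subgroup G, U ≤ V → (∀ h ∈ H, U.map (MulAut.conj h).toMonoidHom = U) →
        U = (U ⊓ Subgroup.normalizer (H : Set G)) ⊔ ⁅H, U⁆ := by
  have hc : ∀ x ∈ V, ∀ y ∈ V, x * y = y * x := fun x hx y hy =>
    congrArg Subtype.val (hV.is_comm.comm ⟨x, hx⟩ ⟨y, hy⟩)
  have hVn : V.Normal := inferInstance
  have hcm : ∀ h : G, ∀ u ∈ V, ⁅h, u⁆ ∈ V := fun h u hu =>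
    V.mul_mem (hVn.conj_mem u hu h) (V.inv_mem hu)
  rw [H77.isPronormal_iff]
  constructor
  · intro hH U hUV hU
    have hHU : H ≤ normalizer (U : Set G) := fun h hh =>
      H1.mem_normalizer_iff_conj_smul_eq.mpr (hU h hh)
    have h1 : ⁅H, U⁆ ≤ U := commutator_le.mpr fun h hh u hu =>
      U.mul_mem ((mem_normalizer_iff.mp (hHU hh) u).mp hu) (U.inv_mem hu)
    apply le_antisymm _ (sup_le inf_le_left h1)
    intro u hu
    obtain ⟨x, hx, h2⟩ := hH u
    have h3 : H ⊔ MulAut.conj u • H ≤ ⁅H, U⁆ ⊔ H := by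
      refine sup_le le_sup_right fun y hy => ?_
      rw [H1.mem_conj_smul_iff] at hy
      have h4 := commutator_mem_commutator hy hu
      have : y = ⁅u⁻¹ * y * u, u⁆⁻¹ * (u⁻¹ * y * u) := by
        simp only [commutatorElement_def]; group
      rw [this]
      exact mul_mem_sup (inv_mem h4) hy
    have h5 := h3 hx
    rw [← SetLike.mem_coe, coe_mul_of_right_le_normalizer_left _ _ (normalizer_commutator_ge_left H U)] at h5
    obtain ⟨d, hd, h, hh, rfl⟩ := h5
    have h6 : d⁻¹ * u ∈ normalizer (H : Set G) := by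
      simpa [mul_assoc] using mul_mem (le_normalizer hh) h2
    have h7 : d⁻¹ * u ∈ U ⊓ normalizer (H : Set G) := ⟨U.mul_mem (U.inv_mem (h1 hd)) hu, h6⟩
    rw [sup_comm]
    simpa using mul_mem_sup hd h7
  · intro hU g
    have : g ∈ V ⊔ H := by rw [sup_comm, hHV]; trivial
    obtain ⟨v, hv, h, hh, rfl⟩ := mem_sup_of_normal_left.mp this
    refine H77.ConjIn.mul_normalizer ?_ (le_normalizer hh)
    set K := H ⊔ MulAut.conj v • H with hK
    let W : Subgroup G :=
      { carrier := {u | u ∈ V ∧ ∀ h ∈ H, ⁅h, u⁆ ∈ K}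
        one_mem' := ⟨V.one_mem, fun h _ => by simp⟩
        mul_mem' := by
          rintro a b ⟨ha, ha'⟩ ⟨hb, hb'⟩
          refine ⟨V.mul_mem ha hb, fun h hh => ?_⟩
          have h1 : ⁅h, a * b⁆ = ⁅h, a⁆ * (a * ⁅h, b⁆ * a⁻¹) := by
            simp only [commutatorElement_def]; group
          rw [h1, hc a ha _ (hcm h b hb), mul_inv_cancel_right]
          exact K.mul_mem (ha' h hh) (hb' h hh)
        inv_mem' := by
          rintro a ⟨ha, ha'⟩
          refine ⟨V.inv_mem ha, fun h hh => ?_⟩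
          have h1 : ⁅h, a⁻¹⁆ = a⁻¹ * (⁅h, a⁆⁻¹ * a) := by
            simp only [commutatorElement_def]; group
          rw [h1, ← hc a ha _ (V.inv_mem (hcm h a ha)), inv_mul_cancel_left]
          exact K.inv_mem (ha' h hh) }
    have hWV : W ≤ V := fun u hu => hu.1
    have hinv : ∀ k ∈ H, ∀ u ∈ W, k * u * k⁻¹ ∈ W := by
      intro k hk u hu
      refine ⟨hVn.conj_mem u hu.1 k, fun h hh => ?_⟩
      have h1 : ⁅h, k * u * k⁻¹⁆ = k * ⁅k⁻¹ * h * k, u⁆ * k⁻¹ := by
        simp only [commutatorElement_def]; group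
      rw [h1]
      exact K.mul_mem (K.mul_mem (mem_sup_left hk) (hu.2 _ (H.mul_mem (H.mul_mem (H.inv_mem hk) hh) hk)))
        (K.inv_mem (mem_sup_left hk))
    have h2 := hU W hWV (fun k hk => by
      apply le_antisymm
      · rintro _ ⟨u, hu, rfl⟩
        exact hinv k hk u hu
      · intro u hu
        exact ⟨k⁻¹ * u * k⁻¹⁻¹, hinv _ (H.inv_mem hk) u hu, by simp [mul_assoc]⟩)
    have hvW : v ∈ W := ⟨hv, fun h hh => by
      have h1 : ⁅h, v⁆ = h * (v * h⁻¹ * v⁻¹) := by simp only [commutatorElement_def]; group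
      rw [h1]
      exact mul_mem_sup hh (H1.conj_mem_conj_smul (H.inv_mem hh))⟩
    have h3 : ⁅H, W⁆ ≤ K := commutator_le.mpr fun h hh u hu => hu.2 h hh
    have h4 : ⁅H, W⁆ ≤ V := commutator_le.mpr fun h _ u hu => hcm h u hu.1
    rw [h2, sup_comm, ← SetLike.mem_coe, coe_mul_of_right_le_normalizer_left _ _
      (inf_le_left.trans (normalizer_commutator_ge_right H W))] at hvW
    obtain ⟨d, hd, n, hn, h5⟩ := hvW
    exact ⟨d, h3 hd, by rw [← h5]; simpa using hn.2⟩

end Cfsg.Agent.S4269
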