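import Cfsg.Statements.S4271
import Mathlib
import Cfsg.Agent.Lib.FGS.Pronormal

set_option autoImplicit false
open Cfsg

namespace Cfsg.Agent.S4271

open Subgroup
open scoped Pointwise commutatorElement

/-- Let p be a prime and G a finite group with a normal subgroup A such that every subgroup of A containing a Sylow p-subgroup of A is pronormal in A, and the Sylow p-subgroups of G/A are self-normalizing. Let T be a Sylow p-subgroup of A. Then every subgroup of G containing a Sylow p-subgroup of G is pronormal in G if and only if every subgroup of N_G(T)/T containing a Sylow p-subgroup of N_G(T)/T is pronormal in N_G(T)/T. (Pronormal: H and gHg⁻¹ are conjugate inside the subgroup they generate, for every g.) -/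
theorem result {G : Type*} [Group G] [Finite G] {p : ℕ} [Fact p.Prime]
    (A : Subgroup G) [A.Normal] (hA : (∀ K : Subgroup ↥A, (∃ P : Sylow p ↥A, (P : Subgroup ↥A) ≤ K) → Cfsg.IsPronormal K))
    (hQ : ∀ P : Sylow p (G ⧸ A), Subgroup.normalizer ((P : Subgroup (G ⧸ A)) : Set (G ⧸ A)) = P)
    (T : Subgroup G) (hT : ∃ P : Sylow p ↥A, (P : Subgroup ↥A).map A.subtype = T) [(T.subgroupOf (Subgroup.normalizer (T : Set G))).Normal] :
    (∀ K : Subgroup G, (∃ P : Sylow p G, (P : Subgroup G) ≤ K) → Cfsg.IsPronormal K) ↔ (∀ K : Subgroup (↥(Subgroup.normalizer (T : Set G)) ⧸ T.subgroupOf (Subgroup.normalizer (T : Set G))), (∃ P : Sylow p (↥(Subgroup.normalizer (T : Set G)) ⧸ T.subgroupOf (Subgroup.normalizer (T : Set G))), (P : Subgroup (↥(Subgroup.normalizer (T : Set G)) ⧸ T.subgroupOf (Subgroup.normalizer (T : Set G)))) ≤ K) → Cfsg.IsPronormal K) := by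
  refine ⟨H77.pronormal_normalizer_quotient A T hT, fun h1 => ?_⟩
  refine H77.pronormal_extension A hA ?_ T hT h1 ?_
  · rintro K ⟨P, hP⟩
    refine H77.isPronormal_of_normalizer hP (H77.isPronormal_sylow P) fun g hg => ?_
    rw [hQ P] at hg
    exact H77.conjIn_of_mem_normalizer (le_normalizer (hP hg))
  · rintro K ⟨P, hP⟩ g hg
    let Q := P.mapSurjective (QuotientGroup.mk'_surjective A)
    have hQK : (Q : Subgroup (G ⧸ A)) ≤ K.map (QuotientGroup.mk' A) := map_mono hP
    obtain ⟨k, hk, h2⟩ := H4.exists_mem_normalizer_sylow_of_le_normalizer Q (g := g) hQK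
      ((H77.conj_smul_mono g hQK).trans (H1.mem_normalizer_iff_conj_smul_eq.mp hg).le)
    have h3 : k * g ∈ (Q : Subgroup (G ⧸ A)) := (hQ Q).le h2
    exact map_mono le_normalizer (by simpa using mul_mem (inv_mem hk) (hQK h3))

end Cfsg.Agent.S4271
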