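import Cfsg.Statements.S4294
import Cfsg.Agent.Lib.FrobC.Perfect
import Cfsg.Agent.Lib.FrobC.Level

set_option autoImplicit false
open Cfsg

namespace Cfsg.Agent.S4294

open H82 Subgroup in
theorem comm_of_charP {D G : Type*} [DivisionRing D] [Group G] [Finite G] (ρ : G →* D)
    (p : ℕ) [Fact p.Prime] [CharP D p] (a b : G) : ρ a * ρ b = ρ b * ρ a := by
  let _ : Algebra (ZMod p) D := ZMod.algebra D p
  let A := Algebra.adjoin (ZMod p) (MonoidHom.mrange ρ : Set D)
  have h1 : Module.Finite (ZMod p) (Subalgebra.toSubmodule A) := by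
    rw [Algebra.adjoin_eq_span, Submonoid.closure_eq]
    exact Module.Finite.span_of_finite _ (Set.finite_range ρ)
  have h2 : Finite A := Module.finite_of_finite (ZMod p) (M := Subalgebra.toSubmodule A)
  have h3 := (Finite.isDomain_to_isField A).mul_comm ⟨ρ a, Algebra.subset_adjoin ⟨a, rfl⟩⟩
    ⟨ρ b, Algebra.subset_adjoin ⟨b, rfl⟩⟩
  exact congrArg Subtype.val h3

open H82 in
theorem root_eq_one {D : Type*} [DivisionRing D] [CharZero D] {I J s ζ : D} (hI : I * I = -1)
    (hJ : J * J = -1) (hIJ : J * I = -(I * J)) (hs : s * s = 5) (h1 : s * I = I * s)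
    (h2 : s * J = J * s) (h3 : s * ζ = ζ * s) (h4 : ζ * I = I * ζ) (h5 : ζ * J = J * ζ) {q : ℕ}
    (hq : q.Coprime 10) (hζ : ζ ^ q = 1) : ζ = 1 := by
  by_contra hne
  let C := Subring.centralizer ({s, ζ} : Set D)
  let K := Subring.centralizer (C : Set D)
  have hsK : s ∈ K := fun c hc => (hc s (by simp)).symm
  have hζK : ζ ∈ K := fun c hc => (hc ζ (by simp)).symm
  have hC : ∀ x, s * x = x * s → ζ * x = x * ζ → x ∈ C := by
    rintro x e1 e2 y (rfl | rfl) <;> assumption
  have hKC : ∀ x ∈ K, x ∈ C := fun x hx => hC x (hx s (hC s rfl h3.symm)) (hx ζ (hC ζ h3 rfl))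
  have hK : IsField K := ⟨exists_pair_ne K, fun x y => Subtype.ext (y.2 x (hKC x x.2)), by
    intro x hx
    have hx' : (x : D) ≠ 0 := fun e => hx (Subtype.ext e)
    refine ⟨⟨(x : D)⁻¹, fun c hc => ?_⟩, Subtype.ext (mul_inv_cancel₀ hx')⟩
    exact (Commute.inv_right₀ (x.2 c hc) :)⟩
  let _ := hK.toField
  obtain ⟨a, b, c, e1, e2⟩ := exists_sq_add_sq_add_one_of_root (K := K) (s := ⟨s, hsK⟩)
    (ζ := ⟨ζ, hζK⟩) (Subtype.ext hs) hq (Subtype.ext hζ) (fun e => hne (congrArg Subtype.val e))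
  have e3 : (a : D) * a + b * b + c * c = 0 := congrArg Subtype.val e1
  have hI' := fun x : K => x.2 I (hC I h1 h4)
  have hJ' := fun x : K => x.2 J (hC J h2 h5)
  have hc := fun x y : K => y.2 x (hKC x x.2)
  have hI2 : ∀ y, I * (I * y) = -y := fun y => by rw [← mul_assoc, hI, neg_one_mul]
  have hJ2 : ∀ y, J * (J * y) = -y := fun y => by rw [← mul_assoc, hJ, neg_one_mul]
  have hIJ2 : ∀ y, J * (I * y) = -(I * (J * y)) := fun y => by
    rw [← mul_assoc, hIJ, neg_mul, mul_assoc]
  have hI3 : ∀ (x : K) y, x * (I * y) = I * (x * y) := fun x y => by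
    rw [← mul_assoc, ← hI', mul_assoc]
  have hJ3 : ∀ (x : K) y, x * (J * y) = J * (x * y) := fun x y => by
    rw [← mul_assoc, ← hJ', mul_assoc]
  have hx : I * a + J * b + I * (J * c) = 0 := by
    apply mul_self_eq_zero.1
    simp only [mul_add, add_mul, mul_assoc, hI3, hJ3, hI2, hJ2, hIJ2, mul_neg, neg_neg, hc b a,
      hc c a, hc c b]
    rw [← neg_eq_zero, ← e3]
    abel
  have hI0 : I ≠ 0 := by rintro rfl; simp at hI
  have hJ0 : J ≠ 0 := by rintro rfl; simp at hJ
  refine e2 ⟨Subtype.ext ?_, Subtype.ext ?_⟩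
  · have : I * (I * a + J * b + I * (J * c)) + (I * a + J * b + I * (J * c)) * (I * 1) =
        -(2 * a) := by
      simp only [mul_add, add_mul, mul_assoc, hI2, hIJ2, mul_neg, neg_neg, mul_one,
        two_mul, ← hI']
      abel
    rw [hx] at this
    simpa using this
  · have : J * (I * a + J * b + I * (J * c)) + (I * a + J * b + I * (J * c)) * (J * 1) =
        -(2 * b) := by
      simp only [mul_add, add_mul, mul_assoc, hJ2, hIJ2, mul_neg, neg_neg, mul_one,
        two_mul, ← hJ']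
      abel
    rw [hx] at this
    simpa using this

theorem swap_conj : ∀ σ : Equiv.Perm (Fin 5), σ * σ * σ * σ * σ = 1 → ∃ α : Equiv.Perm (Fin 5),
    Equiv.swap 0 1 * σ * Equiv.swap 0 1 * α = α * (σ * σ) ∧ Equiv.Perm.sign α = 1 := by
  decide +kernel


/-- A finite non-solvable subgroup of the multiplicative group of a division ring is isomorphic to the binary icosahedral group SL(2,5). -/
theorem result {D : Type*} [DivisionRing D] (H : Subgroup Dˣ) [Finite H] (hH : ¬ Group.IsSolvable H) :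
    Nonempty (H ≃* Matrix.SpecialLinearGroup (Fin 2) (ZMod 5)) := by
  open H82 Subgroup in
  let ρ : H →* D := (Units.coeHom D).comp H.subtype
  have hρi : Function.Injective ρ := fun a b e => Subtype.ext (Units.ext e)
  obtain ⟨p, hp⟩ := CharP.exists D
  rcases CharP.char_is_prime_or_zero D p with hp' | rfl
  · have := Fact.mk hp'
    exact (hH (Group.isSolvable_of_comm fun a b => hρi (by
      rw [map_mul, map_mul, comm_of_charP ρ p]))).elim
  have : CharZero D := CharP.charP_to_charZero D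
  have hρ : NZ ρ := by
    intro g hg
    have h3 := mul_geom_sum (ρ g) (orderOf g)
    rw [← map_pow, pow_orderOf_eq_one, map_one, sub_self] at h3
    exact (mul_eq_zero.1 h3).resolve_left (sub_ne_zero.2 fun e => hg (hρi (e.trans (map_one ρ).symm)))
  obtain ⟨θ, φ, hθ, hφ, h3⟩ := hρ.exists_ico hH
  obtain ⟨f, M, hs⟩ := hρ.intFPF.nonSolv hθ h3
  have hz : orderOf (θ (-1)) = 2 := by rw [orderOf_injective θ hθ, orderOf_neg_one_SL25]
  have hρz := hρ.invol hz
  set w0 : SL25 := gi * gi * gb * gx with hw0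
  have hw5 : w0 ^ 5 = 1 := by decide +kernel
  have hw1 : w0 ≠ 1 := by decide +kernel
  have hwo : orderOf (θ w0) = 5 := by
    have := Fact.mk Nat.prime_five
    rw [orderOf_injective θ hθ, orderOf_eq_prime hw5 hw1]
  have htc : ∀ g h, tau ρ (θ g) * ρ (θ h) = ρ (θ h) * tau ρ (θ g) := by
    intro g h
    have := icoHom_tau_comm φ g h
    simpa only [tau, ← map_inv, hφ] using this
  have hsum : tau ρ (θ (w0 * w0)) = -1 - tau ρ (θ w0) := by
    have h1 := hρ (θ w0) (by rintro e; rw [e] at hwo; simp at hwo)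
    have h2 : w0⁻¹ = w0 ^ 4 := by decide +kernel
    have h4 : (w0 * w0)⁻¹ = w0 ^ 3 := by decide +kernel
    simp only [hwo, Finset.sum_range_succ, Finset.range_zero, Finset.sum_empty] at h1
    simp only [tau, ← map_inv, h2, h4]
    simp only [map_pow, map_mul]
    linear_combination (norm := exact nc!) h1
  set s := tau ρ (θ w0) + tau ρ (θ w0) + 1 with hsd
  have hs5 : s * s = 5 := by
    have h1 := tau_mul_self ρ (θ w0)
    rw [← map_mul, hsum] at h1
    rw [show (5 : D) = (5 : ℚ) • (1 : D) by simp, hsd]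
    linear_combination (norm := exact nc!) (-4 : ℚ) • h1
  have hsc : ∀ h, s * ρ (θ h) = ρ (θ h) * s := by
    intro h
    simp only [hsd, add_mul, mul_add, htc, mul_one, one_mul]
  have hM : M = ⊥ := by
    rw [eq_bot_iff]
    intro y hy
    have hc : ∀ g, ρ y * ρ (θ g) = ρ (θ g) * ρ y := fun g => by
      rw [← map_mul, ← map_mul, (hs.comm (hs.le_ker hy) g).eq]
    refine hρi ((root_eq_one (I := ρ (θ gi)) (J := ρ (θ gj)) (s := s) (q := Nat.card M) ?_ ?_ ?_ hs5
      (hsc _) (hsc _) ?_ (hc _) (hc _) (hs.cop.coprime_dvd_right (by norm_num)) ?_).trans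
      (map_one ρ).symm)
    · rw [← map_mul, ← map_mul, ← hρz, show gi * gi = -1 by decide +kernel]
    · rw [← map_mul, ← map_mul, ← hρz, show gj * gj = -1 by decide +kernel]
    · rw [← neg_one_mul, ← hρz]
      simp only [← map_mul]
      rw [show gj * gi = -1 * (gi * gj) by decide +kernel]
    · simp only [hsd, tau, ← map_inv, add_mul, mul_add, hc, mul_one, one_mul]
    · rw [← map_pow, ← map_one ρ]
      exact congrArg ρ (congrArg Subtype.val (pow_card_eq_one' (x := (⟨y, hy⟩ : M))))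
  subst hM
  rcases hs.index with hi | hi
  · obtain ⟨e⟩ := hs.nonempty_equiv hi
    exact ⟨e.trans MulEquiv.prodUnique⟩
  exfalso
  have hker : ∀ y, f y = 1 → y = 1 ∨ y = θ (-1) := by
    classical
    intro y hy
    have h1 : y ∈ zpowers (θ (-1)) := by
      have := hs.sup
      rw [bot_sup_eq] at this
      exact this ▸ hy
    rw [mem_zpowers_iff_mem_range_orderOf, hz] at h1
    simpa [Finset.range_add_one, eq_comm, or_comm] using h1
  have hlift : ∀ α, Equiv.Perm.sign α = 1 → ∃ l, f (θ l) = α := fun α hα =>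
    (hs.range ▸ hα : α ∈ (f.comp θ).range)
  obtain ⟨t, ht⟩ : ∃ t, f t = Equiv.swap 0 1 := by
    obtain ⟨t0, ht0⟩ : ∃ t0, t0 ∉ θ.range ⊔ ⊥ := by
      by_contra hc
      push Not at hc
      rw [(eq_top_iff' _).2 hc, index_top] at hi
      omega
    rw [hs.sup_eq, mem_comap, Equiv.Perm.mem_alternatingGroup] at ht0
    obtain ⟨l, hl⟩ := hlift (Equiv.swap 0 1 * (f t0)⁻¹) (by
      rw [map_mul, map_inv, (Int.units_eq_one_or _).resolve_left ht0]
      simp)
    exact ⟨θ l * t0, by rw [map_mul, hl, inv_mul_cancel_right]⟩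
  have ht2 : t * t = θ (-1) := by
    refine (hker _ (by rw [map_mul, ht, Equiv.swap_mul_self])).resolve_left fun e => ?_
    have h1 : f (θ (-1)) = 1 := (hs.inf ▸ mem_zpowers _ : θ (-1) ∈ f.ker ⊓ θ.range).1
    have h2 : t ≠ 1 := by rintro rfl; rw [map_one] at ht; revert ht; decide
    have h4 := hρ.intFPF.invol_unique (orderOf_eq_prime (by rw [pow_two, e]) h2) hz
    rw [h4, h1] at ht
    revert ht; decide
  obtain ⟨α, hα1, hα2⟩ := swap_conj (f (θ w0)) (by
    simp only [← map_mul]
    rw [show w0 * w0 * w0 * w0 * w0 = 1 by decide +kernel, map_one, map_one])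
  obtain ⟨l, rfl⟩ := hlift α hα2
  have hconj : t * θ w0 * t⁻¹ = θ l * θ (w0 * w0) * (θ l)⁻¹ := by
    have h1 : f ((θ l * θ (w0 * w0) * (θ l)⁻¹)⁻¹ * (t * θ w0 * t⁻¹)) = 1 := by
      simp only [map_mul, map_inv, ht, Equiv.swap_inv, ← hα1]
      group
    rcases hker _ h1 with e | e
    · exact (inv_mul_eq_one.1 e).symm
    · rw [inv_mul_eq_iff_eq_mul] at e
      have h2 := congrArg (· ^ 5) e
      simp only [conj_pow, ← map_pow, hw5, map_one, mul_one, mul_inv_cancel] at h2
      simp only [← map_inv, ← map_mul, ← map_pow, mul_neg, mul_one] at h2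
      rw [← map_one θ, hθ.eq_iff, neg_pow, conj_pow, show (w0 * w0) ^ 5 = 1 by decide +kernel] at h2
      simp only [mul_one, mul_inv_cancel] at h2
      exact absurd h2 (by decide +kernel)
  have hanti : ρ t * s = -(s * ρ t) := by
    have h1 : ρ t * tau ρ (θ w0) * ρ t⁻¹ = ρ (θ l) * tau ρ (θ (w0 * w0)) * ρ (θ l)⁻¹ := by
      have e1 : ∀ a b : H, ρ a * tau ρ b * ρ a⁻¹ = tau ρ (a * b * a⁻¹) := fun a b => by
        simp only [tau, mul_add, add_mul, mul_inv_rev, inv_inv, map_mul, mul_assoc]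
      rw [e1, e1, hconj]
    rw [← htc, mul_assoc (tau _ _), rho_mul_inv, mul_one, hsum] at h1
    have h2 := congrArg (· * ρ t) h1
    simp only [mul_assoc, rho_inv_mul, mul_one] at h2
    rw [hsd]
    linear_combination (norm := exact nc!) (2 : ℚ) • h2
  have hT : ρ t * ρ t = -1 := by rw [← map_mul, ht2, hρz]
  have h5 : (5 : D) = (5 : ℚ) • (1 : D) := by simp
  have hsq : (s + ρ t + ρ t - 1) * (s + ρ t + ρ t + 1) = 0 := by
    rw [h5] at hs5
    linear_combination (norm := exact nc!) hs5 + (2 : ℚ) • hanti + (4 : ℚ) • hT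
  have hcomm : ρ t * s = s * ρ t := by
    rcases mul_eq_zero.1 hsq with e | e
    · linear_combination (norm := exact nc!) ρ t * e - e * ρ t
    · linear_combination (norm := exact nc!) ρ t * e - e * ρ t
  have h0 : (2 : ℚ) • (s * ρ t) = 0 := by
    linear_combination (norm := exact nc!) hanti - hcomm
  rcases mul_eq_zero.1 ((smul_eq_zero.1 h0).resolve_left (by norm_num)) with e | e
  · rw [e, mul_zero] at hs5; exact (by norm_num : (0 : D) ≠ 5) hs5
  · rw [e] at hT; simp at hT

end Cfsg.Agent.S4294
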