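import Cfsg.Statements.S4304
import Mathlib
import Cfsg.Agent.Lib.Small36.SylAct
import Cfsg.Agent.S4343

set_option autoImplicit false
open Cfsg

namespace Cfsg.Agent.S4304

/-- No finite group has exactly 15 Sylow 7-subgroups. -/
theorem result {G : Type*} [Group G] [Finite G] : Nat.card (Sylow 7 G) ≠ 15 := by
  intro hG
  have h7 : Fact (Nat.Prime 7) := ⟨by norm_num⟩
  have h5 : Fact (Nat.Prime 5) := ⟨by norm_num⟩
  obtain ⟨S, _, _, _, hS, hd, hn⟩ := H36.exists_simple_of_card_sylow 7 hG (by norm_num)
    (by decide +kernel) (fun m hm h => by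
      have := Nat.le_of_dvd (by norm_num) hm
      interval_cases m <;> simp_all)
  obtain ⟨P⟩ := (inferInstance : Nonempty (Sylow 7 S))
  have hP : Nat.card P = 7 := Cfsg.Agent.S4343.result hS 7 hd (by omega) P
  have hC : Nat.card (Subgroup.centralizer ((P : Subgroup S) : Set S)) = 7 := by
    have h1 : IsPGroup 7 (Subgroup.centralizer ((P : Subgroup S) : Set S)) := by
      rw [IsPGroup.iff_card]
      refine ⟨_, Nat.eq_prime_pow_of_unique_prime_dvd Nat.card_pos.ne' fun {r} hr hrd => ?_⟩
      by_contra hr7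
      obtain ⟨c, hc, hcr⟩ := H36.exists_mem_order_prime hr hrd
      have hc1 : c ≠ 1 := by rintro rfl; rw [orderOf_one] at hcr; exact hr.one_lt.ne hcr
      have a1 := H36.fixed_modEq_one hP hc
      have a2 := H36.fixed_modEq_card (Ω := Sylow 7 S) hr (hcr ▸ pow_orderOf_eq_one c)
      have a3 := H36.fixed_lt_card (Ω := Sylow 7 S) fun h => hc1 (H36.faithful_sylow hS hd h)
      rw [hn] at a2 a3
      have a4 : r = 2 → 4 ∣ 15 - {Q : Sylow 7 S | c • Q = Q}.ncard := by
        rintro rfl
        have := H36.four_dvd_moved (Ω := Sylow 7 S) (H36.commutator_eq_top_of_simple hS)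
          (c := c) (by rw [← pow_two, ← hcr, pow_orderOf_eq_one])
        rwa [hn] at this
      generalize {Q : Sylow 7 S | c • Q = Q}.ncard = f at a1 a2 a3 a4
      have a5 : f = 1 ∨ f = 8 := by unfold Nat.ModEq at a1; omega
      rcases a5 with rfl | rfl
      · have h14 : r ∣ 2 * 7 := (Nat.modEq_iff_dvd' (by norm_num)).1 a2.symm
        rcases (Nat.Prime.dvd_mul hr).1 h14 with h | h
        · have := a4 ((Nat.prime_dvd_prime_iff_eq hr Nat.prime_two).1 h)
          omega
        · exact hr7 ((Nat.prime_dvd_prime_iff_eq hr h7.out).1 h)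
      · have h14 : r ∣ 7 := (Nat.modEq_iff_dvd' (by norm_num)).1 a2.symm
        exact hr7 ((Nat.prime_dvd_prime_iff_eq hr h7.out).1 h14)
    have h2 : (P : Subgroup S) ≤ Subgroup.centralizer ((P : Subgroup S) : Set S) := by
      have : IsCyclic (P : Subgroup S) := isCyclic_of_prime_card hP
      exact Subgroup.le_centralizer _
    rw [P.is_maximal' h1 h2]; exact hP
  have hc := H36.card_eq_sylow_mul P
  have he := H36.relIndex_cent_dvd_prime h7.out hP
  have hb := H36.not_norm_le_cent hS hd P
  rw [← Subgroup.relIndex_eq_one] at hb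
  rw [H36.card_norm_eq, hC, hn] at hc
  generalize (Subgroup.centralizer ((P : Subgroup S) : Set S)).relIndex
    (Subgroup.normalizer ((P : Subgroup S) : Set S)) = e at hc he hb
  have h4 := H36.four_dvd_card hS
  have he3 : e = 3 := by
    have := Nat.le_of_dvd (by norm_num) he
    interval_cases e <;> omega
  subst he3
  obtain ⟨Q⟩ := (inferInstance : Nonempty (Sylow 5 S))
  have hQ : Nat.card Q = 5 ^ 1 := H36.card_sylow_eq_pow Q (by omega) (by omega)
  have b1 := H36.card_eq_sylow_mul Q
  have b2 := H36.relIndex_cent_dvd_prime h5.out hQ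
  have b3 := H36.not_norm_le_cent hS (by omega) Q
  rw [← Subgroup.relIndex_eq_one] at b3
  rw [H36.card_norm_eq] at b1
  generalize (Subgroup.centralizer ((Q : Subgroup S) : Set S)).relIndex
    (Subgroup.normalizer ((Q : Subgroup S) : Set S)) = e at b1 b2 b3
  have b4 : e ∣ 315 := by
    rw [show 315 = Nat.card S by omega, b1]
    exact Dvd.dvd.mul_left (Dvd.intro _ rfl) _
  have := Nat.le_of_dvd (by norm_num) b2
  interval_cases e <;> omega

end Cfsg.Agent.S4304
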