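import Cfsg.Statements.S4323
import Cfsg.Agent.Lib.Sig.Mart
import Cfsg.Agent.Lib.Core.CoprimeExt

set_option autoImplicit false
open Cfsg

namespace Cfsg.Agent.S4323

open Subgroup H2 in
theorem aux {A G : Type*} [Group A] [Finite A] [Group G] [Finite G] (φ : A →* MulAut G) (q : ℕ)
    (hq : q.Prime) (hA : Nat.card A = q ^ 2) (hnc : ¬ IsCyclic A) (hcop : ¬ q ∣ Nat.card G)
    (h : ∀ a : A, a ≠ 1 → IsMulCommutative ↥(fixSub φ (zpowers a))) : Group.IsSolvable G := by
  have : Fact q.Prime := ⟨hq⟩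
  have hc : IsMulCommutative A := IsPGroup.isMulCommutative_of_card_eq_prime_sq hA
  have he : ∀ a : A, a ^ q = 1 := fun a => by
    have h1 : orderOf a ∣ q ^ 2 := hA ▸ orderOf_dvd_natCard a
    obtain ⟨k, hk, e⟩ := (Nat.dvd_prime_pow hq).1 h1
    have h2 : k ≠ 2 := by
      rintro rfl
      exact hnc (isCyclic_of_orderOf_eq_card a (e.trans hA.symm))
    apply orderOf_dvd_iff_pow_eq_one.1
    rw [e]
    exact (pow_dvd_pow q (show k ≤ 1 by omega)).trans (pow_one q).dvd
  have h1 := H43.solvable_of_abelian_cent (r := q) _ (G := sdL φ ⊤) (A := sdR φ ⊤) rfl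
    ⟨inferInstance, by rintro _ ⟨a, _, rfl⟩; rw [← map_pow, he, map_one]⟩
    (by rwa [card_sdR, card_top]) (sdR_le_normalizer_top ⊤) (by rwa [card_sdL, card_top]) (by
      rintro _ ⟨a, _, rfl⟩ ha
      have h2 : a ≠ 1 := by rintro rfl; exact ha (map_one _)
      have := h a h2
      refine H45.abelianS (H := sdL φ (fixSub φ (zpowers a))) inferInstance ?_
      rintro _ ⟨⟨x, _, rfl⟩, hx⟩
      refine ⟨x, fun b hb => ?_, rfl⟩
      have h4 := inl_mem_centralizer_inr_iff.1 hx
      have h5 : zpowers a ≤ (MulAction.stabilizer (MulAut G) x).comap φ := zpowers_le.2 h4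
      exact h5 hb)
  exact H1.isSolvable_of_mulEquiv ((sdLEquiv ⊤).symm.trans topEquiv) h1

/-- Let `q` be a prime and `A` a non-cyclic group of order `q²` acting by automorphisms on a finite group `G` of order prime to `q`, such that the fixed-point subgroup `C_G(a)` is abelian for every non-identity `a ∈ A`. Then `G` is solvable. -/
theorem result {A G : Type*} [Group A] [Finite A]
    [Group G] [Finite G] [MulDistribMulAction A G] (q : ℕ) (hq : q.Prime) (hA : Nat.card A = q ^ 2) (hnc : ¬ IsCyclic A)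
    (hcop : ¬ q ∣ Nat.card G) (h : ∀ a : A, a ≠ 1 → IsMulCommutative ↥(FixedPoints.subgroup (Subgroup.zpowers a) G)) :
    Group.IsSolvable G := by
  refine aux (MulDistribMulAction.toMulAut A G) q hq hA hnc hcop fun a ha => ?_
  have := h a ha
  refine H45.abelianS this fun x hx => ?_
  exact fun b => hx b b.2

end Cfsg.Agent.S4323
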