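import Cfsg.Statements.S4330
import Cfsg.Agent.Lib.Misc92.Uncover3
-- import your own Cfsg.Agent.* helpers here

set_option autoImplicit false
open Pointwise
open Cfsg

namespace Cfsg.Agent.S4330

/-- Let G be a finite solvable group, p an odd prime and A a p-subgroup of G such that every conjugacy class of G contains an element g for which A is subnormal in the subgroup generated by A and its conjugate by g. Then A is contained in O_p(G). (The hypothesis that p is odd is needed.) -/
theorem result {G : Type*} [Group G] [Finite G]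
    (hG : Group.IsSolvable G) (p : ℕ) [Fact p.Prime] (hp : p ≠ 2) (A : Subgroup G) (hA : IsPGroup p A)
    (h : ∀ c : G, ∃ g : G, IsConj c g ∧ (A.subgroupOf (A ⊔ MulAut.conj g • A)).IsSubnormal) :
    A ≤ Cfsg.pCore p G := by
  open Subgroup H69 H92 in
  intro a ha
  refine mem_pCore_of_classes p hp _ G rfl hG a fun c => ?_
  obtain ⟨g, h1, h2⟩ := h c
  refine ⟨g, h1, ?_⟩
  set J := A ⊔ MulAut.conj g • A with hJ
  have h3 := H1.le_pCore_of_isSubnormal h2 (isPGroup_subgroupOf hA J)
  have h4 : A ≤ Cfsg.pCoreOf p J := fun x hx =>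
    ⟨⟨x, (le_sup_left : A ≤ J) hx⟩, h3 hx, rfl⟩
  have h5 : IsPGroup p ↥(Cfsg.pCoreOf p J ⊔ MulAut.conj g • A) :=
    IsPGroup.to_sup_of_normal_left' (H1.isPGroup_pCoreOf J) (isPGroup_cj hA g)
      (le_sup_right.trans (H1.le_normalizer_pCoreOf J))
  refine h5.to_le (sup_le_sup ((zpowers_le.2 ha).trans h4) (zpowers_le.2 ?_))
  exact cj_mem g ha

end Cfsg.Agent.S4330
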