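import Mathlib
import Cfsg.Statements.S4331
import Cfsg.Agent.Lib.Solv.Zipper
import Cfsg.Agent.Lib.Core.Fitting
-- import your own Cfsg.Agent.* helpers here

set_option autoImplicit false
open Cfsg

namespace Cfsg.Agent.S4331

open Subgroup

/-- Powers of `1 + i` in the field with nine elements. -/
def pw (a : ZMod 8) : ZMod 3 × ZMod 3 :=
  if a = 0 then (1, 0) else if a = 1 then (1, 1) else if a = 2 then (0, 2) else
  if a = 3 then (1, 2) else if a = 4 then (2, 0) else if a = 5 then (2, 2) else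
  if a = 6 then (0, 1) else (2, 1)

/-- The semilinear maps. -/
def lin (a : ZMod 8) (s : ZMod 2) (v : ZMod 3 × ZMod 3) : ZMod 3 × ZMod 3 :=
  ((pw a).1 * v.1 - (pw a).2 * (if s = 0 then v.2 else -v.2),
    (pw a).1 * (if s = 0 then v.2 else -v.2) + (pw a).2 * v.1)

/-- The twist. -/
def tw (s : ZMod 2) : ZMod 8 := if s = 0 then 1 else 3

/-- The affine semilinear group of the line over the field with nine elements. -/
@[ext] structure X where
  a : ZMod 8
  s : ZMod 2
  v : ZMod 3 × ZMod 3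
deriving DecidableEq, Fintype

theorem lin_add : ∀ a s v w, lin a s (v + w) = lin a s v + lin a s w := by decide +kernel

theorem lin_lin : ∀ a s b t v, lin (a + tw s * b) (s + t) v = lin a s (lin b t v) := by
  decide +kernel

theorem tw_add : ∀ s t, tw (s + t) = tw s * tw t := by decide +kernel

instance : Mul X := ⟨fun g h => ⟨g.a + tw g.s * h.a, g.s + h.s, g.v + lin g.a g.s h.v⟩⟩
instance : One X := ⟨⟨0, 0, 0⟩⟩
instance : Inv X := ⟨fun g => ⟨-(tw g.s * g.a), g.s, -(lin (-(tw g.s * g.a)) g.s g.v)⟩⟩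

instance : Group X := Group.ofLeftAxioms
  (fun g h k => by
    refine X.ext ?_ ?_ ?_
    · change g.a + tw g.s * h.a + tw (g.s + h.s) * k.a = g.a + tw g.s * (h.a + tw h.s * k.a)
      rw [tw_add]; ring
    · exact add_assoc g.s h.s k.s
    · change g.v + lin g.a g.s h.v + lin (g.a + tw g.s * h.a) (g.s + h.s) k.v =
        g.v + lin g.a g.s (h.v + lin h.a h.s k.v)
      rw [lin_add, lin_lin, add_assoc])
  (by decide +kernel) (by decide +kernel)

/-- The involution. -/
def t : X := ⟨0, 1, 0⟩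

theorem key : ∀ c : X, ∃ x : X, t * (x * c * x⁻¹) = x * c * x⁻¹ * t ∨ (x * c * x⁻¹).v = 0 := by
  decide +kernel

/-- The point stabiliser. -/
def S : Subgroup X where
  carrier := {g | g.v = 0}
  one_mem' := rfl
  mul_mem' := (by decide +kernel : ∀ a b : X, a.v = 0 → b.v = 0 → (a * b).v = 0) _ _
  inv_mem' := (by decide +kernel : ∀ a : X, a.v = 0 → (a⁻¹).v = 0) _

/-- The translations. -/
def V : Subgroup X where
  carrier := {g | g.a = 0 ∧ g.s = 0}
  one_mem' := ⟨rfl, rfl⟩
  mul_mem' := (by decide +kernel : ∀ a b : X, a.a = 0 ∧ a.s = 0 → b.a = 0 ∧ b.s = 0 →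
    (a * b).a = 0 ∧ (a * b).s = 0) _ _
  inv_mem' := (by decide +kernel : ∀ a : X, a.a = 0 ∧ a.s = 0 → (a⁻¹).a = 0 ∧ (a⁻¹).s = 0) _

instance : V.Normal := ⟨(by decide +kernel : ∀ a : X, a.a = 0 ∧ a.s = 0 → ∀ g : X,
  (g * a * g⁻¹).a = 0 ∧ (g * a * g⁻¹).s = 0)⟩

theorem pS : IsPGroup 2 S := fun g => ⟨3, Subtype.ext
  ((by decide +kernel : ∀ a : X, a.v = 0 → a ^ 2 ^ 3 = 1) g g.2)⟩

theorem solv : Group.IsSolvable X := by
  refine H1.isSolvable_of_normal_of_quotient V
    (H1.isSolvable_of_isPGroup (p := 3) fun g => ⟨1, Subtype.ext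
      ((by decide +kernel : ∀ a : X, a.a = 0 ∧ a.s = 0 → a ^ 3 ^ 1 = 1) g g.2)⟩)
    (H1.isSolvable_of_isPGroup (p := 2) fun g => ?_)
  obtain ⟨g, rfl⟩ := QuotientGroup.mk_surjective g
  refine ⟨3, ?_⟩
  rw [← QuotientGroup.mk_pow, QuotientGroup.eq_one_iff]
  exact (by decide +kernel : ∀ a : X, (a ^ 2 ^ 3).a = 0 ∧ (a ^ 2 ^ 3).s = 0) g


/-- There is a finite solvable group G with a subgroup A of order 2 such that every conjugacy class of G contains an element g for which A is subnormal in the subgroup generated by A and g, and yet A is not contained in O_2(G). (So the corresponding criteria for odd primes fail at the prime 2, even for solvable groups.) -/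
theorem result :
    ∃ (G : Type) (_ : Group G) (_ : Finite G) (A : Subgroup G), Group.IsSolvable G ∧ Nat.card A = 2 ∧
      (∀ c : G, ∃ g : G, IsConj c g ∧ (A.subgroupOf (A ⊔ Subgroup.zpowers g)).IsSubnormal) ∧
      ¬ A ≤ Cfsg.pCore 2 G := by
  refine ⟨X, inferInstance, inferInstance, zpowers t, solv, ?_, fun c => ?_, fun h => ?_⟩
  · rw [Nat.card_zpowers]
    exact orderOf_eq_prime (by decide +kernel) (by decide +kernel)
  · obtain ⟨x, hx⟩ := key c
    refine ⟨x * c * x⁻¹, isConj_iff.2 ⟨x, rfl⟩, ?_⟩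
    rcases hx with hx | hx
    · refine Subgroup.Normal.isSubnormal (normal_subgroupOf_of_le_normalizer
        (sup_le le_normalizer (zpowers_le.2 (centralizer_le_normalizer _ ?_))))
      rintro _ ⟨k, rfl⟩
      exact (Commute.zpow_left hx k).eq
    · exact H21.isSubnormal_of_isPGroup (p := 2)
        (pS.to_le (sup_le (zpowers_le.2 rfl) (zpowers_le.2 hx))) _
  · have h1 := h (mem_zpowers t)
    let w : X := ⟨0, 0, (0, 1)⟩
    have h2 : w * t * w⁻¹ * t ∈ pCore 2 X :=
      mul_mem ((inferInstance : (pCore 2 X).Normal).conj_mem t h1 w) h1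
    obtain ⟨k, hk⟩ := H1.isPGroup_pCore (⟨_, h2⟩ : pCore 2 X)
    have h3 : orderOf (w * t * w⁻¹ * t) = 3 :=
      orderOf_eq_prime (by decide +kernel) (by decide +kernel)
    have h4 := orderOf_dvd_of_pow_eq_one (congrArg Subtype.val hk)
    rw [h3] at h4
    exact absurd (Nat.prime_three.dvd_of_dvd_pow h4) (by norm_num)

end Cfsg.Agent.S4331
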