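import Mathlib
import Cfsg.Statements.S4332
import Cfsg.Agent.Lib.Perm.Basic

set_option autoImplicit false
open Pointwise
open Cfsg

namespace Cfsg.Agent.S4332

open Equiv Equiv.Perm

theorem three (x y z : Fin 8) (hxy : x ≠ y) (hxz : x ≠ z) (hyz : y ≠ z) :
    (swap x y * swap x z).IsThreeCycle := isThreeCycle_swap_mul_swap_same hxy hxz hyz

theorem of_indep (c : Perm (Fin 8)) (x y z : Fin 8) (hxy : x ≠ y) (hxz : x ≠ z) (hyz : y ≠ z)
    (h : ∀ u ∈ ({x, y, z} : Finset (Fin 8)), c u ∉ ({x, y, z} : Finset (Fin 8))) :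
    ∃ τ : Perm (Fin 8), τ.IsThreeCycle ∧ Commute τ (c * τ * c⁻¹) := by
  refine ⟨swap x y * swap x z, three x y z hxy hxz hyz, ?_⟩
  have e : c * (swap x y * swap x z) * c⁻¹ = swap (c x) (c y) * swap (c x) (c z) := by
    rw [swap_apply_apply, swap_apply_apply]; group
  rw [e]
  have h1 := h x (by simp)
  have h2 := h y (by simp)
  have h3 := h z (by simp)
  simp only [Finset.mem_insert, Finset.mem_singleton, not_or] at h1 h2 h3
  have hs : ∀ a b u v : Fin 8, a ≠ u → a ≠ v → b ≠ u → b ≠ v → Commute (swap a b) (swap u v) := by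
    intro a b u v h1 h2 h3 h4
    apply Perm.Disjoint.commute
    intro w
    by_cases ha : w = a
    · right; subst ha; exact swap_apply_of_ne_of_ne h1 h2
    by_cases hb : w = b
    · right; subst hb; exact swap_apply_of_ne_of_ne h3 h4
    · left; exact swap_apply_of_ne_of_ne ha hb
  refine Commute.mul_left (Commute.mul_right ?_ ?_) (Commute.mul_right ?_ ?_) <;>
    apply hs <;> apply Ne.symm <;> tauto

theorem exists_three (c : Perm (Fin 8)) :
    ∃ τ : Perm (Fin 8), τ.IsThreeCycle ∧ Commute τ (c * τ * c⁻¹) := by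
  by_cases hf : 3 ≤ (Finset.univ.filter fun x => c x = x).card
  · obtain ⟨x, hx, y, hy, z, hz, hxy, hxz, hyz⟩ := Finset.two_lt_card.mp hf
    simp only [Finset.mem_filter, Finset.mem_univ, true_and] at hx hy hz
    refine ⟨swap x y * swap x z, three x y z hxy hxz hyz, ?_⟩
    have e : c * (swap x y * swap x z) * c⁻¹ = swap (c x) (c y) * swap (c x) (c z) := by
      rw [swap_apply_apply, swap_apply_apply]; group
    rw [e, hx, hy, hz]
  have hm : 6 ≤ (Finset.univ.filter fun x => c x ≠ x).card := by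
    have := Finset.card_filter_add_card_filter_not (s := Finset.univ) (fun x => c x = x)
    rw [Finset.card_univ, Fintype.card_fin] at this
    simp only [ne_eq]
    omega
  have pick : ∀ S : Finset (Fin 8), S.card ≤ 5 → ∃ x, c x ≠ x ∧ x ∉ S := by
    intro S hS
    obtain ⟨x, hx, hxS⟩ := Finset.exists_mem_notMem_of_card_lt_card (s := S)
      (t := Finset.univ.filter fun x => c x ≠ x) (by omega)
    exact ⟨x, (Finset.mem_filter.mp hx).2, hxS⟩
  have fin : ∀ x y : Fin 8, c x ≠ x → c y ≠ y → x ≠ y → c x ≠ y → c y ≠ x →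
      ({x, c x, c⁻¹ x, y, c y, c⁻¹ y} : Finset (Fin 8)).card ≤ 5 →
      ∃ τ : Perm (Fin 8), τ.IsThreeCycle ∧ Commute τ (c * τ * c⁻¹) := by
    intro x y hx hy hxy h1 h2 hc
    obtain ⟨z, hz, hzS⟩ := pick _ hc
    simp only [Finset.mem_insert, Finset.mem_singleton, not_or] at hzS
    obtain ⟨a1, a2, a3, a4, a5, a6⟩ := hzS
    refine of_indep c x y z hxy (Ne.symm a1) (Ne.symm a4) ?_
    intro u hu
    simp only [Finset.mem_insert, Finset.mem_singleton, not_or] at hu ⊢
    rcases hu with rfl | rfl | rfl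
    · exact ⟨hx, h1, Ne.symm a2⟩
    · exact ⟨h2, hy, Ne.symm a5⟩
    · exact ⟨fun h => a3 (by rw [← h]; simp), fun h => a6 (by rw [← h]; simp), hz⟩
  obtain ⟨x, hx, -⟩ := pick ∅ (by simp)
  by_cases h2 : c (c x) = x
  · obtain ⟨y, hy, hyS⟩ := pick {x, c x} (by
      exact le_trans Finset.card_le_two (by norm_num))
    simp only [Finset.mem_insert, Finset.mem_singleton, not_or] at hyS
    have e : c⁻¹ x = c x := by rw [Perm.inv_eq_iff_eq, h2]
    refine fin x y hx hy (Ne.symm hyS.1) (Ne.symm hyS.2) (fun h => hyS.2 ?_) ?_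
    · rw [← e, ← h]; simp
    · rw [e, Finset.insert_eq_of_mem (s := ({c x, y, c y, c⁻¹ y} : Finset (Fin 8))) (by simp)]
      exact Finset.card_le_five
  by_cases h3 : c (c (c x)) = x
  · have hx2 : c (c x) ≠ c x := fun h => hx (c.injective h)
    refine ⟨swap x (c (c x)) * swap x (c x), three _ _ _ (Ne.symm h2) (Ne.symm hx) hx2, ?_⟩
    have e : c * (swap x (c (c x)) * swap x (c x)) * c⁻¹ =
        swap (c x) (c (c (c x))) * swap (c x) (c (c x)) := by
      rw [swap_apply_apply, swap_apply_apply]; group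
    rw [e, h3]
    have : swap (c x) x * swap (c x) (c (c x)) = swap x (c (c x)) * swap x (c x) := by
      rw [swap_comm (c x) x, mul_swap_eq_swap_mul (swap x (c x)), swap_apply_right,
        swap_apply_of_ne_of_ne h2 hx2]
    rw [this]
  · refine fin x (c (c x)) hx (fun h => hx (c.injective (c.injective h))) (Ne.symm h2)
      (fun h => hx (c.injective h).symm) h3 ?_
    have e : c⁻¹ (c (c x)) = c x := by simp
    rw [e]
    have : ({x, c x, c⁻¹ x, c (c x), c (c (c x)), c x} : Finset (Fin 8)) =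
        {x, c⁻¹ x, c (c x), c (c (c x)), c x} := by
      ext w; simp
    rw [this]
    exact Finset.card_le_five

open Pointwise in

/-- In the symmetric group of degree 8, let A be the subgroup generated by a 3-cycle. Then every conjugacy class contains an element g for which A is subnormal in the subgroup generated by A and its conjugate by g, although O_3 of the symmetric group of degree 8 is trivial. -/
theorem result
    (σ : Equiv.Perm (Fin 8)) (hσ : σ.IsThreeCycle) :
    (∀ c : Equiv.Perm (Fin 8), ∃ g : Equiv.Perm (Fin 8), IsConj c g ∧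
      ((Subgroup.zpowers σ).subgroupOf (Subgroup.zpowers σ ⊔ MulAut.conj g • Subgroup.zpowers σ)).IsSubnormal) ∧
    Cfsg.pCore 3 (Equiv.Perm (Fin 8)) = ⊥ := by

  refine ⟨fun c => ?_, ?_⟩
  · obtain ⟨τ, hτ, hc⟩ := exists_three c
    obtain ⟨h, hh⟩ := isConj_iff.mp (Equiv.Perm.isConj_iff_cycleType_eq.mpr (hτ.trans hσ.symm))
    refine ⟨h * c * h⁻¹, isConj_iff.mpr ⟨h, rfl⟩, ?_⟩
    have hcomm : Commute σ ((h * c * h⁻¹) * σ * (h * c * h⁻¹)⁻¹) := by
      have := hc.map (MulAut.conj h)
      simp only [MulAut.conj_apply, map_mul, map_inv] at this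
      rw [hh] at this
      exact this
    apply Subgroup.Normal.isSubnormal
    rw [Subgroup.normal_subgroupOf_iff_le_normalizer le_sup_left, sup_le_iff]
    refine ⟨Subgroup.le_normalizer, le_trans ?_ (Subgroup.centralizer_le_normalizer _)⟩
    rintro _ ⟨_, ⟨k, rfl⟩, rfl⟩ _ ⟨l, rfl⟩
    have := hcomm.zpow_zpow l k
    simp only [conj_zpow] at this
    exact this
  · rw [Cfsg.pCore, sSup_eq_bot]
    rintro N ⟨hN, hN3⟩
    by_contra hne
    haveI := H26.normal_isPretransitive (α := Fin 8) N hne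
    have h := MulAction.index_stabilizer_of_transitive N (0 : Fin 8)
    rw [Nat.card_fin] at h
    have h2 := Subgroup.index_dvd_card (MulAction.stabilizer N (0 : Fin 8))
    obtain ⟨k, hk⟩ := IsPGroup.iff_card.mp hN3
    rw [h, hk] at h2
    have h3 : 2 ∣ 3 ^ k := dvd_trans (by norm_num) h2
    exact absurd (Nat.prime_two.dvd_of_dvd_pow h3) (by norm_num)

end Cfsg.Agent.S4332
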