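import Mathlib
import Cfsg.Statements.S4333
import Cfsg.Agent.Lib.Core.Wielandt
-- import your own Cfsg.Agent.* helpers here

set_option autoImplicit false
open Pointwise
open Cfsg

namespace Cfsg.Agent.S4333

open Subgroup H1

universe u

theorem aux (n : ℕ) : ∀ {G : Type u} [Group G] [Finite G],
    Nat.card G = n → ∀ A : Subgroup G,
      (∀ a ∈ A, ∀ g : G, (A.subgroupOf (A ⊔ MulAut.conj (g⁻¹ * a * g) • A)).IsSubnormal) →
        A.IsSubnormal := by
  induction n using Nat.strong_induction_on with
  | _ n ih =>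
  intro G _ _ hG A h
  by_contra hA
  have h1 : ∀ V : Subgroup G, V ≠ ⊤ → A ≤ V → (A.subgroupOf V).IsSubnormal := by
    intro V hV hAV
    refine ih _ (hG ▸ card_lt_of_ne_top hV) rfl _ fun a ha v => ?_
    have h2 : MulAut.conj ((v⁻¹ * a * v : V) : G) • A ≤ V := Subgroup.conj_smul_le_of_le hAV _
    rw [← H21.subgroupOf_conj_smul, ← subgroupOf_sup hAV h2,
      isSubnormal_subgroupOf_subgroupOf_iff (sup_le hAV h2)]
    exact h a ha v
  obtain ⟨M, hM, hAM, hmax⟩ := zipper h1 hA
  have h2 : ∀ a ∈ A, ∀ g : G, MulAut.conj (g⁻¹ * a * g) • A ≤ M := fun a ha g => by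
    refine le_sup_right.trans (hmax (A ⊔ MulAut.conj (g⁻¹ * a * g) • A) (fun ht => hA ?_)
      le_sup_left)
    have := h a ha g
    rwa [ht, isSubnormal_subgroupOf_top_iff] at this
  have hN : normalizer (M : Set G) ≤ M := by
    refine hmax _ (fun ht => hA ?_) (hAM.trans le_normalizer)
    have : M.Normal := normalizer_eq_top_iff.1 ht
    exact Subgroup.IsSubnormal.trans hAM (h1 M hM hAM) this.isSubnormal
  have h4 : ∀ x : G, MulAut.conj x • A ≤ M → x ∈ M := by
    intro x hx
    have h5 : A ≤ MulAut.conj x⁻¹ • M := by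
      intro a ha
      rw [H21.mem_conj_smul_iff, inv_inv]
      apply hx
      rw [H21.mem_conj_smul_iff]
      simpa [mul_assoc] using ha
    have h6 : MulAut.conj x⁻¹ • M ≠ ⊤ := by
      intro ht
      apply hM
      rw [eq_top_iff]
      intro y _
      have : x⁻¹ * y * x ∈ MulAut.conj x⁻¹ • M := ht ▸ mem_top _
      rw [H21.mem_conj_smul_iff] at this
      simpa [mul_assoc] using this
    have h7 := hmax _ h6 h5
    have h8 : MulAut.conj x⁻¹ • M = M := by
      refine eq_of_le_of_card_ge h7 ?_
      rw [H21.conj_smul_eq_map, card_map_of_injective (MulAut.conj x⁻¹).injective]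
    have := hN (H21.mem_normalizer_of_conj_smul_eq h8)
    simpa using M.inv_mem this
  have h3 : A ≤ M.normalCore := fun a ha g => by
    have := h4 _ (h2 a ha g⁻¹)
    simpa using this
  exact hA (Subgroup.IsSubnormal.trans h3
    (isSubnormal_subgroupOf_of_le (h1 M hM hAM) (normalCore_le M))
    (Subgroup.Normal.isSubnormal inferInstance))


/-- Let A be a subgroup of a finite group G. If A is subnormal in the subgroup generated by A and its conjugate by g⁻¹ a g, for every a ∈ A and every g ∈ G, then A is subnormal in G. (A sharpening of Wielandt's subnormality criterion: only conjugates of A by conjugates of elements of A are needed.) -/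
theorem result {G : Type*} [Group G] [Finite G]
    (A : Subgroup G)
    (h : ∀ a ∈ A, ∀ g : G, (A.subgroupOf (A ⊔ MulAut.conj (g⁻¹ * a * g) • A)).IsSubnormal) :
    A.IsSubnormal := by
  exact aux _ rfl A h

end Cfsg.Agent.S4333
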