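import Mathlib
import Cfsg.Statements.S4334
import Cfsg.Agent.Lib.Core.Hall
import Cfsg.Agent.Lib.Core.CoprimeSylow
import Cfsg.Agent.Lib.Transfer.Control
import Cfsg.Agent.Lib.Transfer.NormalComplement
import Cfsg.Agent.Lib.FGS.NilpCover
-- import your own Cfsg.Agent.* helpers here

set_option autoImplicit false
open Cfsg

namespace Cfsg.Agent.S4334

open Subgroup H68
open scoped commutatorElement Pointwise

variable {G : Type*} [Group G] [Finite G]

theorem cent_of_sylow {p q : ℕ} [Fact p.Prime] [Fact q.Prime] {P Q : Subgroup G}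
    (hP : SylowIn p P ⊤) (hQ : SylowIn q Q ⊤) (h : Q ≤ centralizer (P : Set G))
    {B Y : Subgroup G} (hB : IsPGroup p B) (hY : IsPGroup q Y)
    (hYB : Y ≤ normalizer (B : Set G)) : Y ≤ centralizer (B : Set G) := by
  obtain ⟨g, -, hg⟩ := hP.exists_le_cj hB le_top
  have h1 : cj g Q ≤ centralizer (B : Set G) :=
    (cj_mono g h).trans ((cj_centralizer g P).le.trans (centralizer_le hg))
  have h2 : SylowIn q (cj g Q) (normalizer (B : Set G)) :=
    (hQ.cj_of_mem (mem_top g)).mono (h1.trans (centralizer_le_normalizer _)) le_top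
  obtain ⟨n, hn, h3⟩ := h2.exists_le_cj hY hYB
  refine h3.trans ((cj_mono n h1).trans ?_)
  rw [cj_centralizer, cj_eq_of_mem_normalizer hn]

/-- Every `π`-subgroup is conjugate into `H`. -/
def Abs (π : Set ℕ) (H : Subgroup G) : Prop :=
  ∀ K : Subgroup G, IsPiSubgroup π K → ∃ g : G, cj g K ≤ H

theorem Abs.step {π : Set ℕ} {H P : Subgroup G} (h : Abs π H) {p : ℕ} [hp : Fact p.Prime]
    (hpπ : p ∉ π) (hP : SylowIn p P ⊤) (hc : P ≤ centralizer (H : Set G)) :
    Abs (insert p π) (H ⊔ P) := by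
  have hq : ∀ q : ℕ, q.Prime → q ∈ π → ∃ Q : Subgroup G, SylowIn q Q ⊤ ∧ Q ≤ H := by
    intro q hq hqπ
    have := Fact.mk hq
    obtain ⟨Q, hQ⟩ := exists_sylowIn q (⊤ : Subgroup G)
    obtain ⟨g, hg⟩ := h Q (H1.isPiSubgroup_mono (H1.isPiSubgroup_singleton_iff.2 hQ.isPGroup)
      (Set.singleton_subset_iff.2 hqπ))
    exact ⟨_, hQ.cj_of_mem (mem_top g), hg⟩
  intro K hK
  have hnpc : HasNormalPComplement p K := by
    refine H4.hasNormalPComplement_of_forall_normalizer fun X hX g hg hgp => ?_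
    refine H4.mem_of_forall_prime_pow (isOfFinOrder_of_finite g) fun q hq' hd x hx ⟨k, hk⟩ => ?_
    have := Fact.mk hq'
    have hqπ : q ∈ π := by
      rcases hK q hq' (hd.trans (orderOf_dvd_natCard g)) with rfl | h1
      · exact absurd hd ((Nat.Prime.coprime_iff_not_dvd hq').1 hgp.symm)
      · exact h1
    obtain ⟨Q, hQ, hQH⟩ := hq q hq' hqπ
    have h1 := cent_of_sylow hP hQ (hQH.trans (le_centralizer_iff.1 hc)) (hX.map K.subtype)
      ((isPGroup_zpowers hk).map K.subtype)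
      ((map_mono (zpowers_le.2 (zpowers_le.2 hg hx))).trans (le_normalizer_map _))
    exact fun y hy => Subtype.ext (h1 ⟨x, mem_zpowers x, rfl⟩ y ⟨y, hy, rfl⟩)
  obtain ⟨S, N, hN, hNS⟩ := hnpc
  set L := N.map K.subtype with hL
  set T := (S : Subgroup K).map K.subtype with hT
  have hTp : IsPGroup p T := S.isPGroup'.map _
  have hLp : ¬ p ∣ Nat.card L := by
    rw [hL, H3.card_map_subtype, ← hNS.index_eq_card]
    exact S.not_dvd_index
  have hLπ : IsPiSubgroup π L := fun q hq' hd => by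
    rcases hK q hq' (hd.trans (card_dvd_of_le (map_subtype_le N))) with rfl | h1
    · exact absurd hd hLp
    · exact h1
  have hKL : K ≤ normalizer (L : Set G) := by
    have := le_normalizer_map (H := N) K.subtype
    rwa [normalizer_eq_top, ← MonoidHom.range_eq_map, range_subtype] at this
  have hsup : L ⊔ T = K := by
    rw [hL, hT, ← Subgroup.map_sup, hNS.sup_eq_top, ← MonoidHom.range_eq_map, range_subtype]
  have hLT : L ≤ centralizer (T : Set G) := by
    refine H2.le_of_forall_invariant_sylowIn_le ((map_subtype_le _).trans hKL)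
      (H2.coprime_card_of_isPGroup ((Nat.Prime.coprime_iff_not_dvd hp.out).2 hLp).symm hTp).symm
      (Or.inl (H1.isSolvable_of_isPGroup hTp)) fun q hq' Q hQ hTQ => ?_
    by_cases hQb : Q = ⊥
    · rw [hQb]; exact bot_le
    obtain ⟨Q', hQ', hQH⟩ := hq q hq'.out
      (hLπ q hq'.out (dvd_card_of_isPGroup_of_ne_bot hQ.isPGroup hQb hQ.le))
    exact le_centralizer_iff.1
      (cent_of_sylow hQ' hP (hc.trans (centralizer_le hQH)) hQ.isPGroup hTp hTQ)
  obtain ⟨g, hg⟩ := h L hLπ
  have h1 : SylowIn p P (centralizer (cj g L : Set G)) :=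
    hP.mono (hc.trans (centralizer_le hg)) le_top
  obtain ⟨c, hcc, h2⟩ := h1.exists_cj_le (isPGroup_cj g hTp)
    ((cj_mono g (le_centralizer_iff.1 hLT)).trans (cj_centralizer g L).le)
  refine ⟨c * g, ?_⟩
  rw [← hsup, cj_mul, cj_sup, cj_sup, cj_eq_of_mem_normalizer (centralizer_le_normalizer _ hcc)]
  exact sup_le_sup hg h2

theorem isPiHall_right {σ τ : Set ℕ} (hd : Disjoint σ τ) {H Hs Ht : Subgroup G}
    (hH : IsPiHall (σ ∪ τ) H) (hs : IsPiSubgroup σ Hs) (ht : IsPiSubgroup τ Ht)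
    (hjoin : Hs ⊔ Ht = H) (hcomm : Ht ≤ centralizer (Hs : Set G)) : IsPiHall τ Ht := by
  refine ⟨ht, fun r hr hrτ h => ?_⟩
  rw [← relIndex_mul_index (hjoin ▸ le_sup_right : Ht ≤ H)] at h
  rcases hr.dvd_mul.1 h with h | h
  · rw [← hjoin, H3.relIndex_sup_right_of_le_normalizer
      (hcomm.trans (centralizer_le_normalizer _))] at h
    exact Set.disjoint_left.1 hd (hs r hr (h.trans (relIndex_dvd_card _ _))) hrτ
  · exact hH.2 r hr (Or.inr hrτ) h


/-- Let σ and τ be disjoint sets of primes with union π. Suppose a finite group G has a Hall π-subgroup H which is the direct product of a nilpotent σ-subgroup and a τ-subgroup (two elementwise-commuting subgroups generating H), and that the maximal τ-subgroups of G are pairwise conjugate. Then the maximal π-subgroups of G are pairwise conjugate. -/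
theorem result {G : Type*} [Group G] [Finite G]
    (σ τ π : Set ℕ) (hπ : π = σ ∪ τ) (hd : Disjoint σ τ) (H Hs Ht : Subgroup G) (hH : Cfsg.IsPiHall π H)
    (hs : Cfsg.IsPiSubgroup σ Hs) (ht : Cfsg.IsPiSubgroup τ Ht) (hsn : Group.IsNilpotent Hs)
    (hjoin : Hs ⊔ Ht = H) (hcomm : ∀ a ∈ Hs, ∀ b ∈ Ht, a * b = b * a) (hD : Cfsg.IsDPiGroup τ G) :
    Cfsg.IsDPiGroup π G := by
  subst hπ
  have hc : Ht ≤ centralizer (Hs : Set G) := fun b hb a ha => hcomm a ha b hb
  have hτ := isPiHall_right hd hH hs ht hjoin hc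
  have hσ := isPiHall_right hd.symm (Set.union_comm σ τ ▸ hH) ht hs (sup_comm Hs Ht ▸ hjoin)
    (le_centralizer_iff.1 hc)
  have h0 : Abs τ Ht := by
    intro K hK
    obtain ⟨M, hKM, hM⟩ := Finite.exists_le_maximal (p := IsPiSubgroup τ) hK
    obtain ⟨g, hg⟩ := hD M Ht hM
      ⟨ht, fun L hL hle => (H3.eq_of_isPiHall_of_le hτ hle hL).le⟩
    exact ⟨g, (cj_mono g hKM).trans hg.ge⟩
  have key : ∀ s : Finset ℕ, (∀ p ∈ s, p.Prime ∧ p ∈ σ) → ∃ H' ≤ H, Abs (↑s ∪ τ) H' ∧
      ∀ p : ℕ, p.Prime → p ∉ s → ∀ P ≤ Hs, IsPGroup p P → P ≤ centralizer (H' : Set G) := by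
    intro s
    induction s using Finset.induction_on with
    | empty =>
      exact fun _ => ⟨Ht, hjoin ▸ le_sup_right, by simpa using h0,
        fun p _ _ P hP _ => hP.trans (le_centralizer_iff.1 hc)⟩
    | insert p s hps ih =>
      intro h
      obtain ⟨H', h1, h2, h3⟩ := ih fun q hq => h q (Finset.mem_insert_of_mem hq)
      obtain ⟨hp, hpσ⟩ := h p (Finset.mem_insert_self _ _)
      have := Fact.mk hp
      obtain ⟨P, hP⟩ := exists_sylowIn p Hs
      have hP' : SylowIn p P ⊤ := by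
        refine sylowIn_of_not_dvd_relIndex hP.isPGroup le_top fun hdv => ?_
        rw [relIndex_top_right, ← relIndex_mul_index hP.le] at hdv
        exact (hp.dvd_mul.1 hdv).elim hP.not_dvd_relIndex (hσ.2 p hp hpσ)
      refine ⟨H' ⊔ P, sup_le h1 (hP.le.trans (hjoin ▸ le_sup_left)), ?_, ?_⟩
      · rw [Finset.coe_insert, Set.insert_union]
        refine h2.step ?_ hP' (h3 p hp hps P hP.le hP.isPGroup)
        rintro (h4 | h4)
        · exact hps h4
        · exact Set.disjoint_left.1 hd hpσ h4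
      · intro q hq hqs Q hQ hQq
        rw [Finset.mem_insert, not_or] at hqs
        refine le_centralizer_iff.1 (sup_le (le_centralizer_iff.1 (h3 q hq hqs.2 Q hQ hQq)) ?_)
        intro x hx y hy
        obtain ⟨a, ha⟩ := isPGroup_iff_forall.1 hP.isPGroup x hx
        obtain ⟨b, hb⟩ := isPGroup_iff_forall.1 hQq y hy
        refine (H77.commute_of_isNilpotent_of_coprime hsn (hQ hy) (hP.le hx) ?_).eq
        exact Nat.Coprime.coprime_dvd_left (orderOf_dvd_of_pow_eq_one hb)
          (Nat.Coprime.coprime_dvd_right (orderOf_dvd_of_pow_eq_one ha)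
            (Nat.coprime_pow_primes _ _ hq hp hqs.1))
  classical
  obtain ⟨H', h1, h2, -⟩ := key ((Nat.card G).primeFactors.filter (· ∈ σ)) fun p hp => by
    rw [Finset.mem_filter] at hp
    exact ⟨Nat.prime_of_mem_primeFactors hp.1, hp.2⟩
  have h3 : ∀ K : Subgroup G, Maximal (IsPiSubgroup (σ ∪ τ)) K → ∃ g, K = cj g H := by
    intro K hK
    obtain ⟨g, hg⟩ := h2 K fun p hp hd => by
      rcases hK.prop p hp hd with h | h
      · left
        rw [Finset.mem_coe, Finset.mem_filter, Nat.mem_primeFactors]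
        exact ⟨⟨hp, hd.trans (card_subgroup_dvd_card K), Nat.card_pos.ne'⟩, h⟩
      · exact Or.inr h
    have h4 : K ≤ cj g⁻¹ H := cj_le_iff.1 (hg.trans h1)
    exact ⟨g⁻¹, le_antisymm h4 (hK.le_of_ge (H1.isPiSubgroup_map hH.1 _) h4)⟩
  intro A B hA hB
  obtain ⟨a, rfl⟩ := h3 A hA
  obtain ⟨b, rfl⟩ := h3 B hB
  exact ⟨b * a⁻¹, by
    change _ = cj (b * a⁻¹) (cj a H)
    rw [← cj_mul, inv_mul_cancel_right]⟩

end Cfsg.Agent.S4334
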