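import Mathlib
import Cfsg.Statements.S4337
import Cfsg.Agent.Lib.Perm75.Swaps
import Cfsg.Agent.Lib.Char.BurnsidePQ

set_option autoImplicit false
open Cfsg

namespace Cfsg.Agent.S4337

/-- In a finite symmetric group, any three transpositions generate a solvable subgroup. -/
theorem result (n : ℕ) (a b c : Equiv.Perm (Fin n))
    (ha : a.IsSwap) (hb : b.IsSwap) (hc : c.IsSwap) :
    Group.IsSolvable (Subgroup.closure ({a, b, c} : Set (Equiv.Perm (Fin n)))) := by

  have h : ({a, b, c} : Set (Equiv.Perm (Fin n))) = Set.range ![a, b, c] := by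
    ext x; simp [Matrix.range_cons, Matrix.range_empty]; tauto
  rw [h]
  refine H8.isSolvable_of_two_primes Nat.prime_two Nat.prime_three fun r hr hd => ?_
  have := H75.prime_le_of_swaps ![a, b, c] (fun i => by fin_cases i <;> simpa) hr hd
  rw [Fintype.card_fin] at this
  have h2 := hr.two_le
  interval_cases r
  · left; rfl
  · right; rfl
  · exact absurd hr (by norm_num)

end Cfsg.Agent.S4337
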