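import Mathlib
import Cfsg.Statements.S4342
import Cfsg.Agent.Lib.FGS83.SylCount
import Cfsg.Agent.Lib.Core.GrpBasic

set_option autoImplicit false
open Cfsg

namespace Cfsg.Agent.S4342


/-- Let H be a normal subgroup of a finite group G and p a prime not dividing the index of H. Then the number of Sylow p-subgroups of H/Z(H) equals the number of Sylow p-subgroups of G. -/
theorem result {G : Type*} [Group G] [Finite G]
    (p : ℕ) [Fact p.Prime] (H : Subgroup G) [H.Normal] (hp : ¬ p ∣ H.index) :
    Nat.card (Sylow p (H ⧸ Subgroup.center H)) = Nat.card (Sylow p G) := by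
  obtain ⟨P⟩ : Nonempty (Sylow p G) := inferInstance
  have hPH : (P : Subgroup G) ≤ H := by
    apply H1.le_of_coprime_index
    obtain ⟨k, hk⟩ := P.isPGroup'.exists_card_eq
    rw [hk]
    exact (Nat.Coprime.pow_left k ((Nat.Prime.coprime_iff_not_dvd Fact.out).mpr hp))
  rw [← H83.card_sylow_normal_of_le H P hPH]
  exact H83.card_sylow_quotient_of_le_normalizer _ (P.subtype hPH) (Subgroup.center_le_normalizer _)

end Cfsg.Agent.S4342
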