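import Mathlib
import Cfsg.Statements.S4344
import Cfsg.Agent.Lib.FGS83.SylCount

set_option autoImplicit false
open Cfsg

namespace Cfsg.Agent.S4344


/-- Let S be a finite non-abelian simple group, M a maximal subgroup of S and C a cyclic normal subgroup of M. If a Sylow p-subgroup P of S (for a prime p dividing the order of S) is contained in C, then the number of Sylow p-subgroups of S equals the index of M. -/
theorem result {S : Type*} [Group S] [Finite S]
    [IsSimpleGroup S] (hS : ¬ IsMulCommutative S) (p : ℕ) [Fact p.Prime] (hp : p ∣ Nat.card S)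
    (M : Subgroup S) (hM : IsCoatom M) (C : Subgroup S) (hCM : C ≤ M) (hCn : (C.subgroupOf M).Normal)
    (hC : IsCyclic C) (P : Sylow p S) (hP : (P : Subgroup S) ≤ C) :
    Nat.card (Sylow p S) = M.index := by
  rw [Sylow.card_eq_index_normalizer P]
  congr 1
  have hMN : M ≤ Subgroup.normalizer (P : Set S) := by
    intro m hm
    rw [← Sylow.smul_eq_iff_mem_normalizer]
    have h2 : ((m • P : Sylow p S) : Subgroup S) ≤ C := by
      intro x hx
      have hx' := hP (H83.mem_sylow_smul_iff.mp hx)
      have := hCn.conj_mem ⟨_, hCM hx'⟩ (Subgroup.mem_subgroupOf.mpr hx') ⟨m, hm⟩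
      rw [Subgroup.mem_subgroupOf] at this
      simpa [mul_assoc] using this
    obtain ⟨c, hc, hcP⟩ := H83.exists_mem_smul_eq hP h2
    rw [← hcP]
    ext x
    change x ∈ c • P ↔ x ∈ P
    rw [H83.mem_sylow_smul_iff]
    have hcomm : ∀ y ∈ C, c⁻¹ * y * c = y := by
      intro y hy
      have := (IsCyclic.isMulCommutative (α := C)).is_comm.comm ⟨y, hy⟩ ⟨c, hc⟩
      have h3 : y * c = c * y := congrArg Subtype.val this
      rw [mul_assoc, h3]; group
    constructor
    · intro h
      have hx : x ∈ C := by
        have : x = c * (c⁻¹ * x * c) * c⁻¹ := by group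
        rw [this]
        exact C.mul_mem (C.mul_mem hc (hP h)) (C.inv_mem hc)
      rwa [hcomm x hx] at h
    · intro h
      rwa [hcomm x (hP h)]
  have hne : Subgroup.normalizer (P : Set S) ≠ ⊤ := by
    intro htop
    have hn : (P : Subgroup S).Normal := Subgroup.normalizer_eq_top_iff.mp htop
    rcases hn.eq_bot_or_eq_top with h | h
    · exact P.ne_bot_of_dvd_card hp h
    · exact hM.1 (top_le_iff.mp (h ▸ hP.trans hCM))
  exact (hM.le_iff_eq hne).mp hMN

end Cfsg.Agent.S4344
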