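import Cfsg.Statements.S4346
import Mathlib
import Cfsg.Agent.Lib.Small36.N22b

set_option autoImplicit false
open Cfsg

namespace Cfsg.Agent.S4346

/-- No finite group has exactly 22 Sylow 3-subgroups. -/
theorem result {G : Type*} [Group G] [Finite G] : Nat.card (Sylow 3 G) ≠ 22 := by
  intro hn
  obtain ⟨S, _, _, _, hS, -, h⟩ := H36.exists_simple_of_card_sylow 3 hn (by norm_num)
    (by decide +kernel) (fun m hm h1 => by
      have := Nat.le_of_dvd (by norm_num) hm
      interval_cases m <;> simp_all)
  exact H36.N22.false_of_simple hS h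

end Cfsg.Agent.S4346
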