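import Mathlib
import Cfsg.Statements.S4354
import Cfsg.Agent.Lib.FGS83.Syl
import Cfsg.Agent.Lib.Core.HallSZ

set_option autoImplicit false
open Cfsg

namespace Cfsg.Agent.S4354

open Subgroup

theorem index_centralizer_normal_dvd {G : Type*} [Group G] [Finite G] (N : Subgroup G) [N.Normal]
    (x : N) :
    (Subgroup.centralizer ({x} : Set N)).index ∣ (Subgroup.centralizer ({(x : G)} : Set G)).index := by
  have h1 : Subgroup.centralizer ({x} : Set N) =
      (Subgroup.centralizer ({(x : G)} : Set G)).subgroupOf N := by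
    ext y
    rw [Subgroup.mem_subgroupOf, Subgroup.mem_centralizer_singleton_iff,
      Subgroup.mem_centralizer_singleton_iff, Subtype.ext_iff]
    rfl
  rw [h1]
  change (Subgroup.centralizer ({(x : G)} : Set G)).relIndex N ∣ _
  rw [← H3.relIndex_sup_right_of_le_normalizer Subgroup.le_normalizer_of_normal]
  exact Subgroup.relIndex_dvd_index_of_le le_sup_right

theorem index_centralizer_map_dvd {G G' : Type*} [Group G] [Group G'] {f : G →* G'}
    (hf : Function.Surjective f) (x : G) :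
    (Subgroup.centralizer ({f x} : Set G')).index ∣ (Subgroup.centralizer ({x} : Set G)).index := by
  refine dvd_trans (Subgroup.index_dvd_of_le ?_) (Subgroup.index_map_dvd _ hf)
  rintro _ ⟨y, hy, rfl⟩
  rw [SetLike.mem_coe, Subgroup.mem_centralizer_singleton_iff] at hy
  rw [Subgroup.mem_centralizer_singleton_iff, ← map_mul, hy, map_mul]

/-- Let G be a finite group and p a prime such that the Sylow p-subgroups of G are non-abelian while every element of p-power order has conjugacy class size prime to p, and suppose no nontrivial proper normal subgroup N of G has this property and no quotient G/N by such an N has it. Then G is simple. -/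
theorem result {G : Type*} [Group G] [Finite G]
    (p : ℕ) [Fact p.Prime] (h : ((∃ P : Sylow p G, ¬ IsMulCommutative P) ∧ ∀ x : G, (∃ k : ℕ, orderOf x = p ^ k) → ¬ p ∣ (Subgroup.centralizer ({x} : Set G)).index))
    (hmin : ∀ (N : Subgroup G) [N.Normal], N ≠ ⊥ → N ≠ ⊤ →
      ¬ ((∃ P : Sylow p N, ¬ IsMulCommutative P) ∧ ∀ x : N, (∃ k : ℕ, orderOf x = p ^ k) → ¬ p ∣ (Subgroup.centralizer ({x} : Set N)).index) ∧
      ¬ ((∃ P : Sylow p (G ⧸ N), ¬ IsMulCommutative P) ∧ ∀ x : (G ⧸ N), (∃ k : ℕ, orderOf x = p ^ k) → ¬ p ∣ (Subgroup.centralizer ({x} : Set (G ⧸ N))).index)) :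
    IsSimpleGroup G := by
  obtain ⟨⟨P, hP⟩, hcl⟩ := h
  have hnt : Nontrivial G := by
    by_contra hs
    rw [not_nontrivial_iff_subsingleton] at hs
    exact hP ⟨⟨fun a b => Subsingleton.elim _ _⟩⟩
  refine ⟨fun N hN => ?_⟩
  by_contra hcon
  push Not at hcon
  obtain ⟨h1, h2⟩ := hmin N hcon.1 hcon.2
  have hf := QuotientGroup.mk'_surjective N
  have hNab : ∀ Q : Sylow p N, IsMulCommutative Q := by
    intro Q
    by_contra hQ
    refine h1 ⟨⟨Q, hQ⟩, fun x hx hd => hcl x ?_ (hd.trans (index_centralizer_normal_dvd N x))⟩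
    simpa using hx
  have hQab : ∀ Q : Sylow p (G ⧸ N), IsMulCommutative Q := by
    intro Q
    by_contra hQ
    refine h2 ⟨⟨Q, hQ⟩, fun y hy hd => ?_⟩
    obtain ⟨x, rfl, hx⟩ := H83.exists_lift_pElement hf hy
    exact hcl x hx (hd.trans (index_centralizer_map_dvd hf x))
  -- elements of `P ∩ N` commute
  have hPN : ∀ a ∈ P, ∀ b ∈ P, a ∈ N → b ∈ N → a * b = b * a := by
    intro a ha b hb haN hbN
    have hT : IsPGroup p ((P : Subgroup G).subgroupOf N) := P.isPGroup'.comap_subtype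
    obtain ⟨Q, hQ⟩ := hT.exists_le_sylow
    have := (hNab Q).is_comm.comm ⟨⟨a, haN⟩, hQ ha⟩ ⟨⟨b, hbN⟩, hQ hb⟩
    exact congrArg (fun t : Q => ((t : N) : G)) this
  -- every element of `P` is central modulo `N`
  have hdec : ∀ x ∈ P, ∃ w ∈ P, (∀ y ∈ P, y * w = w * y) ∧ w⁻¹ * x ∈ N := by
    intro x hx
    have hxp := H83.exists_orderOf_eq_pow_of_mem_sylow P hx
    obtain ⟨S, -, hS⟩ := H83.exists_sylow_between (p := p) IsPGroup.of_bot bot_le (hcl x hxp)
    obtain ⟨g, hg⟩ := MulAction.exists_smul_eq G P S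
    have hy : ∀ y ∈ P, y * (g⁻¹ * x * g) = (g⁻¹ * x * g) * y := by
      intro y hy
      have h3 : g * y * g⁻¹ ∈ S := by
        rw [← hg, H83.mem_sylow_smul_iff]; simpa [mul_assoc] using hy
      have h4 := Subgroup.mem_centralizer_singleton_iff.mp (hS h3)
      calc y * (g⁻¹ * x * g) = g⁻¹ * (g * y * g⁻¹ * x) * g := by group
        _ = g⁻¹ * (x * (g * y * g⁻¹)) * g := by rw [h4]
        _ = _ := by group
    have hyP : g⁻¹ * x * g ∈ P := by
      apply H83.mem_sylow_of_comm P _ hy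
      obtain ⟨k, hk⟩ := hxp
      refine ⟨k, ?_⟩
      rw [← hk]
      exact (MulAut.conj g⁻¹).orderOf_eq x ▸ by simp
    let Pb := P.mapSurjective hf
    haveI := hQab Pb
    obtain ⟨nb, hnb, hconj⟩ := Pb.conj_eq_normalizer_conj_of_mem (QuotientGroup.mk' N x)
      (QuotientGroup.mk' N g) ⟨x, hx, rfl⟩ ⟨g⁻¹ * x * g, hyP, by simp⟩
    obtain ⟨n, hn, rfl⟩ := H83.exists_lift_normalizer hf P hnb
    rw [Subgroup.mem_set_normalizer_iff] at hn
    refine ⟨n * (g⁻¹ * x * g) * n⁻¹, (hn _).1 hyP, ?_, ?_⟩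
    · intro y hy'
      have h3 : n⁻¹ * y * n ∈ P := by
        apply (hn _).2
        simpa [mul_assoc] using hy'
      have h4 := hy _ h3
      calc y * (n * (g⁻¹ * x * g) * n⁻¹) = n * ((n⁻¹ * y * n) * (g⁻¹ * x * g)) * n⁻¹ := by group
        _ = n * ((g⁻¹ * x * g) * (n⁻¹ * y * n)) * n⁻¹ := by rw [h4]
        _ = _ := by group
    · rw [← QuotientGroup.eq]
      change QuotientGroup.mk' N _ = QuotientGroup.mk' N _
      simp only [map_mul, map_inv]
      rw [hconj]; group
  apply hP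
  refine ⟨⟨fun a b => Subtype.ext ?_⟩⟩
  obtain ⟨w, hw, hwc, hwN⟩ := hdec a a.2
  obtain ⟨v, hv, hvc, hvN⟩ := hdec b b.2
  have h3 := hPN _ (mul_mem (inv_mem hw) a.2) _ (mul_mem (inv_mem hv) b.2) hwN hvN
  have h4 := hwc _ (mul_mem (inv_mem hv) b.2)
  have h5 := hvc a a.2
  change (a : G) * b = b * a
  calc (a : G) * b = (a * v) * (v⁻¹ * b) := by group
    _ = v * (w * ((w⁻¹ * a) * (v⁻¹ * b))) := by rw [h5]; group
    _ = v * ((w * (v⁻¹ * b)) * (w⁻¹ * a)) := by rw [h3]; group
    _ = _ := by rw [← h4]; group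

end Cfsg.Agent.S4354
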