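import Mathlib
import Cfsg.Statements.S4370
import Cfsg.Agent.S0016
import Cfsg.Agent.Lib.FGS.CyclicAux
import Cfsg.Agent.Lib.Core.Fitting
-- import your own Cfsg.Agent.* helpers here

set_option autoImplicit false
open Cfsg

namespace Cfsg.Agent.S4370

open Subgroup

theorem uniq {G : Type*} [Group G] [Finite G] {p : ℕ} [hp : Fact p.Prime]
    (h : ∀ a b : G, a * b = b * a → ∃ C : Subgroup G, IsCyclic C ∧ a ∈ C ∧ b ∈ C)
    (P : Subgroup G) (hP : IsPGroup p P) (X Y : Subgroup P) (hX : Nat.card X = p)
    (hY : Nat.card Y = p) : X = Y := by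
  have hnt : Nontrivial P := by
    by_contra h
    rw [not_nontrivial_iff_subsingleton] at h
    have : Nat.card X = 1 := Nat.card_unique
    exact hp.out.one_lt.ne' (hX.symm.trans this)
  have hc := hP.center_nontrivial
  have hd : p ∣ Nat.card (center P) := by
    obtain ⟨n, hn⟩ := IsPGroup.iff_card.1 (hP.to_subgroup (center P))
    rw [hn]
    refine dvd_pow_self p (fun h => ?_)
    rw [h, pow_zero] at hn
    exact (Finite.one_lt_card (α := center P)).ne' hn
  obtain ⟨z, hz⟩ := exists_prime_orderOf_dvd_card' p hd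
  have key : ∀ W : Subgroup P, Nat.card W = p → W.map P.subtype = zpowers ((z : P) : G) := by
    intro W hW
    have := isCyclic_of_prime_card hW
    obtain ⟨w, hw⟩ := (Subgroup.isCyclic_iff_exists_zpowers_eq_top W).1 this
    obtain ⟨C, hC, h1, h2⟩ := h (w : G) ((z : P) : G)
      (congrArg Subtype.val (mem_center_iff.1 z.2 w))
    refine H80.eq_of_card_eq_of_le_isCyclic hC ?_ (zpowers_le.2 h2) ?_
    · rw [← hw, MonoidHom.map_zpowers]
      exact zpowers_le.2 h1
    · rw [card_map_of_injective P.subtype_injective, hW, Nat.card_zpowers, orderOf_coe,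
        orderOf_coe, hz]
  exact map_injective P.subtype_injective ((key X hX).trans (key Y hY).symm)

theorem two_mul_eq_zero {n : ℕ} [NeZero n] (j : ZMod (2 * n)) (h : j + j = 0) :
    j = 0 ∨ j = n := by
  have : NeZero (2 * n) := ⟨Nat.mul_ne_zero two_ne_zero (NeZero.ne n)⟩
  have h1 : ((j.val + j.val : ℕ) : ZMod (2 * n)) = 0 := by
    rw [Nat.cast_add, ZMod.natCast_zmod_val, h]
  rw [ZMod.natCast_eq_zero_iff, ← two_mul] at h1
  obtain ⟨c, hc⟩ := Nat.dvd_of_mul_dvd_mul_left two_pos h1
  have h2 := j.val_lt
  have h3 : c < 2 := by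
    by_contra h3
    have : n * 2 ≤ n * c := Nat.mul_le_mul_left n (by omega)
    omega
  rw [← ZMod.natCast_zmod_val j, hc]
  interval_cases c <;> simp

theorem quat_cent {n : ℕ} [NeZero n] (q : QuaternionGroup n) (hq : q ∉ center _) :
    ∃ g : QuaternionGroup n, ∀ y, q * y = y * q → y ∈ zpowers g := by
  have : NeZero (2 * n) := ⟨Nat.mul_ne_zero two_ne_zero (NeZero.ne n)⟩
  rcases q with i | i
  · refine ⟨QuaternionGroup.a 1, ?_⟩
    rintro (j | j) h
    · rw [← ZMod.natCast_zmod_val j, ← QuaternionGroup.a_one_pow]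
      exact pow_mem (mem_zpowers _) _
    · exfalso
      apply hq
      simp only [QuaternionGroup.a_mul_xa, QuaternionGroup.xa_mul_a,
        QuaternionGroup.xa.injEq] at h
      rw [mem_center_iff]
      rintro (k | k)
      · simp [add_comm]
      · simp only [QuaternionGroup.a_mul_xa, QuaternionGroup.xa_mul_a, QuaternionGroup.xa.injEq]
        linear_combination -h
  · refine ⟨QuaternionGroup.xa i, ?_⟩
    have h2 : QuaternionGroup.a (n : ZMod (2 * n)) ∈ zpowers (QuaternionGroup.xa i) :=
      QuaternionGroup.xa_sq i ▸ pow_mem (mem_zpowers _) 2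
    rintro (j | j) h
    · simp only [QuaternionGroup.a_mul_xa, QuaternionGroup.xa_mul_a,
        QuaternionGroup.xa.injEq] at h
      rcases two_mul_eq_zero j (by linear_combination h) with rfl | rfl
      · exact one_mem _
      · exact h2
    · simp only [QuaternionGroup.xa_mul_xa, QuaternionGroup.a.injEq] at h
      have h3 : QuaternionGroup.xa j = QuaternionGroup.xa i * QuaternionGroup.a (j - i) := by simp
      rw [h3]
      refine mul_mem (mem_zpowers _) ?_
      rcases two_mul_eq_zero (j - i) (by linear_combination h) with h4 | h4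
      · rw [h4]; exact one_mem _
      · rw [h4]; exact h2

theorem back {G : Type*} [Group G] {k m : ℕ} (hm : Odd m)
    (e : G ≃* QuaternionGroup (2 ^ k) × Multiplicative (ZMod m)) (x : G) (hx : x ∉ center G) :
    IsCyclic (centralizer ({x} : Set G)) := by
  have h1 : (e x).1 ∉ center _ := by
    intro h
    apply hx
    rw [mem_center_iff] at h ⊢
    intro g
    apply e.injective
    rw [map_mul, map_mul]
    exact Prod.ext (h _) (mul_comm _ _)
  obtain ⟨g, hg⟩ := quat_cent _ h1
  have h2 : IsCyclic (zpowers g × Multiplicative (ZMod m)) := by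
    refine Group.isCyclic_prod_iff.2 ⟨inferInstance, inferInstance, ?_⟩
    have h3 : Nat.card (zpowers g) ∣ 2 ^ (k + 2) := by
      have := card_subgroup_dvd_card (zpowers g)
      rwa [Nat.card_eq_fintype_card (α := QuaternionGroup _), QuaternionGroup.card,
        show 4 * 2 ^ k = 2 ^ (k + 2) by ring] at this
    rw [show Nat.card (Multiplicative (ZMod m)) = m from Nat.card_zmod m]
    exact Nat.Coprime.coprime_dvd_left h3 ((Nat.coprime_two_left.2 hm).pow_left _)
  have h4 : ∀ y : centralizer ({x} : Set G), (e y).1 ∈ zpowers g := fun y => hg _ (by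
    have := congrArg (fun t => (e t).1) (y.2 x rfl)
    simpa using this)
  let f : centralizer ({x} : Set G) →* zpowers g × Multiplicative (ZMod m) :=
    MonoidHom.prod (((MonoidHom.fst _ _).comp (e.toMonoidHom.comp (Subgroup.subtype _))).codRestrict
      _ h4) ((MonoidHom.snd _ _).comp (e.toMonoidHom.comp (Subgroup.subtype _)))
  refine isCyclic_of_injective f fun a b hab => Subtype.ext (e.injective ?_)
  have h5 := congrArg Prod.snd hab
  exact Prod.ext (congrArg Subtype.val (congrArg Prod.fst hab)) h5


/-- Let G be a finite non-abelian nilpotent group. Then the centralizer of every non-central element of G is cyclic if and only if G is isomorphic to the direct product of a generalized quaternion group and a cyclic group of odd order. -/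
theorem result {G : Type*} [Group G] [Finite G] (hG : Group.IsNilpotent G)
    (hna : ¬ IsMulCommutative G) :
    (∀ x : G, x ∉ Subgroup.center G → IsCyclic (Subgroup.centralizer ({x} : Set G))) ↔
      ∃ (k m : ℕ), 1 ≤ k ∧ Odd m ∧ Nonempty (G ≃* QuaternionGroup (2 ^ k) × Multiplicative (ZMod m)) := by
  refine ⟨fun h => ?_, fun ⟨k, m, _, hm, ⟨e⟩⟩ => back hm e⟩
  obtain ⟨x₀, hx₀⟩ : ∃ x : G, x ∉ center G := by
    by_contra hn
    push Not at hn
    exact hna ⟨⟨fun a b => mem_center_iff.1 (hn b) a⟩⟩
  have hcc : ∀ a b : G, a * b = b * a → ∃ C : Subgroup G, IsCyclic C ∧ a ∈ C ∧ b ∈ C := by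
    intro a b hab
    by_cases ha : a ∈ center G
    · by_cases hb : b ∈ center G
      · exact ⟨_, h x₀ hx₀, center_le_centralizer _ ha, center_le_centralizer _ hb⟩
      · exact ⟨_, h b hb, center_le_centralizer _ ha, mem_centralizer_singleton_iff.2 rfl⟩
    · exact ⟨_, h a ha, mem_centralizer_singleton_iff.2 rfl,
        mem_centralizer_singleton_iff.2 hab.symm⟩
  have hsup := H1.pCore_sup_pPrimeCore_eq_top (G := G) 2
  have hcomm : ∀ (a : pCore 2 G) (b : pPrimeCore 2 G),
      Commute ((pCore 2 G).subtype a) ((pPrimeCore 2 G).subtype b) := fun a b =>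
    (H1.pCore_le_centralizer_pPrimeCore a.2 b b.2).symm
  have hbij : Function.Bijective (MonoidHom.noncommCoprod _ _ hcomm) := by
    refine ⟨(MonoidHom.noncommCoprod_injective _ _ hcomm).2
      ⟨subtype_injective _, subtype_injective _, ?_⟩, ?_⟩
    · rw [range_subtype, range_subtype, disjoint_iff]
      exact H1.pCore_inf_pPrimeCore
    · rw [← MonoidHom.range_eq_top, MonoidHom.noncommCoprod_range, range_subtype, range_subtype,
        hsup]
  have hnc : ¬ IsCyclic (pCore 2 G) := by
    intro hc
    have hZ : IsZGroup G := ⟨fun p hp P => by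
      have := Fact.mk hp
      rcases Cfsg.Agent.S0016.result p P.isPGroup' (uniq hcc _ P.isPGroup') with h1 | ⟨rfl, -⟩
      · exact h1
      · rw [← H1.pCore_eq_sylow_of_isNilpotent P]
        exact hc⟩
    exact hna inferInstance
  obtain h1 | ⟨-, k, ⟨e⟩⟩ := Cfsg.Agent.S0016.result 2 H1.isPGroup_pCore
    (uniq hcc _ (H1.isPGroup_pCore (G := G)))
  · exact absurd h1 hnc
  have hk : 1 ≤ k := by
    rcases Nat.eq_zero_or_pos k with rfl | hk
    · exact absurd (e.isCyclic.2 QuaternionGroup.quaternionGroup_one_isCyclic) hnc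
    · exact hk
  have hK : IsCyclic (pPrimeCore 2 G) := by
    obtain ⟨x, hx, hxc⟩ : ∃ x ∈ pCore 2 G, x ∉ center G := by
      by_contra hn
      push Not at hn
      have := h x₀ hx₀
      exact hnc (Subgroup.isCyclic_of_le
        (show pCore 2 G ≤ centralizer {x₀} from fun y hy => center_le_centralizer _ (hn y hy)))
    have := h x hxc
    exact Subgroup.isCyclic_of_le (show pPrimeCore 2 G ≤ centralizer {x} from fun y hy =>
      mem_centralizer_singleton_iff.2 (H1.pCore_le_centralizer_pPrimeCore hx y hy))
  refine ⟨k, Nat.card (pPrimeCore 2 G), hk, Nat.coprime_two_right.1 H1.coprime_card_pPrimeCore,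
    ⟨(MulEquiv.ofBijective _ hbij).symm.trans (e.prodCongr (zmodCyclicMulEquiv hK).symm)⟩⟩

end Cfsg.Agent.S4370
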