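import Mathlib
import Cfsg.Statements.S4377

set_option autoImplicit false
open Cfsg

namespace Cfsg.Agent.S4377

theorem card_pow_eq_sum {G : Type*} [Group G] [Finite G] (n : ℕ) (hn : n ≠ 0) :
    Nat.card {g : G // g ^ n = 1} = ∑ d ∈ n.divisors, Nat.card {g : G // orderOf g = d} := by
  classical
  have := Fintype.ofFinite G
  simp only [Nat.card_eq_fintype_card, Fintype.card_subtype]
  have h := sum_card_orderOf_eq_card_pow_eq_one (G := G) hn
  convert h.symm using 2

theorem card_order_zero {G : Type*} [Group G] [Finite G] :
    Nat.card {g : G // orderOf g = 0} = 0 := by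
  have : IsEmpty {g : G // orderOf g = 0} := ⟨fun g => (orderOf_pos g.1).ne' g.2⟩
  exact Nat.card_of_isEmpty


/-- Two finite groups have the same number of elements of each order if and only if, for every n, they have the same number of elements g with gⁿ = 1. -/
theorem result {G H : Type*} [Group G] [Finite G] [Group H] [Finite H] :
    (∀ n : ℕ, Nat.card {g : G // orderOf g = n} = Nat.card {h : H // orderOf h = n}) ↔
      ∀ n : ℕ, Nat.card {g : G // g ^ n = 1} = Nat.card {h : H // h ^ n = 1} := by
  constructor
  · intro h n
    have hG : ∀ n, n ≠ 0 → Nat.card {g : G // g ^ n = 1} = Nat.card {h : H // h ^ n = 1} := by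
      intro n hn
      rw [card_pow_eq_sum n hn, card_pow_eq_sum n hn]
      exact Finset.sum_congr rfl fun d _ => h d
    rcases eq_or_ne n 0 with rfl | hn
    · have h1 := hG (Nat.card G * Nat.card H) (mul_ne_zero Nat.card_pos.ne' Nat.card_pos.ne')
      have e1 : ∀ g : G, g ^ (Nat.card G * Nat.card H) = 1 := fun g => by
        rw [pow_mul, pow_card_eq_one', one_pow]
      have e2 : ∀ g : H, g ^ (Nat.card G * Nat.card H) = 1 := fun g => by
        rw [pow_mul', pow_card_eq_one', one_pow]
      simpa [e1, e2] using h1
    · exact hG n hn
  · intro h n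
    induction n using Nat.strong_induction_on with
    | _ n ih =>
      rcases eq_or_ne n 0 with rfl | hn
      · rw [card_order_zero, card_order_zero]
      · have h1 := h n
        rw [card_pow_eq_sum n hn, card_pow_eq_sum n hn, ← Nat.insert_self_properDivisors hn,
          Finset.sum_insert Nat.self_notMem_properDivisors,
          Finset.sum_insert Nat.self_notMem_properDivisors,
          Finset.sum_congr rfl (fun d hd => ih d (Nat.mem_properDivisors.mp hd).2)] at h1
        exact Nat.add_right_cancel h1

end Cfsg.Agent.S4377
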