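import Mathlib
import Cfsg.Statements.S4378
import Cfsg.Agent.Lib.FGS.MaxPNil
-- import your own Cfsg.Agent.* helpers here

set_option autoImplicit false
open Cfsg

namespace Cfsg.Agent.S4378

open H76


/-- Let G be a finite solvable group in which every maximal subgroup either has a normal 2-complement or has prime index. Then G has a chain of normal subgroups 1 ≤ A ≤ B ≤ C ≤ G in which A and C/B have odd order and B/A and G/C are 2-groups (so the 2-length of G is at most 2). -/
theorem result {G : Type*} [Group G] [Finite G]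
    (hG : Group.IsSolvable G)
    (hmax : ∀ M : Subgroup G, IsCoatom M → (∃ K : Subgroup ↥M, K.Normal ∧ ¬ 2 ∣ Nat.card K ∧ ∃ k : ℕ, K.index = 2 ^ k) ∨ (M.index).Prime) :
    ∃ A B C : Subgroup G, A.Normal ∧ B.Normal ∧ C.Normal ∧ A ≤ B ∧ B ≤ C ∧ Odd (Nat.card A) ∧
      (∃ k : ℕ, A.relIndex B = 2 ^ k) ∧ Odd (B.relIndex C) ∧ ∃ k : ℕ, C.index = 2 ^ k := by
  have h4 := ups_four_eq_top (p := 2) isPSolvable_of_isSolvable hmax
  refine ⟨ups 2 G 1, ups 2 G 2, ups 2 G 3, inferInstance, inferInstance, inferInstance,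
    ups_mono (by norm_num), ups_mono (by norm_num), ?_,
    (relP_ups 0).exists_relIndex, Nat.coprime_two_right.1 (relQ_ups 1).coprime_relIndex, ?_⟩
  · refine Nat.coprime_two_right.1 (relQ_bot_iff.1 ?_)
    have := relQ_ups (p := 2) (G := G) 0
    rwa [show ups 2 G (2 * 0) = ⊥ from ups_zero] at this
  · rw [← Subgroup.relIndex_top_right, ← h4]
    exact (relP_ups 1).exists_relIndex

end Cfsg.Agent.S4378
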