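import Mathlib
import Cfsg.Statements.S4379
import Cfsg.Agent.Lib.FGS.MaxPNil
-- import your own Cfsg.Agent.* helpers here

set_option autoImplicit false
open Cfsg

namespace Cfsg.Agent.S4379

open H76


/-- Let p be an odd prime and G a finite p-solvable group in which every maximal subgroup either has a normal p-complement or has prime index. Then G has a chain of normal subgroups 1 ≤ A ≤ B ≤ C ≤ D ≤ G in which A, C/B and G/D have order prime to p and B/A and D/C are p-groups (so the p-length of G is at most 2). -/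
theorem result {G : Type*} [Group G] [Finite G]
    (p : ℕ) [Fact p.Prime] (hp : p ≠ 2) (hG : Cfsg.IsPSolvable p G)
    (hmax : ∀ M : Subgroup G, IsCoatom M → (∃ K : Subgroup ↥M, K.Normal ∧ ¬ p ∣ Nat.card K ∧ ∃ k : ℕ, K.index = p ^ k) ∨ (M.index).Prime) :
    ∃ A B C D : Subgroup G, A.Normal ∧ B.Normal ∧ C.Normal ∧ D.Normal ∧ A ≤ B ∧ B ≤ C ∧ C ≤ D ∧ ¬ p ∣ Nat.card A ∧
      (∃ k : ℕ, A.relIndex B = p ^ k) ∧ ¬ p ∣ B.relIndex C ∧ (∃ k : ℕ, C.relIndex D = p ^ k) ∧ ¬ p ∣ D.index := by
  have h4 := ups_four_eq_top hG hmax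
  have hc : ∀ {n : ℕ}, n.Coprime p → ¬ p ∣ n := fun h =>
    (Nat.Prime.coprime_iff_not_dvd Fact.out).1 h.symm
  refine ⟨ups p G 1, ups p G 2, ups p G 3, ⊤, inferInstance, inferInstance, inferInstance,
    inferInstance, ups_mono (by norm_num), ups_mono (by norm_num), le_top, ?_,
    (relP_ups 0).exists_relIndex, hc (relQ_ups 1).coprime_relIndex, ?_, ?_⟩
  · refine hc (relQ_bot_iff.1 ?_)
    have := relQ_ups (p := p) (G := G) 0
    rwa [show ups p G (2 * 0) = ⊥ from ups_zero] at this
  · rw [← h4]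
    exact (relP_ups 1).exists_relIndex
  · rw [Subgroup.index_top]
    exact (Fact.out : p.Prime).not_dvd_one

end Cfsg.Agent.S4379
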