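import Mathlib
import Cfsg.Statements.S4381
import Cfsg.Agent.Lib.FGS.AbelOp
import Cfsg.Agent.Lib.Core.Frattini
import Cfsg.Agent.Lib.Core.CoprimeSylow
-- import your own Cfsg.Agent.* helpers here

set_option autoImplicit false
open Pointwise
open Cfsg

namespace Cfsg.Agent.S4381

open Subgroup

variable {A G : Type*} [Group A] [Group G] [MulDistribMulAction A G]

/-- Maximal invariant subgroups. -/
def MI (A : Type*) [Group A] [MulDistribMulAction A G] (M : Subgroup G) : Prop :=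
  M ≠ ⊤ ∧ (∀ a : A, ∀ x ∈ M, a • x ∈ M) ∧
    ∀ L : Subgroup G, M < L → (∀ a : A, ∀ x ∈ L, a • x ∈ L) → L = ⊤

theorem exists_mi [Finite G] {K : Subgroup G} (hK : K ≠ ⊤) (hi : ∀ a : A, ∀ x ∈ K, a • x ∈ K) :
    ∃ M, MI A M ∧ K ≤ M := by
  obtain ⟨M, hKM, hM⟩ := Finite.exists_le_maximal
    (p := fun L : Subgroup G => L ≠ ⊤ ∧ ∀ a : A, ∀ x ∈ L, a • x ∈ L) ⟨hK, hi⟩
  refine ⟨M, ⟨hM.prop.1, hM.prop.2, fun L hL hLi => ?_⟩, hKM⟩
  by_contra h
  exact hL.not_ge (hM.le_of_ge ⟨h, hLi⟩ hL.le)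

theorem inv_frattini (a : A) : ∀ x ∈ frattini G, a • x ∈ frattini G := fun x hx =>
  (characteristic_iff_le_comap.1 (inferInstance : (frattini G).Characteristic)
    (MulDistribMulAction.toMulAut A G a)) hx

theorem MI.frattini_le [Finite G] {M : Subgroup G} (h : MI A M) : frattini G ≤ M := by
  by_contra hle
  refine h.1 (H1.eq_top_of_sup_eq_top_of_le_frattini le_rfl (h.2.2 _ ?_ ?_))
  · exact lt_of_le_of_ne le_sup_left fun e => hle (e ▸ le_sup_right)
  · intro a x hx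
    obtain ⟨m, hm, f, hf, rfl⟩ := H3.mem_sup_iff_of_normal'.1 hx
    rw [smul_mul']
    exact mul_mem (mem_sup_left (h.2.1 a m hm)) (mem_sup_right (inv_frattini a f hf))

theorem mi_iff [Finite G]
    (h : ∀ L : Subgroup G, frattini G < L → (∀ a : A, ∀ x ∈ L, a • x ∈ L) → L = ⊤)
    (M : Subgroup G) : MI A M ↔ (M = frattini G ∧ M ≠ ⊤) := by
  constructor
  · intro hM
    refine ⟨?_, hM.1⟩
    by_contra hne
    exact hM.1 (h M (lt_of_le_of_ne hM.frattini_le (Ne.symm hne)) hM.2.1)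
  · rintro ⟨rfl, hM⟩
    exact ⟨hM, inv_frattini, h⟩

theorem main [Finite A] [Finite G] (hcop : (Nat.card A).Coprime (Nat.card G))
    (hsol : Group.IsSolvable A ∨ Group.IsSolvable G)
    (h : ∀ M N : Subgroup G, MI A M → MI A N → ∃ c : G, N = MulAut.conj c • M) :
    (∃ p : ℕ, p.Prime ∧ IsPGroup p G) ∧
      ∀ L : Subgroup G, frattini G < L → (∀ a : A, ∀ x ∈ L, a • x ∈ L) → L = ⊤ := by
  rcases subsingleton_or_nontrivial G with hG | hG
  · exact ⟨⟨2, Nat.prime_two, fun g => ⟨0, Subsingleton.elim _ _⟩⟩,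
      fun L _ _ => Subsingleton.elim _ _⟩
  set φ := MulDistribMulAction.toMulAut A G with hφ
  obtain ⟨M, hM, -⟩ := exists_mi (A := A) (K := (⊥ : Subgroup G)) bot_ne_top
    (fun a x hx => by rw [mem_bot.1 hx, smul_one]; exact one_mem _)
  have hp : ∃ p : ℕ, p.Prime ∧ IsPGroup p G := by
    by_contra hn
    apply hM.1
    rw [eq_top_iff]
    refine H2.le_of_forall_sylowIn_le fun p hp => ?_
    have := Fact.mk hp
    obtain ⟨P, hP⟩ := H2.ext_exists_invariant_sylow (φ := φ) hcop hsol p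
    have hPt : (P : Subgroup G) ≠ ⊤ := fun e => hn ⟨p, hp, fun g => by
      obtain ⟨k, hk⟩ := P.isPGroup' ⟨g, e ▸ mem_top g⟩
      exact ⟨k, congrArg Subtype.val hk⟩⟩
    obtain ⟨N, hN, hPN⟩ := exists_mi (A := A) hPt hP
    obtain ⟨c, hc⟩ := h N M hN hM
    refine ⟨H68.cj c P, (H68.sylowIn_top P).cj_of_mem (mem_top c), ?_⟩
    rw [hc]
    exact H68.cj_mono c hPN
  refine ⟨hp, fun L hL hLi => ?_⟩
  obtain ⟨p, hp, hG⟩ := hp
  have := Fact.mk hp
  have huniq : ∀ N, MI A N → N = M := by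
    intro N hN
    obtain ⟨c, hc⟩ := h M N hM hN
    have : M.Normal := Subgroup.Normal.of_commutator_le G
      ((H1.commutator_le_frattini hG).trans hM.frattini_le)
    rw [hc]
    exact H68.cj_eq_of_normal c M
  by_contra hLt
  have hcp : (Nat.card A).Coprime p := by
    obtain ⟨k, hk⟩ := IsPGroup.iff_card.1 hG
    have hk0 : k ≠ 0 := by
      rintro rfl
      exact Finite.one_lt_card.ne' (by simpa using hk)
    rw [hk] at hcop
    exact (Nat.coprime_pow_right_iff (Nat.pos_of_ne_zero hk0) _ _).1 hcop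
  let π := QuotientGroup.mk' (frattini G)
  have hc : ∀ Y, frattini G ≤ Y → (Y.map π).comap π = Y := fun Y h =>
    comap_map_eq_self (by rwa [QuotientGroup.ker_mk'])
  have hEA := (H1.frattini_eq_bot_iff_of_isPGroup (hG.to_quotient (frattini G))).1
    H1.frattini_quotient_frattini
  obtain ⟨W, -, h2, h3, h4⟩ := H77.ext_maschke (H2.quotAut φ (frattini G) inv_frattini) hcp
    (V := ⊤) (U := L.map π) ⟨by have := hEA.1; infer_instance, fun a _ => hEA.2 a⟩ le_top
    (fun _ _ _ => mem_top _)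
    (by rintro x _ ⟨b, hb, rfl⟩; exact ⟨_, hLi x b hb, rfl⟩)
  have hK : W.comap π ≠ ⊤ := by
    intro e
    have e2 : W = ⊤ := by
      rw [← map_comap_eq_self_of_surjective (QuotientGroup.mk'_surjective _) W, e,
        map_top_of_surjective _ (QuotientGroup.mk'_surjective _)]
    rw [e2, inf_top_eq] at h3
    have := hc L hL.le
    rw [h3, MonoidHom.comap_bot, QuotientGroup.ker_mk'] at this
    exact hL.ne this
  obtain ⟨N1, hN1, h5⟩ := exists_mi (A := A) hK (fun a b hb => h2 a _ hb)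
  obtain ⟨N2, hN2, h6⟩ := exists_mi (A := A) hLt hLi
  rw [huniq _ hN1] at h5
  rw [huniq _ hN2] at h6
  apply hM.1
  rw [eq_top_iff, ← comap_top π, ← h4, ← comap_sup_eq _ _ _ (QuotientGroup.mk'_surjective _),
    hc L hL.le]
  exact sup_le h6 h5


/-- Let the finite group A act by automorphisms on the finite group G with the orders of A and G coprime, and assume that A or G is solvable. Call a proper A-invariant subgroup of G maximal A-invariant when no A-invariant subgroup lies strictly between it and G. Then all maximal A-invariant subgroups of G are conjugate under elements of the fixed-point subgroup C_G(A) if and only if G is a p-group for some prime p and A leaves invariant no subgroup strictly between the Frattini subgroup of G and G. In that case, if G is nontrivial, the Frattini subgroup is the only maximal A-invariant subgroup (a trivial G has none). -/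
theorem result {A G : Type*} [Group A] [Finite A]
    [Group G] [Finite G] [MulDistribMulAction A G] (hcop : (Nat.card A).Coprime (Nat.card G)) (hsol : Group.IsSolvable A ∨ Group.IsSolvable G) :
    ((∀ M N : Subgroup G, (M ≠ ⊤ ∧ (∀ a : A, ∀ x ∈ M, a • x ∈ M) ∧ ∀ L : Subgroup G, M < L → (∀ a : A, ∀ x ∈ L, a • x ∈ L) → L = ⊤) → (N ≠ ⊤ ∧ (∀ a : A, ∀ x ∈ N, a • x ∈ N) ∧ ∀ L : Subgroup G, N < L → (∀ a : A, ∀ x ∈ L, a • x ∈ L) → L = ⊤) →
        ∃ c : G, (∀ a : A, a • c = c) ∧ N = MulAut.conj c • M) ↔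
      ((∃ p : ℕ, p.Prime ∧ IsPGroup p G) ∧ ∀ L : Subgroup G, frattini G < L → (∀ a : A, ∀ x ∈ L, a • x ∈ L) → L = ⊤)) ∧
    (((∃ p : ℕ, p.Prime ∧ IsPGroup p G) ∧ ∀ L : Subgroup G, frattini G < L → (∀ a : A, ∀ x ∈ L, a • x ∈ L) → L = ⊤) →
      ∀ M : Subgroup G, (M ≠ ⊤ ∧ (∀ a : A, ∀ x ∈ M, a • x ∈ M) ∧ ∀ L : Subgroup G, M < L → (∀ a : A, ∀ x ∈ L, a • x ∈ L) → L = ⊤) ↔ (M = frattini G ∧ M ≠ ⊤)) := by
  refine ⟨⟨fun h => main hcop hsol fun M N hM hN => ?_, fun h M N hM hN => ⟨1, fun a => smul_one a, ?_⟩⟩,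
    fun h M => mi_iff h.2 M⟩
  · obtain ⟨c, -, hc⟩ := h M N hM hN
    exact ⟨c, hc⟩
  · rw [map_one, one_smul, ((mi_iff h.2 M).1 hM).1, ((mi_iff h.2 N).1 hN).1]

end Cfsg.Agent.S4381
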