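import Mathlib
import Cfsg.Statements.S4387
import Cfsg.Agent.Lib.FGS83.Syl
import Cfsg.Agent.Lib.PGroup.Basic

set_option autoImplicit false
open Pointwise
open Cfsg

namespace Cfsg.Agent.S4387


/-- Let G be a non-trivial finite group in which any two maximal subgroups are conjugate. Then G is cyclic of prime-power order. -/
theorem result {G : Type*} [Group G] [Finite G] [Nontrivial G]
    (h : ∀ M N : Subgroup G, IsCoatom M → IsCoatom N → ∃ g : G, N = MulAut.conj g • M) :
    IsCyclic G ∧ IsPrimePow (Nat.card G) := by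
  obtain ⟨M, hM, -⟩ := (eq_top_or_exists_le_coatom (⊥ : Subgroup G)).resolve_left bot_ne_top
  have hconj : ∀ H : Subgroup G, H ≠ ⊤ → ∃ g : G, H ≤ MulAut.conj g • M := by
    intro H hH
    obtain ⟨N, hN, hHN⟩ := (eq_top_or_exists_le_coatom H).resolve_left hH
    obtain ⟨g, rfl⟩ := h M N hM hN
    exact ⟨g, hHN⟩
  have hidx : M.index ≠ 1 := fun h1 => hM.1 (Subgroup.index_eq_one.mp h1)
  obtain ⟨p, hp, hpd⟩ := Nat.exists_prime_and_dvd hidx
  have := Fact.mk hp
  obtain ⟨P⟩ : Nonempty (Sylow p G) := inferInstance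
  have hP : (P : Subgroup G) = ⊤ := by
    by_contra hne
    obtain ⟨g, hg⟩ := hconj _ hne
    apply P.not_dvd_index
    refine dvd_trans ?_ (Subgroup.index_dvd_of_le hg)
    have : (MulAut.conj g • M).index = M.index := Subgroup.index_map_equiv M (MulAut.conj g)
    rwa [this]
  have hG : IsPGroup p G := by
    have := P.isPGroup'
    rw [hP] at this
    exact this.of_equiv Subgroup.topEquiv
  have hMn : M.Normal := H5.normal_of_isCoatom hG hM
  constructor
  · obtain ⟨x, hx⟩ : ∃ x, x ∉ M := by
      by_contra hc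
      push Not at hc
      exact hM.1 (eq_top_iff.mpr fun x _ => hc x)
    have hz : Subgroup.zpowers x = ⊤ := by
      by_contra hne
      obtain ⟨g, hg⟩ := hconj _ hne
      rw [hMn.conj_smul_eq_self g M] at hg
      exact hx (hg (Subgroup.mem_zpowers x))
    exact ⟨⟨x, fun y => (show y ∈ Subgroup.zpowers x from hz ▸ Subgroup.mem_top y)⟩⟩
  · obtain ⟨n, hn, hcard⟩ := hG.nontrivial_iff_card.mp inferInstance
    rw [hcard]
    exact hp.isPrimePow.pow hn.ne'

end Cfsg.Agent.S4387
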