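import Mathlib
import Cfsg.Statements.S4392
import Cfsg.Agent.Lib.NilF.Act

set_option autoImplicit false
open Cfsg

namespace Cfsg.Agent.S4392

/-- Let a finite nilpotent group F act faithfully by automorphisms on a finite group G so that F fixes only the identity of G, and let N be an F-invariant normal subgroup of G. Then F fixes only the identity coset of G/N: an element g with g⁻¹·f(g) ∈ N for every f ∈ F lies in N. (The orders of F and G need not be coprime.) -/
theorem result {G F : Type*} [Group G] [Finite G] [Group F] [Finite F] [MulDistribMulAction F G] [FaithfulSMul F G]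
    (hF : Group.IsNilpotent F) (hCF : ∀ g : G, (∀ f : F, f • g = g) → g = 1) (N : Subgroup G) [N.Normal] (hN : ∀ (f : F) (n : G), n ∈ N → f • n ∈ N)
    (g : G) (hg : ∀ f : F, g⁻¹ * f • g ∈ N) : g ∈ N := by
  exact H2.NF.fx (MulDistribMulAction.toMulAut F G) hF hCF N hN hg

end Cfsg.Agent.S4392
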