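import Mathlib
import Cfsg.Statements.S4398
import Cfsg.Agent.Lib.FGS83.MaxClass2

set_option autoImplicit false
open Cfsg

namespace Cfsg.Agent.S4398

open Subgroup

theorem facts {S : Type*} [Group S] {H : Subgroup S}
    (h : Nonempty (↥H ≃* DihedralGroup 4) ∨ Nonempty (↥H ≃* QuaternionGroup 2)) :
    (∃ x ∈ H, ∃ y ∈ H, x * y ≠ y * x) ∧ (∀ x ∈ H, x ^ 4 = 1) ∧
      ∀ x ∈ H, ∀ y ∈ H, x * y ≠ y * x → x * x ≠ 1 → y * y = 1 ∨ y * y = x * x := by
  have key : ∀ (Q : Type) [Group Q] (e : H ≃* Q), (∃ x y : Q, x * y ≠ y * x) → (∀ x : Q, x ^ 4 = 1) →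
      (∀ x y : Q, x * y ≠ y * x → x * x ≠ 1 → y * y = 1 ∨ y * y = x * x) →
      (∃ x ∈ H, ∃ y ∈ H, x * y ≠ y * x) ∧ (∀ x ∈ H, x ^ 4 = 1) ∧
      ∀ x ∈ H, ∀ y ∈ H, x * y ≠ y * x → x * x ≠ 1 → y * y = 1 ∨ y * y = x * x := by
    intro Q _ e h1 h2 h3
    refine ⟨?_, ?_, ?_⟩
    · obtain ⟨x, y, hxy⟩ := h1
      refine ⟨_, (e.symm x).2, _, (e.symm y).2, fun h => hxy ?_⟩
      apply e.symm.injective
      rw [map_mul, map_mul]
      exact Subtype.ext h
    · intro x hx
      have : (⟨x, hx⟩ : H) ^ 4 = 1 := e.injective (by rw [map_pow, h2, map_one])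
      exact congrArg Subtype.val this
    · intro x hx y hy hxy hxx
      have := h3 (e ⟨x, hx⟩) (e ⟨y, hy⟩) (fun h => hxy (by
        rw [← map_mul, ← map_mul] at h
        exact congrArg Subtype.val (e.injective h))) (fun h => hxx (by
        rw [← map_mul, ← map_one e] at h
        exact congrArg Subtype.val (e.injective h)))
      rcases this with h | h
      · left
        rw [← map_mul, ← map_one e] at h
        exact congrArg Subtype.val (e.injective h)
      · right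
        rw [← map_mul, ← map_mul] at h
        exact congrArg Subtype.val (e.injective h)
  rcases h with ⟨⟨e⟩⟩ | ⟨⟨e⟩⟩
  · exact key _ e (by decide) (by decide) (by decide)
  · exact key _ e (by decide) (by decide) (by decide)


/-- Let S be a finite 2-group of sectional 2-rank at most 2 that contains a subgroup isomorphic to the dihedral group of order 8 or to the quaternion group of order 8. Then S is dihedral of order at least 8, semidihedral of order at least 16 (order 2^(k+4) with an element a of order 2^(k+3) and an involution b with b a b⁻¹ = a^(2^(k+2)−1)), or generalized quaternion of order at least 8. -/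
theorem result {S : Type*} [Group S] [Finite S] (h2 : IsPGroup 2 S) (hr : Cfsg.SectionalPRankLE 2 2 S)
    (hsub : ∃ H : Subgroup S, Nonempty (↥H ≃* DihedralGroup 4) ∨ Nonempty (↥H ≃* QuaternionGroup 2)) :
    ((∃ k : ℕ, Nonempty (S ≃* DihedralGroup (2 ^ (k + 2)))) ∨
      (∃ k : ℕ, Nat.card S = 2 ^ (k + 4) ∧ ∃ a b : S, orderOf a = 2 ^ (k + 3) ∧ orderOf b = 2 ∧ b * a * b⁻¹ = a ^ (2 ^ (k + 2) - 1)) ∨
      (∃ k : ℕ, Nonempty (S ≃* QuaternionGroup (2 ^ (k + 1))))) := by
  obtain ⟨H, hH⟩ := hsub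
  obtain ⟨⟨x, hx, y, hy, hxy⟩, h4, hrel⟩ := facts hH
  obtain ⟨n, g, hN, hgen⟩ := H83.mc_of_sr h2 (H83.sr_of_sectional hr)
  have hna : commutator S ≠ ⊥ := by
    intro h
    rw [_root_.commutator_def, commutator_eq_bot_iff_le_centralizer] at h
    exact hxy (h (mem_top y) x (mem_top x))
  -- the image of `H` in the cyclic quotient is generated by the image of some `h`
  have hcyc : IsCyclic (S ⧸ zpowers n) := by
    refine ⟨⟨(g : S ⧸ zpowers n), fun u => ?_⟩⟩
    obtain ⟨u, rfl⟩ := QuotientGroup.mk_surjective u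
    obtain ⟨m, hm, k, rfl⟩ := H83.exists_mul_of_sup_eq_top hgen u
    refine ⟨k, ?_⟩
    simp only [QuotientGroup.mk_mul, (QuotientGroup.eq_one_iff m).mpr hm, one_mul,
      QuotientGroup.mk_zpow]
  obtain ⟨hb, hhb⟩ := (Subgroup.isCyclic_iff_exists_zpowers_eq_top
    (H.map (QuotientGroup.mk' (zpowers n)))).mp inferInstance
  obtain ⟨h, hh, rfl⟩ : hb ∈ H.map (QuotientGroup.mk' (zpowers n)) := hhb ▸ mem_zpowers hb
  have hdec : ∀ u ∈ H, ∃ m ∈ H, m ∈ zpowers n ∧ ∃ k : ℤ, u = m * h ^ k := by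
    intro u hu
    have : QuotientGroup.mk' (zpowers n) u ∈ zpowers (QuotientGroup.mk' (zpowers n) h) :=
      hhb ▸ mem_map_of_mem _ hu
    obtain ⟨k, hk⟩ := mem_zpowers_iff.mp this
    refine ⟨u * (h ^ k)⁻¹, H.mul_mem hu (H.inv_mem (H.zpow_mem hh k)), ?_, k, by group⟩
    rw [← QuotientGroup.eq_one_iff]
    change QuotientGroup.mk' (zpowers n) (u * (h ^ k)⁻¹) = 1
    rw [map_mul, map_inv, map_zpow, hk, mul_inv_cancel]
  have hNc : ∀ a ∈ zpowers n, ∀ b ∈ zpowers n, Commute a b := by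
    rintro _ ⟨i, rfl⟩ _ ⟨j, rfl⟩
    exact Commute.zpow_zpow_self n i j
  obtain ⟨m, hmH, hmN, hmh⟩ : ∃ m ∈ H, m ∈ zpowers n ∧ m * h ≠ h * m := by
    by_contra hc
    push Not at hc
    obtain ⟨a, ha, ha', i, rfl⟩ := hdec x hx
    obtain ⟨b, hb, hb', j, rfl⟩ := hdec y hy
    have c1 : Commute a h := hc a ha ha'
    have c2 : Commute b h := hc b hb hb'
    exact hxy (((hNc a ha' b hb').mul_right (c1.zpow_right j)).mul_left
      ((c2.symm.zpow_left i).mul_right (Commute.zpow_zpow_self h i j)))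
  have hm4 : m ^ (4 : ℤ) = 1 := by rw [← h4 m hmH, ← zpow_natCast]; rfl
  have hm1 : m ≠ 1 := by rintro rfl; simp at hmh
  -- conjugation acts on `⟨n⟩` by powers
  have hact : ∀ u : S, ∃ t : ℤ, (∀ a ∈ zpowers n, u * a * u⁻¹ = a ^ t) ∧ Odd t := by
    intro u
    obtain ⟨t, ht⟩ := mem_zpowers_iff.mp (hN.conj_mem n (mem_zpowers n) u)
    have h1 : ∀ a ∈ zpowers n, u * a * u⁻¹ = a ^ t := by
      rintro _ ⟨i, rfl⟩
      change u * n ^ i * u⁻¹ = (n ^ i) ^ t
      rw [← conj_zpow, ← ht, ← zpow_mul, ← zpow_mul, mul_comm]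
    refine ⟨t, h1, ?_⟩
    by_contra hc
    rw [Int.not_odd_iff_even] at hc
    obtain ⟨d, rfl⟩ := hc
    have e1 := h1 m hmN
    have e2 := h1 _ (zpow_mem hmN (d + d))
    rw [← zpow_mul, show (d + d) * (d + d) = 4 * (d * d) by ring, zpow_mul, hm4,
      one_zpow, ← e1] at e2
    apply hm1
    rwa [conj_eq_one_iff, conj_eq_one_iff] at e2
  obtain ⟨t, ht, ⟨c, rfl⟩⟩ := hact h
  have hc : Odd c := by
    by_contra hc
    rw [Int.not_odd_iff_even] at hc
    obtain ⟨d, rfl⟩ := hc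
    have e1 := ht m hmN
    rw [show 2 * (d + d) + 1 = 4 * d + 1 by ring, zpow_add, zpow_mul, hm4, one_zpow, one_mul,
      zpow_one, mul_inv_eq_iff_eq_mul] at e1
    exact hmh e1.symm
  have hmm : m * m ≠ 1 := by
    intro h0
    have e1 := ht m hmN
    rw [zpow_add, zpow_mul, zpow_two, h0, one_zpow, one_mul, zpow_one,
      mul_inv_eq_iff_eq_mul] at e1
    exact hmh e1.symm
  have hhh : h * h ∈ zpowers n := by
    rcases hrel m hmH h hh hmh hmm with h0 | h0 <;> rw [h0]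
    · exact one_mem _
    · exact mul_mem hmN hmN
  obtain ⟨a, ha, k, hk⟩ := H83.exists_mul_of_sup_eq_top hgen h
  have hkodd : Odd k := by
    by_contra hc
    rw [Int.not_odd_iff_even] at hc
    obtain ⟨d, rfl⟩ := hc
    obtain ⟨s, hs, ⟨e, rfl⟩⟩ := hact (g ^ d)
    apply hmh
    have e1 : g ^ (d + d) * m * (g ^ (d + d))⁻¹ = m := by
      calc g ^ (d + d) * m * (g ^ (d + d))⁻¹ = g ^ d * (g ^ d * m * (g ^ d)⁻¹) * (g ^ d)⁻¹ := by
            group
        _ = m := by
          rw [hs m hmN, hs _ (zpow_mem hmN _), ← zpow_mul,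
            show (2 * e + 1) * (2 * e + 1) = 4 * (e * e + e) + 1 by ring, zpow_add, zpow_mul, hm4,
            one_zpow, one_mul, zpow_one]
    rw [mul_inv_eq_iff_eq_mul] at e1
    rw [hk, mul_assoc, e1, ← mul_assoc, ← mul_assoc, (hNc a ha m hmN).eq]
  have hgen' : zpowers n ⊔ zpowers h = ⊤ := by
    refine H83.gen_of_mem hgen (mem_sup_left (mem_zpowers n)) ?_
    refine zpowers_le.mpr ?_ (H83.mem_zpowers_zpow_of_odd h2 g hkodd)
    have : g ^ k = a⁻¹ * h := by rw [hk]; group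
    rw [this]
    exact mul_mem_sup (inv_mem ha) (mem_zpowers h)
  have hhN : h ∉ zpowers n := fun h0 => hmh (hNc m hmN h h0).eq
  have hidx : (zpowers n).index = 2 := by
    rw [← relIndex_top_right, ← hgen']
    exact H5.relIndex_sup_zpowers Nat.prime_two (by rw [normalizer_eq_top]; exact mem_top h) hhN (by rwa [pow_two])
  refine H83.maxClass_iso h2 hidx hna ?_
  have e1 : (n * n) ^ c ∈ commutator S := by
    have : (n * n) ^ c = h * n * h⁻¹ * n⁻¹ := by
      rw [ht n (mem_zpowers n), zpow_add, zpow_mul, zpow_two]; group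
    rw [this]
    exact commutator_mem_commutator (mem_top h) (mem_top n)
  exact zpowers_le.mpr e1 (H83.mem_zpowers_zpow_of_odd h2 _ hc)

end Cfsg.Agent.S4398
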