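import Cfsg.Statements.S4400
import Mathlib
import Cfsg.Agent.Lib.TwoGrp.Sec4

set_option autoImplicit false
open Cfsg

namespace Cfsg.Agent.S4400

/-- Let S be a finite 2-group of sectional 2-rank at most 4, and let P and Q be normal non-abelian subgroups of S whose centres have order 2 and are different. Then P and Q commute elementwise and intersect trivially, and PQ contains its own centralizer in S. -/
theorem result {S : Type*} [Group S] [Finite S] (h2 : IsPGroup 2 S) (hr : Cfsg.SectionalPRankLE 2 4 S)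
    (P Q : Subgroup S) [P.Normal] [Q.Normal] (hP : ¬ IsMulCommutative ↥P) (hQ : ¬ IsMulCommutative ↥Q)
    (hZP : Nat.card ↥(Subgroup.center ↥P) = 2) (hZQ : Nat.card ↥(Subgroup.center ↥Q) = 2)
    (hne : (Subgroup.center ↥P).map P.subtype ≠ (Subgroup.center ↥Q).map Q.subtype) :
    ⁅P, Q⁆ = ⊥ ∧ P ⊓ Q = ⊥ ∧ Subgroup.centralizer ((P ⊔ Q : Subgroup S) : Set S) ≤ P ⊔ Q := by
  obtain ⟨z, hz, e1, hz2⟩ := H13.TG.nz_of_card hP hZP
  obtain ⟨w, hw, e2, hw2⟩ := H13.TG.nz_of_card hQ hZQ
  have hzw : z ≠ w := by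
    rintro rfl
    exact hne (e1.trans e2.symm)
  obtain ⟨hi, hc⟩ := H13.TG.inf_eq_bot_of_norm h2 (T := ⊤) hz hw hzw le_top le_top
    (fun s _ x hx => Subgroup.Normal.conj_mem inferInstance x hx s)
    (fun s _ x hx => Subgroup.Normal.conj_mem inferInstance x hx s)
  refine ⟨?_, hi, H13.TG.centralizer_le_sup h2 (H83.sr_of_sectional hr) hz hw hc hi⟩
  rw [Subgroup.commutator_eq_bot_iff_le_centralizer]
  intro a ha b hb
  exact (hc a ha b hb).symm

end Cfsg.Agent.S4400
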