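import Cfsg.Statements.S4401
import Mathlib
import Cfsg.Agent.Lib.TwoGrp.Sec4

set_option autoImplicit false
open Cfsg

namespace Cfsg.Agent.S4401

/-- Let S be a finite 2-group of sectional 2-rank at most 4 and P a proper non-abelian subgroup whose centre has order 2. Let S₀ be the centralizer in S of Z(P) and suppose P is normal in S₀. Then either S₀ = S, or P has sectional 2-rank at most 2 and S₀ has index 2 in S. -/
theorem result {S : Type*} [Group S] [Finite S] (h2 : IsPGroup 2 S) (hr : Cfsg.SectionalPRankLE 2 4 S)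
    (P : Subgroup S) (hPlt : P ≠ ⊤) (hP : ¬ IsMulCommutative ↥P) (hZP : Nat.card ↥(Subgroup.center ↥P) = 2)
    (S₀ : Subgroup S) (hS₀ : S₀ = Subgroup.centralizer (((Subgroup.center ↥P).map P.subtype : Subgroup S) : Set S))
    (hPn : ∀ s ∈ S₀, ∀ x ∈ P, s * x * s⁻¹ ∈ P) :
    S₀ = ⊤ ∨ (Cfsg.SectionalPRankLE 2 2 ↥P ∧ S₀.index = 2) := by
  obtain ⟨z, hz, e1, hz2⟩ := H13.TG.nz_of_card hP hZP
  have e : S₀ = Subgroup.centralizer ({z} : Set S) := by
    rw [hS₀, e1, Subgroup.zpowers_eq_closure, Subgroup.centralizer_closure]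
  by_cases h : S₀ = ⊤
  · exact Or.inl h
  · right
    rw [e] at hPn h ⊢
    obtain ⟨h1, h3⟩ := H13.TG.index_centralizer_eq_two h2 (H83.sr_of_sectional hr) hz hPn h
    exact ⟨h1.sectional, h3⟩

end Cfsg.Agent.S4401
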