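import Cfsg.Statements.S4402
import Cfsg.Agent.Lib.DW82.B

set_option autoImplicit false
open Cfsg

namespace Cfsg.Agent.S4402

/-- Let S be a finite 2-group of sectional 2-rank at most 4 and P a proper subgroup isomorphic to the wreath product of the dihedral group of order 8 by a group of order 2 (equivalently, to a Sylow 2-subgroup of the symmetric group of degree 8; order 128). Then Z(S) = Z(P) has order 2, P has index 2 in its normalizer N_S(P), N_S(P)/Z(S) is again isomorphic to that wreath product, and every elementary abelian subgroup V of order 16 that is normal in P satisfies N_S(V) = P. -/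
theorem result {S : Type*} [Group S] [Finite S] (h2 : IsPGroup 2 S) (hr : Cfsg.SectionalPRankLE 2 4 S)
    (P : Subgroup S) (hPlt : P ≠ ⊤) (hP : ∃ T : Sylow 2 (Equiv.Perm (Fin 8)), Nonempty (↥P ≃* ↥(T : Subgroup (Equiv.Perm (Fin 8))))) :
    Subgroup.center S = (Subgroup.center ↥P).map P.subtype ∧ Nat.card ↥(Subgroup.center S) = 2 ∧
    P.relIndex (Subgroup.normalizer (P : Set S)) = 2 ∧
    (∃ (_ : ((Subgroup.center S).subgroupOf (Subgroup.normalizer (P : Set S))).Normal) (T : Sylow 2 (Equiv.Perm (Fin 8))),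
      Nonempty (↥(Subgroup.normalizer (P : Set S)) ⧸ (Subgroup.center S).subgroupOf (Subgroup.normalizer (P : Set S)) ≃*
        ↥(T : Subgroup (Equiv.Perm (Fin 8))))) ∧
    ∀ V : Subgroup S, V ≤ P → (∀ g ∈ P, ∀ v ∈ V, g * v * g⁻¹ ∈ V) → Cfsg.IsElementaryAbelian 2 V → Nat.card ↥V = 16 →
      Subgroup.normalizer (V : Set S) = P := by
  have : Fact (Nat.Prime 2) := ⟨Nat.prime_two⟩
  obtain ⟨T, ⟨e⟩⟩ := hP
  obtain ⟨f⟩ := H82.DW.exists_equiv T
  let ι : H82.DW.W →* S := P.subtype.comp (f.trans e.symm).toMonoidHom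
  have hι : Function.Injective ι := P.subtype_injective.comp (f.trans e.symm).injective
  have hP : ι.range = P := by
    rw [MonoidHom.range_comp, MonoidHom.range_eq_top.mpr (f.trans e.symm).surjective,
      ← MonoidHom.range_eq_map, Subgroup.range_subtype]
  clear_value ι
  clear e
  subst hP
  have hc := H82.DW.center_eq h2 hr hι
  obtain ⟨r, -, hn, hN⟩ := H68.exists_mem_normalizer_of_lt (h2.to_subgroup ⊤) (lt_top_iff_ne_top.mpr hPlt)
  refine ⟨?_, ?_, ?_, ?_, fun V hV hn' hE h16 => H82.DW.norm_eq h2 hr hι hV hn' (fun v hv => ?_)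
    (fun u hu v hv => ?_) h16⟩
  · ext x
    refine ⟨fun hx => ?_, ?_⟩
    · have h1 : x ∈ ι.range := by
        rcases (hc x).mp hx with rfl | rfl
        exacts [one_mem _, H82.DW.mr _]
      exact ⟨⟨x, h1⟩, Subgroup.mem_center_iff.mpr fun g =>
        Subtype.ext (Subgroup.mem_center_iff.mp hx g), rfl⟩
    · rintro ⟨⟨_, c, rfl⟩, hx, rfl⟩
      have h := fun u => hι (by
        simpa using congrArg Subtype.val (Subgroup.mem_center_iff.mp hx ⟨ι u, H82.DW.mr u⟩).symm :
        ι (c * u) = ι (u * c))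
      rcases H82.DW.cent c (h _) (h _) (h _) with rfl | rfl
      · exact (hc _).mpr (Or.inl (map_one ι))
      · exact (hc _).mpr (Or.inr rfl)
  · have hz : (1 : S) ≠ ι H82.DW.z := fun e =>
      (by decide : (1 : H82.DW.W) ≠ H82.DW.z) (hι (by rw [map_one, e]))
    rw [← Set.ncard_pair hz, ← Nat.card_coe_set_eq]
    exact Nat.card_congr (Equiv.subtypeEquivRight hc)
  · refine Subgroup.relIndex_eq_two_iff_exists_notMem_and.mpr ⟨r, hN, hn, fun s hs => ?_⟩
    by_cases h : s ∈ ι.range
    · exact Or.inr h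
    · exact Or.inl (H82.DW.mul_mem_range h2 hr hι hs h hN hn)
  · obtain ⟨F, hF, hk⟩ := H82.DW.exists_hom h2 hr hι hN hn
    refine ⟨hk ▸ inferInstance, T, ⟨?_⟩⟩
    exact ((QuotientGroup.quotientMulEquivOfEq hk.symm).trans
      (QuotientGroup.quotientKerEquivOfSurjective F hF)).trans f
  · rw [← pow_two]; exact hE.2 v hv
  · have := hE.1
    exact congrArg Subtype.val (mul_comm' (⟨u, hu⟩ : V) ⟨v, hv⟩)

end Cfsg.Agent.S4402
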