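import Mathlib
import Cfsg.Statements.S4403
import Cfsg.Agent.Lib.Comp.FStar
import Cfsg.Agent.Lib.FGS.CyclicAux
import Cfsg.Agent.Lib.Transfer.Control
import Cfsg.Agent.Lib.Transfer.NormalComplement
import Cfsg.Agent.Lib.Core.HallSZ
-- import your own Cfsg.Agent.* helpers here

set_option autoImplicit false
open Cfsg

namespace Cfsg.Agent.S4403

open Subgroup
open scoped commutatorElement Pointwise

variable {K : Type*} [Group K] [Finite K] {p : ℕ} [hp : Fact p.Prime]

theorem cyc_of_isPGroup (P : Sylow p K) (hP : IsCyclic (P : Subgroup K)) {Q : Subgroup K}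
    (hQ : IsPGroup p Q) : IsCyclic Q := by
  obtain ⟨g, hg⟩ := H4.exists_conj_smul_le_sylow P hQ
  have h1 : IsCyclic (MulAut.conj g • Q : Subgroup K) := Subgroup.isCyclic_of_le hg
  rw [H3.conj_smul_eq_map] at h1
  exact (equivMapOfInjective Q _ (MulAut.conj g).injective).isCyclic.2 h1

theorem cyc_sylow (P : Sylow p K) (hP : IsCyclic (P : Subgroup K)) (H : Subgroup K)
    (Q : Sylow p H) : IsCyclic (Q : Subgroup H) :=
  (equivMapOfInjective _ _ H.subtype_injective).isCyclic.2
    (cyc_of_isPGroup P hP (Q.isPGroup'.map H.subtype))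

theorem not_dvd_centralizer (P : Sylow p K) (hP : IsCyclic (P : Subgroup K)) {L : Subgroup K}
    (hL : Group.IsPerfect L) (hd : p ∣ Nat.card L) :
    ¬ p ∣ Nat.card (centralizer (L : Set K)) := by
  intro h
  obtain ⟨z, hz⟩ := exists_prime_orderOf_dvd_card' p h
  obtain ⟨x, hx⟩ := exists_prime_orderOf_dvd_card' p hd
  have hz' : orderOf (z : K) = p := by rw [orderOf_coe, hz]
  have hx' : orderOf (x : K) = p := by rw [orderOf_coe, hx]
  have hpz : ∀ y : K, orderOf y = p → IsPGroup p (zpowers y) := fun y hy =>
    IsPGroup.of_card (n := 1) (by rw [Nat.card_zpowers, hy, pow_one])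
  have h1 : IsPGroup p (zpowers (z : K) ⊔ zpowers (x : K) : Subgroup K) := by
    refine IsPGroup.to_sup_of_normal_left' (hpz _ hz') (hpz _ hx') ?_
    refine zpowers_le.2 (centralizer_le_normalizer _ ?_)
    rintro _ ⟨k, rfl⟩
    exact ((Commute.zpow_right (z.2 x x.2) k).symm).eq
  have h2 : (z : K) ∈ L := by
    have := H80.mem_zpowers_of_orderOf_dvd (cyc_of_isPGroup P hP h1)
      (mem_sup_left (mem_zpowers (z : K))) (mem_sup_right (mem_zpowers (x : K)))
      (by rw [hz', hx'])
    exact zpowers_le.2 x.2 this
  obtain ⟨Q, hQ⟩ := (show IsPGroup p (zpowers (⟨z, h2⟩ : L)) from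
    IsPGroup.of_card (n := 1) (by
      rw [Nat.card_zpowers, pow_one, ← hz', ← orderOf_coe])).exists_le_sylow
  have := cyc_sylow P hP L Q
  have h3 := H4.inf_commutator_inf_center_eq_bot (H := (Q : Subgroup L)) inferInstance
    Q.card_coprime_index
  have h4 : (⟨z, h2⟩ : L) ∈ (Q : Subgroup L) ⊓ _root_.commutator L ⊓ center L :=
    mem_inf.2 ⟨mem_inf.2 ⟨hQ (mem_zpowers _), by rw [hL.commutator_eq_top]; exact mem_top _⟩,
      mem_center_iff.2 fun y => Subtype.ext (z.2 y y.2)⟩
  rw [h3, mem_bot] at h4
  have h5 : (z : K) = 1 := congrArg Subtype.val h4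
  rw [h5, orderOf_one] at hz'
  exact hp.out.one_lt.ne hz'

theorem le_of_perfect (P : Sylow p K) (hP : IsCyclic (P : Subgroup K)) {L : Subgroup K}
    [L.Normal] (hL : ⁅L, L⁆ = L) (hd : p ∣ Nat.card L) : (P : Subgroup K) ≤ L := by
  set H := L ⊔ (P : Subgroup K) with hH
  have h1 : ⁅H, H⁆ = L := by
    refine le_antisymm ?_ (hL.symm.le.trans (commutator_mono le_sup_left le_sup_left))
    have h2 : H.map (QuotientGroup.mk' L) = (P : Subgroup K).map (QuotientGroup.mk' L) := by
      rw [hH, Subgroup.map_sup, QuotientGroup.map_mk'_self, bot_sup_eq]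
    have h3 : ⁅(P : Subgroup K), (P : Subgroup K)⁆ = ⊥ :=
      commutator_self_eq_bot_iff.2 inferInstance
    have h4 : ⁅H, H⁆.map (QuotientGroup.mk' L) = ⊥ := by
      rw [map_commutator, h2, ← map_commutator, h3, Subgroup.map_bot]
    rwa [Subgroup.map_eq_bot_iff, QuotientGroup.ker_mk'] at h4
  have h2 : _root_.commutator H = L.subgroupOf H := by
    rw [← h1, ← map_subtype_commutator, subgroupOf,
      comap_map_eq_self_of_injective H.subtype_injective]
  let Q : Sylow p H := default
  have := cyc_sylow P hP H Q
  rcases Q.not_dvd_card_commutator_or_not_dvd_index_commutator with h | h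
  · rw [h2, H3.card_subgroupOf_of_le le_sup_left] at h
    exact absurd hd h
  · rw [h2] at h
    have h3 : L.relIndex (P : Subgroup K) = 1 := by
      have h4 : L.relIndex (P : Subgroup K) ∣ Nat.card (P : Subgroup K) := relIndex_dvd_card _ _
      obtain ⟨k, hk⟩ := IsPGroup.iff_card.1 P.isPGroup'
      rw [hk] at h4
      refine Nat.Coprime.eq_one_of_dvd (Nat.Coprime.pow_right k ?_) h4
      rw [← relIndex_sup_left]
      exact ((Nat.Prime.coprime_iff_not_dvd hp.out).2 h).symm
    exact relIndex_eq_one.1 h3


/-- Let K be a finite group, p a prime dividing its order with O_{p'}(K) = 1 (no nontrivial normal subgroup of order prime to p), and P a cyclic Sylow p-subgroup of K. Then either P is normal and self-centralizing in K with K/P cyclic of order dividing p − 1 (so K is the semidirect product of P by a group of automorphisms of P of order dividing p − 1), or the generalized Fitting subgroup F*(K) is a non-abelian simple group and p does not divide the index of F*(K) in K. -/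
theorem result {K : Type*} [Group K] [Finite K] (p : ℕ) [Fact p.Prime] (hp : p ∣ Nat.card K) (hO : Cfsg.pPrimeCore p K = ⊥)
    (P : Sylow p K) (hP : IsCyclic ↥(P : Subgroup K)) :
    ((P : Subgroup K).Normal ∧ Subgroup.centralizer ((P : Subgroup K) : Set K) = (P : Subgroup K) ∧
      (∀ (_ : (P : Subgroup K).Normal), IsCyclic (K ⧸ (P : Subgroup K))) ∧ (P : Subgroup K).index ∣ p - 1) ∨
    (IsSimpleGroup ↥(Cfsg.generalizedFittingSubgroup K) ∧ ¬ IsMulCommutative ↥(Cfsg.generalizedFittingSubgroup K) ∧
      ¬ p ∣ (Cfsg.generalizedFittingSubgroup K).index) := by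
  by_cases hE : layer K = ⊥
  · left
    have hC := H23.centralizer_pCore_le_iff.2 ⟨hO, hE⟩
    have hPc : (P : Subgroup K) ≤ centralizer ((P : Subgroup K) : Set K) := le_centralizer _
    have h1 : (P : Subgroup K) = pCore p K :=
      le_antisymm (hPc.trans ((centralizer_le (H1.pCore_le_sylow P)).trans hC))
        (H1.pCore_le_sylow P)
    have hN : (P : Subgroup K).Normal := h1 ▸ inferInstance
    have h2 : centralizer ((P : Subgroup K) : Set K) = P :=
      le_antisymm (by rw [h1]; exact hC) hPc
    have h3 : (MulAut.conjNormal (H := (P : Subgroup K))).ker = P := by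
      refine Eq.trans ?_ h2
      ext g
      simp only [MonoidHom.mem_ker, mem_centralizer_iff]
      constructor
      · intro h y hy
        have h4 := congrArg Subtype.val (DFunLike.congr_fun h ⟨y, hy⟩)
        simp only [MulAut.conjNormal_apply, MulAut.one_apply] at h4
        rw [mul_inv_eq_iff_eq_mul] at h4
        exact h4.symm
      · intro h
        ext y
        simp only [MulAut.conjNormal_apply, MulAut.one_apply]
        rw [← h y y.2, mul_inv_cancel_right]
    obtain ⟨k, hk⟩ := IsPGroup.iff_card.1 P.isPGroup'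
    have hidx : (P : Subgroup K).index ∣ p - 1 := by
      have h4 : (P : Subgroup K).index ∣ Nat.card (MulAut (P : Subgroup K)) := by
        conv_lhs => rw [← h3, index_ker]
        exact card_subgroup_dvd_card _
      have hk0 : 0 < k := by
        rcases Nat.eq_zero_or_pos k with rfl | hk0
        · exfalso
          apply P.not_dvd_index
          rwa [← (P : Subgroup K).card_mul_index, hk, pow_zero, one_mul] at hp
        · exact hk0
      rw [IsCyclic.card_mulAut, hk, Nat.totient_prime_pow Fact.out hk0] at h4
      exact (((Nat.Prime.coprime_iff_not_dvd Fact.out).2 P.not_dvd_index).symm.pow_right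
        _).dvd_of_dvd_mul_left h4
    refine ⟨hN, h2, fun _ => ?_, hidx⟩
    by_cases hp2 : p = 2
    · subst hp2
      have h5 : Nat.card (K ⧸ (P : Subgroup K)) = 1 := Nat.dvd_one.1 hidx
      have := (Nat.card_eq_one_iff_unique.1 h5).1
      infer_instance
    · have h5 : IsCyclic (MulAut (P : Subgroup K)) := by
        rw [(IsCyclic.mulAutMulEquiv (P : Subgroup K)).isCyclic, hk]
        exact ZMod.isCyclic_units_of_prime_pow p Fact.out hp2 k
      exact isCyclic_of_injective (QuotientGroup.lift _ (MulAut.conjNormal (H := (P : Subgroup K)))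
        h3.ge) ((QuotientGroup.injective_lift_iff _ _ _).2 h3.symm)
  · right
    have hd : ∀ L : Subgroup K, IsComponent L → p ∣ Nat.card L := by
      intro L hL
      by_contra h
      apply H23.IsComponent.ne_bot hL
      rw [eq_bot_iff, ← hO]
      exact H1.le_pPrimeCore_of_isSubnormal hL.1
        ((Nat.Prime.coprime_iff_not_dvd Fact.out).2 h).symm
    obtain ⟨L, hL⟩ : ∃ L : Subgroup K, IsComponent L := by
      by_contra h
      push Not at h
      exact hE (H23.layer_eq_bot_iff.2 h)
    have hC := not_dvd_centralizer P hP hL.2.1 (hd L hL)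
    have hF : fittingSubgroup K = ⊥ := by
      rw [H1.fitting_eq_pCore_of_pPrimeCore_eq_bot hO]
      have h1 : pCore p K ≤ centralizer (L : Set K) := le_centralizer_iff.1
        ((H23.IsComponent.le_layer hL).trans (H23.layer_le_centralizer_pCore p))
      have := H4.inf_eq_bot_of_not_dvd_card hC (H1.isPGroup_pCore (G := K))
      rwa [inf_eq_right.2 h1] at this
    have hLE : layer K = L := by
      refine le_antisymm (H23.layer_le_iff.2 fun M hM => ?_) (H23.IsComponent.le_layer hL)
      rcases H23.IsComponent.eq_or_commutator_eq_bot hM hL with h | h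
      · exact h.le
      · exact absurd ((hd M hM).trans
          (card_dvd_of_le (commutator_eq_bot_iff_le_centralizer.1 h))) hC
    have hFs : generalizedFittingSubgroup K = L := by
      rw [H23.fStar_def, hF, hLE, sup_bot_eq]
    have hLn : L.Normal := hLE ▸ inferInstance
    rw [hFs]
    exact ⟨H23.IsComponent.isSimpleGroup_of_fitting_eq_bot hL hF,
      H23.IsQuasisimple.not_isMulCommutative hL.2, fun h => P.not_dvd_index (h.trans
        (index_dvd_of_le (le_of_perfect P hP (H23.IsComponent.commutator_self hL) (hd L hL))))⟩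

end Cfsg.Agent.S4403
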