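import Mathlib
import Cfsg.Agent.Base
import Cfsg.Agent.Lib.TI2.Basic
import Cfsg.Agent.Lib.PGroup.Extra
import Cfsg.Agent.Lib.Comp.FStar
import Cfsg.Agent.Lib.Invol.BaerSuzuki
import Cfsg.Agent.Lib.Transfer.Control
import Cfsg.Agent.Lib.Thompson.Basic
import Cfsg.Agent.S1784
import Cfsg.Statements.S4405

set_option autoImplicit false
open Cfsg

namespace Cfsg.Agent.S4405

open Subgroup H5 Cfsg.Agent.S1784
open scoped commutatorElement

/-- Let G be a finite group of order 320 = 64·5 whose largest normal 2-subgroup H = O₂(G) equals the Fitting subgroup F(G) and is extraspecial of order 32 containing no elementary abelian subgroup of order 8 (so H is the central product of a quaternion group and a dihedral group of order 8). If T is an involution of G outside H whose centralizer in H contains an elementary abelian subgroup of order 4, then C_H(T) itself is elementary abelian of order 4. -/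
theorem result {G : Type*} [Group G] [Finite G]
    (hG : Nat.card G = 320) (hHF : Cfsg.pCore 2 G = Cfsg.fittingSubgroup G)
    (hex : Cfsg.IsExtraspecial 2 ↥(Cfsg.pCore 2 G)) (h32 : Nat.card ↥(Cfsg.pCore 2 G) = 32)
    (hminus : ∀ A : Subgroup G, A ≤ Cfsg.pCore 2 G → Cfsg.IsElementaryAbelian 2 A → Nat.card ↥A ≤ 4)
    (T : G) (hT : orderOf T = 2) (hTH : T ∉ Cfsg.pCore 2 G)
    (V : Subgroup G) (hV : V ≤ Cfsg.pCore 2 G ⊓ Subgroup.centralizer ({T} : Set G)) (hV4 : Nat.card ↥V = 4) (hVe : Cfsg.IsElementaryAbelian 2 V) :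
    Nat.card ↥(Cfsg.pCore 2 G ⊓ Subgroup.centralizer ({T} : Set G)) = 4 ∧
      Cfsg.IsElementaryAbelian 2 (Cfsg.pCore 2 G ⊓ Subgroup.centralizer ({T} : Set G)) := by
  set H := Cfsg.pCore 2 G with hH
  haveI hHn : H.Normal := inferInstance
  obtain ⟨z, h, -⟩ := exists_wes hex
  haveI hZn : (zpowers z).Normal := by rw [← h.cent]; infer_instance
  have hsol : Group.IsSolvable G := by
    have h10 : Nat.card (G ⧸ H) = 10 := by
      have := card_eq_card_quotient_mul_card_subgroup H
      rw [hG, h32] at this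
      omega
    have : IsZGroup (G ⧸ H) := IsZGroup.of_squarefree (by
      rw [h10]; exact (Nat.squarefree_mul (by norm_num : Nat.Coprime 2 5)).2
        ⟨Nat.prime_two.prime.squarefree, Nat.prime_five.prime.squarefree⟩)
    have h2 : Group.IsSolvable H := by
      have := (H1.isPGroup_pCore (p := 2) (G := G)).isNilpotent
      infer_instance
    exact Group.isSolvable_of_ker_le_range H.subtype (QuotientGroup.mk' H) (by simp)
  have hC : centralizer (H : Set G) ≤ H := by
    rw [hHF]; exact H23.centralizer_fitting_le_iff.2 H23.layer_eq_bot_of_isSolvable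
  let π := QuotientGroup.mk' (zpowers z)
  let B := H.map π
  have hπ : ∀ x, π x = 1 ↔ x ∈ zpowers z := fun x => QuotientGroup.eq_one_iff x
  have cardc : ∀ K : Subgroup (G ⧸ zpowers z), Nat.card (K.comap π) = Nat.card K * 2 := by
    intro K
    rw [H1.card_comap_of_surjective (QuotientGroup.mk'_surjective _), QuotientGroup.ker_mk',
      h.card_zpowers]
  have hB16 : Nat.card B = 16 := by
    have := cardc B
    rw [comap_map_eq_self (by rw [QuotientGroup.ker_mk']; exact h.zpowers_le), h32] at this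
    omega
  have hBc : ∀ a ∈ B, ∀ b ∈ B, Commute a b := by
    rintro _ ⟨a, ha, rfl⟩ _ ⟨b, hb, rfl⟩
    rw [← commutatorElement_eq_one_iff_commute, ← map_commutatorElement, hπ]
    exact h.comm a ha b hb
  haveI hBn : B.Normal := hHn.map π (QuotientGroup.mk'_surjective _)
  have hK : ∀ g, B ≤ centralizer {π g} → g ∈ H := by
    intro g hg
    refine H79.TI.mem_of_frattini hC fun q hq => ?_
    have h1 : ⁅g, q⁆ ∈ zpowers z := by
      rw [← hπ, map_commutatorElement, commutatorElement_eq_one_iff_commute]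
      exact (mem_centralizer_singleton_iff.1 (hg ⟨q, hq, rfl⟩)).symm
    rw [hex.1.2.1]
    exact ⟨⟨_, h.zpowers_le h1⟩, mem_center_iff.2 fun y => Subtype.ext (h.commute h1 y.2), rfl⟩
  set A := B ⊓ centralizer {π T} with hA
  have hA4 : Nat.card A ≤ 4 := by
    by_contra hlt
    have hA8 : 8 ≤ Nat.card A := by
      have : Nat.card A ∣ 2 ^ 4 := by
        have := card_dvd_of_le (inf_le_left : A ≤ B); rwa [hB16] at this
      obtain ⟨k, hk, e⟩ := (Nat.dvd_prime_pow Nat.prime_two).1 this
      rw [e] at hlt ⊢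
      interval_cases k <;> simp_all
    have : ¬ ∀ g : G, IsPGroup 2 (closure ({T, g * T * g⁻¹} : Set G)) := fun hh =>
      hTH (H1.le_pCore (H9.isPGroup_normalClosure_of_forall_conj hh) (subset_normalClosure rfl))
    push Not at this
    obtain ⟨g, hg⟩ := this
    have h5 : 5 ∣ Nat.card (closure ({T, g * T * g⁻¹} : Set G)) := by
      by_contra h5
      apply hg
      have h1 : Nat.card (closure ({T, g * T * g⁻¹} : Set G)) ∣ 2 ^ 6 * 5 := by
        have := card_subgroup_dvd_card (closure ({T, g * T * g⁻¹} : Set G)); rwa [hG] at this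
      exact IsPGroup.of_card_dvd_pow (((Nat.Prime.coprime_iff_not_dvd Nat.prime_five).2 h5).symm.dvd_of_dvd_mul_right h1)
    haveI : Fact (Nat.Prime 5) := ⟨Nat.prime_five⟩
    obtain ⟨d, hd⟩ := exists_prime_orderOf_dvd_card' 5 h5
    set A' := B ⊓ centralizer {π (g * T * g⁻¹)} with hA'
    have hAA : Nat.card A ≤ Nat.card A' := by
      rw [← H79.TI.card_cj (π g) A]
      refine card_le_of_le ?_
      rintro _ ⟨x, hx, rfl⟩
      refine ⟨hBn.conj_mem x hx.1 _, mem_centralizer_singleton_iff.2 ?_⟩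
      have := Commute.map (mem_centralizer_singleton_iff.1 hx.2) (MulAut.conj (π g))
      simpa using this.eq
    have h1 := H24.card_sup_mul_card_inf (A := A) (B := A') (fun a ha => centralizer_le_normalizer _
      fun b hb => (hBc b hb.1 a ha.1).eq)
    have h2 : Nat.card (A ⊔ A' : Subgroup _) ≤ 16 :=
      hB16 ▸ card_le_of_le (sup_le inf_le_left inf_le_left)
    have h3 : 4 ≤ Nat.card (A ⊓ A' : Subgroup _) := by nlinarith
    have h4 : A ⊓ A' ≤ B ⊓ centralizer {π d} := by
      rintro x ⟨hx, hx'⟩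
      refine ⟨hx.1, mem_centralizer_singleton_iff.2 ?_⟩
      have : closure ({T, g * T * g⁻¹} : Set G) ≤ (centralizer {x}).comap π := by
        rw [closure_le]
        rintro y (rfl | rfl)
        · exact mem_centralizer_singleton_iff.2 (mem_centralizer_singleton_iff.1 hx.2).symm
        · exact mem_centralizer_singleton_iff.2 (mem_centralizer_singleton_iff.1 hx'.2).symm
      exact (mem_centralizer_singleton_iff.1 (this d.2)).symm
    have hd5 : (d : G) ^ 5 = 1 := by
      have := hd ▸ pow_orderOf_eq_one d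
      exact congrArg Subtype.val this
    have h6 := H4.card_modEq_card_inf_centralizer (Q := B) (q := 5) (g := π d)
      (le_normalizer_of_normal (mem_top _)) (k := 1) (by rw [pow_one, ← map_pow, hd5, map_one])
    have h7 := h3.trans (card_le_of_le h4)
    have h8 : Nat.card (B ⊓ centralizer {π d} : Subgroup _) ∣ 2 ^ 4 := by
      have := card_dvd_of_le (inf_le_left : B ⊓ centralizer {π d} ≤ B); rwa [hB16] at this
    obtain ⟨k, hk, e⟩ := (Nat.dvd_prime_pow Nat.prime_two).1 h8
    have h9 : Nat.card (B ⊓ centralizer {π d} : Subgroup _) = 16 := by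
      rw [hB16, e] at h6
      rw [e] at h7 ⊢
      interval_cases k <;> simp_all [Nat.ModEq]
    have h10 : B ⊓ centralizer {π d} = B := eq_of_le_of_card_ge inf_le_left (by omega)
    have h11 := hK d (h10 ▸ inf_le_right)
    have h12 := orderOf_dvd_natCard (⟨d, h11⟩ : H)
    rw [← orderOf_coe, orderOf_coe d, hd, h32] at h12
    omega
  set E := H ⊓ centralizer {T} with hE
  have hEA : E ≤ A.comap π := fun x hx => ⟨⟨x, hx.1, rfl⟩, mem_centralizer_singleton_iff.2 (by
    rw [← map_mul, ← map_mul, mem_centralizer_singleton_iff.1 hx.2])⟩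
  by_cases h4 : Nat.card E ≤ 4
  · have := eq_of_le_of_card_ge hV (by omega)
    exact this ▸ ⟨hV4, hVe⟩
  exfalso
  have hE8 : 8 ≤ Nat.card E := by
    have : Nat.card E ∣ 2 ^ 5 := by
      have := card_dvd_of_le (inf_le_left : E ≤ H); rwa [h32] at this
    obtain ⟨k, hk, e⟩ := (Nat.dvd_prime_pow Nat.prime_two).1 this
    rw [e] at h4 ⊢
    interval_cases k <;> simp_all
  have hEe : E = A.comap π := eq_of_le_of_card_ge hEA (by rw [cardc]; omega)
  have hT2 : T * T = 1 := by rw [← pow_two, ← hT, pow_orderOf_eq_one]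
  have hinv : ∀ q, T * ⁅T, q⁆ * T⁻¹ = ⁅T, q⁆⁻¹ := fun q => by
    rw [commutatorElement_def, ← mul_assoc, ← mul_assoc, ← mul_assoc, hT2, one_mul]
    simp only [mul_inv_rev, inv_inv, inv_eq_of_mul_eq_one_right hT2, mul_assoc]
  have hmem : ∀ x ∈ B, ⁅π T, x⁆ ∈ B := fun x hx => mul_mem (hBn.conj_mem x hx _) (inv_mem hx)
  let φ : B →* G ⧸ zpowers z := MonoidHom.mk' (fun x => ⁅π T, (x : G ⧸ zpowers z)⁆) (fun a b =>
    commutator_mul_right_of_commute (hBc _ a.2 _ (hmem _ b.2)))
  have hker : φ.ker = A.subgroupOf B := by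
    ext x
    rw [MonoidHom.mem_ker, mem_subgroupOf, hA, mem_inf, mem_centralizer_singleton_iff]
    simp only [x.2, true_and]
    exact commutatorElement_eq_one_iff_commute.trans ⟨fun h => h.symm.eq, fun h => Commute.symm h⟩
  have hrange : φ.range ≤ A := by
    rintro _ ⟨⟨_, q, hq, rfl⟩, rfl⟩
    refine ⟨hmem _ ⟨q, hq, rfl⟩, mem_centralizer_singleton_iff.2 ?_⟩
    show ⁅π T, π q⁆ * π T = π T * ⁅π T, π q⁆
    have h1 : ⁅T, q⁆ ∈ H := mul_mem (hHn.conj_mem q hq _) (inv_mem hq)
    have h2 : (π ⁅T, q⁆)⁻¹ = π ⁅T, q⁆ := by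
      rw [inv_eq_iff_mul_eq_one, ← map_mul, ← pow_two, hπ]; exact h.pow_mem h1
    have h3 := congrArg π (hinv q)
    rw [map_inv, h2, map_mul, map_mul, map_inv, mul_inv_eq_iff_eq_mul, map_commutatorElement] at h3
    exact h3.symm
  have hr : φ.range = A := by
    refine eq_of_le_of_card_ge hrange ?_
    have h1 := card_mul_index φ.ker
    rw [index_ker, hker, Nat.card_congr (subgroupOfEquivOfLe inf_le_left).toEquiv, hB16] at h1
    have h2 : Nat.card φ.range = Nat.card (Set.range φ) := rfl
    nlinarith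
  have hsq : ∀ x ∈ E, x ^ 2 = 1 := by
    intro x hx
    have h1 : π x ∈ φ.range := hr ▸ hEA hx
    obtain ⟨⟨_, q, hq, rfl⟩, e⟩ := h1
    have e1 : π ⁅T, q⁆ = π x := by rw [map_commutatorElement]; exact e
    have h2 : ⁅T, q⁆ ∈ E := by rw [hEe, mem_comap, e1]; exact hEA hx
    have h3 : ⁅T, q⁆ ^ 2 = 1 := by
      have := hinv q
      rw [← mem_centralizer_singleton_iff.1 h2.2, mul_inv_cancel_right] at this
      rw [pow_two]; exact mul_eq_one_iff_eq_inv.2 this
    have h5 : ⁅T, q⁆⁻¹ * x ∈ zpowers z := by rw [← hπ, map_mul, map_inv, e1, inv_mul_cancel]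
    have e2 : x = ⁅T, q⁆ * (⁅T, q⁆⁻¹ * x) := by group
    rw [e2, (h.commute h5 h2.1).mul_pow, h3, h.pow_eq_one h5, one_mul]
  have := hminus E inf_le_left ⟨⟨⟨fun a b => Subtype.ext ?_⟩⟩, hsq⟩
  · omega
  · have h1 := hsq _ a.2
    have h2 := hsq _ b.2
    have h3 := hsq _ (mul_mem a.2 b.2)
    rw [pow_two] at h1 h2 h3
    have := inv_eq_of_mul_eq_one_right h3
    rw [mul_inv_rev, inv_eq_of_mul_eq_one_right h1, inv_eq_of_mul_eq_one_right h2] at this
    exact this.symm

end Cfsg.Agent.S4405
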