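import Cfsg.Statements.S4406
import Mathlib

set_option autoImplicit false
open Cfsg

namespace Cfsg.Agent.S4406

/-- The alternating group of degree four. -/
abbrev A4 := ↥(alternatingGroup (Fin 4))

set_option synthInstance.maxSize 1000 in
theorem key : ∀ a : Equiv.Perm (Fin 4), a ^ 3 = 1 ∧ a ≠ 1 → ∀ b : Equiv.Perm (Fin 4), b ^ 3 = 1 ∧ b ≠ 1 →
    ∀ x : Equiv.Perm (Fin 4), Equiv.Perm.sign x = 1 ∧ x * x = 1 ∧ x ≠ 1 →
    ∀ x' : Equiv.Perm (Fin 4), Equiv.Perm.sign x' = 1 ∧ x' * x' = 1 ∧ x' ≠ 1 → x * x' ≠ 1 →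
    ∀ y : Equiv.Perm (Fin 4), Equiv.Perm.sign y = 1 ∧ y * y = 1 ∧ y ≠ 1 →
    ∀ y' : Equiv.Perm (Fin 4), Equiv.Perm.sign y' = 1 ∧ y' * y' = 1 ∧ y' ≠ 1 → y * y' ≠ 1 →
    ((a * x * a⁻¹ = x' ∧ b * y * b⁻¹ = y') ∧ (a * x' * a⁻¹ = x * x' ∧ b * y' * b⁻¹ = y * y')) ∨
    ((a * x * a⁻¹ = x * x' ∧ b * y * b⁻¹ = y * y') ∧ (a * x' * a⁻¹ = x ∧ b * y' * b⁻¹ = y)) ∨
    ((a * x * a⁻¹ = x' ∧ b⁻¹ * y * b⁻¹⁻¹ = y') ∧ (a * x' * a⁻¹ = x * x' ∧ b⁻¹ * y' * b⁻¹⁻¹ = y * y')) ∨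
    ((a * x * a⁻¹ = x * x' ∧ b⁻¹ * y * b⁻¹⁻¹ = y * y') ∧ (a * x' * a⁻¹ = x ∧ b⁻¹ * y' * b⁻¹⁻¹ = y)) := by
  have k : ∀ a : Equiv.Perm (Fin 4), a ^ 3 = 1 ∧ a ≠ 1 →
      ∀ x : Equiv.Perm (Fin 4), Equiv.Perm.sign x = 1 ∧ x * x = 1 ∧ x ≠ 1 →
      ∀ x' : Equiv.Perm (Fin 4), Equiv.Perm.sign x' = 1 ∧ x' * x' = 1 ∧ x' ≠ 1 → x * x' ≠ 1 →
      ((a * x * a⁻¹ = x' ∧ a * x' * a⁻¹ = x * x') ∧
        (a⁻¹ * x * a⁻¹⁻¹ = x * x' ∧ a⁻¹ * x' * a⁻¹⁻¹ = x)) ∨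
      ((a * x * a⁻¹ = x * x' ∧ a * x' * a⁻¹ = x) ∧
        (a⁻¹ * x * a⁻¹⁻¹ = x' ∧ a⁻¹ * x' * a⁻¹⁻¹ = x * x')) := by decide +kernel
  intro a ha b hb x hx x' hx' hxx y hy y' hy' hyy
  rcases k a ha x hx x' hx' hxx with h | h <;> rcases k b hb y hy y' hy' hyy with h' | h'
  · exact Or.inl ⟨⟨h.1.1, h'.1.1⟩, h.1.2, h'.1.2⟩
  · exact Or.inr (Or.inr (Or.inl ⟨⟨h.1.1, h'.2.1⟩, h.1.2, h'.2.2⟩))
  · exact Or.inr (Or.inr (Or.inr ⟨⟨h.1.1, h'.2.1⟩, h.1.2, h'.2.2⟩))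
  · exact Or.inr (Or.inl ⟨⟨h.1.1, h'.1.1⟩, h.1.2, h'.1.2⟩)

theorem card_A4 : Nat.card A4 = 12 := by
  have := two_mul_nat_card_alternatingGroup (α := Fin 4)
  rw [Nat.card_perm, Nat.card_fin, show Nat.factorial 4 = 24 from rfl] at this
  exact Nat.eq_of_mul_eq_mul_left two_pos this

theorem exists_three (P : Sylow 3 A4) : ∃ a ∈ (P : Subgroup A4), orderOf a = 3 := by
  haveI : Fact (Nat.Prime 3) := ⟨Nat.prime_three⟩
  obtain ⟨a, ha⟩ := exists_prime_orderOf_dvd_card' (G := P) 3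
    (P.dvd_card_of_dvd_card (by rw [card_A4]; norm_num))
  exact ⟨a, a.2, by rw [Subgroup.orderOf_coe, ha]⟩

theorem sq_of_two (x : A4) (k : ℕ) (h : x ^ 2 ^ k = 1) : x * x = 1 := by
  have k1 : ∀ x : Equiv.Perm (Fin 4), Equiv.Perm.sign x = 1 → x * x = 1 ∨ x ^ 3 = 1 := by
    decide +kernel
  rcases k1 x x.2 with h1 | h1
  · exact Subtype.ext h1
  · have h3 : x ^ 3 = 1 := Subtype.ext h1
    have := Nat.dvd_gcd (orderOf_dvd_of_pow_eq_one h) (orderOf_dvd_of_pow_eq_one h3)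
    rw [(Nat.Coprime.pow_left k (by norm_num : Nat.Coprime 2 3)).gcd_eq_one, Nat.dvd_one,
      orderOf_eq_one_iff] at this
    simp [this]

/-- In the direct product P = A₄ × A₄, let X be the Sylow 2-subgroup, X₁ and X₂ its intersections with the two direct factors, Q a Sylow 3-subgroup and Q₁, Q₂ its intersections with the two factors. Then every subgroup B of X of order 4 either meets X₁ or X₂ nontrivially, or is normalized by one of the two subgroups of Q of order 3 other than Q₁ and Q₂. -/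
theorem result
    (X : Sylow 2 (↥(alternatingGroup (Fin 4)) × ↥(alternatingGroup (Fin 4))))
    (Q : Sylow 3 (↥(alternatingGroup (Fin 4)) × ↥(alternatingGroup (Fin 4))))
    (B : Subgroup (↥(alternatingGroup (Fin 4)) × ↥(alternatingGroup (Fin 4)))) (hBX : B ≤ (X : Subgroup _)) (hB4 : Nat.card ↥B = 4) :
    B ⊓ ((X : Subgroup _) ⊓ Subgroup.prod ⊤ ⊥) ≠ ⊥ ∨ B ⊓ ((X : Subgroup _) ⊓ Subgroup.prod ⊥ ⊤) ≠ ⊥ ∨
      ∃ R : Subgroup (↥(alternatingGroup (Fin 4)) × ↥(alternatingGroup (Fin 4))), R ≤ (Q : Subgroup _) ∧ Nat.card ↥R = 3 ∧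
        R ≠ (Q : Subgroup _) ⊓ Subgroup.prod ⊤ ⊥ ∧ R ≠ (Q : Subgroup _) ⊓ Subgroup.prod ⊥ ⊤ ∧ R ≤ Subgroup.normalizer (B : Set _) := by
  classical
  haveI : Fact (Nat.Prime 3) := ⟨Nat.prime_three⟩
  by_contra hcon
  push Not at hcon
  obtain ⟨h1, h2, h3⟩ := hcon
  -- the Sylow 3-subgroup is a product
  obtain ⟨P₁, hP₁⟩ := (Q.2.map (MonoidHom.fst A4 A4)).exists_le_sylow
  obtain ⟨P₂, hP₂⟩ := (Q.2.map (MonoidHom.snd A4 A4)).exists_le_sylow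
  have hprod : IsPGroup 3 ((P₁ : Subgroup A4).prod (P₂ : Subgroup A4)) := by
    intro g
    obtain ⟨k, hk⟩ := P₁.2 ⟨g.1.1, g.2.1⟩
    obtain ⟨l, hl⟩ := P₂.2 ⟨g.1.2, g.2.2⟩
    refine ⟨k + l, Subtype.ext (Prod.ext ?_ ?_)⟩
    · have := congrArg Subtype.val hk
      simp only [SubgroupClass.coe_pow, Subgroup.coe_one] at this
      simp [pow_add, pow_mul, this]
    · have := congrArg Subtype.val hl
      simp only [SubgroupClass.coe_pow, Subgroup.coe_one] at this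
      simp [pow_add, mul_comm (3 ^ k), pow_mul, this]
  have hQ : (P₁ : Subgroup A4).prod (P₂ : Subgroup A4) = Q :=
    Q.3 hprod fun g hg => ⟨hP₁ ⟨g, hg, rfl⟩, hP₂ ⟨g, hg, rfl⟩⟩
  obtain ⟨a, ha, a3⟩ := exists_three P₁
  obtain ⟨b, hb, b3⟩ := exists_three P₂
  have hsq : ∀ g ∈ B, g.1 * g.1 = 1 ∧ g.2 * g.2 = 1 := by
    intro g hg
    obtain ⟨k, hk⟩ := X.2 ⟨g, hBX hg⟩
    have := congrArg Subtype.val hk
    simp only [SubgroupClass.coe_pow, Subgroup.coe_one] at this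
    exact ⟨sq_of_two _ k (congrArg Prod.fst this), sq_of_two _ k (congrArg Prod.snd this)⟩
  have n1 : ∀ g ∈ B, g.1 = 1 → g = 1 := fun g hg h => by
    have : g ∈ B ⊓ ((X : Subgroup _) ⊓ Subgroup.prod ⊥ ⊤) := ⟨hg, hBX hg, h, trivial⟩
    rwa [h2] at this
  have n2 : ∀ g ∈ B, g.2 = 1 → g = 1 := fun g hg h => by
    have : g ∈ B ⊓ ((X : Subgroup _) ⊓ Subgroup.prod ⊤ ⊥) := ⟨hg, hBX hg, trivial, h⟩
    rwa [h1] at this
  have hB : (B : Set (A4 × A4)).ncard = 4 := hB4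
  obtain ⟨u, hu, hu1⟩ : ∃ u ∈ B, u ≠ 1 := by
    by_contra hh
    push Not at hh
    have := Set.ncard_le_ncard (show (B : Set (A4 × A4)) ⊆ {1} from hh)
    simp [hB] at this
  obtain ⟨v, hv, hv1, hvu⟩ : ∃ v ∈ B, v ≠ 1 ∧ v ≠ u := by
    by_contra hh
    push Not at hh
    have := Set.ncard_le_ncard (show (B : Set (A4 × A4)) ⊆ {1, u} from fun x hx => by
      by_cases h : x = 1
      · exact Or.inl h
      · exact Or.inr (hh x hx h))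
    have h2 := Set.ncard_pair hu1.symm
    omega
  have huu : u * u = 1 := Prod.ext (hsq u hu).1 (hsq u hu).2
  have huv1 : u * v ≠ 1 := fun h => hvu (by rw [← mul_left_cancel_iff (a := u), h, huu])
  have hall : ∀ g ∈ B, g = 1 ∨ g = u ∨ g = v ∨ g = u * v := by
    have hs : ({1, u, v, u * v} : Set (A4 × A4)) = B := by
      refine Set.eq_of_subset_of_ncard_le ?_ ?_ (Set.toFinite _)
      · rintro x (rfl | rfl | rfl | rfl)
        exacts [one_mem _, hu, hv, mul_mem hu hv]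
      · rw [hB, Set.ncard_insert_of_notMem, Set.ncard_insert_of_notMem, Set.ncard_pair]
        · simpa using hu1
        · simp [hvu.symm, hv1]
        · simp [hu1.symm, hv1.symm, huv1.symm]
    intro g hg
    have : g ∈ ({1, u, v, u * v} : Set (A4 × A4)) := hs ▸ hg
    exact this
  have fin : ∀ c : A4, c ∈ (P₂ : Subgroup A4) → orderOf c = 3 →
      (a, c) * u * (a, c)⁻¹ ∈ B → (a, c) * v * (a, c)⁻¹ ∈ B → False := by
    intro c hc c3 k1 k2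
    have ho : orderOf (a, c) = 3 := by rw [Prod.orderOf_mk, a3, c3]; rfl
    refine h3 (Subgroup.zpowers (a, c)) (by rw [Subgroup.zpowers_le, ← hQ]; exact ⟨ha, hc⟩)
      (by rw [Nat.card_zpowers, ho]) (fun h => ?_) (fun h => ?_) ?_
    · have : (a, c) ∈ (Q : Subgroup _) ⊓ Subgroup.prod ⊤ ⊥ := h ▸ Subgroup.mem_zpowers _
      have h4 : c = 1 := this.2.2
      simp [h4] at c3
    · have : (a, c) ∈ (Q : Subgroup _) ⊓ Subgroup.prod ⊥ ⊤ := h ▸ Subgroup.mem_zpowers _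
      have h4 : a = 1 := this.2.1
      simp [h4] at a3
    · rw [Subgroup.zpowers_le]
      refine Subgroup.mem_normalizer_fintype fun g hg => ?_
      rcases hall g hg with rfl | rfl | rfl | rfl
      · rw [mul_one, mul_inv_cancel]; exact one_mem _
      · exact k1
      · exact k2
      · have := mul_mem k1 k2
        rwa [show (a, c) * u * (a, c)⁻¹ * ((a, c) * v * (a, c)⁻¹) = (a, c) * (u * v) * (a, c)⁻¹ by group]
          at this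
  have o3 : ∀ c : A4, orderOf c = 3 → (c : Equiv.Perm (Fin 4)) ^ 3 = 1 ∧ (c : Equiv.Perm (Fin 4)) ≠ 1 :=
    fun c hc => ⟨by rw [← hc, ← SubgroupClass.coe_pow, pow_orderOf_eq_one]; rfl, fun h => by
      rw [show c = 1 from Subtype.ext h] at hc; simp at hc⟩
  have i3 : ∀ x : A4, x * x = 1 → x ≠ 1 → Equiv.Perm.sign (x : Equiv.Perm (Fin 4)) = 1 ∧
      (x : Equiv.Perm (Fin 4)) * x = 1 ∧ (x : Equiv.Perm (Fin 4)) ≠ 1 :=
    fun x hx h1 => ⟨x.2, congrArg Subtype.val hx, fun h => h1 (Subtype.ext h)⟩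
  have hk := key a (o3 a a3) b (o3 b b3) u.1 (i3 _ (hsq u hu).1 fun h => hu1 (n1 u hu h))
    v.1 (i3 _ (hsq v hv).1 fun h => hv1 (n1 v hv h))
    (fun h => huv1 (n1 _ (mul_mem hu hv) (Subtype.ext h)))
    u.2 (i3 _ (hsq u hu).2 fun h => hu1 (n2 u hu h))
    v.2 (i3 _ (hsq v hv).2 fun h => hv1 (n2 v hv h))
    (fun h => huv1 (n2 _ (mul_mem hu hv) (Subtype.ext h)))
  have cv : ∀ (c : A4) (w w' : A4 × A4), w' ∈ B →
      ((a : Equiv.Perm (Fin 4)) * w.1 * (a : Equiv.Perm (Fin 4))⁻¹ = w'.1 ∧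
        (c : Equiv.Perm (Fin 4)) * w.2 * (c : Equiv.Perm (Fin 4))⁻¹ = w'.2) →
      (a, c) * w * (a, c)⁻¹ ∈ B := fun c w w' hw h => by
    rw [show (a, c) * w * (a, c)⁻¹ = w' from Prod.ext (Subtype.ext h.1) (Subtype.ext h.2)]
    exact hw
  have hb' : orderOf b⁻¹ = 3 := by rw [orderOf_inv, b3]
  rcases hk with ⟨k1, k2⟩ | ⟨k1, k2⟩ | ⟨k1, k2⟩ | ⟨k1, k2⟩
  · exact fin b hb b3 (cv b u v hv k1) (cv b v (u * v) (mul_mem hu hv) k2)
  · exact fin b hb b3 (cv b u (u * v) (mul_mem hu hv) k1) (cv b v u hu k2)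
  · exact fin b⁻¹ (inv_mem hb) hb' (cv b⁻¹ u v hv k1) (cv b⁻¹ v (u * v) (mul_mem hu hv) k2)
  · exact fin b⁻¹ (inv_mem hb) hb' (cv b⁻¹ u (u * v) (mul_mem hu hv) k1) (cv b⁻¹ v u hu k2)

end Cfsg.Agent.S4406
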