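import Mathlib
import Cfsg.Statements.S4410
import Cfsg.Agent.Lib.Core.Fitting
-- import your own Cfsg.Agent.* helpers here

set_option autoImplicit false
open Cfsg

namespace Cfsg.Agent.S4410

open Subgroup

section
variable {V : Type*} [AddCommGroup V] [Module (ZMod 2) V]

/-- The commutator space of a linear automorphism. -/
def R (g : V ≃ₗ[ZMod 2] V) : Submodule (ZMod 2) V :=
  LinearMap.range ((g : V →ₗ[ZMod 2] V) - LinearMap.id)

theorem mem_R (g : V ≃ₗ[ZMod 2] V) (v : V) : g v - v ∈ R g := ⟨v, rfl⟩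

theorem R_le {g : V ≃ₗ[ZMod 2] V} {W : Submodule (ZMod 2) V} (h : ∀ v, g v - v ∈ W) : R g ≤ W := by
  rintro _ ⟨v, rfl⟩
  exact h v

theorem R_mul (g h : V ≃ₗ[ZMod 2] V) : R (g * h) ≤ R g ⊔ R h := R_le fun v => by
  have : (g * h) v - v = (g (h v) - h v) + (h v - v) := by simp
  rw [this]
  exact Submodule.add_mem_sup (mem_R _ _) (mem_R _ _)

theorem R_inv (g : V ≃ₗ[ZMod 2] V) : R g⁻¹ ≤ R g := R_le fun v => by
  have : g⁻¹ v - v = -(g (g⁻¹ v) - g⁻¹ v) := by simp
  rw [this]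
  exact Submodule.neg_mem _ (mem_R _ _)

theorem card_R_conj [Finite V] (x t : V ≃ₗ[ZMod 2] V) :
    Nat.card (R (x * t * x⁻¹)) ≤ Nat.card (R t) := by
  refine Nat.card_le_card_of_injective (fun w => ⟨x⁻¹ w, ?_⟩) fun a b h =>
    Subtype.ext ((x⁻¹).injective (congrArg Subtype.val h))
  obtain ⟨_, v, rfl⟩ := w
  exact ⟨x⁻¹ v, by simp⟩

theorem card_sup_le [Finite V] (A B : Submodule (ZMod 2) V) :
    Nat.card (A ⊔ B : Submodule (ZMod 2) V) ≤ Nat.card A * Nat.card B := by
  rw [← Nat.card_prod]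
  refine Nat.card_le_card_of_surjective
    (fun p : A × B => ⟨p.1 + p.2, Submodule.add_mem_sup p.1.2 p.2.2⟩) ?_
  rintro ⟨w, hw⟩
  obtain ⟨a, ha, b, hb, rfl⟩ := Submodule.mem_sup.1 hw
  exact ⟨(⟨a, ha⟩, ⟨b, hb⟩), rfl⟩

theorem add_self (v : V) : v + v = 0 := by
  rw [← two_smul (ZMod 2), show (2 : ZMod 2) = 0 from rfl, zero_smul]

theorem main [Finite V] {q : ℕ} [hq : Fact q.Prime] (hq2 : q ≠ 2) (D : Subgroup (V ≃ₗ[ZMod 2] V))
    (hD : IsPGroup q D) (W : Submodule (ZMod 2) V) (hW : ∀ d ∈ D, R d ≤ W) :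
    ∃ k, 2 ^ k ≤ Nat.card W ∧ 2 ^ k ≡ 1 [MOD q] ∧ Nat.card D ∣ (2 ^ k).factorial := by
  classical
  have : Finite (V ≃ₗ[ZMod 2] V) := Finite.of_injective _ DFunLike.coe_injective
  set U : Submodule (ZMod 2) V := ⨆ d : D, R (d : V ≃ₗ[ZMod 2] V) with hU
  have hR : ∀ d : D, ∀ v, (d : V ≃ₗ[ZMod 2] V) v - v ∈ U := fun d v =>
    le_iSup (fun d : D => R (d : V ≃ₗ[ZMod 2] V)) d (mem_R _ _)
  have hinv : ∀ d : D, ∀ v ∈ U, (d : V ≃ₗ[ZMod 2] V) v ∈ U := fun d v hv => by
    simpa using U.add_mem (hR d v) hv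
  let _ : MulAction D U :=
    { smul := fun d v => ⟨(d : V ≃ₗ[ZMod 2] V) v, hinv d v v.2⟩
      one_smul := fun v => rfl
      mul_smul := fun a b v => rfl }
  have hs : ∀ (d : D) (v : U), ((d • v : U) : V) = (d : V ≃ₗ[ZMod 2] V) v := fun _ _ => rfl
  have hodd : Odd (Nat.card D) := by
    obtain ⟨n, hn⟩ := IsPGroup.iff_card.1 hD
    rw [hn]
    exact (hq.out.odd_of_ne_two hq2).pow
  obtain ⟨k, hk⟩ : ∃ k, Nat.card U = 2 ^ k :=
    ⟨_, by rw [Module.natCard_eq_pow_finrank (K := ZMod 2), Nat.card_zmod]⟩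
  refine ⟨k, hk ▸ Nat.card_le_card_of_injective _
    (Submodule.inclusion_injective (iSup_le fun d : D => hW d d.2)), ?_, ?_⟩
  · have h1 := hD.card_modEq_card_fixedPoints U
    have : Fintype D := Fintype.ofFinite D
    let N : V →ₗ[ZMod 2] V := ∑ d : D, ((d : V ≃ₗ[ZMod 2] V) : V →ₗ[ZMod 2] V)
    have hN : U ≤ LinearMap.ker N := iSup_le fun e => R_le fun v => by
      rw [LinearMap.mem_ker, map_sub, sub_eq_zero]
      simp only [N, LinearMap.sum_apply]
      exact Fintype.sum_equiv (Equiv.mulRight e) _ _ fun d => rfl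
    have h2 : Nat.card (MulAction.fixedPoints D U) = 1 := by
      rw [Nat.card_eq_one_iff_exists]
      refine ⟨⟨0, fun d => Subtype.ext (by rw [hs]; simp)⟩, fun v => Subtype.ext (Subtype.ext ?_)⟩
      have h3 : N (v : U) = 0 := hN (v : U).2
      have h4 : ∀ d : D, ((d : V ≃ₗ[ZMod 2] V) : V →ₗ[ZMod 2] V) (v : U) = (v : U) := fun d =>
        congrArg Subtype.val (v.2 d)
      simp only [N, LinearMap.sum_apply, h4, Finset.sum_const, Finset.card_univ] at h3
      obtain ⟨m, hm⟩ := hodd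
      rw [← Nat.card_eq_fintype_card, hm, add_smul, mul_comm, mul_smul, two_smul, add_self,
        smul_zero, zero_add, one_smul] at h3
      exact h3
    rwa [hk, h2] at h1
  · rw [← hk, ← Nat.card_perm]
    refine card_dvd_of_injective (MulAction.toPermHom D U) ((injective_iff_map_eq_one _).2 ?_)
    intro d hd
    have h1 : d ^ 2 = 1 := by
      ext v
      have h2 := congrArg Subtype.val (DFunLike.congr_fun hd ⟨_, hR d v⟩)
      change (d : V ≃ₗ[ZMod 2] V) ((d : V ≃ₗ[ZMod 2] V) v - v) = (d : V ≃ₗ[ZMod 2] V) v - v at h2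
      rw [map_sub, sub_eq_iff_eq_add, sub_add_eq_add_sub, add_self, zero_sub,
        neg_eq_of_add_eq_zero_left (add_self v)] at h2
      rw [pow_two]
      exact h2
    exact orderOf_eq_one_iff.1 (Nat.eq_one_of_dvd_coprimes (Nat.coprime_two_left.2 hodd)
      (orderOf_dvd_of_pow_eq_one h1) (orderOf_dvd_natCard d))

theorem R_closure (s : Set (V ≃ₗ[ZMod 2] V)) (W : Submodule (ZMod 2) V) (h : ∀ d ∈ s, R d ≤ W) :
    ∀ d ∈ closure s, R d ≤ W := by
  intro d hd
  induction hd using closure_induction with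
  | mem y hy => exact h y hy
  | one => exact R_le fun v => by simp
  | mul a b _ _ ha hb => exact (R_mul a b).trans (sup_le ha hb)
  | inv a _ ha => exact (R_inv a).trans ha

theorem fin {G : Type*} [Group G] [Finite G] {p u : G} (h9 : orderOf u = 3)
    (h11 : p * u * p⁻¹ ∈ zpowers u) (h12 : p * p * u * (p * p)⁻¹ = u⁻¹) : False := by
  classical
  rw [← mem_powers_iff_mem_zpowers, mem_powers_iff_mem_range_orderOf, h9] at h11
  have h13 : p * p * u * (p * p)⁻¹ = p * (p * u * p⁻¹) * p⁻¹ := by group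
  obtain ⟨i, hi, h15⟩ := Finset.mem_image.1 h11
  rw [h12, ← h15, ← conj_pow, ← h15, ← pow_mul] at h13
  have h16 : u ^ (i * i + 1) = 1 := by rw [pow_succ, ← h13, inv_mul_cancel]
  have h17 := orderOf_dvd_of_pow_eq_one h16
  rw [h9] at h17
  rw [Finset.mem_range] at hi
  interval_cases i <;> norm_num at h17

theorem core [Finite V] {q : ℕ} [hq : Fact q.Prime] (hq2 : q ≠ 2) {Q : Subgroup (V ≃ₗ[ZMod 2] V)}
    (hQ : IsPGroup q Q) {p x : V ≃ₗ[ZMod 2] V} (hpQ : ∀ y ∈ Q, p * y * p⁻¹ ∈ Q) (hx : x ∈ Q)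
    (hxt : x * (p * p) ≠ p * p * x) (ht2 : p * p * (p * p) = 1) (h2 : Nat.card (R (p * p)) ≤ 2) :
    False := by
  have : Finite (V ≃ₗ[ZMod 2] V) := Finite.of_injective _ DFunLike.coe_injective
  obtain ⟨t, ht⟩ : ∃ t, t = p * p := ⟨_, rfl⟩
  rw [← ht] at hxt ht2 h2
  have hti : t⁻¹ = t := inv_eq_of_mul_eq_one_right ht2
  obtain ⟨u, hu⟩ : ∃ u, u = x * t * x⁻¹ * t := ⟨_, rfl⟩
  have huO : u ∈ Q := by
    have : u = x * (p * (p * x⁻¹ * p⁻¹) * p⁻¹) := by
      rw [hu]; nth_rewrite 2 [← hti]; rw [ht]; group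
    rw [this]
    exact mul_mem hx (hpQ _ (hpQ _ (inv_mem hx)))
  have hu1 : u ≠ 1 := fun h => hxt (by
    calc x * t = (x * t * x⁻¹ * t) * t⁻¹ * x := by group
      _ = t * x := by rw [← hu, h, hti, one_mul])
  have hu' : p * u * p⁻¹ = (p * x) * t * (p * x)⁻¹ * t := by
    rw [hu, ht]; group
  have hRu : R u ≤ R (x * t * x⁻¹) ⊔ R t := hu ▸ R_mul _ _
  have hq3 : q = 3 := by
    have hle : closure {u} ≤ Q := (closure_le _).2 (Set.singleton_subset_iff.2 huO)
    obtain ⟨k, h3, h4, h5⟩ := main hq2 _ (hQ.to_le hle) _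
      (R_closure _ _ (by rintro _ rfl; exact hRu))
    have h6 := (h3.trans (card_sup_le _ _)).trans
      (Nat.mul_le_mul ((card_R_conj _ _).trans h2) h2)
    have h7 : q ∣ (2 ^ k).factorial := by
      refine dvd_trans ?_ h5
      obtain ⟨n, hn⟩ := IsPGroup.iff_card.1 (hQ.to_le hle)
      rw [hn]
      refine dvd_pow_self q ?_
      rintro rfl
      rw [pow_zero, card_eq_one, closure_eq_bot_iff, Set.singleton_subset_iff] at hn
      exact hu1 hn
    rw [hq.out.dvd_factorial] at h7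
    have h8 : q ≤ 4 := h7.trans h6
    have := hq.out.two_le
    interval_cases q
    · exact absurd rfl hq2
    · rfl
    · exact absurd hq.out (by norm_num)
  subst hq3
  have hle : closure {u, p * u * p⁻¹} ≤ Q := (closure_le _).2 (by
    rintro _ (rfl | rfl)
    · exact huO
    · exact hpQ _ huO)
  obtain ⟨k, h3, h4, h5⟩ := main hq2 _ (hQ.to_le hle)
    ((R (x * t * x⁻¹) ⊔ R t) ⊔ R (p * x * t * (p * x)⁻¹)) (R_closure _ _ (by
      rintro _ (rfl | rfl)
      · exact hRu.trans le_sup_left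
      · rw [hu']
        exact (R_mul _ _).trans (sup_le le_sup_right (le_sup_right.trans le_sup_left))))
  have h6 := (h3.trans (card_sup_le _ _)).trans (Nat.mul_le_mul ((card_sup_le _ _).trans
      (Nat.mul_le_mul ((card_R_conj _ _).trans h2) h2)) ((card_R_conj _ _).trans h2))
  have hk : k ≤ 3 := (Nat.pow_le_pow_iff_right one_lt_two).1 (show 2 ^ k ≤ 2 ^ 3 from h6)
  obtain ⟨n, hn⟩ := IsPGroup.iff_card.1 (hQ.to_le hle)
  have h7 : 3 ^ n ∣ 24 := by
    rw [hn] at h5
    interval_cases k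
    · exact h5.trans (by norm_num)
    · exact absurd h4 (by decide)
    · exact h5
    · exact absurd h4 (by decide)
  have hn1 : n ≤ 1 := by
    by_contra h
    exact absurd ((pow_dvd_pow 3 (not_le.1 h)).trans h7) (by norm_num)
  have h8 : orderOf u ∣ 3 :=
    (orderOf_dvd_natCard _ (subset_closure (Set.mem_insert _ _))).trans
      (hn ▸ (pow_dvd_pow 3 hn1))
  have h9 : orderOf u = 3 :=
    ((Nat.dvd_prime Nat.prime_three).1 h8).resolve_left fun h => hu1 (orderOf_eq_one_iff.1 h)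
  have h10 : zpowers u = closure {u, p * u * p⁻¹} := by
    refine eq_of_le_of_card_ge (zpowers_le.2 (subset_closure (Set.mem_insert _ _))) ?_
    rw [Nat.card_zpowers, h9, hn]
    exact Nat.pow_le_pow_right (by norm_num) hn1
  refine fin (p := p) h9 (h10 ▸ subset_closure (Set.mem_insert_of_mem _ rfl)) ?_
  rw [← ht, hu, mul_inv_rev, mul_inv_rev, mul_inv_rev, inv_inv, hti]
  calc t * (x * t * x⁻¹ * t) * t = t * (x * t * x⁻¹) * (t * t) := by group
    _ = _ := by rw [ht2]; group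

end


/-- Let V be a finite-dimensional vector space over the field with two elements and S a solvable group of linear automorphisms of V with O₂(S) = 1. If P ∈ S has order 4 and (P − 1)³ = 0 on V, then the image of (P − 1)² has at least 4 elements; equivalently, in the decomposition of V into indecomposable modules for the cyclic group generated by P, at least two summands have dimension 3. -/
theorem result
    {V : Type*} [AddCommGroup V] [Module (ZMod 2) V] [Finite V]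
    (S : Subgroup (V ≃ₗ[ZMod 2] V)) (hS : Group.IsSolvable ↥S) (hO2 : Cfsg.pCore 2 ↥S = ⊥)
    (P : V ≃ₗ[ZMod 2] V) (hPS : P ∈ S) (hP4 : orderOf P = 4)
    (hcub : ((P : V →ₗ[ZMod 2] V) - LinearMap.id) ^ 3 = 0) :
    4 ≤ Nat.card ↥(LinearMap.range (((P : V →ₗ[ZMod 2] V) - LinearMap.id) ^ 2)) := by
  have : Finite (V ≃ₗ[ZMod 2] V) := Finite.of_injective _ DFunLike.coe_injective
  by_contra hlt
  have hP2 : P * P ≠ 1 := fun h => by
    have := orderOf_dvd_of_pow_eq_one ((pow_two P).trans h)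
    rw [hP4] at this
    exact absurd this (by norm_num)
  have hP4' : P * P * (P * P) = 1 := by
    have := pow_orderOf_eq_one P
    rw [hP4] at this
    rw [← this, ← pow_two, ← pow_two, ← pow_mul]
  have hR : R (P * P) = LinearMap.range (((P : V →ₗ[ZMod 2] V) - LinearMap.id) ^ 2) := by
    unfold R
    congr 1
    ext v
    simp only [pow_two, LinearMap.sub_apply, Module.End.mul_apply, LinearEquiv.coe_coe,
      LinearMap.id_apply, map_sub, LinearEquiv.mul_apply]
    rw [← sub_add, sub_sub (P (P v)), add_self, sub_zero, sub_eq_add_neg,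
      neg_eq_of_add_eq_zero_left (add_self v)]
  have h2 : Nat.card (R (P * P)) ≤ 2 := by
    obtain ⟨k, hk⟩ : ∃ k, Nat.card (R (P * P)) = 2 ^ k :=
      ⟨_, by rw [Module.natCard_eq_pow_finrank (K := ZMod 2), Nat.card_zmod]⟩
    rw [← hR, hk] at hlt
    rw [hk]
    have : k < 2 := by
      by_contra h
      exact hlt (Nat.pow_le_pow_right two_pos (not_lt.1 h) : 2 ^ 2 ≤ 2 ^ k)
    interval_cases k <;> norm_num
  obtain ⟨t, ht⟩ : ∃ t : S, (t : V ≃ₗ[ZMod 2] V) = P * P := ⟨⟨_, mul_mem hPS hPS⟩, rfl⟩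
  have ht2 : t * t = 1 := Subtype.ext (by rw [coe_mul, ht]; exact hP4')
  obtain ⟨q, hq, x, hx, hxt⟩ : ∃ q : ℕ, q.Prime ∧ ∃ x ∈ pCore q S, x * t ≠ t * x := by
    by_contra h
    push Not at h
    have h3 : t ∈ fittingSubgroup S := by
      refine H1.centralizer_fitting_le ?_
      rw [← zpowers_le, le_centralizer_iff, H1.fitting_eq_iSup_pCore]
      refine iSup_le fun q => le_centralizer_iff.1 (zpowers_le.2 fun y hy => h q q.2 y hy)
    have h4 := H1.le_pCore_of_le_fitting (p := 2) (P := zpowers t) (IsPGroup.of_card_dvd_pow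
      (n := 1) (by
        rw [Nat.card_zpowers]
        exact orderOf_dvd_of_pow_eq_one (by rw [pow_one, pow_two, ht2]))) (zpowers_le.2 h3)
    rw [hO2, le_bot_iff, zpowers_eq_bot] at h4
    exact hP2 (by rw [← ht, h4]; rfl)
  have := Fact.mk hq
  have hq2 : q ≠ 2 := by
    rintro rfl
    rw [hO2, mem_bot] at hx
    exact hxt (by rw [hx, one_mul, mul_one])
  refine core hq2 (H1.isPGroup_pCore.map S.subtype) (p := P) (x := x) ?_ ⟨x, hx, rfl⟩
    (fun h => hxt (Subtype.ext (by rw [coe_mul, coe_mul, ht]; exact h))) hP4' h2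
  rintro _ ⟨y, hy, rfl⟩
  exact ⟨_, (inferInstance : (pCore q S).Normal).conj_mem _ hy ⟨P, hPS⟩, rfl⟩

end Cfsg.Agent.S4410
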