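import Mathlib
import Cfsg.Agent.Lib.LargeExtra.Out
import Cfsg.Statements.S4413
-- import your own Cfsg.Agent.* helpers here

set_option autoImplicit false
open Cfsg

namespace Cfsg.Agent.S4413

abbrev W := (Fin 1 ⊕ Fin 1) ⊕ Fin 2 → ZMod 2

def q (v : W) : ZMod 2 := Cfsg.quadFormMinus 1 (ZMod 2) 1 1 v

def b (u v : W) : ZMod 2 := q (u + v) + q u + q v

theorem fact1 : ∀ v : W, ∃ a c : W, q a = 0 ∧ q c = 0 ∧ v = a + c := by decide +kernel

set_option synthInstance.maxSize 100000 in
theorem fact2 : ∀ a c : W, q a = 0 → a ≠ 0 → q c = 0 → c ≠ 0 → a ≠ c → q (a + c) = 1 ∧ b a (a + c) = 1 ∧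
    b c (a + c) = 1 ∧ ∀ d : W, q d = 0 → d ≠ 0 → d ≠ a → d ≠ c → b d (a + c) = 0 := by decide +kernel

theorem fact3 : Fintype.card {v : W // q v = 0 ∧ v ≠ 0} = 5 := by decide +kernel

theorem fact4 : ∀ u v w : W, b (u + v) w = b u w + b v w := by
  intro u v w
  simp only [b, q, ← H66.qMinus_apply, H66.quad_add, QuadraticMap.polar_add_left]
  generalize H66.qMinus 1 (ZMod 2) 1 1 u = x1
  generalize H66.qMinus 1 (ZMod 2) 1 1 v = x2
  generalize H66.qMinus 1 (ZMod 2) 1 1 w = x3
  generalize QuadraticMap.polar (H66.qMinus 1 (ZMod 2) 1 1) u v = y1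
  generalize QuadraticMap.polar (H66.qMinus 1 (ZMod 2) 1 1) u w = y2
  generalize QuadraticMap.polar (H66.qMinus 1 (ZMod 2) 1 1) v w = y3
  revert x1 x2 x3 y1 y2 y3
  decide

set_option synthInstance.maxSize 100000 in
theorem fact5 : ∀ w : W, q w = 1 → ∀ v : W, q (v + b v w • w) = q v ∧
    v + b v w • w + b (v + b v w • w) w • w = v := by decide +kernel

/-- reflection -/
def refl (w : W) (hw : q w = 1) : W ≃ₗ[ZMod 2] W :=
  LinearEquiv.ofInvolutive
    { toFun := fun v => v + b v w • w
      map_add' := fun u v => by rw [fact4, add_smul]; abel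
      map_smul' := fun c v => by
        rcases H95.zmod2_cases c with rfl | rfl
        · simp [b, q, Cfsg.quadFormMinus, H95.zmod2_add_self]
        · simp }
    fun v => (fact5 w hw v).2


/-- Let P be an extraspecial 2-group of order 32 with no elementary abelian subgroup of order 8 (the central product of a dihedral and a quaternion group of order 8). Then the inner automorphism group of P has order 16 and the outer automorphism group Aut(P)/Inn(P) is isomorphic to the symmetric group of degree 5; in particular Aut(P) has order 1920. -/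
theorem result {P : Type*} [Group P] [Finite P]
    (hex : Cfsg.IsExtraspecial 2 P) (h32 : Nat.card P = 32)
    (hminus : ∀ A : Subgroup P, Cfsg.IsElementaryAbelian 2 A → Nat.card ↥A ≤ 4)
    [(MulAut.conj : P →* MulAut P).range.Normal] :
    Nat.card ↥(MulAut.conj : P →* MulAut P).range = 16 ∧ Nat.card (MulAut P) = 1920 ∧
      Nonempty ((MulAut P ⧸ (MulAut.conj : P →* MulAut P).range) ≃* Equiv.Perm (Fin 5)) := by
  obtain ⟨z, hz, V, _, _, _, P0, m, hq, -, hV, hcV, hc⟩ := H95.exists_pres_of_extraspecial hex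
  obtain rfl : 2 = m := by
    have := Nat.pow_right_injective le_rfl (show 2 ^ 5 = 2 ^ (2 * m + 1) from h32.symm.trans hc)
    omega
  obtain ⟨-, Φ, hΦ⟩ := H66.exists_equiv_of_not_isPlusType (by
    rw [P0.isPlusType_iff hq hV]
    rintro ⟨A, hA, h⟩
    have := hminus A hA
    omega) hq hV H95.aniso_one_one
  let R : H95.Pres P z W := P0.map Φ.symm
  have hR : ∀ v, R.q v = q v := hΦ
  let S := {v : W // q v = 0 ∧ v ≠ 0}
  let act : MulAut P →* Equiv.Perm S :=
    { toFun := fun φ => Equiv.Perm.subtypePerm (R.autHom hz φ).toEquiv fun v => by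
        simp only [LinearEquiv.coe_toEquiv, ← hR, R.q_autHom, ne_eq, EmbeddingLike.map_eq_zero_iff]
      map_one' := by ext1 v; apply Subtype.ext; simp
      map_mul' := fun φ ψ => by ext1 v; apply Subtype.ext; simp }
  have hact : ∀ φ (v : S), (act φ v).1 = R.autHom hz φ v.1 := fun _ _ => rfl
  have hker : act.ker = (MulAut.conj : P →* MulAut P).range := by
    rw [← R.ker_autHom hz]
    ext φ
    simp only [MonoidHom.mem_ker]
    constructor
    · intro h
      have h1 : ∀ a, q a = 0 → R.autHom hz φ a = a := fun a ha => by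
        by_cases h0 : a = 0
        · rw [h0, map_zero]
        · rw [← hact φ ⟨a, ha, h0⟩, h]; rfl
      refine LinearEquiv.ext fun v => ?_
      obtain ⟨a, c, ha, hc, rfl⟩ := fact1 v
      rw [map_add, h1 a ha, h1 c hc]; rfl
    · intro h
      ext1 v
      apply Subtype.ext
      rw [hact, h]; rfl
  have hsurj : Function.Surjective act := by
    rw [← MonoidHom.range_eq_top, eq_top_iff, ← Equiv.Perm.closure_isSwap, Subgroup.closure_le]
    rintro _ ⟨a, c, hac, rfl⟩
    have hne : a.1 ≠ c.1 := fun e => hac (Subtype.ext e)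
    obtain ⟨h1, h2, h3, h4⟩ := fact2 a.1 c.1 a.2.1 a.2.2 c.2.1 c.2.2 hne
    obtain ⟨φ, hφ⟩ := (R.mem_range_autHom hz (σ := refl _ h1)).2 fun v => by
      rw [hR, hR]; exact (fact5 _ h1 v).1
    refine ⟨φ, Equiv.ext fun d => Subtype.ext ?_⟩
    rw [hact, hφ]
    change d.1 + b d.1 (a.1 + c.1) • (a.1 + c.1) = _
    rw [Equiv.swap_apply_def]
    split_ifs with e1 e2
    · rw [e1, h2, one_smul, ← add_assoc, H95.vec2_add_self, zero_add]
    · rw [e2, h3, one_smul, add_left_comm, H95.vec2_add_self, add_zero]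
    · rw [h4 d.1 d.2.1 d.2.2 (fun e => e1 (Subtype.ext e)) (fun e => e2 (Subtype.ext e)), zero_smul,
        add_zero]
  have e : (MulAut P ⧸ (MulAut.conj : P →* MulAut P).range) ≃* Equiv.Perm (Fin 5) :=
    ((QuotientGroup.quotientMulEquivOfEq hker.symm).trans
      (QuotientGroup.quotientKerEquivOfSurjective act hsurj)).trans
      (Fintype.equivFinOfCardEq fact3).permCongrHom
  have h16 : Nat.card ↥(MulAut.conj : P →* MulAut P).range = 16 := by
    have h1 : (MulAut.conj : P →* MulAut P).ker = Subgroup.center P := by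
      ext x
      simp only [MonoidHom.mem_ker, MulEquiv.ext_iff, Subgroup.mem_center_iff, MulAut.conj_apply,
        MulAut.one_apply, mul_inv_eq_iff_eq_mul]
      exact forall_congr' fun _ => eq_comm
    have h2 := (MulAut.conj : P →* MulAut P).ker.card_mul_index
    rw [Subgroup.index_ker, h1, hz.center_top_eq, Nat.card_zpowers, hz.orderOf_eq, h32] at h2
    omega
  refine ⟨h16, ?_, ⟨e⟩⟩
  rw [Subgroup.card_eq_card_quotient_mul_card_subgroup (MulAut.conj : P →* MulAut P).range, h16,
    Nat.card_congr e.toEquiv, Nat.card_perm, Nat.card_fin]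
  rfl


end Cfsg.Agent.S4413
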