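import Cfsg.Statements.S4414
import Cfsg.Agent.Lib.H38.Wt

set_option autoImplicit false
set_option linter.style.haveILetI false
open Cfsg

namespace Cfsg.Agent.S4414

open TensorProduct in
theorem fix_span {S : Type*} [Group S] {E : Type*} [AddCommGroup E] [Module (ZMod 2) E]
    (ρ : Representation (ZMod 2) S E) (K : Type*) [Field K] [Algebra (ZMod 2) K] (T : Subgroup S)
    (E₀ : Submodule (ZMod 2) E) (hE₀ : ∀ v, (∀ s ∈ T, ρ s v = v) → v ∈ E₀) (v : K ⊗[ZMod 2] E)
    (hv : ∀ s ∈ T, (ρ s).baseChange K v = v) : v ∈ E₀.baseChange K := by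
  classical
  let b := Module.Free.chooseBasis (ZMod 2) K
  have hc : ∀ (f : E →ₗ[ZMod 2] E) (w : K ⊗[ZMod 2] E) i,
      equivFinsuppOfBasisLeft b (f.baseChange K w) i = f (equivFinsuppOfBasisLeft b w i) := by
    intro f w i
    induction w with
    | zero => simp
    | tmul a e => simp
    | add x y hx hy => simp [hx, hy]
  rw [← (equivFinsuppOfBasisLeft b).symm_apply_apply v, equivFinsuppOfBasisLeft_symm_apply]
  refine Submodule.sum_mem _ fun i _ => ?_
  apply Submodule.tmul_mem_baseChange_of_mem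
  apply hE₀
  intro s hs
  rw [← hc, hv s hs]

/-- Let S be a finite solvable group whose order is divisible only by the primes 2, p, q (p, q distinct odd primes), with a Sylow system S₂, S_p, S_q (pairwise permutable Sylow subgroups) such that: S_p is a minimal normal subgroup of S of order p or p²; S_q has order q and [S_p, S_q] = S_p; and O₂(S) = 1. Let E be an irreducible module for S over the field with two elements on which S_p acts faithfully, and E₀ the subspace of fixed points of S₂. Then either E₀ has at least 8 elements, or E₀ has exactly 4 elements and S_q does not leave E₀ invariant. -/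
theorem result {S : Type*} [Group S] [Finite S]
    [Group.IsSolvable S] (p q : ℕ) (hp : p.Prime) (hq : q.Prime) (hp2 : p ≠ 2) (hq2 : q ≠ 2) (hpq : p ≠ q)
    (hπ : ∀ r : ℕ, r.Prime → r ∣ Nat.card S → r = 2 ∨ r = p ∨ r = q)
    (S₂ : Sylow 2 S) (Sp : Sylow p S) (Sq : Sylow q S)
    (h2q : Nat.card ↥((S₂ : Subgroup S) ⊔ (Sq : Subgroup S)) = Nat.card ↥S₂ * Nat.card ↥Sq)
    (h2p : Nat.card ↥((S₂ : Subgroup S) ⊔ (Sp : Subgroup S)) = Nat.card ↥S₂ * Nat.card ↥Sp)
    (hpq' : Nat.card ↥((Sp : Subgroup S) ⊔ (Sq : Subgroup S)) = Nat.card ↥Sp * Nat.card ↥Sq)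
    (hSpN : (Sp : Subgroup S).Normal) (hSpmin : ∀ N : Subgroup S, N.Normal → N ≤ (Sp : Subgroup S) → N = ⊥ ∨ N = (Sp : Subgroup S))
    (hSpcard : Nat.card ↥Sp = p ∨ Nat.card ↥Sp = p ^ 2)
    (hSq : Nat.card ↥Sq = q) (hcomm : ⁅(Sp : Subgroup S), (Sq : Subgroup S)⁆ = (Sp : Subgroup S))
    (hO2 : Cfsg.pCore 2 S = ⊥)
    {E : Type*} [AddCommGroup E] [Module (ZMod 2) E] [Finite E] (ρ : Representation (ZMod 2) S E) (hE : Nontrivial E)
    (hirr : ∀ N : Submodule (ZMod 2) E, (∀ s : S, ∀ m ∈ N, ρ s m ∈ N) → N = ⊥ ∨ N = ⊤)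
    (hfaith : ∀ x ∈ (Sp : Subgroup S), ρ x = 1 → x = 1) :
    8 ≤ Nat.card {v : E // ∀ s ∈ (S₂ : Subgroup S), ρ s v = v} ∨
      (Nat.card {v : E // ∀ s ∈ (S₂ : Subgroup S), ρ s v = v} = 4 ∧
        ∃ x ∈ (Sq : Subgroup S), ∃ v : E, (∀ s ∈ (S₂ : Subgroup S), ρ s v = v) ∧ ¬ ∀ s ∈ (S₂ : Subgroup S), ρ s (ρ x v) = ρ x v) := by
  classical
  haveI : Fact p.Prime := ⟨hp⟩
  haveI : Fact q.Prime := ⟨hq⟩
  haveI : Fact (Nat.Prime 2) := ⟨Nat.prime_two⟩
  set P : Subgroup S := (Sp : Subgroup S) with hPdef
  letI : Fintype P := Fintype.ofFinite _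
  change Nat.card P = p ∨ Nat.card P = p ^ 2 at hSpcard
  have hodd : Odd (Nat.card P) := by
    have := hp.odd_of_ne_two hp2
    rcases hSpcard with h | h <;> rw [h]
    · exact this
    · exact this.pow
  haveI hPc : IsMulCommutative P := by
    rcases hSpcard with h | h
    · haveI := isCyclic_of_prime_card h
      exact IsCyclic.isMulCommutative
    · exact IsPGroup.isMulCommutative_of_card_eq_prime_sq h
  have hP1 : 1 < Nat.card P := by
    rcases hSpcard with h | h <;> rw [h]
    · exact hp.one_lt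
    · exact Nat.one_lt_pow two_ne_zero hp.one_lt
  set n := Nat.totient (Nat.card P) with hn
  have hn0 : n ≠ 0 := (Nat.totient_pos.2 (by omega)).ne'
  let K := GaloisField 2 n
  letI : Fintype K := Fintype.ofFinite _
  have hK : Fintype.card K = 2 ^ n := by
    rw [← Nat.card_eq_fintype_card]; exact GaloisField.card 2 n hn0
  have hdvd : Nat.card P ∣ Fintype.card K - 1 := by
    rw [hK]
    have := Nat.ModEq.pow_totient (x := 2) (n := Nat.card P)
      ((Nat.coprime_two_left).2 hodd)
    exact (Nat.modEq_iff_dvd' Nat.one_le_two_pow).1 this.symm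
  haveI : NeZero (Fintype.card K - 1) := ⟨by have := Fintype.one_lt_card (α := K); omega⟩
  haveI : HasEnoughRootsOfUnity K (Fintype.card K - 1) := by
    apply HasEnoughRootsOfUnity.of_card_le
    have : rootsOfUnity (Fintype.card K - 1) K = ⊤ := by
      rw [eq_top_iff]
      intro u _
      rw [mem_rootsOfUnity, ← Fintype.card_units]
      exact pow_card_eq_one
    rw [this, Subgroup.card_top, Nat.card_eq_fintype_card, Fintype.card_units]
  haveI : HasEnoughRootsOfUnity K (Monoid.exponent P) :=
    HasEnoughRootsOfUnity.of_dvd K ((Group.exponent_dvd_nat_card).trans hdvd)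
  have hcK : (Nat.card P : K) ≠ 0 := by
    rw [Ne, CharP.cast_eq_zero_iff K 2]
    exact fun h => (Nat.not_even_iff_odd.2 hodd) (even_iff_two_dvd.2 h)
  let σ : Representation K S (TensorProduct (ZMod 2) K E) :=
    { toFun := fun g => (ρ g).baseChange K
      map_one' := by simp [Module.End.one_eq_id]
      map_mul' := fun g h => by
        rw [map_mul, Module.End.mul_eq_comp, LinearMap.baseChange_comp]; rfl }
  have hσ : ∀ g, σ g = (ρ g).baseChange K := fun _ => rfl
  -- no fixed points of `P`
  have hsum : ∑ y : P, ρ y = 0 := by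
    let N : Submodule (ZMod 2) E :=
      { carrier := {v | ∀ y ∈ P, ρ y v = v}
        add_mem' := fun {a b} ha hb y hy => by rw [map_add, ha y hy, hb y hy]
        zero_mem' := fun y _ => map_zero _
        smul_mem' := fun c a ha y hy => by rw [map_smul, ha y hy] }
    have hN : ∀ s : S, ∀ m ∈ N, ρ s m ∈ N := by
      intro s m hm y hy
      have h1 := hm (s⁻¹ * y * s⁻¹⁻¹) (hSpN.conj_mem y hy s⁻¹)
      rw [← Module.End.mul_apply, ← map_mul]
      conv_rhs => rw [← h1, ← Module.End.mul_apply, ← map_mul]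
      congr 2
      group
    rcases hirr N hN with h | h
    · ext v
      have : (∑ y : P, ρ y) v ∈ N := by
        intro z hz
        simp only [LinearMap.sum_apply, map_sum]
        refine Fintype.sum_equiv (Equiv.mulLeft (⟨z, hz⟩ : P)) _ _ fun y => ?_
        simp
      rw [h] at this
      simpa using this
    · exfalso
      haveI : Nontrivial P := Finite.one_lt_card_iff_nontrivial.1 hP1
      obtain ⟨y, hy⟩ := exists_ne (1 : P)
      apply hy
      apply Subtype.ext
      apply hfaith y y.2
      ext v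
      have : v ∈ N := by rw [h]; trivial
      exact this y y.2
  have h1 : ∑ y : P, σ y = 0 := by
    have := congrArg (LinearMap.baseChangeHom (ZMod 2) K E E) hsum
    rw [map_sum, map_zero] at this
    exact this
  -- a generator of `Sq`
  haveI : Nontrivial Sq := Finite.one_lt_card_iff_nontrivial.1 (hSq.symm ▸ hq.one_lt)
  obtain ⟨x, hx1⟩ := exists_ne (1 : Sq)
  have hxq : (x : S) ^ q = 1 := by
    have := pow_card_eq_one' (x := x)
    rw [hSq] at this
    exact_mod_cast congrArg Subtype.val this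
  have hfp : ∀ z : Sq, z ≠ 1 → ∀ l : P →* Kˣ,
      (∀ y : P, l (MulAut.conjNormal (z : S)⁻¹ y) = l y) → l = 1 := by
    intro z hz l hl
    have hall : ∀ w : Sq, ∀ y : P, l (MulAut.conjNormal (w : S) y) = l y := by
      intro w
      have hw : w ∈ Subgroup.zpowers z⁻¹ :=
        mem_zpowers_of_prime_card hSq (inv_ne_one.2 hz)
      rw [← mem_powers_iff_mem_zpowers] at hw
      obtain ⟨k, rfl⟩ := hw
      induction k with
      | zero => intro y; simp
      | succ k ih =>
        intro y
        have e : ((z⁻¹ ^ (k + 1) : Sq) : S) = ((z⁻¹ ^ k : Sq) : S) * (z : S)⁻¹ := by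
          rw [pow_succ]; rfl
        change l (MulAut.conjNormal ((z⁻¹ ^ (k + 1) : Sq) : S) y) = l y
        rw [e, map_mul, MulAut.mul_apply]
        exact (ih _).trans (hl y)
    have hle : ⁅P, (Sq : Subgroup S)⁆ ≤ l.ker.map P.subtype := by
      rw [Subgroup.commutator_le]
      intro a ha b hb
      refine ⟨⟨a, ha⟩ * MulAut.conjNormal b (⟨a, ha⟩ : P)⁻¹, ?_, ?_⟩
      · rw [SetLike.mem_coe, MonoidHom.mem_ker, map_mul, hall ⟨b, hb⟩]
        simp
      · simp [commutatorElement_def, mul_assoc]
    rw [hcomm] at hle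
    ext y
    obtain ⟨y', hy', e⟩ := hle y.2
    have : y' = y := Subtype.ext e
    rw [← this, (MonoidHom.mem_ker).1 hy']
    rfl
  have hxx : x * x ≠ 1 := by
    intro h
    have h2 : orderOf x ∣ 2 := orderOf_dvd_of_pow_eq_one (by rw [pow_two, h])
    have h3 : orderOf x = q := orderOf_eq_prime (Subtype.ext (by simpa using hxq)) hx1
    rw [h3] at h2
    exact hq2 ((Nat.prime_dvd_prime_iff_eq hq Nat.prime_two).1 h2)
  haveI : Module.Finite (ZMod 2) E := Module.Finite.of_finite
  haveI : Finite (TensorProduct (ZMod 2) K E) := Module.finite_of_finite K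
  haveI : Nontrivial (TensorProduct (ZMod 2) K E) := by
    apply Module.nontrivial_of_finrank_pos (R := K)
    rw [Module.finrank_baseChange]
    exact Module.finrank_pos
  obtain ⟨⟨v2, hv2, hi2⟩, h3⟩ := H38.Wt.main P σ hcK h1 S₂ S₂.isPGroup' hq hq2 x hxq (hfp x hx1)
    (hfp (x * x) hxx)
  let E₀ : Submodule (ZMod 2) E :=
    { carrier := {v | ∀ y ∈ (S₂ : Subgroup S), ρ y v = v}
      add_mem' := fun {a b} ha hb y hy => by rw [map_add, ha y hy, hb y hy]
      zero_mem' := fun y _ => map_zero _
      smul_mem' := fun c a ha y hy => by rw [map_smul, ha y hy] }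
  have hcard : Nat.card {v : E // ∀ s ∈ (S₂ : Subgroup S), ρ s v = v} =
      2 ^ Module.finrank (ZMod 2) E₀ := by
    have := Module.natCard_eq_pow_finrank (K := ZMod 2) (V := E₀)
    rw [Nat.card_zmod] at this
    exact this
  have hle : ∀ (k : ℕ) (v : Fin k → TensorProduct (ZMod 2) K E),
      (∀ i, ∀ s ∈ (S₂ : Subgroup S), σ s (v i) = v i) → LinearIndependent K v →
      k ≤ Module.finrank (ZMod 2) E₀ := by
    intro k v hv hi
    have hm : ∀ i, v i ∈ E₀.baseChange K := fun i => fix_span ρ K S₂ E₀ (fun _ h => h) _ (hv i)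
    have hi' : LinearIndependent K (fun i => (⟨v i, hm i⟩ : E₀.baseChange K)) :=
      LinearIndependent.of_comp (E₀.baseChange K).subtype hi
    have h4 := hi'.fintype_card_le_finrank
    rw [Fintype.card_fin] at h4
    refine h4.trans ?_
    rw [Submodule.baseChange]
    refine (LinearMap.finrank_range_le _).trans ?_
    rw [Module.finrank_baseChange]
  have hd2 := hle 2 v2 hv2 hi2
  rw [hcard]
  by_cases hd : 3 ≤ Module.finrank (ZMod 2) E₀
  · left
    exact Nat.pow_le_pow_right (n := 2) (by norm_num) hd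
  · right
    refine ⟨by rw [show Module.finrank (ZMod 2) E₀ = 2 by omega]; norm_num, ?_⟩
    by_contra hcon
    push Not at hcon
    apply hd
    obtain ⟨v3, hv3, hi3⟩ := h3 fun v hv s hs => by
      have hm := fix_span ρ K S₂ E₀ (fun _ h => h) v hv
      rw [Submodule.baseChange_eq_span] at hm
      clear hv
      induction hm using Submodule.span_induction with
      | mem w hw =>
        obtain ⟨e, he, rfl⟩ := hw
        simp only [hσ, TensorProduct.mk_apply, LinearMap.baseChange_tmul]
        rw [hcon x x.2 e he s hs]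
      | zero => simp
      | add a b _ _ ha hb => simp only [map_add, ha, hb]
      | smul c a _ ha => simp only [map_smul, ha]
    exact hle 3 v3 hv3 hi3

end Cfsg.Agent.S4414
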