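import Cfsg.Statements.S4415
import Cfsg.Agent.Lib.H3F.E
import Cfsg.Agent.Lib.FGS.Heisenberg

set_option autoImplicit false
open Cfsg

namespace Cfsg.Agent.S4415

/-- Let S be a finite solvable group acting faithfully on a finite-dimensional space E over the field with three elements, with O₃(S) = 1. Let B ≤ S have order 3 and suppose: E = E₀ ⊕ E₁ with B fixing E₁ pointwise, E₀ B-invariant of order 27 and indecomposable under B (a generator of B has a single Jordan block on E₀); B normalizes but does not centralize some subgroup Q of S that is elementary abelian of order 4; and B is the centre of a Sylow 3-subgroup of S. Put R = [O_{3'}(S), B]. Then R is elementary abelian of order 4 or extraspecial of order 32 containing an elementary abelian subgroup of order 8 (a central product of two quaternion groups), and E is the direct sum of a subspace fixed pointwise by R and an RB-invariant subspace on which the subgroup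 RB acts faithfully and irreducibly. -/
theorem result {S : Type*} [Group S] [Finite S]
    [Group.IsSolvable S] {E : Type*} [AddCommGroup E] [Module (ZMod 3) E] [Finite E] (ρ : Representation (ZMod 3) S E)
    (hfaith : Function.Injective ρ) (hO3 : Cfsg.pCore 3 S = ⊥)
    (B : Subgroup S) (hB : Nat.card ↥B = 3) (b : S) (hb : Subgroup.zpowers b = B)
    (E₀ E₁ : Submodule (ZMod 3) E) (hE01 : E₀ ⊓ E₁ = ⊥) (hE01' : E₀ ⊔ E₁ = ⊤)
    (hE1 : ∀ v ∈ E₁, ρ b v = v) (hE0inv : ∀ v ∈ E₀, ρ b v ∈ E₀) (hE0 : Nat.card ↥E₀ = 27)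
    (hind : ∃ v ∈ E₀, ρ b (ρ b v - v) - (ρ b v - v) ≠ 0)
    (Q : Subgroup S) (hQ : Cfsg.IsElementaryAbelian 2 Q) (hQ4 : Nat.card ↥Q = 4)
    (hBQ : B ≤ Subgroup.normalizer (Q : Set S)) (hBQ' : ¬ B ≤ Subgroup.centralizer (Q : Set S))
    (P : Sylow 3 S) (hBZ : (Subgroup.center ↥(P : Subgroup S)).map (P : Subgroup S).subtype = B) :
    ((Cfsg.IsElementaryAbelian 2 ⁅Cfsg.pPrimeCore 3 S, B⁆ ∧ Nat.card ↥⁅Cfsg.pPrimeCore 3 S, B⁆ = 4) ∨
      (Cfsg.IsExtraspecial 2 ↥⁅Cfsg.pPrimeCore 3 S, B⁆ ∧ Nat.card ↥⁅Cfsg.pPrimeCore 3 S, B⁆ = 32 ∧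
        ∃ A : Subgroup S, A ≤ ⁅Cfsg.pPrimeCore 3 S, B⁆ ∧ Cfsg.IsElementaryAbelian 2 A ∧ Nat.card ↥A = 8)) ∧
    ∃ F₀ F₁ : Submodule (ZMod 3) E, F₀ ⊓ F₁ = ⊥ ∧ F₀ ⊔ F₁ = ⊤ ∧
      (∀ r ∈ ⁅Cfsg.pPrimeCore 3 S, B⁆, ∀ v ∈ F₁, ρ r v = v) ∧ (∀ r ∈ ⁅Cfsg.pPrimeCore 3 S, B⁆ ⊔ B, ∀ v ∈ F₀, ρ r v ∈ F₀) ∧
      (∀ r ∈ ⁅Cfsg.pPrimeCore 3 S, B⁆ ⊔ B, (∀ v ∈ F₀, ρ r v = v) → r = 1) ∧
      (∀ N : Submodule (ZMod 3) E, N ≤ F₀ → (∀ r ∈ ⁅Cfsg.pPrimeCore 3 S, B⁆ ⊔ B, ∀ v ∈ N, ρ r v ∈ N) → N = ⊥ ∨ N = F₀) := by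
  subst hb
  have b3 : b ^ 3 = 1 := by rw [← hB, Nat.card_zpowers, pow_orderOf_eq_one]
  obtain ⟨x, hx, x1⟩ : ∃ x ∈ Q, b * x * b⁻¹ ≠ x := by
    by_contra! h
    exact hBQ' (Subgroup.zpowers_le.2 fun x hx => (mul_inv_eq_iff_eq_mul.1 (h x hx)).symm)
  have c := fun x hx => H2.conj_mem_of_le_normalizer hBQ (Subgroup.mem_zpowers b) (k := x) hx
  have : Nontrivial Q := Finite.one_lt_card_iff_nontrivial.1 (by omega)
  have : IsKleinFour Q := ⟨hQ4, (Monoid.exponent_eq_prime_iff Nat.prime_two).2 fun g hg =>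
    orderOf_eq_prime (Subtype.ext (hQ.2 g g.2)) hg⟩
  have x2 : x ≠ 1 := fun e => x1 (by simp [e])
  have b4 : b * (b * (b * x * b⁻¹) * b⁻¹) * b⁻¹ = x := by
    rw [show b * (b * (b * x * b⁻¹) * b⁻¹) * b⁻¹ = b ^ 3 * x * (b ^ 3)⁻¹ by simp [pow_three, mul_assoc],
      b3]; simp
  have h : H3F.Hyp ρ b x (b * x * b⁻¹) := by
    refine ⟨hfaith, b3, fun u v w => ?_, sq x ▸ hQ.2 x hx, x2, rfl, congrArg Subtype.val
      (IsKleinFour.eq_mul_of_ne_all (x := ⟨x, hx⟩) (y := ⟨_, c x hx⟩) (z := ⟨_, c _ (c x hx)⟩)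
        (fun e => x2 (congrArg Subtype.val e)) (by simpa [Subtype.ext_iff] using x2)
        (fun e => x1 (congrArg Subtype.val e).symm) (by simpa [Subtype.ext_iff] using x2)
        (fun e => x1 ?_) (by simpa [Subtype.ext_iff] using x1))⟩
    · let f := (ρ b - 1).domRestrict E₀
      have h1 := f.finrank_range_add_finrank_ker
      have h2 : Module.finrank (ZMod 3) E₀ = 3 :=
        Nat.pow_right_injective (a := 3) (by norm_num) (a₂ := 3) ((H3F.card_sub E₀).symm.trans hE0)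
      obtain ⟨t, ht, h3⟩ := hind
      have h4 : Module.finrank (ZMod 3) (LinearMap.ker f) ≠ 0 := fun e => h3 (by
        have m := E₀.sub_mem (hE0inv t ht) ht
        refine congrArg Subtype.val ((Submodule.finrank_eq_zero.1 e).le
          (x := ⟨_, E₀.sub_mem (hE0inv _ m) m⟩) ?_)
        have : ρ b (ρ b (ρ b t)) = t := by
          rw [← H3F.act_mul, ← H3F.act_mul, ← pow_three', b3]; simp
        simp only [f, LinearMap.mem_ker, LinearMap.domRestrict_apply, LinearMap.sub_apply, map_sub, this,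
          Module.End.one_apply]
        linear_combination (norm := abel1) H3F.three (ρ b t - ρ b (ρ b t)))
      have h5 : ∀ v, ρ b v - v ∈ LinearMap.range f := fun v => by
        obtain ⟨v0, h0, v1, h1, rfl⟩ := Submodule.mem_sup.1 (hE01'.ge (Submodule.mem_top (x := v)))
        exact ⟨⟨v0, h0⟩, by simp [f, hE1 v1 h1]⟩
      obtain ⟨g, g1, i, g2⟩ := Fintype.not_linearIndependent_iff.1 fun e : LinearIndependent (ZMod 3)
          ![(⟨_, h5 u⟩ : LinearMap.range f), ⟨_, h5 v⟩, ⟨_, h5 w⟩] => by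
        have := e.fintype_card_le_finrank
        rw [Fintype.card_fin] at this
        omega
      refine ⟨g 0, g 1, g 2, fun e => g2 (by fin_cases i; exacts [e.1, e.2.1, e.2.2]), ?_⟩
      simpa [Fin.sum_univ_three] using congrArg Subtype.val g1
    · rwa [show b * (b * x * b⁻¹) * b⁻¹ = x from congrArg Subtype.val e] at b4
  have : Fact (Nat.Prime 3) := ⟨Nat.prime_three⟩
  have hxN : x ∈ pPrimeCore 3 S := by
    let π := QuotientGroup.mk' (pPrimeCore 3 S)
    have h1 : π b ∈ pCore 3 (S ⧸ pPrimeCore 3 S) :=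
      H1.centralizer_pCore_le_of_isSolvable H1.pPrimeCore_quotient_pPrimeCore fun g hg => by
        obtain ⟨g, h2, rfl⟩ := H1.pCore_le_sylow (P.mapSurjective (QuotientGroup.mk'_surjective _)) hg
        obtain ⟨k, h3, h4⟩ := hBZ.ge (Subgroup.mem_zpowers b)
        rw [← h4, ← map_mul, ← map_mul]
        exact congrArg (π ∘ Subtype.val) (Subgroup.mem_center_iff.1 h3 ⟨g, h2⟩)
    have h2 : π (x * (b * x * b⁻¹)) ∈ pCore 3 (S ⧸ pPrimeCore 3 S) := by
      rw [show x * (b * x * b⁻¹) = x * b * x⁻¹ * b⁻¹ by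
        rw [inv_eq_of_mul_eq_one_right h.xx]; simp [mul_assoc], map_mul, map_mul, map_mul, map_inv, map_inv]
      exact mul_mem (Subgroup.Normal.conj_mem inferInstance _ h1 _) (inv_mem h1)
    obtain ⟨n, hn⟩ := H1.isPGroup_pCore ⟨_, h2⟩
    have h3 := H3F.eq_one_of_pow (m := 2) (n := 3 ^ n) (Nat.Coprime.pow_right n (by norm_num))
      (by rw [← map_pow, sq, h.xy2, map_one]) (congrArg Subtype.val hn)
    rw [← h.bxy]
    exact Subgroup.Normal.conj_mem inferInstance _ ((QuotientGroup.eq_one_iff _).1 h3) b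
  have n1 : Subgroup.zpowers b ≤ Subgroup.normalizer (pPrimeCore 3 S : Set S) := Subgroup.le_normalizer_of_normal
  obtain ⟨F₀, F₁, a1, a2, a3, a4, a5, a6, ρ', b', x', y', h'⟩ := h.exists_irr
    (R := ⁅pPrimeCore 3 S, Subgroup.zpowers b⁆) (Subgroup.normalizer_commutator_ge_right _ _)
    (H1.coprime_card_pPrimeCore.coprime_dvd_left
      (Subgroup.card_dvd_of_le (H2.commutator_le_of_le_normalizer n1)))
    (H2.commutator_commutator_eq n1 (h.cop H1.coprime_card_pPrimeCore)).ge (h.mem_comm hxN)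
  refine ⟨(h'.two h'.isPGroup).imp (fun e => ⟨H3F.elem_of_sq fun a ha => ?_, ?_⟩)
    fun ⟨e1, e2, A, e3, e4, e5⟩ => ⟨H76.isExtraspecial_of_equiv (Subgroup.subgroupOfEquivOfLe le_sup_left) e1,
      ?_, A.map (Subgroup.subtype _), Subgroup.map_le_iff_le_comap.2 e3, H3F.elem_of_sq ?_, ?_⟩,
    F₀, F₁, a1, a2, a3, a4, a5, a6⟩
  · exact (sq a).symm.trans (congrArg Subtype.val (e.1.2 ⟨a, Subgroup.mem_sup_left ha⟩ ha))
  · rw [← H2.card_subgroupOf_of_le le_sup_left, e.2]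
  · rw [← H2.card_subgroupOf_of_le le_sup_left, e2]
  · rintro _ ⟨a, ha, rfl⟩
    exact (sq _).symm.trans (congrArg Subtype.val (e4.2 a ha))
  · rw [Subgroup.card_map_of_injective (Subgroup.subtype_injective _), e5]

end Cfsg.Agent.S4415
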