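import Mathlib
import Cfsg.Statements.S4420

set_option autoImplicit false
open Cfsg

namespace Cfsg.Agent.S4420

variable {H : Type*} [Group H]

theorem inverts {A : Subgroup H} (hD : ∀ x : H, x ∉ A → x ^ 2 = 1) {x a : H} (hx : x ∉ A)
    (ha : a ∈ A) : x * a * x⁻¹ = a⁻¹ := by
  have h1 := hD x hx
  have h2 := hD (x * a) (fun h => hx ((A.mul_mem_cancel_right ha).mp h))
  rw [pow_two] at h1 h2
  have h3 : x⁻¹ = x := inv_eq_of_mul_eq_one_right h1
  rw [h3]
  apply eq_inv_of_mul_eq_one_left
  rw [← h2]; group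

theorem comm_of {A : Subgroup H} (hD : ∀ x : H, x ∉ A → x ^ 2 = 1) {x a b : H} (hx : x ∉ A)
    (ha : a ∈ A) (hb : b ∈ A) : a * b = b * a := by
  have h1 := inverts hD hx (A.mul_mem ha hb)
  have h2 : x * (a * b) * x⁻¹ = (x * a * x⁻¹) * (x * b * x⁻¹) := by group
  rw [h2, inverts hD hx ha, inverts hD hx hb] at h1
  have := congrArg (·⁻¹) h1
  simpa using this.symm


/-- Structure of groups in which every element outside some proper subgroup has square 1. Let H be a finite group with a proper subgroup A such that every element outside A has square 1. Then H has an abelian normal subgroup B of index 2 such that every element outside B is an involution inverting every element of B; and if H is not an elementary abelian 2-group, B is the only abelian normal subgroup of index 2 with this property. -/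
theorem result {H : Type*} [Group H] [Finite H] (A : Subgroup H) (hA : A ≠ ⊤) (hD : ∀ x : H, x ∉ A → x ^ 2 = 1) :
    ∃ B : Subgroup H, B.Normal ∧ IsMulCommutative ↥B ∧ B.index = 2 ∧
      (∀ x : H, x ∉ B → x ^ 2 = 1 ∧ ∀ b ∈ B, x * b * x⁻¹ = b⁻¹) ∧
      (¬ (IsMulCommutative H ∧ ∀ x : H, x ^ 2 = 1) →
        ∀ B' : Subgroup H, B'.Normal → IsMulCommutative ↥B' → B'.index = 2 →
          (∀ x : H, x ∉ B' → x ^ 2 = 1 ∧ ∀ b ∈ B', x * b * x⁻¹ = b⁻¹) → B' = B) := by
  obtain ⟨M, hM, hAM⟩ := (eq_top_or_exists_le_coatom A).resolve_left hA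
  have hD' : ∀ x : H, x ∉ M → x ^ 2 = 1 := fun x hx => hD x (fun h => hx (hAM h))
  obtain ⟨x, hx⟩ : ∃ x, x ∉ M := by
    by_contra hc
    push Not at hc
    exact hM.1 (eq_top_iff.mpr fun x _ => hc x)
  have hMn : M.Normal := ⟨fun a ha g => by
    by_cases hg : g ∈ M
    · exact M.mul_mem (M.mul_mem hg ha) (M.inv_mem hg)
    · rw [inverts hD' hg ha]; exact M.inv_mem ha⟩
  have hx2 : x * x = 1 := by rw [← pow_two]; exact hD' x hx
  have hidx : M.index = 2 := by
    rw [Subgroup.index_eq_two_iff]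
    refine ⟨x, fun b => ?_⟩
    have htop : M ⊔ Subgroup.zpowers x = ⊤ := by
      apply hM.2
      refine lt_of_le_of_ne le_sup_left fun h => hx ?_
      rw [h]
      exact Subgroup.mem_sup_right (Subgroup.mem_zpowers x)
    have hb : b ∈ M ⊔ Subgroup.zpowers x := htop ▸ Subgroup.mem_top b
    rw [← SetLike.mem_coe, Subgroup.normal_mul] at hb
    obtain ⟨m, hm, _, ⟨k, rfl⟩, rfl⟩ := hb
    have hk : x ^ k = 1 ∨ x ^ k = x := by
      have h2 : x ^ (2 : ℤ) = 1 := by rw [zpow_two, hx2]
      rcases Int.even_or_odd' k with ⟨j, rfl | rfl⟩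
      · left; rw [zpow_mul, h2, one_zpow]
      · right; rw [zpow_add, zpow_mul, h2, one_zpow, one_mul, zpow_one]
    rcases hk with hk | hk
    · simp only [hk, mul_one]
      right
      exact ⟨hm, fun h => hx ((M.mul_mem_cancel_left hm).mp h)⟩
    · simp only [hk, mul_assoc, hx2, mul_one]
      left
      exact ⟨hm, fun h => hx ((M.mul_mem_cancel_left hm).mp h)⟩
  refine ⟨M, hMn, ⟨⟨fun a b => Subtype.ext (comm_of hD' hx a.2 b.2)⟩⟩, hidx,
    fun y hy => ⟨hD' y hy, fun b hb => inverts hD' hy hb⟩, ?_⟩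
  intro hne B' _ _ hB'idx hB'
  by_contra hBM
  apply hne
  have hall : ∀ y : H, y ^ 2 = 1 := by
    intro y
    by_cases hy : y ∈ M
    · by_cases hy' : y ∈ B'
      · obtain ⟨u, huM, huB⟩ : ∃ u, u ∈ M ∧ u ∉ B' := by
          by_contra hc
          push Not at hc
          have hle : M ≤ B' := hc
          have h1 := Subgroup.relIndex_mul_index hle
          rw [hidx, hB'idx] at h1
          have h2 : M.relIndex B' = 1 := by omega
          exact hBM (le_antisymm (Subgroup.relIndex_eq_one.mp h2) hle)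
        have h1 := (hB' u huB).2 y hy'
        rw [comm_of hD' hx huM hy, mul_inv_cancel_right] at h1
        rw [pow_two]
        nth_rewrite 1 [h1]
        simp
      · exact (hB' y hy').1
    · exact hD' y hy
  refine ⟨⟨⟨fun a b => ?_⟩⟩, hall⟩
  have h1 : ∀ y : H, y⁻¹ = y := fun y => inv_eq_of_mul_eq_one_right (by rw [← pow_two]; exact hall y)
  rw [← h1 (a * b), mul_inv_rev, h1, h1]

end Cfsg.Agent.S4420
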