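import Mathlib
import Cfsg.Statements.S4452
import Cfsg.Agent.Lib.Glaub.Solvable
import Cfsg.Agent.Lib.Char.ExtMain
import Cfsg.Agent.Lib.Core.CoprimeBasic
-- import your own Cfsg.Agent.* helpers here

set_option autoImplicit false
set_option linter.style.haveILetI false
open Cfsg

namespace Cfsg.Agent.S4452

theorem charDegree_eq {G : Type*} [Group G] {χ : G → ℂ} {n : ℕ} (h : χ 1 = n) :
    charDegree χ = n := by
  rw [charDegree, h]; simp

theorem res_irr_iff {G : Type*} [Group G] [Finite G] (K : Subgroup G) [hK : K.Normal]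
    (hcop : K.index.Coprime (Nat.card K)) {χ : G → ℂ} (hχ : IsIrrCharacter G χ) :
    (charDegree χ).Coprime K.index ↔ IsIrrCharacter K (fun k : K => χ k) := by
  classical
  haveI : Fintype G := Fintype.ofFinite _
  haveI : Fintype K := Fintype.ofFinite _
  constructor
  · intro h
    obtain ⟨θ, hθ, hχθ⟩ := H7.exists_irr_under K (H6.irr_isClassFunction hχ) (H6.irr_one_ne_zero hχ)
    obtain ⟨e, -, he, -⟩ := H7.clifford_nat hχ hθ hχθ
    have hd := H7.clifford_degree hχ hθ hχθ
    obtain ⟨m, hm⟩ := H6.char_one_nat (H6.irr_isCharacter hθ)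
    rw [he, hm] at hd
    have hd' : charDegree χ = e * (H7.inertia θ).index * m := charDegree_eq (by exact_mod_cast hd)
    have h1 : (H7.inertia θ).index = 1 :=
      Nat.eq_one_of_dvd_coprimes h ⟨e * m, by rw [hd']; ring⟩
        (Subgroup.index_dvd_of_le (H7.le_inertia (H6.irr_isClassFunction hθ)))
    have h2 := H7.clifford_of_invariant hχ hθ (Subgroup.index_eq_one.1 h1) hχθ
    rw [he] at h2
    have h3 : e = 1 := Nat.eq_one_of_dvd_coprimes h ⟨_, by rw [hd', mul_assoc]⟩
      (H31.ramification_dvd_index K hθ hχ (fun n => congrFun h2 n))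
    rw [h2, h3, Nat.cast_one, one_smul]
    exact hθ
  · intro h
    obtain ⟨n, -, hn1, hn2⟩ := H6.irr_one_dvd_card h
    rw [charDegree_eq (n := n) hn1]
    exact Nat.Coprime.coprime_dvd_left hn2 hcop.symm

theorem card_coprime_degree {G : Type*} [Group G] [Finite G] (K : Subgroup G) [hK : K.Normal]
    (hcop : K.index.Coprime (Nat.card K)) :
    Nat.card {χ : IrrCharacter G // (charDegree (χ : G → ℂ)).Coprime K.index} =
      Nat.card {θ : IrrCharacter K // ∀ (g : G) (n : K),
        θ.1 ⟨g * n * g⁻¹, hK.conj_mem (n : G) n.2 g⟩ = θ.1 n} * Nat.card (G ⧸ K →* ℂˣ) := by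
  have ex := fun θ : {θ : IrrCharacter K // ∀ (g : G) (n : K),
    θ.1 ⟨g * n * g⁻¹, hK.conj_mem (n : G) n.2 g⟩ = θ.1 n} =>
      H31.extends_of_coprime K hcop θ.1.2 θ.2
  choose ext h1 h2 using ex
  have h3 : ∀ θ (lam : G ⧸ K →* ℂˣ), (fun k : K => ext θ k * (lam ((k : G) : G ⧸ K) : ℂ)) = θ.1.1 := by
    intro θ lam
    funext k
    rw [(QuotientGroup.eq_one_iff _).2 k.2, h2]
    simp
  rw [← Nat.card_prod, eq_comm]
  refine Nat.card_congr (Equiv.ofBijective (fun x =>
    ⟨⟨_, H6.isIrrCharacter_mul_hom (h1 x.1) (x.2.comp (QuotientGroup.mk' K))⟩, ?_⟩) ⟨?_, ?_⟩)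
  · rw [res_irr_iff K hcop (H6.isIrrCharacter_mul_hom (h1 x.1) (x.2.comp (QuotientGroup.mk' K)))]
    have := x.1.1.2
    rw [← h3 x.1 x.2] at this
    exact this
  · rintro ⟨θ, lam⟩ ⟨θ', lam'⟩ h
    have h4 : (fun g : G => ext θ g * (lam (g : G ⧸ K) : ℂ)) =
        fun g : G => ext θ' g * (lam' (g : G ⧸ K) : ℂ) := congrArg (fun x => x.1.1) h
    have h5 : θ = θ' := by
      apply Subtype.ext
      apply Subtype.ext
      rw [← h3 θ lam, ← h3 θ' lam']
      funext k
      exact congrFun h4 k
    subst h5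
    have hr : IsIrrCharacter K (fun k : K => ext θ k) := by
      have := θ.1.2
      rw [← funext (h2 θ)] at this
      exact this
    have h6 := H31.gallagher_inj K (H6.irr_isCharacter (h1 θ)) hr
      (H6.isIrrCharacter_hom (lam.comp (QuotientGroup.mk' K))) (fun n hn => by
        simp [(QuotientGroup.eq_one_iff _).2 hn])
      (H6.isIrrCharacter_hom (lam'.comp (QuotientGroup.mk' K))) (fun n hn => by
        simp [(QuotientGroup.eq_one_iff _).2 hn])
      (by rw [mul_comm, mul_comm _ (ext θ)]; exact h4)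
    refine Prod.ext rfl (MonoidHom.ext fun q => ?_)
    obtain ⟨g, rfl⟩ := QuotientGroup.mk_surjective q
    exact Units.ext (congrFun h6 g)
  · rintro ⟨χ, hχ⟩
    rw [res_irr_iff K hcop χ.2] at hχ
    let θ : {θ : IrrCharacter K // ∀ (g : G) (n : K),
      θ.1 ⟨g * n * g⁻¹, hK.conj_mem (n : G) n.2 g⟩ = θ.1 n} :=
      ⟨⟨_, hχ⟩, fun g n => H6.irr_isClassFunction χ.2 _ _⟩
    obtain ⟨B, hB, hB2⟩ := H31.exists_hom_of_two_extensions K hχ (H6.irr_isCharacter (h1 θ))
      (H6.irr_isCharacter χ.2) (h2 θ) (fun _ => rfl)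
    refine ⟨(θ, QuotientGroup.lift K B hB), Subtype.ext (Subtype.ext (funext fun g => ?_))⟩
    rw [hB2 g, mul_comm]
    rfl

/-- Let the finite group G be the product of a normal subgroup K and a solvable subgroup H of coprime orders, and let N = N_G(H). Then the number of irreducible characters of G of degree coprime to the order of H equals the number of irreducible characters of N of degree coprime to the order of H. (The two sets are in fact in a canonical bijection; only the equality of their sizes is stated here.) -/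
theorem result {G : Type*} [Group G] [Finite G] (K H : Subgroup G) [K.Normal] (hKH : K ⊔ H = ⊤) (hcop : (Nat.card K).Coprime (Nat.card H)) (hsolv : Group.IsSolvable H) : Nat.card {χ : Cfsg.IrrCharacter G // (Cfsg.charDegree (χ : G → ℂ)).Coprime (Nat.card H)} = Nat.card {η : Cfsg.IrrCharacter (Subgroup.normalizer (H : Set G)) // (Cfsg.charDegree (η : Subgroup.normalizer (H : Set G) → ℂ)).Coprime (Nat.card H)} := by
  classical
  let N := Subgroup.normalizer (H : Set G)
  have hHN : H ≤ N := Subgroup.le_normalizer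
  have hd : Disjoint K H := Subgroup.disjoint_of_coprime_natCard hcop
  have hcompl : K.IsComplement' H := Subgroup.isComplement'_of_disjoint_and_mul_eq_univ hd (by
    rw [← Subgroup.normal_mul, hKH, Subgroup.coe_top])
  have hi : K.index = Nat.card H := hcompl.symm.index_eq_card
  let f : N ⧸ K.subgroupOf N →* G ⧸ K := QuotientGroup.map _ _ N.subtype fun x hx => hx
  have hf : Function.Bijective f := by
    constructor
    · rw [injective_iff_map_eq_one]
      intro q hq
      obtain ⟨x, rfl⟩ := QuotientGroup.mk_surjective q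
      exact (QuotientGroup.eq_one_iff _).2 ((QuotientGroup.eq_one_iff (x : G)).1 hq)
    · intro q
      obtain ⟨g, rfl⟩ := QuotientGroup.mk_surjective q
      obtain ⟨⟨k, h⟩, rfl⟩ := hcompl.2 g
      refine ⟨((⟨h, hHN h.2⟩ : N) : N ⧸ K.subgroupOf N), ?_⟩
      change ((h : G) : G ⧸ K) = ((k * h : G) : G ⧸ K)
      rw [QuotientGroup.mk_mul, (QuotientGroup.eq_one_iff (k : G)).2 k.2, one_mul]
  have hi' : (K.subgroupOf N).index = Nat.card H := by
    rw [← hi]
    exact Nat.card_congr (Equiv.ofBijective f hf)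
  have hc1 : K.index.Coprime (Nat.card K) := hi ▸ hcop.symm
  let ι : K.subgroupOf N →* K := H7.subgroupOfHom K N
  have hι : Function.Injective ι := fun x y h =>
    Subtype.ext (Subtype.ext (congrArg (fun z : K => (z : G)) h))
  have hc2 : (K.subgroupOf N).index.Coprime (Nat.card (K.subgroupOf N)) := by
    rw [hi']
    exact Nat.Coprime.coprime_dvd_right (Subgroup.card_dvd_of_injective ι hι) hcop.symm
  have e1 := card_coprime_degree K hc1
  have e2 := card_coprime_degree (K.subgroupOf N) hc2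
  rw [hi] at e1
  rw [hi'] at e2
  rw [e1, e2]
  have hcomm : ∀ x : K.subgroupOf N, ∀ h ∈ H, h * (x : N) * h⁻¹ = (x : N) := by
    intro x h hh
    have h1 : h * (x : N) * h⁻¹ * ((x : N) : G)⁻¹ ∈ K :=
      K.mul_mem (Subgroup.Normal.conj_mem (H := K) inferInstance _ x.2 h) (K.inv_mem x.2)
    have h2 : h * (x : N) * h⁻¹ * ((x : N) : G)⁻¹ ∈ H := by
      have := (Subgroup.mem_normalizer_iff.1 (x : N).2 h⁻¹).1 (H.inv_mem hh)
      rw [mul_assoc h, mul_assoc h]
      exact H.mul_mem hh this
    exact mul_inv_eq_one.1 (Subgroup.disjoint_def.1 hd h1 h2)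
  congr 1
  · have hnorm : ∀ s ∈ H, ∀ g ∈ K, s * g * s⁻¹ ∈ K := fun s _ g hg =>
      Subgroup.Normal.conj_mem inferInstance g hg s
    letI := H88.conjAction K H hnorm
    have h1 := H88.card_inv_irr (A := H) (G := K) hsolv hcop ι hι (by
      intro g
      constructor
      · rintro ⟨x, rfl⟩ a
        exact Subtype.ext (hcomm x a a.2)
      · intro h
        have hg : (g : G) ∈ N := Subgroup.centralizer_le_normalizer _
          (Subgroup.mem_centralizer_iff.2 fun a ha =>
            mul_inv_eq_iff_eq_mul.1 (congrArg Subtype.val (h ⟨a, ha⟩)))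
        exact ⟨⟨⟨g, hg⟩, g.2⟩, rfl⟩)
    refine Eq.trans (Nat.card_congr (Equiv.subtypeEquivRight
      (q := fun θ : IrrCharacter K => H88.Inv H θ.1) fun θ => ⟨fun h a k => h a k, ?_⟩))
      (h1.trans (Nat.card_congr (Equiv.subtypeUnivEquiv ?_).symm))
    · intro h g n
      obtain ⟨⟨k, a⟩, rfl⟩ := hcompl.2 g
      rw [← h a n, ← H6.irr_isClassFunction θ.2 ((a : H) • n) k]
      refine congrArg θ.1 (Subtype.ext ?_)
      change (k : G) * a * n * (k * a : G)⁻¹ = k * (a * n * (a : G)⁻¹) * (k : G)⁻¹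
      group
    · intro θ g n
      obtain ⟨⟨k, a⟩, hka⟩ := hcompl.2 g
      have hk : (k : G) ∈ N := by
        have : (k : G) = g * (a : G)⁻¹ := eq_mul_inv_of_mul_eq hka
        rw [this]
        exact N.mul_mem g.2 (N.inv_mem (hHN a.2))
      rw [← H6.irr_isClassFunction θ.2 n ⟨⟨k, hk⟩, k.2⟩]
      refine congrArg θ.1 (Subtype.ext (Subtype.ext ?_))
      change (g : G) * (n : N) * (g : G)⁻¹ = k * (n : N) * (k : G)⁻¹
      have hka' : (k : G) * a = g := hka
      conv_rhs => rw [← hcomm n a a.2]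
      rw [← hka']
      group
  · exact Nat.card_congr (MulEquiv.ofBijective f hf).symm.monoidHomCongrLeftEquiv

end Cfsg.Agent.S4452
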