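import Cfsg.Statements.S4488
import Mathlib
import Cfsg.Agent.Base
import Cfsg.Agent.Lib.Lin35.Schur

set_option autoImplicit false
open Cfsg

namespace Cfsg.Agent.S4488

/-- Let the finite group G have a faithful p-rational character χ of degree n (all values of χ lie in the field generated over ℚ by a root of unity of order prime to p), and let p^a be the order of a Sylow p-subgroup of G. Then a ≤ Σ_{i ≥ 0} ⌊n / ((p − 1)·p^i)⌋ (a finite sum; the terms vanish once (p − 1)p^i > n). -/
theorem result {G : Type*} [Group G] [Finite G] (p : ℕ) (hp : p.Prime) (χ : G → ℂ) (hχ : Cfsg.IsCharacter G χ) (hfaith : ∀ g : G, χ g = χ 1 → g = 1) (hrat : (∃ r : ℕ, 0 < r ∧ ¬ p ∣ r ∧ ∀ g : G, χ g ∈ IntermediateField.adjoin ℚ ({Complex.exp (2 * Real.pi * Complex.I / r)} : Set ℂ))) (n : ℕ) (hn : Cfsg.charDegree χ = n) : (Nat.card G).factorization p ≤ ∑ i ∈ Finset.range (n + 1), n / ((p - 1) * p ^ i) := by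
  haveI := Fact.mk hp
  obtain ⟨P⟩ : Nonempty (Sylow p G) := inferInstance
  obtain ⟨r, hr, hpr, hrat⟩ := hrat
  have hn' := H35L.one_eq_of_charDegree hχ hn
  have hψ := H6.isCharacter_restrict (P : Subgroup G) hχ
  have h := H35L.schur_bound hp P.isPGroup' hψ (fun x j hj => by
    obtain ⟨k, hk⟩ := P.isPGroup' x
    exact H35L.rat_of_mem_adjoin hχ hp hr hpr (k := k) (x := (x : G))
      (by exact_mod_cast congrArg Subtype.val hk) (hrat _) hj) (n := n) hn'
  have hb : H6.charKer (fun x : (P : Subgroup G) => χ x) = ⊥ := by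
    rw [eq_bot_iff]
    intro x hx
    rw [H6.mem_charKer hψ] at hx
    exact Subtype.ext (hfaith _ hx)
  rw [hb, Subgroup.index_bot, P.card_eq_multiplicity, hp.factorization_pow,
    Finsupp.single_eq_same] at h
  exact h

end Cfsg.Agent.S4488
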