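import Mathlib
import Cfsg.Statements.S4521
import Cfsg.Agent.Lib.H85.Prin
import Cfsg.Agent.Lib.Char.More
-- import your own Cfsg.Agent.* helpers here

set_option autoImplicit false
open Cfsg

namespace Cfsg.Agent.S4521

/-- Let the finite group G be generated by subgroups U₁ and U₂ that commute elementwise and whose intersection is a p-group, and let M be a maximal ideal of the algebraic integers containing the prime p. If the irreducible character χ of G has the irreducible constituents ψ₁ on U₁ and ψ₂ on U₂, then χ lies in the principal block of G if and only if ψ₁ and ψ₂ lie in the principal blocks of U₁ and U₂. -/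
theorem result {G : Type*} [Group G] [Fintype G] (p : ℕ) [Fact p.Prime] (M : Ideal Cfsg.AlgInt) (hM : Cfsg.IsPModular p M) (U₁ U₂ : Subgroup G) [Fintype U₁] [Fintype U₂] (hcomm : ∀ u ∈ U₁, ∀ v ∈ U₂, u * v = v * u) (hgen : U₁ ⊔ U₂ = ⊤) (hZ : IsPGroup p ↥(U₁ ⊓ U₂)) (χ : Cfsg.IrrCharacter G) (ψ₁ : Cfsg.IrrCharacter U₁) (ψ₂ : Cfsg.IrrCharacter U₂) (h₁ : Cfsg.classInner (fun u : U₁ => (χ : G → ℂ) u) (ψ₁ : U₁ → ℂ) ≠ 0) (h₂ : Cfsg.classInner (fun u : U₂ => (χ : G → ℂ) u) (ψ₂ : U₂ → ℂ) ≠ 0) : χ ∈ Cfsg.principalBlock M G ↔ (ψ₁ ∈ Cfsg.principalBlock M U₁ ∧ ψ₂ ∈ Cfsg.principalBlock M U₂) := by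
  classical
  let μ : U₁ × U₂ →* G := MonoidHom.noncommCoprod U₁.subtype U₂.subtype
    (fun u v => hcomm u u.2 v v.2)
  have hμ : ∀ x : U₁ × U₂, μ x = (x.1 : G) * (x.2 : G) := fun x => rfl
  have hsurj : Function.Surjective μ := by
    rw [← MonoidHom.range_eq_top, eq_top_iff, ← hgen, sup_le_iff]
    constructor
    · intro u hu; exact ⟨(⟨u, hu⟩, 1), by simp [hμ]⟩
    · intro u hu; exact ⟨(1, ⟨u, hu⟩), by simp [hμ]⟩
  obtain ⟨φ, ψ, hφ, hψ, e⟩ := (H6.isIrrCharacter_prod_iff _).1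
    (H6.isIrrCharacter_comp_surjective μ hsurj χ.2)
  have e' : ∀ (u : U₁) (v : U₂), (χ : G → ℂ) (u * v) = φ u * ψ v := fun u v => congrFun e (u, v)
  have e1 : φ = ψ₁ := by
    apply H6.irr_eq_of_inner_ne_zero hφ ψ₁.2
    intro h0
    apply h₁
    have : (fun u : U₁ => (χ : G → ℂ) u) = ψ 1 • φ := by
      funext u; have := e' u 1; simp at this; simp [this, mul_comm]
    rw [this, H6.classInner_smul_left, h0, mul_zero]
  have e2 : ψ = ψ₂ := by
    apply H6.irr_eq_of_inner_ne_zero hψ ψ₂.2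
    intro h0
    apply h₂
    have : (fun u : U₂ => (χ : G → ℂ) u) = φ 1 • ψ := by
      funext u; have := e' 1 u; simp at this; simp [this]
    rw [this, H6.classInner_smul_left, h0, mul_zero]
  subst e1 e2
  rw [H85.mem_prin_iff hM, H85.mem_prin_iff hM, H85.mem_prin_iff hM, ← mul_ne_zero_iff,
    H85.sum_reg_eq, H85.sum_reg_eq, H85.sum_reg_eq, Finset.sum_mul_sum, ← Finset.sum_product']
  apply Iff.of_eq
  congr 1
  symm
  refine Finset.sum_bij (fun x _ => μ x) ?_ ?_ ?_ ?_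
  · rintro ⟨u, v⟩ h
    simp only [Finset.mem_product, Finset.mem_filter, Finset.mem_univ, true_and] at h ⊢
    rw [hμ]
    exact H35.not_dvd_orderOf_mul (by rw [Subgroup.orderOf_coe]; exact h.1)
      (by rw [Subgroup.orderOf_coe]; exact h.2) (hcomm u u.2 v v.2)
  · rintro ⟨u, v⟩ h ⟨u', v'⟩ h' hh
    simp only [Finset.mem_product, Finset.mem_filter, Finset.mem_univ, true_and] at h h'
    rw [hμ, hμ] at hh
    simp only at hh
    have hz : (u' : G)⁻¹ * u = v' * (v : G)⁻¹ := by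
      rw [inv_mul_eq_iff_eq_mul, ← mul_assoc, ← hh]; simp
    have hz1 : (u' : G)⁻¹ * u ∈ U₁ := U₁.mul_mem (U₁.inv_mem u'.2) u.2
    have hz2 : (u' : G)⁻¹ * u ∈ U₂ := hz ▸ U₂.mul_mem v'.2 (U₂.inv_mem v.2)
    have hp : H35.IsPElt p ((u' : G)⁻¹ * u) := H35.isPElt_of_mem hZ ⟨hz1, hz2⟩
    have hc : Commute ((u' : G)⁻¹ * u) u' := (hcomm _ u'.2 _ hz2).symm
    have h3 := H35.pReg_pElt_mul hp hc
    have h4 : (u' : G)⁻¹ * u * u' = u := by rw [hc.eq]; simp
    rw [h4, (H35.pReg_eq_self_iff p).2 (by rw [Subgroup.orderOf_coe]; exact h.1),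
      (H35.pReg_eq_self_iff p).2 (by rw [Subgroup.orderOf_coe]; exact h'.1)] at h3
    rw [h3] at hh
    exact Prod.ext (Subtype.ext h3) (Subtype.ext (mul_left_cancel hh))
  · intro g hg
    simp only [Finset.mem_filter, Finset.mem_univ, true_and] at hg
    obtain ⟨⟨u, v⟩, rfl⟩ := hsurj g
    refine ⟨(H35.pReg p u, H35.pReg p v), ?_, ?_⟩
    · simp only [Finset.mem_product, Finset.mem_filter, Finset.mem_univ, true_and]
      exact ⟨H35.not_dvd_orderOf_pReg p u, H35.not_dvd_orderOf_pReg p v⟩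
    · rw [hμ] at hg ⊢
      rw [hμ]
      simp only
      rw [← H35.pReg_coe, ← H35.pReg_coe, ← H35.pReg_mul p (hcomm u u.2 v v.2),
        (H35.pReg_eq_self_iff p).2 hg]
  · rintro ⟨u, v⟩ -
    exact (e' u v).symm

end Cfsg.Agent.S4521
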