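import Cfsg.Statements.S4528
import Mathlib
import Cfsg.Agent.Lib.Tame.Final

set_option autoImplicit false
set_option linter.style.haveILetI false
open Cfsg

namespace Cfsg.Agent.S4528

/-- Let B be a 2-block of the finite group G (relative to a maximal ideal M of the algebraic integers containing 2) whose defect group D is dihedral of order 2 ^ n with n ≥ 3. Then B contains exactly 2 ^ (n - 2) + 3 irreducible characters, its 2-regular rank (the number of irreducible Brauer characters) is between 1 and 3, exactly four of its members have height zero, and every member has height at most one. -/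
theorem result {G : Type*} [Group G] [Finite G] (M : Ideal Cfsg.AlgInt) (hM : Cfsg.IsPModular 2 M) (B : Set (Cfsg.IrrCharacter G)) (hB : Cfsg.IsPBlock M B) (D : Subgroup G) (hD : Cfsg.IsDefectGroup 2 M B D) (n : ℕ) (hn : 3 ≤ n) (hdih : Nonempty (D ≃* DihedralGroup (2 ^ (n - 1)))) : Nat.card B = 2 ^ (n - 2) + 3 ∧ 1 ≤ Cfsg.blockRank 2 B ∧ Cfsg.blockRank 2 B ≤ 3 ∧ Nat.card {χ : Cfsg.IrrCharacter G // χ ∈ B ∧ Cfsg.blockHeight 2 B (χ : G → ℂ) = 0} = 4 ∧ ∀ χ ∈ B, Cfsg.blockHeight 2 B (χ : G → ℂ) ≤ 1 := by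
  obtain ⟨k, rfl⟩ : ∃ k, n = k + 3 := ⟨n - 3, by omega⟩
  obtain ⟨φ⟩ := hdih
  letI := Fintype.ofFinite G
  haveI := H33.isMaximal_of hM
  obtain ⟨e, h⟩ := H85.exists_mp hM hB hD
  obtain ⟨x, hx⟩ := H85.exists_cycP 2 (k + 1)
  letI := Fintype.ofFinite (rootsOfUnity (2 ^ (k + 1 + 1)) ℂ)
  obtain ⟨ι, y, t, h2⟩ := H33.Tame.exists_tm_dihedral φ hx
  obtain ⟨g, c₁, c₂, k1, k2, k3, k4, k5, -, k6, -, k7, -⟩ :=
    @H33.Tame.tame_main _ _ _ _ _ _ _ _ _ _ _ _ _ _ _ _ (H33.Tame.noExo hM) h t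
      (Classical.dec _) (Classical.dec _)
  have k8 := k6 h2
  have k9 := k7 (t.sq_neg_one.trans h2)
  obtain rfl : g = 0 := by omega
  refine ⟨k1, by split_ifs at k2 <;> omega, by split_ifs at k2 <;> omega, k4, fun χ hχ => ?_⟩
  have := k5 χ hχ
  omega

end Cfsg.Agent.S4528
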