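import Cfsg.Statements.S4529
import Mathlib
import Cfsg.Agent.Lib.Tame.Final

set_option autoImplicit false
set_option linter.style.haveILetI false
open Cfsg

namespace Cfsg.Agent.S4529

/-- Let B be a 2-block of the finite group G (relative to a maximal ideal M of the algebraic integers containing 2) whose defect group D is semidihedral (quasi-dihedral) of order 2 ^ n, n ≥ 4. Then the number of irreducible characters in B is 2 ^ (n - 2) + 3 or 2 ^ (n - 2) + 4, its 2-regular rank l is between 1 and 3, with l = 3 forcing 2 ^ (n - 2) + 4 characters and l = 1 forcing 2 ^ (n - 2) + 3; exactly four members have height zero, exactly 2 ^ (n - 2) - 1 have height one, and every other member has height n - 2. -/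
theorem result {G : Type*} [Group G] [Finite G] (M : Ideal Cfsg.AlgInt) (hM : Cfsg.IsPModular 2 M) (B : Set (Cfsg.IrrCharacter G)) (hB : Cfsg.IsPBlock M B) (D : Subgroup G) (hD : Cfsg.IsDefectGroup 2 M B D) (n : ℕ) (hn : 4 ≤ n) (hcard : Nat.card D = 2 ^ n) (hsd : Cfsg.IsQuasiDihedral D) : (Nat.card B = 2 ^ (n - 2) + 3 ∨ Nat.card B = 2 ^ (n - 2) + 4) ∧ 1 ≤ Cfsg.blockRank 2 B ∧ Cfsg.blockRank 2 B ≤ 3 ∧ (Cfsg.blockRank 2 B = 3 → Nat.card B = 2 ^ (n - 2) + 4) ∧ (Cfsg.blockRank 2 B = 1 → Nat.card B = 2 ^ (n - 2) + 3) ∧ Nat.card {χ : Cfsg.IrrCharacter G // χ ∈ B ∧ Cfsg.blockHeight 2 B (χ : G → ℂ) = 0} = 4 ∧ Nat.card {χ : Cfsg.IrrCharacter G // χ ∈ B ∧ Cfsg.blockHeight 2 B (χ : G → ℂ) = 1} = 2 ^ (n - 2) - 1 ∧ ∀ χ ∈ B, Cfsg.blockHeight 2 B (χ : G → ℂ) = 0 ∨ Cfsg.blockHeight 2 B (χ : G → ℂ) = 1 ∨ Cfsg.blockHeight 2 B (χ : G → ℂ) = n - 2 := by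
  letI := Fintype.ofFinite G
  haveI := H33.isMaximal_of hM
  obtain ⟨k, hk, hk1, hP⟩ := H33.Tame.exists_tm_quasi hsd
  obtain rfl : n = k + 3 := Nat.pow_right_injective le_rfl (hcard.symm.trans hk)
  obtain ⟨e, h⟩ := H85.exists_mp hM hB hD
  obtain ⟨x, hx⟩ := H85.exists_cycP 2 (k + 1)
  letI := Fintype.ofFinite (rootsOfUnity (2 ^ (k + 1 + 1)) ℂ)
  obtain ⟨ι, y, t, h2⟩ := hP hx
  obtain ⟨g, c₁, c₂, k1, k2, k3, k4, k5, k0, k6, -, -, k7⟩ :=
    @H33.Tame.tame_main _ _ _ _ _ _ _ _ _ _ _ _ _ _ _ _ (H33.Tame.noExo hM) h t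
      (Classical.dec _) (Classical.dec _)
  rw [← k7 (t.sq_quasi h2)] at k2
  have k8 := k6 h2
  have h1 : k + 3 - 2 = k + 1 := rfl
  rw [h1]
  refine ⟨by omega, by split_ifs at k2 <;> omega, by split_ifs at k2 <;> omega,
    by split_ifs at k2 <;> omega, by split_ifs at k2 <;> omega, k4, k0 hk1, fun χ hχ => ?_⟩
  have := k5 χ hχ
  omega

end Cfsg.Agent.S4529
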