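import Cfsg.Statements.S4530
import Mathlib
import Cfsg.Agent.Lib.Tame.Final

set_option autoImplicit false
set_option linter.style.haveILetI false
open Cfsg

namespace Cfsg.Agent.S4530

/-- Let B be a 2-block of the finite group G (relative to a maximal ideal M of the algebraic integers containing 2) whose defect group D is generalized quaternion of order 2 ^ n, n ≥ 3. Then its 2-regular rank l is between 1 and 3, the number of irreducible characters in B is l + 2 ^ (n - 2) + 2, exactly four members have height zero, and every other member has height one or height n - 2; when n ≥ 4 exactly 2 ^ (n - 2) - 1 members have height one. -/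
theorem result {G : Type*} [Group G] [Finite G] (M : Ideal Cfsg.AlgInt) (hM : Cfsg.IsPModular 2 M) (B : Set (Cfsg.IrrCharacter G)) (hB : Cfsg.IsPBlock M B) (D : Subgroup G) (hD : Cfsg.IsDefectGroup 2 M B D) (n : ℕ) (hn : 3 ≤ n) (hq : Nonempty (D ≃* QuaternionGroup (2 ^ (n - 2)))) : 1 ≤ Cfsg.blockRank 2 B ∧ Cfsg.blockRank 2 B ≤ 3 ∧ Nat.card B = Cfsg.blockRank 2 B + 2 ^ (n - 2) + 2 ∧ Nat.card {χ : Cfsg.IrrCharacter G // χ ∈ B ∧ Cfsg.blockHeight 2 B (χ : G → ℂ) = 0} = 4 ∧ (∀ χ ∈ B, Cfsg.blockHeight 2 B (χ : G → ℂ) = 0 ∨ Cfsg.blockHeight 2 B (χ : G → ℂ) = 1 ∨ Cfsg.blockHeight 2 B (χ : G → ℂ) = n - 2) ∧ (4 ≤ n → Nat.card {χ : Cfsg.IrrCharacter G // χ ∈ B ∧ Cfsg.blockHeight 2 B (χ : G → ℂ) = 1} = 2 ^ (n - 2) - 1) := by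
  obtain ⟨k, rfl⟩ : ∃ k, n = k + 3 := ⟨n - 3, by omega⟩
  obtain ⟨φ⟩ := hq
  letI := Fintype.ofFinite G
  haveI := H33.isMaximal_of hM
  obtain ⟨e, h⟩ := H85.exists_mp hM hB hD
  obtain ⟨x, hx⟩ := H85.exists_cycP 2 (k + 1)
  letI := Fintype.ofFinite (rootsOfUnity (2 ^ (k + 1 + 1)) ℂ)
  obtain ⟨ι, y, t, h2⟩ := H33.Tame.exists_tm_quaternion φ hx
  obtain ⟨g, c₁, c₂, k1, k2, k3, k4, k5, k0, -, k6, -, k7⟩ :=
    @H33.Tame.tame_main _ _ _ _ _ _ _ _ _ _ _ _ _ _ _ _ (H33.Tame.noExo hM) h t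
      (Classical.dec _) (Classical.dec _)
  rw [← k6 h2, ← k7 (t.sq_neg_one.trans h2)] at k2
  have h1 : k + 3 - 2 = k + 1 := rfl
  rw [h1]
  refine ⟨by omega, by omega, by omega, k4, fun χ hχ => ?_, fun hk => k0 (by omega)⟩
  have := k5 χ hχ
  omega

end Cfsg.Agent.S4530
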