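import Cfsg.Statements.S4531
import Mathlib
import Cfsg.Agent.Lib.Tame.Final

set_option autoImplicit false
set_option linter.style.haveILetI false
open Cfsg

namespace Cfsg.Agent.S4531

/-- Let the finite group G have a 2-block B (relative to a maximal ideal M of the algebraic integers containing 2) of 2-regular rank three (three irreducible Brauer characters) whose defect group D is dihedral of order 2 ^ n with n ≥ 3 or semidihedral. Then the centre of G has odd order and G is not solvable. -/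
theorem result {G : Type*} [Group G] [Finite G] (M : Ideal Cfsg.AlgInt) (hM : Cfsg.IsPModular 2 M) (B : Set (Cfsg.IrrCharacter G)) (hB : Cfsg.IsPBlock M B) (D : Subgroup G) (hD : Cfsg.IsDefectGroup 2 M B D) (hD' : (∃ n : ℕ, 3 ≤ n ∧ Nonempty (D ≃* DihedralGroup (2 ^ (n - 1)))) ∨ Cfsg.IsQuasiDihedral D) (hl : Cfsg.blockRank 2 B = 3) : Odd (Nat.card (Subgroup.center G)) ∧ ¬ Group.IsSolvable G := by
  letI := Fintype.ofFinite G
  haveI := H33.isMaximal_of hM
  obtain ⟨e, h⟩ := H85.exists_mp hM hB hD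
  rcases hD' with ⟨n, hn, ⟨φ⟩⟩ | hsd
  · obtain ⟨k, rfl⟩ : ∃ k, n = k + 3 := ⟨n - 3, by omega⟩
    obtain ⟨x, hx⟩ := H85.exists_cycP 2 (k + 1)
    letI := Fintype.ofFinite (rootsOfUnity (2 ^ (k + 1 + 1)) ℂ)
    obtain ⟨ι, y, t, h2⟩ := H33.Tame.exists_tm_dihedral φ hx
    obtain ⟨g, c₁, c₂, -, k2, k3, -, -, -, k6, -, k7, -⟩ :=
      @H33.Tame.tame_main _ _ _ _ _ _ _ _ _ _ _ _ _ _ _ _ (H33.Tame.noExo hM) h t
        (Classical.dec _) (Classical.dec _)
    have h3 := t.sq_neg_one.trans h2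
    have h4 := t.isConj_z h2 fun hy => by rw [if_pos hy] at k2; omega
    have h5 := (t.shift x).isConj_z h3 fun hy => by rw [if_pos hy] at k2; omega
    exact ⟨t.odd_center h h4, t.not_solvable h4 (Or.inr h5)⟩
  · obtain ⟨k, -, hk1, hP⟩ := H33.Tame.exists_tm_quasi hsd
    obtain ⟨x, hx⟩ := H85.exists_cycP 2 (k + 1)
    letI := Fintype.ofFinite (rootsOfUnity (2 ^ (k + 1 + 1)) ℂ)
    obtain ⟨ι, y, t, h2⟩ := hP hx
    obtain ⟨g, c₁, c₂, -, k2, k3, -, -, -, k6, -, -, k7⟩ :=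
      @H33.Tame.tame_main _ _ _ _ _ _ _ _ _ _ _ _ _ _ _ _ (H33.Tame.noExo hM) h t
        (Classical.dec _) (Classical.dec _)
    have h4 := t.isConj_z h2 fun hy => by rw [if_pos hy] at k2; omega
    exact ⟨t.odd_center h h4, t.not_solvable h4 (Or.inl hk1)⟩

end Cfsg.Agent.S4531
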