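import Cfsg.Statements.S4538
import Cfsg.Agent.Lib.ModRep.Blocks
import Cfsg.Agent.Lib.SplitBN.TypeA
-- import your own Cfsg.Agent.* helpers here

set_option autoImplicit false
open Cfsg

namespace Cfsg.Agent.S4538

/-- Let F be a finite field of characteristic p and n ≥ 2. Relative to a maximal ideal M of the algebraic integers containing p, the group SL(n, F) has exactly one p-block of defect zero, and every other p-block has full defect (its defect equals the exponent of p in the order of the group, so its defect groups are Sylow p-subgroups). -/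
theorem result {F : Type*} [Field F] [Fintype F] (n : ℕ) (hn : 2 ≤ n) (p : ℕ) [Fact p.Prime] [CharP F p] (M : Ideal Cfsg.AlgInt) (hM : Cfsg.IsPModular p M) : Nat.card {B : Set (Cfsg.IrrCharacter (Matrix.SpecialLinearGroup (Fin n) F)) // Cfsg.IsPBlock M B ∧ Cfsg.blockDefect p B = 0} = 1 ∧ ∀ B : Set (Cfsg.IrrCharacter (Matrix.SpecialLinearGroup (Fin n) F)), Cfsg.IsPBlock M B → Cfsg.blockDefect p B = 0 ∨ Cfsg.blockDefect p B = (Nat.card (Matrix.SpecialLinearGroup (Fin n) F)).factorization p := by
  obtain ⟨m, rfl⟩ : ∃ m, n = m + 1 := ⟨n - 1, by omega⟩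
  have : Fintype (Matrix.SpecialLinearGroup (Fin (m + 1)) F) := Fintype.ofFinite _
  have : Nonempty (Fin m) := ⟨⟨0, by omega⟩⟩
  exact ⟨H64.MR.card_defect_zero H64.TA.faith H64.TA.r3 H64.TA.top hM, fun B hB =>
    H64.MR.defect_zero_or_full H64.TA.faith H64.TA.r3 H64.TA.top hM H64.TA.connected hB⟩
end Cfsg.Agent.S4538
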