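import Mathlib
import Cfsg.Statements.S4539
import Cfsg.Agent.Lib.H85.Contrib2
-- import your own Cfsg.Agent.* helpers here

set_option autoImplicit false
open Cfsg

namespace Cfsg.Agent.S4539

/-- Let B be a p-block of the finite group G (relative to a maximal ideal M of the algebraic integers containing p) of defect d with defect group D. Let z be an element of D commuting with every element of D, and let b be a block of the centralizer C of z with defect group D that induces B (a major subsection (z, b)). If b has p-regular rank at most two, then B contains at most p ^ d irreducible characters. -/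
theorem result {G : Type*} [Group G] [Finite G] (p : ℕ) [Fact p.Prime] (M : Ideal Cfsg.AlgInt) (hM : Cfsg.IsPModular p M) (B : Set (Cfsg.IrrCharacter G)) (hB : Cfsg.IsPBlock M B) (D : Subgroup G) (hD : Cfsg.IsDefectGroup p M B D) (z : G) (hzD : z ∈ D) (hzc : ∀ d ∈ D, d * z = z * d) (b : Set (Cfsg.IrrCharacter ↥(Subgroup.centralizer ({z} : Set G)))) (hb : Cfsg.IsInducedBlock M (Subgroup.centralizer ({z} : Set G)) b B) (hbD : Cfsg.IsDefectGroup p M b (D.subgroupOf (Subgroup.centralizer ({z} : Set G)))) (hl : Cfsg.blockRank p b ≤ 2) : Nat.card B ≤ p ^ Cfsg.blockDefect p B := by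
  classical
  have := H33.isMaximal_of hM
  let := Fintype.ofFinite G
  let := Fintype.ofFinite (Subgroup.centralizer ({z} : Set G))
  have hC := H84.isCen_singleton z
  have hu : H35.IsPElt p z := H35.isPElt_of_mem (H33.defect_isPGroup hD) hzD
  have hd := H85.defect_eq_of_subgroupOf hM hb hD
    (fun d hd => Subgroup.mem_centralizer_singleton_iff.2 (hzc d hd)) hbD
  by_cases h2 : ∀ f ∈ H85.lat p b, f ≠ 0 → 2 ≤ (H85.qf p b f f).re
  · have := H85.mul_card_le_form hM hu hC hb (H85.qf p b) (by norm_num) h2 _ le_rfl
      fun χ hχ => H85.sub_ne_zero_of_major hM hu hC hb hd (H84.mem_bset.1 hχ)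
    rw [H85.sum_qf_reg hM hb.1, H84.card_bset, hd] at this
    norm_cast at this
    nlinarith [Nat.zero_le (p ^ blockDefect p B)]
  · push Not at h2
    obtain ⟨f, hf, h0, h2⟩ := h2
    have h1 := H85.one_le_qf hf h0
    obtain ⟨n, hn⟩ := H85.qf_int hf hf
    rw [hn, Complex.intCast_re] at h1 h2
    obtain rfl : n = 1 := by
      have h1 : 1 ≤ n := by exact_mod_cast h1
      have h2 : n < 2 := by exact_mod_cast h2
      omega
    obtain ⟨κ, hκ, h⟩ := H85.exists_red_qf hM hb.1
    have h3 : H33.red M (H85.ndeg p b f) ≠ 0 := fun h' => by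
      have := h f hf f hf
      rw [hn, h', mul_zero, H33.red_intCast, Int.cast_one] at this
      exact one_ne_zero this
    have := H85.sum_le_of_lat hM hu hC hb hf (fun _ => 1) fun χ hχ _ => ⟨fun h' => by
      have := (H85.major_lat hM hu hC hb hd hχ hf).2.2 h3
      rw [h'] at this
      simp at this, by simpa using H85.isIntegral_qf_sub_left hu hC (H84.irr_gen χ) hf⟩
    rw [hn, hd] at this
    simp only [Nat.cast_one, one_pow, Finset.sum_const, H84.card_bset, nsmul_eq_mul, mul_one,
      Int.cast_one, Complex.one_re] at this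
    exact_mod_cast this

end Cfsg.Agent.S4539
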