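import Mathlib
import Cfsg.Statements.S4540
import Cfsg.Agent.Lib.H85.Contrib2
-- import your own Cfsg.Agent.* helpers here

set_option autoImplicit false
open Cfsg

namespace Cfsg.Agent.S4540

/-- Let B be a 2-block of the finite group G (relative to a maximal ideal M of the algebraic integers containing 2) of defect d with defect group D. Let z be an element of D commuting with every element of D, and let b be a block of the centralizer C of z with defect group D that induces B (a major subsection (z, b)). If b has 2-regular rank at most three, then 3·k(B) ≤ 3·k₀(B) + 2·Σ 2 ^ h(χ), where k(B) is the number of members of B, k₀(B) the number of members of height zero, and the sum runs over the members χ of B of positive height h(χ); this bound is at most 3·2 ^ d, so in particular B contains at most 2 ^ d irreducible characters. -/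
theorem result {G : Type*} [Group G] [Finite G] (M : Ideal Cfsg.AlgInt) (hM : Cfsg.IsPModular 2 M) (B : Set (Cfsg.IrrCharacter G)) (hB : Cfsg.IsPBlock M B) (D : Subgroup G) (hD : Cfsg.IsDefectGroup 2 M B D) (z : G) (hzD : z ∈ D) (hzc : ∀ d ∈ D, d * z = z * d) (b : Set (Cfsg.IrrCharacter ↥(Subgroup.centralizer ({z} : Set G)))) (hb : Cfsg.IsInducedBlock M (Subgroup.centralizer ({z} : Set G)) b B) (hbD : Cfsg.IsDefectGroup 2 M b (D.subgroupOf (Subgroup.centralizer ({z} : Set G)))) (hl : Cfsg.blockRank 2 b ≤ 3) : 3 * Nat.card B ≤ 3 * Nat.card {χ : Cfsg.IrrCharacter G // χ ∈ B ∧ Cfsg.blockHeight 2 B (χ : G → ℂ) = 0} + 2 * (∑ᶠ χ ∈ {χ : Cfsg.IrrCharacter G | χ ∈ B ∧ 1 ≤ Cfsg.blockHeight 2 B (χ : G → ℂ)}, 2 ^ Cfsg.blockHeight 2 B (χ : G → ℂ)) ∧ 3 * Nat.card {χ : Cfsg.IrrCharacter G // χ ∈ B ∧ Cfsg.blockHeight 2 B (χ : G → ℂ) = 0} + 2 * (∑ᶠ χ ∈ {χ : Cfsg.IrrCharacter G | χ ∈ B ∧ 1 ≤ Cfsg.blockHeight 2 B (χ : G → ℂ)}, 2 ^ Cfsg.blockHeight 2 B (χ : G → ℂ)) ≤ 3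 * 2 ^ Cfsg.blockDefect 2 B := by
  classical
  have := H33.isMaximal_of hM
  let := Fintype.ofFinite G
  let := Fintype.ofFinite (Subgroup.centralizer ({z} : Set G))
  have hC := H84.isCen_singleton z
  have hu : H35.IsPElt 2 z := H35.isPElt_of_mem (H33.defect_isPGroup hD) hzD
  have hd := H85.defect_eq_of_subgroupOf hM hb hD
    (fun d hd => Subgroup.mem_centralizer_singleton_iff.2 (hzc d hd)) hbD
  obtain ⟨a, w, h⟩ := H85.exists_avg hM hu hC hb
  set X := (H84.bset B).filter fun χ : IrrCharacter G => blockHeight 2 B (χ : G → ℂ) = 0 with hX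
  set Y := (H84.bset B).filter fun χ : IrrCharacter G => ¬ blockHeight 2 B (χ : G → ℂ) = 0 with hY
  have hmem : ∀ χ : IrrCharacter G, χ ∈ X ↔ χ ∈ B ∧ blockHeight 2 B (χ : G → ℂ) = 0 := fun χ => by
    rw [hX, Finset.mem_filter, H84.mem_bset]
  have hY' : {χ : IrrCharacter G | χ ∈ B ∧ 1 ≤ blockHeight 2 B (χ : G → ℂ)} = Y := by
    ext χ
    simp [hY, H84.mem_bset, Nat.one_le_iff_ne_zero]
  rw [Nat.subtype_card X hmem, hY', finsum_mem_coe_finset, ← H84.card_bset,
    ← Finset.card_filter_add_card_filter_not (fun χ : IrrCharacter G => blockHeight 2 B (χ : G → ℂ) = 0),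
    ← hX, ← hY]
  constructor
  · have : Y.card * 2 ≤ ∑ χ ∈ Y, 2 ^ blockHeight 2 B (χ : G → ℂ) :=
      Finset.card_nsmul_le_sum _ _ _ fun χ hχ => Nat.le_self_pow (Finset.mem_filter.1 hχ).2 2
    omega
  have key : (3 * X.card + 2 * ∑ χ ∈ Y, 2 ^ blockHeight 2 B (χ : G → ℂ) : ℝ) ≤
      3 * 2 ^ blockDefect 2 B := by
    by_cases h3 : ∀ χ ∈ X, 3 ≤ a χ
    · have h1 := h.sum_a
      rw [← Finset.sum_filter_add_sum_filter_not _
        (fun χ : IrrCharacter G => blockHeight 2 B (χ : G → ℂ) = 0), ← hX, ← hY, hd] at h1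
      have h2 := Finset.card_nsmul_le_sum _ _ _ h3
      have h4 : ∑ χ ∈ Y, 2 * (2 : ℝ) ^ blockHeight 2 B (χ : G → ℂ) ≤ ∑ χ ∈ Y, a χ :=
        Finset.sum_le_sum fun χ hχ => by
          obtain ⟨m, hm, e⟩ := h.pos_height hM hu hC hb hd (H84.mem_bset.1 (Finset.mem_filter.1 hχ).1)
            (Finset.mem_filter.1 hχ).2
          rw [e, ← pow_succ']
          exact le_mul_of_one_le_right (by positivity) (by exact_mod_cast hm)
      have h5 : (blockRank 2 b : ℝ) ≤ 3 := by exact_mod_cast hl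
      rw [← Finset.mul_sum] at h4
      rw [nsmul_eq_mul] at h2
      push_cast at h1
      nlinarith [pow_pos (show (0 : ℝ) < 2 by norm_num) (blockDefect 2 B)]
    · push Not at h3
      obtain ⟨χ', hχ', h3⟩ := h3
      obtain ⟨m, e, h0, ho⟩ := h.odd hM hu hC hb ((hmem _).1 hχ').1
      have ho := ho.2 ((hmem _).1 hχ').2
      rw [e] at h3
      have h3 : m < 3 := by exact_mod_cast h3
      obtain rfl : m = 1 := by obtain ⟨i, rfl⟩ := ho; omega
      have h1 := h.sum_w χ'
      rw [e, ← Finset.sum_filter_add_sum_filter_not _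
        (fun χ : IrrCharacter G => blockHeight 2 B (χ : G → ℂ) = 0), ← hX, ← hY, hd] at h1
      have h2 := Finset.card_nsmul_le_sum X (fun χ => w χ χ') 1 fun χ hχ =>
        h.one_le_w_of_height hM hu hC hb ((hmem _).1 hχ).1
          ((hmem _).1 hχ').1 ((hmem _).1 hχ).2 ((hmem _).1 hχ').2
      have h4 : ∑ χ ∈ Y, (2 : ℝ) ^ blockHeight 2 B (χ : G → ℂ) ≤ ∑ χ ∈ Y, w χ χ' :=
        Finset.sum_le_sum fun χ hχ => by
          have := h.pow_le_w hM hu hC hb hd (H84.mem_bset.1 (Finset.mem_filter.1 hχ).1)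
            ((hmem _).1 hχ').1 ((hmem _).1 hχ').2
          push_cast at this
          exact (le_self_pow₀ (one_le_pow₀ (by norm_num)) two_ne_zero).trans this
      have h5 : 0 ≤ ∑ χ ∈ Y, (2 : ℝ) ^ blockHeight 2 B (χ : G → ℂ) := by positivity
      rw [nsmul_eq_mul] at h2
      push_cast at h1
      linarith
  exact_mod_cast key

end Cfsg.Agent.S4540
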