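import Cfsg.Statements.S4544
import Mathlib
import Cfsg.Agent.Lib.K44.Main

set_option autoImplicit false
open Cfsg

namespace Cfsg.Agent.S4544

/-- Let B be a 2-block of the finite group G (relative to a maximal ideal M of the algebraic integers containing 2) whose defect group D contains a cyclic subgroup of index at most 4 in D. Then B contains at most as many irreducible characters as D has elements. -/
theorem result {G : Type*} [Group G] [Finite G] (M : Ideal Cfsg.AlgInt) (hM : Cfsg.IsPModular 2 M) (B : Set (Cfsg.IrrCharacter G)) (hB : Cfsg.IsPBlock M B) (D : Subgroup G) (hD : Cfsg.IsDefectGroup 2 M B D) (C : Subgroup G) (hCD : C ≤ D) (hcyc : IsCyclic C) (hidx : C.relIndex D ≤ 4) : Nat.card B ≤ Nat.card D := by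
  exact K44.card_le hM hB hD hCD hcyc hidx

end Cfsg.Agent.S4544
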