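import Cfsg.Statements.S4549
import Cfsg.Agent.Lib.Par.Two
import Cfsg.Agent.S0939

set_option autoImplicit false
open Cfsg

namespace Cfsg.Agent.S4549

/-- Let G be a finite group and M a maximal ideal of the algebraic integers containing 2. Let k be a natural number with g ^ k = g ^ 3 for every 2-element g and g ^ k = g for every element g of odd order (such k exist); an irreducible character χ is unchanged by g ↦ g ^ k exactly when it is fixed by the field automorphism that cubes the 2-power roots of unity and fixes the roots of unity of odd order. Then G has a normal 2-complement if and only if every member χ of the principal 2-block of odd degree with χ (g ^ k) = χ g for all g has degree one. -/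
theorem result {G : Type*} [Group G] [Finite G] (M : Ideal Cfsg.AlgInt) (hM : Cfsg.IsPModular 2 M) (k : ℕ) (hk₁ : ∀ g : G, (∃ j : ℕ, orderOf g = 2 ^ j) → g ^ k = g ^ 3) (hk₂ : ∀ g : G, Odd (orderOf g) → g ^ k = g) : Cfsg.HasNormalPComplement 2 G ↔ ∀ χ ∈ Cfsg.principalBlock M G, Odd (Cfsg.charDegree (χ : G → ℂ)) → (∀ g : G, (χ : G → ℂ) (g ^ k) = (χ : G → ℂ) g) → Cfsg.charDegree (χ : G → ℂ) = 1 := by
  constructor
  · intro h χ hχ hodd _
    obtain ⟨N, hN, h1, a, ha⟩ := H4.hasNormalPComplement_iff_exists.1 h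
    have hle : N ≤ pPrimeCore 2 G := le_sSup ⟨hN, (Nat.prime_two.coprime_iff_not_dvd.2 h1).symm⟩
    obtain ⟨b, -, hb⟩ := (Nat.dvd_prime_pow Nat.prime_two).1 (ha ▸ Subgroup.index_dvd_of_le hle)
    rw [Cfsg.Agent.S0939.result 2 M hM ⟨b, hb⟩] at hχ
    have h2 := H87.deg_dvd_index_of_ker χ.2 _ hχ
    rw [hb] at h2
    obtain ⟨c, -, hc⟩ := (Nat.dvd_prime_pow Nat.prime_two).1 h2
    rw [hc] at hodd ⊢
    rcases c with _ | c
    · rfl
    · exact absurd hodd (Nat.not_odd_iff_even.2 ((Nat.even_pow.2 ⟨even_two, c.succ_ne_zero⟩)))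
  · intro h
    by_contra hG
    obtain ⟨hk, e, he⟩ := H14.Par.cube_data hk₁ hk₂
    obtain ⟨χ, h1, h2, h3, -⟩ := H14.Par.exists_nonlinear hM hG hk he
    exact h2 (h χ h1.1 h1.2 h3)

end Cfsg.Agent.S4549
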