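import Mathlib
import Cfsg.Statements.S4550
import Cfsg.Agent.Lib.H85.Prin
import Cfsg.Agent.Lib.Char.Galois
-- import your own Cfsg.Agent.* helpers here

set_option autoImplicit false
open Cfsg

namespace Cfsg.Agent.S4550

/-- Let G be a finite group of even order and M a maximal ideal of the algebraic integers containing 2. Let k be a natural number with g ^ k = g ^ 3 for every 2-element g and g ^ k = g for every element g of odd order (such k exist); an irreducible character χ is unchanged by g ↦ g ^ k exactly when it is fixed by the field automorphism that cubes the 2-power roots of unity and fixes the roots of unity of odd order. Then the number of members χ of the principal 2-block of odd degree with χ (g ^ k) = χ g for all g is even. -/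
theorem result {G : Type*} [Group G] [Finite G] (M : Ideal Cfsg.AlgInt) (hM : Cfsg.IsPModular 2 M) (hev : Even (Nat.card G)) (k : ℕ) (hk₁ : ∀ g : G, (∃ j : ℕ, orderOf g = 2 ^ j) → g ^ k = g ^ 3) (hk₂ : ∀ g : G, Odd (orderOf g) → g ^ k = g) : Even (Nat.card {χ : Cfsg.IrrCharacter G // χ ∈ Cfsg.principalBlock M G ∧ Odd (Cfsg.charDegree (χ : G → ℂ)) ∧ ∀ g : G, (χ : G → ℂ) (g ^ k) = (χ : G → ℂ) g}) := by
  classical
  have := H33.isMaximal_of hM
  have := Fintype.ofFinite G
  have hB : IsPBlock M (principalBlock M G) := H33.isPBlock_principalBlock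
  have hcop : k.Coprime (Nat.card G) := by
    apply Nat.coprime_of_dvd
    intro q hq hqk hqG
    have : Fact q.Prime := ⟨hq⟩
    obtain ⟨g, hg⟩ := exists_prime_orderOf_dvd_card' q hqG
    have h1 : g ^ k = 1 := orderOf_dvd_iff_pow_eq_one.1 (hg ▸ hqk)
    rcases hq.eq_two_or_odd' with rfl | hodd
    · have h2 := hk₁ g ⟨1, by simpa using hg⟩
      rw [h1, eq_comm, ← orderOf_dvd_iff_pow_eq_one, hg] at h2
      omega
    · have h2 := hk₂ g (hg ▸ hodd)
      rw [h1] at h2
      rw [← h2, orderOf_one] at hg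
      exact hq.one_lt.ne hg
  let X := {χ : IrrCharacter G // χ ∈ principalBlock M G ∧ Odd (charDegree (χ : G → ℂ))}
  let f : Function.End X := fun χ =>
    ⟨⟨fun g => (χ.1 : G → ℂ) (g ^ k), H8.isIrrCharacter_pow χ.1.2 hcop⟩,
      H85.mem_prin_of_reg_eq hM χ.2.1 (fun g hg => by
        show _ = (χ.1 : G → ℂ) (g ^ k)
        rw [hk₂ g (Nat.not_even_iff_odd.1 (fun h => hg h.two_dvd))]),
      by
        have : charDegree (fun g => (χ.1 : G → ℂ) (g ^ k)) = charDegree (χ.1 : G → ℂ) :=
          H87.deg_congr (by simp)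
        show Odd (charDegree (fun g => (χ.1 : G → ℂ) (g ^ k)))
        rw [this]; exact χ.2.2⟩
  have hf : ∀ (n : ℕ) (χ : X) (g : G), (((f ^ n) χ).1 : G → ℂ) g = (χ.1 : G → ℂ) (g ^ k ^ n) := by
    intro n
    induction n with
    | zero => intro χ g; rw [pow_zero, pow_zero, pow_one]; rfl
    | succ n ih =>
      intro χ g
      rw [pow_succ']
      show (((f ^ n) χ).1 : G → ℂ) (g ^ k) = _
      rw [ih, ← pow_mul, ← pow_succ']
  set a := (Nat.card G).factorization 2 with ha
  have hpow : ∀ g : G, g ^ k ^ 2 ^ a = g := by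
    intro g
    have h1 : ∀ n : ℕ, ∀ x : G, H35.IsPElt 2 x → x ^ k ^ n = x ^ 3 ^ n := by
      intro n
      induction n with
      | zero => intro x _; simp
      | succ n ih =>
        intro x hx
        rw [pow_succ, pow_mul, ih x hx, hk₁ _ (hx.pow _), ← pow_mul, ← pow_succ]
    have h2 : ∀ n : ℕ, ∀ x : G, ¬ 2 ∣ orderOf x → x ^ k ^ n = x := by
      intro n
      induction n with
      | zero => intro x _; simp
      | succ n ih =>
        intro x hx
        rw [pow_succ, pow_mul, ih x hx, hk₂ _ (Nat.not_even_iff_odd.1 (fun h => hx h.two_dvd))]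
    conv_lhs => rw [← H35.pPart_mul_pReg 2 g]
    rw [(H35.commute_pPart_pReg 2 g).mul_pow, h1 _ _ (H35.isPElt_pPart 2 g),
      h2 _ _ (H35.not_dvd_orderOf_pReg 2 g)]
    conv_rhs => rw [← H35.pPart_mul_pReg 2 g]
    congr 1
    obtain ⟨j, hj⟩ := H35.isPElt_pPart 2 g
    have hja : j ≤ a := by
      have := orderOf_dvd_natCard (H35.pPart 2 g)
      rw [hj] at this
      exact (Nat.Prime.pow_dvd_iff_le_factorization Nat.prime_two Nat.card_pos.ne').1 this
    have h3 : 3 ^ 2 ^ a ≡ 1 [MOD 2 ^ (a + 1)] := by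
      have := Nat.ModEq.pow_totient (x := 3) (n := 2 ^ (a + 1))
        (Nat.Coprime.pow_right _ (by norm_num))
      rwa [Nat.totient_prime_pow Nat.prime_two (Nat.succ_pos a), Nat.succ_sub_one,
        show 2 - 1 = 1 from rfl, mul_one] at this
    conv_rhs => rw [← pow_one (H35.pPart 2 g)]
    rw [pow_eq_pow_iff_modEq, hj]
    exact h3.of_dvd (pow_dvd_pow 2 (by omega))
  have hf1 : f ^ 2 ^ a = 1 := by
    funext χ
    apply Subtype.ext; apply Subtype.ext; funext g
    rw [hf, hpow]; rfl
  have h1 := Equiv.Perm.card_fixedPoints_modEq hf1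
  have h2 : Nat.card {χ : Cfsg.IrrCharacter G // χ ∈ Cfsg.principalBlock M G ∧
      Odd (Cfsg.charDegree (χ : G → ℂ)) ∧ ∀ g : G, (χ : G → ℂ) (g ^ k) = (χ : G → ℂ) g} =
      Fintype.card (Function.fixedPoints f) := by
    rw [← Nat.card_eq_fintype_card]
    refine Nat.card_congr ⟨fun χ => ⟨⟨χ.1, χ.2.1, χ.2.2.1⟩, ?_⟩,
      fun χ => ⟨χ.1.1, χ.1.2.1, χ.1.2.2, ?_⟩, fun _ => rfl, fun _ => rfl⟩
    · apply Subtype.ext; apply Subtype.ext; funext g
      exact χ.2.2.2 g
    · intro g
      exact congrFun (congrArg Subtype.val (congrArg Subtype.val χ.2)) g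
  have h3 : Even (Fintype.card X) := by
    have h4 : ((∑ χ ∈ Finset.univ.filter (· ∈ principalBlock M G),
        charDegree (χ : G → ℂ) ^ 2 : ℕ) : ℂ) =
        Nat.card G * blockCoeff (principalBlock M G) 1 := by
      rw [H33.blockCoeff_eq_sum, ← mul_assoc, mul_inv_cancel₀ (by exact_mod_cast Nat.card_pos.ne'),
        one_mul]
      push_cast
      refine Finset.sum_congr rfl fun χ _ => ?_
      rw [H33.irr_one_eq_charDegree, map_natCast, pow_two]
    have h5 := congrArg (H33.red M) h4
    rw [H33.red_mul (natCast_mem _ _) (H33.blockCoeff_mem_O hB 1),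
      (H33.red_natCast_eq_zero_iff hM _).2 hev.two_dvd, zero_mul,
      H33.red_natCast_eq_zero_iff hM, ← even_iff_two_dvd,
      Finset.even_sum_iff_even_card_odd] at h5
    rw [Fintype.card_subtype]
    convert h5 using 2
    ext χ
    simp [Nat.odd_pow_iff]
  rw [h2, Nat.even_iff, ← h1, ← Nat.even_iff]
  exact h3

end Cfsg.Agent.S4550
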