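import Mathlib
import Cfsg.Statements.S4552
import Cfsg.Agent.Lib.H85.Rk2Blk
-- import your own Cfsg.Agent.* helpers here

set_option autoImplicit false
open Cfsg

namespace Cfsg.Agent.S4552

open H86 H85 H84

/-- Let B be a 2-block of the finite group G (relative to a maximal ideal M of the algebraic integers containing 2) whose defect group D is the direct product of two cyclic groups of the same order 2 ^ m, m ≥ 2. Then either B has 2-regular rank one and exactly 4 ^ m irreducible characters, or B has 2-regular rank three and exactly (4 ^ m + 8) / 3 irreducible characters. -/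
theorem result {G : Type*} [Group G] [Finite G] (M : Ideal Cfsg.AlgInt) (hM : Cfsg.IsPModular 2 M) (B : Set (Cfsg.IrrCharacter G)) (hB : Cfsg.IsPBlock M B) (D : Subgroup G) (hD : Cfsg.IsDefectGroup 2 M B D) (m : ℕ) (hm : 2 ≤ m) (hiso : Nonempty (D ≃* Multiplicative (ZMod (2 ^ m) × ZMod (2 ^ m)))) : (Cfsg.blockRank 2 B = 1 ∧ Nat.card B = 4 ^ m) ∨ (Cfsg.blockRank 2 B = 3 ∧ 3 * Nat.card B = 4 ^ m + 8) := by
  haveI := H33.isMaximal_of hM
  haveI := Fintype.ofFinite G
  obtain ⟨φ⟩ := hiso
  have h2 := H34.rk2_of_homocyclic (by omega) φ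
  obtain ⟨e, h⟩ := exists_mp hM hB hD
  obtain ⟨h1, h3⟩ := h.counts_of_rk2 h2
  have h5 : Nat.card D = 4 ^ m := by
    rw [Nat.card_congr φ.toEquiv, Nat.card_congr Multiplicative.toAdd, Nat.card_prod, Nat.card_zmod,
      ← mul_pow]; rfl
  have h6 : 0 < 4 ^ m := by positivity
  rw [h5] at h3
  rcases h.card_inq_of_rk2 h2 with h4 | h4 <;> rw [h4] at h1 h3
  · exact Or.inl ⟨h1, by omega⟩
  · exact Or.inr ⟨h1, by omega⟩

end Cfsg.Agent.S4552
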