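import Mathlib
import Cfsg.Statements.S4553
import Cfsg.Agent.Lib.H85.Prin2
import Cfsg.Agent.Lib.Char.ExtDeg
import Cfsg.Agent.Lib.Char.Galois
import Cfsg.Agent.Lib.Transfer.Residual
import Cfsg.Agent.Lib.Block.Reg
import Cfsg.Agent.Lib.Block.Height

set_option autoImplicit false
open Cfsg

namespace Cfsg.Agent.S4553

open H84

theorem detHom_map {G : Type*} [Group G] [Finite G] {χ : G → ℂ} (hχ : IsCharacter G χ)
    (σ : ℂ →+* ℂ) (g : G) : (H31.detHom (fun g => σ (χ g)) g : ℂ) = σ (H31.detHom χ g) := by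
  obtain ⟨n, ρ, rfl⟩ := hχ
  have e : (fun g => σ (ρ.character g)) = (H8.mapRep ρ σ).character :=
    funext fun g => (H8.character_mapRep ρ σ g).symm
  rw [e, H31.detHom_character, H31.detHom_character, H31.repDet_apply, H31.repDet_apply]
  change LinearMap.det (Matrix.toLin' ((LinearMap.toMatrix' (ρ g)).map σ)) = _
  rw [LinearMap.det_toLin', ← LinearMap.det_toMatrix', RingHom.map_det]
  rfl

theorem detOrder_map_dvd {G : Type*} [Group G] [Finite G] {χ : G → ℂ} (hχ : IsCharacter G χ)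
    (σ : ℂ →+* ℂ) : detOrder (fun g => σ (χ g)) ∣ detOrder χ := by
  rw [H31.detOrder_eq, H31.detOrder_eq, H31.orderOf_hom_dvd_iff]
  intro g
  have h := (H31.orderOf_hom_dvd_iff (H31.detHom χ) _).1 dvd_rfl g
  ext
  rw [Units.val_pow_eq_pow_val, detHom_map hχ, ← map_pow, ← Units.val_pow_eq_pow_val, h,
    Units.val_one, map_one]

theorem card_lin {G : Type*} [Group G] [Finite G] {p : ℕ} [hp : Fact p.Prime] (N : Subgroup G)
    [N.Normal] (hcyc : IsCyclic (G ⧸ N)) (hd : p ∣ N.index) :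
    Nat.card {B : G →* ℂˣ // (∀ n ∈ N, B n = 1) ∧ ∀ g, B g ^ p = 1} = p := by
  letI : CommGroup (G ⧸ N) := IsCyclic.commGroup
  haveI : NeZero (Monoid.exponent (G ⧸ N)) := ⟨Monoid.exponent_ne_zero_of_finite⟩
  obtain ⟨e⟩ := IsCyclic.monoidHom_equiv_self (G ⧸ N) ℂ
  have h1 := IsCyclic.card_powMonoidHom_ker (G := G ⧸ N) p
  rw [← Subgroup.index_eq_card, Nat.gcd_eq_right hd] at h1
  refine Eq.trans (Nat.card_congr ?_) h1
  refine (Equiv.ofBijective (fun q : (powMonoidHom p : G ⧸ N →* G ⧸ N).ker =>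
    (⟨(e.symm q).comp (QuotientGroup.mk' N), fun n hn => ?_, fun g => ?_⟩ :
      {B : G →* ℂˣ // (∀ n ∈ N, B n = 1) ∧ ∀ g, B g ^ p = 1})) ⟨fun q q' h => ?_, fun B => ?_⟩).symm
  · rw [MonoidHom.comp_apply, QuotientGroup.mk'_apply, (QuotientGroup.eq_one_iff n).2 hn, map_one]
  · have h : (q : G ⧸ N) ^ p = 1 := q.2
    rw [MonoidHom.comp_apply, ← MonoidHom.pow_apply, ← map_pow, h, map_one, MonoidHom.one_apply]
  · have h2 := congrArg Subtype.val h
    exact Subtype.ext (e.symm.injective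
      ((MonoidHom.cancel_right (QuotientGroup.mk'_surjective N)).1 h2))
  · refine ⟨⟨e (QuotientGroup.lift N B.1 B.2.1), ?_⟩, Subtype.ext ?_⟩
    · rw [MonoidHom.mem_ker, powMonoidHom_apply, ← map_pow, MulEquiv.map_eq_one_iff]
      ext g
      exact congrArg Units.val (B.2.2 g)
    · ext g
      simp
      rfl

theorem not_dvd_orderOf_hom {R : Type*} [Group R] [Finite R] {p : ℕ} [hp : Fact p.Prime]
    (hR : pResidual p R = ⊤) (μ : R →* ℂˣ) : ¬ p ∣ orderOf μ := by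
  intro hd
  have hk : pResidual p R ≤ (μ ^ ordCompl[p] (Nat.card R)).ker := H4.pResidual_le_iff.2 fun g hg => by
    rw [MonoidHom.mem_ker, MonoidHom.pow_apply, ← map_pow, orderOf_dvd_iff_pow_eq_one.1
      (Nat.dvd_ordCompl_of_dvd_not_dvd (orderOf_dvd_natCard g)
        ((Nat.Prime.coprime_iff_not_dvd hp.out).1 hg.symm)), map_one]
  refine Nat.not_dvd_ordCompl hp.out (Nat.card_pos (α := R)).ne' (hd.trans ?_)
  rw [H31.orderOf_hom_dvd_iff]
  intro g
  exact hk (hR ▸ Subgroup.mem_top g)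


/-- Let G be a finite group, p a prime, P a Sylow p-subgroup, N the p-residual of G (the subgroup generated by the elements of order prime to p, the smallest normal subgroup with G/N a p-group), and M a maximal ideal of the algebraic integers containing p; suppose G/N is cyclic and nontrivial. Let k be a natural number with g ^ k = g ^ (1 + p) for every p-element g and g ^ k = g for every element g of order prime to p (so that χ (g ^ k) is the image of χ g under the field automorphism that raises p-power roots of unity to the power 1 + p and fixes the roots of unity of order prime to p). Then the number of members χ of the principal block of G of degree prime to p with χ (g ^ k) = χ g for all g equals p times the number of members θ of the principal block of N of degree prime to p that are invariant under conjugation by P and satisfy θ (n ^ k) = θ n for all n. -/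
theorem result {G : Type*} [Group G] [Finite G] (p : ℕ) [Fact p.Prime] (M : Ideal Cfsg.AlgInt) (hM : Cfsg.IsPModular p M) (P : Sylow p G) (N : Subgroup G) [hN : N.Normal] (hNres : N = Cfsg.pResidual p G) (hcyc : IsCyclic (G ⧸ N)) (hnt : N ≠ ⊤) (k : ℕ) (hk₁ : ∀ g : G, (∃ j : ℕ, orderOf g = p ^ j) → g ^ k = g ^ (1 + p)) (hk₂ : ∀ g : G, Nat.Coprime (orderOf g) p → g ^ k = g) : Nat.card {χ : Cfsg.IrrCharacter G // χ ∈ Cfsg.principalBlock M G ∧ ¬ p ∣ Cfsg.charDegree (χ : G → ℂ) ∧ ∀ g : G, (χ : G → ℂ) (g ^ k) = (χ : G → ℂ) g} = p * Nat.card {θ : Cfsg.IrrCharacter ↥N // θ ∈ Cfsg.principalBlock M ↥N ∧ ¬ p ∣ Cfsg.charDegree (θ : ↥N → ℂ) ∧ (∀ x ∈ (P : Subgroup G), ∀ n : ↥N, (θ : ↥N → ℂ) ⟨x * n * x⁻¹, hN.conj_mem n n.2 x⟩ = (θ : ↥N → ℂ) n) ∧ ∀ n : ↥N, (θ : ↥N → ℂ) (n ^ k) = (θ : ↥N → ℂ) n} := by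
  classical
  haveI := hM.2.1
  haveI := Fintype.ofFinite G
  haveI := Fintype.ofFinite N
  have hp := (Fact.out : p.Prime)
  have hcop : k.Coprime (Nat.card G) := by
    refine Nat.coprime_of_dvd fun q hq hqk hqG => ?_
    haveI := Fact.mk hq
    obtain ⟨g, hg⟩ := exists_prime_orderOf_dvd_card' q hqG
    have h1 : g ^ k = 1 := orderOf_dvd_iff_pow_eq_one.1 (hg ▸ hqk)
    have h2 : g ^ k = g := by
      by_cases e : q = p
      · rw [hk₁ g ⟨1, by rw [hg, e, pow_one]⟩, pow_add, pow_one, ← e, ← hg, pow_orderOf_eq_one,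
          mul_one]
      · exact hk₂ g (hg ▸ (Nat.coprime_primes hq hp).2 e)
    rw [h1] at h2
    rw [← h2, orderOf_one] at hg
    exact hq.one_lt.ne hg
  obtain ⟨σ, hσ⟩ := H8.exists_ringEquiv_pow (Nat.card_pos (α := G)) hcop
  have hσG : ∀ χ : G → ℂ, IsCharacter G χ → ∀ g, σ (χ g) = χ (g ^ k) := fun χ hχ g =>
    H8.IsCharacter_map_eq_pow hχ (σ : ℂ →+* ℂ) Nat.card_pos hσ pow_card_eq_one'
  have hσN : ∀ θ : N → ℂ, IsCharacter N θ → ∀ n, σ (θ n) = θ (n ^ k) := fun θ hθ n =>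
    H8.IsCharacter_map_eq_pow hθ (σ : ℂ →+* ℂ) Nat.card_pos hσ
      (Subtype.ext (pow_card_eq_one' (x := (n : G))))
  obtain ⟨a, ha⟩ : ∃ a, N.index = p ^ a := hNres ▸ H4.index_pResidual_eq_pow p
  have hpd : p ∣ N.index := by
    rw [ha]
    refine dvd_pow_self p fun e => hnt ?_
    rw [← Subgroup.index_eq_one, ha, e, pow_zero]
  have hdec : ∀ g : G, ∃ r ∈ N, ∃ x ∈ (P : Subgroup G), r * x = g := fun g =>
    hNres ▸ H4.exists_pResidual_mul (hp.coprime_iff_not_dvd.2 P.not_dvd_index).symm g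
  have hreg : ∀ g : G, ¬ p ∣ orderOf g → g ∈ N := fun g hg =>
    hNres ▸ H4.mem_pResidual_of_coprime (hp.coprime_iff_not_dvd.2 hg).symm
  have hres : pResidual p N = ⊤ := by subst hNres; exact H4.pResidual_pResidual p G
  have hBk : ∀ B : G →* ℂˣ, (∀ n ∈ N, B n = 1) → ∀ g, B (g ^ k) = B g * B g ^ p := by
    intro B hB g
    obtain ⟨r, hr, x, hx, rfl⟩ := hdec g
    rw [map_pow, map_mul, hB r hr, one_mul, ← map_pow, hk₁ x ((H35.isPElt_of_mem P.isPGroup' hx)),
      map_pow, pow_add, pow_one]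
  have hext : ∀ θ : {θ : Cfsg.IrrCharacter ↥N // θ ∈ Cfsg.principalBlock M ↥N ∧ ¬ p ∣ Cfsg.charDegree (θ : ↥N → ℂ) ∧ (∀ x ∈ (P : Subgroup G), ∀ n : ↥N, (θ : ↥N → ℂ) ⟨x * n * x⁻¹, hN.conj_mem n n.2 x⟩ = (θ : ↥N → ℂ) n) ∧ ∀ n : ↥N, (θ : ↥N → ℂ) (n ^ k) = (θ : ↥N → ℂ) n},
      ∃ χ : G → ℂ, IsIrrCharacter G χ ∧ (∀ n : N, χ n = (θ.1 : N → ℂ) n) ∧ ∀ g, χ (g ^ k) = χ g := by
    rintro ⟨θ, -, h2, h3, h4⟩
    have hinv : ∀ (g : G) (n : N),
        (θ : N → ℂ) ⟨g * n * g⁻¹, hN.conj_mem (n : G) n.2 g⟩ = (θ : N → ℂ) n := by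
      intro g n
      obtain ⟨r, hr, x, hx, rfl⟩ := hdec g
      refine Eq.trans ?_ ((H6.irr_isClassFunction θ.2 ⟨x * n * x⁻¹, hN.conj_mem n n.2 x⟩ ⟨r, hr⟩).trans
        (h3 x hx n))
      exact congrArg _ (Subtype.ext (by simp [mul_assoc]))
    have hdo : ¬ p ∣ detOrder (θ : N → ℂ) := by
      rw [H31.detOrder_eq]; exact not_dvd_orderOf_hom hres _
    obtain ⟨χ, ⟨h5, h6, h7⟩, h8⟩ := H31.exists_canonical_ext N θ.2 hinv (cast_deg θ).symm (by
      rw [ha]
      exact Nat.Coprime.pow_left _ (hp.coprime_iff_not_dvd.2 (hp.not_dvd_mul hdo h2)))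
    refine ⟨χ, h5, h6, fun g => ?_⟩
    rw [← hσG χ (H6.irr_isCharacter h5)]
    refine congrFun (h8 (fun g => σ (χ g)) (H8.isIrrCharacter_ringEquiv_comp h5 σ) (fun n => ?_) ?_) g
    · show σ (χ n) = _
      rw [h6, hσN _ (irr_char θ), h4]
    · rw [ha]
      refine Nat.Coprime.pow_left _ (hp.coprime_iff_not_dvd.2 fun hd => hdo ?_)
      exact h7 ▸ hd.trans (detOrder_map_dvd (H6.irr_isCharacter h5) (σ : ℂ →+* ℂ))
  choose ext e1 e2 e3 using hext
  have hover : ∀ (χ : IrrCharacter G) (θ : IrrCharacter N), (∀ n : N, (χ : G → ℂ) n = (θ : N → ℂ) n) →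
      (χ ∈ principalBlock M G ↔ θ ∈ principalBlock M N) := fun χ θ h =>
    H85.mem_prin_iff_of_over hM hreg χ θ (by
      rw [H31.inner_res_of_eq_mul N θ.2 (e := 1) fun n => by rw [h, one_mul]]
      exact one_ne_zero)
  have hdeg : ∀ (χ : G → ℂ) (θ : N → ℂ), (∀ n : N, χ n = θ n) → charDegree χ = charDegree θ :=
    fun χ θ h => by unfold charDegree; rw [← h 1]; rfl
  refine Eq.trans ?_ (congrArg (· * _) (card_lin N hcyc hpd))
  rw [← Nat.card_prod]
  symm
  refine Nat.card_congr (Equiv.ofBijective (fun z => ⟨⟨fun g => ext z.2 g * z.1.1 g,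
    H6.isIrrCharacter_mul_hom (e1 z.2) z.1.1⟩, ?_, ?_, fun g => ?_⟩) ⟨?_, ?_⟩)
  · refine (hover _ z.2.1 fun n => ?_).2 z.2.2.1
    show ext z.2 n * z.1.1 n = _
    rw [z.1.2.1 n n.2, e2, Units.val_one, mul_one]
  · rw [hdeg _ (z.2.1 : N → ℂ) fun n => ?_]
    · exact z.2.2.2.1
    · show ext z.2 n * z.1.1 n = _
      rw [z.1.2.1 n n.2, e2, Units.val_one, mul_one]
  · show ext z.2 (g ^ k) * z.1.1 (g ^ k) = ext z.2 g * z.1.1 g
    rw [e3, hBk _ z.1.2.1, z.1.2.2, mul_one]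
  · rintro ⟨B, θ⟩ ⟨B', θ'⟩ h
    have h1 : (fun g => ext θ g * B.1 g) = fun g => ext θ' g * B'.1 g :=
      congrArg (fun χ => (χ.1 : G → ℂ)) h
    have h2 : θ = θ' := Subtype.ext (Subtype.ext (funext fun n => by
      have := congrFun h1 n
      rwa [B.2.1 n n.2, B'.2.1 n n.2, e2, e2, Units.val_one, mul_one, mul_one] at this))
    subst h2
    have h3 := H31.gallagher_inj N (H6.irr_isCharacter (e1 θ)) (by
      rw [funext (e2 θ)]; exact θ.1.2) (H6.isIrrCharacter_hom B.1)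
      (fun n hn => by rw [B.2.1 n hn, map_one]) (H6.isIrrCharacter_hom B'.1)
      (fun n hn => by rw [B'.2.1 n hn, map_one]) (funext fun g => by
        have := congrFun h1 g
        simp only [Pi.mul_apply]
        rw [mul_comm, this, mul_comm])
    refine Prod.ext (Subtype.ext (MonoidHom.ext fun g => Units.ext (congrFun h3 g))) rfl
  · rintro ⟨χ, h1, h2, h3⟩
    have hirr := H31.isIrr_res_of_coprime N χ.2 (cast_deg χ).symm (by
      rw [ha]; exact Nat.Coprime.pow_right _ (hp.coprime_iff_not_dvd.2 h2).symm)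
    let θ : IrrCharacter N := ⟨fun n => (χ : G → ℂ) n, hirr⟩
    let θ' : {θ : Cfsg.IrrCharacter ↥N // θ ∈ Cfsg.principalBlock M ↥N ∧ ¬ p ∣ Cfsg.charDegree (θ : ↥N → ℂ) ∧ (∀ x ∈ (P : Subgroup G), ∀ n : ↥N, (θ : ↥N → ℂ) ⟨x * n * x⁻¹, hN.conj_mem n n.2 x⟩ = (θ : ↥N → ℂ) n) ∧ ∀ n : ↥N, (θ : ↥N → ℂ) (n ^ k) = (θ : ↥N → ℂ) n} :=
      ⟨θ, (hover χ θ fun _ => rfl).1 h1, h2, fun x _ n => H6.irr_isClassFunction χ.2 _ _,
        fun n => h3 n⟩
    obtain ⟨B, hB, hχ⟩ := H31.exists_hom_of_two_extensions N hirr (H6.irr_isCharacter (e1 θ'))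
      (irr_char χ) (e2 θ') fun _ => rfl
    have h4 := H31.gallagher_inj N (H6.irr_isCharacter (e1 θ')) (by
      rw [funext (e2 θ')]; exact hirr) (H6.isIrrCharacter_hom (B * B ^ p))
      (fun n hn => by simp [hB n hn]) (H6.isIrrCharacter_hom B)
      (fun n hn => by rw [hB n hn, map_one]) (funext fun g => by
        have := h3 g
        rw [hχ, hχ, hBk B hB, e3] at this
        exact this)
    refine ⟨⟨⟨B, hB, fun g => ?_⟩, θ'⟩, Subtype.ext (Subtype.ext (funext fun g => ?_))⟩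
    · have := Units.ext (congrFun h4 g)
      simpa using this
    · exact (mul_comm _ _).trans (hχ g).symm

end Cfsg.Agent.S4553
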