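import Cfsg.Statements.S4560
import Mathlib
import Cfsg.Agent.Lib.Blk86.FourT

set_option autoImplicit false
open Cfsg

namespace Cfsg.Agent.S4560

set_option linter.style.haveILetI false
set_option linter.unusedVariables false

open Cfsg MulAction Equiv

theorem key {n : ℕ} (hn : 7 ≤ n) (m : Multiset ℕ) (r : ℕ) (hs : m.sum + r = n)
    (h2 : ∀ a ∈ m, 2 ≤ a) (hev : Even (m.sum + Multiset.card m))
    (h : r = 1 ∨ (r < 4 ∧ 2 ∉ m)) :
    ∃ (χ : IrrCharacter (alternatingGroup (Fin n))) (x : alternatingGroup (Fin n)),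
      orderOf x = m.lcm ∧ (χ : alternatingGroup (Fin n) → ℂ) x = 0 ∧
      ∃ ψ : IrrCharacter (Perm (Fin n)), ∀ x : alternatingGroup (Fin n),
        (ψ : Perm (Fin n) → ℂ) x = (χ : alternatingGroup (Fin n) → ℂ) x := by
  classical
  obtain ⟨σ, hσ⟩ := (Perm.exists_with_cycleType_iff (Fin n) (m := m)).2
    ⟨by rw [Fintype.card_fin]; omega, h2⟩
  have hA : σ ∈ alternatingGroup (Fin n) := by
    rw [Perm.mem_alternatingGroup, Perm.sign_of_cycleType, hσ, hev.neg_one_pow]
  have hc : 4 ≤ Nat.card (Fin n) := by simp; omega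
  haveI := Perm.isMultiplyPretransitive (Fin n) 4
  haveI := alternatingGroup.isMultiplyPretransitive (Fin n)
  haveI : IsMultiplyPretransitive (alternatingGroup (Fin n)) (Fin n) 4 :=
    isMultiplyPretransitive_of_le (n := Nat.card (Fin n) - 2) (by simp; omega) (Nat.sub_le _ _)
  obtain ⟨a1, a2, a3⟩ := H86.irr_of_fourTrans (G := alternatingGroup (Fin n)) hc
  obtain ⟨b1, b2, b3⟩ := H86.irr_of_fourTrans (G := Perm (Fin n)) hc
  have ho : orderOf (⟨σ, hA⟩ : alternatingGroup (Fin n)) = m.lcm := by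
    rw [← Subgroup.orderOf_coe, ← Perm.lcm_cycleType, hσ]
  have hf : H86.fx (Fin n) (⟨σ, hA⟩ : alternatingGroup (Fin n)) = r := by
    have := Perm.card_fixedPoints σ
    rw [hσ, Fintype.card_fin, ← Nat.card_eq_fintype_card] at this
    exact (show _ = n - m.sum from this).trans (by omega)
  rcases h with rfl | ⟨hr, hm⟩
  · exact ⟨⟨_, a1⟩, ⟨σ, hA⟩, ho, by simp [hf], ⟨_, b1⟩, fun _ => rfl⟩
  have ht : H86.tw (Fin n) (⟨σ, hA⟩ : alternatingGroup (Fin n)) = 0 := by
    rw [H86.tw, Nat.card_eq_zero]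
    refine Or.inl ⟨fun ⟨i, h1, h3⟩ => hm ?_⟩
    have h1' : σ i ≠ i := h1
    have h3' : σ (σ i) = i := h3
    have hcyc := Perm.isCycle_cycleOf σ h1'
    have h4 : σ.cycleOf i ^ 2 = 1 := (hcyc.pow_eq_one_iff' (x := i)
      (by rwa [Perm.cycleOf_apply_self])).2 (by rw [Perm.cycleOf_pow_apply_self]; exact h3')
    have h5 : (σ.cycleOf i).support.card ∈ m := by
      rw [← hσ, Perm.cycleType_def]
      exact Multiset.mem_map.2 ⟨_, Perm.cycleOf_mem_cycleFactorsFinset_iff.2
        (Perm.mem_support.2 h1'), rfl⟩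
    have h6 := orderOf_dvd_of_pow_eq_one h4
    rw [hcyc.orderOf] at h6
    have h7 := Nat.le_antisymm (Nat.le_of_dvd two_pos h6) (h2 _ h5)
    exact h7 ▸ h5
  interval_cases r
  · exact ⟨⟨_, a3⟩, ⟨σ, hA⟩, ho, by simp [hf, ht], ⟨_, b3⟩, fun _ => rfl⟩
  · exact ⟨⟨_, a1⟩, ⟨σ, hA⟩, ho, by simp [hf], ⟨_, b1⟩, fun _ => rfl⟩
  · exact ⟨⟨_, a2⟩, ⟨σ, hA⟩, ho, by simp [hf, ht]; norm_num, ⟨_, b2⟩, fun _ => rfl⟩
  · exact ⟨⟨_, a3⟩, ⟨σ, hA⟩, ho, by simp [hf, ht]; norm_num, ⟨_, b3⟩, fun _ => rfl⟩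

/-- For n ≥ 7 the alternating group on n letters has an irreducible character that vanishes at some 2-element and is the restriction of an irreducible character of the symmetric group, and an irreducible character that vanishes at some element of order 3 and is the restriction of an irreducible character of the symmetric group. -/
theorem result (n : ℕ) (hn : 7 ≤ n) : (∃ χ : Cfsg.IrrCharacter (alternatingGroup (Fin n)), (∃ x : alternatingGroup (Fin n), (∃ j : ℕ, orderOf x = 2 ^ j) ∧ (χ : alternatingGroup (Fin n) → ℂ) x = 0) ∧ ∃ ψ : Cfsg.IrrCharacter (Equiv.Perm (Fin n)), ∀ x : alternatingGroup (Fin n), (ψ : Equiv.Perm (Fin n) → ℂ) x = (χ : alternatingGroup (Fin n) → ℂ) x) ∧ (∃ χ : Cfsg.IrrCharacter (alternatingGroup (Fin n)), (∃ y : alternatingGroup (Fin n), orderOf y = 3 ∧ (χ : alternatingGroup (Fin n) → ℂ) y = 0) ∧ ∃ ψ : Cfsg.IrrCharacter (Equiv.Perm (Fin n)), ∀ x : alternatingGroup (Fin n), (ψ : Equiv.Perm (Fin n) → ℂ) x = (χ : alternatingGroup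 (Fin n) → ℂ) x) := by
  constructor
  · have hex : ∃ (m : Multiset ℕ) (r : ℕ), m.sum + r = n ∧ (∀ a ∈ m, 2 ≤ a) ∧
        Even (m.sum + Multiset.card m) ∧ (r = 1 ∨ (r < 4 ∧ 2 ∉ m)) ∧ ∀ a ∈ m, a ∣ 2 ^ 3 := by
      by_cases h7 : n = 7
      · exact ⟨{4, 2}, 1, by simp [h7], by simp, by decide, Or.inl rfl, by simp⟩
      rcases Nat.even_or_odd' (n / 4) with ⟨k, hk | hk⟩
      · refine ⟨Multiset.replicate (2 * k) 4, n % 4, ?_, ?_, ?_, Or.inr ⟨by omega, ?_⟩, ?_⟩
        · simp; omega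
        · intro a ha; rw [Multiset.eq_of_mem_replicate ha]; norm_num
        · simp only [Multiset.sum_replicate, Multiset.card_replicate, smul_eq_mul]
          exact ⟨5 * k, by ring⟩
        · intro ha; exact absurd (Multiset.eq_of_mem_replicate ha) (by norm_num)
        · intro a ha; rw [Multiset.eq_of_mem_replicate ha]; norm_num
      · obtain ⟨j, rfl⟩ : ∃ j, k = j + 1 := ⟨k - 1, by omega⟩
        refine ⟨8 ::ₘ Multiset.replicate (2 * j + 1) 4, n % 4, ?_, ?_, ?_,
          Or.inr ⟨by omega, ?_⟩, ?_⟩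
        · simp only [Multiset.sum_cons, Multiset.sum_replicate, smul_eq_mul]; omega
        · intro a ha
          rcases Multiset.mem_cons.1 ha with rfl | ha
          · norm_num
          · rw [Multiset.eq_of_mem_replicate ha]; norm_num
        · simp only [Multiset.sum_cons, Multiset.card_cons, Multiset.sum_replicate,
            Multiset.card_replicate, smul_eq_mul]
          exact ⟨5 * j + 7, by ring⟩
        · intro ha
          rcases Multiset.mem_cons.1 ha with ha | ha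
          · norm_num at ha
          · exact absurd (Multiset.eq_of_mem_replicate ha) (by norm_num)
        · intro a ha
          rcases Multiset.mem_cons.1 ha with rfl | ha
          · norm_num
          · rw [Multiset.eq_of_mem_replicate ha]; norm_num
    obtain ⟨m, r, h1, h2, h3, h4, h5⟩ := hex
    obtain ⟨χ, x, a1, a2, a3⟩ := key hn m r h1 h2 h3 h4
    obtain ⟨j, -, hj⟩ := (Nat.dvd_prime_pow Nat.prime_two).1 (a1 ▸ Multiset.lcm_dvd.2 h5)
    exact ⟨χ, ⟨x, ⟨j, hj⟩, a2⟩, a3⟩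
  · obtain ⟨χ, x, a1, a2, a3⟩ := key hn (Multiset.replicate (n / 3) 3) (n % 3) (by simp; omega)
      (fun a ha => by rw [Multiset.eq_of_mem_replicate ha]; norm_num)
      (by simp only [Multiset.sum_replicate, Multiset.card_replicate, smul_eq_mul]
          exact ⟨2 * (n / 3), by ring⟩)
      (Or.inr ⟨by omega, fun ha => absurd (Multiset.eq_of_mem_replicate ha) (by norm_num)⟩)
    refine ⟨χ, ⟨x, a1.trans (Nat.dvd_antisymm (Multiset.lcm_dvd.2 fun a ha => ?_)
      (Multiset.dvd_lcm (Multiset.mem_replicate.2 ⟨by omega, rfl⟩))), a2⟩, a3⟩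
    rw [Multiset.eq_of_mem_replicate ha]

end Cfsg.Agent.S4560
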