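import Cfsg.Statements.S4561
import Mathlib
import Cfsg.Agent.Base
import Cfsg.Agent.Lib.Lin35.CType

set_option autoImplicit false
universe u
open Cfsg

namespace Cfsg.Agent.S4561

/-- For every finite solvable group G there is a finite group H with a faithful irreducible character χ whose degree squared equals the index of the centre Z(H) (so χ is fully ramified over the centre), such that G is isomorphic to a subgroup of H/Z(H), the primes dividing the orders of H, of Z(H) and of G are the same, and the order of Z(H) is squarefree. -/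
theorem result {G : Type u} [Group G] [Finite G] (hsolv : Group.IsSolvable G) : ∃ (H : Type u) (_ : Group H) (_ : Finite H) (χ : Cfsg.IrrCharacter H), (∀ h : H, (χ : H → ℂ) h = (χ : H → ℂ) 1 → h = 1) ∧ (Cfsg.charDegree (χ : H → ℂ)) ^ 2 = (Subgroup.center H).index ∧ (∃ f : G →* H ⧸ Subgroup.center H, Function.Injective f) ∧ (∀ p : ℕ, p.Prime → ((p ∣ Nat.card H ↔ p ∣ Nat.card G) ∧ (p ∣ Nat.card (Subgroup.center H) ↔ p ∣ Nat.card G))) ∧ Squarefree (Nat.card (Subgroup.center H)) := by
  obtain ⟨H, _, _, Z, _, Λ, h1, ⟨f, hf⟩, h2, h3, h4⟩ := H35L.exists_CT _ G rfl hsolv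
  obtain ⟨K, _, π, lam, h5, h6, h7, h8, h9⟩ := h1.quot
  haveI := Finite.of_surjective π h5
  obtain ⟨χ, h10, h11⟩ := H35L.exists_irr_central_type lam h6 h9
  obtain ⟨e, he, -⟩ := H35L.exists_inj_lift _ (QuotientGroup.mk'_surjective Z)
    ((QuotientGroup.mk' (Subgroup.center K)).comp π) fun x =>
      (QuotientGroup.eq_one_iff x).trans ((h7 x).symm.trans (QuotientGroup.eq_one_iff _).symm)
  have h12 : ∀ p : ℕ, p.Prime → p ∣ Nat.card G → p ∣ Nat.card (Subgroup.center K) :=
    fun p hp h => by
      obtain ⟨z, hz, h13, h14⟩ := h4 p hp h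
      haveI := Fact.mk hp
      rw [← h8 z ((h7 z).2 hz)] at h13 h14
      rw [← orderOf_eq_prime h14 h13, orderOf_injective lam h6]
      exact orderOf_dvd_natCard _
  have h13 : ∀ p : ℕ, p.Prime → p ∣ Nat.card K → p ∣ Nat.card G := fun p hp h =>
    h2 p hp (h.trans (Subgroup.card_dvd_of_surjective π h5))
  have h14 := (Subgroup.center K).card_subgroup_dvd_card
  refine ⟨K, inferInstance, inferInstance, χ, h10, h11, ⟨e.comp f, he.comp hf⟩, fun p hp =>
    ⟨⟨h13 p hp, fun h => (h12 p hp h).trans h14⟩, fun h => h13 p hp (h.trans h14), h12 p hp⟩,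
    Squarefree.squarefree_of_dvd ?_ (Finset.squarefree_prod_of_pairwise_isCoprime
      (s := (Nat.card G).primeFactors) (f := id) (fun a ha b hb hab => Nat.coprime_iff_isRelPrime.1
        ((Nat.coprime_primes (Nat.prime_of_mem_primeFactors ha)
          (Nat.prime_of_mem_primeFactors hb)).2 hab))
      fun a ha => (Nat.prime_of_mem_primeFactors ha).prime.squarefree)⟩
  haveI := isCyclic_of_injective_ringHom ((Units.coeHom ℂ).comp lam) (Units.val_injective.comp h6)
  rw [← IsCyclic.exponent_eq_card, Monoid.exponent_dvd_iff_forall_pow_eq_one]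
  rintro ⟨z, hz⟩
  obtain ⟨z, rfl⟩ := h5 z
  exact (injective_iff_map_eq_one lam).1 h6 _ (by rw [map_pow, h8]; exact h3 z ((h7 z).1 hz))

end Cfsg.Agent.S4561
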