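import Mathlib
import Cfsg.Statements.S4564
import Cfsg.Agent.Lib.Deg.FullRam

set_option autoImplicit false
open Cfsg

namespace Cfsg.Agent.S4564



/-- Let χ be an irreducible character of the finite group H that is fully ramified over the normal subgroup Z: the restriction of χ to Z is e times an irreducible character of Z with e ^ 2 equal to the index of Z. Let K be a normal subgroup of H containing Z and P a cyclic Sylow p-subgroup of H/K. Then P has a complement in H/K: a subgroup meeting P trivially whose product with P is the whole group. -/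
theorem result {H : Type*} [Group H] [Finite H] (Z : Subgroup H) [Z.Normal] (χ : Cfsg.IrrCharacter H) (hfr : ∃ (θ : Cfsg.IrrCharacter ↥Z) (e : ℕ), e ^ 2 = Z.index ∧ ∀ z : ↥Z, (χ : H → ℂ) z = (e : ℂ) * (θ : ↥Z → ℂ) z) (K : Subgroup H) [K.Normal] (hZK : Z ≤ K) (p : ℕ) [Fact p.Prime] (P : Sylow p (H ⧸ K)) (hcyc : IsCyclic P) : ∃ M : Subgroup (H ⧸ K), M.IsComplement' (P : Subgroup (H ⧸ K)) := by
  obtain ⟨θ, e, he, hr⟩ := hfr
  have h : H87.FR Z (χ : H → ℂ) (θ : Z → ℂ) e := ⟨χ.2, θ.2, he, hr⟩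
  obtain ⟨M, hM, ⟨j, hj⟩, hd⟩ := h.compl_of_isCyclic hZK P hcyc
  obtain ⟨h1, h2⟩ := H87.index_map_eq_pow hM Fact.out hj hd
  refine ⟨M.map (QuotientGroup.mk' K), Subgroup.isComplement'_of_coprime ?_ ?_⟩
  · rw [P.card_eq_multiplicity, ← h1, Subgroup.card_mul_index]
  · rw [P.card_eq_multiplicity]
    exact Nat.Coprime.pow_right _ ((Nat.Prime.coprime_iff_not_dvd Fact.out).2 h2).symm

end Cfsg.Agent.S4564
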