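import Mathlib
import Cfsg.Statements.S4566
import Cfsg.Agent.Lib.H85.CharAux
import Cfsg.Agent.Lib.Char.Integral
-- import your own Cfsg.Agent.* helpers here

set_option autoImplicit false
open Cfsg

namespace Cfsg.Agent.S4566

/-- An irreducible character is multiplicative against central elements. -/
theorem exists_central {G : Type*} [Group G] [Finite G] {χ : G → ℂ} (hχ : IsIrrCharacter G χ)
    {z : G} (hz : z ∈ Subgroup.center G) : ∃ c : ℂ, ∀ x : G, χ (z * x) = c * χ x := by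
  obtain ⟨n, ρ, hρ, rfl⟩ := hχ
  obtain ⟨c, hc⟩ := H8.exists_scalar_of_mem_center ρ hz
  refine ⟨c, fun x => ?_⟩
  simp only [Representation.character, map_mul, hc, smul_mul_assoc, one_mul, map_smul, smul_eq_mul]

/-- Let N be a central subgroup of the finite group G, ψ a faithful irreducible (hence degree-one) character of N, and χ an irreducible character of G whose restriction to N contains ψ. If g ∈ G and some x ∈ G has commutator x⁻¹ g⁻¹ x g in N but different from 1, then χ g = 0. -/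
theorem result {G : Type*} [Group G] [Fintype G] (N : Subgroup G) [Fintype N] (hN : N ≤ Subgroup.center G) (ψ : Cfsg.IrrCharacter ↥N) (hfaith : ∀ n : ↥N, (ψ : ↥N → ℂ) n = (ψ : ↥N → ℂ) 1 → n = 1) (χ : Cfsg.IrrCharacter G) (hover : Cfsg.classInner (fun n : ↥N => (χ : G → ℂ) n) (ψ : ↥N → ℂ) ≠ 0) (g x : G) (hcomm : x⁻¹ * g⁻¹ * x * g ∈ N) (hne : x⁻¹ * g⁻¹ * x * g ≠ 1) : (χ : G → ℂ) g = 0 := by
  set z := x⁻¹ * g⁻¹ * x * g with hz
  obtain ⟨c, hc⟩ := exists_central χ.2 (hN hcomm)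
  have hcl := H6.irr_isClassFunction χ.2
  by_contra h0
  have h1 : (χ : G → ℂ) (z * g⁻¹) = (χ : G → ℂ) g⁻¹ := by
    have : z * g⁻¹ = x⁻¹ * g⁻¹ * x⁻¹⁻¹ := by rw [hz]; group
    rw [this, hcl]
  have h0' : (χ : G → ℂ) g⁻¹ ≠ 0 := by
    rw [H6.char_inv (H6.irr_isCharacter χ.2)]
    simpa using h0
  have hc1 : c = 1 := by
    rw [hc] at h1
    exact mul_right_cancel₀ h0' (by rw [h1, one_mul])
  -- `ψ` is a homomorphism
  have hcommN : ∀ a b : N, a * b = b * a := fun a b =>
    Subtype.ext (Subgroup.mem_center_iff.mp (hN b.2) a)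
  have hψ1 := H6.irr_one_eq_one_of_comm hcommN ψ.2
  have hψm := H6.char_mul_of_one_eq_one (H6.irr_isCharacter ψ.2) hψ1
  set zN : N := ⟨z, hcomm⟩ with hzN
  have h2 : classInner (fun n : N => (χ : G → ℂ) n) (ψ : N → ℂ) =
      (starRingEnd ℂ) ((ψ : N → ℂ) zN) * classInner (fun n : N => (χ : G → ℂ) n) (ψ : N → ℂ) := by
    conv_lhs => rw [← H6.classInner_comp_equiv (Equiv.mulLeft zN)]
    simp only [classInner, Equiv.coe_mulLeft, Subgroup.coe_mul, hzN, hc, hc1, one_mul]
    rw [← hzN]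
    simp only [hψm, map_mul, Finset.mul_sum]
    refine Finset.sum_congr rfl fun n _ => by ring
  have h3 : (starRingEnd ℂ) ((ψ : N → ℂ) zN) = 1 :=
    mul_right_cancel₀ hover (by rw [← h2, one_mul])
  have h4 : (ψ : N → ℂ) zN = (ψ : N → ℂ) 1 := by
    rw [hψ1]
    simpa using congrArg (starRingEnd ℂ) h3
  exact hne (congrArg Subtype.val (hfaith zN h4))

end Cfsg.Agent.S4566
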