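import Mathlib
import Cfsg.Statements.S4567
import Cfsg.Agent.Lib.Deg.FullRam
import Cfsg.Agent.S4566

set_option autoImplicit false
open Cfsg

namespace Cfsg.Agent.S4567

open H6 H87
open scoped ComplexConjugate

theorem sum_central {G : Type*} [Group G] [Fintype G] (N : Subgroup G) [N.Normal] [Fintype N]
    (hN : N ≤ Subgroup.center G) {ψ : N → ℂ} (hψ : IsIrrCharacter N ψ) {χ : G → ℂ}
    (hχ : IsIrrCharacter G χ) (g : G) [Decidable (classInner (fun n : N => χ n) ψ ≠ 0)] :
    ∑ n : N, χ (n * g) * conj (ψ n) =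
      if classInner (fun n : N => χ n) ψ ≠ 0 then Nat.card N * χ g else 0 := by
  have h1 : ∀ n : N, χ (n * g) * χ 1 = χ n * χ g := fun n => by
    obtain ⟨c, hc⟩ := S4566.exists_central hχ (hN n.2)
    have := hc 1
    rw [mul_one] at this
    rw [hc, this]; ring
  have h2 : (∑ n : N, χ (n * g) * conj (ψ n)) * χ 1 =
      Nat.card N * classInner (fun n : N => χ n) ψ * χ g := by
    rw [H7.card_mul_classInner, Finset.sum_mul, Finset.sum_mul]
    exact Finset.sum_congr rfl fun n _ => by linear_combination conj (ψ n) * h1 n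
  refine mul_right_cancel₀ (irr_one_ne_zero hχ) ?_
  rw [h2]
  split_ifs with h
  · obtain ⟨e, -, he, he'⟩ := H31.exists_res_eq_of_invariant N hψ (fun g n => by
      congr 1; exact Subtype.ext (by simp [Subgroup.mem_center_iff.1 (hN n.2) g])) hχ h
    have h3 := he' 1
    rw [irr_one_eq_one_of_comm (fun a b => Subtype.ext (Subgroup.mem_center_iff.mp (hN b.2) a)) hψ,
      OneMemClass.coe_one] at h3
    rw [he, h3]; ring
  · rw [not_not.1 h]; ring

/-- Let N be a central subgroup of the finite group G and ψ a faithful irreducible (hence degree-one) character of N. Call a coset g N special when every x ∈ G whose commutator x⁻¹ g⁻¹ x g lies in N actually commutes with g (this depends only on the coset). Then the number of irreducible characters of G whose restriction to N contains ψ equals the number of conjugacy classes of G/N consisting of special cosets. -/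
theorem result {G : Type*} [Group G] [Fintype G] (N : Subgroup G) [N.Normal] [Fintype N] (hN : N ≤ Subgroup.center G) (ψ : Cfsg.IrrCharacter ↥N) (hfaith : ∀ n : ↥N, (ψ : ↥N → ℂ) n = (ψ : ↥N → ℂ) 1 → n = 1) : Nat.card {χ : Cfsg.IrrCharacter G // Cfsg.classInner (fun n : ↥N => (χ : G → ℂ) n) (ψ : ↥N → ℂ) ≠ 0} = Nat.card {C : ConjClasses (G ⧸ N) // ∃ g : G, ConjClasses.mk (g : G ⧸ N) = C ∧ ∀ x : G, x⁻¹ * g⁻¹ * x * g ∈ N → x * g = g * x} := by
  classical
  have := Fintype.ofFinite (G ⧸ N)
  have := Fintype.ofFinite (ConjClasses (G ⧸ N))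
  let sp : G → Prop := fun g => ∀ x : G, x⁻¹ * g⁻¹ * x * g ∈ N → x * g = g * x
  have hψ1 := irr_one_eq_one_of_comm
    (fun a b => Subtype.ext (Subgroup.mem_center_iff.mp (hN b.2) a)) ψ.2
  have hsp : ∀ g h : G, sp g → IsConj (g : G ⧸ N) h → sp h := by
    intro g h hg hc x hx
    obtain ⟨c, hc⟩ := isConj_iff.1 hc
    obtain ⟨c, rfl⟩ := QuotientGroup.mk_surjective c
    have h1 : (c * g * c⁻¹)⁻¹ * h ∈ N := QuotientGroup.eq.1 hc
    set n := (c * g * c⁻¹)⁻¹ * h with hn
    have h2 : h = c * g * c⁻¹ * n := by rw [hn]; group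
    have h3 := Subgroup.mem_center_iff.1 (hN h1)
    clear_value n
    have h4 : (c⁻¹ * x * c)⁻¹ * g⁻¹ * (c⁻¹ * x * c) * g = c⁻¹ * (x⁻¹ * h⁻¹ * x * h) * c := by
      rw [h2]
      calc _ = c⁻¹ * x⁻¹ * ((n⁻¹ * n) * (c * g⁻¹ * c⁻¹ * x * c * g * c⁻¹)) * c := by group
        _ = c⁻¹ * x⁻¹ * (n⁻¹ * ((c * g⁻¹ * c⁻¹ * x * c * g * c⁻¹) * n)) * c := by
          rw [h3 (c * g⁻¹ * c⁻¹ * x * c * g * c⁻¹), mul_assoc n⁻¹ n]
        _ = _ := by group
    have h5 := hg (c⁻¹ * x * c) (h4 ▸ (inferInstance : N.Normal).conj_mem' _ hx c)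
    rw [h2]
    calc _ = c * (c⁻¹ * x * c * g) * c⁻¹ * n := by group
      _ = c * g * c⁻¹ * (x * n) := by rw [h5]; group
      _ = _ := by rw [h3 x]; group
  have key : ∀ g : G, ∑ χ : IrrCharacter G,
      (if classInner (fun n : N => (χ : G → ℂ) n) (ψ : N → ℂ) ≠ 0 then
        (χ : G → ℂ) g * conj ((χ : G → ℂ) g) else 0) =
      if sp g then (Nat.card (Subgroup.centralizer ({(g : G ⧸ N)} : Set (G ⧸ N))) : ℂ) else 0 := by
    intro g
    split_ifs with hg
    · refine mul_left_cancel₀ (card_ne_zero (G := N)) ?_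
      have h1 : ∀ χ : IrrCharacter G, (Nat.card N : ℂ) *
          (if classInner (fun n : N => (χ : G → ℂ) n) (ψ : N → ℂ) ≠ 0 then
            (χ : G → ℂ) g * conj ((χ : G → ℂ) g) else 0) =
          ∑ n : N, conj ((ψ : N → ℂ) n) * ((χ : G → ℂ) (n * g) * conj ((χ : G → ℂ) g)) := by
        intro χ
        have := sum_central N hN ψ.2 χ.2 g
        calc _ = (∑ n : N, (χ : G → ℂ) (n * g) * conj ((ψ : N → ℂ) n)) *
              conj ((χ : G → ℂ) g) := by rw [this]; split_ifs <;> ring
          _ = _ := by rw [Finset.sum_mul]; exact Finset.sum_congr rfl fun _ _ => by ring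
      rw [Finset.mul_sum, Finset.sum_congr rfl fun χ _ => h1 χ, Finset.sum_comm,
        Finset.sum_eq_single 1]
      · rw [← Finset.mul_sum, OneMemClass.coe_one, one_mul, column_orthogonality_self, hψ1,
          map_one, one_mul, ← Nat.cast_mul, mul_comm, ← H1.card_comap_mk']
        congr 3
        ext x
        simp only [Subgroup.mem_comap, Subgroup.mem_centralizer_singleton_iff,
          QuotientGroup.mk'_apply]
        refine ⟨fun h => by rw [← QuotientGroup.mk_mul, h, QuotientGroup.mk_mul], fun h => ?_⟩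
        refine hg x ?_
        rw [← QuotientGroup.eq_one_iff]
        simp only [QuotientGroup.mk_mul, QuotientGroup.mk_inv, mul_assoc, h]
        group
      · intro n _ hn
        rw [← Finset.mul_sum, column_orthogonality_not_isConj, mul_zero]
        intro hc
        obtain ⟨y, hy⟩ := isConj_iff.1 hc.symm
        have h2 : y⁻¹⁻¹ * g⁻¹ * y⁻¹ * g = (n : G)⁻¹ := by
          calc _ = (y * g * y⁻¹)⁻¹ * g := by group
            _ = _ := by rw [hy, ← Subgroup.mem_center_iff.1 (hN n.2) g]; group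
        have h3 := hg y⁻¹ (h2 ▸ N.inv_mem n.2)
        apply hn
        rw [mul_assoc, ← h3, mul_inv_cancel_left] at hy
        exact Subtype.ext (by simpa using hy)
      · simp
    · refine Finset.sum_eq_zero fun χ _ => ?_
      split_ifs with h
      · simp only [sp, not_forall] at hg
        obtain ⟨x, hx, hx'⟩ := hg
        rw [S4566.result N hN ψ hfaith χ h g x hx fun h1 => hx' ?_, zero_mul]
        calc x * g = g * x * (x⁻¹ * g⁻¹ * x * g) := by group
          _ = _ := by rw [h1, mul_one]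
      · rfl
  let F : ConjClasses (G ⧸ N) → ℂ := fun C =>
    if ∃ g : G, ConjClasses.mk (g : G ⧸ N) = C ∧ sp g then 1 else 0
  have hF : ∀ g : G, F (ConjClasses.mk (g : G ⧸ N)) = if sp g then 1 else 0 := fun g =>
    if_congr ⟨fun ⟨h, h1, h2⟩ => hsp h g h2 (ConjClasses.mk_eq_mk_iff_isConj.1 h1),
      fun h => ⟨g, rfl, h⟩⟩ rfl rfl
  have h1 := Finset.sum_congr rfl fun (g : G) (_ : g ∈ Finset.univ) => key g
  rw [Finset.sum_comm] at h1
  simp only [Finset.sum_ite_irrel, Finset.sum_const_zero,
    fun χ : IrrCharacter G => sum_mul_conj_self χ.2] at h1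
  have h2 : ∑ g : G, (if sp g then
      (Nat.card (Subgroup.centralizer ({(g : G ⧸ N)} : Set (G ⧸ N))) : ℂ) else 0) =
      Nat.card G * ∑ C, F C := by
    rw [H7.sum_eq_sum_quotient N, H7.card_eq_index_mul N, mul_comm (N.index : ℂ), mul_assoc,
      Subgroup.index, ← sum_card_centralizer_mul F, Finset.mul_sum]
    refine Finset.sum_congr rfl fun q _ => ?_
    have h3 : ∀ n : N, ((q.out * n : G) : G ⧸ N) = q := fun n => by simp
    rw [Finset.sum_congr rfl (g := fun _ =>
      (Nat.card (Subgroup.centralizer ({q} : Set (G ⧸ N))) : ℂ) * F (ConjClasses.mk q))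
      fun n _ => by
        have := hF (q.out * n)
        rw [h3] at this
        rw [h3, this]; split_ifs <;> simp]
    simp
  rw [h2, Finset.sum_ite, Finset.sum_const_zero, add_zero, Finset.sum_const, nsmul_eq_mul,
    mul_comm] at h1
  have h3 := mul_left_cancel₀ card_ne_zero h1
  simp only [F] at h3
  rw [Finset.sum_boole] at h3
  rw [Nat.card_eq_fintype_card, Nat.card_eq_fintype_card, Fintype.card_subtype,
    Fintype.card_subtype]
  exact_mod_cast h3

end Cfsg.Agent.S4567
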