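import Mathlib
import Cfsg.Statements.S4569
import Cfsg.Agent.Lib.Block.Ab2B

set_option autoImplicit false
open Cfsg

namespace Cfsg.Agent.S4569

open scoped ComplexConjugate commutatorElement

variable {G : Type*} [Group G] [Finite G] {M : Ideal AlgInt} [M.IsMaximal]

theorem card_mul_le_of_disjoint {X : Type*} [Group X] [Finite X] {A B : Subgroup X}
    (h : ∀ x, x ∈ A → x ∈ B → x = 1) : Nat.card A * Nat.card B ≤ Nat.card X := by
  have hd : Disjoint A B := Subgroup.disjoint_def.2 fun {x} => h x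
  rw [← Nat.card_prod]
  exact Nat.card_le_card_of_injective _ (Subgroup.mul_injective_of_disjoint hd)

theorem loc (hM : IsPModular 2 M) (P : Sylow 2 G) [hab : IsMulCommutative P] (hcard : Nat.card P = 16)
    (hel : ∀ x : P, x ^ 2 = 1) {V₁ V₂ : Subgroup (P : Subgroup G)} {z : MulAut (P : Subgroup G)}
    (hz : z ∈ H85.autz (P : Subgroup G)) (c1 : Nat.card V₁ = 4) (c2 : Nat.card V₂ = 4)
    (hd : ∀ x, x ∈ V₁ → x ∈ V₂ → x = 1) (hz1 : ∀ x, x ∈ V₁ ↔ z x = x)
    (i1 : ∀ e ∈ H85.autz (P : Subgroup G), ∀ x ∈ V₁, e x ∈ V₁)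
    (i2 : ∀ e ∈ H85.autz (P : Subgroup G), ∀ x ∈ V₂, e x ∈ V₂)
    (htr : ∀ x y, x ∉ V₁ → x ∉ V₂ → y ∉ V₁ → y ∉ V₂ → ∃ e ∈ H85.autz (P : Subgroup G), e x = y)
    (hpt : ∀ e ∈ H85.autz (P : Subgroup G), ∀ u ∈ V₁, u ≠ 1 → e u = u → ∀ x ∈ V₁, e x = x)
    {u w : (P : Subgroup G)} (hu : u ∈ V₁) (hu1 : u ≠ 1) (hw1 : w ∉ V₁) (hw2 : w ∉ V₂) :
    H34.Loc4 M (u : G) w ((Subgroup.centralizer ({(u : G)} : Set G)).subtype.comp
      (pResidual 2 (Subgroup.centralizer ({(u : G)} : Set G))).subtype) ∧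
    blockRank 2 (principalBlock M (Subgroup.centralizer ({(u : G)} : Set G))) = 3 ∧
    ∀ x ∈ V₂, ∀ y ∈ V₂, x ≠ 1 → y ≠ 1 → IsConj (x : G) y := by
  classical
  have hel' : ∀ x : (P : Subgroup G), (x : G) ^ 2 = 1 := fun x => congrArg Subtype.val (hel x)
  set C := Subgroup.centralizer ({(u : G)} : Set G) with hC
  have hle : (P : Subgroup G) ≤ C := H85.le_cent_of_mem (P : Subgroup G) u.2
  haveI := H4.pResidual_normal 2 C
  set K := pResidual 2 C with hK
  obtain ⟨Pc, hPc⟩ := H34.exists_sylow_le P hle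
  haveI hPcc : IsMulCommutative (Pc : Subgroup C) := H34.comm_of_mem_iff hPc
  have hnorm := H34.mem_normalizer_of_mem_iff hle (Q := (Pc : Subgroup C)) hPc
  have hcm : ∀ a b : (P : Subgroup G), a * b = b * a := hab.is_comm.comm
  -- `V₂ ≤ K`
  have hV2 : ∀ x ∈ V₂, (⟨x, hle x.2⟩ : C) ∈ K := by
    obtain ⟨n, hn, hzn⟩ := H85.mem_autz.1 hz
    have hnC : n ∈ C := by
      rw [hC, Subgroup.mem_centralizer_singleton_iff, ← mul_inv_eq_iff_eq_mul, ← hzn,
        (hz1 u).1 hu]
    let φ : V₂ → V₂ := fun s => ⟨s⁻¹ * z s, mul_mem (inv_mem s.2) (i2 z hz s s.2)⟩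
    have hφ : Function.Injective φ := by
      intro a b hab
      have e : (a : (P : Subgroup G))⁻¹ * z a = (b : (P : Subgroup G))⁻¹ * z b :=
        congrArg Subtype.val hab
      have e2 : z (a * (b : (P : Subgroup G))⁻¹) = a * (b : (P : Subgroup G))⁻¹ := by
        rw [map_mul, map_inv, mul_inv_eq_iff_eq_mul, mul_assoc, ← e]; group
      have := hd _ ((hz1 _).2 e2) (mul_mem a.2 (inv_mem b.2))
      exact Subtype.ext (mul_inv_eq_one.1 this)
    intro x hx
    obtain ⟨s, hs⟩ := Finite.surjective_of_injective hφ ⟨x, hx⟩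
    have hs' : x = (s : (P : Subgroup G))⁻¹ * z s := (congrArg Subtype.val hs).symm
    have e : (Pc : Subgroup C) ⊓ pResidual 2 C =
        ⁅(Pc : Subgroup C), Subgroup.normalizer ((Pc : Subgroup C) : Set C)⁆ :=
      H4.inf_pResidual_eq_commutator_normalizer Pc
    have hm := Subgroup.commutator_mem_commutator
      (H₁ := (Pc : Subgroup C)) (H₂ := Subgroup.normalizer ((Pc : Subgroup C) : Set C))
      (g₁ := ⟨((s : (P : Subgroup G)) : G)⁻¹, hle (inv_mem s.1.2)⟩) (g₂ := ⟨n, hnC⟩)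
      ((hPc _).2 (inv_mem s.1.2)) ((hnorm _).2 hn)
    rw [← e] at hm
    have e3 : (⟨x, hle x.2⟩ : C) =
        ⁅(⟨((s : (P : Subgroup G)) : G)⁻¹, hle (inv_mem s.1.2)⟩ : C), (⟨n, hnC⟩ : C)⁆ := by
      apply Subtype.ext
      show (x : G) = _
      rw [hs', Subgroup.coe_mul, hzn]
      simp [commutatorElement_def, mul_assoc]
    rw [e3]
    exact hm.2
  have hV1 : ∀ x ∈ V₁, (⟨x, hle x.2⟩ : C) ∈ K → x = 1 := by
    intro x hx hxK
    have := H34.eq_one_of_fix_of_mem_pResidual Pc ((hPc ⟨x, hle x.2⟩).2 x.2) (fun n hn => by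
      have hn' := (hnorm n).1 hn
      have h1 := hpt _ ⟨⟨n, hn'⟩, rfl⟩ u hu hu1 (Subtype.ext (by
        show (n : G) * u * (n : G)⁻¹ = u
        rw [mul_inv_eq_iff_eq_mul]
        exact Subgroup.mem_centralizer_singleton_iff.1 n.2)) x hx
      have h2 := congrArg Subtype.val h1
      exact Subtype.ext h2) hxK
    have h2 := congrArg Subtype.val this
    exact Subtype.ext h2
  have hKiff : ∀ x : (P : Subgroup G), (⟨x, hle x.2⟩ : C) ∈ K ↔ x ∈ V₂ := by
    let Q' : Subgroup (P : Subgroup G) := K.comap (Subgroup.inclusion hle)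
    have h1 : V₂ ≤ Q' := hV2
    have h2 := card_mul_le_of_disjoint (A := V₁) (B := Q') hV1
    have h3 : Nat.card (P : Subgroup G) = 16 := hcard
    rw [c1, h3] at h2
    have h4 := Subgroup.eq_of_le_of_card_ge h1 (by omega)
    intro x
    rw [h4]; rfl
  have hc4 : Nat.card ((Pc : Subgroup C) ⊓ K : Subgroup C) = 4 := by
    rw [← c2]
    symm
    apply Nat.card_congr
    refine Equiv.ofBijective (fun x => ⟨⟨x.1, hle x.1.2⟩, (hPc _).2 x.1.2, (hKiff _).2 x.2⟩) ⟨?_, ?_⟩
    · intro a b h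
      exact Subtype.ext (Subtype.ext (congrArg (fun y => (y.1 : G)) h))
    · rintro ⟨c, hc1, hc2⟩
      exact ⟨⟨⟨c, (hPc c).1 hc1⟩, (hKiff _).1 hc2⟩, rfl⟩
  have hidx : K.index = 4 := by
    have h1 := H34.index_pResidual_mul Pc
    have h2 : Nat.card Pc = 16 := by
      rw [← hcard]
      exact (H34.card_of_mem_iff hPc).trans (by rw [inf_eq_left.2 hle])
    rw [← hK, hc4, h2] at h1
    omega
  obtain ⟨Q, hQ⟩ := H34.exists_sylow_normal Pc K
  have hQ4 : Nat.card Q = 4 := (H34.card_of_mem_iff hQ).trans hc4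
  have hnn : ¬ HasNormalPComplement 2 K :=
    H4.not_hasNormalPComplement_of_pResidual_eq_top (H4.pResidual_pResidual 2 C)
      ((Dvd.intro 2 hQ4.symm).trans (Subgroup.card_subgroup_dvd_card (Q : Subgroup K)))
  have hspl := H34.spl_of_abelian Pc
  have hue : H35.IsPElt 2 (u : G) := H35.isPElt_of_mem P.isPGroup' u.2
  have hcomm : ∀ c : C, Commute (u : G) c := fun c =>
    (Subgroup.mem_centralizer_singleton_iff.1 c.2).symm
  refine ⟨⟨hue, fun k => hcomm k, fun χ => ?_, fun k k' hk hk' => ?_, fun k hk => ?_, fun hc => ?_,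
    ⟨Q, hQ4⟩, hnn⟩, ?_, fun x hx y hy hx1 hy1 => ?_⟩
  · have hz : (⟨u, hle u.2⟩ : C) ∈ Subgroup.center C :=
      Subgroup.mem_center_iff.2 fun c => Subtype.ext (hcomm c).eq.symm
    exact H6.isGen_restrict K (H34.isGen_central_mul
      (H6.isCharacter_restrict C (H6.irr_isCharacter χ.2)) hz
      (Subtype.ext (hel' u)))
  · have h1 := H34.sum_principal_section' hM hue (y := (k : C)) (y' := (k' : C))
      (by rwa [Subgroup.orderOf_coe]) (by rwa [Subgroup.orderOf_coe])
    have h2 := hspl.sum_mul_conj hM k k'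
    have hidx' : (pResidual 2 C).index = 4 := hidx
    rw [hidx'] at h2
    exact h1.trans h2
  · obtain ⟨a, ha⟩ := (H35.isPElt_pPart 2 k).exists_conj_mem Q
    have ht : (((a * H35.pPart 2 k * a⁻¹ : K) : C) : G) ∈ (P : Subgroup G) :=
      (hPc _).1 ((hQ _).1 ha)
    have ht2 : (⟨_, ht⟩ : (P : Subgroup G)) ∈ V₂ := (hKiff _).1 (a * H35.pPart 2 k * a⁻¹).2
    have ht1 : (⟨_, ht⟩ : (P : Subgroup G)) ≠ 1 := by
      intro h
      have h0 := congrArg Subtype.val h
      have : a * H35.pPart 2 k * a⁻¹ = 1 := Subtype.ext (Subtype.ext h0)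
      rw [conj_eq_one_iff] at this
      exact (H35.pPart_ne_one_iff 2).2 hk this
    obtain ⟨e, he, hew⟩ := htr w (u * ⟨_, ht⟩) hw1 hw2
      (fun h => ht1 (hd _ ((V₁.mul_mem_cancel_left hu).1 h) ht2))
      (fun h => hu1 (hd _ hu ((V₂.mul_mem_cancel_right ht2).1 h)))
    have h1 := H85.isConj_autz he w
    rw [hew] at h1
    refine h1.trans ?_
    rw [H35.pPart_pElt_mul (g := (C.subtype.comp K.subtype) k) hue (hcomm k), H35.pPart_map]
    refine (isConj_iff.2 ⟨((a : C) : G), ?_⟩).symm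
    have := (hcomm (a : C)).eq
    show ((a : C) : G) * (u * ((H35.pPart 2 k : K) : C)) * ((a : C) : G)⁻¹ =
      u * (((a : C) : G) * ((H35.pPart 2 k : K) : C) * ((a : C) : G)⁻¹)
    rw [← mul_assoc, ← this]; group
  · obtain ⟨e, he, h⟩ := H85.exists_autz_of_isConj P hc.symm
    exact hw1 (h ▸ i1 e he u hu)
  · rw [hspl.rank_eq hM]
    exact (H34.klein_pkg hM Q hQ4 hnn).2.1
  · have ho : ∀ x : (P : Subgroup G), x ≠ 1 → (hx : x ∈ V₂) →
        orderOf (⟨⟨x, hle x.2⟩, hV2 x hx⟩ : K) = 2 := fun x hx1 hx =>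
      orderOf_eq_prime (Subtype.ext (Subtype.ext (hel' x)))
        fun h => hx1 (Subtype.ext (congrArg (fun y : K => ((y : C) : G)) h))
    exact (C.subtype.comp K.subtype).map_isConj
      (H33.Klein.isConj_invol Q hQ4 hnn (ho x hx1 hx) (ho y hy1 hy))

theorem exists_ne_one {X : Type*} [Group X] [Finite X] {V : Subgroup X} (h : Nat.card V = 4) :
    ∃ u ∈ V, u ≠ 1 := by
  by_contra hn
  push Not at hn
  rw [(Subgroup.eq_bot_iff_forall V).2 hn, Subgroup.card_bot] at h
  omega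

/-- Let G be a finite group whose Sylow 2-subgroup P is elementary abelian of order 16, suppose the centralizer of P has index 9 in its normalizer, and let M be a maximal ideal of the algebraic integers containing 2. Then the principal 2-block contains exactly 16 irreducible characters and has 2-regular rank 9. -/
theorem result {G : Type*} [Group G] [Finite G] (M : Ideal Cfsg.AlgInt) (hM : Cfsg.IsPModular 2 M) (P : Sylow 2 G) (hcard : Nat.card P = 16) (hel : ∀ x : P, x ^ 2 = 1) (he : (Subgroup.centralizer ((P : Subgroup G) : Set G)).relIndex (Subgroup.normalizer ((P : Subgroup G) : Set G)) = 9) : Nat.card (Cfsg.principalBlock M G) = 16 ∧ Cfsg.blockRank 2 (Cfsg.principalBlock M G) = 9 := by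
  classical
  haveI := hM.2.1
  haveI := Fintype.ofFinite G
  haveI hab : IsMulCommutative (P : Subgroup G) := ⟨⟨fun a b => by
    have h1 : ∀ x : (P : Subgroup G), x⁻¹ = x := fun x =>
      inv_eq_of_mul_eq_one_right (by rw [← pow_two]; exact hel x)
    rw [← h1 (a * b), mul_inv_rev, h1, h1]⟩⟩
  obtain ⟨V₁, V₂, z₁, hz₁, z₂, hz₂, c1, c2, hd, f1, f2, i1, i2, hfree, htr, p1, p2⟩ :=
    H34.nine_on_sixteen (P := (P : Subgroup G)) hcard (E := H85.autz (P : Subgroup G))
      ((H85.card_autz _).trans he)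
  obtain ⟨u, hu, hu1⟩ := exists_ne_one c1
  obtain ⟨v, hv, hv1⟩ := exists_ne_one c2
  have hw1 : u * v ∉ V₁ := fun h => hv1 (hd _ ((V₁.mul_mem_cancel_left hu).1 h) hv)
  have hw2 : u * v ∉ V₂ := fun h => hu1 (hd _ hu ((V₂.mul_mem_cancel_right hv).1 h))
  obtain ⟨L1, r1, t2⟩ := loc hM P hcard hel hz₁ c1 c2 hd f1 i1 i2 htr p1 hu hu1 hw1 hw2
  obtain ⟨L2, r2, t1⟩ := loc hM P hcard hel hz₂ c2 c1 (fun x a b => hd x b a) f2 i2 i1
    (fun x y a b c d => htr x y b a d c) p2 hv hv1 hw2 hw1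
  set w := u * v with hw
  have huv : ¬ IsConj (u : G) v := fun hc => by
    obtain ⟨e, he, h⟩ := H85.exists_autz_of_isConj P hc
    exact hv1 (hd _ (h ▸ i1 e he u hu) hv)
  have hnpc : HasNormalPComplement 2 (Subgroup.centralizer ({(w : G)} : Set G)) := by
    refine H34.npc_of_free P w.2 fun n hn hc => ?_
    have := hfree w hw1 hw2 _ ⟨⟨n, hn⟩, rfl⟩ (Subtype.ext hc)
    refine Subgroup.mem_centralizer_iff.2 fun x hx => ?_
    have h1 := congrArg Subtype.val (DFunLike.congr_fun this (⟨x, hx⟩ : (P : Subgroup G)))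
    have h2 : n * x * n⁻¹ = x := h1
    rw [mul_inv_eq_iff_eq_mul] at h2
    exact h2.symm
  have hwe : H35.IsPElt 2 (w : G) := H35.isPElt_of_mem P.isPGroup' w.2
  have h16 := H85.sum_principal_npc hM P hwe (H85.le_cent_of_mem _ w.2) hnpc (IsConj.refl _)
  rw [hcard] at h16
  have hne : ∀ x : (P : Subgroup G), x ≠ 1 → (x : G) ≠ 1 := fun x hx h => hx (Subtype.ext h)
  have hw0 : w ≠ 1 := fun h => hw1 (h ▸ one_mem _)
  have n1 : ∀ x : (P : Subgroup G), x ≠ 1 → ¬ IsConj (1 : G) x := fun x hx h =>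
    hne x hx (isConj_one_right.1 h)
  have n2 : ∀ x : (P : Subgroup G), x ≠ 1 → ¬ IsConj (x : G) 1 := fun x hx h => n1 x hx h.symm
  have hX : ∀ a ∈ ({1, (u : G), (v : G), (w : G)} : Finset G),
      ∀ b ∈ ({1, (u : G), (v : G), (w : G)} : Finset G), IsConj a b → a = b := by
    intro a ha b hb hc
    simp only [Finset.mem_insert, Finset.mem_singleton] at ha hb
    rcases ha with rfl | rfl | rfl | rfl <;> rcases hb with rfl | rfl | rfl | rfl <;>
      first
        | rfl
        | exact absurd hc (n1 _ ‹_›)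
        | exact absurd hc (n2 _ ‹_›)
        | exact absurd hc huv
        | exact absurd hc.symm huv
        | exact absurd hc L1.nc
        | exact absurd hc.symm L1.nc
        | exact absurd hc L2.nc
        | exact absurd hc.symm L2.nc
  have hsum := H85.card_prin_eq_sum hM (X := {1, (u : G), (v : G), (w : G)})
    (by
      intro x hx
      simp only [Finset.mem_insert, Finset.mem_singleton] at hx
      rcases hx with rfl | rfl | rfl | rfl
      exacts [H35.isPElt_one, L1.pe, L2.pe, hwe])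
    (by
      intro g hg
      have hex : ∃ x ∈ ({1, (u : G), (v : G), (w : G)} : Finset G), IsConj g x := by
        obtain ⟨a, ha⟩ := hg.exists_conj_mem P
        have hc : IsConj g ((⟨_, ha⟩ : (P : Subgroup G)) : G) := isConj_iff.2 ⟨a, rfl⟩
        generalize (⟨_, ha⟩ : (P : Subgroup G)) = x at hc
        by_cases h1 : x = 1
        · exact ⟨1, by simp, by simpa [h1] using hc⟩
        by_cases h2 : x ∈ V₁
        · exact ⟨u, by simp, hc.trans (t1 x h2 u hu h1 hu1)⟩
        by_cases h3 : x ∈ V₂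
        · exact ⟨v, by simp, hc.trans (t2 x h3 v hv h1 hv1)⟩
        obtain ⟨e, he, h⟩ := htr x w h2 h3 hw1 hw2
        exact ⟨w, by simp, hc.trans (h ▸ H85.isConj_autz he x)⟩
      obtain ⟨x, hx, hc⟩ := hex
      exact ⟨x, ⟨hx, hc⟩, fun y hy => hX y hy.1 x hx (hy.2.symm.trans hc)⟩)
  have d1 : (u : G) ≠ v := fun h => huv (h ▸ IsConj.refl _)
  have d2 : (u : G) ≠ w := fun h => L1.nc (h ▸ IsConj.refl _)
  have d3 : (v : G) ≠ w := fun h => L2.nc (h ▸ IsConj.refl _)
  rw [Finset.sum_insert (by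
      simp only [Finset.mem_insert, Finset.mem_singleton, not_or]
      exact ⟨(hne u hu1).symm, (hne v hv1).symm, (hne w hw0).symm⟩),
    Finset.sum_insert (by simp only [Finset.mem_insert, Finset.mem_singleton, not_or]; exact ⟨d1, d2⟩),
    Finset.sum_pair d3, H85.blockRank_prin_centralizer_one hM, r1, r2,
    (H85.blockRank_prin_eq_one_iff hM).2 hnpc] at hsum
  have hl1 : blockRank 2 (principalBlock M G) ≠ 1 := by
    rw [Ne, H85.blockRank_prin_eq_one_iff hM]
    intro h
    have : Subgroup.normalizer ((P : Subgroup G) : Set G) ≤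
        Subgroup.centralizer ((P : Subgroup G) : Set G) := fun n hn => by
      have h1 : Subgroup.centralizer ({(1 : G)} : Set G) = ⊤ := by
        rw [eq_top_iff]; intro x _; simp [Subgroup.mem_centralizer_singleton_iff]
      exact H34.free_of_npc P (one_mem _) (H4.hasNormalPComplement_subgroup h _) hn (by simp)
    rw [Subgroup.relIndex_eq_one.2 this] at he
    omega
  have hl0 : blockRank 2 (principalBlock M G) ≠ 0 := by
    intro h
    rw [H84.blockRank_eq_finrank, Submodule.finrank_eq_zero] at h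
    have := H84.reg_mem_regSpan (p := 2) (H84.irrOne_mem_principal (M := M) (G := G))
    rw [h, Submodule.mem_bot] at this
    have h2 := congrFun this 1
    rw [H84.reg_one] at h2
    exact one_ne_zero h2
  have hk := H34.card_eq_sixteen hM L1 L2 huv (congrArg Subtype.val (hel w)) hnpc
    (by exact_mod_cast h16) (fun χ hχ => H34.principal_ne_zero_of_mem hM P w.2 hχ) (by omega)
  exact ⟨hk, by omega⟩

end Cfsg.Agent.S4569
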