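import Mathlib
import Cfsg.Statements.S4574
import Cfsg.Agent.Lib.H85.CharAux
import Cfsg.Agent.Lib.Char.Burnside
-- import your own Cfsg.Agent.* helpers here

set_option autoImplicit false
open Cfsg

namespace Cfsg.Agent.S4574

/-- Let χ be an irreducible character of the finite group G, of degree d, and let Z(χ) be the set of elements g with |χ g| = d (the centre of χ). Then χ vanishes on at least (d ^ 2 - 1) · |Z(χ)| elements of G, with equality when every value |χ g| is 0, 1 or d. -/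
theorem result {G : Type*} [Group G] [Fintype G] [DecidableEq G] (χ : G → ℂ) (hχ : Cfsg.IsIrrCharacter G χ) : (Cfsg.charDegree χ ^ 2 - 1) * (Finset.univ.filter (fun g : G => ‖χ g‖ = (Cfsg.charDegree χ : ℝ))).card ≤ (Finset.univ.filter (fun g : G => χ g = 0)).card ∧ ((∀ g : G, ‖χ g‖ = 0 ∨ ‖χ g‖ = 1 ∨ ‖χ g‖ = (Cfsg.charDegree χ : ℝ)) → (Cfsg.charDegree χ ^ 2 - 1) * (Finset.univ.filter (fun g : G => ‖χ g‖ = (Cfsg.charDegree χ : ℝ))).card = (Finset.univ.filter (fun g : G => χ g = 0)).card) := by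
  classical
  set d := charDegree χ with hd
  have hc := H6.irr_isCharacter hχ
  have hdpos : 0 < d := H85.charDegree_irr_pos hχ
  set Z := Finset.univ.filter (fun g : G => ‖χ g‖ = (d : ℝ)) with hZ
  set N := Finset.univ.filter (fun g : G => χ g = 0) with hN
  set S := Finset.univ.filter (fun g : G => χ g ≠ 0 ∧ ‖χ g‖ ≠ (d : ℝ)) with hS
  have hnorm : ∀ g, ‖χ g‖ = (d : ℝ) ↔ χ g * χ g⁻¹ = (d : ℂ) ^ 2 := by
    intro g
    rw [H6.char_inv hc, Complex.mul_conj, Complex.normSq_eq_norm_sq]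
    constructor
    · intro h; rw [h]; push_cast; ring
    · intro h
      have h' : ‖χ g‖ ^ 2 = (d : ℝ) ^ 2 := by exact_mod_cast h
      exact (pow_left_inj₀ (norm_nonneg _) (Nat.cast_nonneg _) two_ne_zero).mp h'
  have hsum : ∑ g, ‖χ g‖ ^ 2 = (Fintype.card G : ℝ) := by
    have h1 := H6.classInner_self_re χ
    rw [H6.irr_inner_self hχ, Nat.card_eq_fintype_card] at h1
    have h2 : (Fintype.card G : ℝ) ≠ 0 := by exact_mod_cast Fintype.card_ne_zero
    simp only [Complex.one_re] at h1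
    field_simp at h1
    exact h1.symm
  have hdisj1 : Disjoint Z N := by
    rw [Finset.disjoint_filter]
    intro g _ h1 h2
    rw [h2, norm_zero] at h1
    have : (d : ℝ) = 0 := h1.symm
    exact hdpos.ne' (by exact_mod_cast this)
  have hdisj2 : Disjoint (Z ∪ N) S := by
    rw [Finset.disjoint_left]
    intro g h1 h2
    simp only [hZ, hN, hS, Finset.mem_union, Finset.mem_filter, Finset.mem_univ, true_and] at h1 h2
    tauto
  have huniv : (Z ∪ N) ∪ S = Finset.univ := by
    ext g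
    simp only [hZ, hN, hS, Finset.mem_union, Finset.mem_filter, Finset.mem_univ, true_and]
    tauto
  have hcard : Z.card + N.card + S.card = Fintype.card G := by
    rw [← Finset.card_union_of_disjoint hdisj1, ← Finset.card_union_of_disjoint hdisj2, huniv,
      Finset.card_univ]
  have hsplit : (d : ℝ) ^ 2 * Z.card + ∑ g ∈ S, ‖χ g‖ ^ 2 = (Fintype.card G : ℝ) := by
    rw [← hsum, ← huniv, Finset.sum_union hdisj2, Finset.sum_union hdisj1]
    have h1 : ∑ g ∈ Z, ‖χ g‖ ^ 2 = (d : ℝ) ^ 2 * Z.card := by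
      rw [Finset.sum_congr rfl (g := fun _ => (d : ℝ) ^ 2), Finset.sum_const, nsmul_eq_mul, mul_comm]
      intro g hg
      rw [(Finset.mem_filter.mp hg).2]
    have h2 : ∑ g ∈ N, ‖χ g‖ ^ 2 = 0 := by
      refine Finset.sum_eq_zero fun g hg => ?_
      rw [(Finset.mem_filter.mp hg).2]
      simp
    rw [h1, h2, add_zero]
  have hge : (S.card : ℝ) ≤ ∑ g ∈ S, ‖χ g‖ ^ 2 := by
    refine H8.card_le_sum_normSq (H6.char_isGen hc) S ?_ (fun g hg => (Finset.mem_filter.mp hg).2.1)
    intro g hg m hm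
    obtain ⟨σ, hσ⟩ := H8.exists_ringEquiv_character_pow (G := G) hm
    obtain ⟨h1, h2⟩ := (Finset.mem_filter.mp hg).2
    refine Finset.mem_filter.mpr ⟨Finset.mem_univ _, ?_, ?_⟩
    · rw [← hσ χ (Or.inr hc)]
      simpa using h1
    · intro h
      apply h2
      rw [hnorm] at h ⊢
      rw [← inv_pow, ← hσ χ (Or.inr hc), ← hσ χ (Or.inr hc), ← map_mul] at h
      apply σ.injective
      rw [h]; simp
  have hcardR : (Z.card : ℝ) + N.card + S.card = Fintype.card G := by exact_mod_cast hcard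
  have hd1 : 1 ≤ d ^ 2 := Nat.one_le_pow _ _ hdpos
  have hcast : (((d ^ 2 - 1) * Z.card : ℕ) : ℝ) = (d : ℝ) ^ 2 * Z.card - Z.card := by
    push_cast [Nat.cast_sub hd1]; ring
  constructor
  · have : (((d ^ 2 - 1) * Z.card : ℕ) : ℝ) ≤ N.card := by rw [hcast]; linarith
    exact_mod_cast this
  · intro h
    have h1 : ∑ g ∈ S, ‖χ g‖ ^ 2 = S.card := by
      rw [Finset.sum_congr rfl (g := fun _ => (1 : ℝ)), Finset.sum_const, nsmul_eq_mul, mul_one]
      intro g hg
      obtain ⟨h1, h2⟩ := (Finset.mem_filter.mp hg).2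
      rcases h g with h3 | h3 | h3
      · exact absurd (norm_eq_zero.mp h3) h1
      · rw [h3, one_pow]
      · exact absurd h3 h2
    have : (((d ^ 2 - 1) * Z.card : ℕ) : ℝ) = N.card := by rw [hcast]; linarith
    exact_mod_cast this

end Cfsg.Agent.S4574
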