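import Mathlib
import Cfsg.Statements.S4575
import Cfsg.Agent.Lib.H85.Contrib2
-- import your own Cfsg.Agent.* helpers here

set_option autoImplicit false
open Cfsg

namespace Cfsg.Agent.S4575

/-- Let B be a 2-block of the finite group G (relative to a maximal ideal M of the algebraic integers containing 2) of defect d with defect group D. Let z be an element of D commuting with every element of D, and let b be a block of the centralizer of z with defect group D that induces B (a major subsection (z, b)). If the number of irreducible characters in B exceeds the 2-regular rank of b by at most three, then B contains at most 2 ^ d irreducible characters. -/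
theorem result {G : Type*} [Group G] [Finite G] (M : Ideal Cfsg.AlgInt) (hM : Cfsg.IsPModular 2 M) (B : Set (Cfsg.IrrCharacter G)) (hB : Cfsg.IsPBlock M B) (D : Subgroup G) (hD : Cfsg.IsDefectGroup 2 M B D) (z : G) (hzD : z ∈ D) (hzc : ∀ d ∈ D, d * z = z * d) (b : Set (Cfsg.IrrCharacter ↥(Subgroup.centralizer ({z} : Set G)))) (hb : Cfsg.IsInducedBlock M (Subgroup.centralizer ({z} : Set G)) b B) (hbD : Cfsg.IsDefectGroup 2 M b (D.subgroupOf (Subgroup.centralizer ({z} : Set G)))) (h : Nat.card B ≤ Cfsg.blockRank 2 b + 3) : Nat.card B ≤ 2 ^ Cfsg.blockDefect 2 B := by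
  classical
  have := H33.isMaximal_of hM
  let := Fintype.ofFinite G
  let := Fintype.ofFinite (Subgroup.centralizer ({z} : Set G))
  have hC := H84.isCen_singleton z
  have hu : H35.IsPElt 2 z := H35.isPElt_of_mem (H33.defect_isPGroup hD) hzD
  have hd := H85.defect_eq_of_subgroupOf hM hb hD
    (fun d hd => Subgroup.mem_centralizer_singleton_iff.2 (hzc d hd)) hbD
  obtain ⟨a, w, H⟩ := H85.exists_avg hM hu hC hb
  by_cases hk : (H84.bset B).card ≤ 1
  · rw [← H84.card_bset]
    exact hk.trans Nat.one_le_two_pow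
  have hd0 : blockDefect 2 B ≠ 0 := fun h0 => by
    have := H84.four_mul_card_le hM hB
    rw [h0, ← H84.card_bset] at this
    omega
  obtain ⟨d, hd'⟩ := Nat.exists_eq_succ_of_ne_zero hd0
  have hpos : (0 : ℝ) < 2 ^ blockDefect 2 B := by positivity
  -- basic identity
  have hid : ∀ χ' ∈ H84.bset B, ∑ χ ∈ (H84.bset B).erase χ', w χ χ' + w χ' χ' =
      2 ^ blockDefect 2 B * a χ' := fun χ' hχ' => by
    rw [Finset.sum_erase_add _ _ hχ', H.sum_w, hd]
    norm_num
  have hodd : ∀ χ' ∈ H84.bset B, blockHeight 2 B (χ' : G → ℂ) = 0 →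
      ((H84.bset B).card : ℝ) ≤ 2 ^ blockDefect 2 B * (2 ^ blockDefect 2 B - a χ') := fun χ' hχ' h0 => by
    have h1 := H.one_le_compl χ' (2 ^ blockDefect 2 B) fun e => by
      have := (H85.red_qf_sub_ne_zero_iff hM hu hC hb (H84.mem_bset.1 hχ') (H84.mem_bset.1 hχ')).2 ⟨h0, h0⟩
      rw [e, H33.red_intCast, Ne, H33.intCast_F_eq_zero_iff hM] at this
      exact this (dvd_pow_self _ hd0)
    have h2 := Finset.card_nsmul_le_sum ((H84.bset B).erase χ') (fun χ => w χ χ') 1 fun χ hχ =>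
      H.one_le_w hu hC (H85.qf_ne_zero_of_major hM hu hC hb hd
        (H84.mem_bset.1 (Finset.mem_of_mem_erase hχ)) (H84.mem_bset.1 hχ') h0)
    rw [Finset.card_erase_of_mem hχ', nsmul_eq_mul, Nat.cast_sub (by omega)] at h2
    have h3 := hid χ' hχ'
    push_cast at h1 h2
    nlinarith
  by_cases h3 : ∀ χ ∈ H84.bset B, a χ ≤ 2 ^ blockDefect 2 B - 3
  · have h1 := Finset.sum_le_card_nsmul _ _ _ h3
    rw [H.sum_a, hd, nsmul_eq_mul, H84.card_bset] at h1
    have h2 : (Nat.card B : ℝ) ≤ blockRank 2 b + 3 := by exact_mod_cast h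
    have : (Nat.card B : ℝ) ≤ 2 ^ blockDefect 2 B := by
      push_cast at h1
      nlinarith
    exact_mod_cast this
  push Not at h3
  obtain ⟨χ', hχ', h3⟩ := h3
  by_cases h0 : blockHeight 2 B (χ' : G → ℂ) = 0
  · obtain ⟨m, e, -, ho⟩ := H.odd hM hu hC hb (H84.mem_bset.1 hχ')
    obtain ⟨i, rfl⟩ := ho.2 h0
    have h1 := hodd χ' hχ' h0
    rw [e] at h1 h3
    have h4 : (2 : ℤ) ^ blockDefect 2 B - 3 < 2 * i + 1 := by exact_mod_cast h3
    have h5 : (2 : ℤ) ^ blockDefect 2 B - (2 * i + 1) ≤ 1 := by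
      rw [hd', pow_succ] at h4 ⊢
      omega
    have h6 : (2 : ℝ) ^ blockDefect 2 B - ((2 * i + 1 : ℤ) : ℝ) ≤ 1 := by exact_mod_cast h5
    have : ((H84.bset B).card : ℝ) ≤ 2 ^ blockDefect 2 B := by nlinarith
    rw [← H84.card_bset]
    exact_mod_cast this
  · exfalso
    obtain ⟨m, hm, e⟩ := H.pos_height hM hu hC hb hd (H84.mem_bset.1 hχ') h0
    obtain ⟨χ₀, h₀, hh₀⟩ := H84.exists_height_zero (p := 2) (H84.block_nonempty hB)
    have hne : χ₀ ≠ χ' := by rintro rfl; exact h0 hh₀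
    have h1 : H85.qf 2 b (H84.sub 2 z _ b χ₀) (H84.sub 2 z _ b χ') ≠ 0 := by
      rw [← H85.conj_qf, map_ne_zero]
      exact H85.qf_ne_zero_of_major hM hu hC hb hd (H84.mem_bset.1 hχ') h₀ hh₀
    have h2 := (H.one_le_w hu hC h1).trans (Finset.single_le_sum (f := fun χ => w χ χ')
      (fun χ _ => H.w_nonneg _ _) (Finset.mem_erase.2 ⟨hne, H84.mem_bset.2 h₀⟩))
    have h4 := hid χ' hχ'
    have h5 : a χ' < 2 ^ blockDefect 2 B := by
      by_cases h6 : H85.qf 2 b (H84.sub 2 z _ b χ') (H84.sub 2 z _ b χ') = ((2 ^ blockDefect 2 B : ℤ) : ℂ)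
      · have h8 := H.one_le_compl χ' (2 ^ blockDefect 2 B + 1) (by rw [h6]; simp)
        push_cast at h8
        nlinarith
      · have h7 := H.one_le_compl χ' _ h6
        push_cast at h7
        nlinarith
    obtain ⟨c, hc⟩ := Nat.exists_eq_add_of_le (H84.height_add_two_le hM hB (H84.mem_bset.1 hχ') h0)
    obtain ⟨j, hj⟩ := Nat.exists_eq_succ_of_ne_zero h0
    rw [e, hc, hj] at h3 h5
    have h3 : (2 : ℤ) ^ (j + 1 + 2 + c) - 3 < 2 ^ (j + 1 + 1) * m := by exact_mod_cast h3
    have h5 : (2 : ℤ) ^ (j + 1 + 1) * m < 2 ^ (j + 1 + 2 + c) := by exact_mod_cast h5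
    rw [show (2 : ℤ) ^ (j + 1 + 2 + c) = 4 * 2 ^ (j + 1 + c) by ring,
      show (2 : ℤ) ^ (j + 1 + 1) * m = 4 * (2 ^ j * m) by ring] at h3 h5
    omega

end Cfsg.Agent.S4575
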