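import Mathlib
import Cfsg.Statements.S4580
import Cfsg.Agent.Lib.H85.Prin2
import Cfsg.Agent.Lib.Char.ExtGall
-- import your own Cfsg.Agent.* helpers here

set_option autoImplicit false
open Cfsg

namespace Cfsg.Agent.S4580

/-- Let N be a normal subgroup of the finite group G, M a maximal ideal of the algebraic integers containing 2, and θ a real-valued irreducible character of N of odd degree that extends to G (some irreducible character of G restricts to θ). Then θ has an extension to G lying in the principal 2-block of G. -/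
theorem result {G : Type*} [Group G] [Finite G] (N : Subgroup G) [N.Normal] (M : Ideal Cfsg.AlgInt) (hM : Cfsg.IsPModular 2 M) (θ : Cfsg.IrrCharacter N) (hreal : ∀ n : N, ((θ : N → ℂ) n).im = 0) (hodd : Odd (Cfsg.charDegree (θ : N → ℂ))) (hext : ∃ η : Cfsg.IrrCharacter G, ∀ n : N, (η : G → ℂ) n = (θ : N → ℂ) n) :
    ∃ η : Cfsg.IrrCharacter G, (∀ n : N, (η : G → ℂ) n = (θ : N → ℂ) n) ∧ η ∈ Cfsg.principalBlock M G := by
  classical
  obtain ⟨η, hη⟩ := hext
  have hc : ∀ n : N, (starRingEnd ℂ) ((η : G → ℂ) n) = (θ : N → ℂ) n := by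
    intro n
    rw [hη, Complex.conj_eq_iff_im, hreal]
  obtain ⟨B, hB1, hB2⟩ := H31.exists_hom_of_two_extensions N θ.2 (H6.irr_isCharacter η.2)
    (H6.isCharacter_conj (H6.irr_isCharacter η.2)) hη hc
  obtain ⟨r, hr, hrG⟩ := H33.natCast_eq_pow_mul Nat.prime_two (Nat.card_pos (α := G)).ne'
  obtain ⟨m, hm⟩ : Odd r := Nat.not_even_iff_odd.1 (fun h => hr h.two_dvd)
  refine ⟨⟨_, H6.isIrrCharacter_mul_hom η.2 (B ^ (m + 1))⟩, ?_, ?_⟩
  · intro n
    show (η : G → ℂ) n * ((B ^ (m + 1)) n : ℂˣ) = _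
    rw [MonoidHom.pow_apply, hB1 n n.2, one_pow, Units.val_one, mul_one, hη]
  · apply H85.mem_prin_two_of_real hM
    · show Odd (charDegree (fun g => (η : G → ℂ) g * ((B ^ (m + 1)) g : ℂˣ)))
      rw [H87.deg_mul_hom, H87.deg_congr (ψ := (θ : N → ℂ)) (hη 1)]
      exact hodd
    · intro g hg
      show (η : G → ℂ) g⁻¹ * ((B ^ (m + 1)) g⁻¹ : ℂˣ) = (η : G → ℂ) g * ((B ^ (m + 1)) g : ℂˣ)
      have h1 : orderOf g ∣ r := by
        have h2 := orderOf_dvd_natCard g
        rw [hrG] at h2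
        exact (Nat.Coprime.pow_right _ ((Nat.Prime.coprime_iff_not_dvd Nat.prime_two).2
          hg).symm).dvd_of_dvd_mul_left h2
      have h3 : B g ^ r = 1 := by
        rw [← map_pow, orderOf_dvd_iff_pow_eq_one.1 h1, map_one]
      have h4 : B g * (B g ^ (m + 1))⁻¹ = B g ^ (m + 1) := by
        rw [mul_inv_eq_iff_eq_mul, ← pow_add, show m + 1 + (m + 1) = r + 1 by omega, pow_succ, h3,
          one_mul]
      rw [H33.irr_inv, hB2 g, map_inv, MonoidHom.pow_apply, mul_comm (B g : ℂ), mul_assoc,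
        ← Units.val_mul, h4]

end Cfsg.Agent.S4580
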