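import Mathlib
import Cfsg.Statements.S4581
import Cfsg.Agent.Lib.H85.McK2
-- import your own Cfsg.Agent.* helpers here

set_option autoImplicit false
open Cfsg

namespace Cfsg.Agent.S4581

/-- Let G be a finite solvable group, P a Sylow 2-subgroup and N its normalizer. Then G and N have the same number of real-valued irreducible characters of odd degree; and every odd-degree irreducible character of G is real-valued exactly when the derived subgroup of P equals the Frattini subgroup of P and P is its own normalizer in G. -/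
theorem result {G : Type*} [Group G] [Finite G] [Group.IsSolvable G] (P : Sylow 2 G) :
    Nat.card {χ : Cfsg.IrrCharacter G // (∀ g : G, ((χ : G → ℂ) g).im = 0) ∧ Odd (Cfsg.charDegree (χ : G → ℂ))} =
      Nat.card {ψ : Cfsg.IrrCharacter (Subgroup.normalizer ((P : Subgroup G) : Set G)) // (∀ g, ((ψ : Subgroup.normalizer ((P : Subgroup G) : Set G) → ℂ) g).im = 0) ∧ Odd (Cfsg.charDegree (ψ : Subgroup.normalizer ((P : Subgroup G) : Set G) → ℂ))} ∧
    ((∀ χ : Cfsg.IrrCharacter G, Odd (Cfsg.charDegree (χ : G → ℂ)) → ∀ g : G, ((χ : G → ℂ) g).im = 0) ↔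
      (commutator (P : Subgroup G) = frattini (P : Subgroup G) ∧ Subgroup.normalizer ((P : Subgroup G) : Set G) = (P : Subgroup G))) := by
  have hG := H3.isPiSeparable_of_isSolvable (G := G) {2}
  have h1 := H85.mckay_abs (r := True) (fun _ => rfl) hG P
  have h2 := H85.mckay_abs (r := False) False.elim hG P
  simp only [true_imp_iff, false_imp_iff, and_true] at h1 h2
  have e : ∀ n : ℕ, Odd n ↔ ¬ 2 ∣ n := fun n => by
    rw [Nat.odd_iff, Nat.two_dvd_ne_zero]
  simp only [e]
  refine ⟨?_, ?_⟩
  · simp only [and_comm (b := ¬ _)]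
    exact h1
  · have : ((P.subtype Subgroup.le_normalizer : Sylow 2 (Subgroup.normalizer
      ((P : Subgroup G) : Set G))) : Subgroup (Subgroup.normalizer
      ((P : Subgroup G) : Set G))).Normal := Subgroup.normal_in_normalizer
    refine (H85.forall_iff_card_eq (Q := fun χ : IrrCharacter G => H87.IsReal χ.1)).trans ?_
    rw [h1, h2, ← H85.forall_iff_card_eq,
      H85.odd_real_iff_of_normal (P.subtype Subgroup.le_normalizer), Sylow.coe_subtype,
      Subgroup.subgroupOf_eq_top]
    have key : ∀ H : Subgroup G, H = P → ((∀ x : H, x ^ 2 ∈ commutator H) ↔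
        commutator (P : Subgroup G) = frattini (P : Subgroup G)) := by
      rintro _ rfl
      exact ⟨fun h => le_antisymm (H1.commutator_le_frattini P.isPGroup')
        (H1.frattini_le_of_commutator_le_of_pow_mem Nat.prime_two le_rfl h),
        fun h x => h ▸ H1.pow_mem_frattini P.isPGroup' x⟩
    exact ⟨fun ⟨h3, h4⟩ => ⟨(key _ (le_antisymm h4 Subgroup.le_normalizer)).1 h3,
      le_antisymm h4 Subgroup.le_normalizer⟩, fun ⟨h3, h4⟩ => ⟨(key _ h4).2 h3, h4.le⟩⟩

end Cfsg.Agent.S4581
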