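import Mathlib
import Cfsg.Statements.S4582
import Cfsg.Agent.Lib.Deg.SylNorm

set_option autoImplicit false
open Cfsg

namespace Cfsg.Agent.S4582

theorem aux {G : Type*} [Group G] [Finite G] (N P : Subgroup G) [N.Normal] (hP2 : IsPGroup 2 P)
    (hi : ¬ 2 ∣ P.relIndex (P ⊔ N))
    (hP : ∀ x ∈ P, x ^ 2 ∈ (P ⊓ N) ⊔ ⁅P, P⁆) (hQ : ∀ x ∈ P ⊓ N, x ^ 2 ∈ ⁅P ⊓ N, P ⊓ N⁆)
    (hodd : Odd (Nat.card (Abelianization N))) : ∀ x ∈ P, x ^ 2 ∈ ⁅P, P⁆ := by
  intro x hx
  have := Fact.mk Nat.prime_two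
  let L : Subgroup G := P ⊔ N
  let e := Subgroup.subgroupOfEquivOfLe (le_sup_left : P ≤ L)
  let φ := (Abelianization.of (G := P)).comp e.toMonoidHom
  have hφ : ∀ y : P, Abelianization.of y = 1 ↔ (y : G) ∈ ⁅P, P⁆ := fun y => by
    rw [← Subgroup.map_subtype_commutator]
    exact (QuotientGroup.eq_one_iff y).trans
      (Subgroup.mem_map_iff_mem P.subtype_injective).symm
  have h0 : ∀ y : P.subgroupOf L, (y : L) ∈ N.subgroupOf L → φ y ^ 2 = 1 := fun y hy =>
    (map_pow Abelianization.of (e y) 2).symm.trans ((hφ (e y ^ 2)).2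
      (Subgroup.commutator_mono inf_le_left inf_le_left (hQ ((y : L) : G) ⟨y.2, hy⟩)))
  have h1 := H87.transfer_pow_eq (N := N.subgroupOf L) (P := P.subgroupOf L)
    (by rw [← Subgroup.subgroupOf_sup le_sup_left le_sup_right, Subgroup.subgroupOf_self]) φ h0
    (e.symm ⟨x, hx⟩)
  have h2 : IsPGroup 2 (Abelianization P) := hP2.to_quotient _
  generalize MonoidHom.transfer φ = V at h1
  have h3 : (P ⊓ N) ⊔ ⁅P, P⁆ ≤ V.ker.map L.subtype := by
    refine sup_le (fun y hy => ⟨⟨y, Subgroup.mem_sup_right hy.2⟩, ?_, rfl⟩) ?_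
    · let W := Abelianization.lift (V.comp (Subgroup.inclusion (le_sup_right : N ≤ L)))
      obtain ⟨k, hk⟩ := IsPGroup.iff_orderOf.1 h2 (W (Abelianization.of ⟨y, hy.2⟩))
      exact orderOf_eq_one_iff.1 (Nat.eq_one_of_dvd_coprimes ((Nat.coprime_two_left.2 hodd).pow_left k)
        hk.dvd ((orderOf_map_dvd W (Abelianization.of ⟨y, hy.2⟩)).trans (orderOf_dvd_natCard _)))
    · refine (Subgroup.commutator_mono (le_sup_left : P ≤ L) (le_sup_left : P ≤ L)).trans ?_
      rw [← Subgroup.map_subtype_commutator]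
      exact Subgroup.map_mono (Abelianization.commutator_subset_ker V)
  obtain ⟨y, hy, hy'⟩ := h3 (hP x hx)
  have h4 : ((e.symm ⟨x, hx⟩ : P.subgroupOf L) : L) ^ 2 = y := Subtype.ext hy'.symm
  have h5 : φ (e.symm ⟨x, hx⟩) ^ 2 = Abelianization.of (⟨x, hx⟩ ^ 2 : P) :=
    (map_pow Abelianization.of (⟨x, hx⟩ : P) 2).symm
  rw [← map_pow, h4, show V y = 1 from hy, h5] at h1
  refine (hφ (⟨x, hx⟩ ^ 2)).1 ?_
  generalize Abelianization.of (⟨x, hx⟩ ^ 2 : P) = w at h1
  obtain ⟨k, hk⟩ := IsPGroup.iff_orderOf.1 h2 w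
  exact orderOf_eq_one_iff.1 (Nat.eq_one_of_dvd_coprimes
    (((Nat.Prime.coprime_iff_not_dvd Nat.prime_two).2 hi).pow_left k) hk.dvd
    (orderOf_dvd_of_pow_eq_one h1.symm))

/-- Let N be a normal subgroup of the finite group G, P a Sylow 2-subgroup of G and Q = P ∩ N. Suppose that P/QP' and Q/Q' are elementary abelian (every square of an element of P lies in the subgroup generated by Q and the derived subgroup of P, and every square of an element of Q lies in the derived subgroup of Q), and that the commutator factor group N/N' has odd order. Then P/P' is elementary abelian. -/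
theorem result {G : Type*} [Group G] [Finite G] (N : Subgroup G) [N.Normal] (P : Sylow 2 G)
    (hP : ∀ x ∈ (P : Subgroup G), x ^ 2 ∈ ((P : Subgroup G) ⊓ N) ⊔ ⁅(P : Subgroup G), (P : Subgroup G)⁆)
    (hQ : ∀ x ∈ (P : Subgroup G) ⊓ N, x ^ 2 ∈ ⁅(P : Subgroup G) ⊓ N, (P : Subgroup G) ⊓ N⁆)
    (hodd : Odd (Nat.card (Abelianization N))) :
    ∀ x ∈ (P : Subgroup G), x ^ 2 ∈ ⁅(P : Subgroup G), (P : Subgroup G)⁆ := by
  exact aux N P P.isPGroup' (P.subtype le_sup_left).not_dvd_index hP hQ hodd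

end Cfsg.Agent.S4582
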