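import Mathlib
import Cfsg.Statements.S4583
import Cfsg.Agent.Lib.H85.Prin2
-- import your own Cfsg.Agent.* helpers here

set_option autoImplicit false
open Cfsg

namespace Cfsg.Agent.S4583

/-- Let N be a normal subgroup of the finite group G, p a prime, M a maximal ideal of the algebraic integers containing p, and P a Sylow p-subgroup of G. Let θ be an irreducible character of N of degree prime to p lying in the principal p-block of N, and suppose θ extends to the subgroup NP (some irreducible character of NP restricts to θ). Then some irreducible character χ of G of degree prime to p in the principal p-block of G lies over θ (θ is a constituent of the restriction of χ to N). -/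
theorem result {G : Type*} [Group G] [Finite G] (N : Subgroup G) [N.Normal] (p : ℕ) [Fact p.Prime] (M : Ideal Cfsg.AlgInt) (hM : Cfsg.IsPModular p M) (P : Sylow p G)
    (θ : Cfsg.IrrCharacter N) (hθ : θ ∈ Cfsg.principalBlock M N) (hdeg : ¬ p ∣ Cfsg.charDegree (θ : N → ℂ))
    (hext : ∃ η : Cfsg.IrrCharacter ↥(N ⊔ (P : Subgroup G)), ∀ n : N, (η : ↥(N ⊔ (P : Subgroup G)) → ℂ) (Subgroup.inclusion le_sup_left n) = (θ : N → ℂ) n) :
    ∃ χ : Cfsg.IrrCharacter G, χ ∈ Cfsg.principalBlock M G ∧ ¬ p ∣ Cfsg.charDegree (χ : G → ℂ) ∧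
      haveI := Fintype.ofFinite N; Cfsg.classInner (fun n : N => (χ : G → ℂ) n) (θ : N → ℂ) ≠ 0 := by
  classical
  have := Fintype.ofFinite G
  have := H33.isMaximal_of hM
  obtain ⟨η, hη⟩ := hext
  let H := N ⊔ (P : Subgroup G)
  have hNH : N ≤ H := le_sup_left
  let θ' : IrrCharacter (N.subgroupOf H) := ⟨_, H7.isIrr_subgroupOf hNH θ.2⟩
  have hθ' : θ' ∈ principalBlock M (N.subgroupOf H) :=
    (H85.mem_prin_of_equiv hM (Subgroup.subgroupOfEquivOfLe hNH) (fun _ => rfl)).2 hθ
  have hres : (fun n : N.subgroupOf H => (η : H → ℂ) n) = θ' := by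
    funext n
    exact hη ⟨n, n.2⟩
  have hq : IsPGroup p (H ⧸ N.subgroupOf H) := by
    have h1 : IsPGroup p ((P : Subgroup G) ⧸ N.subgroupOf P) := P.isPGroup'.to_quotient _
    have e := QuotientGroup.quotientInfEquivProdNormalQuotient (P : Subgroup G) N
    rw [sup_comm] at e
    exact h1.of_equiv e
  have hηB : η ∈ principalBlock M H := by
    rw [H85.mem_prin_iff_of_over hM (H85.mem_of_not_dvd_of_isPGroup_quotient hq) η θ']
    · exact hθ'
    · rw [hres, H6.irr_inner_self θ'.2]; exact one_ne_zero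
  have hdeg' : ¬ p ∣ charDegree (η : H → ℂ) := by
    rw [H87.deg_congr (ψ := (θ : N → ℂ)) (hη 1)]; exact hdeg
  obtain ⟨χ, h1, h2, m, hm, h3⟩ := H85.exists_prin_over hM P le_sup_right hηB hdeg'
  refine ⟨χ, h1, h2, ?_⟩
  let := Fintype.ofFinite N
  refine H7.inner_comp_ne_zero_of_constituent (Subgroup.inclusion hNH)
    (H7.isCharacter_res (H6.irr_isCharacter χ.2) H) η.2 ?_ (H6.irr_isCharacter θ.2) ?_
  · rw [h3]
    have : m ≠ 0 := fun h => hm (h ▸ dvd_zero p)
    exact_mod_cast this
  · have : (fun k : N => (η : H → ℂ) (Subgroup.inclusion hNH k)) = θ := funext hη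
    rw [this, H6.irr_inner_self θ.2]; exact one_ne_zero

end Cfsg.Agent.S4583
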