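import Mathlib
import Cfsg.Statements.S4584
import Cfsg.Agent.Lib.H85.OrderP4
-- import your own Cfsg.Agent.* helpers here

set_option autoImplicit false
open Cfsg

namespace Cfsg.Agent.S4584

/-- Let p be a prime and P a group of order p^4. Then the derived subgroup P' has order p if and only if the centre Z(P) has index p^2 in P. -/
theorem result {P : Type*} [Group P] [Finite P] (p : ℕ) [Fact p.Prime] (hP : Nat.card P = p ^ 4) :
    Nat.card (commutator P) = p ↔ (Subgroup.center P).index = p ^ 2 := by
  have hp : p.Prime := Fact.out
  have hp1 := hp.one_lt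
  by_cases hc : IsMulCommutative P
  · rw [commutator_eq_bot P, Subgroup.card_bot, Subgroup.center_eq_top_iff.mpr hc,
      Subgroup.index_top]
    constructor
    · intro h; omega
    · intro h
      have := Nat.one_lt_pow (by norm_num : 2 ≠ 0) hp1
      omega
  · obtain ⟨h1, -⟩ := H85.card_commutator_mul_card_center_of_card_eq_pow_four hP hc
    have h2 := Subgroup.index_mul_card (Subgroup.center P)
    have h3 : (Subgroup.center P).index = p * Nat.card (commutator P) := by
      apply Nat.eq_of_mul_eq_mul_right (Nat.card_pos (α := Subgroup.center P))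
      rw [h2, hP, mul_assoc, h1]; ring
    rw [h3, pow_two]
    exact ⟨fun h => by rw [h], fun h => Nat.eq_of_mul_eq_mul_left hp.pos h⟩

end Cfsg.Agent.S4584
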