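import Mathlib
import Cfsg.Statements.S4585
import Cfsg.Agent.Lib.H85.OrderP4
-- import your own Cfsg.Agent.* helpers here

set_option autoImplicit false
open Cfsg

namespace Cfsg.Agent.S4585

/-- Let p be a prime and P a group of order p^4. Then P' has index p^2 in P if and only if P has maximal nilpotency class, that is, nilpotency class exactly 3. -/
theorem result {P : Type*} [Group P] [Finite P] (p : ℕ) [Fact p.Prime] (hP : Nat.card P = p ^ 4) :
    (commutator P).index = p ^ 2 ↔ Group.nilpotencyClass P = 3 := by
  have hp : p.Prime := Fact.out
  have hp1 := hp.one_lt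
  have hpg : IsPGroup p P := IsPGroup.of_card hP
  have hnil : Group.IsNilpotent P := hpg.isNilpotent
  by_cases hc : IsMulCommutative P
  · rw [commutator_eq_bot P, Subgroup.index_bot, hP]
    have := Group.IsNilpotent.nilpotencyClass_le_one_iff.mpr hc
    constructor
    · intro h
      have := Nat.pow_right_injective hp1 h
      omega
    · intro h; omega
  · obtain ⟨h1, h4⟩ := H85.card_commutator_mul_card_center_of_card_eq_pow_four hP hc
    have h2 := Subgroup.index_mul_card (commutator P)
    have h3 : (commutator P).index = p * Nat.card (Subgroup.center P) := by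
      apply Nat.eq_of_mul_eq_mul_right (Nat.card_pos (α := commutator P))
      rw [h2, hP, mul_assoc, mul_comm (Nat.card (Subgroup.center P)), h1]; ring
    have hnt : Nontrivial P := by
      rw [← Finite.one_lt_card_iff_nontrivial, hP]
      exact Nat.one_lt_pow (by norm_num) hp1
    have hq := Subgroup.card_eq_card_quotient_mul_card_subgroup (Subgroup.center P)
    have hcl := Group.nilpotencyClass_eq_quotient_center_plus_one (G := P)
    rw [h3]
    rcases h4 with h4 | h4
    · rw [h4, ← pow_two]
      refine iff_of_true rfl ?_
      have hQ : Nat.card (P ⧸ Subgroup.center P) = p ^ 3 := by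
        apply Nat.eq_of_mul_eq_mul_right hp.pos
        rw [h4, hP] at hq
        rw [← hq]; ring
      have hQp : IsPGroup p (P ⧸ Subgroup.center P) := IsPGroup.of_card hQ
      have hntQ : Nontrivial (P ⧸ Subgroup.center P) := by
        rw [← Finite.one_lt_card_iff_nontrivial, hQ]
        exact Nat.one_lt_pow (by norm_num) hp1
      have hcl2 := Group.nilpotencyClass_eq_quotient_center_plus_one (G := P ⧸ Subgroup.center P)
      have hdvd := H85.prime_mul_card_dvd_of_lt hQp hQp.bot_lt_center
      rw [Subgroup.card_bot, mul_one] at hdvd
      have hq2 := Subgroup.card_eq_card_quotient_mul_card_subgroup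
        (Subgroup.center (P ⧸ Subgroup.center P))
      have hcomm : IsMulCommutative
          ((P ⧸ Subgroup.center P) ⧸ Subgroup.center (P ⧸ Subgroup.center P)) := by
        apply H85.isMulCommutative_of_card_dvd_prime_sq (p := p)
        obtain ⟨k, hk⟩ := hdvd
        rw [hk, hQ] at hq2
        refine ⟨k, Nat.eq_of_mul_eq_mul_left hp.pos ?_⟩
        rw [← pow_succ', hq2]; ring
      have hle := Group.IsNilpotent.nilpotencyClass_le_one_iff.mpr hcomm
      have hge : ¬ Group.nilpotencyClass P ≤ 2 := by
        intro h
        have hQc : IsMulCommutative (P ⧸ Subgroup.center P) :=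
          Group.IsNilpotent.nilpotencyClass_le_one_iff.mp (by omega)
        have hle' : commutator P ≤ Subgroup.center P :=
          Subgroup.Normal.quotient_commutative_iff_commutator_le.mp hQc
        have hd := Subgroup.card_le_of_le hle'
        rw [h4] at h1 hd
        have : Nat.card (commutator P) = p ^ 2 := by
          apply Nat.eq_of_mul_eq_mul_right hp.pos
          rw [h1]; ring
        rw [this] at hd
        nlinarith
      omega
    · rw [h4, ← pow_succ']
      refine iff_of_false (fun h => ?_) (fun h => ?_)
      · have := Nat.pow_right_injective hp1 h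
        omega
      · have hQ : Nat.card (P ⧸ Subgroup.center P) = p ^ 2 := by
          apply Nat.eq_of_mul_eq_mul_right (pow_pos hp.pos 2)
          rw [h4, hP] at hq
          rw [← hq]; ring
        have := Group.IsNilpotent.nilpotencyClass_le_one_iff.mpr
          (IsPGroup.isMulCommutative_of_card_eq_prime_sq hQ)
        omega

end Cfsg.Agent.S4585
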