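import Cfsg.Statements.S4587
import Cfsg.Agent.S0081
import Cfsg.Agent.Lib.PGroup.Rank
import Cfsg.Agent.Lib.H85.CommIndex
import Cfsg.Agent.Lib.Schur.Transfer
import Cfsg.Agent.Lib.NCor.Soc
import Cfsg.Agent.Lib.LocStruct.SnSylow

set_option autoImplicit false
open Cfsg

namespace Cfsg.Agent.S4587

open Subgroup
open scoped commutatorElement Pointwise

section
variable {T : Type*} [Group T] [Finite T] {p : ℕ} [hp : Fact p.Prime]

theorem cyc (hT : IsPGroup p T) (h : (commutator T).index = p ^ 2) (Q : Subgroup T) [Q.Normal]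
    (hQ : ¬ Q ≤ commutator T) : IsCyclic (T ⧸ Q) ∧ commutator T ≤ Q ∧ Q.index ∣ p := by
  have key : ∀ K : Subgroup T, commutator T ≤ K → ¬ K ≤ commutator T → K.index ∣ p := fun K h1 h2 => by
    have e := relIndex_mul_index h1
    obtain ⟨i, hi, h3⟩ := (Nat.dvd_prime_pow hp.out).1 (h ▸ index_dvd_of_le h1)
    rcases hi.lt_or_eq with h4 | rfl
    · rw [h3]; exact (pow_dvd_pow p (Nat.lt_succ_iff.1 h4)).trans (pow_one p).dvd
    · rw [h, h3] at e
      exact absurd (relIndex_eq_one.1 (Nat.eq_of_mul_eq_mul_right (pow_pos hp.out.pos 2)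
        (by rw [e, one_mul]))) h2
  have hc : IsCyclic (T ⧸ Q) := by
    by_contra hc
    have h1 := H5.sq_dvd_index_of_not_isCyclic (hT.to_quotient Q) hc
      (H5.commutator_le_frattini (hT.to_quotient Q))
    have h2 : commutator (T ⧸ Q) = (commutator T).map (QuotientGroup.mk' Q) := by
      rw [commutator_def, commutator_def, map_commutator,
        map_top_of_surjective _ (QuotientGroup.mk'_surjective Q)]
    rw [h2, index_map, QuotientGroup.ker_mk', QuotientGroup.range_mk', index_top, mul_one] at h1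
    have := Nat.le_of_dvd hp.out.pos (h1.trans (key _ le_sup_left fun e => hQ (le_sup_right.trans e)))
    have := hp.out.two_le
    nlinarith
  have h1 : commutator T ≤ Q := Normal.quotient_commutative_iff_commutator_le.1 hc.isMulCommutative
  exact ⟨hc, h1, key Q h1 hQ⟩

theorem no_prod (hT : IsPGroup p T) (h : (commutator T).index = p ^ 2) (hna : commutator T ≠ ⊥)
    (A B : Subgroup T) [A.Normal] [B.Normal] (hA : A ≠ ⊥) (hB : B ≠ ⊥) (hAB : A ⊓ B = ⊥)
    (hQ : ¬ A ⊔ B ≤ commutator T) : False := by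
  haveI := hT.isNilpotent
  obtain ⟨x, hx⟩ := (cyc hT h _ hQ).1.exists_generator
  obtain ⟨x, rfl⟩ := QuotientGroup.mk_surjective x
  have hx' : A ⊔ B ⊔ zpowers x = ⊤ := eq_top_iff.2 fun t _ => by
    obtain ⟨i, hi⟩ := hx t
    have := QuotientGroup.eq.1 (show ((x ^ i : T) : T ⧸ (A ⊔ B)) = t from hi)
    rw [← mul_inv_cancel_left (x ^ i) t]
    exact mul_mem (mem_sup_right (zpow_mem_zpowers x i)) (mem_sup_left this)
  have hc : ∀ a ∈ A ⊔ B, ∀ t, QuotientGroup.mk' (⁅A, ⊤⁆ ⊔ ⁅B, ⊤⁆) a * QuotientGroup.mk' _ t =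
      QuotientGroup.mk' _ t * QuotientGroup.mk' _ a := fun a ha t => by
    have : A ⊔ B ≤ (center _).comap (QuotientGroup.mk' (⁅A, ⊤⁆ ⊔ ⁅B, ⊤⁆)) := by
      refine sup_le (fun a ha => ?_) (fun a ha => ?_) <;> refine mem_center_iff.2 fun t => ?_ <;>
        obtain ⟨t, rfl⟩ := QuotientGroup.mk'_surjective _ t <;>
        rw [eq_comm, ← commutatorElement_eq_one_iff_mul_comm, ← map_commutatorElement,
          QuotientGroup.mk'_apply, QuotientGroup.eq_one_iff]
      · exact mem_sup_left (commutator_mem_commutator ha (mem_top t))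
      · exact mem_sup_right (commutator_mem_commutator ha (mem_top t))
    exact (mem_center_iff.1 (this ha) _).symm
  have hK : commutator T ≤ ⁅A, ⊤⁆ ⊔ ⁅B, ⊤⁆ := Normal.quotient_commutative_iff_commutator_le.1
    ⟨⟨H85.comm_of_sup_zpowers _ (QuotientGroup.mk'_surjective _) _ x hx' (fun a ha b _ => hc a ha b)
      fun a ha => hc a ha x⟩⟩
  have aux : ∀ (A B : Subgroup T) [A.Normal] [B.Normal], A ≠ ⊥ → A ⊓ B = ⊥ →
      ¬ A ≤ ⁅A, ⊤⁆ ⊔ ⁅B, ⊤⁆ := fun A B _ _ hA hAB e => by
    refine (H5.commutator_top_lt_of_nilpotent A hA).not_ge fun a ha => ?_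
    obtain ⟨u, hu, v, hv, rfl⟩ := (mem_sup_of_normal_right).1 (e ha)
    have : v ∈ A ⊓ B := ⟨(mul_mem_cancel_left (commutator_le_left _ _ hu)).1 ha,
      commutator_le_left _ _ hv⟩
    rw [hAB, mem_bot] at this
    rwa [this, mul_one]
  exact hna (le_bot_iff.1 (hAB ▸ le_inf (cyc hT h A fun e => aux A B hA hAB (e.trans hK)).2.1
    (cyc hT h B fun e => aux B A hB (inf_comm A B ▸ hAB) (e.trans (hK.trans_eq (sup_comm _ _)))).2.1))

theorem trf (hT : IsPGroup p T) {Q A D : Subgroup T} [hQ : Q.Normal]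
    (h : (commutator T).relIndex Q ∣ p) (hD : Q ≤ normalizer (D : Set T)) (hAD : A ⊔ D = Q)
    (ht : ∀ t, t ∉ Q → ∀ a ∈ A, t⁻¹ * a * t ∈ D) : ⁅Q, Q⁆ ≤ D := by
  classical
  haveI := normal_subgroupOf_of_le_normalizer hD
  haveI := Fintype.ofFinite (T ⧸ Q)
  have hA : A ≤ Q := hAD ▸ le_sup_left
  have hX := (hT.to_subgroup Q).to_quotient (D.subgroupOf Q)
  have hc : IsCyclic (Q ⧸ D.subgroupOf Q) := by
    by_contra hc
    have h1 := H5.sq_dvd_index_of_not_isCyclic hX hc (H5.commutator_le_frattini hX)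
    set ψ : Q →* Abelianization (Q ⧸ D.subgroupOf Q) := Abelianization.of.comp (QuotientGroup.mk' _)
    have hψ : ∀ d : Q, (d : T) ∈ D → ψ d = 1 := fun d hd => by
      rw [MonoidHom.comp_apply, QuotientGroup.mk'_apply, (QuotientGroup.eq_one_iff d).2 hd, map_one]
    have hV : ∀ a (ha : a ∈ A), MonoidHom.transfer ψ a = ψ ⟨a, hA ha⟩ := fun a ha => by
      rw [H78.Schur.transfer_eq_prod_of_normal Q Q le_rfl ψ a (hA ha),
        Finset.prod_eq_single (1 : T ⧸ Q) (fun q _ hq => hψ _ (ht _ (fun e => hq (by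
          rw [← q.out_eq]; exact (QuotientGroup.eq_one_iff _).2 e)) a ha)) (by simp)]
      have e : (1 : T ⧸ Q).out ∈ Q := (QuotientGroup.eq_one_iff _).1 (Quotient.out_eq _)
      change ψ (⟨_, e⟩⁻¹ * ⟨a, hA ha⟩ * ⟨_, e⟩) = _
      rw [map_mul, map_mul, map_inv, inv_mul_cancel_comm]
    have hs : Q.map (MonoidHom.transfer ψ) = ⊤ := eq_top_iff.2 fun y _ => by
      obtain ⟨y, rfl⟩ := QuotientGroup.mk_surjective y
      obtain ⟨⟨y, hy⟩, rfl⟩ := QuotientGroup.mk_surjective y
      have hy' := hy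
      rw [← hAD, ← SetLike.mem_coe, coe_mul_of_left_le_normalizer_right _ _ (hA.trans hD)] at hy'
      obtain ⟨a, ha, d, hd, rfl⟩ := hy'
      have hd' : d ∈ Q := (mul_mem_cancel_left (hA ha)).1 hy
      refine ⟨a, hA ha, ?_⟩
      rw [hV a ha, ← mul_one (ψ _), ← hψ ⟨d, hd'⟩ hd, ← map_mul]; rfl
    have h2 := relIndex_dvd_of_le_left Q (Abelianization.commutator_subset_ker (MonoidHom.transfer ψ))
    rw [relIndex_ker, hs, card_top] at h2
    have := Nat.le_of_dvd hp.out.pos (h1.trans (h2.trans h))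
    have := hp.out.two_le
    nlinarith
  rw [← map_subtype_commutator, map_le_iff_le_comap]
  exact (Normal.quotient_commutative_iff_commutator_le (N := D.subgroupOf Q)).1 hc.isMulCommutative

theorem cent (P : Sylow p T) {x : T} (hx : ∃ k, orderOf x = p ^ k) : ∃ (y : (P : Subgroup T)) (g : T),
    g * y * g⁻¹ = x ∧ Nat.card (centralizer ({y} : Set (P : Subgroup T))) =
      p ^ (Nat.card (centralizer ({x} : Set T))).factorization p := by
  obtain ⟨k, hk⟩ := hx
  let z : centralizer ({x} : Set T) := ⟨x, mem_centralizer_singleton_iff.2 rfl⟩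
  obtain ⟨R, hR⟩ := (IsPGroup.of_card (G := zpowers z) (n := k)
    (by rw [Nat.card_zpowers, ← orderOf_coe, hk])).exists_le_sylow
  obtain ⟨Q, hQ⟩ := R.exists_comap_subtype_eq
  obtain ⟨g, rfl⟩ := MulAction.exists_smul_eq T P Q
  have hm : ∀ c : centralizer ({x} : Set T), c ∈ (R : Subgroup _) ↔ g⁻¹ * c * g ∈ (P : Subgroup T) :=
    fun c => by
      rw [← hQ, mem_comap, Sylow.coe_subgroup_smul, mem_pointwise_smul_iff_inv_smul_mem, ← map_inv]
      simp
  refine ⟨⟨_, (hm z).1 (hR (mem_zpowers z))⟩, g, by simp [z, mul_assoc], ?_⟩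
  rw [← R.card_eq_multiplicity]
  refine Nat.card_congr ⟨fun c => ⟨⟨g * c.1 * g⁻¹, ?_⟩, (hm _).2 (by simp [mul_assoc])⟩,
    fun c => ⟨⟨_, (hm c).1 c.2⟩, ?_⟩, fun c => by ext; simp [mul_assoc], fun c => by ext; simp [mul_assoc]⟩
  · have : (c.1 : T) * (g⁻¹ * x * g) = g⁻¹ * x * g * c.1 :=
      congrArg Subtype.val (mem_centralizer_singleton_iff.1 c.2)
    rw [mem_centralizer_singleton_iff]
    calc _ = g * (c.1 * (g⁻¹ * x * g)) * g⁻¹ := by group
      _ = _ := by rw [this]; group
  · have := mem_centralizer_singleton_iff.1 c.1.2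
    refine mem_centralizer_singleton_iff.2 (Subtype.ext ?_)
    calc g⁻¹ * c.1 * g * (g⁻¹ * x * g) = g⁻¹ * (c.1 * x) * g := by group
      _ = g⁻¹ * x * g * (g⁻¹ * c.1 * g) := by rw [this]; group

theorem soc {N : Subgroup T} (hN : H3.IsMinNormal N) (hC : centralizer (N : Set T) = ⊥)
    (hs : ¬ IsSimpleGroup N) : ∃ 𝒮 : Set (Subgroup T), sSup 𝒮 = N ∧ ∀ S ∈ 𝒮, S ≠ ⊥ ∧ S ≠ N ∧
      N ≤ normalizer (S : Set T) ∧ S ⊔ N ⊓ centralizer (S : Set T) = N ∧
      S ⊓ centralizer (S : Set T) = ⊥ ∧ ∀ g, g ∈ normalizer (S : Set T) ∨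
        ∀ s ∈ S, g⁻¹ * s * g ∈ centralizer (S : Set T) := by
  haveI := hN.normal
  haveI := hN.nontrivial
  have hJ : sSup {S : Subgroup N | H3.IsMinNormal S} = ⊤ := by
    haveI : (sSup {S : Subgroup N | H3.IsMinNormal S}).Characteristic :=
      characteristic_iff_map_le.2 fun e => map_le_iff_le_comap.2 (sSup_le fun S hS =>
        map_le_iff_le_comap.1 (le_sSup (H50.NC.isMinNormal_map hS e)))
    obtain ⟨S, hS⟩ := H3.exists_isMinNormal N
    exact (hN.eq_bot_or_top_of_characteristic _).resolve_left fun e =>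
      hS.ne_bot (le_bot_iff.1 (e ▸ le_sSup hS))
  have ht : (⊤ : Subgroup N).map N.subtype = N := by rw [← MonoidHom.range_eq_map, range_subtype]
  have hc : ∀ S : Subgroup N, (centralizer (S : Set N)).map N.subtype =
      N ⊓ centralizer (S.map N.subtype : Set T) := fun S => by
    ext x
    constructor
    · rintro ⟨x, hx, rfl⟩
      refine ⟨x.2, ?_⟩
      rintro _ ⟨s, hs, rfl⟩
      exact congrArg Subtype.val (hx s hs)
    · exact fun hx => ⟨⟨x, hx.1⟩, fun s hs => Subtype.ext (hx.2 s ⟨s, hs, rfl⟩), rfl⟩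
  refine ⟨map N.subtype '' {S | H3.IsMinNormal S}, ?_, ?_⟩
  · refine Eq.trans ?_ ht
    rw [sSup_image, ← hJ, sSup_eq_iSup]
    simp only [Subgroup.map_iSup]
  rintro _ ⟨S, hS, rfl⟩
  haveI := hS.normal
  have h1 : S ⊔ centralizer (S : Set N) = ⊤ := eq_top_iff.2 (hJ ▸ sSup_le fun U hU => by
    by_cases e : U = S
    · exact e ▸ le_sup_left
    · exact le_sup_of_le_right (hU.le_centralizer_of_ne hS e))
  refine ⟨fun e => hS.ne_bot ((map_eq_bot_iff_of_injective _ N.subtype_injective).1 e), fun e => hs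
    ⟨fun U hU => ?_⟩, ?_, by rw [← hc, ← Subgroup.map_sup, h1, ht], ?_, fun g => ?_⟩
  · have : S = ⊤ := map_injective N.subtype_injective (by rw [e, ht])
    exact this ▸ hS.eq_bot_or_eq U hU (this ▸ le_top)
  · rw [← normal_subgroupOf_iff_le_normalizer (map_subtype_le S), subgroupOf,
      comap_map_eq_self_of_injective N.subtype_injective]
    infer_instance
  · rcases hS.inf_eq_bot_or_le (centralizer (S : Set N)) with e | e
    · refine le_bot_iff.1 ((le_inf inf_le_left (inf_le_inf_right _ (map_subtype_le S))).trans ?_)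
      rw [← hc, ← map_inf _ _ _ N.subtype_injective, e, Subgroup.map_bot]
    · refine absurd (eq_bot_iff.2 fun s hs => ?_) hS.ne_bot
      rw [sup_eq_right.2 e] at h1
      have : (s : T) ∈ centralizer (N : Set T) := fun n hn =>
        congrArg Subtype.val ((h1 ▸ mem_top (⟨n, hn⟩ : N) : _ ∈ centralizer (S : Set N)) s hs).symm
      rw [hC, mem_bot] at this
      exact mem_bot.2 (Subtype.ext this)
  · have hU := H50.NC.isMinNormal_map hS (MulAut.conjNormal g⁻¹)
    by_cases e : S.map (MulAut.conjNormal g⁻¹ : N ≃* N) = S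
    · refine Or.inl (inv_mem_iff.1 (mem_normalizer_fintype ?_))
      rintro _ ⟨s, hs, rfl⟩
      exact ⟨_, e ▸ mem_map_of_mem _ hs, rfl⟩
    · refine Or.inr ?_
      rintro _ ⟨s, hs, rfl⟩
      have := (hc S).le ⟨_, hU.le_centralizer_of_ne hS e (mem_map_of_mem _ hs), rfl⟩
      simpa using this.2

end

/-- Let G be a finite group, p a prime and P a Sylow p-subgroup of order at least p². Assume that G has no nontrivial normal subgroup of order prime to p, that the derived subgroup P' of P contains no nontrivial normal subgroup of G, and that G is not almost simple (there is no non-abelian simple normal subgroup of G with trivial centralizer). Then [P : P'] = p² if and only if some p-element x of G has centralizer whose order has p-part exactly p². -/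
theorem result {G : Type*} [Group G] [Finite G] (p : ℕ) [Fact p.Prime] (P : Sylow p G) (hbig : p ^ 2 ∣ Nat.card G) (hcore : Cfsg.pPrimeCore p G = ⊥)
    (hcore' : (⁅(P : Subgroup G), (P : Subgroup G)⁆).normalCore = ⊥) (hnas : ¬ ∃ S : Subgroup G, S.Normal ∧ IsSimpleGroup S ∧ ¬ IsMulCommutative S ∧ Subgroup.centralizer (S : Set G) = ⊥) :
    (⁅(P : Subgroup G), (P : Subgroup G)⁆).relIndex (P : Subgroup G) = p ^ 2 ↔
      ∃ x : G, (∃ k : ℕ, orderOf x = p ^ k) ∧ (Nat.card (Subgroup.centralizer ({x} : Set G))).factorization p = 2 := by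
  have hT := P.2
  have hi : (⁅(P : Subgroup G), (P : Subgroup G)⁆).relIndex (P : Subgroup G) = (commutator P).index := by
    rw [relIndex, ← map_subtype_commutator, subgroupOf, comap_map_eq_self_of_injective (subtype_injective _)]
  have hP : p ^ 2 ∣ Nat.card P := P.pow_dvd_card_of_pow_dvd_card hbig
  rw [hi]
  refine ⟨fun h => ?_, fun ⟨x, hx, h⟩ => ?_⟩
  swap
  · obtain ⟨y, g, -, hy⟩ := cent P hx
    have h1 := H5.card_centralizer_mk_le (commutator P) y
    rw [hy, h, (eq_top_iff (a := centralizer _)).2 fun t _ => mem_centralizer_singleton_iff.2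
      ((Normal.quotient_commutative_iff_commutator_le.2 le_rfl).is_comm.comm _ _), card_top] at h1
    refine le_antisymm h1 (Nat.le_of_dvd (Nat.pos_of_ne_zero index_ne_zero_of_finite) ?_)
    by_cases hc : IsCyclic P
    · rwa [(commutator_eq_bot_iff_center_eq_top _).2 (eq_top_iff.2 fun t _ => mem_center_iff.2 fun s =>
        hc.isMulCommutative.is_comm.comm _ _), index_bot]
    · exact H5.sq_dvd_index_of_not_isCyclic hT hc (H5.commutator_le_frattini hT)
  by_cases hna : commutator P = ⊥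
  · refine ⟨1, ⟨0, by simp⟩, ?_⟩
    rw [hna, index_bot, P.card_eq_multiplicity] at h
    rw [(eq_top_iff (a := centralizer _)).2 fun t _ => mem_centralizer_singleton_iff.2 (by simp), card_top]
    exact Nat.pow_right_injective (Fact.out : p.Prime).two_le h
  have hsub : ∀ S : Subgroup G, S.IsSubnormal → S ≠ ⊥ → S.subgroupOf P ≠ ⊥ := fun S hS h1 e => by
    have := ((H69.sn_top_iff.2 hS).isSylowIn_inf (H69.isSylowIn_top P)).dvd_card_iff
    rw [subgroupOf_eq_bot, disjoint_iff, inf_comm] at e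
    exact h1 (le_bot_iff.1 (hcore ▸ H1.le_pPrimeCore_of_isSubnormal hS
      (((Fact.out : p.Prime).coprime_iff_not_dvd.2 fun d => this.1 d e).symm)))
  have hmin : ∀ N : Subgroup G, N.Normal → N ≠ ⊥ → ¬ N.subgroupOf P ≤ commutator P := fun N _ h1 e => by
    have e' : N ⊓ P ≤ ⁅(P : Subgroup G), (P : Subgroup G)⁆ := by
      rw [← map_subtype_commutator, ← subgroupOf_map_subtype]; exact map_mono e
    obtain ⟨S, K, hK, hc⟩ := S0081.result P N (e'.trans (H5.commutator_le_map_frattini hT))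
    have h2 : K.map N.subtype = ⊥ := le_bot_iff.1 (hcore ▸ H1.le_pPrimeCore_of_isSubnormal
      (hK.isSubnormal.trans' (Normal.isSubnormal inferInstance)) (by
        rw [card_map_of_injective N.subtype_injective, ← hc.index_eq_card]
        exact ((Fact.out : p.Prime).coprime_iff_not_dvd.2 S.not_dvd_index).symm))
    rw [(map_eq_bot_iff_of_injective _ N.subtype_injective).1 h2, isComplement'_bot_left] at hc
    have h3 : IsPGroup p N := (hc ▸ S.2 : IsPGroup p (⊤ : Subgroup N)).of_equiv topEquiv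
    exact h1 (le_bot_iff.1 (hcore' ▸ normal_le_normalCore.2
      ((le_inf le_rfl (h3.le_sylow_of_normal P)).trans e')))
  haveI : Nontrivial G := Finite.one_lt_card_iff_nontrivial.1
    ((Nat.one_lt_pow two_ne_zero (Fact.out : p.Prime).one_lt).trans_le (Nat.le_of_dvd Nat.card_pos hbig))
  obtain ⟨N, hN⟩ := H3.exists_isMinNormal G
  haveI := hN.normal
  obtain ⟨-, h1, h2⟩ := cyc hT h _ (hmin N hN.normal hN.ne_bot)
  have hidx : N.subgroupOf P ≠ ⊤ → (N.subgroupOf P).index = p := fun e =>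
    ((Nat.dvd_prime Fact.out).1 h2).resolve_left (mt index_eq_one.1 e)
  have hab : IsMulCommutative (N.subgroupOf P) := by
    by_cases h3 : IsMulCommutative N
    · infer_instance
    have h4 : centralizer (N : Set G) = ⊥ := by
      by_contra h4
      refine no_prod hT h hna (N.subgroupOf P) ((centralizer (N : Set G)).subgroupOf P)
        (hsub _ hN.normal.isSubnormal hN.ne_bot) (hsub _ (Normal.isSubnormal inferInstance) h4) ?_
        fun e => hmin N hN.normal hN.ne_bot (le_sup_left.trans e)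
      rw [subgroupOf, subgroupOf, ← comap_inf, ← subgroupOf, (hN.inf_eq_bot_or_le _).resolve_right fun e =>
        h3 (le_centralizer_iff_isMulCommutative.1 e), bot_subgroupOf]
    obtain ⟨𝒮, h5, h6⟩ := soc hN h4 fun e => hnas ⟨N, hN.normal, e, h3, h4⟩
    refine H3.isMulCommutative_of_commutator_eq_bot ((map_eq_bot_iff_of_injective _
      (P : Subgroup G).subtype_injective).1 (le_bot_iff.1 (h4 ▸ le_centralizer_iff.1 ?_)))
    refine h5.ge.trans (sSup_le fun S hS => le_centralizer_iff.1 (map_le_iff_le_comap.2 ?_))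
    obtain ⟨s1, s2, s3, s4, s5, s6⟩ := h6 S hS
    have s0 : S ≤ N := s4 ▸ le_sup_left
    have hS : S.IsSubnormal := .step _ N s0 hN.normal.isSubnormal (normal_subgroupOf_of_le_normalizer s3)
    have hn : ∀ g ∈ normalizer (S : Set G), g ∈ normalizer ((N ⊓ centralizer (S : Set G) : Subgroup G) : Set G) :=
      H69.le_normalizer_inf le_normalizer_of_normal (H69.le_normalizer_centralizer le_rfl)
    have hC : (N ⊓ centralizer (S : Set G)).IsSubnormal :=
      .step _ N inf_le_left hN.normal.isSubnormal (normal_subgroupOf_of_le_normalizer fun g hg => hn g (s3 hg))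
    have hAD : S.subgroupOf P ⊔ (N ⊓ centralizer (S : Set G)).subgroupOf P = N.subgroupOf P :=
      map_injective (P : Subgroup G).subtype_injective (by
        rw [Subgroup.map_sup, subgroupOf_map_subtype, subgroupOf_map_subtype, subgroupOf_map_subtype,
          inf_comm S, inf_comm _ (P : Subgroup G), ← H69.sylow_inf_sup (H69.isSylowIn_top P) hS hC, s4,
          inf_comm])
    by_cases h7 : (P : Subgroup G) ≤ normalizer (S : Set G)
    · haveI := normal_subgroupOf_of_le_normalizer h7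
      haveI := normal_subgroupOf_of_le_normalizer fun g hg => hn g (h7 hg)
      refine (no_prod hT h hna _ _ (hsub _ hS s1) (hsub _ hC fun e => s2 (by rw [← s4, e, sup_bot_eq])) ?_
        (hAD ▸ hmin N hN.normal hN.ne_bot)).elim
      rw [subgroupOf, subgroupOf, ← comap_inf, ← subgroupOf, inf_left_comm, s5, inf_bot_eq, bot_subgroupOf]
    have h8 := hidx fun e => h7 ((subgroupOf_eq_top.1 e).trans s3)
    refine (trf hT ?_ ?_ hAD fun t ht a ha => ⟨hN.normal.conj_mem' _ (s0 ha) _,
      (s6 t).resolve_left (fun e => h7 fun g hg => ?_) a ha⟩).trans fun a ha => ha.2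
    · have := relIndex_mul_index h1
      rw [h, h8, sq] at this
      exact (Nat.eq_of_mul_eq_mul_right (Fact.out : p.Prime).pos this).dvd
    · exact fun g hg => le_normalizer_comap _ (hn g (s3 hg))
    · have : N.subgroupOf P ⊔ zpowers t ≤ (normalizer (S : Set G)).subgroupOf P :=
        sup_le (fun a ha => s3 ha) (zpowers_le.2 e)
      rw [H85.sup_zpowers_eq_top_of_prime_index (h8.symm ▸ Fact.out) ht] at this
      exact this (mem_top (⟨g, hg⟩ : P))
  have h3 : N.subgroupOf P ≠ ⊤ := fun e =>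
    hna (@H3.commutator_eq_bot_of_isMulCommutative _ _ ⊤ (e ▸ hab))
  obtain ⟨x, hx⟩ := SetLike.exists_of_lt h3.lt_top
  obtain ⟨k, hk⟩ := IsPGroup.iff_orderOf.1 hT x
  have hk' : ∃ k, orderOf (x : G) = p ^ k := ⟨k, by rw [orderOf_coe, hk]⟩
  obtain ⟨y, g, hg, hy⟩ := cent P hk'
  have hy' : y ∉ N.subgroupOf P := fun e => hx.2 (by
    rw [mem_subgroupOf, ← hg]; exact hN.normal.conj_mem _ e g)
  have h4 := hidx h3
  have h5 := H85.sup_zpowers_eq_top_of_prime_index (h4.symm ▸ Fact.out) hy'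
  have h6 := H85.card_eq_card_commutator_mul _ y h5
  have h7 : (N.subgroupOf P).relIndex (centralizer {y}) = p := by
    rw [← relIndex_sup_left, eq_top_iff.2 (h5.ge.trans (sup_le_sup_left (zpowers_le.2
      (mem_centralizer_singleton_iff.2 rfl)) _)), relIndex_top_right, h4]
  have h8 := ((N.subgroupOf P).subgroupOf (centralizer {y})).card_mul_index
  rw [← card_map_of_injective (subtype_injective _), subgroupOf_map_subtype] at h8
  have h9 := (N.subgroupOf P).card_mul_index
  rw [h6, h4, ← (commutator P).card_mul_index, h, mul_assoc] at h9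
  refine ⟨x, hk', Nat.pow_right_injective (Fact.out : p.Prime).two_le ?_⟩
  simp only [← hy, ← h8]
  rw [← Nat.eq_of_mul_eq_mul_left Nat.card_pos h9]
  exact congrArg _ h7

end Cfsg.Agent.S4587
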