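import Mathlib
import Cfsg.Statements.S4588
import Cfsg.Agent.Lib.Block.Major
import Cfsg.Agent.Lib.Block.DefOne
import Cfsg.Agent.Lib.Block.Third
import Cfsg.Agent.Lib.Block.SubCount
-- import your own Cfsg.Agent.* helpers here

set_option autoImplicit false
open Cfsg

namespace Cfsg.Agent.S4588

open H84 H35 Finset in
theorem latMin_principal {K : Type*} [Group K] [Fintype K] {p : ℕ} [hp : Fact p.Prime]
    {M : Ideal AlgInt} [M.IsMaximal] (hM : IsPModular p M)
    (h : (Nat.card K).factorization p ≤ 1) :
    LatMin p (principalBlock M K) (blockRank p (principalBlock M K)) := by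
  classical
  have hd : blockDefect p (principalBlock M K) = (Nat.card K).factorization p :=
    H33.blockDefect_principalBlock
  rcases Nat.le_one_iff_eq_zero_or_eq_one.1 h with h0 | h1
  · rw [blockRank_eq_one_of_defect_zero hM isPBlock_principal (hd.trans h0), Nat.cast_one]
    exact latMin_one
  · obtain ⟨P⟩ : Nonempty (Sylow p K) := inferInstance
    have hP : Nat.card (P : Subgroup K) = p := by rw [P.card_eq_multiplicity, h1, pow_one]
    obtain ⟨L⟩ := nonempty_log hP P.not_dvd_index
    have hD : IsDefectGroup p M (principalBlock M K) P :=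
      (L.isDefectGroup_iff hM isPBlock_principal).2 (by omega)
    obtain ⟨D⟩ := L.nonempty_defOne hM hD (L.principal_root hM) irrOne_mem_principal pKer_one
    have hr : blockRank p (principalBlock M K) = Nat.card (D.X : Set (IrrCharacter K)) := by
      rw [D.rank, D.natCard_X]
    rw [hr]
    refine latMin_of_signs (δ := fun χ => - D.εX χ) (δ₀ := D.ε) hM isPBlock_principal D.eq_union
      D.disjoint ⟨_, 1, rfl⟩ ?_ hr ?_ D.sign ?_
    · rw [D.natCard_X, D.natCard_range, Nat.mul_div_cancel' (L.card_H_dvd _), hd, h1, pow_one]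
      have := hp.out.pos
      omega
    · intro χ hχ
      rcases D.signX χ hχ with h | h <;> simp [h]
    · rintro _ ⟨i, rfl⟩ g hg
      have e : bset (D.X : Set (IrrCharacter K)) = D.X := by
        ext χ; rw [mem_bset]; rfl
      rw [D.reg_rel i hg, e, ← sum_add_distrib]
      simp

open H84 H35 Finset in
theorem exists_good {G : Type*} [Group G] [Finite G] (p : ℕ) [hp : Fact p.Prime]
    (hx : ∃ x : G, (∃ k : ℕ, orderOf x = p ^ k) ∧
      (Nat.card (Subgroup.centralizer ({x} : Set G))).factorization p ≤ 2) :
    ∃ x : G, (∃ k : ℕ, orderOf x = p ^ k) ∧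
      (Nat.card (Subgroup.centralizer ({x} : Set G))).factorization p ≤ 2 ∧
      (Nat.card (Subgroup.centralizer ({x} : Set G))).factorization p ≤
        1 + (orderOf x).factorization p := by
  obtain ⟨x, ⟨k, hk⟩, h2⟩ := hx
  rcases k with _ | k
  · have hx1 : x = 1 := orderOf_eq_one_iff.1 (by simpa using hk)
    subst hx1
    have e : Subgroup.centralizer ({1} : Set G) = ⊤ := by
      ext g; simp [Subgroup.mem_centralizer_iff]
    rw [e, Subgroup.card_top] at h2
    by_cases hd : p ∣ Nat.card G
    · obtain ⟨u, hu⟩ := exists_prime_orderOf_dvd_card' p hd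
      have h3 : (Nat.card (Subgroup.centralizer ({u} : Set G))).factorization p ≤ 2 :=
        le_trans ((Nat.factorization_le_iff_dvd Nat.card_pos.ne' Nat.card_pos.ne').2
          (Subgroup.card_subgroup_dvd_card _) p) h2
      refine ⟨u, ⟨1, by rw [hu, pow_one]⟩, h3, ?_⟩
      rw [hu, hp.out.factorization_self]
      exact h3
    · refine ⟨1, ⟨0, by simp⟩, ?_, ?_⟩ <;>
        rw [e, Subgroup.card_top, Nat.factorization_eq_zero_of_not_dvd hd] <;> omega
  · refine ⟨x, ⟨_, hk⟩, h2, ?_⟩
    rw [hk, hp.out.factorization_pow, Finsupp.single_eq_same]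
    omega

/-- Let G be a finite group, p a prime and M a maximal ideal of the algebraic integers containing p. If some p-element x of G (possibly x = 1) has centralizer whose order has p-part at most p², then the principal p-block of G contains at most p² irreducible characters of degree prime to p. -/
theorem result {G : Type*} [Group G] [Finite G] (p : ℕ) [Fact p.Prime] (M : Ideal Cfsg.AlgInt) (hM : Cfsg.IsPModular p M)
    (hx : ∃ x : G, (∃ k : ℕ, orderOf x = p ^ k) ∧ (Nat.card (Subgroup.centralizer ({x} : Set G))).factorization p ≤ 2) :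
    Nat.card {χ : Cfsg.IrrCharacter G // χ ∈ Cfsg.principalBlock M G ∧ ¬ p ∣ Cfsg.charDegree (χ : G → ℂ)} ≤ p ^ 2 := by
  classical
  have := H33.isMaximal_of hM
  letI := Fintype.ofFinite G
  obtain ⟨u, hu, h2, h1⟩ := exists_good p hx
  set C := Subgroup.centralizer ({u} : Set G) with hCdef
  letI := Fintype.ofFinite C
  have hC : H84.IsCen u C := H84.isCen_singleton u
  have hind := H34.isInducedBlock_principal_centralizer hM (x := u) hu
  let z : C := ⟨u, hC.self_mem⟩
  have hz : z ∈ Subgroup.center C := H84.mem_center_of_isCen hC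
  let Z : Subgroup C := Subgroup.zpowers z
  have hZc : Z ≤ Subgroup.center C := by rwa [Subgroup.zpowers_le]
  have hoz : orderOf z = orderOf u := (Subgroup.orderOf_coe z).symm
  haveI : Z.Normal := ⟨fun a ha g => by
    rw [(Subgroup.mem_center_iff.1 (hZc ha) g), mul_inv_cancel_right]; exact ha⟩
  letI := Fintype.ofFinite (C ⧸ Z)
  have hZ : IsPGroup p Z := by
    obtain ⟨k, hk⟩ := hu
    exact IsPGroup.of_card (by rw [Nat.card_zpowers, hoz, hk])
  have hc : H86.PQuot p (H86.Cen Z) ⊤ := fun x _ _ =>
    Subgroup.mem_centralizer_iff.2 fun a ha => (Subgroup.mem_center_iff.1 (hZc ha) x).symm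
  have hq : (Nat.card (C ⧸ Z)).factorization p ≤ 1 := by
    have e := Subgroup.card_eq_card_quotient_mul_card_subgroup Z
    rw [e, Nat.factorization_mul Nat.card_pos.ne' Nat.card_pos.ne', Nat.card_zpowers, hoz,
      Finsupp.add_apply] at h1
    omega
  have hL := latMin_principal hM hq
  rw [← H84.quotSet_principal hM hZ hc, H84.blockRank_quotSet hM H84.isPBlock_principal hZ hc]
    at hL
  have hL' := hL.of_quotSet hM H84.isPBlock_principal hZ hc
  let X : Finset (IrrCharacter G) := (H84.bset (principalBlock M G)).filter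
    fun χ => ¬ p ∣ charDegree (χ : G → ℂ)
  have key := H85.mul_card_le_form hM hu hC hind (H85.qf p _) (Nat.cast_nonneg _) hL' X
    (Finset.filter_subset _ _) fun χ hχ => by
      obtain ⟨h3, h4⟩ := Finset.mem_filter.1 hχ
      refine H85.sub_ne_zero_of_height hM hu hC hind (H84.mem_bset.1 h3) ?_
      rw [H84.blockHeight_eq, Nat.factorization_eq_zero_of_not_dvd h4, Nat.zero_sub]
  rw [H85.sum_qf_reg hM hind.1, H33.blockDefect_principalBlock] at key
  have key' : blockRank p (principalBlock M C) * X.card ≤
      p ^ (Nat.card C).factorization p * blockRank p (principalBlock M C) := by exact_mod_cast key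
  have hpos : 0 < blockRank p (principalBlock M C) :=
    H84.blockRank_pos ⟨_, H84.irrOne_mem_principal⟩
  rw [mul_comm] at key'
  have h5 := Nat.le_of_mul_le_mul_right key' hpos
  have e : Nat.card {χ : IrrCharacter G // χ ∈ principalBlock M G ∧
      ¬ p ∣ charDegree (χ : G → ℂ)} = X.card := by
    rw [← Fintype.card_coe, ← Nat.card_eq_fintype_card]
    exact Nat.card_congr (Equiv.subtypeEquivRight fun χ => by simp [X, H84.mem_bset])
  rw [e]
  exact h5.trans (Nat.pow_le_pow_right (Fact.out : p.Prime).pos h2)

end Cfsg.Agent.S4588
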