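import Mathlib
import Cfsg.Statements.S4591
import Cfsg.Agent.Lib.Blk88.TateLin
import Cfsg.Agent.Lib.Glaub.PGroup
import Cfsg.Agent.Lib.Deg.Cliff
import Cfsg.Agent.Lib.Char.ExtMain
import Cfsg.Agent.Lib.Block.Ab2A

set_option autoImplicit false
open Cfsg

namespace Cfsg.Agent.S4591

open H6
open scoped ComplexConjugate

variable {G : Type*} [Group G] [Finite G] {p : ℕ} [hp : Fact p.Prime]

theorem le_ker_of_fpf {N P : Subgroup G} [hN : N.Normal] (hP : IsPGroup p P)
    (h : N ⊓ Subgroup.centralizer (P : Set G) = ⊥) {χ : G → ℂ} (hχ : IsIrrCharacter G χ)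
    (hd : ¬ p ∣ charDegree χ) : N ≤ charKer χ := by
  classical
  haveI := Fintype.ofFinite N
  by_contra hk
  letI := H88.conjAction N P fun s _ g hg => hN.conj_mem g hg s
  have h1 := H88.pdvd_sum_sub_sum_filter hP (fun n : N => χ n)
    (fun a x => irr_isClassFunction hχ _ _) (fun x => H8.IsIrrCharacter_isIntegral hχ _)
    (fun n => n = 1) (fun x => ⟨fun hx a => by rw [hx, smul_one], fun hx => by
      have : (x : G) ∈ N ⊓ Subgroup.centralizer (P : Set G) :=
        ⟨x.2, Subgroup.mem_centralizer_iff.2 fun a ha => by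
          have e : a * x * a⁻¹ = x := congrArg Subtype.val (hx ⟨a, ha⟩)
          exact mul_inv_eq_iff_eq_mul.1 e⟩
      rw [h, Subgroup.mem_bot] at this
      exact Subtype.ext this⟩)
  rw [H87.sum_normal_eq_zero hχ N hk, Finset.filter_eq', if_pos (Finset.mem_univ _),
    Finset.sum_singleton, zero_sub] at h1
  have h2 := h1.neg
  rw [neg_neg, OneMemClass.coe_one, ← H87.irr_deg_cast hχ] at h2
  exact hd h2.nat_dvd

theorem exists_over_not_dvd {H : Subgroup G} (hH : ¬ p ∣ H.index) {ψ : H → ℂ}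
    (hψ : IsIrrCharacter H ψ) (hd : ¬ p ∣ charDegree ψ) :
    ∃ χ : IrrCharacter G, ¬ p ∣ charDegree (χ : G → ℂ) ∧
      ∀ x : H, (χ : G → ℂ) x = (χ : G → ℂ) 1 → ψ x = ψ 1 := by
  haveI := Fintype.ofFinite G
  obtain ⟨χ, hχ, hi, hn⟩ := H87.exists_constituent_not_dvd (d := p)
    (H7.isCharacter_indFun H (irr_isCharacter hψ)) (by
      rw [H87.deg_indFun H (irr_isCharacter hψ)]
      exact hp.out.not_dvd_mul hH hd)
  exact ⟨⟨χ, hχ⟩, hn, fun x hx => (H87.over_of_inner_indFun (irr_isClassFunction hχ)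
    hi).apply_eq_of_mem_ker (irr_isCharacter hχ) hψ hx⟩

theorem index_subgroupOf_sup (N : Subgroup G) [N.Normal] {P : Subgroup G} (hP : IsPGroup p P) :
    ∃ k, (N.subgroupOf (N ⊔ P)).index = p ^ k := by
  obtain ⟨k, hk⟩ := IsPGroup.iff_card.1 hP
  have : (N.subgroupOf (N ⊔ P)).index ∣ p ^ k := by
    rw [← hk, ← Subgroup.relIndex, sup_comm, Subgroup.relIndex_sup_right]
    exact Subgroup.relIndex_dvd_card _ _
  obtain ⟨j, -, hj⟩ := (Nat.dvd_prime_pow hp.out).1 this
  exact ⟨j, hj⟩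

theorem fpf_of_le_ker (P : Sylow p G) {C : Subgroup G} [hC : C.Normal] (hpC : ¬ p ∣ Nat.card C)
    (h : ∀ χ : IrrCharacter G, ¬ p ∣ charDegree (χ : G → ℂ) →
      ∀ x ∈ C, (χ : G → ℂ) x = (χ : G → ℂ) 1) :
    C ⊓ Subgroup.centralizer ((P : Subgroup G) : Set G) = ⊥ := by
  classical
  haveI := Fintype.ofFinite C
  have hnorm : ∀ s ∈ (P : Subgroup G), ∀ g ∈ C, s * g * s⁻¹ ∈ C := fun s _ g hg =>
    hC.conj_mem g hg s
  letI := H88.conjAction C P hnorm
  have hinv : ∀ θ : IrrCharacter C, H88.Inv (P : Subgroup G) θ.1 ↔ θ = H33.oneIrr C := by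
    refine fun θ => ⟨fun hθ => ?_, fun hθ => by rw [hθ]; exact fun _ _ => rfl⟩
    have hle : C ≤ C ⊔ (P : Subgroup G) := le_sup_left
    have hI : C ⊔ (P : Subgroup G) ≤ H7.inertia (θ : C → ℂ) :=
      sup_le (H7.le_inertia (irr_isClassFunction θ.2))
        fun s hs => H7.mem_inertia'.2 fun n => hθ ⟨s, hs⟩ n
    obtain ⟨k, hk⟩ := index_subgroupOf_sup C P.isPGroup'
    obtain ⟨ψ, hψ, he⟩ := H31.extends_of_coprime (C.subgroupOf (C ⊔ (P : Subgroup G))) (by
      rw [hk, Nat.card_congr (Subgroup.subgroupOfEquivOfLe hle).toEquiv]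
      exact Nat.Coprime.pow_left k (hp.out.coprime_iff_not_dvd.2 hpC))
      (H7.isIrr_subgroupOf hle θ.2) (fun g n =>
        H7.mem_inertia'.1 (hI g.2) ⟨(n : ↥(C ⊔ (P : Subgroup G))), Subgroup.mem_subgroupOf.mp n.2⟩)
    have h1 : ψ 1 = (θ : C → ℂ) 1 := he 1
    obtain ⟨χ, hd, hχ⟩ := exists_over_not_dvd (p := p) (H := C ⊔ (P : Subgroup G))
      (fun hd => P.not_dvd_index (hd.trans (Subgroup.index_dvd_of_le le_sup_right))) hψ
      (fun hd => hpC (by
        rw [H87.deg_congr h1] at hd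
        exact hd.trans (H87.deg_dvd_card θ.2)))
    refine Subtype.ext (H87.irr_eq_one_of_forall θ.2 fun c => ?_)
    rw [← h1, ← hχ ⟨c, hle c.2⟩ (h χ hd c c.2)]
    exact (he ⟨⟨c, hle c.2⟩, c.2⟩).symm
  rw [eq_bot_iff]
  rintro c ⟨hc, hcP⟩
  by_contra hne
  have h1 := H88.pdvd_sum_irr_sub (G := C) P.isPGroup'
    (fun θ => θ.1 ⟨c, hc⟩ * conj (θ.1 1)) (fun a θ => by
      have : a • (⟨c, hc⟩ : C) = ⟨c, hc⟩ := Subtype.ext (by
        show (a : G) * c * (a : G)⁻¹ = c
        rw [Subgroup.mem_centralizer_iff.1 hcP a a.2, mul_inv_cancel_right])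
      simp only [this, smul_one])
    (fun θ => (H8.IsIrrCharacter_isIntegral θ.2 _).mul
      (H88.isIntegral_conj (H8.IsIrrCharacter_isIntegral θ.2 _)))
  have h2 : ¬ IsConj (⟨c, hc⟩ : C) 1 := fun hi =>
    hne (Subgroup.mem_bot.2 (congrArg Subtype.val (isConj_one_left.1 hi)))
  rw [column_orthogonality_not_isConj h2, Finset.filter_congr fun θ _ => hinv θ,
    Finset.filter_eq', if_pos (Finset.mem_univ _), Finset.sum_singleton, zero_sub] at h1
  have h3 := h1.neg
  have h4 : H88.PDvd p ((1 : ℕ) : ℂ) := h3.congr (by simp [H33.oneIrr])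
  exact hp.out.one_lt.ne' (Nat.dvd_one.1 h4.nat_dvd)

/-- Let G be a finite group, p a prime and P a Sylow p-subgroup, and let N be the largest normal subgroup of G in which P has trivial centralizer (N is normal with C_N(P) = 1 and contains every normal subgroup with that property). Then the intersection of the kernels of the irreducible characters of G of degree prime to p is the normal core in G of the subgroup N·P' (P' the derived subgroup of P). In particular, when G has no nontrivial normal subgroup of order prime to p, that intersection is the normal core of P'. -/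
theorem result {G : Type*} [Group G] [Finite G] (p : ℕ) [Fact p.Prime] (P : Sylow p G) (N : Subgroup G) [N.Normal]
    (hN : N ⊓ Subgroup.centralizer ((P : Subgroup G) : Set G) = ⊥)
    (hmax : ∀ L : Subgroup G, L.Normal → L ⊓ Subgroup.centralizer ((P : Subgroup G) : Set G) = ⊥ → L ≤ N) :
    {g : G | ∀ χ : Cfsg.IrrCharacter G, ¬ p ∣ Cfsg.charDegree (χ : G → ℂ) → (χ : G → ℂ) g = (χ : G → ℂ) 1} =
      ((N ⊔ ⁅(P : Subgroup G), (P : Subgroup G)⁆).normalCore : Set G) := by
  classical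
  have hp : p.Prime := Fact.out
  haveI := Fintype.ofFinite G
  let K : Subgroup G := ⨅ χ : {χ : IrrCharacter G // ¬ p ∣ charDegree (χ : G → ℂ)},
    H6.charKer (χ.1 : G → ℂ)
  haveI hK : K.Normal := Subgroup.normal_iInf_normal fun φ => H6.charKer_normal _
  have hmem : ∀ g, g ∈ K ↔ ∀ χ : IrrCharacter G, ¬ p ∣ charDegree (χ : G → ℂ) →
      (χ : G → ℂ) g = (χ : G → ℂ) 1 := fun g => by
    simp only [K, Subgroup.mem_iInf, Subtype.forall]
    exact forall_congr' fun χ => forall_congr' fun hχ => forall_congr' fun _ =>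
      H6.mem_charKer (H6.irr_isCharacter hχ)
  have hlam : ∀ x : (P : Subgroup G), (x : G) ∈ K → ∀ lam : (P : Subgroup G) →* ℂˣ, lam x = 1 := by
    intro x hx lam
    obtain ⟨χ, hd, hχ⟩ := exists_over_not_dvd (p := p) P.not_dvd_index (H6.irrOfHom lam).2
      (by rw [show charDegree (H6.irrOfHom lam : ↥(P : Subgroup G) → ℂ) = 1 from H87.deg_hom lam]
          simpa using hp.ne_one)
    have := hχ x ((hmem _).1 hx χ hd)
    simp only [H6.irrOfHom_apply, map_one, Units.val_one] at this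
    exact Units.ext this
  suffices K = (N ⊔ ⁅(P : Subgroup G), (P : Subgroup G)⁆).normalCore by
    rw [← this]; ext g; exact (hmem g).symm
  apply le_antisymm
  · rw [← Subgroup.normal_le_normalCore.symm]
    have hnpc := H88.tate_of_hom P K hlam
    haveI := H4.map_subtype_pResidual_normal (n := p) K
    have hCN : (pResidual p K).map K.subtype ≤ N := hmax _ inferInstance
      (fpf_of_le_ker P ((H4.hasNormalPComplement_iff_card_map K).1 hnpc) fun χ hd x hx =>
        (hmem x).1 (Subgroup.map_subtype_le _ hx) χ hd)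
    obtain ⟨Q, hQ⟩ := H34.exists_sylow_normal P K
    intro g hg
    obtain ⟨r, hr, x, hx, e⟩ := H4.exists_pResidual_mul (H4.coprime_index_sylow Q) ⟨g, hg⟩
    have e' : g = (r : G) * x := (congrArg Subtype.val e).symm
    rw [e']
    refine mul_mem (Subgroup.mem_sup_left (hCN ⟨r, hr, rfl⟩)) (Subgroup.mem_sup_right ?_)
    have hxP : (x : G) ∈ (P : Subgroup G) := (hQ x).1 hx
    have := H88.mem_commutator_of_forall_hom (hlam ⟨x, hxP⟩ x.2)
    rw [← Subgroup.map_subtype_commutator]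
    exact ⟨_, this, rfl⟩
  · refine le_iInf fun χ => ?_
    have hNk := le_ker_of_fpf P.isPGroup' hN χ.1.2 χ.2
    haveI := Fintype.ofFinite ↥(N ⊔ (P : Subgroup G))
    obtain ⟨ψ, hψ, hi, hn⟩ := H87.exists_constituent_not_dvd (d := p)
      (H6.isCharacter_restrict (N ⊔ (P : Subgroup G)) (H6.irr_isCharacter χ.1.2))
      (by rw [H87.deg_res]; exact χ.2)
    have hNψ : ∀ x : ↥(N ⊔ (P : Subgroup G)), (x : G) ∈ N → ψ x = ψ 1 := fun x hx =>
      (H87.over_iff.2 hi).apply_eq_of_mem_ker (H6.irr_isCharacter χ.1.2) hψ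
        ((H6.mem_charKer (H6.irr_isCharacter χ.1.2)).1 (hNk hx))
    obtain ⟨k, hk⟩ := index_subgroupOf_sup N P.isPGroup'
    have hdv := H87.deg_dvd_index_of_ker hψ (N.subgroupOf (N ⊔ (P : Subgroup G))) hNψ
    rw [hk] at hdv
    have h1 : charDegree ψ = 1 :=
      Nat.Coprime.eq_one_of_dvd (Nat.Coprime.pow_right k (hp.coprime_iff_not_dvd.2 hn).symm) hdv
    have hc := H87.commutator_le_charKer_of_deg_one (H6.irr_isCharacter hψ) h1
    have hle : N ⊔ ⁅(P : Subgroup G), (P : Subgroup G)⁆ ≤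
        (H6.charKer ψ).map (N ⊔ (P : Subgroup G)).subtype := by
      refine sup_le (fun x hx => ⟨⟨x, Subgroup.mem_sup_left hx⟩,
        (H6.mem_charKer (H6.irr_isCharacter hψ)).2 (hNψ _ hx), rfl⟩) ?_
      refine le_trans (Subgroup.commutator_mono (le_sup_right (a := N)) (le_sup_right (a := N))) ?_
      rw [← Subgroup.map_subtype_commutator]
      exact Subgroup.map_mono hc
    refine H87.le_charKer_of_constituent χ.1.2 (H6.irr_isCharacter hψ) hi _
      ((Subgroup.normalCore_le _).trans (hle.trans (Subgroup.map_subtype_le _))) fun x hx => ?_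
    obtain ⟨y, hy, e⟩ := hle (Subgroup.normalCore_le _ hx)
    rw [← Subtype.ext e]
    exact (H6.mem_charKer (H6.irr_isCharacter hψ)).1 hy

end Cfsg.Agent.S4591
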