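import Mathlib
import Cfsg.Statements.S4601
import Cfsg.Agent.Lib.Deg.SylNorm

set_option autoImplicit false
open Cfsg

namespace Cfsg.Agent.S4601



/-- Let p and q be primes and G a finite group that is p-solvable or q-solvable, in which no q-element has conjugacy class size divisible by p. Then some Sylow p-subgroup of G normalizes some Sylow q-subgroup of G. -/
theorem result {G : Type*} [Group G] [Finite G] (p q : ℕ) [Fact p.Prime] [Fact q.Prime] (hsolv : Cfsg.IsPSolvable p G ∨ Cfsg.IsPSolvable q G)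
    (h : ∀ y : G, (∃ k : ℕ, orderOf y = q ^ k) → ¬ p ∣ (Subgroup.centralizer ({y} : Set G)).index) :
    ∃ (P : Sylow p G) (Q : Sylow q G), (P : Subgroup G) ≤ Subgroup.normalizer ((Q : Subgroup G) : Set G) := by
  obtain ⟨Q⟩ : Nonempty (Sylow q G) := inferInstance
  rcases hsolv with hs | hs
  · by_cases hpq : p = q
    · subst hpq
      exact ⟨Q, Q, Subgroup.le_normalizer⟩
    refine H87.exists_sylow_le_normalizer_of_not_dvd (H80.not_dvd_index_of_sylow_le Q
      (H87.le_pPrimeCore_of_forall hpq hs Q.isPGroup' fun y hy => ?_))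
    obtain ⟨P, hP⟩ := H80.not_dvd_cs_iff.1
      (h y (by simpa using IsPGroup.iff_orderOf.1 Q.isPGroup' ⟨y, hy⟩))
    exact ⟨P, _, Q.isPGroup'.to_le (Subgroup.zpowers_le.2 hy), Subgroup.mem_zpowers y,
      (hP.trans (H80.centralizer_zpowers y).ge).trans (Subgroup.centralizer_le_normalizer _)⟩
  · obtain ⟨P, hP⟩ := H80.exists_sylow_le_of_not_dvd_index (H87.not_dvd_index_normalizer_aux _ G rfl
      (H3.isPiSeparable_of_isPSolvable Fact.out hs) h Q)
    exact ⟨P, Q, hP⟩

end Cfsg.Agent.S4601
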