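import Mathlib
import Cfsg.Statements.S4604
import Cfsg.Agent.Lib.H85.PRegSep
-- import your own Cfsg.Agent.* helpers here

set_option autoImplicit false
open Cfsg

namespace Cfsg.Agent.S4604

theorem sum_pow_prime_pow {R ι : Type*} [CommRing R] {p : ℕ} (hp : p.Prime) (n : ℕ) (s : Finset ι)
    (f : ι → R) : ∃ r : R, (∑ i ∈ s, f i) ^ p ^ n = ∑ i ∈ s, f i ^ p ^ n + p * r := by
  classical
  induction s using Finset.induction_on with
  | empty => exact ⟨0, by simp [hp.ne_zero]⟩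
  | insert a s ha ih =>
    obtain ⟨r, hr⟩ := ih
    obtain ⟨t, ht⟩ := exists_add_pow_prime_pow_eq hp (f a) (∑ i ∈ s, f i) n
    rw [Finset.sum_insert ha, Finset.sum_insert ha, ht, hr]
    exact ⟨r + f a * (∑ i ∈ s, f i) * t, by ring⟩

theorem char_pow_prime_pow {G : Type*} [Group G] [Finite G] {p : ℕ} (hp : p.Prime) (n : ℕ)
    {χ : G → ℂ} (h : IsCharacter G χ) (g : G) :
    ∃ γ : AlgInt, χ g ^ p ^ n = χ (g ^ p ^ n) + p * (γ : ℂ) := by
  obtain ⟨m, ω, -, hω, hk⟩ := H6.char_pow_eq_sum h (orderOf_pos g).ne' (pow_orderOf_eq_one g)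
  let ω' : Fin m → AlgInt := fun i => ⟨ω i, H8.isIntegral_of_pow_eq_one (orderOf_pos g) (hω i)⟩
  obtain ⟨r, hr⟩ := sum_pow_prime_pow hp n Finset.univ ω'
  refine ⟨r, ?_⟩
  have h1 := hk 1
  simp only [pow_one] at h1
  rw [h1, hk]
  have := congrArg Subtype.val hr
  push_cast at this
  exact this

/-- Let G be a finite group, p a prime and p^a the p-part of the order of G. Let x, y ∈ G and let x′, y′ be their p-regular parts: x′ has order prime to p, commutes with x·x′⁻¹, and x·x′⁻¹ has p-power order (likewise for y). Then x′ and y′ are conjugate in G if and only if for every irreducible character χ of G the algebraic integer χ(x)^(p^a) − χ(y)^(p^a) is p times an algebraic integer. -/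
theorem result {G : Type*} [Group G] [Finite G] (p : ℕ) [Fact p.Prime] (x y x' y' : G)
    (hx : (∃ k : ℕ, orderOf (x * x'⁻¹) = p ^ k) ∧ Commute (x * x'⁻¹) x' ∧ ¬ p ∣ orderOf x')
    (hy : (∃ k : ℕ, orderOf (y * y'⁻¹) = p ^ k) ∧ Commute (y * y'⁻¹) y' ∧ ¬ p ∣ orderOf y') :
    IsConj x' y' ↔ ∀ χ : Cfsg.IrrCharacter G, ∃ γ : Cfsg.AlgInt,
      (χ : G → ℂ) x ^ (p ^ (Nat.card G).factorization p) - (χ : G → ℂ) y ^ (p ^ (Nat.card G).factorization p) = (p : ℂ) * (γ : ℂ) := by
  have hp : p.Prime := Fact.out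
  set a := (Nat.card G).factorization p with ha
  have hxx : H35.pReg p x = x' := by
    have := H35.pReg_mul_eq hx.1 hx.2.2 hx.2.1
    rwa [inv_mul_cancel_right] at this
  have hyy : H35.pReg p y = y' := by
    have := H35.pReg_mul_eq hy.1 hy.2.2 hy.2.1
    rwa [inv_mul_cancel_right] at this
  have hdvd : ∀ g : G, orderOf (H35.pPart p g) ∣ p ^ a := by
    intro g
    obtain ⟨j, hj⟩ := H35.isPElt_pPart p g
    rw [hj]
    apply pow_dvd_pow
    rw [ha, ← hp.pow_dvd_iff_le_factorization Nat.card_pos.ne', ← hj]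
    exact orderOf_dvd_natCard _
  constructor
  · intro hc χ
    have hχ := H6.irr_isCharacter χ.2
    obtain ⟨γ₁, h1⟩ := char_pow_prime_pow hp a hχ x
    obtain ⟨γ₂, h2⟩ := char_pow_prime_pow hp a hχ y
    refine ⟨γ₁ - γ₂, ?_⟩
    have h3 : (χ : G → ℂ) (x ^ p ^ a) = (χ : G → ℂ) (y ^ p ^ a) := by
      rw [H35.pow_eq_pReg_pow p (hdvd x), H35.pow_eq_pReg_pow p (hdvd y), hxx, hyy]
      exact (H6.isConj_iff_irr _ _).mp (hc.pow _) χ
    rw [h1, h2, h3]
    push_cast
    ring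
  · intro h
    obtain ⟨M, hM⟩ := H85.exists_isPModular hp
    have := H33.isMaximal_of hM
    have := H33.charP hM
    refine H85.isConj_of_red_eq hM hx.2.2 hy.2.2 fun χ => ?_
    have hχ := H6.irr_isCharacter χ.2
    rw [← hxx, ← hyy, ← H85.red_char_pReg hM hχ, ← H85.red_char_pReg hM hχ]
    obtain ⟨γ, hγ⟩ := h χ
    have h1 := congrArg (H33.red M) hγ
    have hO := fun g => H85.char_mem_O (M := M) hχ g
    rw [H33.red_sub (pow_mem (hO x) _) (pow_mem (hO y) _), H33.red_pow (hO x), H33.red_pow (hO y),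
      H33.red_mul (natCast_mem _ _) (H33.algInt_mem_O M γ), H33.red_natCast, CharP.cast_eq_zero,
      zero_mul, ← sub_pow_char_pow] at h1
    exact sub_eq_zero.mp (pow_eq_zero_iff (pow_ne_zero _ hp.ne_zero) |>.mp h1)

end Cfsg.Agent.S4604
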