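import Cfsg.Statements.S4649
import Mathlib
import Cfsg.Agent.Lib.Blk86.Cyc
import Cfsg.Agent.Lib.Block.QuotRank
import Cfsg.Agent.S4695

set_option autoImplicit false
open Cfsg

namespace Cfsg.Agent.S4649

set_option linter.style.haveILetI false
set_option linter.unusedVariables false

open H86 H33
attribute [local irreducible] H33.instFieldF

theorem stab_iff {G : Type*} [Group G] {K : Subgroup G} (e : Set (IrrCharacter K)) {g : G}
    (hN : g ∈ Nor K) : StabilizesBlock K e g ↔ ∀ θ ∈ e, ∀ θ' : IrrCharacter K,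
      (∀ h h' : K, (h' : G) = g * h * g⁻¹ → (θ' : K → ℂ) h' = (θ : K → ℂ) h) → θ' ∈ e := by
  have h1 := mem_Nor_iff_cs.1 hN
  constructor
  · rintro ⟨-, h⟩ θ hθ θ' hθ'
    obtain ⟨χ', h2, h3⟩ := h θ hθ
    rw [(eq_trI_csEquiv_iff g h1 θ θ').2 hθ', ← (eq_trI_csEquiv_iff g h1 θ χ').2 h3]
    exact h2
  · intro h
    refine ⟨hN, fun χ hχ => ⟨trI (csEquiv g h1) χ, h χ hχ _ ?_, ?_⟩⟩ <;>
    exact (eq_trI_csEquiv_iff g h1 χ _).1 rfl

/-- A block with cyclic defect group, of a finite group relative to a maximal ideal M of the algebraic integers containing the prime p, is nilpotent if and only if its p-regular rank is 1 (it has a unique irreducible Brauer character). -/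
theorem result {G : Type*} [Group G] [Finite G] (p : ℕ) [Fact p.Prime] (M : Ideal Cfsg.AlgInt) (hM : Cfsg.IsPModular p M) (B : Set (Cfsg.IrrCharacter G)) (hB : Cfsg.IsPBlock M B) (P : Subgroup G) (hPD : Cfsg.IsDefectGroup p M B P) (hcyc : IsCyclic P) : Cfsg.IsNilpotentBlock p M B ↔ Cfsg.blockRank p B = 1 := by
  haveI := isMaximal_of hM; haveI := charP hM; haveI := good hM G; haveI := Fintype.ofFinite G
  have hab := le_Cen_of_isCyclic hcyc
  have hb := H86.isBlk_eB hB
  have hPp := defect_isPGroup hPD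
  obtain ⟨c, hc⟩ := H34.exists_induced_of_br_ne_zero hM hPp hab le_rfl (Cen_le_Nor P) hB
    (defect_br_ne_zero hPD)
  have hm := isMaxPair_of_induced hM hPD hab hc
  rw [isNilpotentBlock_iff hB, isNil_iff_of_ab hm hb hab]
  by_cases hP : P = ⊥
  · have h1 := H84.blockRank_eq_one_of_defect_zero hM hB
      ((blockDefect_eq_zero_iff_bot hM hB hPD).2 hP)
    refine ⟨fun _ => h1, fun _ x _ => ?_⟩
    subst hP
    intro y hy
    rw [SetLike.mem_coe, Subgroup.mem_bot] at hy
    simp [hy]
  · obtain ⟨a, ha⟩ := hPp.exists_card_eq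
    have ha1 : 1 ≤ a := by
      rcases Nat.eq_zero_or_pos a with h | h
      · exact absurd (Subgroup.card_eq_one.1 (by simpa [h] using ha)) hP
      · exact h
    have key := Cfsg.Agent.S4695.result p M hM P hcyc a ha1 ha B hB hPD c hc
      (St ⊤ P (eS M (Cen P) c)) (fun g => by
        rw [St_top, ← mem_Nor_and_stabilizes_iff hc.1]
        exact and_congr_right fun hg => stab_iff c (Nor_le_Nor_Cen P hg)) _ rfl
    rw [key, Subgroup.relIndex_eq_one]

end Cfsg.Agent.S4649
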