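import Cfsg.Statements.S4608
import Mathlib
import Cfsg.Agent.Base
import Cfsg.Agent.Lib.Cyc.Small2
import Cfsg.Agent.S4649

set_option autoImplicit false
open Cfsg

namespace Cfsg.Agent.S4608

/-- Let G be a finite group, p a prime, M a maximal ideal of the algebraic integers containing p, and B a p-block of G with defect group D. If B has p-regular rank one and exactly five irreducible characters, then D is cyclic of order 5, or D has order 8 and is non-abelian (dihedral or quaternion). -/
theorem result {G : Type*} [Group G] [Finite G] (p : ℕ) [Fact p.Prime] (M : Ideal Cfsg.AlgInt) (hM : Cfsg.IsPModular p M) (B : Set (Cfsg.IrrCharacter G)) (hB : Cfsg.IsPBlock M B) (D : Subgroup G) (hD : Cfsg.IsDefectGroup p M B D)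
    (hl : Cfsg.blockRank p B = 1) (hk : Nat.card B = 5) :
    (Nat.card D = 5) ∨ (Nat.card D = 8 ∧ ¬ IsMulCommutative D) := by
  haveI := H33.isMaximal_of hM; haveI := H33.charP hM; letI := Fintype.ofFinite G
  obtain ⟨e, h⟩ := H85.exists_mp hM hB hD
  have hq := h.card_eq
  have h1 := H35C.rank_one_small hM hB hl hk.le
  have h2 := (H35C.card_le_of_rank_one hM hB hl).1
  have h0 : blockDefect p B ≠ 0 := fun h0 => by rw [h0, pow_zero] at h2; omega
  have h3 : ∀ r, r.Prime → r ∣ Nat.card D → r = p := fun r hr h3 =>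
    (Nat.prime_dvd_prime_iff_eq hr Fact.out).1 (hr.dvd_of_dvd_pow (hq ▸ h3))
  obtain h4 | h4 | h4 | h4 : Nat.card D = 5 ∨ Nat.card D = 6 ∨ Nat.card D = 7 ∨ Nat.card D = 8 := by
    omega
  · exact .inl h4
  · have := (h3 2 Nat.prime_two (by simp [h4])).trans (h3 3 Nat.prime_three (by simp [h4])).symm
    omega
  · haveI : Fact (Nat.Prime 7) := ⟨by norm_num⟩
    have hc : IsCyclic D := isCyclic_of_prime_card h4
    have := (H35C.nil_cyclic hM hB hD hc (fun h5 => by simp [h5] at h4)
      ((Cfsg.Agent.S4649.result p M hM B hB D hD hc).2 hl) hl).1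
    omega
  · refine .inr ⟨h4, fun hc => ?_⟩
    obtain rfl := h3 2 Nat.prime_two (by simp [h4])
    have := H35C.odd_card_add h (fun x hx y hy => congrArg Subtype.val (hc.is_comm.comm ⟨y, hy⟩ ⟨x, hx⟩))
      ((Nat.pow_le_pow_iff_right one_lt_two).1 (by omega))
    omega

end Cfsg.Agent.S4608
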