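import Cfsg.Statements.S4609
import Mathlib
import Cfsg.Agent.Base
import Cfsg.Agent.Lib.K3.Norm
import Cfsg.Agent.Lib.Blk86.NormDef
import Cfsg.Agent.Lib.Core.Frattini

set_option autoImplicit false
open Cfsg

namespace Cfsg.Agent.S4609

/-- Let G be a finite group, p a prime, M a maximal ideal of the algebraic integers containing p, and B a p-block of G with defect group D containing exactly three irreducible characters. Suppose the number of height-zero characters of B equals the number of height-zero characters of its Brauer correspondent b, the block of N_G(D) with defect group D inducing B (as the Alperin–McKay conjecture predicts). Then D has order 3. -/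
theorem result {G : Type*} [Group G] [Finite G] (p : ℕ) [Fact p.Prime] (M : Ideal Cfsg.AlgInt) (hM : Cfsg.IsPModular p M) (B : Set (Cfsg.IrrCharacter G)) (hB : Cfsg.IsPBlock M B) (D : Subgroup G) (hD : Cfsg.IsDefectGroup p M B D) (hk : Nat.card B = 3)
    (b : Set (Cfsg.IrrCharacter (Subgroup.normalizer (D : Set G)))) (hbB : Cfsg.IsInducedBlock M (Subgroup.normalizer (D : Set G)) b B)
    (hbD : Cfsg.IsDefectGroup p M b (D.subgroupOf (Subgroup.normalizer (D : Set G))))
    (hAM : Nat.card {χ : Cfsg.IrrCharacter G // χ ∈ B ∧ Cfsg.blockHeight p B (χ : G → ℂ) = 0} =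
           Nat.card {ψ : Cfsg.IrrCharacter (Subgroup.normalizer (D : Set G)) // ψ ∈ b ∧ Cfsg.blockHeight p b (ψ : Subgroup.normalizer (D : Set G) → ℂ) = 0}) :
    Nat.card D = 3 := by
  haveI := H33.isMaximal_of hM; haveI := H33.charP hM; letI := Fintype.ofFinite G
  have h1 : D ≠ ⊥ := fun h1 => by
    obtain ⟨χ, hχ⟩ := H84.block_nonempty hB
    rw [(H33.blockDefect_eq_zero_iff_singleton hM hB hχ).1
      ((H33.blockDefect_eq_zero_iff_bot hM hB hD).2 h1)] at hk
    simp at hk
  have h2 : Nat.card D ≠ 2 := fun h => by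
    have := (Cfsg.Agent.S4607.result p M hM B hB D hD).2 h
    omega
  have hb := hbB.1
  let N := Subgroup.normalizer (D : Set G)
  let D' : Subgroup N := D.subgroupOf N
  replace hbD : IsDefectGroup p M b D' := hbD
  haveI : D'.Normal := Subgroup.normal_subgroupOf_of_le_normalizer le_rfl
  have hDD : Nat.card D' = Nat.card D :=
    Nat.card_congr (Subgroup.subgroupOfEquivOfLe Subgroup.le_normalizer).toEquiv
  have hp' := H33.defect_isPGroup hbD
  have hZD : ⁅D', D'⁆ ≤ D' := Subgroup.commutator_le_left _ _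
  obtain ⟨c, hc, hcb, hV⟩ := H35.exists_quot_block hM (N := ⁅D', D'⁆) (hp'.to_le hZD) hb hbD
  set V := D'.map (QuotientGroup.mk' ⁅D', D'⁆) with hVdef
  haveI : V.Normal := Subgroup.Normal.map inferInstance _ (QuotientGroup.mk'_surjective _)
  have hVc : ∀ x ∈ V, ∀ y ∈ V, x * y = y * x := by
    rintro _ ⟨x, hx, rfl⟩ _ ⟨y, hy, rfl⟩
    rw [← map_mul, ← map_mul]
    refine QuotientGroup.eq.2 ?_
    have := Subgroup.commutator_mem_commutator (D'.inv_mem hy) (D'.inv_mem hx)
    simpa [commutatorElement_def, mul_assoc] using this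
  letI := Fintype.ofFinite (N ⧸ ⁅D', D'⁆)
  have hh : ∀ χ ∈ c, blockHeight p b (H35.infl ⁅D', D'⁆ χ : N → ℂ) = 0 := fun χ hχ => by
    refine H86.height_infl_eq_zero hM hb hbD hZD hc hV ?_
    obtain ⟨ξ, hξ⟩ := (H35.heights_of_normal_defect hM hc hV).1 χ hχ
    have h3 : charDegree ξ.1 = 1 := by
      apply Nat.cast_injective (R := ℂ)
      rw [H84.cast_deg, H6.irr_one_eq_one_of_comm
        (fun x y => Subtype.ext (Subtype.ext (hVc _ x.2 _ y.2))) ξ.2, Nat.cast_one]
    rw [hξ, h3]
    simp
  have hc3 : Nat.card c ≤ 3 := by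
    refine le_trans (Nat.card_le_card_of_injective
      (β := {ψ : IrrCharacter N // ψ ∈ b ∧ blockHeight p b (ψ : N → ℂ) = 0})
      (fun χ => ⟨H35.infl ⁅D', D'⁆ χ.1, hcb _ χ.2, hh _ χ.2⟩) fun χ ψ h =>
        Subtype.ext (H35.infl_injective (congrArg Subtype.val h))) ?_
    rw [← hAM, ← hk]
    exact Nat.card_le_card_of_injective (fun χ => ⟨χ.1, χ.2.1⟩) fun χ ψ h =>
      Subtype.ext (congrArg (fun x : B => x.1) h)
  obtain ⟨χ, hχ⟩ := H84.block_nonempty hc
  have hV3 : Nat.card V = 1 ∨ Nat.card V = 2 ∨ Nat.card V = 3 := by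
    by_cases h3 : Nat.card c = 3
    · exact Or.inr (Or.inr (H35K.card_eq_three_normal hM _ rfl hVc hc hV h3))
    by_cases h4 : Nat.card c = 2
    · exact Or.inr (Or.inl ((Cfsg.Agent.S4607.result p M hM c hc V hV).1 h4))
    have h5 : c.ncard ≤ 1 := show Nat.card c ≤ 1 by omega
    exact Or.inl (Subgroup.card_eq_one.2 ((H33.blockDefect_eq_zero_iff_bot hM hc hV).1
      ((H33.blockDefect_eq_zero_iff_singleton hM hc hχ).2
        (((Set.ncard_le_one_iff_subsingleton).1 h5).eq_singleton_of_mem hχ))))
  have hVcyc : IsCyclic V := by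
    rcases hV3 with h | h | h
    · haveI := (Nat.card_eq_one_iff_unique.1 h).1
      infer_instance
    · exact isCyclic_of_prime_card h
    · haveI := Fact.mk Nat.prime_three
      exact isCyclic_of_prime_card h
  have hker : ∀ x : D', (QuotientGroup.mk' ⁅D', D'⁆).subgroupMap D' x = 1 ↔
      x ∈ commutator D' := fun x => by
    rw [Subtype.ext_iff, ← Subgroup.mem_map_iff_mem D'.subtype_injective,
      Subgroup.map_subtype_commutator]
    exact QuotientGroup.eq_one_iff _
  haveI := hp'.isNilpotent
  have hcyc : IsCyclic D' := H1.isCyclic_of_isCyclic_abelianization_of_isNilpotent (by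
    refine isCyclic_of_injective (QuotientGroup.lift (commutator D')
      ((QuotientGroup.mk' ⁅D', D'⁆).subgroupMap D') fun x hx => (hker x).2 hx) ?_
    rw [injective_iff_map_eq_one]
    intro q hq
    induction q using QuotientGroup.induction_on with
    | H y => exact (QuotientGroup.eq_one_iff y).2 ((hker y).1 hq))
  have hDV : Nat.card D' = Nat.card V := by
    refine Nat.card_eq_of_bijective ((QuotientGroup.mk' ⁅D', D'⁆).subgroupMap D')
      ⟨(injective_iff_map_eq_one _).2 fun x hx => ?_, MonoidHom.subgroupMap_surjective _ _⟩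
    have h6 := (hker x).1 hx
    rwa [(commutator_eq_bot_iff D').2 IsCyclic.isMulCommutative, Subgroup.mem_bot] at h6
  have h7 : Nat.card D ≠ 1 := fun h => h1 (Subgroup.card_eq_one.1 h)
  omega

end Cfsg.Agent.S4609
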