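import Mathlib
import Cfsg.Statements.S4611
import Cfsg.Agent.Lib.Deg.PrinSolv

set_option autoImplicit false
open Cfsg

namespace Cfsg.Agent.S4611



/-- Let G be a finite solvable group and π a nonempty set of primes, each dividing the order of G; fix for each p in π a maximal ideal M p of the algebraic integers containing p. Then the only irreducible character lying in the principal p-block for every p in π is the principal character if and only if G is generated by the subgroups O_{p'}(G), p in π (the largest normal subgroups of order prime to p). -/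
theorem result {G : Type*} [Group G] [Finite G] [Group.IsSolvable G] (π : Set ℕ) (hπ : ∀ p ∈ π, p.Prime ∧ p ∣ Nat.card G) (hne : π.Nonempty) (M : ℕ → Ideal Cfsg.AlgInt) (hM : ∀ p ∈ π, Cfsg.IsPModular p (M p)) :
    (∀ χ : Cfsg.IrrCharacter G, (∀ p ∈ π, χ ∈ Cfsg.principalBlock (M p) G) → (χ : G → ℂ) = fun _ => 1) ↔
      ⨆ p ∈ π, Cfsg.pPrimeCore p G = ⊤ := by
  have key : ∀ χ : IrrCharacter G, (∀ p ∈ π, χ ∈ principalBlock (M p) G) ↔
      ⨆ p ∈ π, pPrimeCore p G ≤ H6.charKer (χ : G → ℂ) := fun χ => by
    rw [iSup₂_le_iff]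
    refine forall₂_congr fun p hp => ?_
    have := Fact.mk (hπ p hp).1
    exact H87.mem_principal_iff_of_isPSolvable (hM p hp)
      ((H3.isPSolvable_iff_isPiSeparable (hπ p hp).1).2 (H3.isPiSeparable_of_isSolvable _)) χ
  simp only [key]
  have : (⨆ p ∈ π, pPrimeCore p G).Normal := inferInstance
  refine ⟨fun h => (Subgroup.eq_top_iff' _).2 fun g => not_not.1 fun hg => ?_,
    fun h χ hχ => (H87.charKer_eq_top_iff χ.2).1 (top_le_iff.1 (h.ge.trans hχ))⟩
  obtain ⟨χ, hχ, h1, h2⟩ := H87.exists_irr_ker_of_not_mem _ hg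
  exact h2 ((H87.charKer_eq_top_iff hχ).2 (h ⟨χ, hχ⟩ h1) ▸ trivial)

end Cfsg.Agent.S4611
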