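import Mathlib
import Cfsg.Statements.S4620
import Cfsg.Agent.Lib.Deg.SylNorm

set_option autoImplicit false
open scoped Pointwise
open Cfsg

namespace Cfsg.Agent.S4620



/-- Let H be a finite group with no nontrivial normal p-subgroup and no nontrivial normal subgroup of order prime to p, whose Sylow p-subgroup P is nontrivial and a trivial-intersection set (P meets its conjugates by elements outside N_H(P) trivially). Then H has a unique minimal normal subgroup N; N is non-abelian simple with trivial centralizer in H (so H embeds in Aut(N)), and a Sylow p-subgroup of N is again a nontrivial trivial-intersection set in N. -/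
theorem result {H : Type*} [Group H] [Finite H] (p : ℕ) [Fact p.Prime] (hOp : Cfsg.pCore p H = ⊥) (hOp' : Cfsg.pPrimeCore p H = ⊥) (P : Sylow p H) (hP1 : (P : Subgroup H) ≠ ⊥)
    (hTI : ∀ g : H, g ∉ Subgroup.normalizer ((P : Subgroup H) : Set H) → (P : Subgroup H) ⊓ (MulAut.conj g • (P : Subgroup H)) = ⊥) :
    ∃ N : Subgroup H, N.Normal ∧ N ≠ ⊥ ∧ (∀ K : Subgroup H, K.Normal → K ≠ ⊥ → N ≤ K) ∧
      IsSimpleGroup N ∧ ¬ IsMulCommutative N ∧ Subgroup.centralizer (N : Set H) = ⊥ ∧
      ∀ Q : Sylow p N, (Q : Subgroup N) ≠ ⊥ ∧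
        ∀ n : N, n ∉ Subgroup.normalizer ((Q : Subgroup N) : Set N) → (Q : Subgroup N) ⊓ (MulAut.conj n • (Q : Subgroup N)) = ⊥ := by
  have h := (H87.sylTI_iff P).2 hTI
  have : Nontrivial H := by
    by_contra hn
    rw [not_nontrivial_iff_subsingleton] at hn
    exact hP1 (Subsingleton.elim _ _)
  obtain ⟨N, hN⟩ := H3.exists_isMinNormal H
  have := hN.normal
  have := hN.nontrivial
  have hC := h.centralizer_eq_bot hOp hOp' N hN.ne_bot
  have hb : ∀ {K : Subgroup N}, K.map N.subtype ≤ ⊥ → K = ⊥ := fun h =>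
    (Subgroup.map_eq_bot_iff_of_injective _ N.subtype_injective).1 (le_bot_iff.1 h)
  have h1 : pCore p N = ⊥ := hb ((H1.map_subtype_pCore_le N).trans hOp.le)
  have h2 : pPrimeCore p N = ⊥ := hb ((H1.map_subtype_pPrimeCore_le N).trans hOp'.le)
  obtain ⟨M, hM⟩ := H3.exists_isMinNormal N
  have h3 := fun K hK => @H87.SylTI.le_of_isMinNormal _ _ _ _ _ (h.subgroup N) h1 h2 M hM K hK
  have := hM.normal
  have : M.Characteristic := Subgroup.characteristic_iff_le_comap.2 fun e => h3 _ inferInstance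
    fun e' => hM.ne_bot (by
      rw [← Subgroup.map_comap_eq_self_of_surjective (f := e.toMonoidHom) e.surjective M, e',
        Subgroup.map_bot])
  have h4 := (hN.eq_bot_or_top_of_characteristic M).resolve_left hM.ne_bot
  refine ⟨N, hN.normal, hN.ne_bot, fun K hK => h.le_of_isMinNormal hOp hOp' hN K,
    ⟨fun K hK => or_iff_not_imp_left.2 fun e => top_le_iff.1 (h4.ge.trans (h3 K hK e))⟩,
    fun hc => hN.ne_bot (le_bot_iff.1 ((Subgroup.le_centralizer N).trans hC.le)), hC,
    fun Q => ⟨Q.ne_bot_of_dvd_card (not_not.1 fun hn => hN.ne_bot (le_bot_iff.1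
      ((H1.le_pPrimeCore_of_not_dvd hn).trans hOp'.le))), (H87.sylTI_iff Q).1 (h.subgroup N)⟩⟩

end Cfsg.Agent.S4620
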