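import Cfsg.Statements.S4627
import Cfsg.Agent.Lib.Syl2.Lin

set_option autoImplicit false
open Cfsg

namespace Cfsg.Agent.S4627


/-- Let F be a finite field of odd order q and m ≥ 1. If 4 divides q + 1, or if 4 divides q − 1 and m is a power of 2, then a Sylow 2-subgroup P of SL_{2m}(F) has P/P' elementary abelian: the square of every element of P lies in the derived subgroup of P. -/
theorem result {F : Type*} [Field F] [Fintype F] (hF : Odd (Fintype.card F)) (m : ℕ) (hm : 1 ≤ m)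
    (hq : 4 ∣ Fintype.card F + 1 ∨ (4 ∣ Fintype.card F - 1 ∧ ∃ j : ℕ, m = 2 ^ j)) (P : Sylow 2 (Matrix.SpecialLinearGroup (Fin (2 * m)) F)) :
    ∀ x : (P : Subgroup (Matrix.SpecialLinearGroup (Fin (2 * m)) F)), x ^ 2 ∈ commutator (P : Subgroup (Matrix.SpecialLinearGroup (Fin (2 * m)) F)) := by
  obtain ⟨T, hT⟩ := H61.SylIn.exists_sylIn (p := 2) (⊤ : Subgroup (Equiv.Perm (Fin m)))
  refine H82.ea_iff.1 (H82.ea_inf_slK (κ := Empty) (by rwa [Nat.card_eq_fintype_card])
    (Fintype.equivOfCardEq (by simp)) (⟨0, hm⟩ : Fin m) (by simp) hT ?_ P)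
  rcases hq with h | ⟨-, j, hj⟩
  · left
    rw [Nat.card_eq_fintype_card]
    omega
  · exact Or.inr ⟨inferInstance, H82.exists_of_sylow_perm_two_pow hT (by simpa using hj) _⟩

end Cfsg.Agent.S4627
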