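import Cfsg.Statements.S4628
import Cfsg.Agent.Lib.Syl2.Lin

set_option autoImplicit false
open Cfsg

namespace Cfsg.Agent.S4628


/-- Let F be a finite field of odd order q with 4 dividing q + 1, and m ≥ 1. Then a Sylow 2-subgroup P of SL_{2m+1}(F) has P/P' elementary abelian: the square of every element of P lies in the derived subgroup of P. -/
theorem result {F : Type*} [Field F] [Fintype F] (hF : Odd (Fintype.card F)) (hq : 4 ∣ Fintype.card F + 1) (m : ℕ) (hm : 1 ≤ m) (P : Sylow 2 (Matrix.SpecialLinearGroup (Fin (2 * m + 1)) F)) :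
    ∀ x : (P : Subgroup (Matrix.SpecialLinearGroup (Fin (2 * m + 1)) F)), x ^ 2 ∈ commutator (P : Subgroup (Matrix.SpecialLinearGroup (Fin (2 * m + 1)) F)) := by
  obtain ⟨T, hT⟩ := H61.SylIn.exists_sylIn (p := 2) (⊤ : Subgroup (Equiv.Perm (Fin m)))
  refine H82.ea_iff.1 (H82.ea_inf_slK (κ := Unit) (by rwa [Nat.card_eq_fintype_card])
    (Fintype.equivOfCardEq (by simp)) (⟨0, hm⟩ : Fin m) (by simp) hT (Or.inl ?_) P)
  rw [Nat.card_eq_fintype_card]
  omega

end Cfsg.Agent.S4628
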