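import Cfsg.Statements.S4629
import Cfsg.Agent.Lib.Syl2.Orth

set_option autoImplicit false
open Cfsg

namespace Cfsg.Agent.S4629


/-- Let F be a finite field of odd order and m ≥ 3. For the commutator subgroup Ω of the isometry group of the non-singular quadratic form x₀² + Σ x_i y_i in dimension 2m + 1 over F, a Sylow 2-subgroup P of Ω has P/P' elementary abelian: the square of every element of P lies in the derived subgroup of P. -/
theorem result {F : Type*} [Field F] [Fintype F] (hF : Odd (Fintype.card F)) (m : ℕ) (hm : 3 ≤ m) (P : Sylow 2 (Cfsg.Omega F (Cfsg.quadFormOdd m F))) : ∀ x : (P : Subgroup (Cfsg.Omega F (Cfsg.quadFormOdd m F))), x ^ 2 ∈ commutator (P : Subgroup (Cfsg.Omega F (Cfsg.quadFormOdd m F))) := by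
  have : Finite ((Unit ⊕ (Fin m ⊕ Fin m) → F) ≃ₗ[F] (Unit ⊕ (Fin m ⊕ Fin m) → F)) :=
    Finite.of_injective _ DFunLike.coe_injective
  exact H82.ea_iff.1 (H82.EA.sylow_congr (H12.commCongr (H12.oddIso F m)).symm
    (H82.ea_Om_odd (by rwa [Nat.card_eq_fintype_card]) (by omega)) P)

end Cfsg.Agent.S4629
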