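import Cfsg.Statements.S4630
import Cfsg.Agent.Lib.Syl2.Orth

set_option autoImplicit false
open Cfsg

namespace Cfsg.Agent.S4630


/-- Let F be a finite field of odd order and m ≥ 1 with m even or m ≥ 4. For the commutator subgroup Ω of the isometry group of the plus-type quadratic form Σ_{i<m} x_i y_i in dimension 2m over F, a Sylow 2-subgroup P of Ω has P/P' elementary abelian: the square of every element of P lies in the derived subgroup of P. -/
theorem result {F : Type*} [Field F] [Fintype F] (hF : Odd (Fintype.card F)) (m : ℕ) (hm : 1 ≤ m) (hm' : Even m ∨ 4 ≤ m) (P : Sylow 2 (Cfsg.Omega F (Cfsg.quadFormPlus m F))) : ∀ x : (P : Subgroup (Cfsg.Omega F (Cfsg.quadFormPlus m F))), x ^ 2 ∈ commutator (P : Subgroup (Cfsg.Omega F (Cfsg.quadFormPlus m F))) := by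
  obtain ⟨m, rfl⟩ : ∃ k, m = k + 1 := ⟨m - 1, by omega⟩
  have : Finite ((Fin (m + 1) ⊕ Fin (m + 1) → F) ≃ₗ[F] (Fin (m + 1) ⊕ Fin (m + 1) → F)) :=
    Finite.of_injective _ DFunLike.coe_injective
  refine H82.ea_iff.1 (H82.EA.sylow_congr (H12.commCongr (H12.plusIso F (m + 1))).symm
    (H82.ea_Om_plus (by rwa [Nat.card_eq_fintype_card]) ?_) P)
  rcases hm' with h | h
  · exact Or.inl (Nat.not_even_iff_odd.1 (Nat.even_add_one.1 h))
  · exact Or.inr (by omega)

end Cfsg.Agent.S4630
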