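import Cfsg.Statements.S4632
import Cfsg.Agent.Lib.Syl2.Oct

set_option autoImplicit false
open Cfsg

namespace Cfsg.Agent.S4632


/-- Let F be a finite field of odd order and G₂(F) the automorphism group of the split octonion algebra over F (realized on F⁸ with the Zorn vector-matrix multiplication). A Sylow 2-subgroup P of G₂(F) has P/P' elementary abelian: the square of every element of P lies in the derived subgroup of P. -/
theorem result {F : Type*} [Field F] [Fintype F] (hF : Odd (Fintype.card F)) (P : Sylow 2 (Cfsg.Lie.G2 F)) : ∀ x : (P : Subgroup (Cfsg.Lie.G2 F)), x ^ 2 ∈ commutator (P : Subgroup (Cfsg.Lie.G2 F)) := by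
  obtain ⟨Q, hQ, h⟩ := H82.Oct.exists_sylow_G2 (F := F) (by rwa [Nat.card_eq_fintype_card])
  exact h.sylow_of_sylIn hQ P

end Cfsg.Agent.S4632
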