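import Cfsg.Statements.S4741
import Mathlib
import Cfsg.Agent.Lib.Blk86.Rob

set_option autoImplicit false
open Cfsg

namespace Cfsg.Agent.S4741

set_option linter.style.haveILetI false
set_option linter.unusedVariables false

open H86 H33
attribute [local irreducible] H33.instFieldF
set_option linter.style.haveILetI false

/-- Let p be a prime, M a maximal ideal of the algebraic integers containing p, and D a subgroup of the finite group G. Let x₁, …, x_r be pairwise non-conjugate elements of G such that D is a Sylow p-subgroup of the centralizer of each xᵢ, and such that for any conjugates g of some xᵢ and h of some xⱼ the element g h⁻¹ is never a non-identity p-element. Then there are r distinct p-blocks B₁, …, B_r of G, each having D as a defect group, such that for every choice of characters χᵢ ∈ Bᵢ of height zero the determinant of the r × r matrix (χᵢ(xⱼ)) does not lie in the local ideal at M. -/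
theorem result {G : Type*} [Group G] [Finite G] (p : ℕ) [Fact p.Prime] (M : Ideal Cfsg.AlgInt) (hM : Cfsg.IsPModular p M) (D : Subgroup G) {r : ℕ} (x : Fin r → G) (hx : ∀ i j : Fin r, IsConj (x i) (x j) → i = j) (hD : ∀ i : Fin r, ∃ S : Sylow p ↥(Subgroup.centralizer ({x i} : Set G)), (S : Subgroup ↥(Subgroup.centralizer ({x i} : Set G))).map (Subgroup.centralizer ({x i} : Set G)).subtype = D) (hsep : ∀ i j : Fin r, ∀ g h : G, IsConj (x i) g → IsConj (x j) h → ∀ k : ℕ, 0 < k → orderOf (g * h⁻¹) ≠ p ^ k) : ∃ B : Fin r → Set (Cfsg.IrrCharacter G), Function.Injective B ∧ (∀ i : Fin r, Cfsg.IsPBlock M (B i) ∧ Cfsg.IsDefectGroup p M (B i) D) ∧ ∀ χ : Fin r → Cfsg.IrrCharacter G, (∀ i : Fin r, χ i ∈ B i ∧ Cfsg.blockHeight p (B i) (χ i : G → ℂ) = 0) → ¬ Cfsg.MemLocalIdeal M (Matrix.det (Matrix.of fun i j : Fin r => (χ i : G → ℂ) (x j))) := by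
  classical
  haveI := isMaximal_of hM
  haveI := charP hM
  have hp : p.Prime := Fact.out
  obtain ⟨S⟩ : Nonempty (Sylow p G) := inferInstance
  have hS : ∀ i, IsSyl p (C1 (x i)) D := fun i => by
    obtain ⟨Q, hQ⟩ := hD i
    exact hQ ▸ isSyl_map Q
  have hcount : ∀ i j, robT (S : Subgroup G) (x i) (x j) =
      if i = j then ((S : Subgroup G).index : ℂ) else 0 := by
    intro i j
    have h1 := robCount_mul (S : Subgroup G) (x i) (x j)
    have hS0 : (Nat.card (S : Subgroup G) : ℂ) ≠ 0 := Nat.cast_ne_zero.2 Nat.card_pos.ne'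
    have key : ∀ y z : G, IsConj (x i) y → IsConj (x j) z → z * y⁻¹ ∈ (S : Subgroup G) → z = y := by
      intro y z hy hz hm
      obtain ⟨k, hk⟩ := H35.isPElt_of_mem S.isPGroup' hm
      rcases Nat.eq_zero_or_pos k with rfl | hk0
      · rw [pow_zero, orderOf_eq_one_iff, mul_inv_eq_one] at hk
        exact hk
      · exact absurd hk (hsep j i z y hz hy k hk0)
    split_ifs with hij
    · subst hij
      have h2 : robCount (S : Subgroup G) (x i) (x i) = (C1 (x i)).index := by
        have e : {yz : G × G // IsConj (x i) yz.1 ∧ IsConj (x i) yz.2 ∧ yz.2 * yz.1⁻¹ ∈ (S : Subgroup G)}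
            ≃ MulAction.orbit (ConjAct G) (x i) :=
          { toFun := fun yz => ⟨yz.1.1, by
              rw [ConjAct.mem_orbit_conjAct]; exact yz.2.1.symm⟩
            invFun := fun y => ⟨(y.1, y.1), (ConjAct.mem_orbit_conjAct.1 y.2).symm,
              (ConjAct.mem_orbit_conjAct.1 y.2).symm, by simp⟩
            left_inv := fun yz => by
              ext
              · rfl
              · exact (key _ _ yz.2.1 yz.2.2.1 yz.2.2.2).symm
            right_inv := fun y => rfl }
        rw [robCount, Nat.card_congr e, Nat.card_coe_set_eq, ← MulAction.index_stabilizer]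
        have h3 := Subgroup.nat_card_centralizer_nat_card_stabilizer (x i)
        have h4 := (C1 (x i)).card_mul_index
        have h5 := (MulAction.stabilizer (ConjAct G) (x i)).card_mul_index
        have h6 : Nat.card (ConjAct G) = Nat.card G := rfl
        rw [← h3, h6, ← h4] at h5
        exact Nat.eq_of_mul_eq_mul_left Nat.card_pos h5
      rw [h2, ← Nat.cast_mul, mul_comm, (C1 (x i)).card_mul_index,
        ← (S : Subgroup G).card_mul_index, Nat.cast_mul] at h1
      exact (mul_left_cancel₀ hS0 h1).symm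
    · have h2 : robCount (S : Subgroup G) (x i) (x j) = 0 := by
        rw [robCount, Nat.card_eq_zero]
        left
        refine ⟨fun yz => hij (hx i j ?_)⟩
        have := key _ _ yz.2.1 yz.2.2.1 yz.2.2.2
        exact yz.2.1.trans (this ▸ yz.2.2.1).symm
      rw [h2, Nat.cast_zero, zero_mul] at h1
      exact (mul_eq_zero.1 h1.symm).resolve_left hS0
  let 𝓑 := {B : Set (IrrCharacter G) // IsPBlock M B ∧ IsDefectGroup p M B D}
  haveI : Fintype 𝓑 := Fintype.ofFinite _
  let P : Matrix (Fin r) 𝓑 (F M) := fun i B => red M (piB (S : Subgroup G) B.1 (x i)⁻¹)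
  let A : Matrix 𝓑 (Fin r) (F M) := fun B j => red M (centralChar (repB B.1 : G → ℂ) (x j))
  have hPA : P * A = Matrix.diagonal fun _ => ((S : Subgroup G).index : F M) := by
    ext i j
    have h1 := red_robT (M := M) (S : Subgroup G) (x i) (x j)
    rw [hcount] at h1
    have h2 : red M (if i = j then ((S : Subgroup G).index : ℂ) else 0) =
        Matrix.diagonal (fun _ => ((S : Subgroup G).index : F M)) i j := by
      rw [Matrix.diagonal_apply]
      split_ifs <;> simp
    rw [← h2, h1, Matrix.mul_apply]
    rw [← Finset.sum_subtype ((blocks M G).filter fun B => IsDefectGroup p M B D)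
      (p := fun B => IsPBlock M B ∧ IsDefectGroup p M B D)
      (by simp [mem_blocks]) (fun B => red M (piB (S : Subgroup G) B (x i)⁻¹) *
        red M (centralChar (repB B : G → ℂ) (x j)))]
    refine Finset.sum_subset (Finset.filter_subset _ _) fun B hB hn => ?_
    by_contra hne
    apply hn
    have hB' := mem_blocks.1 hB
    refine Finset.mem_filter.2 ⟨hB, defect_of_centralChar hM hB' (repB_mem hB')
      (right_ne_zero_of_mul hne) (hS j) ?_⟩
    have h3 := C1_factorization_le_of_piB hM hB' _ (left_ne_zero_of_mul hne)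
    rw [C1_inv] at h3
    have h4 := (hS i).card_eq
    rw [(hS j).card_eq] at h4
    rw [Nat.pow_right_injective hp.two_le h4]
    exact h3
  have hdet : (P * A).det ≠ 0 := by
    rw [hPA, Matrix.det_diagonal]
    refine Finset.prod_ne_zero_iff.2 fun _ _ h0 => ?_
    exact S.not_dvd_index ((natCast_F_eq_zero_iff hM _).1 h0)
  obtain ⟨f, hf, -, hfd⟩ := exists_rows_det_ne_zero P A hdet
  refine ⟨fun i => (f i).1, fun i j h => hf (Subtype.ext h), fun i => (f i).2, fun χ hχ hmem => ?_⟩
  apply hfd
  have hO : ∀ i j, (χ i : G → ℂ) (x j) ∈ O M := fun i j => irr_mem_O M _ _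
  have h1 : red M (Matrix.det (Matrix.of fun i j : Fin r => (χ i : G → ℂ) (x j))) =
      Matrix.det (Matrix.of fun i j : Fin r => red M ((χ i : G → ℂ) (x j))) := by
    let X : Matrix (Fin r) (Fin r) (O M) := fun i j => ⟨_, hO i j⟩
    have e1 : (Matrix.of fun i j : Fin r => (χ i : G → ℂ) (x j)) = (O M).subtype.mapMatrix X := rfl
    have e2 : (Matrix.of fun i j : Fin r => red M ((χ i : G → ℂ) (x j))) =
      (redHom M).mapMatrix X := rfl
    rw [e1, e2, ← RingHom.map_det, ← RingHom.map_det]
    rfl
  have h2 := red_eq_zero_of_memLocalIdeal hmem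
  rw [h1] at h2
  set e := D.index.factorization p
  have hdeg : ∀ i, (charDegree (χ i : G → ℂ)).factorization p = e := fun i => by
    rw [(blockHeight_eq_zero_iff (hχ i).1).1 (hχ i).2,
      minVal_eq_defect_index hM (f i).2.1 (f i).2.2]
  have hind : ∀ j, (C1 (x j)).index.factorization p = e := fun j => by
    have h3 := factorization_card_eq p (C1 (x j))
    have h4 := factorization_card_eq p D
    rw [(hS j).card_eq, Nat.factorization_pow_self hp] at h4
    omega
  have hpe : (p ^ e).factorization p = e := Nat.factorization_pow_self hp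
  have hpe0 : p ^ e ≠ 0 := pow_ne_zero _ hp.ne_zero
  have hu : ∀ i, red M (((p ^ e : ℕ) : ℂ) / (charDegree (χ i : G → ℂ) : ℂ)) ≠ 0 := fun i =>
    (red_natCast_div_ne_zero_iff hM hpe0 (charDegree_ne_zero _)).2 (by rw [hpe, hdeg])
  have hv : ∀ j, red M (((C1 (x j)).index : ℂ) / ((p ^ e : ℕ) : ℂ)) ≠ 0 := fun j =>
    (red_natCast_div_ne_zero_iff hM (C1 (x j)).index_ne_zero_of_finite hpe0).2
      (by rw [hpe, hind])
  have h3 : (Matrix.of fun i j => A (f i) j) =
      Matrix.diagonal (fun i => red M (((p ^ e : ℕ) : ℂ) / (charDegree (χ i : G → ℂ) : ℂ))) *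
        (Matrix.of fun i j : Fin r => red M ((χ i : G → ℂ) (x j))) *
        Matrix.diagonal (fun j => red M (((C1 (x j)).index : ℂ) / ((p ^ e : ℕ) : ℂ))) := by
    ext i j
    rw [Matrix.mul_diagonal, Matrix.diagonal_mul, Matrix.of_apply, Matrix.of_apply,
      ← red_mul (mem_O_of_red_ne_zero (hu i)) (hO i j),
      ← red_mul ((O M).mul_mem (mem_O_of_red_ne_zero (hu i)) (hO i j))
        (mem_O_of_red_ne_zero (hv j))]
    show red M (centralChar (repB (f i).1 : G → ℂ) (x j)) = _
    rw [red_centralChar_eq_of_mem (f i).2.1 (repB_mem (f i).2.1) (hχ i).1, centralChar_eq_irr_mul]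
    congr 1
    have : ((p ^ e : ℕ) : ℂ) ≠ 0 := Nat.cast_ne_zero.2 hpe0
    field_simp
  rw [h3, Matrix.det_mul, Matrix.det_mul, h2, mul_zero, zero_mul]

end Cfsg.Agent.S4741
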