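import Cfsg.Statements.S4742
import Mathlib
import Cfsg.Agent.Lib.Blk86.Rob2

set_option autoImplicit false
open Cfsg

namespace Cfsg.Agent.S4742

set_option linter.style.haveILetI false
set_option linter.unusedVariables false

open H86 H33

/-- Let p ≠ q be primes dividing the order of the finite group G, and suppose the centralizer of every non-identity p-element of G has order prime to q. Then either G has an irreducible character of p-defect zero, or for every non-identity q-element z of G there are conjugates g, h of z such that g h⁻¹ is a non-identity p-element. -/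
theorem result {G : Type*} [Group G] [Finite G] (p q : ℕ) [Fact p.Prime] [Fact q.Prime] (hppq : p ≠ q) (hpG : p ∣ Nat.card G) (hqG : q ∣ Nat.card G) (hC : ∀ g : G, g ≠ 1 → (∃ k : ℕ, orderOf g = p ^ k) → ¬ q ∣ Nat.card ↥(Subgroup.centralizer ({g} : Set G))) : (∃ χ : Cfsg.IrrCharacter G, (Cfsg.charDegree (χ : G → ℂ)).factorization p = (Nat.card G).factorization p) ∨ ∀ z : G, z ≠ 1 → (∃ k : ℕ, orderOf z = q ^ k) → ∃ g h : G, IsConj z g ∧ IsConj z h ∧ g * h⁻¹ ≠ 1 ∧ ∃ k : ℕ, orderOf (g * h⁻¹) = p ^ k := by
  rw [or_iff_not_imp_left]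
  intro hno z hz1 hz
  refine (defect_zero_or_exists p (x := z) fun hd => ?_).resolve_left hno
  obtain ⟨u, hu, h1, hp⟩ := exists_isPElt_of_dvd hd
  refine hC u h1 ⟨1, by rw [hp, pow_one]⟩ ?_
  exact (H35.IsPElt.dvd_orderOf hz hz1).trans
    ((C1 u).orderOf_dvd_natCard (mem_C1.2 (mem_C1.1 hu).symm))

end Cfsg.Agent.S4742
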