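import Cfsg.Statements.S4743
import Mathlib
import Cfsg.Agent.Lib.Blk86.Rob2

set_option autoImplicit false
open Cfsg

namespace Cfsg.Agent.S4743

set_option linter.style.haveILetI false
set_option linter.unusedVariables false

open H86 H33

theorem aux {G : Type*} [Group G] [Finite G] (p q : ℕ) [Fact p.Prime] [Fact q.Prime] (hpq : p ≠ q)
    (hC : ∀ u v : G, u ≠ 1 → orderOf u = p → H35.IsPElt q v → v ≠ 1 → ¬ Commute u v)
    (hno : ¬ ∃ χ : IrrCharacter G,
      (charDegree (χ : G → ℂ)).factorization p = (Nat.card G).factorization p)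
    (N : Subgroup G) [hN : N.Normal] (h : q ∣ Nat.card N) : p ∣ Nat.card N := by
  obtain ⟨z, hz, hz1, hzq⟩ := exists_isPElt_of_dvd h
  obtain ⟨g, k, hg, hk, h1, hu⟩ := (defect_zero_or_exists p (x := z) fun hd => by
    obtain ⟨u, hu, h1, hp⟩ := exists_isPElt_of_dvd hd
    exact hC u z h1 hp ⟨1, by rw [hzq, pow_one]⟩ hz1 (mem_C1.1 hu)).resolve_left hno
  obtain ⟨a, rfl⟩ := isConj_iff.1 hg
  obtain ⟨b, rfl⟩ := isConj_iff.1 hk
  exact (hu.dvd_orderOf h1).trans (N.orderOf_dvd_natCard
    (N.mul_mem (hN.conj_mem _ hz a) (N.inv_mem (hN.conj_mem _ hz b))))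

theorem aux2 {G : Type*} [Group G] [Finite G] (p q : ℕ) [hp : Fact p.Prime] [hq : Fact q.Prime]
    (hpq : p ≠ q) (h : ∀ N : Subgroup G, N.Normal → (p ∣ Nat.card N ↔ q ∣ Nat.card N))
    (hs : IsPSolvable p G) : ¬ p ∣ Nat.card G := by
  obtain ⟨n, H, h0, hl, hm, hN, hs⟩ := hs
  have key : ∀ i : Fin (n + 1), ¬ p ∣ Nat.card (H i) := by
    intro i
    induction i using Fin.induction with
    | zero => rw [h0, Subgroup.card_bot]; exact hp.out.not_dvd_one
    | succ i ih =>
      intro hd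
      have hd' := (h _ (hN _)).1 hd
      have ih' := mt (h _ (hN _)).2 ih
      have hle : H i.castSucc ≤ H i.succ := hm (Fin.castSucc_le_succ i)
      have e : Nat.card (H i.castSucc) * (H i.castSucc).relIndex (H i.succ) =
          Nat.card (H i.succ) := by
        rw [← Subgroup.relIndex_bot_left, ← Subgroup.relIndex_bot_left,
          Subgroup.relIndex_mul_relIndex _ _ _ bot_le hle]
      rw [← e] at hd hd'
      have h1 := (hp.out.dvd_mul.1 hd).resolve_left ih
      have h2 := (hq.out.dvd_mul.1 hd').resolve_left ih'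
      rcases hs i with ⟨m, hm⟩ | hc
      · rw [hm] at h2
        exact hpq ((Nat.prime_dvd_prime_iff_eq hq.out hp.out).1 (hq.out.dvd_of_dvd_pow h2)).symm
      · exact hp.out.not_dvd_one (hc ▸ Nat.dvd_gcd h1 (dvd_refl p))
  have := key (Fin.last n)
  rwa [hl, Subgroup.card_top] at this

/-- Let p ≠ q be primes dividing the order of the finite group G, suppose the centralizer of every non-identity p-element has order prime to q, and suppose G is p-solvable or q-solvable. Then G has an irreducible character of p-defect zero or an irreducible character of q-defect zero. -/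
theorem result {G : Type*} [Group G] [Finite G] (p q : ℕ) [Fact p.Prime] [Fact q.Prime] (hppq : p ≠ q) (hpG : p ∣ Nat.card G) (hqG : q ∣ Nat.card G) (hC : ∀ g : G, g ≠ 1 → (∃ k : ℕ, orderOf g = p ^ k) → ¬ q ∣ Nat.card ↥(Subgroup.centralizer ({g} : Set G))) (hsolv : Cfsg.IsPSolvable p G ∨ Cfsg.IsPSolvable q G) : (∃ χ : Cfsg.IrrCharacter G, (Cfsg.charDegree (χ : G → ℂ)).factorization p = (Nat.card G).factorization p) ∨ (∃ χ : Cfsg.IrrCharacter G, (Cfsg.charDegree (χ : G → ℂ)).factorization q = (Nat.card G).factorization q) := by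
  by_contra hn
  rw [not_or] at hn
  have hC' : ∀ u v : G, u ≠ 1 → H35.IsPElt p u → H35.IsPElt q v → v ≠ 1 → ¬ Commute u v :=
    fun u v h1 hu hv h2 hc => hC u h1 hu ((hv.dvd_orderOf h2).trans
      ((C1 u).orderOf_dvd_natCard (mem_C1.2 hc.symm)))
  have key : ∀ N : Subgroup G, N.Normal → (p ∣ Nat.card N ↔ q ∣ Nat.card N) := fun N hN =>
    ⟨aux q p hppq.symm (fun u v h1 hu hv h2 hc =>
        hC' v u h2 hv ⟨1, by rw [hu, pow_one]⟩ h1 hc.symm) hn.2 N,
      aux p q hppq (fun u v h1 hu hv h2 => hC' u v h1 ⟨1, by rw [hu, pow_one]⟩ hv h2) hn.1 N⟩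
  rcases hsolv with hs | hs
  · exact aux2 p q hppq key hs hpG
  · exact aux2 q p hppq.symm (fun N hN => (key N hN).symm) hs hqG

end Cfsg.Agent.S4743
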