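import Cfsg.Statements.S4746
import Mathlib
import Cfsg.Agent.Lib.Blk86.Rob2

set_option autoImplicit false
open Cfsg

namespace Cfsg.Agent.S4746

set_option linter.style.haveILetI false
set_option linter.unusedVariables false

open H86 H33
attribute [local irreducible] H33.instFieldF

/-- Let p be an odd prime and G a finite group of even order divisible by p in which the centralizer of every non-identity p-element has odd order. Then G has an irreducible character of p-defect zero or an irreducible character of even degree. -/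
theorem result {G : Type*} [Group G] [Finite G] (p : ℕ) [Fact p.Prime] (hp2 : p ≠ 2) (hpG : p ∣ Nat.card G) (h2G : 2 ∣ Nat.card G) (hC : ∀ g : G, g ≠ 1 → (∃ k : ℕ, orderOf g = p ^ k) → Odd (Nat.card ↥(Subgroup.centralizer ({g} : Set G)))) : (∃ χ : Cfsg.IrrCharacter G, (Cfsg.charDegree (χ : G → ℂ)).factorization p = (Nat.card G).factorization p) ∨ ∃ χ : Cfsg.IrrCharacter G, Even (Cfsg.charDegree (χ : G → ℂ)) := by
  have h := noTwoP_of_odd hC
  rw [or_iff_not_imp_left]
  intro hno
  obtain ⟨t, ht⟩ := H9.exists_involution_of_even (even_iff_two_dvd.2 h2G)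
  obtain ⟨P⟩ : Nonempty (Sylow p G) := inferInstance
  obtain ⟨h0, s, hts, hs⟩ := h.exists_inverted hno ht P
  obtain ⟨⟨u, hu⟩, h1⟩ := Subgroup.ne_bot_iff_exists_ne_one.1 h0
  have hu1 : u ≠ 1 := fun e => h1 (Subtype.ext e)
  have hodd := hC u hu1 (H35.isPElt_of_mem P.isPGroup' hu)
  by_contra hn
  push Not at hn
  haveI : Fact (Nat.Prime 2) := ⟨Nat.prime_two⟩
  obtain ⟨M, hM⟩ := exists_isPModular 2
  haveI := isMaximal_of hM
  haveI := charP hM
  have e1 := congrArg (red M) (H6.sum_irr_one_mul (G := G) hu1)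
  have e2 := congrArg (red M) (H6.column_orthogonality_self u)
  rw [red_sum _ fun χ _ => (O M).mul_mem (irr_mem_O M χ _) (irr_mem_O M χ _), red_zero] at e1
  rw [red_sum _ fun χ _ => (O M).mul_mem (irr_mem_O M χ _) (irr_conj_mem_O M χ _),
    red_natCast] at e2
  have h2 : (2 : F M) = 0 := by exact_mod_cast CharP.cast_eq_zero (F M) 2
  have e3 : ∀ χ : IrrCharacter G, red M ((χ : G → ℂ) 1 * (χ : G → ℂ) u) = red M ((χ : G → ℂ) u) := by
    intro χ
    obtain ⟨k, hk⟩ := Nat.not_even_iff_odd.1 (hn χ)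
    rw [red_mul (irr_mem_O M χ _) (irr_mem_O M χ _), irr_one_eq_charDegree, red_natCast, hk]
    push_cast
    rw [h2]; ring
  have e4 : ∀ χ : IrrCharacter G, red M ((χ : G → ℂ) u * (starRingEnd ℂ) ((χ : G → ℂ) u)) =
      red M ((χ : G → ℂ) u) ^ 2 := by
    intro χ
    rw [← irr_inv, ← hs u hu, irr_isClassFunction χ, red_mul (irr_mem_O M χ _) (irr_mem_O M χ _),
      sq]
  simp only [e3] at e1
  simp only [e4] at e2
  rw [← sum_pow_char, e1, zero_pow two_ne_zero] at e2
  exact (Nat.not_even_iff_odd.2 hodd) (even_iff_two_dvd.2 ((natCast_F_eq_zero_iff hM _).1 e2.symm))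

end Cfsg.Agent.S4746
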