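import Mathlib
import Cfsg.Statements.S4748
import Cfsg.Agent.Lib.Deg.TIFix
import Cfsg.Agent.Lib.Deg.SylNorm
-- import your own Cfsg.Agent.* helpers here

set_option autoImplicit false
set_option linter.style.haveILetI false
set_option linter.unusedVariables false
open scoped Pointwise
open Cfsg

namespace Cfsg.Agent.S4748

open H6 H87

theorem hfree {G : Type*} [Group G] [Finite G] {p : ℕ} [Fact p.Prime] (hti : SylTI p G)
    (P : Sylow p G) : ∀ g, g ∉ Subgroup.normalizer ((P : Subgroup G) : Set G) →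
      ∀ x ∈ (P : Subgroup G), g⁻¹ * x * g ∈ Subgroup.normalizer ((P : Subgroup G) : Set G) →
        x = 1 := by
  set H := Subgroup.normalizer ((P : Subgroup G) : Set G) with hH
  have hPH : (P : Subgroup G) ≤ H := Subgroup.le_normalizer
  intro g hg x hx hxH
  by_contra h1
  obtain ⟨k, hk⟩ := P.isPGroup' ⟨x, hx⟩
  have hk' : x ^ p ^ k = 1 := congrArg Subtype.val hk
  have h2 : IsPGroup p (Subgroup.zpowers (⟨_, hxH⟩ : H)) := fun ⟨_, j, rfl⟩ => ⟨k, by
    refine Subtype.ext (Subtype.ext ?_)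
    simp only [SubmonoidClass.coe_pow, SubgroupClass.coe_zpow, OneMemClass.coe_one]
    rw [← zpow_natCast, ← zpow_mul, mul_comm j, zpow_mul, zpow_natCast,
      show g⁻¹ * x * g = g⁻¹ * x * g⁻¹⁻¹ by group, conj_pow, hk']
    simp⟩
  obtain ⟨Q, hQ⟩ := h2.exists_le_sylow
  obtain ⟨h, rfl⟩ := MulAction.exists_smul_eq H (P.subtype hPH) Q
  have h3 : (h : G)⁻¹ * (g⁻¹ * x * g) * h ∈ (P : Subgroup G) :=
    H3.mem_conj_smul_iff (G := H).1 (hQ (Subgroup.mem_zpowers _))
  have h4 := hti P ((g * h) • P) x hx (H3.mem_conj_smul_iff.2 (by simpa [mul_assoc] using h3)) h1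
  exact hg ((H.mul_mem_cancel_right h.2).1 (Sylow.smul_eq_iff_mem_normalizer.1 h4.symm))

/-- An element centralizing the normalizer of a TI Sylow subgroup is central, when there is a
faithful representation of small degree. -/
theorem central {G : Type*} [Group G] [Finite G] {p : ℕ} [Fact p.Prime] (hti : SylTI p G)
    (P : Sylow p G) {n : ℕ} (ρ : Representation ℂ G (Fin n → ℂ))
    (hf : ∀ g, ρ g = 1 → g = 1) (hd : n ^ 2 ≤ Nat.card (P : Subgroup G)) {z : G}
    (hz : ∀ h ∈ Subgroup.normalizer ((P : Subgroup G) : Set G), h * z = z * h) (g : G) :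
    g * z = z * g := by
  by_cases h0 : (LinearMap.id : (Fin n → ℂ) →ₗ[ℂ] (Fin n → ℂ)) = 0
  · have h1 : ∀ g : G, g = 1 := fun g => hf g (by
      rw [← LinearMap.id_comp (ρ g), h0, LinearMap.zero_comp]; exact h0.symm)
    rw [h1 g, h1 z]
  have key := fixed_of_TI (w := ρ z) P.isPGroup' Subgroup.le_normalizer (fun h => P.not_dvd_index
      (h.trans (Subgroup.index_dvd_of_le Subgroup.le_normalizer))) (hfree hti P) (ρ.linHom ρ)
      (by simpa [Module.finrank_linearMap, ← pow_two] using hd) h0 (fun g => by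
        rw [Representation.linHom_apply, LinearMap.id_comp, ← Module.End.mul_eq_comp, ← map_mul]
        simp; rfl) (fun h hh => by
        rw [Representation.linHom_apply, ← Module.End.mul_eq_comp, ← Module.End.mul_eq_comp,
          ← map_mul, ← map_mul, ← mul_assoc, hz h hh, mul_inv_cancel_right]) g
  rw [Representation.linHom_apply, ← Module.End.mul_eq_comp, ← Module.End.mul_eq_comp,
    ← map_mul, ← map_mul] at key
  have h2 : ρ (g * (z * g⁻¹) * z⁻¹) = 1 := by
    rw [map_mul, key, ← map_mul, mul_inv_cancel, map_one]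
  have h3 := hf _ h2
  calc g * z = (g * (z * g⁻¹) * z⁻¹) * (z * g) := by group
    _ = z * g := by rw [h3, one_mul]


/-- Let G be a finite p-solvable group whose Sylow p-subgroup P meets each conjugate g P g⁻¹ with g outside N_G(P) trivially, and let χ be a faithful character of G (χ g = χ 1 only for g = 1) whose degree d satisfies d² ≤ |P|. Then P is normal in G. -/
theorem result {G : Type*} [Group G] [Finite G] (p : ℕ) [Fact p.Prime] (hsolv : Cfsg.IsPSolvable p G) (P : Sylow p G) (hTI : ∀ g : G, g ∉ Subgroup.normalizer ((P : Subgroup G) : Set G) → (P : Subgroup G) ⊓ (MulAut.conj g • (P : Subgroup G)) = ⊥) (χ : G → ℂ) (hχ : Cfsg.IsCharacter G χ) (hfaith : ∀ g : G, χ g = χ 1 → g = 1) (hdeg : Cfsg.charDegree χ ^ 2 ≤ Nat.card ↥(P : Subgroup G)) : (P : Subgroup G).Normal := by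
  obtain ⟨n, ρ, rfl⟩ := hχ
  have hti := (sylTI_iff P).2 hTI
  have hf : ∀ g, ρ g = 1 → g = 1 := fun g hg => hfaith g (by
    simp only [Representation.character, hg, map_one])
  rw [deg_character ρ, Module.finrank_fin_fun] at hdeg
  by_cases hO : pCore p G = ⊥
  swap
  · obtain ⟨x, hx, h1⟩ := (Subgroup.bot_or_exists_ne_one _).resolve_left hO
    rw [← Subgroup.normalizer_eq_top_iff, eq_top_iff]
    intro g _
    exact Sylow.smul_eq_iff_mem_normalizer.1
      (hti _ _ x (H1.pCore_le_sylow _ hx) (H1.pCore_le_sylow _ hx) h1)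
  by_cases hP : (P : Subgroup G) = ⊥
  · rw [hP]; infer_instance
  exfalso
  set N := pPrimeCore p G with hN
  have hdisj : ∀ x ∈ N, x ∈ (P : Subgroup G) → x = 1 := by
    intro x hx hxP
    obtain ⟨k, hk⟩ := P.isPGroup' ⟨x, hxP⟩
    have h1 : orderOf x ∣ p ^ k := orderOf_dvd_of_pow_eq_one (congrArg Subtype.val hk)
    have h2 : orderOf x ∣ Nat.card N := N.orderOf_dvd_natCard hx
    exact orderOf_eq_one_iff.1 (Nat.eq_one_of_dvd_coprimes
      ((H1.coprime_card_pPrimeCore (p := p) (G := G)).pow_right k) h2 h1)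
  have : Nontrivial (P : Subgroup G) := (Subgroup.nontrivial_iff_ne_bot _).2 hP
  have := P.isPGroup'.center_nontrivial
  obtain ⟨⟨z, hzc⟩, hz1⟩ := exists_ne (1 : Subgroup.center (P : Subgroup G))
  have hzc' : ∀ x ∈ (P : Subgroup G), x * z = z * x := fun x hx =>
    congrArg Subtype.val (Subgroup.mem_center_iff.1 hzc ⟨x, hx⟩)
  set K := N ⊔ (P : Subgroup G) with hK
  have hPK : (P : Subgroup G) ≤ K := le_sup_right
  have key := central (hti.subgroup K) (P.subtype hPK) (ρ.comp K.subtype)
    (fun g hg => Subtype.ext (hf g hg))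
    (by rwa [Sylow.coe_subtype, Nat.card_congr (Subgroup.subgroupOfEquivOfLe hPK).toEquiv])
    (z := ⟨z, hPK z.2⟩) (by
      rintro ⟨h, hhK⟩ hh
      refine Subtype.ext ?_
      have h1 : h * z * h⁻¹ ∈ (P : Subgroup G) :=
        (Subgroup.mem_normalizer_iff.1 hh ⟨z, hPK z.2⟩).1 z.2
      obtain ⟨m, hm, x, hx, rfl⟩ : ∃ m ∈ N, ∃ x ∈ (P : Subgroup G), m * x = h := by
        have : h ∈ (N : Set G) * (P : Subgroup G) := by
          rw [← Subgroup.normal_mul]; exact hhK
        exact this
      have h2 : m * x * z * (m * x)⁻¹ = m * z * m⁻¹ := by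
        rw [mul_assoc m, hzc' x hx]; group
      have h3 := hdisj (m * z * m⁻¹ * (z : G)⁻¹) (by
        have := N.mul_mem hm ((inferInstance : N.Normal).conj_mem _ (N.inv_mem hm) z)
        simpa [mul_assoc] using this) (Subgroup.mul_mem _ (h2 ▸ h1) (Subgroup.inv_mem _ z.2))
      change m * x * z = z * (m * x)
      calc m * x * z = (m * z * m⁻¹ * (z : G)⁻¹) * (z * (m * x)) := by
            rw [mul_assoc m, hzc' x hx]; group
        _ = _ := by rw [h3, one_mul])
  have hzN : (z : G) ∈ N := H23.centralizer_pPrimeCore_le_of_isPSolvable hsolv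
    (f := MonoidHom.id G) Function.surjective_id hO fun m hm =>
      congrArg Subtype.val (key ⟨m, (le_sup_left : N ≤ K) hm⟩)
  exact hz1 (Subtype.ext (Subtype.ext (hdisj _ hzN z.2)))

end Cfsg.Agent.S4748
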