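import Mathlib
import Cfsg.Statements.S4750
import Cfsg.Agent.Lib.Deg.TIFix
import Cfsg.Agent.Lib.Deg.SylNorm

set_option autoImplicit false
open scoped Pointwise
open Cfsg

namespace Cfsg.Agent.S4750

open H6 H87

/-- Let P be a Sylow p-subgroup of the finite group G that meets each conjugate g P g⁻¹ with g outside N_G(P) trivially, χ a character of G with χ(1)² ≤ |P|, and H a subgroup of G containing N_G(P). Then the inner product of χ with itself over G equals the inner product over H of the restriction of χ to H. -/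
theorem result {G : Type*} [Group G] [Fintype G] [DecidableEq G] (p : ℕ) [Fact p.Prime] (P : Sylow p G) (hTI : ∀ g : G, g ∉ Subgroup.normalizer ((P : Subgroup G) : Set G) → (P : Subgroup G) ⊓ (MulAut.conj g • (P : Subgroup G)) = ⊥) (χ : G → ℂ) (hχ : Cfsg.IsCharacter G χ) (hdeg : Cfsg.charDegree χ ^ 2 ≤ Nat.card ↥(P : Subgroup G)) (H : Subgroup G) [Fintype ↥H] (hH : Subgroup.normalizer ((P : Subgroup G) : Set G) ≤ H) : Cfsg.classInner χ χ = Cfsg.classInner (fun h : ↥H => χ h) (fun h : ↥H => χ h) := by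
  obtain ⟨n, ρ, rfl⟩ := hχ
  have hti := (sylTI_iff P).2 hTI
  have hPH : (P : Subgroup G) ≤ H := Subgroup.le_normalizer.trans hH
  have hfree : ∀ g, g ∉ H → ∀ x ∈ (P : Subgroup G), g⁻¹ * x * g ∈ H → x = 1 := by
    intro g hg x hx hxH
    by_contra h1
    obtain ⟨k, hk⟩ := P.isPGroup' ⟨x, hx⟩
    have hk' : x ^ p ^ k = 1 := congrArg Subtype.val hk
    have h2 : IsPGroup p (Subgroup.zpowers (⟨_, hxH⟩ : H)) := fun ⟨_, j, rfl⟩ => ⟨k, by
      refine Subtype.ext (Subtype.ext ?_)
      simp only [SubmonoidClass.coe_pow, SubgroupClass.coe_zpow, OneMemClass.coe_one]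
      rw [← zpow_natCast, ← zpow_mul, mul_comm j, zpow_mul, zpow_natCast,
        show g⁻¹ * x * g = g⁻¹ * x * g⁻¹⁻¹ by group, conj_pow, hk']
      simp⟩
    obtain ⟨Q, hQ⟩ := h2.exists_le_sylow
    obtain ⟨h, rfl⟩ := MulAction.exists_smul_eq H (P.subtype hPH) Q
    have h3 : (h : G)⁻¹ * (g⁻¹ * x * g) * h ∈ (P : Subgroup G) :=
      H3.mem_conj_smul_iff (G := H).1 (hQ (Subgroup.mem_zpowers _))
    have h4 := hti P ((g * h) • P) x hx (H3.mem_conj_smul_iff.2 (by simpa [mul_assoc] using h3)) h1
    exact hg ((H.mul_mem_cancel_right h.2).1 (hH (Sylow.smul_eq_iff_mem_normalizer.1 h4.symm)))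
  have key : (ρ.linHom ρ).invariants =
      Representation.invariants ((ρ.linHom ρ).comp H.subtype) := by
    refine le_antisymm (fun w hw h => hw h) fun w hw g => ?_
    by_cases h0 : (LinearMap.id : (Fin n → ℂ) →ₗ[ℂ] (Fin n → ℂ)) = 0
    · rw [← LinearMap.id_comp w, ← LinearMap.id_comp (ρ.linHom ρ g _), h0]; simp
    refine fixed_of_TI P.isPGroup' hPH (fun h => P.not_dvd_index
      (h.trans (Subgroup.index_dvd_of_le hPH))) hfree (ρ.linHom ρ) ?_ h0 (fun g => ?_)
      (fun h hh => hw ⟨h, hh⟩) g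
    · rwa [Module.finrank_linearMap, ← pow_two, ← deg_character ρ]
    · rw [Representation.linHom_apply, LinearMap.id_comp, ← Module.End.mul_eq_comp, ← map_mul]
      simp; rfl
  have h1 := classInner_character_one (ρ.linHom ρ)
  have h2 := classInner_character_one ((ρ.linHom ρ).comp H.subtype : Representation ℂ H _)
  rw [← key, ← h1] at h2
  simp only [classInner_def, map_one, mul_one] at h2 ⊢
  convert h2.symm using 3 with g _ g
  · rw [Representation.char_linHom, character_inv, mul_comm]
  · change _ = (ρ.linHom ρ).character g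
    rw [Representation.char_linHom, character_inv, mul_comm]

end Cfsg.Agent.S4750
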