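import Cfsg.Statements.S4752
import Cfsg.Agent.Lib.Blk86.Ex27F

set_option autoImplicit false
open Cfsg

namespace Cfsg.Agent.S4752

/-- Let G be a finite group whose Sylow 3-subgroup P is extraspecial of order 27 and exponent 3, with N_G(P) ≤ C_G(Z(P)), and let M be a maximal ideal of the algebraic integers containing 3, B the principal 3-block of G, k its number of irreducible characters, k₀ the number of those of height zero, l its 3-regular rank (number of irreducible Brauer characters), and e the index of P·C_G(P) in N_G(P) (the order of the inertial quotient). Then e = 1 gives (k, k₀, l) = (11, 9, 1); e = 2 gives (10, 6, 2); e = 4 gives (14, 6, 4); e = 8 gives (16, 6, 5). -/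
theorem result {G : Type*} [Group G] [Finite G] (P : Sylow 3 G) (hE : Cfsg.IsExtraspecial 3 ↥(P : Subgroup G)) (h27 : Nat.card ↥(P : Subgroup G) = 27) (hexp : ∀ x ∈ (P : Subgroup G), x ^ 3 = 1) (hNC : ∀ g ∈ Subgroup.normalizer ((P : Subgroup G) : Set G), ∀ z ∈ (P : Subgroup G), (∀ y ∈ (P : Subgroup G), z * y = y * z) → g * z = z * g) (M : Ideal Cfsg.AlgInt) (hM : Cfsg.IsPModular 3 M) (k k₀ l e : ℕ) (hk : Nat.card ↥(Cfsg.principalBlock M G) = k) (hk₀ : Nat.card {χ : Cfsg.IrrCharacter G // χ ∈ Cfsg.principalBlock M G ∧ Cfsg.blockHeight 3 (Cfsg.principalBlock M G) (χ : G → ℂ) = 0} = k₀) (hl : Cfsg.blockRank 3 (Cfsg.principalBlock M G) = l) (he : ((P : Subgroup G) ⊔ Subgroup.centralizer ((P : Subgroup G) : Set G)).relIndex (Subgroup.normalizer ((P : Subgroup G) : Set G)) = e) : (e = 1 → k = 11 ∧ k₀ = 9 ∧ l = 1) ∧ (e = 2 → k = 10 ∧ k₀ = 6 ∧ l = 2) ∧ (e = 4 → k = 14 ∧ k₀ = 6 ∧ l = 4) ∧ (e = 8 → k = 16 ∧ k₀ = 6 ∧ l = 5) := by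
  classical
  haveI := Fintype.ofFinite G
  haveI := hM.2.1
  obtain ⟨z, h⟩ := H86.E27.exists_hy hE h27 hexp hNC
  rw [← H84.card_bset] at hk
  have h0 : (H86.E27.J0 M G).card = k₀ := by
    rw [← hk₀, Nat.card_eq_fintype_card, Fintype.card_subtype]
    congr 1
    ext χ
    simp [H86.E27.mem_J0, H86.E27.height_iff]
  refine ⟨fun e1 => ?_, fun e1 => ?_, fun e1 => ?_, fun e1 => ?_⟩
  · have := h.one hM (he.trans e1)
    omega
  all_goals
    subst e1
    obtain ⟨s, h1⟩ := h.even he (by norm_num) hM (by norm_num)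
    omega

end Cfsg.Agent.S4752
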