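import Mathlib
import Cfsg.Statements.S4754
import Cfsg.Agent.Lib.Deg.Anti

set_option autoImplicit false
open Cfsg

namespace Cfsg.Agent.S4754



/-- For elements x, y of a finite group G, the conjugacy class of x y equals the set of all products of a conjugate of x with a conjugate of y if and only if χ(1) χ(a x a⁻¹ b y b⁻¹) = χ(x) χ(y) for all a, b ∈ G and every irreducible character χ. -/
theorem result {G : Type*} [Group G] [Finite G] (x y : G) : (∀ z : G, IsConj (x * y) z ↔ ∃ a b : G, z = a * x * a⁻¹ * (b * y * b⁻¹)) ↔ ∀ (a b : G) (χ : Cfsg.IrrCharacter G), (χ : G → ℂ) 1 * (χ : G → ℂ) (a * x * a⁻¹ * (b * y * b⁻¹)) = (χ : G → ℂ) x * (χ : G → ℂ) y := by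
  refine ⟨fun h a b χ => ?_, fun h z => ⟨fun hz => ?_, ?_⟩⟩
  · have h1 := fun a b => (H6.isConj_iff_irr _ _).1 ((h _).2 ⟨a, b, rfl⟩) χ
    rw [← h1 a b]
    exact H87.mul_eq_of_const χ.2 fun c => by simpa using (h1 c 1).symm
  · obtain ⟨c, rfl⟩ := isConj_iff.1 hz
    exact ⟨c, c, by group⟩
  · rintro ⟨a, b, rfl⟩
    refine (H6.isConj_iff_irr _ _).2 fun χ => mul_left_cancel₀ (H6.irr_one_ne_zero χ.2) ?_
    rw [h a b χ, ← h 1 1 χ]; simp

end Cfsg.Agent.S4754
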