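import Mathlib
import Cfsg.Statements.S4755
import Cfsg.Agent.Lib.Deg.Anti

set_option autoImplicit false
open Cfsg

namespace Cfsg.Agent.S4755



/-- Let x, y be non-identity elements of the finite group G such that χ(x' y') = χ(x') χ(y') for all conjugates x' of x, y' of y and every irreducible character χ. Then the conjugacy class of x y is the set of all products of a conjugate of x with a conjugate of y; every irreducible character of degree greater than 1 vanishes at x y; and the conjugacy class of x y is the coset of the commutator subgroup containing x y. -/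
theorem result {G : Type*} [Group G] [Finite G] (x y : G) (hx : x ≠ 1) (hy : y ≠ 1) (h : ∀ (a b : G) (χ : Cfsg.IrrCharacter G), (χ : G → ℂ) (a * x * a⁻¹ * (b * y * b⁻¹)) = (χ : G → ℂ) (a * x * a⁻¹) * (χ : G → ℂ) (b * y * b⁻¹)) : (∀ z : G, IsConj (x * y) z ↔ ∃ a b : G, z = a * x * a⁻¹ * (b * y * b⁻¹)) ∧ (∀ χ : Cfsg.IrrCharacter G, (χ : G → ℂ) 1 ≠ 1 → (χ : G → ℂ) (x * y) = 0) ∧ (∀ z : G, IsConj (x * y) z ↔ (x * y)⁻¹ * z ∈ commutator G) := by
  simp only [fun χ : IrrCharacter G => H87.irr_conj_apply χ.2] at h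
  have h1 : ∀ χ, IsIrrCharacter G χ → χ 1 ≠ 1 → χ (x * y) = 0 := fun χ hχ h1 => by
    have h2 := H87.mul_eq_of_const hχ (x := x) (y := y) fun a => by simpa using h a 1 ⟨χ, hχ⟩
    have h3 : χ (x * y) = χ x * χ y := by simpa using h 1 1 ⟨χ, hχ⟩
    rw [h3]
    exact (mul_eq_zero.1 (by linear_combination h2 : (χ 1 - 1) * (χ x * χ y) = 0)).resolve_left
      (sub_ne_zero.2 h1)
  refine ⟨fun z => ⟨fun hz => ?_, ?_⟩, fun χ => h1 _ χ.2, fun z =>
    ⟨H87.inv_mul_mem_commutator_of_isConj, H87.isConj_of_anticentral h1⟩⟩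
  · obtain ⟨c, rfl⟩ := isConj_iff.1 hz
    exact ⟨c, c, by group⟩
  · rintro ⟨a, b, rfl⟩
    refine (H6.isConj_iff_irr _ _).2 fun χ => ?_
    rw [h a b χ, ← h 1 1 χ]; simp

end Cfsg.Agent.S4755
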