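import Cfsg.Statements.S4756
import Mathlib
import Cfsg.Agent.Lib.Deg.Anti
import Cfsg.Agent.Lib.Deg.Frob
import Cfsg.Agent.Lib.Core.CoprimeAbelian
import Cfsg.Agent.Lib.Core.Frobenius
import Cfsg.Agent.Lib.Core.HallSZ
import Cfsg.Agent.Lib.Core.PCore

set_option autoImplicit false
open Cfsg

namespace Cfsg.Agent.S4756

set_option linter.style.haveILetI false
set_option linter.unusedVariables false

open Subgroup H6 H87
open scoped commutatorElement

theorem eq_one_of_cop {Q : Type*} [Group Q] {x : Q} {m n : ℕ} (h : m.Coprime n) (h1 : x ^ m = 1)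
    (h2 : x ^ n = 1) : x = 1 := by
  rw [← orderOf_eq_one_iff]
  exact Nat.eq_one_of_dvd_coprimes h (orderOf_dvd_of_pow_eq_one h1) (orderOf_dvd_of_pow_eq_one h2)

/-- For a finite group G the following are equivalent. (1) χ(x y) = χ(x) χ(y) for every irreducible character χ and all non-identity elements x, y of prime power orders for two different primes. (2) G is a p-group for some prime p, or G is abelian, or for some prime p: G = A P with P a normal Sylow p-subgroup and A a nontrivial cyclic subgroup of order prime to p such that, with C = C_P(A) and D = [A, P], one has P = C D, C abelian, D normal in G, C ∩ D = 1, and A acts fixed-point-freely on D (no non-identity element of A centralizes a non-identity element of D). -/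
theorem result {G : Type*} [Group G] [Finite G] : (∀ (x y : G) (χ : Cfsg.IrrCharacter G), x ≠ 1 → y ≠ 1 → (∃ p q a b : ℕ, p.Prime ∧ q.Prime ∧ p ≠ q ∧ orderOf x = p ^ a ∧ orderOf y = q ^ b) → (χ : G → ℂ) (x * y) = (χ : G → ℂ) x * (χ : G → ℂ) y) ↔ ((∃ p : ℕ, p.Prime ∧ IsPGroup p G) ∨ IsMulCommutative G ∨ ∃ (p : ℕ) (_ : Fact p.Prime) (P : Sylow p G) (A : Subgroup G), (P : Subgroup G).Normal ∧ IsCyclic ↥A ∧ A ≠ ⊥ ∧ (Nat.card ↥A).Coprime p ∧ A ⊔ (P : Subgroup G) = ⊤ ∧ IsMulCommutative ↥((P : Subgroup G) ⊓ Subgroup.centralizer (A : Set G)) ∧ (⁅A, (P : Subgroup G)⁆).Normal ∧ ((P : Subgroup G) ⊓ Subgroup.centralizer (A : Set G)) ⊔ ⁅A, (P : Subgroup G)⁆ = (P : Subgroup G) ∧ ((P : Subgroup G) ⊓ Subgroup.centralizer (A : Set G)) ⊓ ⁅A, (P : Subgroup G)⁆ = ⊥ ∧ ∀ a ∈ A, a ≠ 1 → ∀ d ∈ ⁅A, (P : Subgroup G)⁆, a * d = d * a → d = 1) := by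
  classical
  haveI := Fintype.ofFinite G
  constructor
  · intro h
    by_cases hp : ∃ p : ℕ, p.Prime ∧ IsPGroup p G
    · exact Or.inl hp
    by_cases hc : IsMulCommutative G
    · exact Or.inr (Or.inl hc)
    refine Or.inr (Or.inr ?_)
    have key : ∀ x y : G, x ≠ 1 → y ≠ 1 → ∀ p q a b : ℕ, p.Prime → q.Prime → p ≠ q →
        orderOf x = p ^ a → orderOf y = q ^ b → ∀ z, (x * y)⁻¹ * z ∈ commutator G →
        IsConj (x * y) z := fun x y hx hy p q a b hp hq hpq ox oy z hz => by
      refine isConj_of_anticentral (fun χ hχ h1 => ?_) hz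
      have := mul_eq_of_const hχ (x := x) (y := y) (c := χ x * χ y) fun c => by
        rw [← irr_conj_apply hχ c x]
        exact h _ _ ⟨χ, hχ⟩ (by simpa using hx) hy ⟨p, q, a, b, hp, hq, hpq, by
          rw [← ox]; exact (MulAut.conj c).orderOf_eq x, oy⟩
      rw [show χ (x * y) = χ x * χ y from h _ _ ⟨χ, hχ⟩ hx hy ⟨p, q, a, b, hp, hq, hpq, ox, oy⟩]
      exact (mul_eq_zero.1 (by linear_combination this : (χ 1 - 1) * (χ x * χ y) = 0)).resolve_left
        (sub_ne_zero.2 h1)
    have hne : commutator G ≠ ⊥ := fun e => hc ⟨⟨fun a b => commutatorElement_eq_one_iff_mul_comm.1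
      (mem_bot.1 (e ▸ commutator_mem_commutator (mem_top a) (mem_top b)))⟩⟩
    obtain ⟨x, hx, hpp⟩ := H2.exists_mem_prime_orderOf hne
    obtain ⟨p, hxp⟩ : ∃ p, p = orderOf x := ⟨_, rfl⟩
    rw [← hxp] at hpp
    haveI : Fact p.Prime := ⟨hpp⟩
    have n1 : ∀ y : G, (orderOf y).Prime → y ≠ 1 := fun y h e => by
      rw [e, orderOf_one] at h; exact Nat.not_prime_one h
    have hD : IsPGroup p (commutator G) := H1.isPiSubgroup_singleton_iff.1
      (H1.isPiSubgroup_iff.2 fun q hq hd => by
        by_contra hqp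
        haveI : Fact q.Prime := ⟨hq⟩
        obtain ⟨y, hy⟩ := exists_prime_orderOf_dvd_card' q hd
        rw [← orderOf_coe] at hy
        have := isConj_one_left.1 (key x y (n1 x (hxp ▸ hpp)) (n1 y (hy ▸ hq)) p q 1 1 hpp hq
          (Ne.symm hqp) (by simp [hxp]) (by simp [hy]) 1
          (by simpa using mul_mem (inv_mem y.2) (inv_mem hx)))
        rw [eq_inv_of_mul_eq_one_left this, orderOf_inv, hy] at hxp
        exact hqp hxp.symm)
    obtain ⟨P, hP⟩ := hD.exists_le_sylow
    haveI hPn : (P : Subgroup G).Normal := Normal.of_commutator_le G hP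
    obtain ⟨A, hA⟩ := exists_right_complement'_of_coprime (N := (P : Subgroup G)) P.card_coprime_index
    have hcA : (Nat.card A).Coprime p := by
      rw [← hA.symm.index_eq_card]; exact ((Nat.Prime.coprime_iff_not_dvd hpp).2 P.not_dvd_index).symm
    have hA0 : A ≠ ⊥ := fun e => hp ⟨p, hpp, by
      have := hA.sup_eq_top
      rw [e, sup_bot_eq] at this
      exact (P.isPGroup'.of_equiv (MulEquiv.subgroupCongr this)).of_equiv topEquiv⟩
    have cmem : ∀ a b : G, ⁅a, b⁆ ∈ commutator G := fun a b =>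
      commutator_mem_commutator (mem_top a) (mem_top b)
    have hAc : IsMulCommutative A := ⟨⟨fun a b => Subtype.ext
      (commutatorElement_eq_one_iff_mul_comm.1 (mem_bot.1 (hA.disjoint.le_bot ⟨hP (cmem _ _),
        A.mul_mem (A.mul_mem (A.mul_mem a.2 b.2) (A.inv_mem a.2)) (A.inv_mem b.2)⟩)))⟩⟩
    have fpf : ∀ a ∈ A, a ≠ 1 → ∀ d ∈ commutator G, a * d = d * a → d = 1 := fun a ha h1 d hd e => by
      by_contra hd1
      obtain ⟨y, hy, hq⟩ := H2.exists_mem_prime_orderOf (zpowers_ne_bot.2 h1)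
      obtain ⟨k, hk⟩ := IsPGroup.iff_orderOf.1 hD ⟨d, hd⟩
      rw [← orderOf_coe] at hk
      have hqp : p ≠ orderOf y := fun e => by
        have := hcA.coprime_dvd_left (A.orderOf_dvd_natCard (zpowers_le.2 ha hy))
        rw [← e, Nat.coprime_self] at this
        exact hpp.ne_one this
      have hcm : Commute d y := by
        obtain ⟨i, rfl⟩ := hy
        exact (show Commute d a from e.symm).zpow_right i
      obtain ⟨c, hc⟩ := isConj_iff.1 (key d y hd1 (n1 y hq) p _ k 1 hpp hq hqp hk (by simp) y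
        (by simpa using (inferInstance : (commutator G).Normal).conj_mem' _ (inv_mem hd) y))
      have h2 : orderOf (d * y) = orderOf y := by
        exact ((MulAut.conj c).orderOf_eq (d * y)).symm.trans (congrArg orderOf hc)
      have h3 := pow_orderOf_eq_one (d * y)
      rw [h2, hcm.mul_pow, pow_orderOf_eq_one, mul_one] at h3
      exact hd1 (eq_one_of_cop (((Nat.coprime_primes hpp hq).2 hqp).pow_left k)
        (hk ▸ pow_orderOf_eq_one d) h3)
    obtain ⟨a, haA, ha1⟩ := (A.bot_or_exists_ne_one).resolve_left hA0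
    have hC : ∀ c ∈ centralizer (A : Set G), c ∈ commutator G → c = 1 := fun c hc h =>
      fpf a haA ha1 c h (hc a haA)
    have hcop := H2.coprime_card_of_isPGroup hcA P.isPGroup'
    have hsol : Group.IsSolvable A ∨ Group.IsSolvable (P : Subgroup G) :=
      Or.inl (H2.isSolvable_of_isMulCommutative hAc)
    have hle : ⁅A, (P : Subgroup G)⁆ ≤ commutator G := commutator_mono le_top le_top
    have hDe : ⁅A, (P : Subgroup G)⁆ = commutator G := le_antisymm hle fun g hg => by
      obtain ⟨n, hn, c, hc, e⟩ := H2.exists_commutator_mul_centralizer le_normalizer_of_normal hcop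
        hsol (hP hg)
      rw [commutator_comm] at hn
      have := hC c hc.2 (by
        rw [show c = n⁻¹ * g by rw [e]; group]; exact mul_mem (inv_mem (hle hn)) hg)
      rw [e, this, mul_one]; exact hn
    refine ⟨p, inferInstance, P, A, hPn, ?_, hA0, hcA, by rw [sup_comm, hA.sup_eq_top],
      ⟨⟨fun a b => Subtype.ext (commutatorElement_eq_one_iff_mul_comm.1 (hC _ (mul_mem (mul_mem
        (mul_mem a.2.2 b.2.2) (inv_mem a.2.2)) (inv_mem b.2.2)) (cmem _ _)))⟩⟩, hDe ▸ inferInstance,
      by rw [sup_comm, commutator_comm]; exact H2.commutator_sup_centralizer le_normalizer_of_normal hcop hsol,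
      (eq_bot_iff_forall _).2 fun c hc => hC c hc.1.2 (hle hc.2),
      fun a ha h1 d hd => fpf a ha h1 d (hle hd)⟩
    by_contra hnc
    obtain ⟨b, hb, hb1, hb2⟩ := H2.exists_inf_centralizer_ne_bot hAc hnc le_normalizer_of_normal
      (H2.coprime_card_of_isPGroup hcA hD) hne
    exact hb2 (H2.inf_centralizer_singleton_eq_bot_iff.2 fun k hk e => fpf b hb hb1 k hk e.symm)
  · rintro (⟨r, hr, hG⟩ | hc | ⟨r, _, P, A, hPn, hAc, -, hcA, htop, hCc, hDn, hCD, -, fpf⟩) x y χ hx hy
      ⟨p, q, a, b, hp, hq, hpq, ox, oy⟩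
    · haveI : Fact r.Prime := ⟨hr⟩
      have k : ∀ (z : G) (s c : ℕ), z ≠ 1 → s.Prime → orderOf z = s ^ c → s = r := fun z s c hz hs o => by
        obtain ⟨k, hk⟩ := IsPGroup.iff_orderOf.1 hG z
        by_contra hne
        exact hz (eq_one_of_cop (((Nat.coprime_primes hs hr).2 hne).pow c k)
          (o ▸ pow_orderOf_eq_one z) (hk ▸ pow_orderOf_eq_one z))
      exact absurd ((k x p a hx hp ox).trans (k y q b hy hq oy).symm) hpq
    · exact char_mul_of_one_eq_one (irr_isCharacter χ.2) (irr_one_eq_one_of_comm hc.is_comm.comm χ.2) _ _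
    by_cases h1 : χ.1 1 = 1
    · exact char_mul_of_one_eq_one (irr_isCharacter χ.2) h1 _ _
    have hr : r.Prime := Fact.out
    obtain ⟨D, hD⟩ : ∃ D, D = ⁅A, (P : Subgroup G)⁆ := ⟨_, rfl⟩
    rw [← hD] at hDn hCD fpf
    have hGD : commutator G ≤ D := commutator_le.2 fun u _ v _ => by
      have := comm_of_mem_sup (A := A.map (QuotientGroup.mk' D))
        (B := ((P : Subgroup G) ⊓ centralizer (A : Set G)).map (QuotientGroup.mk' D))
        (by rintro _ ⟨a, ha, rfl⟩ _ ⟨b, hb, rfl⟩
            rw [← map_mul, ← map_mul]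
            exact congrArg _ (congrArg Subtype.val
              (hAc.isMulCommutative.is_comm.comm (⟨a, ha⟩ : A) ⟨b, hb⟩)))
        (by rintro _ ⟨a, ha, rfl⟩ _ ⟨b, hb, rfl⟩
            rw [← map_mul, ← map_mul]
            exact congrArg _ (congrArg Subtype.val (hCc.is_comm.comm ⟨a, ha⟩ ⟨b, hb⟩)))
        (by rintro _ ⟨a, ha, rfl⟩ _ ⟨b, hb, rfl⟩
            rw [← map_mul, ← map_mul, hb.2 a ha])
      rw [← sup_bot_eq (_ ⊔ _), ← (Subgroup.map_eq_bot_iff D).2 (QuotientGroup.ker_mk' _).ge,
        ← Subgroup.map_sup, ← Subgroup.map_sup, sup_assoc, hCD, htop] at this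
      exact (QuotientGroup.eq_one_iff _).1 (commutatorElement_eq_one_iff_mul_comm.2
        (this _ ⟨u, trivial, rfl⟩ _ ⟨v, trivial, rfl⟩))
    obtain ⟨k, hk⟩ := IsPGroup.iff_card.1 P.isPGroup'
    have van : ∀ g, g ∉ (P : Subgroup G) → χ.1 g = 0 := fun g hg => by
      refine eq_zero_of_const_on_coset χ.2 D (fun h => h1 ((deg_eq_one_iff (irr_isCharacter χ.2)).1
        (deg_eq_one_of_commutator_le χ.2 (hGD.trans h)))) fun n hn => ?_
      have h2 : g ^ r ^ k ≠ 1 := fun e => hg (by
        have : IsPGroup r (zpowers g) := IsPGroup.of_card_dvd_pow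
          (by rw [Nat.card_zpowers]; exact orderOf_dvd_of_pow_eq_one e)
        obtain ⟨Q, hQ⟩ := this.exists_le_sylow
        haveI := Sylow.unique_of_normal P hPn
        exact Subsingleton.elim Q P ▸ hQ (mem_zpowers g))
      have h3 : (Nat.card (P : Subgroup G)).Coprime (Nat.card (zpowers (g ^ r ^ k))) := by
        rw [Nat.card_zpowers, ← hk]
        refine P.card_coprime_index.coprime_dvd_right (orderOf_dvd_of_pow_eq_one ?_)
        rw [← pow_mul, card_mul_index, pow_card_eq_one']
      obtain ⟨e, -, he⟩ := H3.exists_conj_le_of_coprime (N := P) (K := A) le_normalizer_of_normal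
        (by rw [sup_comm, htop]; exact le_top) h3 (H2.coprime_card_of_isPGroup hcA P.isPGroup').symm
        (Or.inr (H2.isSolvable_zpowers _))
      obtain ⟨w, -, hw⟩ := H2.exists_conj_eq_mul_of_fpf (K := D) (r := g) (le_normalizer_of_normal (mem_top g) )
        (H2.inf_centralizer_singleton_eq_bot_iff.2 fun d hd hc => by
          have := fpf _ (he (H3.conj_mem_conj_smul e (mem_zpowers _))) (by simpa using h2) _
            (hDn.conj_mem d hd e) (by
              have := ((show Commute d g from hc).pow_right (r ^ k)).eq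
              calc e * g ^ r ^ k * e⁻¹ * (e * d * e⁻¹) = e * (g ^ r ^ k * d) * e⁻¹ := by group
                _ = _ := by rw [← this]; group)
          simpa using this) (hDn.conj_mem n hn g)
      rw [← irr_conj_apply χ.2 w g, hw]; congr 1; group
    have nP : ∀ (z : G) (s c : ℕ), z ≠ 1 → s.Prime → s ≠ r → orderOf z = s ^ c →
        z ∉ (P : Subgroup G) := fun z s c hz hs hne o h => hz (eq_one_of_cop
      (((Nat.coprime_primes hs hr).2 hne).pow c k) (o ▸ pow_orderOf_eq_one z)
      (orderOf_dvd_iff_pow_eq_one.1 (hk ▸ (P : Subgroup G).orderOf_dvd_natCard h)))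
    have hxy : x * y ∈ (P : Subgroup G) → x ∈ (P : Subgroup G) ∧ y ∈ (P : Subgroup G) := fun h => by
      have e : (x : G ⧸ (P : Subgroup G)) * y = 1 := (QuotientGroup.eq_one_iff (x * y)).2 h
      have hy' : (y : G ⧸ (P : Subgroup G)) = 1 := eq_one_of_cop
        (((Nat.coprime_primes hp hq).2 hpq).pow a b)
        (by rw [eq_inv_of_mul_eq_one_right e, inv_pow, ← QuotientGroup.mk_pow, ← ox,
          pow_orderOf_eq_one]; simp)
        (by rw [← QuotientGroup.mk_pow, ← oy, pow_orderOf_eq_one]; simp)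
      rw [hy', mul_one] at e
      exact ⟨(QuotientGroup.eq_one_iff x).1 e, (QuotientGroup.eq_one_iff y).1 hy'⟩
    by_cases e : p = r
    · have := nP y q b hy hq (fun e' => hpq (e.trans e'.symm)) oy
      rw [van _ fun h => this (hxy h).2, van y this, mul_zero]
    · have := nP x p a hx hp e ox
      rw [van _ fun h => this (hxy h).1, van x this, zero_mul]

end Cfsg.Agent.S4756
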