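import Mathlib
import Cfsg.Statements.S4757
import Cfsg.Agent.Lib.Deg.Anti
import Cfsg.Agent.Lib.Core.PCore

set_option autoImplicit false
open Cfsg

namespace Cfsg.Agent.S4757

open H87 H6

/-- Let u ≠ 1 be an element of the finite group G and c a complex number such that every non-principal irreducible character χ satisfies χ(1) − χ(u) = c or χ(u) = 0. Then the following are equivalent: (a) u has order 2, G is generated by u together with O(G), the largest normal subgroup of G of odd order, and the centralizer of u is {1, u}; (b) G is not perfect; (c) c = 2. -/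
theorem result {G : Type*} [Group G] [Finite G] (u : G) (hu : u ≠ 1) (c : ℂ) (hyp : ∀ χ : Cfsg.IrrCharacter G, (χ : G → ℂ) ≠ (fun _ => (1 : ℂ)) → ((χ : G → ℂ) 1 - (χ : G → ℂ) u = c ∨ (χ : G → ℂ) u = 0)) : ((orderOf u = 2 ∧ Subgroup.zpowers u ⊔ Cfsg.oddCore G = ⊤ ∧ Subgroup.centralizer ({u} : Set G) = Subgroup.zpowers u) ↔ commutator G ≠ ⊤) ∧ (commutator G ≠ ⊤ ↔ c = 2) := by
  have hyp' : ∀ χ, IsIrrCharacter G χ → χ ≠ (fun _ => 1) → χ 1 - χ u = c ∨ χ u = 0 :=
    fun χ hχ => hyp ⟨χ, hχ⟩
  have hc : c ≠ 0 := fun hc => hu (eq_one_of_re_nonneg fun χ hχ => by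
    by_cases h : χ = fun _ => 1
    · simp [h]
    rcases hyp' χ hχ h with e | e
    · rw [← sub_eq_zero.1 (e.trans hc), ← irr_deg_cast hχ]; simp
    · simp [e])
  have h1 : ∀ l : G →* ℂˣ, l ≠ 1 → (l u : ℂ) = 1 - c := fun l hl => by
    rcases hyp' _ (isIrrCharacter_hom l) fun e => hl (hom_coe_injective e) with e | e
    · rw [← e]; simp
    · exact absurd e (Units.ne_zero _)
  have h2 : ∀ l m : G →* ℂˣ, l ≠ 1 → m ≠ 1 → l * m = 1 := fun l m hl hm => not_not.1 fun h => by
    have := h1 _ h
    rw [MonoidHom.mul_apply, Units.val_mul, h1 m hm] at this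
    have := mul_right_cancel₀ (h1 m hm ▸ Units.ne_zero _) (this.trans (one_mul _).symm)
    exact hc (by linear_combination this - h1 l hl + 2 * (h1 l hl - this))
  have key : commutator G ≠ ⊤ → c = 2 ∧ orderOf u = 2 ∧ Subgroup.zpowers u ⊔ oddCore G = ⊤ ∧
      Subgroup.centralizer ({u} : Set G) = Subgroup.zpowers u := fun h => by
    obtain ⟨g, hg⟩ : ∃ g, g ∉ commutator G := not_forall.1 (mt (Subgroup.eq_top_iff' _).2 h)
    obtain ⟨l, -, hl⟩ := exists_hom_trivial_ne_one _ le_rfl hg
    have hl1 : l ≠ 1 := fun e => hl (e ▸ rfl)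
    have h3 : c = 2 := by
      have := congrArg (fun f : G →* ℂˣ => (f u : ℂ)) (h2 l l hl1 hl1)
      simp only [MonoidHom.mul_apply, Units.val_mul, h1 l hl1, MonoidHom.one_apply,
        Units.val_one] at this
      exact sub_eq_zero.1 ((mul_eq_zero.1 (by linear_combination this : c * (c - 2) = 0)).resolve_left hc)
    have h4 : (commutator G).index = 2 := by
      rw [← card_hom_eq_index_commutator, Nat.card_eq_two_iff' 1]
      exact ⟨l, hl1, fun m hm => mul_right_cancel ((h2 m l hm hl1).trans (h2 l l hl1 hl1).symm)⟩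
    have h5 := (card_centralizer_of_anticentral (g := u) fun χ hχ h5 => by
      refine (hyp' χ hχ fun e => h5 (e ▸ rfl)).elim (fun e => ?_) id
      rcases hyp' _ (isIrrCharacter_mul_hom hχ l) fun e => h5 (by simpa using congrFun e 1)
        with e' | e'
      · simp only [map_one, Units.val_one, h1 l hl1, h3] at e e'
        linear_combination (e' - e) / 2
      · exact (mul_eq_zero.1 e').resolve_right (Units.ne_zero _)).trans h4
    have h6 : Subgroup.zpowers u ≤ Subgroup.centralizer {u} :=
      Subgroup.zpowers_le.2 (Subgroup.mem_centralizer_singleton_iff.2 rfl)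
    have h7 : orderOf u = 2 := ((Nat.dvd_prime Nat.prime_two).1 (h5 ▸ Nat.card_zpowers u ▸
      Subgroup.card_dvd_of_le h6)).resolve_left (mt orderOf_eq_one_iff.1 hu)
    have h8 := (Subgroup.eq_of_le_of_card_ge h6 (by rw [h5, Nat.card_zpowers, h7])).symm
    have h9 : u ∉ commutator G := fun h => hc (by
      have := h1 l hl1
      rw [H31.hom_eq_one_of_mem_commutator l h, Units.val_one] at this
      linear_combination this)
    refine ⟨h3, h7, top_le_iff.1 (le_trans (Subgroup.index_eq_one.1 ?_).ge (sup_le_sup_left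
      (H1.le_oddCore (odd_card_of_fpf_invol (K := commutator G) (u := u)
        (by rw [← pow_two, ← h7, pow_orderOf_eq_one]) fun k hk e => ?_)) _)), h8⟩
    · have := index_lt_index_of_lt (right_lt_sup.2 (mt Subgroup.zpowers_le.1 h9))
      have : (Subgroup.zpowers u ⊔ commutator G).index ≠ 0 := Subgroup.index_ne_zero_of_finite
      omega
    · classical
      have := mem_zpowers_iff_mem_range_orderOf.1
        (h8.le (Subgroup.mem_centralizer_singleton_iff.2 e.symm))
      simp only [h7, Finset.mem_image, Finset.mem_range] at this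
      obtain ⟨i, hi, rfl⟩ := this
      obtain rfl | rfl : i = 0 ∨ i = 1 := by omega
      exacts [pow_zero u, absurd (pow_one u ▸ hk) h9]
  refine ⟨⟨fun ⟨h3, h4, _⟩ e => ?_, fun h => (key h).2⟩, fun h => (key h).1, fun h e => hu ?_⟩
  · have h5 : commutator G ≤ oddCore G := Subgroup.commutator_le.2 fun a _ b _ => by
      have := comm_of_mem_sup (A := (Subgroup.zpowers u).map (QuotientGroup.mk' (oddCore G)))
        (B := ⊥) (by rw [MonoidHom.map_zpowers]; exact comm_of_mem_zpowers _) (by simp) (by simp)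
      rw [← (Subgroup.map_eq_bot_iff (oddCore G)).2 (QuotientGroup.ker_mk' _).ge, ← Subgroup.map_sup,
        h4] at this
      exact (QuotientGroup.eq_one_iff _).1 (commutatorElement_eq_one_iff_mul_comm.2
        (this _ ⟨a, trivial, rfl⟩ _ ⟨b, trivial, rfl⟩))
    have := (H1.coprime_orderOf_of_mem_pPrimeCore (h5 (e ▸ Subgroup.mem_top u)))
    rw [h3] at this
    simp at this
  · refine eq_one_of_re_nonneg fun χ hχ => ?_
    by_cases h3 : χ = fun _ => 1
    · simp [h3]
    rcases hyp' χ hχ h3 with e' | e'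
    · have h4 : charDegree χ ≠ 1 := fun h4 => h3 ((charKer_eq_top_iff hχ).1 (top_le_iff.1
        (e.ge.trans (commutator_le_charKer_of_deg_one (irr_isCharacter hχ) h4))))
      have h5 : (2 : ℝ) ≤ charDegree χ := by
        have := deg_pos hχ
        exact_mod_cast (by omega : 2 ≤ charDegree χ)
      rw [show χ u = charDegree χ - 2 by rw [irr_deg_cast hχ, ← h, ← e']; ring]
      simpa using h5
    · simp [e']

end Cfsg.Agent.S4757
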