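import Mathlib
import Cfsg.Statements.S4762
import Cfsg.Agent.Lib.Deg.UniqueP

set_option autoImplicit false
open Cfsg

namespace Cfsg.Agent.S4762

open H6 H87
open scoped commutatorElement

theorem sum_nonlinear {G : Type*} [Group G] [Finite G] {p : ℕ} [Fact p.Prime] (hG : IsPGroup p G) :
    ∑ χ ∈ Finset.univ.filter (fun χ : IrrCharacter G => p ∣ charDegree (χ : G → ℂ)),
      charDegree (χ : G → ℂ) ^ 2 + (commutator G).index = Nat.card G := by
  classical
  rw [← sum_deg_sq_not_ker (commutator G)]
  congr 2
  ext χ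
  simp only [Finset.mem_filter, Finset.mem_univ, true_and, ← deg_eq_one_iff_commutator_le χ.2]
  obtain ⟨k, hk⟩ := deg_pow_of_isPGroup hG χ.2
  rw [hk]
  rcases k with - | k
  · simpa using (Fact.out : p.Prime).ne_one
  · simp [dvd_pow_self, (Fact.out : p.Prime).ne_one]

theorem comm_sq {G : Type*} [Group G] (h : commutator G ≤ Subgroup.center G) (x y : G) :
    ⁅x ^ 2, y⁆ = ⁅x, y⁆ ^ 2 := by
  have h1 := Subgroup.mem_center_iff.1
    (h (Subgroup.commutator_mem_commutator (Subgroup.mem_top x) (Subgroup.mem_top y))) x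
  calc _ = x * ⁅x, y⁆ * x⁻¹ * ⁅x, y⁆ := by simp only [commutatorElement_def, pow_two]; group
    _ = _ := by rw [h1, pow_two, mul_inv_cancel_right]

/-- Let p be a prime and G a finite nilpotent group. Then G has exactly one irreducible complex character of degree divisible by p if and only if p = 2 and G is an extraspecial 2-group. -/
theorem result {G : Type*} [Group G] [Finite G] [Group.IsNilpotent G] (p : ℕ) [Fact p.Prime] : Nat.card {χ : Cfsg.IrrCharacter G // p ∣ Cfsg.charDegree (χ : G → ℂ)} = 1 ↔ (p = 2 ∧ Cfsg.IsExtraspecial 2 G) := by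
  classical
  have hp : p.Prime := Fact.out
  constructor
  · intro hone
    obtain ⟨χ, hχ, hu⟩ := unique_of_card_eq_one hone
    obtain ⟨P⟩ : Nonempty (Sylow p G) := inferInstance
    have hsup := H1.pCore_sup_pPrimeCore_eq_top (G := G) p
    have hinf := H1.pCore_inf_pPrimeCore (G := G) (p := p)
    have hG : IsPGroup p G := by
      by_cases hne : pPrimeCore p G = ⊥
      · rw [hne, sup_bot_eq] at hsup
        exact (hsup ▸ H1.isPGroup_pCore : IsPGroup p (⊤ : Subgroup G)).of_equiv Subgroup.topEquiv
      obtain ⟨k, hk⟩ := (H1.isPGroup_pCore (G := G) (p := p)).exists_card_eq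
      have h1 := H1.card_sup_mul_card_inf_of_normal (pCore p G) (pPrimeCore p G)
      rw [hsup, hinf, Subgroup.card_top, Subgroup.card_bot, mul_one, hk,
        ← (pPrimeCore p G).index_mul_card] at h1
      have hc := commutator_le_of_unique hp _ H1.coprime_card_pPrimeCore
        (Nat.eq_of_mul_eq_mul_right Nat.card_pos h1) hne fun a b ha hb h1 h2 =>
          congrArg Subtype.val ((hu ⟨a, ha⟩ h1).trans (hu ⟨b, hb⟩ h2).symm)
      have h2 : pCore p G ≤ Subgroup.center G := by
        rw [← Subgroup.commutator_top_right_eq_bot_iff_le_center, ← le_bot_iff, ← hinf]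
        exact le_inf (Subgroup.commutator_le_left _ _)
          ((Subgroup.commutator_mono le_top le_rfl).trans hc)
      rw [H1.pCore_eq_sylow_of_isNilpotent P] at h2
      exact absurd ((hχ.trans (deg_dvd_index_center χ.2)).trans (Subgroup.index_dvd_of_le h2))
        P.not_dvd_index
    have h1 := sum_nonlinear hG
    rw [Finset.sum_eq_single χ (fun ψ h1 h2 => absurd (hu ψ (Finset.mem_filter.1 h1).2) h2)
      (fun h => absurd (by simpa using hχ) h),
      ← (commutator G).card_mul_index] at h1
    obtain ⟨k, hk⟩ := deg_pow_of_isPGroup hG χ.2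
    obtain ⟨j, hj⟩ := (hG.to_subgroup (commutator G)).exists_card_eq
    have hpos := deg_pos χ.2
    have hipos : 0 < (commutator G).index := Nat.pos_of_ne_zero Subgroup.index_ne_zero_of_finite
    obtain ⟨c, hc⟩ : ∃ c, Nat.card (commutator G) = c + 1 :=
      Nat.exists_eq_add_one_of_ne_zero Nat.card_pos.ne'
    have h2 : charDegree (χ : G → ℂ) ^ 2 = c * (commutator G).index := by
      rw [hc] at h1; linarith
    have hc0 : c ≠ 0 := by rintro rfl; simp at h2; omega
    have hj0 : j ≠ 0 := by rintro rfl; rw [pow_zero] at hj; omega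
    have hc1 : c = 1 := by
      have h3 : c ∣ p ^ (k * 2) := by rw [pow_mul, ← hk, h2]; exact dvd_mul_right _ _
      refine Nat.eq_one_of_dvd_coprimes (k := c) ?_ dvd_rfl h3
      refine Nat.Coprime.pow_right _ ((Nat.coprime_pow_right_iff (Nat.pos_of_ne_zero hj0) _ _).1 ?_)
      rw [← hj, hc]; simp
    subst hc1
    have hp2 : p = 2 := by
      have : p ∣ 2 := by rw [show 2 = p ^ j by omega]; exact dvd_pow_self p hj0
      exact (Nat.prime_dvd_prime_iff_eq hp Nat.prime_two).1 this
    subst hp2
    have hle : commutator G ≤ Subgroup.center G := fun x hx => Subgroup.mem_center_iff.2 fun g => by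
      by_cases h1 : x = 1
      · simp [h1]
      obtain ⟨y, -, hy⟩ := (Nat.card_eq_two_iff' (1 : commutator G)).1 hc
      have h3 := hy ⟨x, hx⟩ (by simpa using h1)
      have h4 := hy ⟨g * x * g⁻¹, (inferInstance : (commutator G).Normal).conj_mem x hx g⟩
        (by simpa using h1)
      exact mul_inv_eq_iff_eq_mul.1 (congrArg Subtype.val (h4.trans h3.symm))
    have h3 := deg_sq_le_index χ.2 (Z := Subgroup.center G) fun z hz => norm_eq_of_mem_center χ.2 hz
    have heq : commutator G = Subgroup.center G := by
      by_contra h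
      have := index_lt_index_of_lt (lt_of_le_of_ne hle h)
      omega
    refine ⟨rfl, ⟨hG, le_antisymm ((H1.frattini_le_iff_of_isPGroup hG).2 ⟨hle, fun x => ?_⟩)
      (heq ▸ H1.commutator_le_frattini hG), heq⟩, heq ▸ hc⟩
    refine Subgroup.mem_center_iff.2 fun y => (commutatorElement_eq_one_iff_mul_comm.1 ?_).symm
    rw [comm_sq hle]
    have := pow_card_eq_one' (x := (⟨_, Subgroup.commutator_mem_commutator (Subgroup.mem_top x)
      (Subgroup.mem_top y)⟩ : commutator G))
    rw [hc] at this
    exact congrArg Subtype.val this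
  · rintro ⟨rfl, ⟨hG, -, heq⟩, hc⟩
    have h1 := sum_nonlinear hG
    have h2 : ∀ χ ∈ Finset.univ.filter (fun χ : IrrCharacter G => 2 ∣ charDegree (χ : G → ℂ)),
        charDegree (χ : G → ℂ) ^ 2 = (Subgroup.center G).index := fun χ hχ => by
      refine deg_sq_eq_index χ.2 (fun z hz => norm_eq_of_mem_center χ.2 hz) fun g hg => ?_
      have h3 : ¬ commutator G ≤ charKer (χ : G → ℂ) := fun h => by
        have := (Finset.mem_filter.1 hχ).2
        rw [deg_eq_one_of_commutator_le χ.2 h] at this
        omega
      refine eq_zero_of_const_on_coset χ.2 _ h3 fun n hn => ?_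
      by_cases h1 : n = 1
      · simp [h1]
      rw [Subgroup.mem_center_iff, not_forall] at hg
      obtain ⟨x, hx⟩ := hg
      obtain ⟨y, -, hy⟩ := (Nat.card_eq_two_iff' (1 : commutator G)).1 (heq ▸ hc)
      have h4 := hy ⟨n, hn⟩ (by simpa using h1)
      have h5 := hy ⟨_, Subgroup.commutator_mem_commutator (Subgroup.mem_top g⁻¹)
        (Subgroup.mem_top x)⟩ (fun h => hx (by
          have := commutatorElement_eq_one_iff_commute.1 (congrArg Subtype.val h)
          exact (Commute.inv_left_iff.1 this).eq.symm))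
      have h6 : n = ⁅g⁻¹, x⁆ := congrArg Subtype.val (h4.trans h5.symm)
      rw [h6, ← irr_isClassFunction χ.2 g x]
      congr 1
      simp only [commutatorElement_def]; group
    rw [Finset.sum_congr rfl h2, Finset.sum_const, smul_eq_mul, heq,
      ← (Subgroup.center G).card_mul_index, hc] at h1
    have hipos : 0 < (Subgroup.center G).index :=
      Nat.pos_of_ne_zero Subgroup.index_ne_zero_of_finite
    rw [Nat.card_eq_fintype_card, Fintype.card_subtype]
    exact Nat.eq_of_mul_eq_mul_right hipos (by linarith)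

end Cfsg.Agent.S4762
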