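import Mathlib
import Cfsg.Statements.S4763
import Cfsg.Agent.Lib.Deg.UniqueP
import Cfsg.Agent.S4452

set_option autoImplicit false
open Cfsg

namespace Cfsg.Agent.S4763

open H6 H87

/-- Let p be a prime and G a finite group that is not nilpotent and has a normal p-complement (a normal subgroup of order prime to p and index a power of p). If G has exactly one irreducible complex character of degree divisible by p, then G has exactly one conjugacy class whose size is divisible by p. -/
theorem result {G : Type*} [Group G] [Finite G] (p : ℕ) [Fact p.Prime] (hnil : ¬ Group.IsNilpotent G) (N : Subgroup G) [N.Normal] (hN : (Nat.card N).Coprime p) (hidx : ∃ k : ℕ, N.index = p ^ k) (hone : Nat.card {χ : Cfsg.IrrCharacter G // p ∣ Cfsg.charDegree (χ : G → ℂ)} = 1) : Nat.card {C : ConjClasses G // p ∣ Nat.card C.carrier} = 1 := by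
  have hp : p.Prime := Fact.out
  obtain ⟨k, hk⟩ := hidx
  obtain ⟨χ, hχ, hu⟩ := unique_of_card_eq_one hone
  obtain ⟨P⟩ : Nonempty (Sylow p G) := inferInstance
  have hne : N ≠ ⊥ := by
    rintro rfl
    exact hnil (IsPGroup.of_card (p := p) (n := k) (by simpa using hk)).isNilpotent
  have hc := commutator_le_of_unique hp N hN hk hne fun a b ha hb h1 h2 =>
    congrArg Subtype.val ((hu ⟨a, ha⟩ h1).trans (hu ⟨b, hb⟩ h2).symm)
  obtain ⟨m, hm⟩ := P.isPGroup'.exists_card_eq
  have hm0 : m ≠ 0 := by
    rintro rfl
    refine P.not_dvd_index ?_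
    have := hχ.trans (deg_dvd_card χ.2)
    rwa [← (P : Subgroup G).card_mul_index, hm, pow_zero, one_mul] at this
  have hcop : (Nat.card N).Coprime (Nat.card P) := hm ▸ hN.pow_right m
  have hNC : Subgroup.normalizer ((P : Subgroup G) : Set G) ≤
      Subgroup.centralizer ((P : Subgroup G) : Set G) := fun n hn x hx => by
    have h1 : n * x * n⁻¹ * x⁻¹ ∈ N ⊓ (P : Subgroup G) :=
      ⟨hc (Subgroup.commutator_mem_commutator (Subgroup.mem_top n) (Subgroup.mem_top x)),
        (P : Subgroup G).mul_mem ((Subgroup.mem_normalizer_iff.1 hn x).1 hx)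
          ((P : Subgroup G).inv_mem hx)⟩
    rw [Subgroup.inf_eq_bot_of_coprime hcop, Subgroup.mem_bot, mul_inv_eq_one,
      mul_inv_eq_iff_eq_mul] at h1
    exact h1.symm
  have htop : N ⊔ (P : Subgroup G) = ⊤ := by
    rw [← Subgroup.index_eq_one]
    exact Nat.eq_one_of_dvd_coprimes (H80.coprime_index_sylow_of_pow P hk)
      (Subgroup.index_dvd_of_le le_sup_right) (Subgroup.index_dvd_of_le le_sup_left)
  have h1 := S4452.result N P htop hcop (H1.isSolvable_of_isPGroup P.isPGroup')
  have hiff : ∀ n : ℕ, n.Coprime (Nat.card P) ↔ ¬ p ∣ n := fun n => by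
    rw [hm, Nat.coprime_pow_right_iff (Nat.pos_of_ne_zero hm0), Nat.coprime_comm,
      hp.coprime_iff_not_dvd]
  simp only [hiff] at h1
  have h2 : ∀ η : IrrCharacter (Subgroup.normalizer ((P : Subgroup G) : Set G)),
      ¬ p ∣ charDegree η.1 := fun η hd => by
    have h3 : (P : Subgroup G).subgroupOf (Subgroup.normalizer ((P : Subgroup G) : Set G)) ≤
        Subgroup.center _ := fun x hx => Subgroup.mem_center_iff.2 fun n =>
      Subtype.ext (hNC n.2 x hx).symm
    exact P.not_dvd_index (((hd.trans (deg_dvd_index_center η.2)).trans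
      (Subgroup.index_dvd_of_le h3)).trans (Subgroup.relIndex_dvd_index_of_le Subgroup.le_normalizer))
  rw [Nat.card_congr (Equiv.subtypeUnivEquiv h2), card_irr_eq_card_conjClasses,
    ← card_classes_not_dvd P hNC] at h1
  have h3 := card_add_card_not fun χ : IrrCharacter G => p ∣ charDegree (χ : G → ℂ)
  have h4 := card_add_card_not fun C : ConjClasses G => p ∣ Nat.card C.carrier
  rw [card_irr_eq_card_conjClasses] at h3
  omega

end Cfsg.Agent.S4763
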