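import Cfsg.Statements.S4765
import Mathlib
import Cfsg.Agent.Lib.GL2Char.SLMore

set_option autoImplicit false
open Cfsg

namespace Cfsg.Agent.S4765

open H62.GL2 in

/-- Let F be a finite field of characteristic p with at least 4 elements. Then PSL(2,F) has exactly one irreducible complex character of degree divisible by p, and its degree is the order of F. -/
theorem result (p : ℕ) [Fact p.Prime] (F : Type*) [Field F] [Fintype F] [CharP F p] (hF : 4 ≤ Fintype.card F) : Nat.card {χ : Cfsg.IrrCharacter (Matrix.ProjectiveSpecialLinearGroup (Fin 2) F) // p ∣ Cfsg.charDegree (χ : Matrix.ProjectiveSpecialLinearGroup (Fin 2) F → ℂ)} = 1 ∧ ∀ χ : Cfsg.IrrCharacter (Matrix.ProjectiveSpecialLinearGroup (Fin 2) F), p ∣ Cfsg.charDegree (χ : Matrix.ProjectiveSpecialLinearGroup (Fin 2) F → ℂ) → Cfsg.charDegree (χ : Matrix.ProjectiveSpecialLinearGroup (Fin 2) F → ℂ) = Fintype.card F := by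
  classical
  obtain ⟨k, hp, hk⟩ := FiniteField.card F p
  have hpq : p ∣ Fintype.card F := by rw [hk]; exact dvd_pow_self p k.ne_zero
  have key : ∀ χ : Cfsg.IrrCharacter (Matrix.ProjectiveSpecialLinearGroup (Fin 2) F),
      p ∣ Cfsg.charDegree (χ : Matrix.ProjectiveSpecialLinearGroup (Fin 2) F → ℂ) →
      Cfsg.charDegree (χ : Matrix.ProjectiveSpecialLinearGroup (Fin 2) F → ℂ) = Fintype.card F := by
    intro χ h
    have h1 : ¬ p ∣ Fintype.card F + 1 := fun h2 =>
      hp.one_lt.ne' (Nat.dvd_one.1 ((Nat.dvd_add_right hpq).1 h2))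
    have h2 : ¬ p ∣ Fintype.card F - 1 := fun h2 =>
      hp.one_lt.ne' (Nat.dvd_one.1 ((Nat.dvd_add_right h2).1
        (by rwa [Nat.sub_add_cancel (by omega)])))
    rcases charDegrees_SL_cases (charDegrees_PSL_subset ⟨χ, rfl⟩) with
      h3 | h3 | h3 | h3 | ⟨⟨m, hm⟩, h3 | h3⟩
    · exact absurd (Nat.dvd_one.1 (h3 ▸ h)) hp.one_lt.ne'
    · exact h3
    · exact absurd (h3 ▸ h) h1
    · exact absurd (h3 ▸ h) h2
    · exact absurd (h.trans (Dvd.intro 2 (by omega))) h1
    · exact absurd (h.trans (Dvd.intro 2 (by omega))) h2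
  refine ⟨?_, key⟩
  have hinf : ∀ χ : Cfsg.IrrCharacter (Matrix.ProjectiveSpecialLinearGroup (Fin 2) F),
      p ∣ Cfsg.charDegree (χ : Matrix.ProjectiveSpecialLinearGroup (Fin 2) F → ℂ) →
      (fun x => χ.1 (QuotientGroup.mk' (Subgroup.center _) x)) = stS F := by
    intro χ h
    refine irr_of_deg_q (H6.isIrrCharacter_comp_surjective _ (QuotientGroup.mk'_surjective _) χ.2) ?_
    rw [map_one, ← key χ h]
    exact cast_charDegree χ.2
  rw [Nat.card_eq_one_iff_unique]
  constructor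
  · refine ⟨fun χ ψ => Subtype.ext (Subtype.ext (funext fun x => ?_))⟩
    obtain ⟨y, rfl⟩ := QuotientGroup.mk'_surjective _ x
    exact (congrFun (hinf χ.1 χ.2) y).trans (congrFun (hinf ψ.1 ψ.2) y).symm
  · obtain ⟨χ, hχ⟩ := q_mem_charDegrees_PSL (F := F)
    exact ⟨⟨χ, hχ ▸ hpq⟩⟩

end Cfsg.Agent.S4765
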