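import Mathlib
import Cfsg.Statements.S4768
import Cfsg.Agent.Lib.Block.FongInd
import Cfsg.Agent.Lib.Deg.Ito

set_option autoImplicit false
open Cfsg

namespace Cfsg.Agent.S4768

universe u
open scoped commutatorElement

theorem ext_of_not_dvd {G : Type*} [Group G] [Finite G] {p : ℕ} [hp : Fact p.Prime]
    {N : Subgroup G} [hN : N.Normal] (hNp : IsPGroup p N) {l : N → ℂ} (hl : IsIrrCharacter N l)
    (h1 : l 1 = 1) (hinv : H7.inertia l = ⊤) {ψ : G → ℂ} (hψ : IsIrrCharacter G ψ)
    (ho : H87.Over N ψ l) (hd : ¬ p ∣ charDegree ψ) :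
    ∃ χ : G → ℂ, IsIrrCharacter G χ ∧ ∀ n : N, χ n = l n := by
  obtain ⟨e, -, he, hres⟩ := ho.res_eq_of_invariant hψ hl hinv
  rw [H87.deg_of_eq (χ := l) (n := 1) (by simpa using h1), mul_one] at he
  obtain ⟨k, hk⟩ := IsPGroup.iff_card.1 hNp
  have hcop : Nat.Coprime e (Nat.card N) := by
    rw [hk, ← he]
    exact Nat.Coprime.pow_right _ ((Nat.Prime.coprime_iff_not_dvd hp.out).2 hd).symm
  obtain ⟨m, hm⟩ : ∃ m, e * m ≡ 1 [MOD Nat.card N] := by
    rcases Nat.eq_zero_or_pos (Nat.card N - 1) with h | h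
    · refine ⟨1, ?_⟩
      have : Nat.card N = 1 := by have := Nat.card_pos (α := N); omega
      rw [this]; exact Nat.modEq_one
    · obtain ⟨m, -, hm⟩ := Nat.exists_mul_mod_eq_one_of_coprime hcop (by omega)
      exact ⟨m, by rw [Nat.ModEq, hm, Nat.mod_eq_of_lt (by omega)]⟩
  refine H31.extends_of_det_extends N hl (fun g n => ?_) (d := 1) (by simpa using h1)
    (Nat.coprime_one_right _) (H31.detHom ψ ^ m) fun n => ?_
  · exact congrFun (H7.mem_inertia.1 (hinv ▸ Subgroup.mem_top g)) n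
  · rw [MonoidHom.pow_apply, H31.detHom_of_ext N (H6.irr_isCharacter hψ) (ϑ := (e : ℂ) • l) hres,
      H31.detHom_nsmul (H6.irr_isCharacter hl), ← pow_mul, ← map_pow]
    congr 1
    conv_rhs => rw [← pow_one n]
    exact pow_eq_pow_iff_modEq.2 (hm.of_dvd (orderOf_dvd_natCard n))

theorem caseB {G : Type*} [Group G] [Finite G] {p : ℕ} [hp : Fact p.Prime] (hG : IsPSolvable p G)
    {N : Subgroup G} [hN : N.Normal] (hNp : IsPGroup p N) (hne : N ≠ ⊥)
    (hc : ∀ a b : N, a * b = b * a)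
    (h : ∀ χ, IsIrrCharacter G χ → ¬ N ≤ H6.charKer χ → ¬ p ∣ charDegree χ) (P : Sylow p G) :
    ⁅(P : Subgroup G), (P : Subgroup G)⁆ ≤ N := by
  classical
  haveI := Fintype.ofFinite G
  obtain ⟨χ, hχ, hk⟩ := H87.exists_irr_not_le_charKer hne
  obtain ⟨l, hl, ho⟩ := H87.exists_under hχ N
  have hall : ∀ χ', IsIrrCharacter G χ' → H87.Over N χ' l → ¬ p ∣ charDegree χ' := by
    intro χ' hχ' ho'
    refine h χ' hχ' fun hk' => hk ?_
    exact ho.le_charKer hχ (H6.irr_isCharacter hl) N le_rfl fun x hx =>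
      ho'.apply_eq_of_mem_ker (H6.irr_isCharacter hχ') hl
        ((H6.mem_charKer (H6.irr_isCharacter hχ')).1 (hk' hx))
  have hl1 : l 1 = 1 := (H87.deg_eq_one_iff (H6.irr_isCharacter hl)).1
    (H87.deg_eq_one_of_comm hc hl)
  set T := H7.inertia l
  have hNT : N ≤ T := H7.le_inertia (H84.irr_class ⟨l, hl⟩)
  obtain ⟨ψ, hψ, -, hψl, hdeg⟩ := ho.exists_corr hNT hl le_rfl hχ
  have hnd := hall χ hχ ho
  rw [hdeg] at hnd
  have hTi : ¬ p ∣ T.index := fun e => hnd (e.mul_right _)
  have hψd : ¬ p ∣ charDegree ψ := fun e => hnd (e.mul_left _)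
  obtain ⟨μ, hμ, hμl⟩ := ext_of_not_dvd (N := N.subgroupOf T) (H86.isPGroup_subgroupOf hNp)
    (H7.isIrr_subgroupOf hNT hl) hl1 (by
      rw [eq_top_iff]; intro g _
      exact H7.mem_inertia.2 (funext fun n => H31.invariant_subgroupOf le_rfl g n)) hψ
    (H87.over_iff.2 (by
      rw [H7.classInner_res_subgroupOf hNT]
      intro h0
      apply hψl
      rw [finsum_eq_sum_of_fintype]
      rw [classInner, mul_eq_zero] at h0
      exact h0.resolve_left (inv_ne_zero (Nat.cast_ne_zero.2 Nat.card_pos.ne')))) hψd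
  have hq : ∀ β, IsIrrCharacter (T ⧸ N.subgroupOf T) β → ¬ p ∣ charDegree β := by
    intro β hβ hd
    obtain ⟨χ', hχ', ho', hd'⟩ := H87.exists_over_of_ext hNT hl le_rfl hμ
      (fun n => hμl ⟨⟨n, hNT n.2⟩, n.2⟩) (H35.infl (N.subgroupOf T) ⟨β, hβ⟩).2
      (fun x hx => (H6.mem_charKer (H84.irr_char _)).2 (H35.infl_of_mem _ hx))
    refine hall χ' hχ' ho' ?_
    rw [hd', H35.charDegree_infl]
    exact (hd.mul_left _).mul_right _
  obtain ⟨S⟩ : Nonempty (Sylow p T) := inferInstance
  set Q := S.mapSurjective (QuotientGroup.mk'_surjective (N.subgroupOf T))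
  haveI := H87.sylow_normal_of_not_dvd_deg (H3.isPiSeparable_of_isPSolvable hp.out
    (H76.isPSolvable_quotient (H76.isPSolvable_subgroup hG T) _)) hq Q
  have hcQ := H87.comm_of_normal_of_not_dvd Q.isPGroup' hq
  have hS : H86.IsSyl p ⊤ ((S : Subgroup T).map T.subtype) := by
    refine H86.isSyl_of_not_dvd le_top (S.isPGroup'.map _) ?_
    rw [Subgroup.relIndex_top_right, Subgroup.index_map_subtype]
    exact fun e => ((Nat.Prime.dvd_mul hp.out).1 e).elim S.not_dvd_index hTi
  obtain ⟨g, -, hg⟩ := hS.conj (H86.isSyl_top P)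
  rw [hg, H86.cs, Subgroup.commutator_le]
  rintro _ ⟨_, ⟨a, ha, rfl⟩, rfl⟩ _ ⟨_, ⟨b, hb, rfl⟩, rfl⟩
  rw [← map_commutatorElement, ← map_commutatorElement]
  refine hN.conj_mem _ ?_ g
  have : ⁅a, b⁆ ∈ N.subgroupOf T := by
    rw [← QuotientGroup.eq_one_iff, ← QuotientGroup.mk'_apply, map_commutatorElement,
      commutatorElement_eq_one_iff_mul_comm]
    exact hcQ _ ⟨a, ha, rfl⟩ _ ⟨b, hb, rfl⟩
  exact this

theorem aux {p : ℕ} [hp : Fact p.Prime] (G : Type u) [Group G] [Finite G] (hG : IsPSolvable p G)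
    (P : Sylow p G) : derivedSeries ↥(P : Subgroup G)
      (Nat.card {χ : IrrCharacter G // p ∣ charDegree (χ : G → ℂ)} + 1) = ⊥ := by
  induction hn : Nat.card G using Nat.strong_induction_on generalizing G with
  | _ n ih =>
  classical
  rcases subsingleton_or_nontrivial G with hs | hs
  · exact Subsingleton.elim _ _
  obtain ⟨K, hK, hKne, hKp⟩ := (H76.isPSolvable_iff.1 hG).exists_normal
  have key : ∀ (N : Subgroup G) [N.Normal], N ≠ ⊥ →
      (derivedSeries P (Nat.card {χ : IrrCharacter (G ⧸ N) //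
        p ∣ charDegree (χ : G ⧸ N → ℂ)} + 1)).map (P : Subgroup G).subtype ≤ N := by
    intro N _ hne
    set Q := P.mapSurjective (QuotientGroup.mk'_surjective N)
    have h1 := ih _ (hn ▸ H3.card_quotient_lt N hne) (G ⧸ N) (H76.isPSolvable_quotient hG N) Q rfl
    let f : P →* Q := ((QuotientGroup.mk' N).comp (P : Subgroup G).subtype).codRestrict _
      fun x => ⟨x, x.2, rfl⟩
    rintro _ ⟨x, hx, rfl⟩
    have h2 := map_derivedSeries_le_derivedSeries f _ ⟨x, hx, rfl⟩
    rw [h1, Subgroup.mem_bot] at h2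
    exact (QuotientGroup.eq_one_iff _).1 (congrArg Subtype.val h2)
  let F : ∀ (N : Subgroup G) [N.Normal], {χ : IrrCharacter (G ⧸ N) //
      p ∣ charDegree (χ : G ⧸ N → ℂ)} → {χ : IrrCharacter G // p ∣ charDegree (χ : G → ℂ)} :=
    fun N _ χ => ⟨H35.infl N χ.1, by rw [H35.charDegree_infl]; exact χ.2⟩
  have hF : ∀ (N : Subgroup G) [N.Normal], Function.Injective (F N) := fun N _ a b e =>
    Subtype.ext (H35.infl_injective (congrArg Subtype.val e))
  have hinj : ∀ A : Subgroup P, A.map (P : Subgroup G).subtype = ⊥ → A = ⊥ := fun A hA =>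
    (Subgroup.map_eq_bot_iff_of_injective _ (Subgroup.subtype_injective _)).1 hA
  rcases hKp with hKp | hKp
  · have hKp' := H1.isPiSubgroup_singleton_iff.1 hKp
    haveI := hKp'.isNilpotent
    obtain ⟨N, hN, hNK, hNc, -⟩ := H3.exists_normal_elementary_le K hKne inferInstance
    haveI := hN.normal
    have hNp : IsPGroup p N := hKp'.to_le hNK
    have hbot : ⁅N, N⁆ = ⊥ := H3.commutator_eq_bot_of_isMulCommutative N
    have step : ∀ k, (derivedSeries P k).map (P : Subgroup G).subtype ≤ N →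
        derivedSeries P (k + 1) = ⊥ := fun k hk => hinj _ (by
      rw [derivedSeries_succ, Subgroup.map_commutator, eq_bot_iff, ← hbot]
      exact Subgroup.commutator_mono hk hk)
    by_cases hA : ∃ χ, IsIrrCharacter G χ ∧ ¬ N ≤ H6.charKer χ ∧ p ∣ charDegree χ
    · obtain ⟨χ, hχ, hk, hd⟩ := hA
      have hlt : Nat.card {χ : IrrCharacter (G ⧸ N) // p ∣ charDegree (χ : G ⧸ N → ℂ)} <
          Nat.card {χ : IrrCharacter G // p ∣ charDegree (χ : G → ℂ)} := by
        refine lt_of_le_of_ne (Nat.card_le_card_of_injective _ (hF N)) fun hs => hk ?_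
        replace hs := ((Nat.bijective_iff_injective_and_card _).2 ⟨hF N, hs⟩).2
        obtain ⟨ψ, hψ⟩ := hs ⟨⟨χ, hχ⟩, hd⟩
        have e : (H35.infl N ψ.1 : G → ℂ) = χ := congrArg (fun x => (x.1 : G → ℂ)) hψ
        intro x hx
        rw [← e]
        exact (H6.mem_charKer (H84.irr_char _)).2 (H35.infl_of_mem _ hx)
      exact eq_bot_iff.2 ((derivedSeries_antitone P (by omega)).trans (step _ (key N hN.ne_bot)).le)
    · push Not at hA
      by_cases h0 : ∀ χ, IsIrrCharacter G χ → ¬ p ∣ charDegree χ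
      · haveI := H87.sylow_normal_of_not_dvd_deg (H76.isPSolvable_iff.1 hG) h0 P
        have hc := H87.comm_of_normal_of_not_dvd P.isPGroup' h0
        refine eq_bot_iff.2 ((derivedSeries_antitone P (Nat.le_add_left 1 _)).trans ?_)
        rw [derivedSeries_one, commutator_def, Subgroup.commutator_le]
        intro a _ b _
        rw [Subgroup.mem_bot, commutatorElement_eq_one_iff_mul_comm]
        exact Subtype.ext (hc _ a.2 _ b.2)
      · push Not at h0
        obtain ⟨χ, hχ, hd⟩ := h0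
        haveI : Nonempty {χ : IrrCharacter G // p ∣ charDegree (χ : G → ℂ)} := ⟨⟨⟨χ, hχ⟩, hd⟩⟩
        have hpos := Nat.card_pos (α := {χ : IrrCharacter G // p ∣ charDegree (χ : G → ℂ)})
        refine eq_bot_iff.2 ((derivedSeries_antitone P (show 1 + 1 ≤ _ by omega)).trans
          (step 1 ?_).le)
        rw [derivedSeries_one, commutator_def, Subgroup.map_commutator, ← MonoidHom.range_eq_map,
          Subgroup.range_subtype]
        exact caseB hG hNp hN.ne_bot hNc.is_comm.comm hA P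
  · have hK' : ¬ p ∣ Nat.card K := fun e => H1.not_dvd_card_pPrimeCore (p := p) (G := G)
      (e.trans (Subgroup.card_dvd_of_le
        (H1.le_pPrimeCore (H1.isPiSubgroup_compl_singleton_iff.1 hKp))))
    refine eq_bot_iff.2 ((derivedSeries_antitone P
      (Nat.add_le_add_right (Nat.card_le_card_of_injective _ (hF K)) 1)).trans (hinj _ ?_).le)
    rw [eq_bot_iff, ← H34.inf_eq_bot_of_not_dvd hK' P.isPGroup']
    exact le_inf (key K hKne) (Subgroup.map_subtype_le _)


/-- Let p be a prime, G a finite p-solvable group and P a Sylow p-subgroup of G. If n is the number of irreducible complex characters of G whose degree is divisible by p, then the (n+1)-st term of the derived series of P is trivial. (The p-solvable case has a direct inductive proof.) -/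
theorem result {G : Type*} [Group G] [Finite G] (p : ℕ) [Fact p.Prime] (hG : Cfsg.IsPSolvable p G) (P : Sylow p G) : derivedSeries ↥(P : Subgroup G) (Nat.card {χ : Cfsg.IrrCharacter G // p ∣ Cfsg.charDegree (χ : G → ℂ)} + 1) = ⊥ := by
  exact aux G hG P

end Cfsg.Agent.S4768
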