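import Cfsg.Statements.S4775
import Cfsg.Agent.Lib.Suzuki.Table
import Cfsg.Agent.Lib.Suzuki.LieModel

set_option autoImplicit false
open Cfsg

namespace Cfsg.Agent.S4775

/-- Let F be a finite field with q = 2^(2m+1) ≥ 8 elements and let S be isomorphic to the Suzuki group over F. Then the vertices of the character degree graph of S are 2 and the primes dividing (q − 1)(q² + 1); the primes dividing (q − 1)(q² + 1) are pairwise adjacent, and 2 is adjacent exactly to the primes dividing q − 1. -/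
theorem result (F : Type*) [Field F] [Fintype F] (m : ℕ) (hm : 1 ≤ m) (q : ℕ) (hq : Fintype.card F = q) (hqm : q = 2 ^ (2 * m + 1)) {S : Type*} [Group S] [Finite S] (hS : Nonempty (S ≃* ↥(Cfsg.Lie.Sz F (2 ^ (m + 1))))) : Cfsg.degreePrimes S = {r : ℕ | r.Prime ∧ (r = 2 ∨ r ∣ (q - 1) * (q ^ 2 + 1))} ∧ ∀ r s : ℕ, (Cfsg.degreeGraph S).Adj r s ↔ (r ≠ s ∧ r.Prime ∧ s.Prime ∧ ((r ∣ (q - 1) * (q ^ 2 + 1) ∧ s ∣ (q - 1) * (q ^ 2 + 1)) ∨ (r = 2 ∧ s ∣ q - 1) ∨ (s = 2 ∧ r ∣ q - 1))) := by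
  subst hq
  haveI : H14.Sz.SzF F m := ⟨hm, hqm⟩
  obtain ⟨e⟩ := hS
  let T := (H14.Sz.lieModel F m).comap e
  haveI := Fintype.ofFinite S
  have hD := T.charDegrees_eq
  have hp := H14.Sz.Model.tori_prod (F := F)
  have o1 := H14.Sz.odd_q_sub_one F
  have o2 := H14.Sz.odd_q_sq_add_one F
  have hc := T.tori_coprime
  have hc2 := H14.Sz.coprime_q_sq_add_one_sub_one F
  generalize Fintype.card F + 2 ^ (m + 1) + 1 = a at *
  generalize Fintype.card F - 2 ^ (m + 1) + 1 = b at *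
  generalize Fintype.card F - 1 = c at *
  have h2 : ∀ {r n : ℕ}, r.Prime → r ∣ 2 ^ n → r = 2 := fun hr h =>
    (Nat.prime_dvd_prime_iff_eq hr Nat.prime_two).1 (hr.dvd_of_dvd_pow h)
  have hq2 : Fintype.card F ^ 2 = 2 ^ ((2 * m + 1) * 2) := by rw [hqm, ← pow_mul]
  have h2m : 2 ∣ 2 ^ m := dvd_pow_self 2 (by omega)
  rw [← hp] at hD o2 hc2 ⊢
  have m1 : 2 ^ m * c ∈ charDegrees S := by rw [hD]; simp
  have m2 : a * b ∈ charDegrees S := by rw [hD]; simp
  have m3 : c * b ∈ charDegrees S := by rw [hD]; simp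
  have m4 : c * a ∈ charDegrees S := by rw [hD]; simp
  refine ⟨?_, fun r s => ?_⟩
  · ext r
    refine and_congr_right fun hr => ⟨?_, ?_⟩
    · rintro ⟨d, hd, hrd⟩
      rw [hD] at hd
      rcases hd with rfl | rfl | rfl | rfl | rfl | rfl
      · exact absurd (Nat.dvd_one.1 hrd) hr.ne_one
      · exact Or.inl (h2 hr (hq2 ▸ hrd))
      · exact (hr.dvd_mul.1 hrd).imp (h2 hr) fun h => h.mul_right _
      · exact Or.inr (hrd.mul_left _)
      · exact Or.inr (hrd.trans (Nat.mul_dvd_mul_left _ (Dvd.intro_left _ rfl)))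
      · exact Or.inr (hrd.trans (Nat.mul_dvd_mul_left _ (Dvd.intro _ rfl)))
    · rintro (rfl | h)
      · exact ⟨_, m1, h2m.mul_right _⟩
      · rcases hr.dvd_mul.1 h with h | h
        · exact ⟨_, m1, h.mul_left _⟩
        · exact ⟨_, m2, h⟩
  · refine and_congr_right fun hrs => and_congr_right fun hr => and_congr_right fun hs => ⟨?_, ?_⟩
    · rintro ⟨d, hd, hrd⟩
      have d1 := (Dvd.intro _ rfl : r ∣ r * s).trans hrd
      have d2 := (Dvd.intro_left _ rfl : s ∣ r * s).trans hrd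
      rw [hD] at hd
      rcases hd with rfl | rfl | rfl | rfl | rfl | rfl
      · exact absurd (Nat.dvd_one.1 d1) hr.ne_one
      · exact absurd ((h2 hr (hq2 ▸ d1)).trans (h2 hs (hq2 ▸ d2)).symm) hrs
      · rcases hr.dvd_mul.1 d1 with e1 | e1 <;> rcases hs.dvd_mul.1 d2 with e2 | e2
        · exact absurd ((h2 hr e1).trans (h2 hs e2).symm) hrs
        · exact Or.inr (Or.inl ⟨h2 hr e1, e2⟩)
        · exact Or.inr (Or.inr ⟨h2 hs e2, e1⟩)
        · exact Or.inl ⟨e1.mul_right _, e2.mul_right _⟩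
      · exact Or.inl ⟨d1.mul_left _, d2.mul_left _⟩
      · exact Or.inl ⟨d1.trans (Nat.mul_dvd_mul_left _ (Dvd.intro_left _ rfl)),
          d2.trans (Nat.mul_dvd_mul_left _ (Dvd.intro_left _ rfl))⟩
      · exact Or.inl ⟨d1.trans (Nat.mul_dvd_mul_left _ (Dvd.intro _ rfl)),
          d2.trans (Nat.mul_dvd_mul_left _ (Dvd.intro _ rfl))⟩
    · have hcp := (Nat.coprime_primes hr hs).2 hrs
      have k : ∀ d ∈ charDegrees S, r ∣ d → s ∣ d → ∃ d ∈ charDegrees S, r * s ∣ d :=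
        fun d hd e1 e2 => ⟨d, hd, hcp.mul_dvd_of_dvd_of_dvd e1 e2⟩
      rintro (⟨e1, e2⟩ | ⟨rfl, e⟩ | ⟨rfl, e⟩)
      · rcases hr.dvd_mul.1 e1 with e1 | e1 <;> rcases hs.dvd_mul.1 e2 with e2 | e2
        · exact k _ m3 (e1.mul_right _) (e2.mul_right _)
        · rcases hs.dvd_mul.1 e2 with e2 | e2
          · exact k _ m4 (e1.mul_right _) (e2.mul_left _)
          · exact k _ m3 (e1.mul_right _) (e2.mul_left _)
        · rcases hr.dvd_mul.1 e1 with e1 | e1
          · exact k _ m4 (e1.mul_left _) (e2.mul_right _)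
          · exact k _ m3 (e1.mul_left _) (e2.mul_right _)
        · exact k _ m2 e1 e2
      · exact k _ m1 (h2m.mul_right _) (e.mul_left _)
      · exact k _ m1 (e.mul_left _) (h2m.mul_right _)

end Cfsg.Agent.S4775
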