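import Mathlib
import Cfsg.Statements.S4784
import Cfsg.Agent.Lib.Deg.FS4

set_option autoImplicit false
open Cfsg

namespace Cfsg.Agent.S4784



/-- Let H be a subgroup of the finite group G and consider the permutation character of G on the cosets of H (the function induced from the principal character of H). Then exactly one irreducible constituent of it is real-valued with Frobenius–Schur indicator +1 (namely the principal character) if and only if the normal core of H has odd index in G. -/
theorem result {G : Type*} [Group G] [Fintype G] (H : Subgroup G) : Nat.card {χ : Cfsg.IrrCharacter G // Cfsg.classInner (Cfsg.indFun H (fun _ : H => (1 : ℂ))) (χ : G → ℂ) ≠ 0 ∧ (∀ g : G, (starRingEnd ℂ) ((χ : G → ℂ) g) = (χ : G → ℂ) g) ∧ (Nat.card G : ℂ)⁻¹ * ∑ g : G, (χ : G → ℂ) (g * g) = 1} = 1 ↔ Odd H.normalCore.index := by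
  classical
  have := Fintype.ofFinite H
  have hone : classInner (indFun H (fun _ : H => (1 : ℂ))) (fun _ => 1) = 1 := by
    rw [H7.classInner_indFun_left H _ (H6.isClassFunction_const 1), H6.classInner_one_one]
  have hmem : classInner (indFun H (fun _ : H => (1 : ℂ))) (H87.irrOne G : G → ℂ) ≠ 0 ∧
      (∀ g : G, (starRingEnd ℂ) ((H87.irrOne G : G → ℂ) g) = (H87.irrOne G : G → ℂ) g) ∧
      (Nat.card G : ℂ)⁻¹ * ∑ g : G, (H87.irrOne G : G → ℂ) (g * g) = 1 :=
    ⟨fun h => one_ne_zero (hone.symm.trans h), fun g => map_one _, H87.nu_one⟩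
  constructor
  · intro h
    by_contra hev
    rw [Nat.not_odd_iff_even] at hev
    have huniq : ∀ χ : IrrCharacter G, classInner (indFun H (fun _ : H => (1 : ℂ))) χ ≠ 0 →
        H87.nu (χ : G → ℂ) = 1 → χ = H87.irrOne G := fun χ h1 h2 => by
      have := (Nat.card_eq_one_iff_unique.1 h).1
      exact congrArg Subtype.val (this.elim ⟨χ, h1,
        H87.isReal_iff_conj.1 (H87.isReal_of_nu_eq_one χ.2 h2), h2⟩ ⟨_, hmem⟩)
    have hc := H7.isCharacter_indFun_one H
    have h1 : (H87.nu (indFun H (fun _ : H => (1 : ℂ)))).re ≤ 1 := by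
      rw [H87.nu_eq_sum_inner (H6.char_isClassFunction hc),
        ← Finset.add_sum_erase _ _ (Finset.mem_univ (H87.irrOne G)), Complex.add_re, Complex.re_sum]
      have e : classInner (indFun H (fun _ : H => (1 : ℂ))) (H87.irrOne G : G → ℂ) *
          H87.nu (H87.irrOne G : G → ℂ) = 1 := by
        rw [show (H87.irrOne G : G → ℂ) = fun _ => 1 from rfl, hone, H87.nu_one, mul_one]
      rw [e, Complex.one_re, add_le_iff_nonpos_right]
      refine Finset.sum_nonpos fun χ hχ => ?_
      obtain ⟨m, hm⟩ := H6.char_inner_nat hc (H6.irr_isCharacter χ.2)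
      rcases H87.nu_trichotomy χ.2 with a | a | a
      · simp [a]
      · by_cases h0 : classInner (indFun H (fun _ : H => (1 : ℂ))) χ = 0
        · simp [h0]
        · exact absurd (huniq χ h0 a) (Finset.ne_of_mem_erase hχ)
      · simp [a, hm]
    obtain ⟨t, ht⟩ := exists_prime_orderOf_dvd_card' (G := G ⧸ H.normalCore) 2 hev.two_dvd
    obtain ⟨t, rfl⟩ := QuotientGroup.mk_surjective t
    obtain ⟨ht1, ht2⟩ := H87.orderOf_eq_two_iff'.1 ht
    have ht1' : t * t ∈ H.normalCore := (QuotientGroup.eq_one_iff _).1 ht1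
    have ht2' : t ∉ H.normalCore := fun h => ht2 ((QuotientGroup.eq_one_iff _).2 h)
    rw [Subgroup.normalCore_eq_ker, MonoidHom.mem_ker] at ht1' ht2'
    have hsub : ∀ g : G, MulAction.fixedBy (G ⧸ H) g ⊆ MulAction.fixedBy (G ⧸ H) (g * g) :=
      fun g x hx => by
        rw [MulAction.mem_fixedBy] at hx ⊢
        rw [mul_smul, hx, hx]
    have h2 : ∑ g : G, Nat.card (MulAction.fixedBy (G ⧸ H) g) <
        ∑ g : G, Nat.card (MulAction.fixedBy (G ⧸ H) (g * g)) := by
      refine Finset.sum_lt_sum (fun g _ => Nat.card_mono (Set.toFinite _) (hsub g))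
        ⟨t, Finset.mem_univ _, ?_⟩
      refine Set.ncard_lt_ncard ⟨hsub t, fun h => ht2' ?_⟩ (Set.toFinite _)
      ext1 x
      exact h (show (t * t) • x = x from DFunLike.congr_fun ht1' x)
    have h3 : ∑ g : G, Nat.card (MulAction.fixedBy (G ⧸ H) g) = Nat.card G := by
      have := H6.card_mul_classInner (indFun H (fun _ : H => (1 : ℂ))) (fun _ => 1)
      rw [hone] at this
      simp only [H7.indFun_one_eq_card_fixedBy, map_one, mul_one] at this
      exact_mod_cast this.symm
    have h4 := H87.card_mul_nu (indFun H (fun _ : H => (1 : ℂ)))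
    simp only [H7.indFun_one_eq_card_fixedBy] at h4
    have h5 := congrArg Complex.re h4
    rw [← Nat.cast_sum, Complex.natCast_re, Complex.mul_re, Complex.natCast_re, Complex.natCast_im,
      zero_mul, sub_zero] at h5
    rw [h3] at h2
    have h6 : (Nat.card G : ℝ) < (∑ g : G, Nat.card (MulAction.fixedBy (G ⧸ H) (g * g)) : ℕ) := by
      exact_mod_cast h2
    have h7 : (0 : ℝ) ≤ Nat.card G := Nat.cast_nonneg _
    nlinarith
  · intro hodd
    rw [Nat.card_eq_one_iff_unique]
    refine ⟨⟨fun a b => ?_⟩, ⟨⟨_, hmem⟩⟩⟩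
    suffices h : ∀ χ : IrrCharacter G, classInner (indFun H (fun _ : H => (1 : ℂ))) χ ≠ 0 →
        (∀ g : G, (starRingEnd ℂ) ((χ : G → ℂ) g) = (χ : G → ℂ) g) → χ = H87.irrOne G from
      Subtype.ext ((h _ a.2.1 a.2.2.1).trans (h _ b.2.1 b.2.2.1).symm)
    intro χ h1 h2
    have hk := (H87.over_of_inner_indFun (H6.irr_isClassFunction χ.2) h1).le_charKer χ.2
      H6.isCharacter_one H.normalCore H.normalCore_le (fun _ _ => rfl)
    obtain ⟨ψ, hψ, e⟩ := H6.exists_irr_quotient χ.2 H.normalCore
      (fun x hx => (H6.mem_charKer (H6.irr_isCharacter χ.2)).1 (hk hx))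
    have := Fintype.ofFinite (G ⧸ H.normalCore)
    have h3 := H87.eq_one_of_isReal_of_odd hodd hψ (fun g => by
      obtain ⟨g, rfl⟩ := QuotientGroup.mk_surjective g
      rw [e]; exact Complex.conj_eq_iff_im.1 (h2 g))
    rw [H87.eq_irrOne_iff]
    funext g
    rw [← e, h3]

end Cfsg.Agent.S4784
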