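import Mathlib
import Cfsg.Statements.S4796
import Cfsg.Agent.Lib.Deg.Frob

set_option autoImplicit false
open Cfsg

namespace Cfsg.Agent.S4796



/-- Let G be a finite group with a faithful irreducible complex character χ whose codegree #G / χ(1) is a prime p (for a faithful character the kernel is trivial, so the codegree is #G / χ(1)). Then either G is cyclic of order p, or G is a Frobenius group whose Frobenius kernel has order p: some proper non-trivial subgroup H satisfies H ∩ gHg⁻¹ = 1 for every element g outside H, and the set of elements lying in no conjugate of H, together with the identity, has exactly p elements. -/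
theorem result {G : Type*} [Group G] [Finite G] (χ : Cfsg.IrrCharacter G) (hfaith : ∀ g : G, (χ : G → ℂ) g = (χ : G → ℂ) 1 → g = 1) (p : ℕ) (hp : p.Prime) (hcod : Nat.card G = p * Cfsg.charDegree (χ : G → ℂ)) : (IsCyclic G ∧ Nat.card G = p) ∨ ∃ H : Subgroup G, Cfsg.IsFrobeniusComplement H ∧ Nat.card ↥(Cfsg.frobeniusKernel H) = p := by
  have := Fact.mk hp
  obtain ⟨P, hPn, hP, hi, hlt, hcent⟩ := H87.prime_codegree_structure χ.2 hp hcod
  by_cases h1 : charDegree (χ : G → ℂ) = 1
  · rw [h1, mul_one] at hcod
    exact Or.inl ⟨isCyclic_of_prime_card hcod, hcod⟩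
  · right
    have hd := H87.deg_pos χ.2
    have hco : (Nat.card P).Coprime P.index := by
      rw [hP, hi]
      exact (Nat.coprime_of_lt_prime hd.ne' hlt hp)
    obtain ⟨H, hH⟩ := Subgroup.exists_right_complement'_of_coprime hco
    have hP1 : P ≠ ⊥ := by
      rintro rfl
      rw [Subgroup.card_bot] at hP
      exact hp.one_lt.ne hP
    have hH1 : H ≠ ⊥ := by
      rintro rfl
      have := hH.symm.index_eq_card
      rw [Subgroup.card_bot, hi] at this
      exact h1 this
    obtain ⟨h2, h3⟩ := H87.frobenius_of_fpf hH hP1 hH1 fun h hh hh1 k hk hhk => by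
      by_contra hk1
      have h4 : h ∈ P ⊓ H := ⟨hcent h k hk hk1 hhk, hh⟩
      rw [hH.disjoint.eq_bot, Subgroup.mem_bot] at h4
      exact hh1 h4
    exact ⟨H, h2, by rw [h3]; exact hP⟩

end Cfsg.Agent.S4796
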