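import Mathlib
import Cfsg.Statements.S4797
import Cfsg.Agent.Lib.Deg.Frob
import Cfsg.Agent.Lib.Core.MinNormal

set_option autoImplicit false
open Cfsg

namespace Cfsg.Agent.S4797



/-- The codegree of an irreducible complex character χ of a finite group G is [G : ker χ] / χ(1), where ker χ is the set of elements at which χ takes the value χ(1). A non-trivial finite group is perfect if and only if no irreducible complex character of it has prime codegree. -/
theorem result {G : Type*} [Group G] [Finite G] [Nontrivial G] : commutator G = ⊤ ↔ ∀ χ : Cfsg.IrrCharacter G, ¬ ((Nat.card G / (Nat.card {g : G // (χ : G → ℂ) g = (χ : G → ℂ) 1} * Cfsg.charDegree (χ : G → ℂ)))).Prime := by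
  constructor
  · intro hG χ hp
    have h1 := H87.codeg_mul_deg χ.2
    generalize Nat.card G / (Nat.card {g : G // (χ : G → ℂ) g = (χ : G → ℂ) 1} *
      Cfsg.charDegree (χ : G → ℂ)) = p at hp h1
    have := Fact.mk hp
    obtain ⟨ψ, hψ, he⟩ := H6.exists_irr_quotient χ.2 (H6.charKer (χ : G → ℂ))
      fun x hx => (H6.mem_charKer (H6.irr_isCharacter χ.2)).1 hx
    have h2 : charDegree ψ = charDegree (χ : G → ℂ) := H87.deg_congr (he 1)
    rw [← h2] at h1
    obtain ⟨P, hPn, hP, hi, hlt, hcent⟩ := H87.prime_codegree_structure hψ hp h1.symm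
    have hcyc : IsCyclic P := isCyclic_of_prime_card hP
    have h3 : commutator (G ⧸ H6.charKer (χ : G → ℂ)) = ⊤ := by
      have := Subgroup.map_commutator (⊤ : Subgroup G) ⊤
        (QuotientGroup.mk' (H6.charKer (χ : G → ℂ)))
      rw [← commutator_def, hG,
        Subgroup.map_top_of_surjective _ (QuotientGroup.mk'_surjective _)] at this
      exact this.symm
    have h4 := H87.commutator_le_centralizer_of_isCyclic P
    rw [h3, top_le_iff] at h4
    have hP1 : P ≠ ⊥ := by
      rintro rfl
      rw [Subgroup.card_bot] at hP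
      exact hp.one_lt.ne hP
    obtain ⟨⟨k, hk⟩, hk1⟩ := (Subgroup.ne_bot_iff_exists_ne_one).1 hP1
    have hc : ∀ g, ∀ x ∈ P, x * g = g * x := fun g x hx =>
      (Subgroup.mem_centralizer_iff.1 (h4 ▸ Subgroup.mem_top g)) x hx
    have h5 : ∀ g, g ∈ P := fun g =>
      hcent g k hk (fun h => hk1 (Subtype.ext h)) (hc g k hk).symm
    have h6 : commutator (G ⧸ H6.charKer (χ : G → ℂ)) = ⊥ := by
      rw [commutator_def, Subgroup.commutator_eq_bot_iff_le_centralizer]
      intro a _
      rw [Subgroup.mem_centralizer_iff]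
      intro b _
      exact hc a b (h5 b)
    rw [h6] at h3
    exact hP1 (le_bot_iff.1 (h3 ▸ le_top))
  · intro h
    by_contra hG
    obtain ⟨M, hMn, hle, hM⟩ := H3.exists_normal_prime_index_ge (commutator G) hG
      (isSolvable_of_comm fun a b => mul_comm (G := Abelianization G) a b)
    have hM1 : M ≠ ⊤ := by
      rintro rfl
      rw [Subgroup.index_top] at hM
      exact Nat.not_prime_one hM
    obtain ⟨g, hg⟩ : ∃ g, g ∉ M := by
      by_contra hc
      push Not at hc
      exact hM1 (eq_top_iff.2 fun g _ => hc g)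
    obtain ⟨χ, hχ, h1, h2⟩ := H87.exists_irr_ker_of_not_mem M hg
    apply h ⟨χ, hχ⟩
    show (Nat.card G / (Nat.card {g : G // χ g = χ 1} * charDegree χ)).Prime
    rw [H87.codeg_eq hχ, H87.deg_eq_one_of_commutator_le hχ (hle.trans h1), Nat.div_one]
    rcases (Nat.dvd_prime hM).1 (Subgroup.index_dvd_of_le h1) with h3 | h3
    · rw [Subgroup.index_eq_one] at h3
      exact absurd (h3 ▸ Subgroup.mem_top g) h2
    · rwa [h3]

end Cfsg.Agent.S4797
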