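import Mathlib
import Cfsg.Statements.S4798
import Cfsg.Agent.Lib.Deg.Basic

set_option autoImplicit false
open Cfsg

namespace Cfsg.Agent.S4798



/-- Let p be a prime and χ a faithful irreducible complex character of the finite group G (χ(g) = χ(1) only for g = 1), so that its codegree is #G / χ(1). Then #G / χ(1) is a power of p if and only if χ is induced from a character of a Sylow p-subgroup of G. -/
theorem result {G : Type*} [Group G] [Fintype G] (p : ℕ) [Fact p.Prime] (χ : Cfsg.IrrCharacter G) (hfaith : ∀ g : G, (χ : G → ℂ) g = (χ : G → ℂ) 1 → g = 1) : (∃ k : ℕ, Nat.card G = p ^ k * Cfsg.charDegree (χ : G → ℂ)) ↔ ∃ (P : Sylow p G) (θ : ↥(P : Subgroup G) → ℂ), Cfsg.IsCharacter ↥(P : Subgroup G) θ ∧ (χ : G → ℂ) = Cfsg.indFun (P : Subgroup G) θ := by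
  have hp : p.Prime := Fact.out
  constructor
  · rintro ⟨k, hk⟩
    obtain ⟨P⟩ : Nonempty (Sylow p G) := inferInstance
    have := Fintype.ofFinite P
    obtain ⟨a, ha⟩ := IsPGroup.iff_card.1 P.isPGroup'
    have hi := P.not_dvd_index
    have h1 := (P : Subgroup G).card_mul_index
    have ha' : Nat.card (P : Subgroup G) = p ^ a := ha
    rw [ha', hk] at h1
    have hka : k ≤ a := by
      have : p ^ k ∣ p ^ a := ((Nat.Coprime.pow_left k
        ((Nat.Prime.coprime_iff_not_dvd hp).2 hi))).dvd_of_dvd_mul_right (Dvd.intro _ h1.symm)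
      exact (Nat.pow_dvd_pow_iff_le_right hp.one_lt).1 this
    obtain ⟨c, rfl⟩ := Nat.exists_eq_add_of_le hka
    rw [pow_add, mul_assoc] at h1
    have h2 := Nat.eq_of_mul_eq_mul_left (pow_pos hp.pos k) h1
    have h3 : ¬ p ^ (c + 1) ∣ charDegree (fun x : (P : Subgroup G) => (χ : G → ℂ) x) := by
      rw [H87.deg_res, ← h2, pow_succ]
      exact fun h => hi (Nat.dvd_of_mul_dvd_mul_left (pow_pos hp.pos c) h)
    obtain ⟨θ, hθ, h4, h5⟩ := H87.exists_constituent_not_dvd
      (H6.isCharacter_restrict _ (H6.irr_isCharacter χ.2)) h3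
    obtain ⟨j, hj⟩ := H87.deg_pow_of_isPGroup P.isPGroup' hθ
    have hjc : j ≤ c := by
      by_contra hc
      exact h5 (hj ▸ pow_dvd_pow p (by omega))
    refine ⟨P, θ, H6.irr_isCharacter hθ, ?_⟩
    symm
    refine H87.eq_of_inner_of_deg_le (H7.isCharacter_indFun _ (H6.irr_isCharacter hθ)) χ.2 ?_ ?_
    · rw [H7.classInner_indFun_left _ _ (H6.irr_isClassFunction χ.2)]
      exact fun h => h4 (H6.classInner_eq_zero_comm.1 h)
    · rw [H87.deg_indFun _ (H6.irr_isCharacter hθ), hj, ← h2, mul_comm]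
      exact Nat.mul_le_mul_right _ (Nat.pow_le_pow_right hp.pos hjc)
  · rintro ⟨P, θ, hθ, he⟩
    obtain ⟨a, ha⟩ := IsPGroup.iff_card.1 P.isPGroup'
    have h1 := (P : Subgroup G).card_mul_index
    have ha' : Nat.card (P : Subgroup G) = p ^ a := ha
    obtain ⟨c, hc⟩ := H87.deg_dvd_card χ.2
    have h2 : charDegree (χ : G → ℂ) = (P : Subgroup G).index * charDegree θ := by
      rw [he, H87.deg_indFun _ hθ]
    have h3 : c ∣ p ^ a := by
      rw [ha', hc, h2, mul_assoc, mul_comm] at h1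
      exact Dvd.intro_left _ (Nat.eq_of_mul_eq_mul_left
        (Nat.pos_of_ne_zero (P : Subgroup G).index_ne_zero_of_finite) h1).symm
    obtain ⟨k, -, rfl⟩ := (Nat.dvd_prime_pow hp).1 h3
    exact ⟨k, by rw [hc, mul_comm]⟩

end Cfsg.Agent.S4798
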