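import Mathlib
import Cfsg.Statements.S4801
import Cfsg.Agent.Lib.Deg.Basic

set_option autoImplicit false
open Cfsg

namespace Cfsg.Agent.S4801



/-- The codegree of an irreducible complex character χ of a finite group G is [G : ker χ] / χ(1), where ker χ is the set of elements at which χ takes the value χ(1). Let S be a finite simple group and G a finite group such that every codegree of an irreducible character of S is a codegree of an irreducible character of G. Then the order of S divides the order of G. -/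
theorem result {S : Type*} [Group S] [Finite S] (hS : IsSimpleGroup S) {G : Type*} [Group G] [Finite G] (hsub : ∀ χ : Cfsg.IrrCharacter S, ∃ ψ : Cfsg.IrrCharacter G, (Nat.card S / (Nat.card {g : S // (χ : S → ℂ) g = (χ : S → ℂ) 1} * Cfsg.charDegree (χ : S → ℂ))) = (Nat.card G / (Nat.card {g : G // (ψ : G → ℂ) g = (ψ : G → ℂ) 1} * Cfsg.charDegree (ψ : G → ℂ)))) : Nat.card S ∣ Nat.card G := by
  classical
  let t : IrrCharacter S := ⟨fun _ => 1, H6.isIrrCharacter_one⟩
  have h1 : ∀ χ ∈ Finset.univ.erase t, Nat.card S ∣ Nat.card G * charDegree (χ : S → ℂ) ^ 2 := by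
    intro χ hχ
    obtain ⟨ψ, hψ⟩ := hsub χ
    have h2 := H87.codeg_mul_deg χ.2
    have h3 : H6.charKer (χ : S → ℂ) = ⊥ := by
      refine (H6.charKer_normal (χ : S → ℂ)).eq_bot_or_eq_top.resolve_right fun h => ?_
      exact (Finset.mem_erase.1 hχ).1 (Subtype.ext ((H87.charKer_eq_top_iff χ.2).1 h))
    rw [h3, Subgroup.index_bot, hψ] at h2
    rw [← h2, sq, ← mul_assoc]
    exact Dvd.dvd.mul_right (Nat.mul_dvd_mul_right (H87.codeg_dvd_card ψ.2) _) _
  have h4 := Finset.dvd_sum h1
  have h5 := H87.sum_deg_sq (G := S)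
  rw [← Finset.add_sum_erase _ _ (Finset.mem_univ t)] at h5
  rw [← Finset.mul_sum] at h4
  simp only [t, H87.deg_one, one_pow] at h5
  have h6 : Nat.card G * Nat.card S = Nat.card G + Nat.card G *
      ∑ χ ∈ Finset.univ.erase t, charDegree (χ : S → ℂ) ^ 2 := by
    rw [← h5]; ring
  exact (Nat.dvd_add_left h4).1 (h6 ▸ Dvd.intro_left _ rfl)

end Cfsg.Agent.S4801
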