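import Mathlib
import Cfsg.Statements.S4802
import Cfsg.Agent.Lib.Deg.Basic

set_option autoImplicit false
open Cfsg

namespace Cfsg.Agent.S4802



/-- Let N < M be normal subgroups of the finite group G and g ∈ M ∖ N. Then the conjugacy class of g is exactly M ∖ N if and only if every irreducible complex character of G whose kernel contains N takes the same value at all elements of M ∖ N, and every irreducible complex character of G whose kernel does not contain N vanishes at g. -/
theorem result {G : Type*} [Group G] [Finite G] (N M : Subgroup G) [N.Normal] [M.Normal] (hNM : N < M) (g : G) (hgM : g ∈ M) (hgN : g ∉ N) : {h : G | IsConj g h} = (M : Set G) \ (N : Set G) ↔ ((∀ χ : Cfsg.IrrCharacter G, (∀ x ∈ N, (χ : G → ℂ) x = (χ : G → ℂ) 1) → ∀ x ∈ M, x ∉ N → ∀ y ∈ M, y ∉ N → (χ : G → ℂ) x = (χ : G → ℂ) y) ∧ (∀ χ : Cfsg.IrrCharacter G, (∃ x ∈ N, (χ : G → ℂ) x ≠ (χ : G → ℂ) 1) → (χ : G → ℂ) g = 0)) := by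
  classical
  constructor
  · intro h
    have hc : ∀ x ∈ M, x ∉ N → ∀ χ : IrrCharacter G, (χ : G → ℂ) g = (χ : G → ℂ) x := by
      intro x hx hxN χ
      have : x ∈ {h : G | IsConj g h} := by rw [h]; exact ⟨hx, hxN⟩
      exact H6.classFun_of_isConj (H6.irr_isClassFunction χ.2) this
    refine ⟨fun χ _ x hx hxN y hy hyN => (hc x hx hxN χ).symm.trans (hc y hy hyN χ), ?_⟩
    rintro χ ⟨x, hx, hx1⟩
    refine H87.eq_zero_of_const_on_coset χ.2 N
      (fun hle => hx1 ((H6.mem_charKer (H6.irr_isCharacter χ.2)).1 (hle hx))) fun n hn => ?_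
    exact (hc _ (M.mul_mem hgM (hNM.le hn)) (fun h' => hgN (by simpa using N.mul_mem h' (N.inv_mem hn))) χ).symm
  · rintro ⟨h1, h2⟩
    ext x
    constructor
    · intro hx
      obtain ⟨c, rfl⟩ := isConj_iff.1 hx
      refine ⟨Subgroup.Normal.conj_mem inferInstance g hgM c, fun h' => hgN ?_⟩
      simpa [mul_assoc] using Subgroup.Normal.conj_mem inferInstance _ h' c⁻¹
    · rintro ⟨hx, hxN⟩
      by_contra hc
      have h3 := H6.column_orthogonality_not_isConj hc
      have h4 := H6.column_orthogonality_self g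
      rw [Finset.sum_congr rfl fun (χ : IrrCharacter G) _ => show (χ : G → ℂ) g * (starRingEnd ℂ) ((χ : G → ℂ) x) =
        (χ : G → ℂ) g * (starRingEnd ℂ) ((χ : G → ℂ) g) from ?_, h4] at h3
      · exact H6.card_ne_zero h3
      · by_cases h5 : ∀ x ∈ N, (χ : G → ℂ) x = (χ : G → ℂ) 1
        · rw [h1 χ h5 x hx hxN g hgM hgN]
        · push Not at h5
          rw [h2 χ h5, zero_mul, zero_mul]

end Cfsg.Agent.S4802
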