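import Mathlib
import Cfsg.Statements.S4808
import Cfsg.Agent.Lib.Deg.DefectZero

set_option autoImplicit false
open Cfsg

namespace Cfsg.Agent.S4808



/-- The codegree of an irreducible complex character χ of a finite group G is [G : ker χ] / χ(1), where ker χ is the set of elements at which χ takes the value χ(1). A prime divides the order of G if and only if it divides the codegree of some irreducible complex character of G. -/
theorem result {G : Type*} [Group G] [Finite G] (p : ℕ) (hp : p.Prime) : p ∣ Nat.card G ↔ ∃ χ : Cfsg.IrrCharacter G, p ∣ (Nat.card G / (Nat.card {g : G // (χ : G → ℂ) g = (χ : G → ℂ) 1} * Cfsg.charDegree (χ : G → ℂ))) := by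
  classical
  constructor
  · intro h
    have := Fact.mk hp
    by_contra hc
    push Not at hc
    obtain ⟨x, hx⟩ := exists_prime_orderOf_dvd_card' p h
    have hx1 : x ≠ 1 := by
      rintro rfl
      rw [orderOf_one] at hx
      exact hp.one_lt.ne hx
    have h1 := H6.sum_irr_one_mul hx1
    have h2 : ∀ χ : IrrCharacter G, (χ : G → ℂ) 1 * (χ : G → ℂ) x =
        ((if x ∈ H6.charKer (χ : G → ℂ) then charDegree (χ : G → ℂ) ^ 2 else 0 : ℕ) : ℂ) := by
      intro χ
      split_ifs with h3
      · rw [(H6.mem_charKer (H6.irr_isCharacter χ.2)).1 h3, Nat.cast_pow, H87.deg_cast', sq]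
      · rw [H87.eq_zero_of_not_dvd_codeg χ.2 hp (H87.codeg_mul_deg χ.2) (hc χ) (x := x), mul_zero,
          Nat.cast_zero]
        have h4 : orderOf (x : G ⧸ H6.charKer (χ : G → ℂ)) ∣ p :=
          hx ▸ orderOf_map_dvd (QuotientGroup.mk' _) x
        rcases (Nat.dvd_prime hp).1 h4 with h5 | h5
        · exact absurd ((QuotientGroup.eq_one_iff x).1 (orderOf_eq_one_iff.1 h5)) h3
        · rw [h5]
    simp_rw [h2] at h1
    rw [← Nat.cast_sum, Nat.cast_eq_zero, Finset.sum_eq_zero_iff] at h1
    have h6 := h1 ⟨fun _ => 1, H6.isIrrCharacter_one⟩ (Finset.mem_univ _)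
    rw [if_pos ((H6.mem_charKer H6.isCharacter_one).2 rfl), H87.deg_one] at h6
    exact absurd h6 (by norm_num)
  · rintro ⟨χ, hχ⟩
    exact hχ.trans (H87.codeg_dvd_card χ.2)

end Cfsg.Agent.S4808
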