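import Mathlib
import Cfsg.Statements.S4814
import Cfsg.Agent.Lib.Deg.Commutator

set_option autoImplicit false
open Cfsg

namespace Cfsg.Agent.S4814



/-- Let G be a finite group such that the sum, over the irreducible complex characters χ of G, of 1/χ(1)² is less than 2. Then every element of G is a product of two commutators. -/
theorem result {G : Type*} [Group G] [Finite G]
    (h : ∑ᶠ χ : Cfsg.IrrCharacter G, 1 / ‖(χ : G → ℂ) 1‖ ^ 2 < (2 : ℝ)) (g : G) :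
    ∃ a b c d : G, (a * b * a⁻¹ * b⁻¹) * (c * d * c⁻¹ * d⁻¹) = g := by
  classical
  rw [H6.finsum_irr] at h
  by_contra hc
  push Not at hc
  have h1 := H87.card_two_commutators_eq g
  have : IsEmpty {x : (G × G) × (G × G) //
      (x.1.1 * x.1.2 * x.1.1⁻¹ * x.1.2⁻¹) * (x.2.1 * x.2.2 * x.2.1⁻¹ * x.2.2⁻¹) = g} :=
    ⟨fun x => hc _ _ _ _ x.2⟩
  rw [Nat.card_of_isEmpty, Nat.cast_zero] at h1
  have h2 := (mul_eq_zero.1 h1.symm).resolve_left (pow_ne_zero _ H6.card_ne_zero)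
  let t : IrrCharacter G := ⟨fun _ => 1, H6.isIrrCharacter_one⟩
  rw [← Finset.add_sum_erase _ _ (Finset.mem_univ t)] at h h2
  have h3 : ‖∑ χ ∈ Finset.univ.erase t, (χ : G → ℂ) g / (χ : G → ℂ) 1 ^ 3‖ ≤
      ∑ χ ∈ Finset.univ.erase t, 1 / ‖(χ : G → ℂ) 1‖ ^ 2 := by
    refine (norm_sum_le _ _).trans (Finset.sum_le_sum fun χ _ => ?_)
    have h4 := H6.char_norm_le (H6.irr_isCharacter χ.2) g
    have h5 : 0 < ‖(χ : G → ℂ) 1‖ := norm_pos_iff.2 (H6.irr_one_ne_zero χ.2)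
    rw [norm_div, norm_pow, div_le_div_iff₀ (by positivity) (by positivity)]
    calc ‖(χ : G → ℂ) g‖ * ‖(χ : G → ℂ) 1‖ ^ 2 ≤ ‖(χ : G → ℂ) 1‖ * ‖(χ : G → ℂ) 1‖ ^ 2 := by gcongr
      _ = _ := by ring
  have h6 : ∑ χ ∈ Finset.univ.erase t, (χ : G → ℂ) g / (χ : G → ℂ) 1 ^ 3 = -1 := by
    simp only [t, one_pow, div_one] at h2
    linear_combination h2
  rw [h6] at h3
  simp only [t, norm_one, one_pow, div_one, norm_neg] at h h3
  linarith

end Cfsg.Agent.S4814
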