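import Mathlib
import Cfsg.Statements.S4825
import Cfsg.Agent.Lib.Block.Cover2
import Cfsg.Agent.Lib.H85.PRegSep
import Cfsg.Agent.Lib.Blk86.Br

set_option autoImplicit false
open Cfsg

namespace Cfsg.Agent.S4825

open Finset H84 H35

theorem dvd_sum {G : Type*} [Group G] [Fintype G] {p : ℕ} [hp : Fact p.Prime] {M : Ideal AlgInt}
    (hM : IsPModular p M) {B : Set (IrrCharacter G)} (hB : IsPBlock M B) {N : Subgroup G}
    [N.Normal] [Fintype N] (A : Set (IrrCharacter N)) {g : G} (hg : IsPElt p g) (hgN : g ∉ N) :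
    p ∣ ∑ χ ∈ bset (B ∩ upSet G A), charDegree (χ : G → ℂ) ^ 2 := by
  classical
  haveI := hM.2.1
  haveI := H33.charP hM
  have h0 : blockCoeff (B ∩ upSet G A) g = 0 := by
    rw [← H33.coeff_fB, ← H33.fB_mul_fB, H86.coeff_mul_sum]
    refine sum_eq_zero fun h _ => ?_
    rw [H33.coeff_fB, H33.coeff_fB]
    by_cases hn : h⁻¹ * g ∈ N
    · rw [H34.blockCoeff_eq_zero_of_dvd hM B (fun g => H33.blockCoeff_mem_O hB g), zero_mul]
      have e : (h : G ⧸ N) = g := QuotientGroup.eq.2 hn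
      have h1 : p ∣ orderOf (g : G ⧸ N) := (hg.map (QuotientGroup.mk' N)).dvd_orderOf
        fun e1 => hgN ((QuotientGroup.eq_one_iff g).1 e1)
      rw [← e] at h1
      exact h1.trans (orderOf_map_dvd (QuotientGroup.mk' N) h)
    · rw [blockCoeff_upSet_eq_zero A hn, mul_zero]
  rw [H84.blockCoeff_eq, mul_eq_zero] at h0
  have h1 := h0.resolve_left (inv_ne_zero H6.card_ne_zero)
  have h2 := congrArg (H33.red M) h1
  have hc : ∀ χ : IrrCharacter G, starRingEnd ℂ ((χ : G → ℂ) g) = (χ : G → ℂ) g⁻¹ := fun χ =>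
    (H6.char_inv (irr_char χ) g).symm
  simp only [hc] at h2
  rw [H33.red_sum _ fun χ _ => (H33.O M).mul_mem (H33.irr_mem_O M χ _) (H33.irr_mem_O M χ _),
    H33.red_zero] at h2
  rw [← CharP.cast_eq_zero_iff (H33.F M) p, ← h2]
  push_cast
  refine sum_congr rfl fun χ _ => ?_
  rw [H33.red_mul (H33.irr_mem_O M χ _) (H33.irr_mem_O M χ _),
    H85.red_char_pReg hM (irr_char χ) g⁻¹, pReg_eq_one hg.inv, ← cast_deg, H33.red_natCast, sq]


/-- Let p be a prime, G a finite group with Sylow p-subgroup P, M a maximal ideal of the algebraic integers containing p, and B a p-block of G with defect group P. Let N be a normal subgroup of G not containing P and θ an irreducible character of N. Then the number of irreducible characters in B of degree prime to p lying over θ (having θ as a constituent on restriction to N) is either 0 or at least 2, and when p ≤ 3 it is divisible by p. -/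
theorem result {G : Type*} [Group G] [Fintype G] (p : ℕ) [Fact p.Prime] (P : Sylow p G) (M : Ideal Cfsg.AlgInt) (hM : Cfsg.IsPModular p M) (B : Set (Cfsg.IrrCharacter G)) (hB : Cfsg.IsPBlock M B) (hBP : Cfsg.IsDefectGroup p M B P) (N : Subgroup G) [N.Normal] [Fintype N] (hPN : ¬ (P : Subgroup G) ≤ N) (θ : Cfsg.IrrCharacter N) :
    (Nat.card {χ : Cfsg.IrrCharacter G // χ ∈ B ∧ ¬ p ∣ Cfsg.charDegree (χ : G → ℂ) ∧ Cfsg.classInner (fun n : N => (χ : G → ℂ) n) (θ : N → ℂ) ≠ 0} = 0 ∨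
      2 ≤ Nat.card {χ : Cfsg.IrrCharacter G // χ ∈ B ∧ ¬ p ∣ Cfsg.charDegree (χ : G → ℂ) ∧ Cfsg.classInner (fun n : N => (χ : G → ℂ) n) (θ : N → ℂ) ≠ 0}) ∧
    (p ≤ 3 → p ∣ Nat.card {χ : Cfsg.IrrCharacter G // χ ∈ B ∧ ¬ p ∣ Cfsg.charDegree (χ : G → ℂ) ∧ Cfsg.classInner (fun n : N => (χ : G → ℂ) n) (θ : N → ℂ) ≠ 0}) := by
  classical
  have hp := (Fact.out : p.Prime)
  obtain ⟨g, hgP, hgN⟩ := SetLike.not_le_iff_exists.1 hPN
  have h := dvd_sum hM hB ({θ} : Set (IrrCharacter N)) (isPElt_of_mem P.isPGroup' hgP) hgN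
  set S := (bset (B ∩ upSet G {θ})).filter fun χ : IrrCharacter G => ¬ p ∣ charDegree (χ : G → ℂ) with hS
  have hc : Nat.card {χ : Cfsg.IrrCharacter G // χ ∈ B ∧ ¬ p ∣ Cfsg.charDegree (χ : G → ℂ) ∧ Cfsg.classInner (fun n : N => (χ : G → ℂ) n) (θ : N → ℂ) ≠ 0} = S.card := by
    refine Nat.subtype_card S fun χ => ?_
    simp only [hS, mem_filter, mem_bset, Set.mem_inter_iff, mem_upSet, Set.mem_singleton_iff,
      exists_eq_left]
    tauto
  rw [hc]
  have h2 : p ∣ ∑ χ ∈ S, charDegree (χ : G → ℂ) ^ 2 := by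
    rw [← sum_filter_add_sum_filter_not _ fun χ : IrrCharacter G => p ∣ charDegree (χ : G → ℂ)] at h
    refine (Nat.dvd_add_right (Finset.dvd_sum fun χ hχ => ?_)).1 h
    exact dvd_trans (mem_filter.1 hχ).2 (dvd_pow_self _ two_ne_zero)
  constructor
  · by_contra hne
    obtain ⟨χ, hχ⟩ := card_eq_one.1 (show S.card = 1 by omega)
    have hm : χ ∈ S := hχ ▸ mem_singleton_self χ
    rw [hχ, sum_singleton] at h2
    exact (mem_filter.1 hm).2 (hp.dvd_of_dvd_pow h2)
  · intro h3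
    have key : ∀ χ ∈ S, charDegree (χ : G → ℂ) ^ 2 ≡ 1 [MOD p] := fun χ hχ => by
      have h4 := (mem_filter.1 hχ).2
      have := hp.two_le
      generalize charDegree (χ : G → ℂ) = d at h4
      obtain rfl | rfl : p = 2 ∨ p = 3 := by omega
      · have : d % 2 = 1 := by omega
        unfold Nat.ModEq
        rw [sq, Nat.mul_mod, this]
      · have : d % 3 = 1 ∨ d % 3 = 2 := by omega
        unfold Nat.ModEq
        rcases this with h | h <;> rw [sq, Nat.mul_mod, h]
    have := Nat.ModEq.sum key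
    rw [sum_const, smul_eq_mul, mul_one] at this
    exact (this.dvd_iff dvd_rfl).1 h2

end Cfsg.Agent.S4825
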