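import Cfsg.Statements.S4828
import Mathlib
import Cfsg.Agent.Lib.Blk86.GoodF
import Cfsg.Agent.Lib.Block.Canon

set_option autoImplicit false
open Cfsg

namespace Cfsg.Agent.S4828

set_option linter.style.haveILetI false
set_option linter.unusedVariables false

open H86 H33

/-- Let p be a prime, M a maximal ideal of the algebraic integers containing p, and (Q, e) a Brauer pair of the finite group G (Q a p-subgroup, e a block of C_G(Q)). Then (Q, e) is a maximal Brauer pair of some block of G if and only if e contains an irreducible character θ such that θ takes the value θ(1) at every element of Z(Q) = Q ∩ C_G(Q), the p-part of θ(1) times the p-part of the order of Z(Q) equals the p-part of the order of C_G(Q) (θ has defect zero as a character of C_G(Q)/Z(Q)), and every element of N_G(Q) of p-power order that stabilizes e lies in Q·C_G(Q) (the stabilizer of e in N_G(Q) has index prime to p over Q·C_G(Q)). -/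
theorem result {G : Type*} [Group G] [Finite G] (p : ℕ) [Fact p.Prime] (M : Ideal Cfsg.AlgInt) (hM : Cfsg.IsPModular p M) (Q : Subgroup G) (e : Set (Cfsg.IrrCharacter (Subgroup.centralizer (Q : Set G)))) (he : Cfsg.IsBrauerPair p M Q e) :
    (∃ B : Set (Cfsg.IrrCharacter G), Cfsg.IsMaximalBrauerPair p M B Q e) ↔
      ∃ θ ∈ e, (∀ z : Subgroup.centralizer (Q : Set G), (z : G) ∈ Q → (θ : Subgroup.centralizer (Q : Set G) → ℂ) z = (θ : Subgroup.centralizer (Q : Set G) → ℂ) 1) ∧
        (Cfsg.charDegree (θ : Subgroup.centralizer (Q : Set G) → ℂ)).factorization p + (Nat.card ↥(Q ⊓ Subgroup.centralizer (Q : Set G))).factorization p = (Nat.card (Subgroup.centralizer (Q : Set G))).factorization p ∧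
        (∀ g : G, g ∈ Subgroup.normalizer (Q : Set G) → Cfsg.StabilizesBlock (Subgroup.centralizer (Q : Set G)) e g → (∃ k : ℕ, orderOf g = p ^ k) → g ∈ Q ⊔ Subgroup.centralizer (Q : Set G)) := by
  haveI := isMaximal_of hM; haveI := charP hM; haveI := good hM G
  haveI := Fintype.ofFinite (Cen Q)
  have hp := pair_of_isBrauerPair he
  have hZ : IsPGroup p ((Q ⊓ Cen Q).subgroupOf (Cen Q)) :=
    isPGroup_subgroupOf (he.1.to_le inf_le_left)
  have hZc : (Q ⊓ Cen Q).subgroupOf (Cen Q) ≤ Subgroup.center (Cen Q) := fun z hz =>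
    Subgroup.mem_center_iff.2 fun c => Subtype.ext (mem_Cen.1 c.2 z hz.1).symm
  have hsup := H35.sup_Cen_of_le_center hZc
  have hcard : Nat.card ((Q ⊓ Cen Q).subgroupOf (Cen Q)) = Nat.card (Q ⊓ Cen Q : Subgroup G) :=
    Nat.card_congr (Subgroup.subgroupOfEquivOfLe inf_le_right).toEquiv
  have hfac := factorization_card_eq p ((Q ⊓ Cen Q).subgroupOf (Cen Q))
  rw [hcard] at hfac
  constructor
  · rintro ⟨B, hB⟩
    have hm := isMaxPair_of hB
    have hb := H86.isBlk_eB hB.1.2.1
    obtain ⟨h1, h2⟩ := hp.isDef_St (hm.isDef_St hb)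
    rw [top_inf_eq] at h1 h2
    obtain ⟨θ, hθ, hker, hbase⟩ := H35.exists_canonical hM hsup he.2
      ((isDefectGroup_subgroupOf_iff he.2 inf_le_right).2 h2)
    refine ⟨θ, hθ, fun z hz => hker z ⟨hz, z.2⟩, ?_, fun g hg hs ho => ?_⟩
    · rw [hbase.deg]
      change _ + (Nat.card (Q ⊓ Cen Q : Subgroup G)).factorization p =
        (Nat.card (Cen Q)).factorization p
      omega
    · have hg' : g ∈ St ⊤ Q (eS M (Cen Q) e) := by
        rw [St_top]; exact (mem_Nor_and_stabilizes_iff he.2 g).1 ⟨hg, hs⟩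
      haveI : ((Q ⊔ Cen Q).subgroupOf (St ⊤ Q (eS M (Cen Q) e))).Normal :=
        normal_subgroupOf fun x hx => mem_Nor_sup (St_le_Nor _ _ _ hx)
          (Nor_le_Nor_Cen Q (St_le_Nor _ _ _ hx))
      exact H35.IsPElt.mem_of_index (N := (Q ⊔ Cen Q).subgroupOf (St ⊤ Q (eS M (Cen Q) e)))
        (x := ⟨g, hg'⟩) h1 ((H35.isPElt_coe _).1 ho)
  · rintro ⟨θ, hθ, hker, hdeg, hst⟩
    haveI := H35.normal_of_sup_Cen hsup
    have hbase := H35.isBase_of_ker hM hZ hsup (θ := θ) (fun u hu => hker u hu.1) (by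
      change _ + (Nat.card (Q ⊓ Cen Q : Subgroup G)).factorization p =
        (Nat.card (Cen Q)).factorization p at hdeg
      omega)
    have h1 := hbase.isDefectGroup hM hZ
    rw [← block_eq_blockOf he.2 hθ, isDefectGroup_subgroupOf_iff he.2 inf_le_right] at h1
    have h2 := hp.isDef_sup (by rwa [top_inf_eq])
    rw [top_inf_eq] at h2
    obtain ⟨b, hb, hpo⟩ := hp.exists_blk
    obtain ⟨B, hB, rfl⟩ := hb.exists_eB
    refine ⟨B, (isMaximalBrauerPair_iff hB he.2).2 ⟨hpo, fun R g hR hs => ?_⟩⟩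
    by_contra hne
    have hlt := lt_inf_Nor hR.pgrp (lt_of_le_of_ne hs.le (Ne.symm hne))
    refine hlt.ne' (h2.max (fun x hx => ?_) (hR.pgrp.to_le inf_le_left) hlt.le
      (hs.br_ne_zero hR.toPair inf_le_left inf_le_right))
    have hx' := hs.inf_Nor_le_St hR.toPair hx
    rw [St_top] at hx'
    obtain ⟨h3, h4⟩ := (mem_Nor_and_stabilizes_iff he.2 x).2 hx'
    exact hst x h3 h4 (H35.isPElt_of_mem hR.pgrp hx.1)

end Cfsg.Agent.S4828
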