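import Mathlib
import Cfsg.Statements.S4836
import Cfsg.Agent.Lib.Deg.Gagola

set_option autoImplicit false
open Cfsg

namespace Cfsg.Agent.S4836



/-- Let G be a finite group of order greater than 2 with an irreducible character χ that is nonzero on exactly two conjugacy classes. Then χ is faithful (it takes the value χ(1) only at the identity), it is the only faithful irreducible character of G, and it is the only irreducible character of G that is nonzero on exactly two conjugacy classes. -/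
theorem result {G : Type*} [Group G] [Finite G] (hG : 2 < Nat.card G) (χ : Cfsg.IrrCharacter G) (hχ : Nat.card {C : ConjClasses G // ∃ g ∈ C.carrier, (χ : G → ℂ) g ≠ 0} = 2) :
    (∀ g : G, (χ : G → ℂ) g = (χ : G → ℂ) 1 → g = 1) ∧
      (∀ ψ : Cfsg.IrrCharacter G, (∀ g : G, (ψ : G → ℂ) g = (ψ : G → ℂ) 1 → g = 1) → ψ = χ) ∧
      (∀ ψ : Cfsg.IrrCharacter G, Nat.card {C : ConjClasses G // ∃ g ∈ C.carrier, (ψ : G → ℂ) g ≠ 0} = 2 → ψ = χ) := by
  obtain ⟨N, h⟩ := H87.exists_gag hG χ hχ
  have h2 : ∀ ψ : Cfsg.IrrCharacter G, (∀ g : G, (ψ : G → ℂ) g = (ψ : G → ℂ) 1 → g = 1) → ψ = χ :=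
    fun ψ hψ => by
      by_contra hne
      exact h.ne_bot (eq_bot_iff.2 fun g hg => hψ g ((H6.mem_charKer (H6.irr_isCharacter ψ.2)).1
        (h.ker _ ψ.2 (fun e => hne (Subtype.ext e)) hg)))
  refine ⟨fun g => h.faithful, h2, fun ψ hψ => ?_⟩
  obtain ⟨M, h'⟩ := H87.exists_gag hG ψ hψ
  exact h2 ψ fun g => h'.faithful

end Cfsg.Agent.S4836
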