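import Mathlib
import Cfsg.Statements.S4838
import Cfsg.Agent.Lib.Deg.Gagola

set_option autoImplicit false
open Cfsg

namespace Cfsg.Agent.S4838



/-- Let G be a finite group of order greater than 2 with an irreducible character χ nonzero on exactly two conjugacy classes, N the normal p-subgroup of elements where χ is nonzero, and P a Sylow p-subgroup of G. Then (a) for every x outside N the centralizer of x in G has the same order as the centralizer of xN in G/N; (b) the centre of P lies in N, and equals N exactly when P is normal in G; (c) N, viewed inside P, is a term of the upper central series of P. -/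
theorem result {G : Type*} [Group G] [Finite G] (hG : 2 < Nat.card G) (χ : Cfsg.IrrCharacter G) (hχ : Nat.card {C : ConjClasses G // ∃ g ∈ C.carrier, (χ : G → ℂ) g ≠ 0} = 2) (p : ℕ) [Fact p.Prime] (N : Subgroup G) [N.Normal] (hN : ∀ g : G, g ∈ N ↔ (χ : G → ℂ) g ≠ 0) (hNp : IsPGroup p N) (hN1 : N ≠ ⊥) (P : Sylow p G) :
    (∀ x : G, x ∉ N → Nat.card (Subgroup.centralizer ({x} : Set G)) = Nat.card (Subgroup.centralizer ({(x : G ⧸ N)} : Set (G ⧸ N)))) ∧
      ((Subgroup.center ↥(P : Subgroup G)).map (P : Subgroup G).subtype ≤ N ∧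
        ((Subgroup.center ↥(P : Subgroup G)).map (P : Subgroup G).subtype = N ↔ (P : Subgroup G).Normal)) ∧
      (∃ i : ℕ, Subgroup.upperCentralSeries ↥(P : Subgroup G) i = N.subgroupOf (P : Subgroup G)) := by
  classical
  have h := H87.gag_of_supp hG χ hχ hN
  have hNP : N ≤ P := hNp.le_sylow_of_normal P
  have h1 : (Subgroup.center ↥(P : Subgroup G)).map (P : Subgroup G).subtype ≤ N := by
    rintro _ ⟨y, hy, rfl⟩
    exact h.mem_of_commutator hNp P (bot_lt_iff_ne_bot.2 hN1) fun g hg =>
      commutatorElement_eq_one_iff_mul_comm.2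
        (congrArg Subtype.val (Subgroup.mem_center_iff.1 hy ⟨g, hg⟩))
  refine ⟨fun x hx => h.card_centralizer hx, ⟨h1, fun e => ?_, fun hP => le_antisymm h1 ?_⟩, ?_⟩
  · obtain ⟨x, hx, hx1, hxP⟩ := h.exists_centralizer_eq hNp P
    have : (P : Subgroup G) = Subgroup.centralizer (N : Set G) := by
      refine le_antisymm (fun g hg n hn => ?_)
        (hxP ▸ Subgroup.centralizer_le (Set.singleton_subset_iff.2 hx))
      rw [← e] at hn
      obtain ⟨y, hy, rfl⟩ := hn
      exact (congrArg Subtype.val (Subgroup.mem_center_iff.1 hy ⟨g, hg⟩)).symm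
    rw [this]; infer_instance
  · obtain ⟨x, hx, hx1, hxP⟩ := h.exists_centralizer_eq hNp P
    refine h.le_of_mem inferInstance hx ⟨⟨x, hNP hx⟩, Subgroup.mem_center_iff.2 fun g =>
      Subtype.ext (Subgroup.mem_centralizer_singleton_iff.1 (hxP.ge g.2)), rfl⟩ hx1
  · have := P.isPGroup'.isNilpotent
    by_contra hne
    push Not at hne
    have key : ∀ i, Subgroup.upperCentralSeries ↥(P : Subgroup G) i ≤ N.subgroupOf P := by
      intro i
      induction i with
      | zero => exact bot_le
      | succ i ih =>
        intro y hy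
        have hlt : (Subgroup.upperCentralSeries ↥(P : Subgroup G) i).map (P : Subgroup G).subtype
            < N := by
          refine lt_of_le_of_ne (Subgroup.map_le_iff_le_comap.2 ih) fun e => hne i ?_
          rw [← e, Subgroup.subgroupOf, Subgroup.comap_map_eq_self_of_injective
            (Subgroup.subtype_injective _)]
        refine h.mem_of_commutator hNp P hlt fun g hg => ?_
        rw [← commutatorElement_inv]
        exact inv_mem ⟨_, Subgroup.mem_upperCentralSeries_succ_iff.1 hy ⟨g, hg⟩, rfl⟩
    exact hne _ (le_antisymm (key _) (by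
      rw [Subgroup.upperCentralSeries_nilpotencyClass]; exact le_top))

end Cfsg.Agent.S4838
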