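import Mathlib
import Cfsg.Statements.S4839
import Cfsg.Agent.Lib.Deg.Gagola
import Cfsg.Agent.S0200

set_option autoImplicit false
open Cfsg

namespace Cfsg.Agent.S4839



/-- Let G be a finite group of order greater than 2 with an irreducible character χ nonzero on exactly two conjugacy classes, and let N be the normal p-subgroup of elements where χ is nonzero. Then N is the whole p-core O_p(G) if and only if G is a doubly transitive Frobenius group with kernel N: G has a Frobenius complement H whose Frobenius kernel is N and whose order is one less than that of N. -/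
theorem result {G : Type*} [Group G] [Finite G] (hG : 2 < Nat.card G) (χ : Cfsg.IrrCharacter G) (hχ : Nat.card {C : ConjClasses G // ∃ g ∈ C.carrier, (χ : G → ℂ) g ≠ 0} = 2) (p : ℕ) [Fact p.Prime] (N : Subgroup G) [N.Normal] (hN : ∀ g : G, g ∈ N ↔ (χ : G → ℂ) g ≠ 0) (hNp : IsPGroup p N) (hN1 : N ≠ ⊥) :
    N = Cfsg.pCore p G ↔ ∃ H : Subgroup G, Cfsg.IsFrobeniusComplement H ∧ Cfsg.frobeniusKernel H = (N : Set G) ∧ Nat.card H + 1 = Nat.card N := by
  have h := H87.gag_of_supp hG χ hχ hN
  constructor
  · intro he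
    have h1 := h.not_dvd_index_of_eq_pCore hNp (fun t ht hO => Cfsg.Agent.S0200.result t ht hO) he
    obtain ⟨k, hk⟩ := IsPGroup.iff_card.1 hNp
    have hp : p.Prime := Fact.out
    obtain ⟨H, hH⟩ := Subgroup.exists_right_complement'_of_coprime (N := N)
      (hk ▸ ((Nat.Prime.coprime_iff_not_dvd hp).2 h1).pow_left k)
    obtain ⟨x, hx, hx1⟩ := h.exists_mem
    have h2 : Subgroup.centralizer ({x} : Set G) = N :=
      (hNp.toSylow h1).is_maximal' (h.isPGroup_centralizer hNp hx hx1) fun g hg =>
        Subgroup.mem_centralizer_singleton_iff.2 (h.comm g hg x hx)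
    have h3 := h.index_centralizer hx hx1
    rw [h2, hH.symm.index_eq_card] at h3
    have hH1 : H ≠ ⊥ := fun e => by
      have h4 := hH.card_mul
      rw [e, Subgroup.card_bot] at h3 h4
      omega
    obtain ⟨h4, h5⟩ := H87.frobenius_of_fpf hH hN1 hH1 fun y hy hy1 => h.fpf hNp fun j e => hy1 (by
      have h4 : orderOf y ∣ N.index := hH.symm.index_eq_card ▸ Subgroup.orderOf_dvd_natCard H hy
      exact orderOf_eq_one_iff.1 (Nat.Coprime.eq_one_of_dvd (Nat.Coprime.coprime_dvd_left h4
        (((Nat.Prime.coprime_iff_not_dvd hp).2 h1).symm.pow_right j))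
        (orderOf_dvd_of_pow_eq_one e)))
    exact ⟨H, h4, h5, h3⟩
  · rintro ⟨H, h1, h2, h3⟩
    obtain ⟨-, h4, -⟩ := H87.fpf_of_frobenius h1 h2
    exact le_antisymm (H1.le_pCore hNp) (H1.pCore_le_sylow (hNp.toSylow
      (h4.symm.index_eq_card ▸ h.not_dvd_index hNp h3)))

end Cfsg.Agent.S4839
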