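import Cfsg.Statements.S4845
import Mathlib
import Cfsg.Agent.Base
import Cfsg.Agent.Lib.Lin35.GalDeg

set_option autoImplicit false
open Cfsg

namespace Cfsg.Agent.S4845

/-- Let p be a prime and P a finite non-commutative p-group. Then every two irreducible characters of P of the same degree greater than 1 are Galois conjugate (one is obtained from the other by composing with g ↦ g^k for some k prime to the order of P) if and only if the centre of P is cyclic and the derived subgroup of P has order p. -/
theorem result {P : Type*} [Group P] [Finite P] (p : ℕ) [Fact p.Prime] (hP : IsPGroup p P) (hna : ¬ IsMulCommutative P) :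
    (∀ χ ψ : Cfsg.IrrCharacter P, Cfsg.charDegree (χ : P → ℂ) ≠ 1 → Cfsg.charDegree (χ : P → ℂ) = Cfsg.charDegree (ψ : P → ℂ) → ∃ k : ℕ, Nat.Coprime k (Nat.card P) ∧ ∀ g : P, (ψ : P → ℂ) g = (χ : P → ℂ) (g ^ k)) ↔
      (IsCyclic (Subgroup.center P) ∧ Nat.card (commutator P) = p) := by
  have hc : commutator P ≠ ⊥ := fun h => hna ⟨⟨fun a b => commutatorElement_eq_one_iff_mul_comm.1
    (Subgroup.mem_bot.1 (h ▸ Subgroup.commutator_mem_commutator (Subgroup.mem_top a)
      (Subgroup.mem_top b)))⟩⟩
  refine ⟨fun h => ?_, fun h => H35L.gc_of_cyclic hP h.1 h.2⟩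
  have h1 := H35L.GC.card_commutator _ P rfl hP h hc
  obtain ⟨θ, hθ, hθ1⟩ := H87.exists_irr_not_le_charKer hc
  exact ⟨H35L.isCyclic_center_of_faithful hθ (H35L.GC.faithful h h1 hθ
    (mt (H87.commutator_le_charKer_of_deg_one (H6.irr_isCharacter hθ)) hθ1)), h1⟩

end Cfsg.Agent.S4845
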