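import Cfsg.Statements.S4847
import Cfsg.Agent.Lib.Palfy.Main
-- import your own Cfsg.Agent.* helpers here

set_option autoImplicit false
open Cfsg

namespace Cfsg.Agent.S4847

/-- Let G be a finite solvable group and p, q, r three distinct primes each dividing the degree of some irreducible character of G. Then for some two of them the product divides the degree of some irreducible character of G (the character degree graph of a solvable group has no three pairwise non-adjacent vertices). -/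
theorem result {G : Type*} [Group G] [Finite G] [hs : Group.IsSolvable G] (p q r : ℕ) (hp : p.Prime) (hq : q.Prime) (hr : r.Prime) (hpq : p ≠ q) (hqr : q ≠ r) (hpr : p ≠ r)
    (hpd : ∃ χ : Cfsg.IrrCharacter G, p ∣ Cfsg.charDegree (χ : G → ℂ)) (hqd : ∃ χ : Cfsg.IrrCharacter G, q ∣ Cfsg.charDegree (χ : G → ℂ)) (hrd : ∃ χ : Cfsg.IrrCharacter G, r ∣ Cfsg.charDegree (χ : G → ℂ)) :
    (∃ χ : Cfsg.IrrCharacter G, p * q ∣ Cfsg.charDegree (χ : G → ℂ)) ∨ (∃ χ : Cfsg.IrrCharacter G, q * r ∣ Cfsg.charDegree (χ : G → ℂ)) ∨ (∃ χ : Cfsg.IrrCharacter G, p * r ∣ Cfsg.charDegree (χ : G → ℂ)) := by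
  have e : ∀ n, (∃ χ : Cfsg.IrrCharacter G, n ∣ Cfsg.charDegree (χ : G → ℂ)) ↔ H64.Palfy.Rho G n :=
    fun n => ⟨fun ⟨χ, h⟩ => ⟨χ.1, χ.2, h⟩, fun ⟨χ, h1, h⟩ => ⟨⟨χ, h1⟩, h⟩⟩
  simp only [e] at *
  exact H64.Palfy.three hp hq hr hpq hqr hpr hpd hqd hrd
end Cfsg.Agent.S4847
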