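import Mathlib
import Cfsg.Statements.S4866
import Cfsg.Agent.Lib.Deg.Thompson
import Cfsg.Agent.Lib.Deg.FS4

set_option autoImplicit false
open Cfsg

namespace Cfsg.Agent.S4866

theorem card_orbits_fixed {G X : Type*} [Group G] [Fintype G] [MulAction G X] [Finite X]
    {K : Subgroup G} [K.Normal] (hodd : Odd K.index) (hK : ∀ k ∈ K, ∀ x : X, k • x = x)
    (ι : X → X) (hι : ∀ x, ι (ι x) = x) (hc : ∀ (g : G) x, ι (g • x) = g • ι x) :
    Nat.card (Quot (fun a b : {x // ι x = x} => ∃ g : G, g • a.1 = b.1)) * Nat.card G =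
      ∑ g : G, Nat.card {x // ι (g • x) = x} := by
  classical
  let S : SubMulAction G X := ⟨{x | ι x = x}, fun g x hx => by
    show ι (g • x) = g • x
    rw [hc, show ι x = x from hx]⟩
  have := Fintype.ofFinite (MulAction.orbitRel.Quotient G S)
  have := fun g : G => Fintype.ofFinite (MulAction.fixedBy S g)
  have h1 := MulAction.sum_card_fixedBy_eq_card_orbits_mul_card_group G S
  simp only [← Nat.card_eq_fintype_card] at h1
  have h2 : Nat.card (Quot (fun a b : {x // ι x = x} => ∃ g : G, g • a.1 = b.1)) =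
      Nat.card (MulAction.orbitRel.Quotient G S) :=
    Nat.card_congr (Quot.congrRight (α := S) fun a b =>
      ⟨fun ⟨g, hg⟩ => ⟨g⁻¹, Subtype.ext (inv_smul_eq_iff.2 hg.symm)⟩,
        fun ⟨g, hg⟩ => ⟨g⁻¹, inv_smul_eq_iff.2 (congrArg Subtype.val hg).symm⟩⟩)
  rw [h2, ← h1]
  refine Finset.sum_congr rfl fun g _ => ?_
  have key : ∀ x, ι (g • x) = x → g • x = x := fun x hx => by
    have h3 : g * g ∈ MulAction.stabilizer G x := by
      rw [MulAction.mem_stabilizer_iff, mul_smul, ← hι (g • g • x), hc g (g • x), hx, hx]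
    obtain ⟨k, hk⟩ := hodd
    have h4 : g ^ K.index ∈ MulAction.stabilizer G x := hK _ (K.pow_index_mem g) x
    rw [hk, pow_succ, pow_mul, pow_two] at h4
    exact ((MulAction.stabilizer G x).mul_mem_cancel_left (pow_mem h3 k)).1 h4
  exact Nat.card_congr ⟨fun x => ⟨x.1.1, by
      rw [show g • x.1.1 = x.1.1 from congrArg Subtype.val x.2]; exact x.1.2⟩,
    fun x => ⟨⟨x.1, by
      have := x.2
      rwa [key _ x.2] at this⟩, Subtype.ext (key _ x.2)⟩, fun _ => rfl, fun _ => rfl⟩

theorem card_quot_eq {α β : Type*} {r : α → α → Prop} {s : β → β → Prop} (f : α → β)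
    (hf : Function.Surjective f) (h : ∀ a b, r a b ↔ s (f a) (f b)) (hs : ∀ b, s b b) :
    Nat.card (Quot r) = Nat.card (Quot s) := by
  choose g hg using hf
  exact Nat.card_congr ⟨Quot.map f fun a b => (h a b).1,
    Quot.map g fun a b hab => (h _ _).2 (by rwa [hg, hg]),
    fun q => Quot.inductionOn q fun a => Quot.sound ((h _ _).2 (by rw [hg]; exact hs _)),
    fun q => Quot.inductionOn q fun a => congrArg (Quot.mk s) (hg a)⟩

/-- Let K be a normal subgroup of odd index in the finite group G. Then G has as many orbits on the real-valued irreducible complex characters of K (acting by conjugation) as it has orbits on the conjugacy classes of K that are real in K; equivalently, the number of G-orbits of real-valued irreducible characters of K equals the number of G-conjugacy classes of elements of K that are conjugate in K to their inverses. -/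
theorem result {G : Type*} [Group G] [Finite G] (K : Subgroup G) [K.Normal] (hodd : Odd K.index) : Nat.card (Quot (fun θ η : {θ : Cfsg.IrrCharacter ↥K // (∀ k : ↥K, ((θ : ↥K → ℂ) k).im = 0)} => ∃ g : G, ∀ k k' : ↥K, (k' : G) = g * (k : G) * g⁻¹ → (η.1 : ↥K → ℂ) k' = (θ.1 : ↥K → ℂ) k)) = Nat.card (Quot (fun x y : {x : ↥K // IsConj x x⁻¹} => ∃ g : G, (y.1 : G) = g * x.1 * g⁻¹)) := by
  have := Fintype.ofFinite G
  have := Fintype.ofFinite K
  letI := H87.irrAct K
  letI : MulAction G (ConjClasses K) :=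
    { smul := fun g => ConjClasses.map (MulAut.conjNormal g : MulAut K).toMonoidHom
      one_smul := fun C => by
        obtain ⟨x, rfl⟩ := ConjClasses.mk_surjective C
        show ConjClasses.mk (MulAut.conjNormal (1 : G) x) = _
        rw [map_one, MulAut.one_apply]
      mul_smul := fun g h C => by
        obtain ⟨x, rfl⟩ := ConjClasses.mk_surjective C
        show ConjClasses.mk (MulAut.conjNormal (g * h) x) =
          ConjClasses.mk (MulAut.conjNormal g (MulAut.conjNormal h x))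
        rw [map_mul, MulAut.mul_apply] }
  have hsm : ∀ (g : G) (x : K), g • ConjClasses.mk x = ConjClasses.mk (MulAut.conjNormal g x) :=
    fun _ _ => rfl
  let ι : ConjClasses K → ConjClasses K := Quotient.map (fun x => x⁻¹) fun a b h => by
    obtain ⟨c, hc⟩ := isConj_iff.1 h
    exact isConj_iff.2 ⟨c, by rw [← conj_inv, hc]⟩
  have hι : ∀ x : K, ι (ConjClasses.mk x) = ConjClasses.mk x⁻¹ := fun _ => rfl
  have h1 := card_orbits_fixed (X := Cfsg.IrrCharacter K) hodd
    (fun k hk θ => Subtype.ext (H7.conjChar_of_mem (inv_mem hk) (H6.irr_isClassFunction θ.2)))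
    H87.irrConj (fun θ => Subtype.ext (funext fun x => Complex.conj_conj _)) (fun g θ => rfl)
  have h2 := card_orbits_fixed (X := ConjClasses K) hodd
    (fun k hk C => by
      obtain ⟨x, rfl⟩ := ConjClasses.mk_surjective C
      exact ConjClasses.mk_eq_mk_iff_isConj.2 (isConj_iff.2 ⟨(⟨k, hk⟩ : K), rfl⟩ : IsConj x _).symm) ι
    (fun C => by
      obtain ⟨x, rfl⟩ := ConjClasses.mk_surjective C
      rw [hι, hι, inv_inv])
    (fun g C => by
      obtain ⟨x, rfl⟩ := ConjClasses.mk_surjective C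
      rw [hsm, hι, hι, hsm, map_inv])
  have h3 : ∑ g : G, Nat.card {θ : Cfsg.IrrCharacter K // H87.irrConj (g • θ) = θ} =
      ∑ g : G, Nat.card {C : ConjClasses K // ι (g • C) = C} := by
    rw [← Equiv.sum_comp (Equiv.inv G)]
    refine Finset.sum_congr rfl fun g _ => H7.brauer_perm _ _ fun χ x y hxy => ?_
    rw [hsm, hι] at hxy
    rw [H6.classFun_of_isConj (H6.irr_isClassFunction χ.2) (ConjClasses.mk_eq_mk_iff_isConj.1 hxy),
      H6.char_inv (H6.irr_isCharacter χ.2)]
    show (starRingEnd ℂ) (H7.conjChar g⁻¹⁻¹ (χ : K → ℂ) x) = _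
    rw [inv_inv]; rfl
  have h4 := Nat.eq_of_mul_eq_mul_right Nat.card_pos (h1.trans (h3.trans h2.symm))
  refine (card_quot_eq (fun θ => ⟨θ.1, Subtype.ext (H87.isReal_iff_conj_eq.1 θ.2)⟩)
    (fun θ => ⟨⟨θ.1, H87.isReal_iff_conj_eq.2 (congrArg Subtype.val θ.2)⟩, rfl⟩) (fun θ η => ?_)
    fun θ => ⟨1, one_smul _ _⟩).trans (h4.trans (card_quot_eq
      (fun x => ⟨ConjClasses.mk x.1, (ConjClasses.mk_eq_mk_iff_isConj.2 x.2).symm⟩) (fun C => ?_)
      (fun x y => ?_) fun C => ⟨1, one_smul _ _⟩).symm)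
  · refine ⟨fun ⟨g, hg⟩ => ⟨g, Subtype.ext (funext fun k => (hg _ k ?_).symm)⟩,
      fun ⟨g, hg⟩ => ⟨g, fun k k' e => ?_⟩⟩
    · simp [mul_assoc]
    · rw [← congrFun (congrArg Subtype.val hg) k']
      exact congrArg (θ.1 : K → ℂ) (Subtype.ext (by simp [e, mul_assoc]))
  · obtain ⟨C, hC⟩ := C
    obtain ⟨x, rfl⟩ := ConjClasses.mk_surjective C
    exact ⟨⟨x, (ConjClasses.mk_eq_mk_iff_isConj.1 hC).symm⟩, rfl⟩
  · refine ⟨fun ⟨g, hg⟩ => ⟨g, congrArg ConjClasses.mk (Subtype.ext hg.symm)⟩, fun ⟨g, hg⟩ => ?_⟩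
    obtain ⟨c, hc⟩ := isConj_iff.1 (ConjClasses.mk_eq_mk_iff_isConj.1 hg)
    exact ⟨c * g, by rw [← hc]; simp [mul_assoc]⟩

end Cfsg.Agent.S4866
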