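import Mathlib
import Cfsg.Statements.S4870
import Cfsg.Agent.Lib.Deg.Cliff

set_option autoImplicit false
open Cfsg

namespace Cfsg.Agent.S4870



/-- Let G be a finite group with a non-abelian minimal normal subgroup N, and let φ be an irreducible complex character of N with stabilizer I in G (the elements g with φ(g n g⁻¹) = φ(n) for all n ∈ N) such that φ extends to an irreducible character of I. Put d = φ(1)·[G : I]. Then the number of linear characters of G is at most [G : I] times the number of irreducible characters of G of degree d. -/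
theorem result {G : Type*} [Group G] [Finite G] (N : Subgroup G) (hN : N.Normal) (hN1 : N ≠ ⊥) (hmin : ∀ M : Subgroup G, M.Normal → M ≤ N → M = ⊥ ∨ M = N) (hna : ¬ IsMulCommutative ↥N) (φ : Cfsg.IrrCharacter ↥N) (I : Subgroup G) (hI : ∀ g : G, g ∈ I ↔ ∀ n n' : ↥N, (n' : G) = g * (n : G) * g⁻¹ → (φ : ↥N → ℂ) n' = (φ : ↥N → ℂ) n) (hNI : N ≤ I) (hext : ∃ ψ : Cfsg.IrrCharacter ↥I, ∀ n : ↥N, (ψ : ↥I → ℂ) (Subgroup.inclusion hNI n) = (φ : ↥N → ℂ) n) : Nat.card {χ : Cfsg.IrrCharacter G // Cfsg.charDegree (χ : G → ℂ) = 1} ≤ I.index * Nat.card {χ : Cfsg.IrrCharacter G // Cfsg.charDegree (χ : G → ℂ) = Cfsg.charDegree (φ : ↥N → ℂ) * I.index} := by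
  classical
  have := Fintype.ofFinite G
  have := Fintype.ofFinite N
  obtain ⟨ψ, hψ⟩ := hext
  have hI' : H7.inertia (φ : N → ℂ) ≤ I := fun g hg => (hI g).2 fun n n' h => by
    rw [← H7.mem_inertia'.1 hg n]; exact congrArg _ (Subtype.ext h)
  have hNG : N ≤ commutator G := by
    rcases hmin ⁅N, N⁆ inferInstance (Subgroup.commutator_le_left _ _) with h | h
    · exact absurd (H3.isMulCommutative_of_commutator_eq_bot h) hna
    · rw [← h]; exact Subgroup.commutator_mono le_top le_top
  have hr : IsIrrCharacter (N.subgroupOf I) (fun n : N.subgroupOf I => (ψ : I → ℂ) n) := by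
    have := H7.isIrr_subgroupOf hNI φ.2
    convert this using 2 with n
    exact hψ ⟨(n : I), n.2⟩
  let B := {β : I →* ℂˣ // ∀ x ∈ N.subgroupOf I, β x = 1}
  have hirr : ∀ β : B, IsIrrCharacter I ((fun g => (β.1 g : ℂ)) * (ψ : I → ℂ)) := fun β =>
    H31.gallagher_isIrr _ (H6.irr_isCharacter ψ.2) hr (H6.isIrrCharacter_hom _)
      (fun n hn => by simp [β.2 n hn])
  have hov : ∀ β : B, classInner (fun n : N => ((fun g => (β.1 g : ℂ)) * (ψ : I → ℂ))
      ⟨n, hNI n.2⟩) φ ≠ 0 := fun β => by
    have : (fun n : N => ((fun g => (β.1 g : ℂ)) * (ψ : I → ℂ)) ⟨n, hNI n.2⟩) = φ := by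
      funext n
      rw [Pi.mul_apply, β.2 ⟨n, hNI n.2⟩ n.2, Units.val_one, one_mul]
      exact hψ n
    rw [this, H6.irr_inner_self φ.2]; exact one_ne_zero
  have h1 : Nat.card B ≤ Nat.card {χ : IrrCharacter G //
      charDegree (χ : G → ℂ) = charDegree (φ : N → ℂ) * I.index} := by
    refine Nat.card_le_card_of_injective (fun β => ⟨⟨indFun I _,
      H7.clifford_corr_isIrr hNI φ.2 hI' (hirr β) (hov β)⟩, ?_⟩) fun β γ h => ?_
    · rw [H87.deg_indFun I (H6.irr_isCharacter (hirr β)), mul_comm]
      congr 1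
      exact H87.deg_congr (by simpa using hψ 1)
    · have h2 := H7.clifford_corr_inj hNI φ.2 hI' (hirr β) (hirr γ) (hov β) (hov γ)
        (congrArg (fun x => x.1.1) h)
      have h3 := H31.gallagher_inj _ (H6.irr_isCharacter ψ.2) hr (H6.isIrrCharacter_hom _)
        (fun n hn => by simp [β.2 n hn]) (H6.isIrrCharacter_hom _)
        (fun n hn => by simp [γ.2 n hn]) h2
      exact Subtype.ext (H6.hom_coe_injective h3)
  have h2 : Nat.card {χ : IrrCharacter G // charDegree (χ : G → ℂ) = 1} = (commutator G).index := by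
    rw [← H6.card_linear_irr]
    exact Nat.card_congr (Equiv.subtypeEquivRight fun χ =>
      H87.deg_eq_one_iff (H6.irr_isCharacter χ.2))
  have h3 : (commutator G).relIndex I ≤ Nat.card B := by
    rw [Subgroup.relIndex, ← H87.card_hom_trivial ((commutator G).subgroupOf I) (by
      rw [← Subgroup.map_subtype_le_map_subtype, Subgroup.map_subtype_commutator,
        Subgroup.subgroupOf_map_subtype]
      exact le_inf (Subgroup.commutator_mono le_top le_top) (Subgroup.commutator_le.2
        fun a ha b hb => mul_mem (mul_mem (mul_mem ha hb) (inv_mem ha)) (inv_mem hb)))]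
    exact Nat.card_le_card_of_injective (fun β => ⟨β.1, fun x hx => β.2 x (hNG hx)⟩)
      fun β γ h => Subtype.ext (congrArg (fun x => x.1) h)
  rw [h2]
  calc (commutator G).index ≤ (commutator G ⊓ I).index :=
        Nat.le_of_dvd (Nat.pos_of_ne_zero Subgroup.index_ne_zero_of_finite)
          (Subgroup.index_dvd_of_le inf_le_left)
    _ = I.index * (commutator G).relIndex I := by
        rw [← Subgroup.relIndex_mul_index (inf_le_right : commutator G ⊓ I ≤ I),
          Subgroup.inf_relIndex_right, mul_comm]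
    _ ≤ _ := Nat.mul_le_mul_left _ (h3.trans h1)

end Cfsg.Agent.S4870
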