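import Mathlib
import Cfsg.Statements.S4871
import Cfsg.Agent.Lib.Deg.FS4
import Cfsg.Agent.Lib.PGroup.Basic
import Cfsg.Agent.Lib.Core.GrpBasic

set_option autoImplicit false
open Cfsg

namespace Cfsg.Agent.S4871



/-- Let G be a finite group that is the semidirect product of a normal elementary abelian subgroup N of odd order by a non-trivial 2-subgroup P, with N the unique minimal normal subgroup of G. Consider the strongly real irreducible complex characters of G (Frobenius–Schur indicator +1) whose degree is 1 or even. Then their average degree is at least 4/3: four times their number is at most three times the sum of their degrees. -/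
theorem result {G : Type*} [Group G] [Finite G] (N P : Subgroup G) (hN : N.Normal) (q : ℕ) [Fact q.Prime] (hq : q ≠ 2) (hNel : Cfsg.IsElementaryAbelian q N) (hP : IsPGroup 2 ↥P) (hP1 : P ≠ ⊥) (hdisj : N ⊓ P = ⊥) (hprod : N ⊔ P = ⊤) (hmin : N ≠ ⊥ ∧ ∀ M : Subgroup G, M.Normal → M ≠ ⊥ → N ≤ M) : 4 * Nat.card {χ : Cfsg.IrrCharacter G // (Cfsg.charDegree (χ : G → ℂ) = 1 ∨ 2 ∣ Cfsg.charDegree (χ : G → ℂ)) ∧ (Nat.card G : ℂ)⁻¹ * ∑ᶠ g : G, (χ : G → ℂ) (g * g) = 1} ≤ 3 * (∑ᶠ χ : {χ : Cfsg.IrrCharacter G // (Cfsg.charDegree (χ : G → ℂ) = 1 ∨ 2 ∣ Cfsg.charDegree (χ : G → ℂ)) ∧ (Nat.card G : ℂ)⁻¹ * ∑ᶠ g : G, (χ : G → ℂ) (g * g) = 1}, Cfsg.charDegree (χ.1 : G → ℂ)) := by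
  classical
  have := Fintype.ofFinite G
  have := Fintype.ofFinite N
  have hcomm : ∀ a ∈ N, ∀ b ∈ N, a * b = b * a := fun a ha b hb =>
    congrArg Subtype.val (hNel.1.is_comm.comm (⟨a, ha⟩ : N) ⟨b, hb⟩)
  have hqodd : Odd q := (Fact.out : q.Prime).odd_of_ne_two hq
  have hdec : ∀ g : G, ∃ n ∈ N, ∃ u ∈ P, g = n * u := H7.exists_mul_of_sup_eq_top_left hprod
  have hsq : ∀ n ∈ N, n * n = 1 → n = 1 := fun n hn h => by
    obtain ⟨k, hk⟩ := hqodd
    have := hNel.2 n hn
    rwa [hk, pow_succ, pow_mul, pow_two, h, one_pow, one_mul] at this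
  obtain ⟨z, hzP, hzc, hz⟩ := H5.exists_mem_centralizer_orderOf_eq hP le_rfl
    Subgroup.le_normalizer hP1
  obtain ⟨hz1, hz2⟩ := H87.orderOf_eq_two_iff'.1 hz
  have hzc' : ∀ u ∈ P, u * z = z * u := Subgroup.mem_centralizer_iff.1 hzc
  have hzN : z ∉ N := fun h => hz2 (hsq z h hz1)
  have hzi : z⁻¹ = z := inv_eq_of_mul_eq_one_right hz1
  -- `z` is central modulo `N`
  have hzg : ∀ g : G, z * g * z⁻¹ * g⁻¹ ∈ N := fun g => by
    obtain ⟨n, hn, u, hu, rfl⟩ := hdec g
    have : z * (n * u) * z⁻¹ * (n * u)⁻¹ = z * n * z⁻¹ * n⁻¹ := by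
      calc z * (n * u) * z⁻¹ * (n * u)⁻¹ = z * n * (u * z⁻¹) * u⁻¹ * n⁻¹ := by group
        _ = z * n * (z⁻¹ * u) * u⁻¹ * n⁻¹ := by rw [hzi, hzc' u hu]
        _ = _ := by group
    rw [this]
    exact mul_mem (hN.conj_mem n hn z) (inv_mem hn)
  -- `z` inverts `N`
  have hfix : ∀ n ∈ N, z * n = n * z → n = 1 := by
    have hn : (N ⊓ Subgroup.centralizer {z}).Normal := ⟨fun x hx g => by
      obtain ⟨n, hn, u, hu, rfl⟩ := hdec g
      have hx2 : z * x = x * z := Subgroup.mem_centralizer_iff.1 hx.2 z rfl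
      have e : n * u * x * (n * u)⁻¹ = u * x * u⁻¹ := by
        calc n * u * x * (n * u)⁻¹ = n * (u * x * u⁻¹) * n⁻¹ := by group
          _ = _ := by rw [hcomm n hn _ (hN.conj_mem x hx.1 u), mul_inv_cancel_right]
      rw [e]
      refine ⟨hN.conj_mem x hx.1 u, Subgroup.mem_centralizer_iff.2 ?_⟩
      intro y hy
      rw [Set.mem_singleton_iff.1 hy]
      calc z * (u * x * u⁻¹) = (z * u) * x * u⁻¹ := by group
        _ = u * (z * x) * u⁻¹ := by rw [← hzc' u hu]; group
        _ = u * x * (z * u⁻¹) := by rw [hx2]; group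
        _ = _ := by rw [← hzc' u⁻¹ (inv_mem hu)]; group⟩
    by_cases hb : N ⊓ Subgroup.centralizer {z} = ⊥
    · intro n hn h
      have : n ∈ N ⊓ Subgroup.centralizer {z} :=
        ⟨hn, Subgroup.mem_centralizer_iff.2 (by rintro _ rfl; exact h)⟩
      simpa [hb] using this
    · exfalso
      have h1 := hmin.2 _ hn hb
      have hc : z ∈ Subgroup.center G := Subgroup.mem_center_iff.2 fun g => by
        obtain ⟨n, hn, u, hu, rfl⟩ := hdec g
        rw [mul_assoc, hzc' u hu, ← mul_assoc, ← Subgroup.mem_centralizer_iff.1 (h1 hn).2 z rfl,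
          mul_assoc]
      have hn' : (Subgroup.zpowers z).Normal := ⟨fun x hx g => by
        rw [Subgroup.mem_center_iff.1 ((Subgroup.zpowers_le.2 hc) hx) g, mul_inv_cancel_right]
        exact hx⟩
      have h2 := hmin.2 _ hn' (by simpa using hz2)
      exact hmin.1 (by rw [← hdisj, left_eq_inf]; exact h2.trans (Subgroup.zpowers_le.2 hzP))
  have hinv : ∀ n ∈ N, z * n * z⁻¹ = n⁻¹ := fun n hn => by
    have h1 := hfix (n * (z * n * z⁻¹)) (mul_mem hn (hN.conj_mem n hn z)) (by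
      rw [hcomm n hn _ (hN.conj_mem n hn z), hzi]
      calc z * (z * n * z * n) = (z * z) * n * z * n := by group
        _ = n * z * n * (z * z) := by rw [hz1]; group
        _ = (n * (z * n * z)) * z := by group
        _ = _ := by
          have := hcomm n hn _ (hN.conj_mem n hn z)
          rw [hzi] at this
          rw [this])
    exact eq_inv_of_mul_eq_one_right h1
  have hNG : N ≤ commutator G := hmin.2 _ inferInstance fun h => by
    obtain ⟨n, hn, hn1⟩ := (Subgroup.nontrivial_iff_exists_ne_one N).1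
      ((Subgroup.nontrivial_iff_ne_bot N).2 hmin.1)
    refine hn1 (hfix n hn ?_)
    rw [← commutatorElement_eq_one_iff_mul_comm, ← Subgroup.mem_bot, ← h]
    exact Subgroup.commutator_mem_commutator trivial trivial
  -- a nontrivial linear character of `N` and its extension to the inertia group
  obtain ⟨lam, hlam⟩ : ∃ lam : N →* ℂˣ, lam ≠ 1 := by
    obtain ⟨n, hn, hn1⟩ := (Subgroup.nontrivial_iff_exists_ne_one N).1
      ((Subgroup.nontrivial_iff_ne_bot N).2 hmin.1)
    obtain ⟨lam, -, h⟩ := H87.exists_hom_trivial_ne_one (⊥ : Subgroup N) (by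
      rw [le_bot_iff, commutator_eq_bot_iff]; exact hNel.1) (g := ⟨n, hn⟩) (by simpa using hn1)
    exact ⟨lam, fun e => h (by simp [e])⟩
  have hlq : ∀ n, lam n ^ q = 1 := fun n => by
    rw [← map_pow, show n ^ q = 1 from Subtype.ext (hNel.2 n n.2), map_one]
  set T := H7.inertia (G := G) (fun n : N => (lam n : ℂ)) with hT
  have hmemT : ∀ g, g ∈ T ↔ ∀ n : N, lam ⟨g * n * g⁻¹, hN.conj_mem n n.2 g⟩ = lam n := fun g => by
    rw [hT, H7.mem_inertia']; simp only [Units.val_inj]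
  have hNT : N ≤ T := H7.le_inertia (H7.isClassFunction_hom lam)
  have hzT : z ∉ T := fun h => hlam (by
    ext n
    have h1 := (hmemT z).1 h n
    rw [show (⟨z * n * z⁻¹, hN.conj_mem n n.2 z⟩ : N) = n⁻¹ from Subtype.ext (hinv n n.2), map_inv,
      inv_eq_iff_mul_eq_one] at h1
    obtain ⟨k, hk⟩ := hqodd
    have h2 := hlq n
    rw [hk, pow_succ, pow_mul, pow_two, h1, one_pow, one_mul] at h2
    simp [h2])
  have hzt : ∀ t ∈ T, z * t * z⁻¹ ∈ T := fun t ht => by
    simpa using mul_mem (hNT (hzg t)) ht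
  have hidx : ∃ k, N.index = 2 ^ k := by
    obtain ⟨k, hk⟩ := IsPGroup.iff_card.1 hP
    refine ⟨k, ?_⟩
    rw [← hk, ← Subgroup.relIndex_top_right, ← hprod, Subgroup.relIndex_sup_left,
      ← Subgroup.inf_relIndex_right, hdisj, Subgroup.relIndex_bot_left]
  obtain ⟨k, hk⟩ := hidx
  have hcop : ∀ {m : ℕ}, m ∣ q → (N.subgroupOf T).index.Coprime m := fun hm =>
    Nat.Coprime.coprime_dvd_left (Subgroup.relIndex_dvd_index_of_le hNT)
      (hk ▸ (Nat.Coprime.coprime_dvd_right hm hqodd.coprime_two_left).pow_left k)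
  let f : N.subgroupOf T →* ℂˣ := lam.comp (H7.subgroupOfHom N T)
  have hfq : orderOf f ∣ q := (H31.orderOf_hom_dvd_iff f q).2 fun n => hlq _
  obtain ⟨F, hF1, hF2⟩ := H31.exists_hom_ext_of_coprime f (fun g n => (hmemT g).1 g.2 ⟨_, n.2⟩)
    (hcop hfq)
  have hF : ∀ n : N, F ⟨n, hNT n.2⟩ = lam n := fun n => hF1 ⟨⟨n, hNT n.2⟩, n.2⟩
  let c : T →* T := ⟨⟨fun t => ⟨z * t * z⁻¹, hzt t t.2⟩, Subtype.ext (by simp)⟩,
    fun a b => Subtype.ext (by simp)⟩
  have hFz : ∀ t : T, F ⟨z * t * z⁻¹, hzt t t.2⟩ = (F t)⁻¹ := by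
    have hFq : ∀ t, F t ^ q = 1 := (H31.orderOf_hom_dvd_iff F q).1 (hF2 ▸ hfq)
    have := H31.hom_ext_unique (N := N.subgroupOf T) (F := F.comp c) (F' := F⁻¹) (fun n hn => by
      have e : c n = n⁻¹ := Subtype.ext (hinv n hn)
      simp [e]) (hcop ((H31.orderOf_hom_dvd_iff _ q).2 fun t => hFq _))
      (hcop ((H31.orderOf_hom_dvd_iff _ q).2 fun t => by simp [hFq]))
    exact fun t => DFunLike.congr_fun this t
  have hT2 : 2 ∣ T.index := by
    have h1 := Subgroup.index_dvd_of_le hNT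
    rw [hk] at h1
    obtain ⟨j, -, hj⟩ := (Nat.dvd_prime_pow Nat.prime_two).1 h1
    rcases j with _ | j
    · exact absurd (Subgroup.index_eq_one.1 hj ▸ Subgroup.mem_top z) hzT
    · rw [hj]; exact dvd_pow_self 2 (Nat.succ_ne_zero j)
  have hT2' : 2 ≤ T.index := Nat.le_of_dvd (Nat.pos_of_ne_zero Subgroup.index_ne_zero_of_finite) hT2
  -- the characters
  let B := {β : T →* ℂˣ // (∀ x ∈ N.subgroupOf T, β x = 1) ∧ ∀ t, β t * β t = 1}
  have hov : ∀ β : B, classInner (fun n : N => (((β.1 * F) ⟨n, hNT n.2⟩ : ℂˣ) : ℂ))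
      (fun n : N => (lam n : ℂ)) ≠ 0 := fun β => by
    have : (fun n : N => (((β.1 * F) ⟨n, hNT n.2⟩ : ℂˣ) : ℂ)) = fun n : N => (lam n : ℂ) := by
      funext n
      rw [MonoidHom.mul_apply, β.2.1 ⟨n, hNT n.2⟩ n.2, one_mul, hF]
    rw [this, H6.irr_inner_self (H6.isIrrCharacter_hom lam)]; exact one_ne_zero
  let Φ : B → IrrCharacter G := fun β => ⟨indFun T (fun t => ((β.1 * F) t : ℂ)),
    H7.clifford_corr_isIrr hNT (H6.isIrrCharacter_hom lam) le_rfl (H6.isIrrCharacter_hom _) (hov β)⟩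
  have hΦi : Function.Injective Φ := fun β γ h => by
    have h2 := H7.clifford_corr_inj hNT (H6.isIrrCharacter_hom lam) le_rfl
      (H6.isIrrCharacter_hom _) (H6.isIrrCharacter_hom _) (hov β) (hov γ) (congrArg (fun x => x.1) h)
    exact Subtype.ext (mul_right_cancel (H6.hom_coe_injective h2))
  have hΦd : ∀ β, charDegree (Φ β : G → ℂ) = T.index := fun β => by
    rw [H87.deg_indFun T (H6.isCharacter_hom _), H87.deg_hom, mul_one]
  have hΦn : ∀ β, H87.nu (Φ β : G → ℂ) = 1 := fun β => by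
    refine H87.nu_indFun_hom_eq_one hNT _ hzt (fun t => ?_) ⟨hz1 ▸ one_mem _, ?_⟩ fun g hg => ?_
    · have e : (⟨z * t * z⁻¹, hzt t t.2⟩ : T) = ⟨_, hNT (hzg t)⟩ * t := Subtype.ext (by simp)
      rw [MonoidHom.mul_apply, MonoidHom.mul_apply, hFz, e, map_mul, β.2.1 _ (hzg t), one_mul,
        mul_inv, inv_eq_of_mul_eq_one_right (β.2.2 t)]
    · simp only [hz1]; exact map_one _
    · refine (hmemT g).2 fun n => ?_
      have := hg n
      rwa [MonoidHom.mul_apply, MonoidHom.mul_apply, β.2.1 ⟨n, hNT n.2⟩ n.2,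
        β.2.1 ⟨_, hNT (hN.conj_mem n n.2 g)⟩ (hN.conj_mem n n.2 g), one_mul, one_mul, hF,
        hF ⟨_, hN.conj_mem n n.2 g⟩] at this
  set S := Finset.univ.filter (fun χ : IrrCharacter G =>
    (charDegree (χ : G → ℂ) = 1 ∨ 2 ∣ charDegree (χ : G → ℂ)) ∧ H87.nu (χ : G → ℂ) = 1) with hS
  have hS' : ∀ χ : IrrCharacter G, χ ∈ S ↔ (charDegree (χ : G → ℂ) = 1 ∨ 2 ∣ charDegree (χ : G → ℂ)) ∧
      (Nat.card G : ℂ)⁻¹ * ∑ᶠ g : G, (χ : G → ℂ) (g * g) = 1 := fun χ => by
    rw [H87.nu_eq_finsum]; simp [hS]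
  rw [finsum_eq_sum_of_fintype, ← Finset.sum_subtype S hS'
    (fun χ : IrrCharacter G => charDegree (χ : G → ℂ)), Nat.subtype_card S hS']
  set L := S.filter (fun χ : IrrCharacter G => charDegree (χ : G → ℂ) = 1) with hL
  set E := S.filter (fun χ : IrrCharacter G => ¬ charDegree (χ : G → ℂ) = 1) with hE
  have := Fintype.ofFinite B
  have hsub : Finset.univ.image Φ ⊆ E := fun χ hχ => by
    obtain ⟨β, -, rfl⟩ := Finset.mem_image.1 hχ
    simp only [hE, hS, Finset.mem_filter, Finset.mem_univ, true_and, hΦd, hΦn, and_true]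
    exact ⟨Or.inr hT2, by omega⟩
  have hLB : L.card ≤ T.index * Fintype.card B := by
    have hlin : ∀ χ ∈ L, ∃ mu : G →* ℂˣ, (χ : G → ℂ) = (fun g => (mu g : ℂ)) ∧
        ∀ g, mu g * mu g = 1 := fun χ hχ => by
      simp only [hL, hS, Finset.mem_filter, Finset.mem_univ, true_and] at hχ
      have hc := H6.irr_isCharacter χ.2
      obtain ⟨mu, hmu⟩ := H6.exists_hom_of_char_one_eq_one hc ((H87.deg_eq_one_iff hc).1 hχ.2)
      refine ⟨mu, hmu, fun g => ?_⟩
      have := (H87.isReal_iff_inv hc).1 (H87.isReal_of_nu_eq_one χ.2 hχ.1.2) g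
      rw [hmu] at this
      simp only [map_inv, Units.val_inj] at this
      exact inv_eq_iff_mul_eq_one.1 this
    choose! mu hmu1 hmu2 using hlin
    let r : L → B := fun χ => ⟨(mu χ).comp T.subtype, fun x hx =>
      H31.hom_eq_one_of_mem_commutator (mu χ) (hNG hx), fun t => hmu2 χ χ.2 t⟩
    have hfib : ∀ β ∈ (Finset.univ : Finset B),
        (Finset.univ.filter (fun χ => r χ = β)).card ≤ T.index := fun β _ => by
      rcases (Finset.univ.filter (fun χ => r χ = β)).eq_empty_or_nonempty with h | ⟨χ0, h0⟩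
      · rw [h]; simp
      calc _ = Nat.card {χ // r χ = β} := by rw [Nat.card_eq_fintype_card, Fintype.card_subtype]
        _ ≤ Nat.card {lam : G →* ℂˣ // ∀ x ∈ T ⊔ commutator G, lam x = 1} := by
          refine Nat.card_le_card_of_injective (fun χ => ⟨mu χ.1 * (mu χ0)⁻¹, ?_⟩) fun a b h => ?_
          · have : T ⊔ commutator G ≤ (mu χ.1 * (mu χ0)⁻¹).ker := by
              refine sup_le (fun t ht => ?_) fun x hx => H31.hom_eq_one_of_mem_commutator _ hx
              have := DFunLike.congr_fun (congrArg Subtype.val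
                (χ.2.trans (Finset.mem_filter.1 h0).2.symm)) ⟨t, ht⟩
              rw [MonoidHom.mem_ker, MonoidHom.mul_apply, MonoidHom.inv_apply, mul_inv_eq_one]
              exact this
            exact this
          · have h1 : mu a.1 = mu b.1 := mul_right_cancel (congrArg Subtype.val h)
            exact Subtype.ext (Subtype.ext (Subtype.ext
              ((hmu1 _ a.1.2).trans (h1 ▸ (hmu1 _ b.1.2).symm))))
        _ = (T ⊔ commutator G).index := H87.card_hom_trivial _ le_sup_right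
        _ ≤ T.index := Nat.le_of_dvd (by omega) (Subgroup.index_dvd_of_le le_sup_left)
    have := Finset.card_le_mul_card_image_of_maps_to (f := r) (s := Finset.univ)
      (t := Finset.univ) (fun _ _ => Finset.mem_univ _) T.index hfib
    simpa using this
  have hE1 : T.index * Fintype.card B + 4 * E.card ≤ 3 * ∑ χ ∈ E, charDegree (χ : G → ℂ) := by
    have a : T.index * Fintype.card B ≤ ∑ χ ∈ E, charDegree (χ : G → ℂ) := by
      refine le_trans (le_of_eq ?_) (Finset.sum_le_sum_of_subset hsub)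
      rw [Finset.sum_image fun a _ b _ h => hΦi h]
      simp [hΦd, mul_comm]
    have b : E.card * 2 ≤ ∑ χ ∈ E, charDegree (χ : G → ℂ) := by
      rw [← smul_eq_mul]
      refine Finset.card_nsmul_le_sum _ _ _ fun χ hχ => ?_
      have := H87.deg_pos χ.2
      have := (Finset.mem_filter.1 hχ).2
      omega
    omega
  have hL1 : ∑ χ ∈ L, charDegree (χ : G → ℂ) = L.card := by
    rw [Finset.card_eq_sum_ones]
    exact Finset.sum_congr rfl fun χ hχ => (Finset.mem_filter.1 hχ).2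
  rw [← Finset.sum_filter_add_sum_filter_not S (fun χ : IrrCharacter G => charDegree (χ : G → ℂ) = 1),
    ← Finset.card_filter_add_card_filter_not (s := S) (fun χ : IrrCharacter G => charDegree (χ : G → ℂ) = 1),
    ← hL, ← hE, hL1]
  omega

end Cfsg.Agent.S4871
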