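import Mathlib
import Cfsg.Statements.S4872
import Cfsg.Agent.Lib.Deg.FS5
import Cfsg.Agent.Lib.H85.CharAux
import Cfsg.Agent.Lib.Block.Alg
import Cfsg.Agent.Lib.Transfer.NormalComplement
import Cfsg.Agent.Lib.Core.HallSZ

set_option autoImplicit false
open Cfsg

namespace Cfsg.Agent.S4872

open H33 in
theorem exists_real_class {G : Type*} [Group G] [Fintype G] {M : Ideal AlgInt} [M.IsMaximal]
    (hM : IsPModular 2 M) (w : G → ℂ) (hw : IsClassFunction G w) (hinv : ∀ g, w g⁻¹ = w g)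
    (hO : ∀ g, w g ∈ O M) {u : ℂ} (hu : red M u ≠ 0)
    (hsum : ∑ g, (Nat.card (Subgroup.centralizer ({g} : Set G)) : ℂ) * w g = Nat.card G * u) :
    ∃ x, IsConj x x⁻¹ ∧ red M (w x) ≠ 0 := by
  classical
  have := Fintype.ofFinite (ConjClasses G)
  have := charP hM
  by_contra hcon
  push Not at hcon
  choose rep hrep using ConjClasses.mk_surjective (α := G)
  have hout : ∀ g : G, IsConj (rep (ConjClasses.mk g)) g := fun g =>
    ConjClasses.mk_eq_mk_iff_isConj.1 (hrep _)
  have h1 := H87.sum_card_centralizer_mul (fun C : ConjClasses G => w (rep C))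
  simp only [fun g => H6.classFun_of_isConj hw (hout g)] at h1
  have h2 := mul_left_cancel₀ H6.card_ne_zero (hsum.symm.trans h1)
  rw [h2, red_sum _ fun _ _ => hO _] at hu
  refine hu (Finset.sum_involution (fun C _ => ConjClasses.mk (rep C)⁻¹) (fun C _ => ?_)
    (fun C _ h e => h ?_) (fun _ _ => Finset.mem_univ _) (fun C _ => ?_))
  · rw [H6.classFun_of_isConj hw (hout _), hinv]
    exact CharTwo.add_self_eq_zero _
  · refine hcon _ (ConjClasses.mk_eq_mk_iff_isConj.1 ?_)
    rw [e]; exact hrep C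
  · obtain ⟨c, hc⟩ := isConj_iff.1 (hout (rep C)⁻¹)
    conv_rhs => rw [← hrep C]
    refine ConjClasses.mk_eq_mk_iff_isConj.2 (isConj_iff.2 ⟨c, ?_⟩)
    rw [← conj_inv, hc, inv_inv]

theorem exists_inverting {G : Type*} [Group G] [Finite G] {x : G} (hx : IsConj x x⁻¹) :
    ∃ (D : Subgroup G) (s : G), D ≤ Subgroup.centralizer {x} ∧ IsPGroup 2 D ∧
      ¬ 2 ∣ D.relIndex (Subgroup.centralizer {x}) ∧ s * x * s⁻¹ = x⁻¹ ∧ s * s ∈ D ∧
      ∀ d ∈ D, s * d * s⁻¹ ∈ D := by
  obtain ⟨c, hc⟩ := isConj_iff.1 hx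
  obtain ⟨K, hK⟩ : ∃ K : Subgroup G, ∀ g, g ∈ K ↔ g * x * g⁻¹ = x ∨ g * x * g⁻¹ = x⁻¹ :=
    ⟨⟨⟨⟨{g | g * x * g⁻¹ = x ∨ g * x * g⁻¹ = x⁻¹}, fun {a b} ha hb => by
      have e : a * b * x * (a * b)⁻¹ = a * (b * x * b⁻¹) * a⁻¹ := by group
      rcases hb with hb | hb
      · simpa only [Set.mem_setOf_eq, e, hb] using ha
      · rcases ha with ha | ha
        · right; rw [e, hb, ← conj_inv, ha]
        · left; rw [e, hb, ← conj_inv, ha, inv_inv]⟩, Or.inl (by simp)⟩, fun {a} ha => by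
      rcases ha with ha | ha
      · left; nth_rewrite 1 [← ha]; group
      · right
        have : a * x⁻¹ * a⁻¹ = x := by rw [← conj_inv, ha, inv_inv]
        nth_rewrite 1 [← this]; group⟩, fun _ => Iff.rfl⟩
  have hC : ∀ g, g ∈ Subgroup.centralizer {x} ↔ g * x * g⁻¹ = x := fun g => by
    rw [Subgroup.mem_centralizer_singleton_iff, mul_inv_eq_iff_eq_mul]
  have hCK : Subgroup.centralizer {x} ≤ K := fun g hg => (hK g).2 (Or.inl ((hC g).1 hg))
  have hnorm : ∀ k ∈ K, ∀ g ∈ Subgroup.centralizer {x}, k * g * k⁻¹ ∈ Subgroup.centralizer {x} :=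
    fun k hk g hg => by
      have hg' := (hC g).1 hg
      rw [hC]
      have e : k * g * k⁻¹ * x * (k * g * k⁻¹)⁻¹ = k * (g * (k⁻¹ * x * k⁻¹⁻¹) * g⁻¹) * k⁻¹ := by
        group
      rcases (hK _).1 (inv_mem hk) with h | h
      · rw [e, h, hg']; nth_rewrite 1 [← h]; group
      · rw [e, h, ← conj_inv, hg', ← h]; group
  obtain ⟨k, m, hm, hkm⟩ := Nat.exists_eq_two_pow_mul_odd (orderOf_pos c).ne'
  obtain ⟨j, rfl⟩ := hm
  have hcc : c * c ∈ Subgroup.centralizer {x} := by
    rw [hC, show c * c * x * (c * c)⁻¹ = c * (c * x * c⁻¹) * c⁻¹ by group, hc, ← conj_inv, hc,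
      inv_inv]
  have hs : c ^ (2 * j + 1) * x * (c ^ (2 * j + 1))⁻¹ = x⁻¹ := by
    have := (hC _).1 (pow_mem hcc j)
    rw [pow_succ', pow_mul, pow_two, show c * (c * c) ^ j * x * (c * (c * c) ^ j)⁻¹ =
      c * ((c * c) ^ j * x * ((c * c) ^ j)⁻¹) * c⁻¹ by group, this, hc]
  have hA : IsPGroup 2 (Subgroup.zpowers (c ^ (2 * j + 1))) := by
    refine IsPGroup.of_card (n := k) ?_
    rw [Nat.card_zpowers, orderOf_pow' _ (by omega), hkm, Nat.gcd_eq_right (Dvd.intro_left _ rfl),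
      Nat.mul_div_cancel _ (by omega)]
  obtain ⟨S, hS1, hS2⟩ := H4.exists_sylow_ge_not_dvd_relIndex (K := K) hA
    (Subgroup.zpowers_le.2 ((hK _).2 (Or.inr hs)))
  have hsS : c ^ (2 * j + 1) ∈ (S : Subgroup G) := Subgroup.zpowers_le.1 hS1
  have hSp := S.isPGroup'
  generalize (S : Subgroup G) = T at hsS hSp hS2
  refine ⟨T ⊓ Subgroup.centralizer {x}, c ^ (2 * j + 1), inf_le_right, hSp.to_inf_left,
    ?_, hs, Subgroup.mem_inf.2 ⟨mul_mem hsS hsS, ?_⟩, fun d hd => Subgroup.mem_inf.2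
      ⟨mul_mem (mul_mem hsS (Subgroup.mem_inf.1 hd).1) (inv_mem hsS),
      hnorm _ ((hK _).2 (Or.inr hs)) d (Subgroup.mem_inf.1 hd).2⟩⟩
  · rw [Subgroup.inf_relIndex_right]
    intro h
    apply hS2
    have h1 : T ⊓ K ≤ Subgroup.normalizer (Subgroup.centralizer {x} : Subgroup G) :=
      fun g hg => H3.mem_normalizer_of_conj_mem (hnorm g (Subgroup.mem_inf.1 hg).2)
    have h2 := H3.relIndex_sup_right_of_le_normalizer h1
    rw [← Subgroup.inf_relIndex_right, ← Subgroup.relIndex_mul_relIndex (T ⊓ K)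
      (Subgroup.centralizer {x} ⊔ T ⊓ K) K le_sup_right (sup_le hCK inf_le_right), h2]
    refine Dvd.dvd.mul_right ?_ _
    rwa [← Subgroup.inf_relIndex_right (T ⊓ K), inf_assoc, inf_eq_right.2 hCK,
      Subgroup.inf_relIndex_right]
  · have := pow_mem hcc (2 * j + 1)
    rwa [(Commute.refl c).mul_pow] at this

/-- Let N be a normal subgroup of the finite group G with G/N a 2-group, and let φ be an irreducible complex character of N of 2-defect zero (the 2-part of #N divides φ(1)) whose complex conjugate is G-conjugate to φ. Then some irreducible character of G with Frobenius–Schur indicator +1 contains φ with multiplicity exactly one on restriction to N. -/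
theorem result {G : Type*} [Group G] [Finite G] (N : Subgroup G) [N.Normal] (h2 : IsPGroup 2 (G ⧸ N)) (φ : Cfsg.IrrCharacter ↥N) (hdef : 2 ^ (Nat.card ↥N).factorization 2 ∣ Cfsg.charDegree (φ : ↥N → ℂ)) (hconj : ∃ g : G, ∀ n n' : ↥N, (n' : G) = g * (n : G) * g⁻¹ → (φ : ↥N → ℂ) n' = (starRingEnd ℂ) ((φ : ↥N → ℂ) n)) : ∃ χ : Cfsg.IrrCharacter G, (Nat.card G : ℂ)⁻¹ * ∑ᶠ g : G, (χ : G → ℂ) (g * g) = 1 ∧ (Nat.card ↥N : ℂ)⁻¹ * ∑ᶠ n : ↥N, (χ : G → ℂ) n * (starRingEnd ℂ) ((φ : ↥N → ℂ) n) = 1 := by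
  classical
  have := Fintype.ofFinite G
  have hNf := Fintype.ofFinite N
  obtain ⟨M, hM⟩ := H85.exists_isPModular Nat.prime_two
  have := H33.isMaximal_of hM
  obtain ⟨g0, hg0⟩ := hconj
  have hφc := H6.irr_isCharacter φ.2
  have hbar : (fun n => (starRingEnd ℂ) ((φ : N → ℂ) n)) = H7.conjChar g0 (φ : N → ℂ) :=
    funext fun n => (hg0 n _ rfl).symm
  set Φ := H7.conjSum (φ : N → ℂ) with hΦ
  set t := (H7.inertia (φ : N → ℂ)).index with ht
  set d := charDegree (φ : N → ℂ) with hd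
  have ht0 : t ≠ 0 := Subgroup.index_ne_zero_of_finite
  have hd0 : d ≠ 0 := H87.deg_ne_zero φ.2
  have hΦc : IsCharacter N Φ := H7.isCharacter_conjSum hφc
  have hΦr : ∀ n, (starRingEnd ℂ) (Φ n) = Φ n := fun n => by
    have h1 := congrFun (H7.sum_conjChar (φ : N → ℂ)) n
    have h2 := congrFun (H7.sum_conjChar (H7.conjChar g0 (φ : N → ℂ))) n
    rw [H7.conjSum_conjChar, ← hbar] at h2
    have h3 : Nat.card (H7.inertia (fun n => (starRingEnd ℂ) ((φ : N → ℂ) n))) =
        Nat.card (H7.inertia (φ : N → ℂ)) := by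
      congr 2
      ext g
      simp only [H7.mem_inertia', (starRingEnd ℂ).injective.eq_iff]
    simp only [Finset.sum_apply, Pi.smul_apply, smul_eq_mul, H7.conjChar_conj, h3] at h1 h2
    rw [← map_sum, h1, map_mul, Complex.conj_natCast] at h2
    exact mul_left_cancel₀ H6.card_ne_zero h2
  obtain ⟨χ0, hχ0, hov0⟩ := H87.exists_over (G := G) φ.2
  obtain ⟨e0, he0, -, hres0⟩ := H7.clifford_nat hχ0 φ.2 (H87.over_iff.1 hov0)
  have hres0' : ∀ n : N, χ0 n = e0 * Φ n := fun n => congrFun hres0 n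
  have hχ01 : χ0 1 = e0 * (t * d) := by
    rw [hd, H87.deg_cast', ← H7.conjSum_apply_one]; exact hres0' 1
  have he0' : (e0 : ℂ) ≠ 0 := by exact_mod_cast he0.ne'
  have htd : ((t * d : ℕ) : ℂ) ≠ 0 := by exact_mod_cast mul_ne_zero ht0 hd0
  set F := extendByZero N Φ with hF
  have hFc : IsClassFunction G F := fun x g => by
    by_cases hx : x ∈ N
    · have hx' := ‹N.Normal›.conj_mem x hx g
      rw [hF, H7.extendByZero_of_mem _ _ hx, H7.extendByZero_of_mem _ _ hx']
      apply mul_left_cancel₀ he0'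
      rw [← hres0', ← hres0']
      exact H6.irr_isClassFunction hχ0 x g
    · rw [hF, H7.extendByZero_of_not_mem _ _ hx, H7.extendByZero_of_not_mem]
      exact fun h => hx (by simpa [mul_assoc] using ‹N.Normal›.conj_mem _ h g⁻¹)
  have hFi : ∀ g, F g⁻¹ = F g := fun g => by
    by_cases hx : g ∈ N
    · rw [hF, H7.extendByZero_of_mem _ _ hx, H7.extendByZero_of_mem _ _ (inv_mem hx),
        ← hΦr ⟨g, hx⟩, ← H6.char_inv hΦc]; rfl
    · rw [hF, H7.extendByZero_of_not_mem _ _ hx, H7.extendByZero_of_not_mem]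
      simpa using hx
  have hFO : ∀ g, F g ∈ H33.O M := fun g => by
    by_cases hx : g ∈ N
    · rw [hF, H7.extendByZero_of_mem _ _ hx]
      exact H33.mem_O_of_isIntegral M (H6.char_isIntegral hΦc _)
    · rw [hF, H7.extendByZero_of_not_mem _ _ hx]; exact zero_mem _
  have hω : ∀ n : N, centralChar χ0 n =
      ((Subgroup.centralizer ({(n : G)} : Set G)).index : ℂ) / (t * d : ℕ) * Φ n := fun n => by
    show _ * χ0 n / χ0 1 = _
    rw [hres0', hχ01]; push_cast; field_simp
  have hωO : ∀ g, centralChar χ0 g ∈ H33.O M := fun g =>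
    H33.mem_O_of_isIntegral M (H33.irr_centralChar_isIntegral ⟨χ0, hχ0⟩ g)
  obtain ⟨u, hu⟩ := H87.deg_dvd_card φ.2
  have hN0 : Nat.card N ≠ 0 := Nat.card_pos.ne'
  have hdf : d.factorization 2 = (Nat.card N).factorization 2 :=
    le_antisymm ((Nat.factorization_le_iff_dvd hd0 hN0).2 (H87.deg_dvd_card φ.2) 2)
      ((Nat.prime_two.pow_dvd_iff_le_factorization hd0).1 hdef)
  obtain ⟨x, hx1, hx2⟩ := exists_real_class hM (fun g => centralChar χ0 g * F g)
    (fun x g => by
      beta_reduce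
      rw [hFc, H33.centralChar_congr (H6.irr_isClassFunction hχ0)
        (isConj_iff.2 ⟨g, rfl⟩ : IsConj x (g * x * g⁻¹))])
    (fun g => by
      by_cases hx : g ∈ N
      · rw [hFi, hω ⟨g, hx⟩, hω ⟨g⁻¹, inv_mem hx⟩, ← hΦr ⟨g, hx⟩, ← H6.char_inv hΦc]
        congr 5
        ext y
        simp only [Subgroup.mem_centralizer_singleton_iff]
        exact ⟨fun h => (Commute.inv_right_iff (a := y) (b := g)).1 h,
          fun h => (Commute.inv_right_iff (a := y) (b := g)).2 h⟩
      · rw [hFi, hF, H7.extendByZero_of_not_mem _ _ hx, mul_zero, mul_zero])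
    (fun g => mul_mem (hωO g) (hFO g)) (u := (Nat.card N : ℂ) / d)
    ((H33.red_natCast_div_ne_zero_iff hM hN0 hd0).2 hdf.symm) (by
      have h1 := H6.card_mul_classInner Φ Φ
      rw [hΦ, H7.classInner_conjSum_self φ.2, ← hΦ, ← ht] at h1
      rw [Finset.sum_congr rfl fun g _ => show _ = F g *
        ((Nat.card (Subgroup.centralizer ({g} : Set G)) : ℂ) * centralChar χ0 g) by ring,
        hF, H7.sum_extendByZero_mul]
      have h2 : ∀ n : N, Φ n * ((Nat.card (Subgroup.centralizer ({(n : G)} : Set G)) : ℂ) *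
          centralChar χ0 n) = Nat.card G / (t * d : ℕ) * (Φ n * (starRingEnd ℂ) (Φ n)) := fun n => by
        rw [hω, hΦr, ← (Subgroup.centralizer ({(n : G)} : Set G)).card_mul_index]
        push_cast; ring
      rw [Finset.sum_congr rfl fun n _ => h2 n, ← Finset.mul_sum, ← h1]
      have : (t : ℂ) ≠ 0 := by exact_mod_cast ht0
      push_cast; field_simp)
  rw [H33.red_mul (hωO x) (hFO x), mul_ne_zero_iff] at hx2
  have hxN : x ∈ N := by
    by_contra h
    exact hx2.2 (by rw [hF, H7.extendByZero_of_not_mem _ _ h, H33.red_zero])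
  have hx3 : H33.red M (Φ ⟨x, hxN⟩) ≠ 0 := by
    have := hx2.2
    rwa [hF, H7.extendByZero_of_mem _ _ hxN] at this
  have hidx : (Subgroup.centralizer ({x} : Set G)).index.factorization 2 =
      (t * d).factorization 2 := by
    rw [← H33.red_natCast_div_ne_zero_iff hM Subgroup.index_ne_zero_of_finite (mul_ne_zero ht0 hd0)]
    have e : ((Subgroup.centralizer ({x} : Set G)).index : ℂ) / (t * d : ℕ) =
        centralChar χ0 x / Φ ⟨x, hxN⟩ := by
      rw [hω ⟨x, hxN⟩, mul_div_cancel_right₀ _ (H33.ne_zero_of_red_ne_zero hx3)]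
    rw [e, H33.red_div (hωO x) hx3]
    exact div_ne_zero hx2.1 hx3
  have hCN : ¬ 2 ∣ Nat.card (Subgroup.centralizer ({⟨x, hxN⟩} : Set N)) := by
    obtain ⟨ψ, hψ1, hψ2⟩ : ∃ ψ ∈ H7.conjOrbit (φ : N → ℂ), H33.red M (ψ ⟨x, hxN⟩) ≠ 0 := by
      by_contra h
      push Not at h
      apply hx3
      rw [hΦ, H7.conjSum_def, Finset.sum_apply, H33.red_sum _ fun ψ hψ => H33.mem_O_of_isIntegral M
        (H6.char_isIntegral (H6.irr_isCharacter (H7.isIrr_of_mem_conjOrbit φ.2 hψ)) _)]
      exact Finset.sum_eq_zero h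
    have h1 : centralChar ψ ⟨x, hxN⟩ / ψ ⟨x, hxN⟩ ∈ H33.O M := H33.div_mem_O
      (H33.mem_O_of_isIntegral M (H33.irr_centralChar_isIntegral
        ⟨ψ, H7.isIrr_of_mem_conjOrbit φ.2 hψ1⟩ _)) hψ2
    have e : centralChar ψ ⟨x, hxN⟩ / ψ ⟨x, hxN⟩ =
        ((Subgroup.centralizer ({⟨x, hxN⟩} : Set N)).index : ℂ) / d := by
      show _ * ψ _ / ψ 1 / ψ _ = _
      rw [H7.apply_one_of_mem_conjOrbit hψ1, hd, H87.deg_cast']
      have := H33.ne_zero_of_red_ne_zero hψ2
      field_simp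
    rw [e, H33.natCast_div_mem_O_iff hM Subgroup.index_ne_zero_of_finite hd0, hdf,
      ← (Subgroup.centralizer ({⟨x, hxN⟩} : Set N)).card_mul_index,
      Nat.factorization_mul Nat.card_pos.ne' Subgroup.index_ne_zero_of_finite] at h1
    intro h
    have := Nat.prime_two.factorization_pos_of_dvd Nat.card_pos.ne' h
    simp only [Finsupp.add_apply] at h1
    omega
  obtain ⟨D, s, hD1, hD2, hD3, hs1, hs2, hs3⟩ := exists_inverting hx1
  have hDN : ∀ y ∈ D, y ∈ N → y = 1 := fun y hy hyN => by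
    obtain ⟨k, hk⟩ := hD2 ⟨y, hy⟩
    have h1 : orderOf y ∣ 2 ^ k := orderOf_dvd_of_pow_eq_one (congrArg Subtype.val hk)
    have h2 : orderOf (⟨y, hyN⟩ : N) ∣ Nat.card (Subgroup.centralizer ({⟨x, hxN⟩} : Set N)) :=
      Subgroup.orderOf_dvd_natCard _ (Subgroup.mem_centralizer_singleton_iff.2
        (Subtype.ext (Subgroup.mem_centralizer_singleton_iff.1 (hD1 hy))))
    rw [Subgroup.orderOf_mk] at h2
    obtain ⟨j, -, hj⟩ := (Nat.dvd_prime_pow Nat.prime_two).1 h1
    rcases j with _ | j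
    · exact orderOf_eq_one_iff.1 hj
    · exact absurd ((hj ▸ dvd_pow_self 2 (Nat.succ_ne_zero j)).trans h2) hCN
  have hNT : N ≤ H7.inertia (φ : N → ℂ) := H7.le_inertia (H6.irr_isClassFunction φ.2)
  obtain ⟨a, ha⟩ : ∃ a, N.index = 2 ^ a := IsPGroup.iff_card.1 h2
  have hDcard : Nat.card D = N.relIndex (H7.inertia (φ : N → ℂ)) := by
    obtain ⟨b, hb⟩ := IsPGroup.iff_card.1 hD2
    obtain ⟨c, -, hc⟩ := (Nat.dvd_prime_pow Nat.prime_two).1
      (ha ▸ Subgroup.relIndex_dvd_index_of_le hNT)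
    have e1 : Nat.card G = (Subgroup.centralizer ({x} : Set G)).index *
        (D.relIndex (Subgroup.centralizer {x}) * 2 ^ b) := by
      rw [← hb, H3.relIndex_mul_card hD1, Subgroup.index_mul_card]
    have e2 : Nat.card G = 2 ^ c * t * Nat.card N := by
      rw [← hc, ht, Subgroup.relIndex_mul_index hNT, Subgroup.index_mul_card]
    have h0 : D.relIndex (Subgroup.centralizer {x}) ≠ 0 := Subgroup.index_ne_zero_of_finite
    have e3 := congrArg (fun n => n.factorization 2) (e1.symm.trans e2)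
    simp only [Nat.factorization_mul Subgroup.index_ne_zero_of_finite
      (mul_ne_zero h0 (pow_ne_zero b two_ne_zero)),
      Nat.factorization_mul h0 (pow_ne_zero b two_ne_zero),
      Nat.factorization_mul (mul_ne_zero (pow_ne_zero c two_ne_zero) ht0) hN0,
      Nat.factorization_mul (pow_ne_zero c two_ne_zero) ht0, Finsupp.add_apply, hidx,
      Nat.factorization_mul ht0 hd0, hdf, Nat.prime_two.factorization_pow,
      Finsupp.single_eq_same, Nat.factorization_eq_zero_of_not_dvd hD3] at e3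
    rw [hb, hc, show b = c by omega]
  -- a linear character of `⟨x⟩` of odd multiplicity
  let X := Subgroup.zpowers x
  have hXN : X ≤ N := Subgroup.zpowers_le.2 hxN
  have := Fintype.ofFinite X
  have := Fintype.ofFinite D
  obtain ⟨m, hm1, hm2, -⟩ := H87.char_decomp (H6.isCharacter_comp (Subgroup.inclusion hXN) hΦc)
  obtain ⟨ψ, hψ⟩ : ∃ ψ, ¬ 2 ∣ m ψ := by
    by_contra h
    push Not at h
    apply hx3
    have := hm2 ⟨x, Subgroup.mem_zpowers x⟩
    rw [show Φ ⟨x, hxN⟩ = _ from this, H33.red_sum _ fun ψ _ => mul_mem (natCast_mem _ _)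
      (H33.mem_O_of_isIntegral M (H6.char_isIntegral (H6.irr_isCharacter ψ.2) _))]
    refine Finset.sum_eq_zero fun ψ _ => ?_
    rw [H33.red_mul (natCast_mem _ _)
      (H33.mem_O_of_isIntegral M (H6.char_isIntegral (H6.irr_isCharacter ψ.2) _)),
      (H33.red_natCast_eq_zero_iff hM _).2 (h ψ), zero_mul]
  obtain ⟨lam, hlam⟩ := H6.irr_eq_hom_of_comm
    (fun a b => Subtype.ext (H87.comm_of_mem_zpowers x a a.2 b b.2)) ψ.2
  have hcomm : ∀ (y : X) (z : D), Commute (X.subtype y) (D.subtype z) := fun y z => by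
    obtain ⟨y, k, rfl⟩ := y
    exact ((show Commute (z : G) x from
      Subgroup.mem_centralizer_singleton_iff.1 (hD1 z.2)).symm).zpow_left k
  let f : X × D →* G := X.subtype.noncommCoprod D.subtype hcomm
  have hf : ∀ h : X × D, f h = h.1 * h.2 := fun _ => rfl
  let θ : X × D →* ℂˣ := lam.comp (MonoidHom.fst X D)
  have hsn : s ∈ Subgroup.normalizer (D : Set G) := H3.mem_normalizer_of_conj_mem hs3
  let σ : X × D ≃ X × D := (Equiv.inv X).prodCongr
    ⟨fun z => ⟨s * z * s⁻¹, hs3 z z.2⟩, fun z => ⟨s⁻¹ * z * s,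
      H3.conj_mem_of_mem_normalizer' hsn z.2⟩, fun z => Subtype.ext (by simp [mul_assoc]),
      fun z => Subtype.ext (by simp [mul_assoc])⟩
  have hσ : ∀ h, s * f h = f (σ h) * s := fun h => by
    obtain ⟨⟨y, k, rfl⟩, z⟩ := h
    show s * (x ^ k * z) = (x ^ k)⁻¹ * (s * z * s⁻¹) * s
    rw [← inv_zpow, ← hs1, conj_zpow]; group
  have hθ : ∀ h, θ (σ h) = (θ h)⁻¹ := fun h => map_inv lam h.1
  choose e he using fun χ : IrrCharacter G => H6.char_inner_nat
    (H6.isCharacter_restrict N (H6.irr_isCharacter χ.2)) hφc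
  choose b hb using fun χ : IrrCharacter G => H6.char_inner_nat
    (H6.isCharacter_comp f (H6.irr_isCharacter χ.2)) (H6.isCharacter_hom θ)
  obtain ⟨χ, hχ1, hχ2⟩ := H87.exists_nu_eq_one_of_odd (fun χ => e χ * b χ) (fun χ => by
      have e1 : (e (H87.irrConj χ) : ℂ) = e χ := by
        rw [← he, ← he, ← H7.classInner_res_conjChar g0 (H6.irr_isClassFunction (H87.irrConj χ).2), ← hbar]
        exact (H6.classInner_conj_conj _ _).trans (H6.char_inner_comm hφc
          (H6.isCharacter_restrict N (H6.irr_isCharacter χ.2)))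
      have e2 : (b (H87.irrConj χ) : ℂ) = b χ := by
        rw [← hb, ← hb]
        exact H87.inner_conj_of_inverting f θ s σ hσ hθ (H6.irr_isCharacter χ.2)
      rw [Nat.cast_injective e1, Nat.cast_injective e2])
    (fun χ h => by
      obtain ⟨k, hk⟩ := H87.even_inner_of_inverting f θ s σ hσ hθ (h0 := (1, ⟨s * s, hs2⟩))
        (by simp [hf]) (map_one lam) χ.2 h
      rw [hb] at hk
      have : b χ = 2 * k := by exact_mod_cast hk
      exact Even.mul_left ⟨k, by omega⟩ _)
    (by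
      have h1 : ((∑ χ, e χ * b χ : ℕ) : ℂ) =
          classInner (fun h => indFun N φ (f h)) (fun h => (θ h : ℂ)) := by
        have h2 : (fun h => indFun N φ (f h)) =
            ∑ χ : IrrCharacter G, (e χ : ℂ) • (fun h => (χ : G → ℂ) (f h)) := by
          funext h
          rw [H6.classFun_apply_eq_sum_irr (H7.isClassFunction_indFun N _), Finset.sum_apply]
          refine Finset.sum_congr rfl fun χ _ => ?_
          rw [H7.inner_indFun_eq_inner_res N (H6.irr_isGen φ.2) (H6.irr_isGen χ.2), he]; rfl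
        rw [h2, H6.classInner_sum_left, Nat.cast_sum]
        exact Finset.sum_congr rfl fun χ _ => by rw [H6.classInner_smul_left, hb, Nat.cast_mul]
      have h2 : classInner (fun h => indFun N φ (f h)) (fun h => (θ h : ℂ)) = m ψ := by
        rw [← hm1, H6.classInner_def, H6.classInner_def, Fintype.sum_prod_type, Nat.card_prod,
          Nat.cast_mul, mul_inv, mul_assoc, Finset.mul_sum]
        congr 1
        refine Finset.sum_congr rfl fun y _ => ?_
        rw [Finset.sum_eq_single 1]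
        · have := congrFun (H7.res_indFun_normal' (H6.irr_isClassFunction φ.2))
            (Subgroup.inclusion hXN y)
          rw [hf, OneMemClass.coe_one, mul_one, show indFun N φ y = _ from this, ← hDcard, hlam,
            Pi.smul_apply, smul_eq_mul, mul_assoc, ← mul_assoc, inv_mul_cancel₀ H6.card_ne_zero,
            one_mul]
          rfl
        · intro z _ hz
          rw [H7.indFun_eq_zero_of_not_mem_normal N N le_rfl, zero_mul]
          intro h
          exact hz (Subtype.ext (hDN z z.2 ((N.mul_mem_cancel_left (hXN y.2)).1 h)))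
        · simp
      have : ∑ χ, e χ * b χ = m ψ := by exact_mod_cast h1.trans h2
      rw [this]
      exact Nat.odd_iff.2 (by omega))
  refine ⟨χ, (H87.nu_eq_finsum _).trans hχ1, ?_⟩
  rw [finsum_eq_sum_of_fintype, ← H6.classInner_def, he]
  have hodd : Odd (e χ) := (Nat.odd_mul.1 hχ2).1
  have hne : classInner (fun n : N => (χ : G → ℂ) n) φ ≠ 0 := by
    rw [he]; exact_mod_cast hodd.pos.ne'
  obtain ⟨k, hk1, hk2⟩ := H31.exists_degree_ratio_dvd N χ.2 φ.2 hne
  have h3 := H7.clifford_degree χ.2 φ.2 hne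
  rw [hk1, he] at h3
  have h4 : k = e χ * t := by exact_mod_cast mul_right_cancel₀ (H6.irr_one_ne_zero φ.2) h3
  have h5 : e χ ∣ 2 ^ a := ha ▸ (Dvd.intro _ h4.symm).trans hk2
  rw [Nat.Coprime.eq_one_of_dvd (hodd.coprime_two_right.pow_right a) h5, Nat.cast_one]

end Cfsg.Agent.S4872
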