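import Mathlib
import Cfsg.Statements.S4873
import Cfsg.Agent.Lib.Deg.FS4

set_option autoImplicit false
open Cfsg

namespace Cfsg.Agent.S4873



/-- Let N be a normal subgroup of odd index in the finite group G. Then every irreducible complex character of N with Frobenius–Schur indicator +1 lies under exactly one irreducible character of G with Frobenius–Schur indicator +1. -/
theorem result {G : Type*} [Group G] [Finite G] (N : Subgroup G) [N.Normal] (hodd : Odd N.index) (φ : Cfsg.IrrCharacter ↥N) (hφ : (Nat.card ↥N : ℂ)⁻¹ * ∑ᶠ g : ↥N, (φ : ↥N → ℂ) (g * g) = 1) : ∃! χ : Cfsg.IrrCharacter G, (Nat.card G : ℂ)⁻¹ * ∑ᶠ g : G, (χ : G → ℂ) (g * g) = 1 ∧ (∑ᶠ n : ↥N, (χ : G → ℂ) n * (starRingEnd ℂ) ((φ : ↥N → ℂ) n)) ≠ 0 := by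
  classical
  have := Fintype.ofFinite G
  have := Fintype.ofFinite N
  rw [H87.nu_eq_finsum] at hφ
  simp only [H87.nu_eq_finsum]
  have hr := H87.isReal_of_nu_eq_one φ.2 hφ
  obtain ⟨χ, hχ⟩ := Finset.card_eq_one.1 (H87.card_real_over_of_odd hodd φ.2 hr)
  have hmem : ∀ ψ : IrrCharacter G, H87.Over N ψ φ ∧ H87.IsReal (ψ : G → ℂ) ↔ ψ = χ := fun ψ => by
    rw [← Finset.mem_singleton, ← hχ]; simp
  have h1 := H87.nu_indFun_of_odd hodd (φ : N → ℂ)
  rw [hφ, H87.nu_eq_sum_inner (H7.isClassFunction_indFun N _), Finset.sum_eq_single χ] at h1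
  · obtain ⟨e, he⟩ := H6.char_inner_nat (H7.isCharacter_indFun N (H6.irr_isCharacter φ.2))
      (H6.irr_isCharacter χ.2)
    refine ⟨χ, ⟨?_, ((hmem χ).2 rfl).1⟩, fun ψ hψ =>
      (hmem ψ).1 ⟨hψ.2, H87.isReal_of_nu_eq_one ψ.2 hψ.1⟩⟩
    refine (H87.nu_of_isReal χ.2 ((hmem χ).2 rfl).2).resolve_right fun h => ?_
    rw [he, h] at h1
    have : ((e + 1 : ℕ) : ℂ) = 0 := by push_cast; linear_combination -h1
    exact absurd (by exact_mod_cast this) (Nat.succ_ne_zero e)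
  · intro ψ _ hne
    by_cases hr' : H87.IsReal (ψ : G → ℂ)
    · rw [mul_eq_zero]; left
      by_contra h
      exact hne ((hmem ψ).1 ⟨H87.over_of_inner_indFun (H6.irr_isClassFunction ψ.2) h, hr'⟩)
    · rw [H87.nu_eq_zero_of_not_isReal ψ.2 hr', mul_zero]
  · simp

end Cfsg.Agent.S4873
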