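import Mathlib
import Cfsg.Statements.S4885
import Cfsg.Agent.Lib.Blk88.TateLin
import Cfsg.Agent.Lib.Transfer.NormalComplement
import Cfsg.Agent.Lib.Core.Hall
import Cfsg.Agent.Lib.Core.PCore

set_option autoImplicit false
open Cfsg

namespace Cfsg.Agent.S4885

set_option linter.style.haveILetI false

theorem step {G : Type*} [Group G] [Finite G] {p : ℕ} [hp : Fact p.Prime] {M : Ideal AlgInt}
    (hM : IsPModular p M) {X : Set (IrrCharacter G)}
    (hX : ∀ χ, χ ∈ X ↔ (χ ∈ principalBlock M G ∧ ¬ p ∣ charDegree (χ : G → ℂ)))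
    {R : Subgroup G} [R.Normal] (hi : ¬ p ∣ (H34.kerSub X).relIndex R) : R ≤ H34.kerSub X := by
  haveI := hM.2.1
  obtain ⟨P⟩ := (inferInstance : Nonempty (Sylow p G))
  set E := H34.kerSub X with hE
  -- elements of `R` of `p`-power order lie in `E`
  have key : ∀ x ∈ R, ∀ k, x ^ p ^ k ∈ E → x ∈ E := by
    intro x hx k hk
    have h1 : x ^ E.relIndex R ∈ E := by
      have := Subgroup.pow_index_mem (E.subgroupOf R) (⟨x, hx⟩ : R)
      simpa [Subgroup.mem_subgroupOf, Subgroup.relIndex] using this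
    have hc : Nat.Coprime (p ^ k) (E.relIndex R) :=
      Nat.Coprime.pow_left k ((Nat.Prime.coprime_iff_not_dvd hp.out).2 hi)
    have h2 := (QuotientGroup.eq_one_iff (N := E) _).2 hk
    have h3 := (QuotientGroup.eq_one_iff (N := E) _).2 h1
    rw [QuotientGroup.mk_pow] at h2 h3
    have h4 := Nat.dvd_gcd (orderOf_dvd_of_pow_eq_one h2) (orderOf_dvd_of_pow_eq_one h3)
    rw [hc, Nat.dvd_one, orderOf_eq_one_iff] at h4
    exact (QuotientGroup.eq_one_iff (N := E) _).1 h4
  have hnpc : HasNormalPComplement p R := by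
    refine H88.npc_of_prin_ker hM P R fun χ hχ hd x hx hxP => ?_
    obtain ⟨k, hk⟩ := P.isPGroup' ⟨x, hxP⟩
    have hk' : x ^ p ^ k = 1 := by simpa using congrArg Subtype.val hk
    exact H34.mem_kerSub.1 (key x hx k (hk' ▸ E.one_mem)) χ ((hX χ).2 ⟨hχ, hd⟩)
  haveI := H4.map_subtype_pResidual_normal (n := p) R
  have hK := (H4.hasNormalPComplement_iff_card_map R).1 hnpc
  intro x hx
  obtain ⟨k, hk⟩ := H4.exists_pow_mem_pResidual (⟨x, hx⟩ : R) p
  refine key x hx k (H34.mem_kerSub.2 fun χ hχ => ?_)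
  exact H34.principal_apply_of_mem hM hK ((hX χ).1 hχ).1 ⟨_, hk, by simp⟩

/-- Let p and q be primes dividing the order of the finite group G, and suppose G is p-solvable and q-solvable. Fix maximal ideals of the algebraic integers containing p and q, defining the principal p-block and the principal q-block. If the irreducible characters of degree prime to p in the principal p-block are exactly the irreducible characters of degree prime to q in the principal q-block, then p = q. -/
theorem result {G : Type*} [Group G] [Finite G] (p q : ℕ) [Fact p.Prime] [Fact q.Prime] (hp : p ∣ Nat.card G) (hq : q ∣ Nat.card G) (hps : Cfsg.IsPSolvable p G) (hqs : Cfsg.IsPSolvable q G) (Mp Mq : Ideal Cfsg.AlgInt) (hMp : Cfsg.IsPModular p Mp) (hMq : Cfsg.IsPModular q Mq) (h : ∀ χ : Cfsg.IrrCharacter G, (χ ∈ Cfsg.principalBlock Mp G ∧ ¬ p ∣ Cfsg.charDegree (χ : G → ℂ)) ↔ (χ ∈ Cfsg.principalBlock Mq G ∧ ¬ q ∣ Cfsg.charDegree (χ : G → ℂ))) : p = q := by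
  by_contra hne
  haveI := hMp.2.1
  set X : Set (IrrCharacter G) :=
    {χ | χ ∈ principalBlock Mp G ∧ ¬ p ∣ charDegree (χ : G → ℂ)} with hXdef
  have hXp : ∀ χ, χ ∈ X ↔ (χ ∈ principalBlock Mp G ∧ ¬ p ∣ charDegree (χ : G → ℂ)) :=
    fun _ => Iff.rfl
  have hXq : ∀ χ, χ ∈ X ↔ (χ ∈ principalBlock Mq G ∧ ¬ q ∣ charDegree (χ : G → ℂ)) :=
    fun χ => h χ
  have hE : H34.kerSub X = ⊤ := by
    by_contra hE
    obtain ⟨L, hLn, hlt, hL⟩ := H3.isPiSeparable_of_isPSolvable Fact.out hps _ inferInstance hE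
    haveI := hLn
    apply hlt.not_ge
    rcases hL with hL | hL
    · refine step hMq hXq fun hd => hne ?_
      exact (H3.piNum_iff.1 hL q Fact.out hd).symm
    · exact step hMp hXp (H3.piNum_compl_iff.1 hL p Fact.out rfl)
  obtain ⟨P⟩ := (inferInstance : Nonempty (Sylow p G))
  have hc : commutator (P : Subgroup G) = ⊤ := by
    rw [eq_top_iff]
    intro x _
    refine H88.mem_commutator_of_forall_hom fun lam => ?_
    obtain ⟨χ, hχ, hd, hl⟩ := H88.exists_prin_over_hom hMp P lam
    have hx : (x : G) ∈ H34.kerSub X := by rw [hE]; trivial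
    exact hl x (H34.mem_kerSub.1 hx χ ⟨hχ, hd⟩)
  haveI : Nontrivial (P : Subgroup G) := by
    rw [← Finite.one_lt_card_iff_nontrivial]
    have h1 := P.dvd_card_of_dvd_card hp
    exact lt_of_lt_of_le (Fact.out : p.Prime).one_lt (Nat.le_of_dvd Nat.card_pos h1)
  exact H1.frattini_ne_top (eq_top_iff.2 (hc ▸ H1.commutator_le_frattini P.isPGroup'))

end Cfsg.Agent.S4885
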