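import Cfsg.Statements.S4886
import Mathlib
import Cfsg.Agent.Lib.Blk86.NW

set_option autoImplicit false
open Cfsg

namespace Cfsg.Agent.S4886

set_option linter.style.haveILetI false
set_option linter.unusedVariables false

theorem aux {G : Type*} [Group G] [Finite G] {p q : ℕ} [Fact p.Prime] [Fact q.Prime]
    {M : Ideal AlgInt} (hM : IsPModular p M) (hs : IsPSolvable p G)
    (h : ∀ χ : IrrCharacter G, χ ∈ principalBlock M G → ¬ p ∣ charDegree (χ : G → ℂ) →
      ¬ q ∣ charDegree (χ : G → ℂ)) : H86.PQ p q (G ⧸ pPrimeCore p G) := fun ψ hψ h1 => by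
  have := h ⟨_, H87.isIrr_infl _ hψ⟩ ((H87.mem_principal_iff_of_isPSolvable hM hs _).2
    (H87.le_charKer_infl _ ψ)) (by rwa [← H87.deg_infl] at h1)
  rwa [← H87.deg_infl]

theorem aux2 {G : Type*} [Group G] [Finite G] {p q : ℕ} [Fact p.Prime]
    {M : Ideal AlgInt} (hM : IsPModular p M) (hs : IsPSolvable p G)
    (h : ¬ q ∣ (pPrimeCore p G).index) (χ : IrrCharacter G) (hχ : χ ∈ principalBlock M G) :
    ¬ q ∣ charDegree (χ : G → ℂ) := fun hd =>
  h (hd.trans ((H87.deg_dvd_index_charKer χ.2).trans (Subgroup.index_dvd_of_le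
    ((H87.mem_principal_iff_of_isPSolvable hM hs _).1 hχ))))

/-- Let p ≠ q be primes and G a finite group that is p-solvable and q-solvable. Fix maximal ideals of the algebraic integers containing p and q, defining the principal p-block and the principal q-block. Then every irreducible character of degree prime to p in the principal p-block has degree prime to q and every irreducible character of degree prime to q in the principal q-block has degree prime to p, if and only if some Sylow p-subgroup of G commutes elementwise with some Sylow q-subgroup. -/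
theorem result {G : Type*} [Group G] [Finite G] (p q : ℕ) [Fact p.Prime] [Fact q.Prime] (hpq : p ≠ q) (Mp Mq : Ideal Cfsg.AlgInt) (hMp : Cfsg.IsPModular p Mp) (hMq : Cfsg.IsPModular q Mq) (hps : Cfsg.IsPSolvable p G) (hqs : Cfsg.IsPSolvable q G) : ((∀ χ : Cfsg.IrrCharacter G, χ ∈ Cfsg.principalBlock Mp G → ¬ p ∣ Cfsg.charDegree (χ : G → ℂ) → ¬ q ∣ Cfsg.charDegree (χ : G → ℂ)) ∧ (∀ χ : Cfsg.IrrCharacter G, χ ∈ Cfsg.principalBlock Mq G → ¬ q ∣ Cfsg.charDegree (χ : G → ℂ) → ¬ p ∣ Cfsg.charDegree (χ : G → ℂ))) ↔ ∃ (P : Sylow p G) (Q : Sylow q G), ∀ x ∈ (P : Subgroup G), ∀ y ∈ (Q : Subgroup G), x * y = y * x := by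
  refine ⟨fun ⟨h1, h2⟩ => H86.exists_commute_sylow hpq
    (H86.not_dvd_index_pPrimeCore hpq hps hqs (aux hMp hps h1))
    (H86.not_dvd_index_pPrimeCore hpq.symm hqs hps (aux hMq hqs h2)), fun ⟨P, Q, h⟩ =>
    ⟨fun χ hχ _ => aux2 hMp hps (H86.not_dvd_index_of_commute hpq hps h) χ hχ,
      fun χ hχ _ => aux2 hMq hqs (H86.not_dvd_index_of_commute hpq.symm hqs
        fun x hx y hy => (h y hy x hx).symm) χ hχ⟩⟩

end Cfsg.Agent.S4886
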