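import Mathlib
import Cfsg.Statements.S4888
import Cfsg.Agent.Lib.Blk88.TateLin
import Cfsg.Agent.Lib.Transfer.NormalComplement

set_option autoImplicit false
open Cfsg

namespace Cfsg.Agent.S4888

set_option linter.style.haveILetI false


/-- Let G be a finite group, p a prime and M a maximal ideal of the algebraic integers containing p. Then all height-zero irreducible characters of the principal p-block of G (equivalently, all its characters of degree prime to p) have the same degree if and only if G has a normal p-complement. -/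
theorem result {G : Type*} [Group G] [Finite G] (p : ℕ) [Fact p.Prime] (M : Ideal Cfsg.AlgInt) (hM : Cfsg.IsPModular p M) : (∃ d : ℕ, ∀ χ : Cfsg.IrrCharacter G, χ ∈ (Cfsg.principalBlock M G) → Cfsg.blockHeight p (Cfsg.principalBlock M G) (χ : G → ℂ) = 0 → Cfsg.charDegree (χ : G → ℂ) = d) ↔ Cfsg.HasNormalPComplement p G := by
  haveI := hM.2.1
  haveI := H4.pResidual_normal p G
  constructor
  · rintro ⟨d, hd⟩
    have h1 : d = 1 := by
      rw [← hd (H33.oneIrr G) H33.oneIrr_mem_principalBlock
        (H85.height_eq_zero_of_not_dvd _ (by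
          rw [H33.charDegree_oneIrr]; simpa using (Fact.out : p.Prime).ne_one)),
        H33.charDegree_oneIrr]
    subst h1
    obtain ⟨P⟩ := (inferInstance : Nonempty (Sylow p G))
    rw [H4.hasNormalPComplement_iff_of_pResidual_le (le_refl (pResidual p G))]
    refine H88.npc_of_prin_ker hM P _ fun χ hχ hdeg x hx hxP => ?_
    have h2 := hd χ hχ (H85.height_eq_zero_of_not_dvd _ hdeg)
    have h3 : (χ : G → ℂ) 1 = 1 := by rw [H85.irr_one_eq_charDegree, h2]; simp
    rw [h3]
    exact H6.char_commutator_of_one_eq_one (H6.irr_isCharacter χ.2) h3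
      (H4.pResidual_inf_le_commutator P.isPGroup' ⟨hx, hxP⟩)
  · intro h
    refine ⟨1, fun χ hχ h0 => ?_⟩
    have h1 := H88.not_dvd_of_height_zero_prin h0
    have h2 := H88.charDegree_dvd_index (N := pResidual p G) (χ := χ) fun n hn =>
      H34.principal_apply_of_mem hM (H4.hasNormalPComplement_iff_not_dvd.1 h) hχ hn
    obtain ⟨k, hk⟩ := H4.index_pResidual_eq_pow (G := G) p
    rw [hk] at h2
    obtain ⟨j, -, hj⟩ := (Nat.dvd_prime_pow Fact.out).1 h2
    rcases j with _ | j
    · simpa using hj
    · exact absurd (hj ▸ dvd_pow_self p (Nat.succ_ne_zero j)) h1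

end Cfsg.Agent.S4888
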