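import Mathlib
import Cfsg.Statements.S4892
import Cfsg.Agent.Lib.Blk88.CanP

set_option autoImplicit false
open Cfsg

namespace Cfsg.Agent.S4892

set_option linter.style.haveILetI false


/-- Let p be an odd prime, M a maximal ideal of the algebraic integers containing p, N a normal subgroup of the finite group G, and θ an irreducible character of N that is G-invariant, of degree prime to p, p-rational (values in the field generated over ℚ by a root of unity of order prime to p) and lies in the principal p-block of N. Let Q be a Sylow p-subgroup of N and suppose the index of N·C_G(Q) in G is a power of p. Then θ extends to a p-rational irreducible character of G lying in the principal p-block of G. -/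
theorem result {G : Type*} [Group G] [Finite G] (p : ℕ) [Fact p.Prime] (hp : p ≠ 2) (M : Ideal Cfsg.AlgInt) (hM : Cfsg.IsPModular p M) (N : Subgroup G) [N.Normal] (θ : Cfsg.IrrCharacter ↥N) (hinv : ∀ g : G, ∀ n n' : ↥N, (n' : G) = g * (n : G) * g⁻¹ → (θ : ↥N → ℂ) n' = (θ : ↥N → ℂ) n) (hdeg : ¬ p ∣ Cfsg.charDegree (θ : ↥N → ℂ)) (hrat : ∃ m : ℕ, ¬ p ∣ m ∧ ∀ n : ↥N, (θ : ↥N → ℂ) n ∈ IntermediateField.adjoin ℚ ({Complex.exp (2 * Real.pi * Complex.I / m)} : Set ℂ)) (hB : θ ∈ Cfsg.principalBlock M ↥N) (Q : Sylow p ↥N) (hidx : ∃ a : ℕ, (N ⊔ Subgroup.centralizer (((Q : Subgroup ↥N).map N.subtype : Subgroup G) : Set G)).index = p ^ a) : ∃ χ : Cfsg.IrrCharacter G, χ ∈ (Cfsg.principalBlock M G) ∧ (∃ n : ℕ, ¬ p ∣ n ∧ ∀ g : G, (χ : G → ℂ) g ∈ IntermediateField.adjoin ℚ ({Complex.exp (2 * Real.pi * Complex.I / n)} : Set ℂ)) ∧ ∀ n : ↥N, (χ : G → ℂ) n = (θ : ↥N → ℂ) n := by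
  haveI := H33.isMaximal_of hM
  obtain ⟨m, hm, hrat⟩ := hrat
  obtain ⟨a, ha⟩ := hidx
  have hN : N.Normal := inferInstance
  set Q0 : Subgroup G := (Q : Subgroup ↥N).map N.subtype with hQ0
  set C : Subgroup G := Subgroup.centralizer (Q0 : Set G) with hC
  haveI : (N ⊔ C).Normal := by
    refine ⟨fun x hx g => ?_⟩
    have hg : g ∈ N ⊔ Subgroup.normalizer (Q0 : Set G) := by
      rw [sup_comm, Sylow.normalizer_sup_eq_top Q]; trivial
    rw [← SetLike.mem_coe, Subgroup.normal_mul] at hx hg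
    obtain ⟨n, hn, c, hc, rfl⟩ := hx
    obtain ⟨k, hk, b, hb, rfl⟩ := hg
    have h1 : b * c * b⁻¹ ∈ C := by
      intro y hy
      have h2 := hc _ ((Subgroup.mem_normalizer_iff''.1 hb y).1 hy)
      calc y * (b * c * b⁻¹) = b * (b⁻¹ * y * b * c) * b⁻¹ := by group
        _ = b * c * b⁻¹ * y := by rw [h2]; group
    show k * b * (n * c) * (k * b)⁻¹ ∈ N ⊔ C
    rw [show k * b * (n * c) * (k * b)⁻¹ = k * (b * n * b⁻¹) * (b * c * b⁻¹) * k⁻¹ by group]
    exact mul_mem (mul_mem (mul_mem (Subgroup.mem_sup_left hk)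
      (Subgroup.mem_sup_left (hN.conj_mem n hn b))) (Subgroup.mem_sup_right h1))
      (Subgroup.mem_sup_left (inv_mem hk))
  have H : H88.CHyp M Q θ := by
    refine ⟨hM, hB, fun g n hn => ?_, hdeg,
      H88.pd_of_rat hp (H6.irr_isCharacter θ.2) hm hrat, a, fun g => ?_⟩
    · rw [H7.extendByZero_of_mem N _ hn, H7.extendByZero_of_mem N _ (hN.conj_mem n hn g)]
      exact hinv g _ _ rfl
    · have h1 := (N ⊔ C).pow_index_mem g
      rw [ha, ← SetLike.mem_coe, Subgroup.normal_mul] at h1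
      obtain ⟨n, hn, c, hc, e⟩ := h1
      exact ⟨n, hn, c, fun x hx => (hc _ ⟨x, hx, rfl⟩).symm, e.symm⟩
  obtain ⟨χ, h1, h2, h3⟩ := H.exists_ext
  refine ⟨χ, h1, ⟨m, hm, fun g => ?_⟩, h2⟩
  exact H88.mem_of_forall_ringEquiv _ (H8.IsIrrCharacter_isIntegral χ.2 g).tower_top
    fun σ hσ => h3 (σ : ℂ →+* ℂ) (fun n => hσ _ (hrat n)) g

end Cfsg.Agent.S4892
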