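import Mathlib
import Cfsg.Statements.S4911
import Cfsg.Agent.Lib.Glaub.Solvable
import Cfsg.Agent.Lib.Core.CoprimeBasic
import Cfsg.Agent.S0160
-- import your own Cfsg.Agent.* helpers here

set_option autoImplicit false
set_option linter.style.haveILetI false
open Cfsg

namespace Cfsg.Agent.S4911

open scoped ComplexConjugate

theorem real_iff {G : Type*} (χ : G → ℂ) : (∀ g, (χ g).im = 0) ↔ (fun g => conj (χ g)) = χ :=
  ⟨fun h => funext fun g => Complex.conj_eq_iff_im.2 (h g),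
    fun h g => Complex.conj_eq_iff_im.1 (congrFun h g)⟩

theorem card_real {p : ℕ} [Fact p.Prime] {A G C : Type*} [Group A] [Group G] [Fintype G]
    [Group C] [Fintype C] [MulDistribMulAction A G] {ι : C →* G} (h : H88.GlSetup p A ι) :
    Nat.card {χ : IrrCharacter G // (∀ g, (χ.1 g).im = 0) ∧ H88.Inv A χ.1} =
      Nat.card {β : IrrCharacter C // ∀ g, (β.1 g).im = 0} := by
  have hm : ∀ (χ : IrrCharacter G) (β : IrrCharacter C),
      H88.mult (fun c => conj (χ.1 (ι c))) (fun c => conj (β.1 c)) =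
        H88.mult (fun c => χ.1 (ι c)) β.1 := by
    intro χ β
    rw [H88.mult, H6.classInner_conj_conj (fun c => χ.1 (ι c)) β.1,
      H88.mult_comm (H6.isCharacter_comp ι (H6.irr_isCharacter χ.2)) (H6.irr_isCharacter β.2)]
    rfl
  have ex := fun χ : {χ : IrrCharacter G // (∀ g, (χ.1 g).im = 0) ∧ H88.Inv A χ.1} =>
    h.exists_corr_right χ.1 χ.2.2
  choose f hf using ex
  refine Nat.card_congr (Equiv.ofBijective (fun χ => ⟨f χ, ?_⟩) ⟨fun χ ψ e => ?_, fun β => ?_⟩)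
  · have h1 := hm χ.1 (f χ)
    simp only [congrFun ((real_iff _).1 χ.2.1)] at h1
    have := h.corr_unique_right χ.1 χ.2.2 ⟨_, H6.isIrrCharacter_conj (f χ).2⟩ (f χ)
      (by rw [h1]; exact hf χ) (hf χ)
    exact (real_iff _).2 (congrArg Subtype.val this)
  · have e' : f χ = f ψ := congrArg Subtype.val e
    exact Subtype.ext (h.corr_unique_left χ.1 ψ.1 χ.2.2 ψ.2.2 (f χ) (hf χ) (e' ▸ hf ψ))
  · obtain ⟨χ, hχ, h1⟩ := h.exists_corr_left β.1
    have h2 := hm χ β.1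
    rw [(real_iff _).1 β.2] at h2
    have := h.corr_unique_left ⟨_, H6.isIrrCharacter_conj χ.2⟩ χ
      (fun a g => congrArg conj (hχ a g)) hχ β.1 (by rw [h2]; exact h1) h1
    have h3 := (real_iff _).2 (congrArg Subtype.val this)
    exact ⟨⟨χ, h3, hχ⟩, Subtype.ext (h.corr_unique_right χ hχ _ _ (hf ⟨χ, h3, hχ⟩) h1)⟩

/-- Let P and K be subgroups of a finite group with P a p-group normalizing K and K of order prime to p. Then the number of P-invariant real-valued irreducible complex characters of K equals the number of conjugacy classes of K that are real (closed under inversion) and P-invariant. Moreover, if every real-valued irreducible character of K is P-invariant, then every real element of K (one conjugate in K to its inverse) is conjugate in K to an element centralized by P. -/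
theorem result {G : Type*} [Group G] [Finite G] (p : ℕ) [Fact p.Prime] (P K : Subgroup G) (hP : IsPGroup p ↥P) (hK : ¬ p ∣ Nat.card ↥K) (hPK : P ≤ Subgroup.normalizer (K : Set G)) : Nat.card {θ : Cfsg.IrrCharacter ↥K // (∀ k : ↥K, ((θ : ↥K → ℂ) k).im = 0) ∧ (∀ x ∈ P, ∀ k k' : ↥K, (k' : G) = x * (k : G) * x⁻¹ → (θ : ↥K → ℂ) k' = (θ : ↥K → ℂ) k)} = Nat.card {c : ConjClasses ↥K // (∀ k : ↥K, ConjClasses.mk k = c → IsConj k k⁻¹) ∧ ∀ k : ↥K, ConjClasses.mk k = c → ∀ x ∈ P, ∀ k' : ↥K, (k' : G) = x * (k : G) * x⁻¹ → ConjClasses.mk k' = c} ∧ ((∀ θ : Cfsg.IrrCharacter ↥K, (∀ k : ↥K, ((θ : ↥K → ℂ) k).im = 0) → (∀ x ∈ P, ∀ k k' : ↥K, (k' : G) = x * (k : G) * x⁻¹ → (θ : ↥K → ℂ) k' = (θ : ↥K → ℂ) k)) → ∀ k : ↥K, IsConj k k⁻¹ → ∃ k' : ↥K, IsConj k k' ∧ ∀ x ∈ P, x * (k' : G) * x⁻¹ = (k' : G)) := by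
  classical
  haveI : Fintype K := Fintype.ofFinite _
  have hnorm : ∀ s ∈ P, ∀ g ∈ K, s * g * s⁻¹ ∈ K := fun s hs g hg =>
    (Subgroup.mem_normalizer_iff.1 (hPK hs) g).1 hg
  letI := H88.conjAction K P hnorm
  let C : Subgroup G := K ⊓ Subgroup.centralizer (P : Set G)
  haveI : Fintype C := Fintype.ofFinite _
  have hCK : C ≤ K := inf_le_left
  have hs : H88.GlSetup p P (Subgroup.inclusion hCK) :=
    ⟨hP, hK, Subgroup.inclusion_injective _, H88.conjAction_fix K P hnorm C rfl hCK⟩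
  have hcop : (Nat.card P).Coprime (Nat.card K) := by
    obtain ⟨k, hk⟩ := hP.exists_card_eq
    rw [hk]
    exact Nat.Coprime.pow_left k ((Nat.Prime.coprime_iff_not_dvd Fact.out).2 hK)
  have hsolv : Group.IsSolvable P := by
    haveI := hP.isNilpotent
    infer_instance
  letI act : MulAction G G := MulAction.compHom G (ConjAct.toConjAct (G := G)).toMonoidHom
  have fx : ∀ y : C, ∀ a ∈ P, a * (y : G) * a⁻¹ = y := fun y a ha => by
    rw [Subgroup.mem_centralizer_iff.1 y.2.2 a ha]; group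
  have hinj : ∀ c d : C, IsConj (Subgroup.inclusion hCK c) (Subgroup.inclusion hCK d) →
      IsConj c d := by
    intro c d h
    rw [isConj_iff] at h ⊢
    obtain ⟨x, hx⟩ := h
    have hx' : (x : G) * c * (x : G)⁻¹ = d := congrArg Subtype.val hx
    obtain ⟨y, hy, hy2⟩ := @H2.exists_centralizer_smul_eq G _ _ P K hPK hcop (Or.inl hsolv)
      G act c (fun a ha => fx c a ha) x x.2 (fun a ha => by
        change a * ((x : G) * c * (x : G)⁻¹) * a⁻¹ = x * c * (x : G)⁻¹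
        rw [hx']; exact fx d a ha)
    refine ⟨⟨y, hy⟩, Subtype.ext ?_⟩
    exact (hy2 : y * (c : G) * y⁻¹ = x * c * (x : G)⁻¹).trans hx'
  have hsurj : ∀ g : K, (∀ x ∈ P, ∀ k' : ↥K, (k' : G) = x * (g : G) * x⁻¹ →
      ConjClasses.mk k' = ConjClasses.mk g) → ∃ c : C, IsConj g (Subgroup.inclusion hCK c) := by
    intro g hg
    obtain ⟨k, hk, hk2⟩ := @H2.exists_fixed_point G _ _ P K hPK hcop (Or.inl hsolv)
      G act g (fun a ha => by
        have := hg a ha ⟨a * g * a⁻¹, hnorm a ha g g.2⟩ rfl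
        rw [ConjClasses.mk_eq_mk_iff_isConj, isConj_iff] at this
        obtain ⟨x, hx⟩ := this
        exact ⟨x, x.2, congrArg Subtype.val hx⟩)
    have hmem : k * g * k⁻¹ ∈ C := by
      refine ⟨K.mul_mem (K.mul_mem hk g.2) (K.inv_mem hk), ?_⟩
      refine Subgroup.mem_centralizer_iff.2 fun a ha => ?_
      have : a * (k * g * k⁻¹) * a⁻¹ = k * g * k⁻¹ := hk2 a ha
      exact mul_inv_eq_iff_eq_mul.1 this
    exact ⟨⟨_, hmem⟩, isConj_iff.2 ⟨⟨k, hk⟩, Subtype.ext rfl⟩⟩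
  have hreal : ∀ {L : Type _} [Group L] {a b : L}, IsConj a b → IsConj a a⁻¹ → IsConj b b⁻¹ := by
    intro L _ a b h1 h2
    refine h1.symm.trans (h2.trans ?_)
    obtain ⟨x, rfl⟩ := isConj_iff.1 h1
    exact isConj_iff.2 ⟨x, by group⟩
  have main : Nat.card {θ : Cfsg.IrrCharacter ↥K // (∀ k : ↥K, ((θ : ↥K → ℂ) k).im = 0) ∧ (∀ x ∈ P, ∀ k k' : ↥K, (k' : G) = x * (k : G) * x⁻¹ → (θ : ↥K → ℂ) k' = (θ : ↥K → ℂ) k)} = Nat.card {c : ConjClasses ↥K // (∀ k : ↥K, ConjClasses.mk k = c → IsConj k k⁻¹) ∧ ∀ k : ↥K, ConjClasses.mk k = c → ∀ x ∈ P, ∀ k' : ↥K, (k' : G) = x * (k : G) * x⁻¹ → ConjClasses.mk k' = c} := by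
    refine Eq.trans (Nat.card_congr (Equiv.subtypeEquivRight
      (q := fun χ : IrrCharacter K => (∀ g, (χ.1 g).im = 0) ∧ H88.Inv P χ.1) fun χ =>
        and_congr Iff.rfl (H88.inv_conjAction_iff K P hnorm _).symm)) ?_
    rw [card_real hs, Cfsg.Agent.S0160.result]
    refine Nat.card_congr (Equiv.ofBijective
      (fun L => ⟨ConjClasses.map (Subgroup.inclusion hCK) L.1, ?_, ?_⟩) ⟨?_, ?_⟩)
    · obtain ⟨L, hL⟩ := L
      obtain ⟨c, rfl⟩ := ConjClasses.mk_surjective L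
      intro k hk
      have h1 : IsConj (Subgroup.inclusion hCK c) k := ConjClasses.mk_eq_mk_iff_isConj.1 hk.symm
      refine hreal h1 ?_
      rw [← map_inv]
      exact (Subgroup.inclusion hCK).map_isConj (hL c rfl)
    · obtain ⟨L, hL⟩ := L
      obtain ⟨c, rfl⟩ := ConjClasses.mk_surjective L
      intro g hg s hs g' e
      change ConjClasses.mk g = ConjClasses.mk (Subgroup.inclusion hCK c) at hg
      change ConjClasses.mk g' = ConjClasses.mk (Subgroup.inclusion hCK c)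
      rw [ConjClasses.mk_eq_mk_iff_isConj, isConj_iff] at hg ⊢
      obtain ⟨x, hx⟩ := hg
      have hx' : (x : G) * g * (x : G)⁻¹ = c := congrArg Subtype.val hx
      refine ⟨⟨s * x * s⁻¹, hnorm s hs x x.2⟩, Subtype.ext ?_⟩
      change s * x * s⁻¹ * g' * (s * x * s⁻¹)⁻¹ = c
      calc s * x * s⁻¹ * g' * (s * x * s⁻¹)⁻¹ = s * (x * g * (x : G)⁻¹) * s⁻¹ := by
            rw [e]; group
        _ = c := by rw [hx', fx c s hs]
    · rintro ⟨L, hL⟩ ⟨M, hM⟩ hLM
      obtain ⟨c, rfl⟩ := ConjClasses.mk_surjective L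
      obtain ⟨d, rfl⟩ := ConjClasses.mk_surjective M
      have h : ConjClasses.mk (Subgroup.inclusion hCK c) =
          ConjClasses.mk (Subgroup.inclusion hCK d) := congrArg Subtype.val hLM
      exact Subtype.ext (ConjClasses.mk_eq_mk_iff_isConj.2
        (hinj c d (ConjClasses.mk_eq_mk_iff_isConj.1 h)))
    · rintro ⟨L, hL1, hL2⟩
      obtain ⟨g, rfl⟩ := ConjClasses.mk_surjective L
      obtain ⟨c, hc⟩ := hsurj g (hL2 g rfl)
      refine ⟨⟨ConjClasses.mk c, fun d hd => hreal (ConjClasses.mk_eq_mk_iff_isConj.1 hd.symm)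
        (hinj _ _ ?_)⟩, Subtype.ext (ConjClasses.mk_eq_mk_iff_isConj.2 hc.symm)⟩
      rw [map_inv]
      exact hreal hc (hL1 g rfl)
  refine ⟨main, fun hall k hk => ?_⟩
  have h1 := Cfsg.Agent.S0160.result (G := K)
  rw [← Nat.card_congr (Equiv.subtypeEquivRight
    (q := fun θ : IrrCharacter K => ∀ k : ↥K, ((θ : ↥K → ℂ) k).im = 0) fun θ =>
      ⟨And.left, fun h => ⟨h, hall θ h⟩⟩), main] at h1
  have h2 := (Nat.bijective_iff_injective_and_card
    (fun c : {c : ConjClasses ↥K // (∀ k : ↥K, ConjClasses.mk k = c → IsConj k k⁻¹) ∧ ∀ k : ↥K, ConjClasses.mk k = c → ∀ x ∈ P, ∀ k' : ↥K, (k' : G) = x * (k : G) * x⁻¹ → ConjClasses.mk k' = c} => (⟨c.1, c.2.1⟩ : {C : ConjClasses K // ∀ g : K, ConjClasses.mk g = C → IsConj g g⁻¹}))).2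
    ⟨fun a b e => Subtype.ext (congrArg (fun z => z.1) e), h1⟩
  obtain ⟨⟨L, hL1, hL2⟩, hL⟩ := h2.2 ⟨ConjClasses.mk k, fun g hg =>
    hreal (ConjClasses.mk_eq_mk_iff_isConj.1 hg.symm) hk⟩
  have hL' : L = ConjClasses.mk k := congrArg Subtype.val hL
  subst hL'
  obtain ⟨c, hc⟩ := hsurj k (hL2 k rfl)
  exact ⟨_, hc, fx c⟩

end Cfsg.Agent.S4911
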