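import Cfsg.Statements.S4912
import Mathlib
import Cfsg.Agent.Lib.Deg.Cliff
import Cfsg.Agent.Lib.Deg.FS

set_option autoImplicit false
open Cfsg

namespace Cfsg.Agent.S4912

set_option linter.style.haveILetI false
set_option linter.unusedVariables false

open Cfsg

theorem nu_ind {G : Type*} [Group G] [Fintype G] {T : Subgroup G} [Fintype T] {ψ : T → ℂ}
    (hψ : IsIrrCharacter T ψ) (h1 : H87.nu ψ = 1) (h : IsIrrCharacter G (indFun T ψ)) :
    H87.nu (indFun T ψ) = 1 := by
  have hr : H87.IsReal (indFun T ψ) := by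
    have := H87.isReal_iff_conj_eq.1 (H87.isReal_of_nu_eq_one hψ h1)
    rw [H87.isReal_iff_conj]
    intro g
    rw [H7.conj_indFun, this]
  rcases H87.nu_of_isReal h hr with h2 | h2
  · exact h2
  · obtain ⟨k, hk⟩ := H87.even_inner_comp_of_nu_mul T.subtype h hψ (by rw [h1, h2]; norm_num)
    have h3 : classInner (fun t : T => indFun T ψ t) ψ = 1 := H7.classInner_res_indFun_self h
    have h4 : (1 : ℂ) = 2 * k := h3.symm.trans hk
    have h5 : (1 : ℕ) = 2 * k := by exact_mod_cast h4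
    omega

/-- Let G be a finite group with a non-abelian minimal normal subgroup N, and let φ be an irreducible complex character of N with stabilizer I in G such that φ extends to an irreducible character of I with Frobenius–Schur indicator +1. Put d = φ(1)·[G : I]. Then the number of linear characters of G with Frobenius–Schur indicator +1 is at most [G : I] times the number of irreducible characters of G of degree d with Frobenius–Schur indicator +1. -/
theorem result {G : Type*} [Group G] [Finite G] (N : Subgroup G) (hN : N.Normal) (hN1 : N ≠ ⊥) (hmin : ∀ M : Subgroup G, M.Normal → M ≤ N → M = ⊥ ∨ M = N) (hna : ¬ IsMulCommutative ↥N) (φ : Cfsg.IrrCharacter ↥N) (I : Subgroup G) (hI : ∀ g : G, g ∈ I ↔ ∀ n n' : ↥N, (n' : G) = g * (n : G) * g⁻¹ → (φ : ↥N → ℂ) n' = (φ : ↥N → ℂ) n) (hNI : N ≤ I) (hext : ∃ ψ : Cfsg.IrrCharacter ↥I, (Nat.card ↥I : ℂ)⁻¹ * ∑ᶠ g : ↥I, (ψ : ↥I → ℂ) (g * g) = 1 ∧ ∀ n : ↥N, (ψ : ↥I → ℂ) (Subgroup.inclusion hNI n) = (φ : ↥N → ℂ) n) : Nat.card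 {χ : Cfsg.IrrCharacter G // Cfsg.charDegree (χ : G → ℂ) = 1 ∧ (Nat.card G : ℂ)⁻¹ * ∑ᶠ g : G, (χ : G → ℂ) (g * g) = 1} ≤ I.index * Nat.card {χ : Cfsg.IrrCharacter G // Cfsg.charDegree (χ : G → ℂ) = Cfsg.charDegree (φ : ↥N → ℂ) * I.index ∧ (Nat.card G : ℂ)⁻¹ * ∑ᶠ g : G, (χ : G → ℂ) (g * g) = 1} := by
  classical
  have := Fintype.ofFinite G
  have := Fintype.ofFinite N
  have := Fintype.ofFinite I
  obtain ⟨ψ, hψ1, hψ⟩ := hext
  rw [H87.nu_eq_finsum] at hψ1
  simp only [H87.nu_eq_finsum]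
  have hI' : H7.inertia (φ : N → ℂ) ≤ I := fun g hg => (hI g).2 fun n n' h => by
    rw [← H7.mem_inertia'.1 hg n]; exact congrArg _ (Subtype.ext h)
  have hNG : N ≤ commutator G := by
    rcases hmin ⁅N, N⁆ inferInstance (Subgroup.commutator_le_left _ _) with h | h
    · exact absurd (H3.isMulCommutative_of_commutator_eq_bot h) hna
    · rw [← h]; exact Subgroup.commutator_mono le_top le_top
  have hr : IsIrrCharacter (N.subgroupOf I) (fun n : N.subgroupOf I => (ψ : I → ℂ) n) := by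
    have := H7.isIrr_subgroupOf hNI φ.2
    convert this using 2 with n
    exact hψ ⟨(n : I), n.2⟩
  let B := {β : I →* ℂˣ // (∀ x ∈ N.subgroupOf I, β x = 1) ∧ ∀ x, β (x * x) = 1}
  have hirr : ∀ β : B, IsIrrCharacter I ((fun g => (β.1 g : ℂ)) * (ψ : I → ℂ)) := fun β =>
    H31.gallagher_isIrr _ (H6.irr_isCharacter ψ.2) hr (H6.isIrrCharacter_hom _)
      (fun n hn => by simp [β.2.1 n hn])
  have hov : ∀ β : B, classInner (fun n : N => ((fun g => (β.1 g : ℂ)) * (ψ : I → ℂ))
      ⟨n, hNI n.2⟩) φ ≠ 0 := fun β => by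
    have : (fun n : N => ((fun g => (β.1 g : ℂ)) * (ψ : I → ℂ)) ⟨n, hNI n.2⟩) = φ := by
      funext n
      rw [Pi.mul_apply, β.2.1 ⟨n, hNI n.2⟩ n.2, Units.val_one, one_mul]
      exact hψ n
    rw [this, H6.irr_inner_self φ.2]; exact one_ne_zero
  have h1 : Nat.card B ≤ Nat.card {χ : IrrCharacter G //
      charDegree (χ : G → ℂ) = charDegree (φ : N → ℂ) * I.index ∧ H87.nu (χ : G → ℂ) = 1} := by
    refine Nat.card_le_card_of_injective (fun β => ⟨⟨indFun I _,
      H7.clifford_corr_isIrr hNI φ.2 hI' (hirr β) (hov β)⟩, ?_, ?_⟩) fun β γ h => ?_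
    · rw [H87.deg_indFun I (H6.irr_isCharacter (hirr β)), mul_comm]
      congr 1
      exact H87.deg_congr (by simpa using hψ 1)
    · refine nu_ind (hirr β) ?_ (H7.clifford_corr_isIrr hNI φ.2 hI' (hirr β) (hov β))
      rw [← hψ1, H87.nu_def, H87.nu_def]
      simp only [Pi.mul_apply, β.2.2, Units.val_one, one_mul]
    · have h2 := H7.clifford_corr_inj hNI φ.2 hI' (hirr β) (hirr γ) (hov β) (hov γ)
        (congrArg (fun x => x.1.1) h)
      have h3 := H31.gallagher_inj _ (H6.irr_isCharacter ψ.2) hr (H6.isIrrCharacter_hom _)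
        (fun n hn => by simp [β.2.1 n hn]) (H6.isIrrCharacter_hom _)
        (fun n hn => by simp [γ.2.1 n hn]) h2
      exact Subtype.ext (H6.hom_coe_injective h3)
  let Λ : Subgroup (G →* ℂˣ) :=
    { carrier := {lam | ∀ x, lam (x * x) = 1}
      one_mem' := fun _ => rfl
      mul_mem' := fun {a b} ha hb x => by rw [MonoidHom.mul_apply, ha x, hb x, one_mul]
      inv_mem' := fun {a} ha x => by rw [MonoidHom.inv_apply, ha x, inv_one] }
  let r : Λ →* (I →* ℂˣ) :=
    { toFun := fun lam => lam.1.comp I.subtype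
      map_one' := rfl
      map_mul' := fun _ _ => rfl }
  have h2 : Nat.card {χ : IrrCharacter G // charDegree (χ : G → ℂ) = 1 ∧ H87.nu (χ : G → ℂ) = 1} ≤
      Nat.card Λ := by
    have hex : ∀ χ : {χ : IrrCharacter G // charDegree (χ : G → ℂ) = 1 ∧ H87.nu (χ : G → ℂ) = 1},
        ∃ lam : Λ, (χ.1 : G → ℂ) = fun g => (lam.1 g : ℂ) := by
      rintro ⟨χ, hd, hn⟩
      obtain ⟨lam, hlam⟩ := H6.exists_hom_of_char_one_eq_one (H6.irr_isCharacter χ.2)
        ((H87.deg_eq_one_iff (H6.irr_isCharacter χ.2)).1 hd)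
      refine ⟨⟨lam, fun x => ?_⟩, hlam⟩
      have := (H87.isReal_iff_inv (H6.irr_isCharacter χ.2)).1 (H87.isReal_of_nu_eq_one χ.2 hn) x
      rw [hlam] at this
      have h3 : lam x⁻¹ = lam x := Units.ext this
      rw [map_mul]
      nth_rw 1 [← h3]
      rw [← map_mul, inv_mul_cancel, map_one]
    choose f hf using hex
    exact Nat.card_le_card_of_injective f fun χ χ' e =>
      Subtype.ext (Subtype.ext (by rw [hf χ, hf χ', e]))
  have h3 : Nat.card r.range ≤ Nat.card B := by
    refine Nat.card_le_card_of_injective (fun β => ⟨β.1, ?_, ?_⟩) fun β γ h =>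
      Subtype.ext (congrArg (fun x => x.1) h)
    · obtain ⟨β, lam, rfl⟩ := β
      intro x hx
      exact Abelianization.commutator_subset_ker lam.1 (hNG hx)
    · obtain ⟨β, lam, rfl⟩ := β
      intro x
      exact lam.2 x
  have h4 : Nat.card r.ker ≤ I.index := by
    calc Nat.card r.ker ≤ Nat.card {lam : G →* ℂˣ // ∀ x ∈ I ⊔ commutator G, lam x = 1} := by
          refine Nat.card_le_card_of_injective (fun lam => ⟨lam.1.1, ?_⟩) fun β γ h =>
            Subtype.ext (Subtype.ext (congrArg (fun x => x.1) h))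
          have : I ⊔ commutator G ≤ lam.1.1.ker := sup_le (fun x hx =>
            MonoidHom.mem_ker.2 (DFunLike.congr_fun (MonoidHom.mem_ker.1 lam.2) (⟨x, hx⟩ : I)))
            (Abelianization.commutator_subset_ker _)
          exact this
      _ = (I ⊔ commutator G).index := H87.card_hom_trivial _ le_sup_right
      _ ≤ I.index := Nat.le_of_dvd (Nat.pos_of_ne_zero Subgroup.index_ne_zero_of_finite)
          (Subgroup.index_dvd_of_le le_sup_left)
  calc _ ≤ Nat.card Λ := h2
    _ = Nat.card r.ker * Nat.card r.range := by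
        rw [← Subgroup.card_mul_index r.ker, Subgroup.index_ker]
    _ ≤ _ := Nat.mul_le_mul h4 (h3.trans h1)

end Cfsg.Agent.S4912
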