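import Mathlib
import Cfsg.Statements.S4914
import Cfsg.Agent.Lib.Glaub.Relative
-- import your own Cfsg.Agent.* helpers here

set_option autoImplicit false
set_option linter.style.haveILetI false
open Cfsg

namespace Cfsg.Agent.S4914

/-- Let P and K be subgroups of a finite group G with P a p-group normalizing K, and suppose K has a normal Sylow p-subgroup Q. Let C be the subgroup of those k ∈ K whose commutator with every element of P lies in Q (so that C/Q is the fixed-point subgroup of P on K/Q). Then there is a bijection f from the P-invariant irreducible complex characters of K onto the P-invariant irreducible complex characters of C such that, for every P-invariant irreducible character χ of K, the multiplicity of f(χ) in the restriction of χ to C is a natural number congruent to 1 or to −1 modulo p, every other P-invariant irreducible character of C occurs in that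 restriction with multiplicity divisible by p, and the degrees of χ and f(χ) are congruent modulo p up to sign. -/
theorem result {G : Type*} [Group G] [Finite G] (p : ℕ) [Fact p.Prime] (P K Q C : Subgroup G) (hP : IsPGroup p ↥P) (hPK : P ≤ Subgroup.normalizer (K : Set G)) (hQK : Q ≤ K) (hQn : ∀ k ∈ K, ∀ q ∈ Q, k * q * k⁻¹ ∈ Q) (hQp : ∃ a : ℕ, Nat.card ↥Q = p ^ a) (hQsyl : ¬ p ∣ Q.relIndex K) (hCK : C ≤ K) (hC : ∀ k : G, k ∈ C ↔ (k ∈ K ∧ ∀ x ∈ P, x * k * x⁻¹ * k⁻¹ ∈ Q)) : ∃ f : {χ : Cfsg.IrrCharacter ↥K // (∀ x ∈ P, ∀ k k' : ↥K, (k' : G) = x * (k : G) * x⁻¹ → (χ : ↥K → ℂ) k' = (χ : ↥K → ℂ) k)} → {ξ : Cfsg.IrrCharacter ↥C // (∀ x ∈ P, ∀ k k' : ↥C, (k' : G) = x * (k : G) * x⁻¹ → (ξ : ↥C → ℂ) k' = (ξ : ↥C → ℂ) k)}, Function.Bijective f ∧ ∀ χ, (∀ ξ : {ξ : Cfsg.IrrCharacter ↥C // (∀ x ∈ P, ∀ k k' : ↥C, (k' : G) = x * (k : G) * x⁻¹ → (ξ : ↥C → ℂ) k' = (ξ : ↥C → ℂ) k)}, ∃ m : ℕ, (Nat.card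 ↥C : ℂ)⁻¹ * ∑ᶠ c : ↥C, (χ.1 : ↥K → ℂ) (Subgroup.inclusion hCK c) * (starRingEnd ℂ) ((ξ.1 : ↥C → ℂ) c) = (m : ℂ) ∧ (ξ = f χ → ((m : ZMod p) = 1 ∨ (m : ZMod p) = -1)) ∧ (ξ ≠ f χ → p ∣ m)) ∧ ((Cfsg.charDegree ((f χ).1 : ↥C → ℂ) : ZMod p) = (Cfsg.charDegree (χ.1 : ↥K → ℂ) : ZMod p) ∨ (Cfsg.charDegree ((f χ).1 : ↥C → ℂ) : ZMod p) = -(Cfsg.charDegree (χ.1 : ↥K → ℂ) : ZMod p)) := by
  classical
  haveI : Fintype K := Fintype.ofFinite _
  haveI : Fintype C := Fintype.ofFinite _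
  have hnorm : ∀ s ∈ P, ∀ g ∈ K, s * g * s⁻¹ ∈ K := fun s hs g hg =>
    (Subgroup.mem_normalizer_iff.1 (hPK hs) g).1 hg
  letI := H88.conjAction K P hnorm
  haveI hn : (Q.subgroupOf K).Normal := ⟨fun q hq k => hQn k k.2 q hq⟩
  obtain ⟨a, ha⟩ := hQp
  have hQ : IsPGroup p (Q.subgroupOf K) := (IsPGroup.of_card ha).comap_subtype
  have hQA : ∀ (x : P), ∀ k ∈ Q.subgroupOf K, x • k ∈ Q.subgroupOf K := by
    intro x k hk
    obtain ⟨n, hn⟩ := hQ ⟨k, hk⟩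
    have h1 : (x • k) ^ p ^ n = 1 := by
      rw [← smul_pow', show k ^ p ^ n = 1 from congrArg Subtype.val hn, smul_one]
    rw [← QuotientGroup.eq_one_iff, ← orderOf_eq_one_iff]
    refine Nat.eq_one_of_dvd_coprimes
      (Nat.Coprime.pow_left n ((Nat.Prime.coprime_iff_not_dvd Fact.out).2 hQsyl)) ?_
      (orderOf_dvd_natCard _)
    rw [orderOf_dvd_iff_pow_eq_one, ← QuotientGroup.mk_pow, h1, QuotientGroup.mk_one]
  have hnormC : ∀ s ∈ P, ∀ g ∈ C, s * g * s⁻¹ ∈ C := by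
    intro s hs g hg
    have h1 := ((hC g).1 hg).2 s hs
    have h2 : s * g * s⁻¹ * g⁻¹ ∈ C := by
      refine (hC _).2 ⟨hQK h1, fun x hx => Q.mul_mem ?_ (Q.inv_mem h1)⟩
      exact hQA ⟨x, hx⟩ ⟨_, hQK h1⟩ h1
    simpa using C.mul_mem h2 hg
  letI := H88.conjAction C P hnormC
  have h : H88.RelSetup p P (Q.subgroupOf K) (Subgroup.inclusion hCK) :=
    ⟨hP, hQ, hQsyl, hQA, Subgroup.inclusion_injective _, fun _ _ => rfl, fun k =>
      ⟨fun ⟨d, hd⟩ x => hd ▸ ((hC d).1 d.2).2 x x.2,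
        fun hk => ⟨⟨k, (hC k).2 ⟨k.2, fun x hx => hk ⟨x, hx⟩⟩⟩, rfl⟩⟩⟩
  have iK := H88.inv_conjAction_iff K P hnorm
  have iC := H88.inv_conjAction_iff C P hnormC
  have ex := fun χ : {χ : Cfsg.IrrCharacter ↥K // (∀ x ∈ P, ∀ k k' : ↥K,
    (k' : G) = x * (k : G) * x⁻¹ → (χ : ↥K → ℂ) k' = (χ : ↥K → ℂ) k)} =>
      h.exists_corr_right χ.1 ((iK _).2 χ.2)
  choose f hf1 hf2 using ex
  have hz : ∀ m : ℕ, ((m : ℤ) ≡ 1 [ZMOD p] ∨ (m : ℤ) ≡ -1 [ZMOD p]) →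
      ((m : ZMod p) = 1 ∨ (m : ZMod p) = -1) := by
    intro m hm
    rcases hm with hm | hm
    · left; simpa using (ZMod.intCast_eq_intCast_iff _ _ _).2 hm
    · right; simpa using (ZMod.intCast_eq_intCast_iff _ _ _).2 hm
  refine ⟨fun χ => ⟨f χ, (iC _).1 (hf1 χ)⟩, ⟨fun χ ψ e => ?_, fun ξ => ?_⟩, fun χ => ⟨fun ξ => ?_, ?_⟩⟩
  · have e' : f χ = f ψ := congrArg Subtype.val e
    exact Subtype.ext (h.corr_unique_left χ.1 ψ.1 ((iK _).2 χ.2) ((iK _).2 ψ.2) (f χ) (hf1 χ)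
      (hf2 χ) (e' ▸ hf2 ψ))
  · obtain ⟨χ, h1, h2⟩ := h.exists_corr_left ξ.1 ((iC _).2 ξ.2)
    exact ⟨⟨χ, (iK _).1 h1⟩, Subtype.ext (h.corr_unique_right χ h1 _ _ (hf1 _) ((iC _).2 ξ.2)
      (hf2 ⟨χ, (iK _).1 h1⟩) h2)⟩
  · refine ⟨H88.mult (fun d => χ.1.1 (Subgroup.inclusion hCK d)) ξ.1.1, ?_, ?_, ?_⟩
    · rw [H88.mult_cast (H6.isCharacter_comp _ (H6.irr_isCharacter χ.1.2))
        (H6.irr_isCharacter ξ.1.2), H6.classInner_def, finsum_eq_sum_of_fintype]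
    · rintro rfl
      exact hz _ (h.corr_sq χ.1 ((iK _).2 χ.2) _ (hf1 χ) (hf2 χ))
    · intro hne
      by_contra h3
      exact hne (Subtype.ext (h.corr_unique_right χ.1 ((iK _).2 χ.2) _ _ ((iC _).2 ξ.2) (hf1 χ) h3
        (hf2 χ)))
  · have h1 := h.degree χ.1 ((iK _).2 χ.2) _ (hf1 χ) (hf2 χ)
    have h2 := hz _ (h.corr_sq χ.1 ((iK _).2 χ.2) _ (hf1 χ) (hf2 χ))
    obtain ⟨n, hn⟩ := H6.char_one_nat (H6.irr_isCharacter χ.1.2)
    obtain ⟨m, hm⟩ := H6.char_one_nat (H6.irr_isCharacter (f χ).2)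
    rw [hn, hm, ← Nat.cast_mul] at h1
    have h3 := (ZMod.natCast_eq_natCast_iff _ _ _).2 h1.modEq
    have e1 : charDegree (χ.1 : K → ℂ) = n := by rw [charDegree, hn]; simp
    have e2 : charDegree (f χ : C → ℂ) = m := by rw [charDegree, hm]; simp
    change (charDegree (f χ : C → ℂ) : ZMod p) = _ ∨ (charDegree (f χ : C → ℂ) : ZMod p) = _
    rw [e1, e2, h3, Nat.cast_mul]
    rcases h2 with h2 | h2
    · left; rw [h2, one_mul]
    · right; rw [h2]; ring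

end Cfsg.Agent.S4914
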