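import Mathlib
import Cfsg.Statements.S4916
import Cfsg.Agent.Lib.Block.HeightBF
import Cfsg.Agent.Lib.Block.Cover2

set_option autoImplicit false
open Cfsg

namespace Cfsg.Agent.S4916

set_option linter.style.haveILetI false


/-- Let G be a finite group, p a prime and M a maximal ideal of the algebraic integers containing p. Then the principal character is the only irreducible character of degree prime to p in the principal p-block of G if and only if p does not divide the order of G. -/
theorem result {G : Type*} [Group G] [Finite G] (p : ℕ) [Fact p.Prime] (M : Ideal Cfsg.AlgInt) (hM : Cfsg.IsPModular p M) : (∀ χ : Cfsg.IrrCharacter G, χ ∈ Cfsg.principalBlock M G → ¬ p ∣ Cfsg.charDegree (χ : G → ℂ) → (χ : G → ℂ) = fun _ => (1 : ℂ)) ↔ ¬ p ∣ Nat.card G := by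
  classical
  haveI := H33.isMaximal_of hM
  constructor
  · intro h hp
    obtain ⟨g, hg⟩ := exists_prime_orderOf_dvd_card' (G := G) p hp
    have h1 := congrArg (H33.red M)
      (H84.sum_deg_mul_eq_zero hM (H33.isPBlock_principalBlock (M := M) (G := G)) (g := g) (hg ▸ dvd_rfl))
    rw [H33.red_sum _ fun χ _ => (H33.O M).mul_mem (H33.irr_mem_O M χ _) (H33.irr_mem_O M χ _),
      Finset.sum_eq_single (H33.oneIrr G), H33.red_zero] at h1
    · simp at h1
    · intro χ hχ hne
      rw [H33.red_mul (H33.irr_mem_O M χ _) (H33.irr_mem_O M χ _), H33.irr_one_eq_charDegree,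
        (H33.red_natCast_eq_zero_iff hM _).2, zero_mul]
      by_contra hd
      exact hne (Subtype.ext (h χ (H84.mem_bset.1 hχ) hd))
    · exact fun hn => absurd (H84.mem_bset.2 H33.oneIrr_mem_principalBlock) hn
  · intro h χ hχ _
    rw [H33.principalBlock_eq, H35.blockOf_eq_singleton_of_not_dvd hM h] at hχ
    rw [Set.mem_singleton_iff.1 hχ]
    rfl

end Cfsg.Agent.S4916
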