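import Cfsg.Statements.S4923
import Mathlib
import Cfsg.Agent.Lib.PGroup.MaxClass2
import Cfsg.Agent.Lib.Char.Galois
import Cfsg.Agent.Lib.Blk86.Real2

set_option autoImplicit false
open Cfsg

namespace Cfsg.Agent.S4923

set_option linter.style.haveILetI false
set_option linter.unusedVariables false

open Cfsg Subgroup

theorem mem_of_forall_fix (F : IntermediateField ℚ ℂ) {x : ℂ} (hx : IsIntegral ℚ x)
    (h : ∀ σ : ℂ ≃+* ℂ, (∀ y ∈ F, σ y = y) → σ x = x) : x ∈ F := by
  by_contra hq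
  have hxF : IsIntegral F x := hx.tower_top
  have hsep : IsSeparable F x := (minpoly.irreducible hxF).separable
  have : x ∉ (⊥ : Subalgebra F ℂ) := by
    rw [Algebra.mem_bot]
    rintro ⟨q, hq'⟩
    exact hq (hq' ▸ q.2)
  obtain ⟨y, hy, hxy⟩ :=
    (notMem_iff_exists_ne_and_isConjRoot hsep (IsAlgClosed.splits _)).1 this
  let K : IntermediateField F ℂ := algebraicClosure F ℂ
  let x' : K := ⟨x, mem_algebraicClosure_iff'.2 hxF⟩
  let y' : K := ⟨y, mem_algebraicClosure_iff'.2 (hxy.isIntegral hxF)⟩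
  have hc : IsConjRoot F y' x' := (isConjRoot_algHom_iff (x := y') (y := x') K.val).1 hxy.symm
  have : IsAlgClosure F K := algebraicClosure.isAlgClosure F ℂ
  obtain ⟨τ, hτ⟩ := hc.exists_algEquiv
  obtain ⟨σ, hσ⟩ := H8.exists_ringEquiv_extend (K.restrictScalars ℚ) τ.toRingEquiv
  refine hy ((h σ fun z hz => ?_).symm.trans ((hσ x').trans (congrArg Subtype.val hτ)))
  exact (hσ (algebraMap F K ⟨z, hz⟩)).trans (congrArg Subtype.val (τ.commutes ⟨z, hz⟩))

theorem fix_adjoin {S : Set ℂ} {σ : ℂ ≃+* ℂ} (h : ∀ s ∈ S, σ s = s) :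
    ∀ y ∈ IntermediateField.adjoin ℚ S, σ y = y := by
  intro y hy
  induction hy using IntermediateField.adjoin_induction with
  | mem x hx => exact h x hx
  | algebraMap x => simp
  | add x y _ _ hx hy => rw [map_add, hx, hy]
  | inv x _ hx => rw [map_inv₀, hx]
  | mul x y _ _ hx hy => rw [map_mul, hx, hy]

theorem adjoin_eq_of_fix {S T : Set ℂ} (hS : ∀ s ∈ S, IsIntegral ℚ s) (hT : ∀ s ∈ T, IsIntegral ℚ s)
    (h : ∀ σ : ℂ ≃+* ℂ, (∀ s ∈ S, σ s = s) ↔ ∀ s ∈ T, σ s = s) :
    IntermediateField.adjoin ℚ S = IntermediateField.adjoin ℚ T :=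
  le_antisymm
    (IntermediateField.adjoin_le_iff.2 fun s hs => mem_of_forall_fix _ (hS s hs) fun σ hσ =>
      (h σ).2 (fun t ht => hσ t (IntermediateField.subset_adjoin _ _ ht)) s hs)
    (IntermediateField.adjoin_le_iff.2 fun s hs => mem_of_forall_fix _ (hT s hs) fun σ hσ =>
      (h σ).1 (fun t ht => hσ t (IntermediateField.subset_adjoin _ _ ht)) s hs)

theorem add_inv_eq_iff {a b : ℂ} (ha : a ≠ 0) (hb : b ≠ 0) :
    a + a⁻¹ = b + b⁻¹ ↔ a = b ∨ a = b⁻¹ := by
  constructor
  · intro h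
    have : (a - b) * (a - b⁻¹) = 0 := by
      field_simp at h ⊢
      linear_combination h
    simpa only [mul_eq_zero, sub_eq_zero] using this
  · rintro (rfl | rfl)
    · rfl
    · rw [inv_inv, add_comm]

theorem sub_inv_eq_iff {a b : ℂ} (ha : a ≠ 0) (hb : b ≠ 0) :
    a - a⁻¹ = b - b⁻¹ ↔ a = b ∨ a = -b⁻¹ := by
  constructor
  · intro h
    have : (a - b) * (a - -b⁻¹) = 0 := by
      field_simp at h ⊢
      linear_combination h
    simpa only [mul_eq_zero, sub_eq_zero] using this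
  · rintro (rfl | rfl)
    · rfl
    · rw [inv_neg, inv_inv]; ring

variable {G : Type*} [Group G] [Finite G]

theorem exists_conj_eq (P : Sylow 2 G) {a : G} {k : ℕ} (ha : orderOf a = 2 ^ (k + 1))
    (hP : (P : Subgroup G) ≤ normalizer (zpowers a : Set G)) {x : G}
    (hx : x ∈ normalizer (zpowers a : Set G)) :
    ∃ u ∈ (P : Subgroup G), x * a * x⁻¹ = u * a * u⁻¹ := by
  have h2 : IsPGroup 2 (MulAut (zpowers a)) := IsPGroup.of_card (n := k) (by
    rw [IsCyclic.card_mulAut, Nat.card_zpowers, ha, Nat.totient_prime_pow Nat.prime_two (by omega)]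
    simp)
  set f := (zpowers a).normalizerMonoidHom
  have h3 : (((P.subtype hP).mapSurjective f.rangeRestrict_surjective : Sylow 2 f.range) :
      Subgroup f.range) = ⊤ :=
    ((Sylow.is_maximal' _ ((h2.to_subgroup _).to_subgroup ⊤) le_top)).symm
  have h4 : f.rangeRestrict ⟨x, hx⟩ ∈ (⊤ : Subgroup f.range) := trivial
  rw [← h3, Sylow.coe_mapSurjective] at h4
  obtain ⟨u, hu, e⟩ := h4
  refine ⟨u, hu, ?_⟩
  have := congrArg (fun φ : f.range => ((φ.1 ⟨a, mem_zpowers a⟩ : zpowers a) : G)) e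
  exact this.symm

theorem zpow_eq_iff {a : G} {ζ : ℂ} {N : ℕ} (ha : orderOf a = N) (hζ : IsPrimitiveRoot ζ N)
    (hN : N ≠ 0) (i j : ℤ) : a ^ i = a ^ j ↔ ζ ^ i = ζ ^ j := by
  rw [zpow_eq_zpow_iff_modEq, ha, Int.modEq_iff_dvd, ← hζ.zpow_eq_one_iff_dvd,
    zpow_sub₀ (hζ.ne_zero hN), div_eq_one_iff_eq (zpow_ne_zero _ (hζ.ne_zero hN)), eq_comm]

theorem fix_iff (g : G) (σ : ℂ ≃+* ℂ) {N m : ℕ} (hN : 0 < N) (hg : g ^ N = 1)
    (hσ : ∀ ζ : ℂ, ζ ^ N = 1 → σ ζ = ζ ^ m) :
    (∀ s ∈ {z : ℂ | ∃ χ : IrrCharacter G, (χ : G → ℂ) g = z}, σ s = s) ↔ IsConj (g ^ m) g := by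
  rw [H6.isConj_iff_irr]
  have := fun χ : IrrCharacter G =>
    H8.IsCharacter_map_eq_pow (H6.irr_isCharacter χ.2) (σ : ℂ →+* ℂ) hN hσ hg
  exact ⟨fun h χ => (this χ).symm.trans (h _ ⟨χ, rfl⟩), by
    rintro h _ ⟨χ, rfl⟩; exact (this χ).trans (h χ)⟩

theorem four_dvd {P : Type*} [Group P] [Finite P] (h2 : IsPGroup 2 P) (h : ¬ IsCyclic P) :
    4 ∣ (commutator P).index := by
  obtain ⟨j, hj⟩ := (h2.to_quotient (commutator P)).exists_card_eq
  have hj' : (commutator P).index = 2 ^ j := hj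
  by_contra hn
  refine h (H5.isCyclic_of_isCyclic_quotient_commutator h2
    (isCyclic_of_card_dvd_prime (p := 2) ?_))
  rw [hj]
  rcases j with _ | _ | j
  · simp
  · simp
  · exact absurd ⟨2 ^ j, by rw [hj']; ring⟩ hn

/-- Let G be a finite group with Sylow 2-subgroup P of order 2^n ≥ 8, and let ζ be a primitive 2^(n−1)-th root of unity in ℂ. Then the commutator subgroup of P has index 4 in P if and only if there is an element g of P whose conjugacy class in G has even size and such that the field generated over ℚ by the values at g of all irreducible complex characters of G equals ℚ(ζ + ζ⁻¹) or ℚ(ζ − ζ⁻¹). -/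
theorem result {G : Type*} [Group G] [Finite G] (P : Sylow 2 G) (n : ℕ) (hn : 3 ≤ n) (hP : Nat.card P = 2 ^ n) (ζ : ℂ) (hζ : IsPrimitiveRoot ζ (2 ^ (n - 1))) :
    (commutator ↥P).index = 4 ↔
      ∃ g : G, g ∈ (P : Subgroup G) ∧ 2 ∣ (Subgroup.centralizer ({g} : Set G)).index ∧
        (IntermediateField.adjoin ℚ {z : ℂ | ∃ χ : Cfsg.IrrCharacter G, (χ : G → ℂ) g = z} = IntermediateField.adjoin ℚ ({ζ + ζ⁻¹} : Set ℂ) ∨
          IntermediateField.adjoin ℚ {z : ℂ | ∃ χ : Cfsg.IrrCharacter G, (χ : G → ℂ) g = z} = IntermediateField.adjoin ℚ ({ζ - ζ⁻¹} : Set ℂ)) := by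
  obtain ⟨m, rfl⟩ : ∃ m, n = m + 2 := ⟨n - 2, by omega⟩
  have hm : 1 ≤ m := by omega
  rw [show m + 2 - 1 = m + 1 from rfl] at hζ
  have hN : (2 : ℕ) ^ (m + 1) ≠ 0 := by positivity
  have hζ0 := hζ.ne_zero hN
  have hhalf : ζ ^ 2 ^ m = -1 :=
    (hζ.pow (Nat.pos_of_ne_zero hN) (pow_succ 2 m)).eq_neg_one_of_two_right
  have hint : IsIntegral ℚ ζ := (hζ.isIntegral (Nat.pos_of_ne_zero hN)).tower_top
  have hS : ∀ g : G, ∀ s ∈ {z : ℂ | ∃ χ : IrrCharacter G, (χ : G → ℂ) g = z}, IsIntegral ℚ s := by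
    rintro g _ ⟨χ, rfl⟩
    exact (H8.IsIrrCharacter_isIntegral χ.2 g).tower_top
  have hP2 : IsPGroup 2 P := P.isPGroup'
  change (commutator ↥(P : Subgroup G)).index = 4 ↔ _
  constructor
  · intro h4
    have hna : commutator (P : Subgroup G) ≠ ⊥ := fun e => by
      rw [e, index_bot, hP] at h4
      have : 2 ^ (m + 2) = 2 ^ 2 := h4
      have := Nat.pow_right_injective le_rfl this
      omega
    have hK : IsKleinFour (P ⧸ commutator (P : Subgroup G)) :=
      ⟨h4, (not_isCyclic_iff_exponent_eq_prime Nat.prime_two h4).1 fun hc =>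
        H5.not_isCyclic_of_commutator_ne_bot hna
          (H5.isCyclic_of_isCyclic_quotient_commutator hP2 hc)⟩
    obtain ⟨a, b, k, -, ha, hi, hb, hab⟩ := H5.exists_gens_of_index_four hP2 h4
      (H5.isKleinFour_quotient_commutator_iff.1 hK).2 hna
    obtain rfl : k = m := by
      have := (zpowers a).card_mul_index
      rw [Nat.card_zpowers, ha, hi, hP, ← pow_succ] at this
      have := Nat.pow_right_injective le_rfl this
      omega
    have hab' : b * a * b⁻¹ = a⁻¹ ∨ (2 ≤ k ∧ b * a * b⁻¹ = a⁻¹ * a ^ 2 ^ k) := by tauto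
    have ha' : orderOf (a : G) = 2 ^ (k + 1) := by rw [orderOf_coe, ha]
    haveI := normal_of_index_eq_two hi
    have hPn : (P : Subgroup G) ≤ normalizer (zpowers (a : G) : Set G) := by
      have := le_normalizer_map (H := zpowers a) (P : Subgroup G).subtype
      rwa [normalizer_eq_top, ← MonoidHom.range_eq_map, range_subtype, MonoidHom.map_zpowers]
        at this
    have key : ∀ j : ℕ, IsConj ((a : G) ^ j) a ↔
        (a : G) ^ j = a ∨ (a : G) ^ j = b * a * (b : G)⁻¹ := by
      refine fun j => ⟨fun h => ?_, ?_⟩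
      · obtain ⟨x, hx⟩ := isConj_iff.1 h.symm
        obtain ⟨u, hu, e⟩ := exists_conj_eq P ha' hPn (x := x) (mem_normalizer_fintype (by
          rintro _ ⟨i, rfl⟩
          rw [← conj_zpow, hx]
          exact zpow_mem (pow_mem (mem_zpowers _) _) _))
        rw [← hx, e]
        have hc : ∀ y ∈ zpowers a, y * a * y⁻¹ = a := by
          rintro _ ⟨i, rfl⟩
          simp only
          group
        by_cases h1 : (⟨u, hu⟩ : (P : Subgroup G)) ∈ zpowers a
        · exact Or.inl (congrArg Subtype.val (hc _ h1))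
        · have h2 : b⁻¹ * ⟨u, hu⟩ ∈ zpowers a := by
            rw [mul_mem_iff_of_index_two hi]
            simp [hb, h1]
          have h3 : (b : G)⁻¹ * u * a * ((b : G)⁻¹ * u)⁻¹ = a := congrArg Subtype.val (hc _ h2)
          right
          nth_rw 2 [← h3]
          group
      · rintro (h | h) <;> rw [h]
        exact (isConj_iff.2 ⟨b, rfl⟩ : IsConj (a : G) _).symm
    refine ⟨a, a.2, ?_, ?_⟩
    · by_contra hodd
      obtain ⟨g, hg⟩ := H86.exists_conj_sylow_le P hodd
      have h1 : g⁻¹ * a * g ∈ centralizer ((P : Subgroup G) : Set G) :=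
        mem_centralizer_iff.2 fun x hx => by
          have := mem_centralizer_iff.1 (hg x hx) a rfl
          calc _ = g⁻¹ * (g * x * g⁻¹ * a) * g := by group
            _ = _ := by rw [← this]; group
      have h2 : orderOf (g⁻¹ * a * g) = 2 ^ (k + 1) := by
        rw [← ha']
        have := orderOf_injective (MulAut.conj g⁻¹).toMonoidHom (MulAut.conj g⁻¹).injective (a : G)
        simpa using this
      have h3 : g⁻¹ * a * g ∈ (P : Subgroup G) := by
        have h5 : IsPGroup 2 (zpowers (g⁻¹ * a * g)) :=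
          IsPGroup.of_card (by rw [Nat.card_zpowers, h2])
        have h6 := h5.inf_normalizer_sylow P
        have h7 : g⁻¹ * a * g ∈ zpowers (g⁻¹ * a * g) ⊓ normalizer (P : Set G) :=
          ⟨mem_zpowers _, centralizer_le_normalizer _ h1⟩
        rw [h6] at h7
        exact h7.2
      have h5 : (⟨_, h3⟩ : (P : Subgroup G)) ∈ center (P : Subgroup G) := mem_center_iff.2 fun x =>
        Subtype.ext (mem_centralizer_iff.1 h1 x x.2)
      rw [H5.center_eq_zpowers_half ha hab' hm hi hb] at h5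
      have h6 : (⟨_, h3⟩ : (P : Subgroup G)) ^ 2 = 1 := by
        obtain ⟨i, hi⟩ := h5
        rw [← hi]
        simp only
        rw [← zpow_natCast, ← zpow_mul, mul_comm, zpow_mul, zpow_natCast, ← pow_mul, ← pow_succ,
          ← ha, pow_orderOf_eq_one, one_zpow]
      have h7 := orderOf_dvd_of_pow_eq_one (show (g⁻¹ * a * g) ^ 2 = 1 from congrArg Subtype.val h6)
      rw [h2] at h7
      have := (Nat.pow_dvd_pow_iff_le_right (x := 2) (l := 1) (by norm_num)).1 (by simpa using h7)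
      omega
    · have hfix : ∀ σ : ℂ ≃+* ℂ, ∃ j : ℕ, σ ζ = ζ ^ j ∧
          ((∀ s ∈ {z : ℂ | ∃ χ : IrrCharacter G, (χ : G → ℂ) a = z}, σ s = s) ↔
            ζ ^ j = ζ ∨ (a : G) ^ j = b * a * (b : G)⁻¹) := fun σ => by
        obtain ⟨j, -, hj⟩ := H8.exists_pow_of_ringHom (σ : ℂ →+* ℂ) (Nat.pos_of_ne_zero hN)
        refine ⟨j, hj ζ hζ.pow_eq_one, ?_⟩
        rw [fix_iff (a : G) σ (Nat.pos_of_ne_zero hN) (by rw [← ha', pow_orderOf_eq_one]) hj, key]
        have := zpow_eq_iff ha' hζ hN j 1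
        simp only [zpow_natCast, zpow_one] at this
        rw [this]
      rcases hab' with h | ⟨-, h⟩
      · left
        refine adjoin_eq_of_fix (hS _) (by rintro _ rfl; exact hint.add hint.inv) fun σ => ?_
        obtain ⟨j, hj, hj'⟩ := hfix σ
        have := zpow_eq_iff ha' hζ hN j (-1)
        simp only [zpow_natCast, zpow_neg, zpow_one] at this
        rw [hj', show (b : G) * a * (b : G)⁻¹ = (a : G)⁻¹ from congrArg Subtype.val h, this,
          ← add_inv_eq_iff (pow_ne_zero _ hζ0) hζ0]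
        simp [hj]
      · right
        refine adjoin_eq_of_fix (hS _) (by rintro _ rfl; exact hint.sub hint.inv) fun σ => ?_
        obtain ⟨j, hj, hj'⟩ := hfix σ
        have := zpow_eq_iff ha' hζ hN j (-1 + (2 ^ k : ℕ))
        rw [zpow_add, zpow_add₀ hζ0] at this
        simp only [zpow_natCast, zpow_neg, zpow_one, hhalf, mul_neg, mul_one] at this
        rw [hj', show (b : G) * a * (b : G)⁻¹ = (a : G)⁻¹ * (a : G) ^ 2 ^ k from
          congrArg Subtype.val h, this, ← sub_inv_eq_iff (pow_ne_zero _ hζ0) hζ0]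
        simp [hj]
  · rintro ⟨g, hg, hev, hF⟩
    have hnc : ¬ (P : Subgroup G) ≤ centralizer {g} := fun h =>
      P.not_dvd_index (hev.trans (index_dvd_of_le h))
    have hncyc : ¬ IsCyclic P := fun h => hnc fun x hx => mem_centralizer_iff.2 (by
      rintro y rfl
      exact congrArg Subtype.val (h.isMulCommutative.1.1 (⟨y, hg⟩ : (P : Subgroup G)) ⟨x, hx⟩))
    have h4 := four_dvd hP2 hncyc
    by_cases hm1 : m = 1
    · subst hm1
      have h8 : (commutator (P : Subgroup G)).index ∣ 2 ^ 3 := hP ▸ index_dvd_card _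
      have h9 : (commutator (P : Subgroup G)).index ≠ 2 ^ 3 := fun e => by
        have h1 := (commutator (P : Subgroup G)).card_mul_index
        rw [e, hP] at h1
        have h2 : commutator (P : Subgroup G) = ⊥ := by
          rw [← card_eq_one]
          omega
        refine hnc fun x hx => mem_centralizer_iff.2 ?_
        rintro y rfl
        exact congrArg Subtype.val (((commutator_eq_bot_iff _).1 h2).1.1 (⟨y, hg⟩ : (P : Subgroup G)) ⟨x, hx⟩)
      obtain ⟨c, hc⟩ := h4
      rw [hc] at h8 h9 ⊢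
      have : c ∣ 2 := Nat.dvd_of_mul_dvd_mul_left (k := 4) (by norm_num) h8
      rcases (Nat.dvd_prime Nat.prime_two).1 this with h | h <;> simp_all
    have hζ4 : ζ ^ 4 ≠ 1 := fun e => by
      have h1 := hζ.dvd_of_pow_eq_one 4 e
      have := (Nat.pow_dvd_pow_iff_le_right (x := 2) (l := 2) (by norm_num)).1 h1
      omega
    have key : ∀ j : ℕ, Odd j → g ^ 2 ^ (m + 1) = 1 → IsConj (g ^ j) g →
        ζ ^ j = ζ ∨ ζ ^ j = ζ⁻¹ ∨ ζ ^ j = -ζ⁻¹ := by
      intro j hj hgN hc
      obtain ⟨σ, hσ⟩ := H8.exists_ringEquiv_pow (Nat.pos_of_ne_zero hN)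
        ((Nat.coprime_two_right.2 hj).pow_right (m + 1))
      have h1 := fix_adjoin ((fix_iff g σ (Nat.pos_of_ne_zero hN) hgN hσ).2 hc)
      rcases hF with h | h <;> rw [h] at h1 <;>
        have h2 := h1 _ (IntermediateField.mem_adjoin_simple_self ℚ _)
      · rw [map_add, map_inv₀, hσ ζ hζ.pow_eq_one, add_inv_eq_iff (pow_ne_zero _ hζ0) hζ0] at h2
        tauto
      · rw [map_sub, map_inv₀, hσ ζ hζ.pow_eq_one, sub_inv_eq_iff (pow_ne_zero _ hζ0) hζ0] at h2
        tauto
    set a : (P : Subgroup G) := ⟨g, hg⟩ with ha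
    obtain ⟨r, hr, hro⟩ := (Nat.dvd_prime_pow Nat.prime_two).1 (hP ▸ orderOf_dvd_natCard a)
    have hro' : orderOf g = 2 ^ r := by rw [← hro, ← orderOf_coe]
    have hr2 : r ≠ m + 2 := fun e => hncyc (isCyclic_of_orderOf_eq_card a (by rw [hro, hP, e]))
    have hgN : g ^ 2 ^ (m + 1) = 1 := by
      rw [← orderOf_dvd_iff_pow_eq_one, hro']
      exact Nat.pow_dvd_pow _ (by omega)
    obtain rfl : r = m + 1 := by
      by_contra hr1
      have h1 : g ^ (2 ^ m + 1) = g := by
        rw [pow_succ, orderOf_dvd_iff_pow_eq_one.1 (by rw [hro']; exact Nat.pow_dvd_pow _ (by omega)),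
          one_mul]
      have h2 := key (2 ^ m + 1) ((Nat.even_pow.2 ⟨even_two, by omega⟩).add_one) hgN (by rw [h1])
      rw [pow_succ, hhalf] at h2
      apply hζ4
      rcases h2 with h | h | h
      · exact absurd (by linear_combination (-1 / 2 : ℂ) * h) hζ0
      · field_simp at h
        linear_combination (ζ ^ 2 - 1) * (-h)
      · field_simp at h
        linear_combination (ζ ^ 2 + 1) * (-h)
    have hi : (zpowers a).index = 2 := by
      have := (zpowers a).card_mul_index
      rw [Nat.card_zpowers, hro, hP, pow_succ 2 (m + 1)] at this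
      exact Nat.eq_of_mul_eq_mul_left (by positivity) this
    haveI := normal_of_index_eq_two hi
    obtain ⟨b, hb, hbg⟩ := SetLike.not_le_iff_exists.1 hnc
    obtain ⟨j, hj⟩ := (mem_powers_iff_mem_zpowers.2
      (Normal.conj_mem inferInstance a (mem_zpowers a) ⟨b, hb⟩))
    have hj' : g ^ j = b * g * b⁻¹ := congrArg Subtype.val hj
    have hjo : Odd j := by
      have h1 : orderOf (g ^ j) = orderOf g := by
        rw [hj']
        exact orderOf_injective (MulAut.conj b).toMonoidHom (MulAut.conj b).injective g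
      rw [← Nat.not_even_iff_odd]
      rintro ⟨c, rfl⟩
      have h2 : (g ^ (c + c)) ^ 2 ^ m = 1 := by
        rw [← pow_mul, show (c + c) * 2 ^ m = 2 ^ (m + 1) * c by ring, pow_mul, hgN, one_pow]
      have h3 := orderOf_dvd_of_pow_eq_one h2
      rw [h1, hro'] at h3
      have := (Nat.pow_dvd_pow_iff_le_right (x := 2) (by norm_num)).1 h3
      omega
    have hc : a ^ j * a⁻¹ ∈ commutator (P : Subgroup G) := by
      have hj2 : a ^ j = ⟨b, hb⟩ * a * ⟨b, hb⟩⁻¹ := hj
      rw [hj2]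
      exact commutator_mem_commutator (mem_top (⟨b, hb⟩ : (P : Subgroup G))) (mem_top a)
    have hsq : a ^ 2 ∈ commutator (P : Subgroup G) := by
      rcases key j hjo hgN (by rw [hj']; exact (isConj_iff.2 ⟨b, rfl⟩ : IsConj g _).symm)
        with h | h | h
      · have := (zpow_eq_iff hro' hζ hN j 1).2 (by simpa using h)
        rw [zpow_natCast, zpow_one, hj', mul_inv_eq_iff_eq_mul] at this
        exact absurd (mem_centralizer_iff.2 (by rintro _ rfl; exact this.symm)) hbg
      · have := (zpow_eq_iff hro hζ hN j (-1)).2 (by simpa using h)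
        rw [zpow_natCast, zpow_neg, zpow_one] at this
        rw [this] at hc
        simpa [pow_two] using inv_mem hc
      · have := (zpow_eq_iff hro hζ hN j (-1 + (2 ^ m : ℕ))).2 (by
          rw [zpow_add₀ hζ0]
          simp only [zpow_natCast, zpow_neg, zpow_one, hhalf, mul_neg, mul_one]
          exact h)
        rw [zpow_natCast] at this
        obtain ⟨m, rfl⟩ : ∃ k, m = k + 2 := ⟨m - 2, by omega⟩
        have h1 : a ^ j * a⁻¹ = (a ^ 2) ^ (2 * (2 ^ m : ℤ) - 1) := by
          rw [this, ← zpow_natCast, ← zpow_mul, ← zpow_sub_one]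
          congr 1
          push_cast
          ring
        rw [h1] at hc
        exact zpowers_le.2 hc (H83.mem_zpowers_zpow_of_odd hP2 (a ^ 2) ⟨2 ^ m - 1, by ring⟩)
    refine Nat.dvd_antisymm ((index_dvd_of_le (zpowers_le.2 hsq)).trans (dvd_of_eq ?_)) h4
    have := (zpowers (a ^ 2)).card_mul_index
    rw [Nat.card_zpowers, orderOf_pow_of_dvd (by norm_num) (by rw [hro]; exact ⟨2 ^ m, by ring⟩),
      hro, hP, pow_succ 2 m, Nat.mul_div_cancel _ (by norm_num), pow_add] at this
    exact Nat.eq_of_mul_eq_mul_left (by positivity) this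

end Cfsg.Agent.S4923
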