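import Cfsg.Statements.S4930
import Cfsg.Agent.Lib.Par.Sq

set_option autoImplicit false
open Cfsg

namespace Cfsg.Agent.S4930

/-- Let G be a finite group, P a Sylow 2-subgroup of G with normalizer N, and P′ the commutator subgroup of P. Then the sum of the squares of the degrees of the irreducible complex characters of G of odd degree is at least the index of P′ in N (the order of N divided by the order of P′), and equality holds if and only if N has a normal complement in G: a normal subgroup K of G with K ∩ N = 1 and KN = G. -/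
theorem result {G : Type*} [Group G] [Finite G] (P : Sylow 2 G) :
    Nat.card (Subgroup.normalizer ((P : Subgroup G) : Set G)) ≤ Nat.card (commutator ↥P) * (∑ᶠ χ : {χ : Cfsg.IrrCharacter G // ¬ 2 ∣ Cfsg.charDegree (χ : G → ℂ)}, Cfsg.charDegree (χ.1 : G → ℂ) ^ 2) ∧
    (Nat.card (Subgroup.normalizer ((P : Subgroup G) : Set G)) = Nat.card (commutator ↥P) * (∑ᶠ χ : {χ : Cfsg.IrrCharacter G // ¬ 2 ∣ Cfsg.charDegree (χ : G → ℂ)}, Cfsg.charDegree (χ.1 : G → ℂ) ^ 2) ↔
      ∃ K : Subgroup G, K.Normal ∧ K ⊓ Subgroup.normalizer ((P : Subgroup G) : Set G) = ⊥ ∧ K ⊔ Subgroup.normalizer ((P : Subgroup G) : Set G) = ⊤) := by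
  have hi : ¬ 2 ∣ (Subgroup.normalizer ((P : Subgroup G) : Set G)).index := fun h =>
    P.not_dvd_index (h.trans (Subgroup.index_dvd_of_le Subgroup.le_normalizer))
  obtain ⟨h1, h2⟩ := H14.Par.sq_le hi
  rw [← H14.Par.sq_eq_finsum, H14.Par.card_normalizer_eq P rfl]
  refine ⟨Nat.mul_le_mul_left _ h1, fun h => ?_, ?_⟩
  · exact H14.Par.complement_of_ext P rfl (h2 (Nat.eq_of_mul_eq_mul_left Nat.card_pos h))
  · rintro ⟨K, hK, h3, h4⟩
    exact congrArg _ (H14.Par.sq_eq_of_complement P rfl h3 h4)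

end Cfsg.Agent.S4930
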