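import Mathlib
import Cfsg.Statements.S4931
import Cfsg.Agent.Lib.Blk88.TateLin
import Cfsg.Agent.Lib.Transfer.NormalComplement
import Cfsg.Agent.Lib.FGS83.SylCount
import Cfsg.Agent.Lib.Char.DegreeP

set_option autoImplicit false
open Cfsg

namespace Cfsg.Agent.S4931

set_option linter.style.haveILetI false

open scoped commutatorElement

theorem exists_sep {N : Type*} [Group N] [Finite N] (D : Subgroup N) [D.Normal] {x : N}
    (hx : x ∉ D) : ∃ ψ : IrrCharacter (N ⧸ D),
      (H35.infl D ψ : N → ℂ) x ≠ (H35.infl D ψ : N → ℂ) 1 := by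
  by_contra h
  push Not at h
  apply hx
  rw [← QuotientGroup.eq_one_iff]
  refine H6.eq_one_of_forall_irr fun ψ => ?_
  have := h ψ
  rwa [H35.infl_apply, H35.infl_one] at this

/-- If a Sylow subgroup is self-normalizing and its commutators lie in the normal subgroup `K`,
its elements in `O^p` lie in `K`. -/
theorem burnside_mod {L : Type*} [Group L] [Finite L] {p : ℕ} [Fact p.Prime] (P : Sylow p L)
    (hN : Subgroup.normalizer ((P : Subgroup L) : Set L) ≤ P) (K : Subgroup L) [K.Normal]
    (hK : ∀ a ∈ (P : Subgroup L), ∀ b ∈ (P : Subgroup L), ⁅a, b⁆ ∈ K) {x : L}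
    (hx : x ∈ pResidual p L) (hxP : x ∈ (P : Subgroup L)) : x ∈ K := by
  set f := QuotientGroup.mk' K
  have hf : Function.Surjective f := QuotientGroup.mk'_surjective K
  have hnpc : HasNormalPComplement p (L ⧸ K) := by
    apply H4.hasNormalPComplement_of_normalizer_le_centralizer (P.mapSurjective hf)
    rw [H83.normalizer_mapSurjective hf P]
    rintro _ ⟨a, ha, rfl⟩
    rw [Subgroup.mem_centralizer_iff]
    rintro _ ⟨b, hb, rfl⟩
    have h1 : f ⁅b, a⁆ = 1 := (QuotientGroup.eq_one_iff _).2 (hK b hb a (hN ha))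
    rw [map_commutatorElement, commutatorElement_eq_one_iff_mul_comm] at h1
    exact h1
  have h1 : f x ∈ pResidual p (L ⧸ K) := H4.map_pResidual_le f ⟨x, hx, rfl⟩
  have h2 : f x ∈ pResidual p (L ⧸ K) ⊓ (P.mapSurjective hf : Subgroup (L ⧸ K)) :=
    ⟨h1, ⟨x, hxP, rfl⟩⟩
  rw [(H4.hasNormalPComplement_iff_inf_eq_bot _).1 hnpc, Subgroup.mem_bot] at h2
  exact (QuotientGroup.eq_one_iff _).1 h2

/-- Let G be a finite group, p a prime and P a Sylow p-subgroup of G with normalizer N. Then every irreducible complex character of N of degree not divisible by p is the restriction of an irreducible character of G if and only if there is a normal subgroup K of G with KN = G and K ∩ N = 1. -/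
theorem result {G : Type*} [Group G] [Finite G] (p : ℕ) [Fact p.Prime] (P : Sylow p G) :
    (∀ θ : Cfsg.IrrCharacter ↥(Subgroup.normalizer ((P : Subgroup G) : Set G)), ¬ p ∣ Cfsg.charDegree (θ : ↥(Subgroup.normalizer ((P : Subgroup G) : Set G)) → ℂ) →
        ∃ χ : Cfsg.IrrCharacter G, ∀ x : ↥(Subgroup.normalizer ((P : Subgroup G) : Set G)), (χ : G → ℂ) x = (θ : ↥(Subgroup.normalizer ((P : Subgroup G) : Set G)) → ℂ) x) ↔
      ∃ K : Subgroup G, K.Normal ∧ K ⊔ Subgroup.normalizer ((P : Subgroup G) : Set G) = ⊤ ∧ K ⊓ Subgroup.normalizer ((P : Subgroup G) : Set G) = ⊥ := by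
  set N := Subgroup.normalizer ((P : Subgroup G) : Set G) with hNdef
  have hPN : (P : Subgroup G) ≤ N := Subgroup.le_normalizer
  constructor
  · intro h
    haveI hPn : ((P : Subgroup G).subgroupOf N).Normal := Subgroup.normal_in_normalizer
    have hidx : ¬ p ∣ ((P : Subgroup G).subgroupOf N).index := H4.not_dvd_relIndex_sylow P hPN
    set L := Subgroup.normalClosure ((P : Subgroup G) : Set G) with hLdef
    have hPL : (P : Subgroup G) ≤ L := Subgroup.le_normalClosure
    -- `P` is self-normalizing in its normal closure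
    have step1 : ∀ x ∈ L, x ∈ N → x ∈ (P : Subgroup G) := by
      intro x hxL hxN
      by_contra hxP
      obtain ⟨ψ, hψ⟩ := exists_sep ((P : Subgroup G).subgroupOf N) (x := ⟨x, hxN⟩) hxP
      have hd : ¬ p ∣ charDegree (H35.infl _ ψ : N → ℂ) := fun hd =>
        hidx (hd.trans (H88.charDegree_dvd_index fun n hn => H35.infl_of_mem ψ hn))
      obtain ⟨χ, hχ⟩ := h _ hd
      have hc := H6.irr_isCharacter χ.2
      have h1 : (χ : G → ℂ) 1 = (H35.infl _ ψ : N → ℂ) 1 := hχ 1
      have hle : L ≤ H6.charKer (χ : G → ℂ) := by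
        apply Subgroup.normalClosure_le_normal
        intro y hy
        rw [SetLike.mem_coe, H6.mem_charKer hc, h1, hχ ⟨y, hPN hy⟩]
        exact H35.infl_of_mem ψ hy
      apply hψ
      rw [← hχ, ← h1]
      exact (H6.mem_charKer hc).1 (hle hxL)
    set PL : Sylow p L := P.subtype hPL with hPLdef
    have hmem : ∀ y : L, y ∈ (PL : Subgroup L) ↔ (y : G) ∈ (P : Subgroup G) := fun y => Iff.rfl
    have hself : Subgroup.normalizer ((PL : Subgroup L) : Set L) ≤ PL := by
      intro y hy
      rw [hmem]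
      refine step1 y y.2 ?_
      have : Subgroup.normalizer ((PL : Subgroup L) : Set L) = N.subgroupOf L := by
        rw [hNdef, Subgroup.subgroupOf_normalizer_eq hPL]; rfl
      rw [this] at hy
      exact hy
    set R := (pResidual p L).map L.subtype with hRdef
    haveI hRn : R.Normal := H4.map_subtype_pResidual_normal L
    have step2 : R ⊓ (P : Subgroup G) ≤ ⁅(P : Subgroup G), (P : Subgroup G)⁆ := by
      rintro _ ⟨⟨x, hxR, rfl⟩, hxP⟩
      by_contra hxD
      set A := (P : Subgroup G).subgroupOf N with hA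
      have hxD' : (⟨x, hPN hxP⟩ : N) ∉ ⁅A, A⁆ := by
        intro hx
        apply hxD
        have : (⁅A, A⁆).map N.subtype = ⁅(P : Subgroup G), (P : Subgroup G)⁆ := by
          rw [Subgroup.map_commutator, hA, Subgroup.subgroupOf_map_subtype,
            inf_of_le_left hPN]
        rw [← this]
        exact ⟨_, hx, rfl⟩
      obtain ⟨ψ, hψ⟩ := exists_sep ⁅A, A⁆ hxD'
      have hd : ¬ p ∣ charDegree (H35.infl _ ψ : N → ℂ) := by
        intro hd
        rw [H35.charDegree_infl] at hd
        haveI : (A.map (QuotientGroup.mk' ⁅A, A⁆)).Normal :=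
          hPn.map _ (QuotientGroup.mk'_surjective _)
        have h1 := H31.degree_dvd_index_of_comm (A.map (QuotientGroup.mk' ⁅A, A⁆)) (by
          rintro _ ⟨a, ha, rfl⟩ _ ⟨b, hb, rfl⟩
          rw [← commutatorElement_eq_one_iff_mul_comm, ← map_commutatorElement]
          exact (QuotientGroup.eq_one_iff _).2 (Subgroup.commutator_mem_commutator ha hb))
          ψ.2 (H85.irr_one_eq_charDegree ψ)
        exact hidx (hd.trans (h1.trans
          (Subgroup.index_map_dvd _ (QuotientGroup.mk'_surjective _))))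
      obtain ⟨χ, hχ⟩ := h _ hd
      have hc := H6.irr_isCharacter χ.2
      have h1 : (χ : G → ℂ) 1 = (H35.infl _ ψ : N → ℂ) 1 := hχ 1
      have h2 := burnside_mod PL hself ((H6.charKer (χ : G → ℂ)).subgroupOf L) (by
        intro a ha b hb
        rw [Subgroup.mem_subgroupOf, H6.mem_charKer hc, h1]
        have h3 := hχ ⁅(⟨a, hPN ha⟩ : N), (⟨b, hPN hb⟩ : N)⁆
        rw [H35.infl_of_mem ψ (Subgroup.commutator_mem_commutator (H₁ := A) (H₂ := A)
          (g₁ := ⟨a, hPN ha⟩) (g₂ := ⟨b, hPN hb⟩) ha hb)] at h3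
        exact h3) hxR hxP
      rw [Subgroup.mem_subgroupOf, H6.mem_charKer hc, h1] at h2
      exact hψ ((hχ ⟨x, hPN hxP⟩).symm.trans h2)
    have hnpc : HasNormalPComplement p R :=
      H4.tate P R (step2.trans ((H1.map_subtype_frattini_le_iff P.isPGroup').1 le_rfl).1)
    have hR : ¬ p ∣ Nat.card R := by
      intro hd
      apply (H4.hasNormalPComplement_iff_card_map R).1 hnpc
      refine hd.trans (Subgroup.card_dvd_of_le ?_)
      rw [hRdef, H4.map_subtype_pResidual_le_iff]
      intro g hg hc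
      exact H4.mem_map_subtype_pResidual (H4.mem_map_subtype_pResidual hg hc) hc
    refine ⟨R, hRn, ?_, ?_⟩
    · have h1 : N ⊔ L = ⊤ := Sylow.normalizer_sup_eq_top' P hPL
      have h2 : L ≤ R ⊔ N := by
        intro y hy
        have h3 : (⟨y, hy⟩ : L) ∈ pResidual p L ⊔ (PL : Subgroup L) := by
          rw [H4.pResidual_sup_sylow]; trivial
        have h4 := Subgroup.mem_map_of_mem L.subtype h3
        rw [Subgroup.map_sup] at h4
        refine sup_le_sup_left ?_ R h4
        rintro _ ⟨z, hz, rfl⟩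
        exact hPN hz
      rw [eq_top_iff, ← h1]
      exact sup_le le_sup_right h2
    · rw [eq_bot_iff, ← H4.inf_eq_bot_of_not_dvd_card hR P.isPGroup']
      rintro x ⟨hxR, hxN⟩
      exact ⟨hxR, step1 x (Subgroup.map_subtype_le _ hxR) hxN⟩
  · rintro ⟨K, hKn, h1, h2⟩ θ -
    have hc : N.IsComplement' K := by
      apply Subgroup.isComplement'_of_disjoint_and_mul_eq_univ
      · rw [disjoint_iff, inf_comm, h2]
      · rw [← Subgroup.mul_normal, sup_comm, h1]; rfl
    set f : G →* N := hc.QuotientMulEquiv.toMonoidHom.comp (QuotientGroup.mk' K) with hf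
    have hfN : ∀ n : N, f n = n := fun n => by
      show hc.QuotientMulEquiv (QuotientGroup.mk (n : G)) = n
      rw [← MulEquiv.eq_symm_apply]
      rfl
    exact ⟨⟨fun x => (θ : N → ℂ) (f x), H6.isIrrCharacter_comp_surjective f
      (fun n => ⟨n, hfN n⟩) θ.2⟩, fun x => by show (θ : N → ℂ) (f x) = _; rw [hfN]⟩

end Cfsg.Agent.S4931
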