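import Mathlib
import Cfsg.Statements.S4973
import Cfsg.Agent.Lib.H85.FSInd
-- import your own Cfsg.Agent.* helpers here

set_option autoImplicit false
open Cfsg

namespace Cfsg.Agent.S4973

/-- Let F be a finite field of characteristic 2 and m ≥ 2. For the plus-type quadratic form Σᵢ xᵢyᵢ on F^{4m}, and for the minus-type form Σᵢ xᵢyᵢ + z₁² + a z₁z₂ + b z₂² on F^{4m} with anisotropic binary part, every irreducible complex character of the commutator subgroup of the full isometry group (a subgroup of index 2 in it) has Frobenius–Schur indicator +1: the average of χ(s²) over the group equals 1. -/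
theorem result {F : Type*} [Field F] [Fintype F] [CharP F 2] (m : ℕ) (hm : 2 ≤ m) : (∀ χ : Cfsg.IrrCharacter ↥(Cfsg.Omega F (Cfsg.quadFormPlus (2 * m) F)), (Nat.card ↥(Cfsg.Omega F (Cfsg.quadFormPlus (2 * m) F)) : ℂ)⁻¹ * ∑ᶠ s : ↥(Cfsg.Omega F (Cfsg.quadFormPlus (2 * m) F)), (χ : ↥(Cfsg.Omega F (Cfsg.quadFormPlus (2 * m) F)) → ℂ) (s * s) = 1) ∧ (∀ a b : F, (∀ z₁ z₂ : F, z₁ ^ 2 + a * z₁ * z₂ + b * z₂ ^ 2 = 0 → z₁ = 0 ∧ z₂ = 0) → ∀ χ : Cfsg.IrrCharacter ↥(Cfsg.Omega F (Cfsg.quadFormMinus (2 * m - 1) F a b)), (Nat.card ↥(Cfsg.Omega F (Cfsg.quadFormMinus (2 * m - 1) F a b)) : ℂ)⁻¹ * ∑ᶠ s : ↥(Cfsg.Omega F (Cfsg.quadFormMinus (2 * m - 1) F a b)), (χ : ↥(Cfsg.Omega F (Cfsg.quadFormMinus (2 * m - 1) F a b)) → ℂ) (s * s) = 1) := by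
  have k : ∀ {G G' : Type _} [Group G] [Group G'] [Finite G], H85.TO G → (G' ≃* G) → H85.TO G' :=
    fun h e => by have := Fintype.ofFinite; exact h.congr e.symm
  exact ⟨fun χ => k (H85.to_Om (H12.nondeg_QPlus (2 * m)) hm (by rw [H12.finrank_plus]; omega))
      (H12.commCongr (H12.plusIso F _)) χ χ.2,
    fun a b h χ => k (H85.to_Om (H12.nondeg_QMinus h (2 * m - 1)) hm (by rw [H12.finrank_minus]; omega))
      (H12.commCongr (H12.minusIso _ a b)) χ χ.2⟩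

end Cfsg.Agent.S4973
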