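import Mathlib
import Cfsg.Statements.S4989
import Cfsg.Agent.Lib.Char.Ortho
import Cfsg.Agent.Lib.Char.Burnside

set_option autoImplicit false
open Cfsg

namespace Cfsg.Agent.S4989

set_option linter.style.haveILetI false


/-- Let H be a subgroup of the finite group G and χ an irreducible complex character of G. Then the inner product of the restriction of χ to H with itself, (1/#H)·Σ_{h ∈ H} |χ(h)|², is at most 1 + #(Z ∖ H)/#H, where Z is the set of zeros of χ in G. -/
theorem result {G : Type*} [Group G] [Finite G] (H : Subgroup G) (χ : Cfsg.IrrCharacter G) : (Nat.card ↥H : ℝ)⁻¹ * ∑ᶠ h : ↥H, ‖(χ : G → ℂ) h‖ ^ 2 ≤ 1 + (Set.ncard ({x : G | (χ : G → ℂ) x = 0} \ (H : Set G)) : ℝ) / (Nat.card ↥H : ℝ) := by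
  classical
  haveI := Fintype.ofFinite G
  have hH : (0 : ℝ) < Nat.card H := Nat.cast_pos.2 Nat.card_pos
  rw [finsum_eq_sum_of_fintype, inv_mul_le_iff₀ hH, mul_add, mul_one, mul_div_cancel₀ _ hH.ne']
  have hχ := H6.irr_isCharacter χ.2
  have h1 := H6.classInner_self_re χ.1
  rw [H6.irr_inner_self χ.2, Complex.one_re, eq_inv_mul_iff_mul_eq₀
    (Nat.cast_ne_zero.2 Nat.card_pos.ne'), mul_one,
    ← Finset.sum_filter_add_sum_filter_not Finset.univ (· ∈ H),
    Finset.sum_subtype (p := (· ∈ H)) _ (fun x => by simp)] at h1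
  have h2 := H8.card_le_sum_normSq (H6.char_isGen hχ)
    (Finset.univ.filter fun x => x ∉ H ∧ χ.1 x ≠ 0) (by
      intro g hg m hm
      simp only [Finset.mem_filter, Finset.mem_univ, true_and] at hg ⊢
      obtain ⟨σ, hσ⟩ := H8.exists_ringEquiv_character_pow hm
      refine ⟨fun h => hg.1 ?_, by rw [← hσ _ (Or.inr hχ)]; simpa using hg.2⟩
      obtain ⟨k, hk⟩ := exists_pow_eq_self_of_coprime
        (Nat.Coprime.coprime_dvd_right (orderOf_dvd_natCard g) hm)
      exact hk ▸ H.pow_mem h k) (fun g hg => (Finset.mem_filter.1 hg).2.2)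
  have h3 : ∑ g ∈ Finset.univ.filter (fun x => x ∉ H ∧ χ.1 x ≠ 0), ‖χ.1 g‖ ^ 2 ≤
      ∑ g ∈ Finset.univ.filter (fun x => x ∉ H), ‖χ.1 g‖ ^ 2 :=
    Finset.sum_le_sum_of_subset_of_nonneg (Finset.monotone_filter_right _ fun _ _ h => h.1)
      fun _ _ _ => sq_nonneg _
  have h4 : Nat.card H + ((Finset.univ.filter fun x => x ∉ H ∧ χ.1 x ≠ 0).card +
      Set.ncard ({x : G | (χ : G → ℂ) x = 0} \ (H : Set G))) = Nat.card G := by
    rw [Nat.card_eq_fintype_card, Nat.card_eq_fintype_card, Fintype.card_subtype,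
      ← Finset.card_univ, ← Finset.card_filter_add_card_filter_not (s := Finset.univ) (· ∈ H),
      ← Finset.card_filter_add_card_filter_not (s := Finset.univ.filter (· ∉ H)) (χ.1 · ≠ 0),
      Finset.filter_filter, Finset.filter_filter, Set.ncard_eq_toFinset_card']
    congr 3
    ext x
    simp [and_comm]
  have h5 : (Nat.card H : ℝ) + ((Finset.univ.filter fun x => x ∉ H ∧ χ.1 x ≠ 0).card +
      Set.ncard ({x : G | (χ : G → ℂ) x = 0} \ (H : Set G))) = Nat.card G := by exact_mod_cast h4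
  linarith

end Cfsg.Agent.S4989
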