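import Cfsg.Statements.S4990
import Cfsg.Agent.Lib.KR.Grp
import Cfsg.Agent.Lib.H85.Good
import Cfsg.Agent.Lib.Block.FongInd

set_option autoImplicit false
open Cfsg

namespace Cfsg.Agent.S4990

theorem mul_le_of_sum {Q : Type*} [Fintype Q] {P : Q → Prop} (f : Q → ℕ) {a b : ℕ}
    (h : (a : ℂ) * b = ∑ᶠ x : {x // P x}, (f x.1 : ℂ)) : a * b ≤ ∑ x, f x := by
  classical
  rw [finsum_eq_sum_of_fintype] at h
  have h1 : a * b = ∑ x : {x // P x}, f x.1 := by exact_mod_cast h
  rw [h1, ← Finset.sum_subtype (Finset.univ.filter P) (by simp) f]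
  exact Finset.sum_le_sum_of_subset (Finset.filter_subset _ _)

theorem ncard_upSet_le {G : Type*} [Group G] [Finite G] (N : Subgroup G) [N.Normal] [Fintype N]
    (θ : IrrCharacter N) (hθ : ∀ g : G, H35.cjI g θ = θ) :
    (H35.upSet G {θ}).ncard ≤ Nat.card (ConjClasses (G ⧸ N)) := by
  classical
  haveI := Fintype.ofFinite (G ⧸ N)
  have h := H85.count_inv (ν := θ.1) (QuotientGroup.mk'_surjective N) N.subtype_injective
    ((QuotientGroup.ker_mk' N).trans N.range_subtype.symm) θ.2 fun x l l' e => by
      rw [← congrFun (congrArg Subtype.val (hθ x)) l]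
      exact congrArg θ.1 (Subtype.ext e.symm)
  have h1 := mul_le_of_sum (fun a : G ⧸ N => Nat.card (Subgroup.centralizer {a})) h
  rw [← H81.card_conjClasses_mul_card] at h1
  refine le_trans (le_of_eq ?_) (Nat.le_of_mul_le_mul_right h1 Nat.card_pos)
  rw [← Nat.card_coe_set_eq]
  refine Nat.card_congr (Equiv.subtypeEquivRight fun χ => ?_)
  rw [H85.ov_iff]
  exact H34.mem_upSet_singleton

/-- Let G be a finite solvable group, p a prime, M a maximal ideal of the algebraic integers containing p, and B a p-block of G of positive defect d. Then B contains at most 3^{d−1}·p^d irreducible complex characters. -/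
theorem result {G : Type*} [Group G] [Finite G] (hsolv : Group.IsSolvable G) (p : ℕ) [Fact p.Prime] (M : Ideal Cfsg.AlgInt) (hM : Cfsg.IsPModular p M) (B : Set (Cfsg.IrrCharacter G)) (hB : Cfsg.IsPBlock M B) (hd : 0 < Cfsg.blockDefect p B) : Set.ncard B ≤ 3 ^ (Cfsg.blockDefect p B - 1) * p ^ Cfsg.blockDefect p B := by
  haveI := hM.2.1
  refine H34.fong_induction hM (fun G _ _ B => Group.IsSolvable G →
    Set.ncard B ≤ 3 ^ (blockDefect p B - 1) * p ^ blockDefect p B) ?_ ?_ G
    H76.isPSolvable_of_isSolvable hB hsolv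
  · intro G _ _ _ _ θ hθ hB hs
    obtain ⟨S⟩ : Nonempty (Sylow p G) := inferInstance
    have h1 := H33.defect_card hM hB ((H34.isDefectGroup_iff_isSyl hM H1.not_dvd_card_pPrimeCore hθ hB
      S).2 (H86.isSyl_top S))
    rw [S.card_eq_multiplicity] at h1
    have h2 : (Nat.card (G ⧸ pPrimeCore p G)).factorization p = (Nat.card G).factorization p := by
      rw [Subgroup.card_eq_card_quotient_mul_card_subgroup (pPrimeCore p G),
        Nat.factorization_mul Nat.card_pos.ne' Nat.card_pos.ne', Finsupp.add_apply,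
        Nat.factorization_eq_zero_of_not_dvd H1.not_dvd_card_pPrimeCore, add_zero]
    rw [← Nat.pow_right_injective hM.1.two_le h1, ← h2]
    exact (ncard_upSet_le _ θ hθ).trans
      (H81.KR.grp inferInstance H1.pPrimeCore_quotient_pPrimeCore)
  · intro G _ _ T B' B _ _ h ih hs
    rw [h.defect]
    refine le_trans ?_ (ih inferInstance)
    choose f hf hf' using fun χ : B => h.exists_of_mem χ.2
    rw [← Nat.card_coe_set_eq, ← Nat.card_coe_set_eq]
    exact Nat.card_le_card_of_injective (fun χ => (⟨f χ, hf χ⟩ : B')) fun a b e =>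
      Subtype.ext (Subtype.ext (by rw [hf', hf', show f a = f b from congrArg Subtype.val e]))

end Cfsg.Agent.S4990
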