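import Mathlib
import Cfsg.Statements.S4993
import Cfsg.Agent.Lib.H85.Prim
-- import your own Cfsg.Agent.* helpers here

set_option autoImplicit false
open Cfsg

namespace Cfsg.Agent.S4993

/-- Let G be a group of odd order whose order has exactly two prime divisors and whose quotient by its Fitting subgroup is nilpotent (G is metanilpotent), and let χ be a primitive irreducible complex character of G (not induced from a character of any proper subgroup). Then χ(1) divides the size of some conjugacy class of G. -/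
theorem result {G : Type*} [Group G] [Fintype G] (hodd : Odd (Nat.card G)) (h2 : (Nat.card G).primeFactors.card = 2) [hF : (Cfsg.fittingSubgroup G).Normal] (hmeta : Group.IsNilpotent (G ⧸ Cfsg.fittingSubgroup G)) (χ : Cfsg.IrrCharacter G) (hprim : ¬ ∃ (H : Subgroup G), H ≠ ⊤ ∧ ∃ θ : ↥H → ℂ, Cfsg.IsCharacter ↥H θ ∧ Cfsg.indFun H θ = (χ : G → ℂ)) : ∃ g : G, Cfsg.charDegree (χ : G → ℂ) ∣ (Subgroup.centralizer ({g} : Set G)).index := by
  have hs : Group.IsSolvable G :=
    H1.isSolvable_of_normal_of_quotient (fittingSubgroup G) inferInstance inferInstance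
  obtain ⟨p, q, hne, hpq⟩ := Finset.card_eq_two.1 h2
  have hp : p ∈ (Nat.card G).primeFactors := by rw [hpq]; simp
  have hq : q ∈ (Nat.card G).primeFactors := by rw [hpq]; simp
  have : Fact p.Prime := ⟨Nat.prime_of_mem_primeFactors hp⟩
  have : Fact q.Prime := ⟨Nat.prime_of_mem_primeFactors hq⟩
  have key : ∀ (r : ℕ) [Fact r.Prime], ∃ g : G, ∀ y ∈ (pCore r (G ⧸ fittingSubgroup G)).comap
      (QuotientGroup.mk' _), (charDegree (χ : G → ℂ)).factorization r ≤
      (Subgroup.centralizer ({g * y} : Set G)).index.factorization r := fun r _ =>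
    H85.exists_prim_class χ.2 hprim r _ fun y hy => by
      obtain ⟨k, hk⟩ := H1.isPGroup_pCore (p := r) (⟨_, hy⟩ : pCore r (G ⧸ fittingSubgroup G))
      exact ⟨k, (QuotientGroup.eq_one_iff _).1 (congrArg Subtype.val hk)⟩
  obtain ⟨a, ha⟩ := key p
  obtain ⟨b, hb⟩ := key q
  have htop : pCore p (G ⧸ fittingSubgroup G) ⊔ pCore q (G ⧸ fittingSubgroup G) = ⊤ := by
    refine H1.eq_top_of_forall_prime_not_dvd_index fun r hr hd => ?_
    have h1 : r ∈ (Nat.card G).primeFactors := Nat.mem_primeFactors.2 ⟨hr,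
      (hd.trans (Subgroup.index_dvd_card _)).trans (Subgroup.card_quotient_dvd_card _),
      Nat.card_pos.ne'⟩
    rw [hpq, Finset.mem_insert, Finset.mem_singleton] at h1
    rcases h1 with rfl | rfl
    · exact H1.not_dvd_index_pCore_of_sup_eq_top (H1.pCore_sup_pPrimeCore_eq_top r)
        (hd.trans (Subgroup.index_dvd_of_le le_sup_left))
    · exact H1.not_dvd_index_pCore_of_sup_eq_top (H1.pCore_sup_pPrimeCore_eq_top r)
        (hd.trans (Subgroup.index_dvd_of_le le_sup_right))
  obtain ⟨u, hu, v, hv, e⟩ := Subgroup.mem_sup_of_normal_left.1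
    (htop ▸ Subgroup.mem_top ((a⁻¹ * b : G) : G ⧸ fittingSubgroup G))
  obtain ⟨u, rfl⟩ := QuotientGroup.mk_surjective u
  have h3 := ha u hu
  have h4 := hb (b⁻¹ * a * u) (by
    rw [Subgroup.mem_comap, QuotientGroup.mk'_apply,
      show ((b⁻¹ * a * u : G) : G ⧸ fittingSubgroup G) = v⁻¹ by
        rw [eq_inv_mul_of_mul_eq e]
        simp [mul_assoc]]
    exact inv_mem hv)
  rw [show b * (b⁻¹ * a * u) = a * u by group] at h4
  refine ⟨a * u, (Nat.factorization_le_iff_dvd (H87.deg_ne_zero χ.2)
    Subgroup.index_ne_zero_of_finite).1 fun r => ?_⟩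
  by_cases hr : r ∈ (Nat.card G).primeFactors
  · rw [hpq, Finset.mem_insert, Finset.mem_singleton] at hr
    rcases hr with rfl | rfl
    exacts [h3, h4]
  · by_cases hr' : r.Prime
    · rw [Nat.factorization_eq_zero_of_not_dvd fun h => hr (Nat.mem_primeFactors.2
        ⟨hr', h.trans (H87.deg_dvd_card χ.2), Nat.card_pos.ne'⟩)]
      exact Nat.zero_le _
    · rw [Nat.factorization_eq_zero_of_not_prime _ hr']
      exact Nat.zero_le _

end Cfsg.Agent.S4993
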