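import Mathlib
import Cfsg.Statements.S4996
import Cfsg.Agent.Lib.Char.Ortho
import Cfsg.Agent.Lib.Char.Burnside
import Cfsg.Agent.S0868

set_option autoImplicit false
open Cfsg

namespace Cfsg.Agent.S4996

set_option linter.style.haveILetI false

open scoped ComplexConjugate

theorem isCharacter_avg {G : Type*} [Group G] [Fintype G] (N : Subgroup G) [N.Normal] [Fintype N]
    {ψ : G → ℂ} (hψ : IsCharacter G ψ) :
    IsCharacter G (fun g => (Nat.card N : ℂ)⁻¹ * ∑ n : N, ψ ((n : G) * g)) := by
  classical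
  refine H6.char_induction (P := fun ψ =>
    IsCharacter G (fun g => (Nat.card N : ℂ)⁻¹ * ∑ n : N, ψ ((n : G) * g))) ?_ ?_ ?_ hψ
  · simp only [Pi.zero_apply, Finset.sum_const_zero, mul_zero]
    exact H6.isCharacter_zero
  · intro β hβ
    simp only [S0868.avg_irr N hβ]
    split_ifs
    · exact H6.irr_isCharacter hβ
    · exact H6.isCharacter_zero
  · intro a b ha hb
    simp only [Pi.add_apply, Finset.sum_add_distrib, mul_add]
    exact H6.isCharacter_add ha hb

/-- Let N be a normal subgroup of the finite group G and χ an irreducible complex character of G. Then the restriction of χ to N is not irreducible if and only if χ vanishes on some whole coset Nx of N in G. -/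
theorem result {G : Type*} [Group G] [Finite G] (N : Subgroup G) [N.Normal] (χ : Cfsg.IrrCharacter G) : ¬ Cfsg.IsIrrCharacter ↥N (fun n : ↥N => (χ : G → ℂ) n) ↔ ∃ x : G, ∀ n : ↥N, (χ : G → ℂ) ((n : G) * x) = 0 := by
  classical
  haveI := Fintype.ofFinite G
  have hχ := H6.irr_isCharacter χ.2
  have hN0 : (0 : ℝ) < Nat.card N := Nat.cast_pos.2 Nat.card_pos
  constructor
  · intro h
    by_contra hne
    push Not at hne
    apply h
    let r : G → ℝ := fun g => (Nat.card N : ℝ)⁻¹ * ∑ n : N, ‖χ.1 ((n : G) * g)‖ ^ 2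
    have hr : ∀ g, (Nat.card N : ℂ)⁻¹ * ∑ n : N, (χ.1 * fun g => conj (χ.1 g)) ((n : G) * g) =
        r g := by
      intro g
      simp only [r, Pi.mul_apply, Complex.mul_conj']
      push_cast
      rfl
    have hη := isCharacter_avg N (H6.isCharacter_mul hχ (H6.isCharacter_conj hχ))
    simp only [hr] at hη
    have hpos : ∀ g, 0 < r g := by
      intro g
      obtain ⟨n, hn⟩ := hne g
      exact mul_pos (inv_pos.2 hN0) (Finset.sum_pos' (fun _ _ => sq_nonneg _)
        ⟨n, Finset.mem_univ _, pow_pos (norm_pos_iff.2 hn) 2⟩)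
    obtain ⟨z, hz⟩ := H8.exists_int_prod_character (H6.char_isGen hη)
      (Finset.univ.filter (· ∉ N)) (by
        intro g hg m hm
        simp only [Finset.mem_filter, Finset.mem_univ, true_and] at hg ⊢
        intro h
        obtain ⟨k, hk⟩ := exists_pow_eq_self_of_coprime
          (Nat.Coprime.coprime_dvd_right (orderOf_dvd_natCard g) hm)
        exact hg (hk ▸ N.pow_mem h k))
    have hz' : ∏ g ∈ Finset.univ.filter (· ∉ N), r g = z := by exact_mod_cast hz
    have hz1 : (1 : ℝ) ≤ z := by
      have : (0 : ℝ) < z := hz' ▸ Finset.prod_pos fun g _ => hpos g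
      exact_mod_cast (show (0 : ℤ) < z by exact_mod_cast this)
    have h2 := H8.card_le_sum_of_one_le_prod _ r (fun g _ => hpos g) (hz' ▸ hz1)
    have h1 := H6.classInner_self_re χ.1
    rw [H6.irr_inner_self χ.2, Complex.one_re, eq_inv_mul_iff_mul_eq₀
      (Nat.cast_ne_zero.2 Nat.card_pos.ne'), mul_one] at h1
    have h3 : ∑ g, r g = Nat.card G := by
      simp only [r]
      have : ∀ n : N, ∑ g, ‖χ.1 ((n : G) * g)‖ ^ 2 = ∑ g, ‖χ.1 g‖ ^ 2 := fun n =>
        Equiv.sum_comp (Equiv.mulLeft (n : G)) (fun g => ‖χ.1 g‖ ^ 2)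
      rw [← Finset.mul_sum, Finset.sum_comm, Finset.sum_congr rfl fun n _ => this n, ← h1, Finset.sum_const,
        nsmul_eq_mul, Finset.card_univ, ← Nat.card_eq_fintype_card, ← mul_assoc,
        inv_mul_cancel₀ hN0.ne', one_mul]
    have h4 : ∀ g ∈ Finset.univ.filter (· ∈ N), r g = r 1 := by
      intro g hg
      simp only [r, mul_one]
      exact congrArg _ (Equiv.sum_comp (Equiv.mulRight (⟨g, (Finset.mem_filter.1 hg).2⟩ : N))
        (fun n : N => ‖χ.1 n‖ ^ 2))
    rw [← Finset.sum_filter_add_sum_filter_not Finset.univ (· ∈ N), Finset.sum_congr rfl h4,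
      Finset.sum_const, nsmul_eq_mul, Nat.card_eq_fintype_card, ← Finset.card_univ,
      ← Finset.card_filter_add_card_filter_not (s := Finset.univ) (· ∈ N), Nat.cast_add] at h3
    have h5 : (0 : ℝ) < (Finset.univ.filter (· ∈ N)).card :=
      Nat.cast_pos.2 (Finset.card_pos.2 ⟨1, by simp⟩)
    have h6 : r 1 ≤ 1 := by nlinarith
    obtain ⟨k, hk⟩ := H6.char_one_nat hη
    have hk' : r 1 = k := by exact_mod_cast hk
    have hk1 : k = 1 := by
      have h7 := hpos 1
      rw [hk'] at h6 h7
      have : k ≤ 1 := by exact_mod_cast h6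
      have : 0 < k := by exact_mod_cast h7
      omega
    refine H6.isIrr_of_char_of_inner_self (H6.isCharacter_restrict N hχ) ?_
    rw [H6.classInner_self_eq]
    simp only [r, mul_one, hk1, Nat.cast_one] at hk'
    rw [hk', Complex.ofReal_one]
  · rintro ⟨x, hx⟩ h
    have := congrFun ((S0868.result N χ.1 χ.2 h χ.1 χ.2 _ rfl).2.2 rfl) x
    simp [hx] at this

end Cfsg.Agent.S4996
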