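import Mathlib
import Cfsg.Statements.S5001
import Cfsg.Agent.Lib.Block.Defect
import Cfsg.Agent.Lib.Char.ExtGall
import Cfsg.Agent.Lib.Char.More
-- import your own Cfsg.Agent.* helpers here

set_option autoImplicit false
set_option linter.style.haveILetI false
open Cfsg

namespace Cfsg.Agent.S5001

/-- Let p be a prime, G a finite group and B a p-block of G (relative to a maximal ideal M of the algebraic integers containing p) with defect group D. Let Z be a central p-subgroup of G contained in D and λ a linear character of Z (a homomorphism to the nonzero complex numbers). Say an irreducible character χ of G lies over λ when χ(z) = χ(1)λ(z) for all z ∈ Z. If some irreducible character in B lying over λ has height zero, then λ extends to a linear character of D. -/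
theorem result {G : Type*} [Group G] [Finite G] (p : ℕ) [Fact p.Prime] (M : Ideal Cfsg.AlgInt) (hM : Cfsg.IsPModular p M) (B : Set (Cfsg.IrrCharacter G)) (hB : Cfsg.IsPBlock M B) (D : Subgroup G) (hD : Cfsg.IsDefectGroup p M B D) (Z : Subgroup G) (hZc : Z ≤ Subgroup.center G) (hZp : IsPGroup p ↥Z) (hZD : Z ≤ D) (lam : ↥Z →* ℂˣ) (χ : Cfsg.IrrCharacter G) (hχ : χ ∈ B) (hover : (∀ z : ↥Z, (χ : G → ℂ) z = (χ : G → ℂ) 1 * (lam z : ℂ))) (h0 : Cfsg.blockHeight p B (χ : G → ℂ) = 0) : (∃ μ : ↥D →* ℂˣ, ∀ z : ↥Z, μ ⟨(z : G), hZD z.2⟩ = lam z) := by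
  classical
  haveI := H33.isMaximal_of hM
  have hDp := H33.defect_isPGroup hD
  obtain ⟨g, hg, P, hP⟩ := hD
  have hDg : D ≤ Subgroup.centralizer ({g} : Set G) := hP ▸ Subgroup.map_subtype_le _
  have hred := (H33.red_irr_ne_zero_iff_height_zero hM hB hg hχ).2 h0
  let f : D × Subgroup.zpowers g →* G :=
    MonoidHom.noncommCoprod D.subtype (Subgroup.zpowers g).subtype (by
      rintro d ⟨_, k, rfl⟩
      exact (show Commute (d : G) g from
        Subgroup.mem_centralizer_singleton_iff.1 (hDg d.2)).zpow_right k)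
  haveI : Fintype (D × Subgroup.zpowers g) := Fintype.ofFinite _
  haveI : Fintype Z := Fintype.ofFinite _
  have hα := H6.isCharacter_comp f (H6.irr_isCharacter χ.2)
  have h1 := H6.classFun_apply_eq_sum_irr (H6.char_isClassFunction hα)
    (1, ⟨g, Subgroup.mem_zpowers g⟩)
  have h2 : f (1, ⟨g, Subgroup.mem_zpowers g⟩) = g := by simp [f]
  simp only [h2] at h1
  have hO : ∀ θ : IrrCharacter (D × Subgroup.zpowers g),
      classInner (fun x => (χ : G → ℂ) (f x)) θ ∈ H33.O M := fun θ => by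
    obtain ⟨n, hn⟩ := H6.char_inner_nat hα (H6.irr_isCharacter θ.2)
    rw [hn]
    exact natCast_mem _ _
  have hO' : ∀ (θ : IrrCharacter (D × Subgroup.zpowers g)) x, θ.1 x ∈ H33.O M := fun θ x =>
    H33.mem_O_of_isIntegral M (H6.char_isIntegral (H6.irr_isCharacter θ.2) x)
  rw [h1, H33.red_sum _ (fun θ _ => mul_mem (hO θ) (hO' θ _))] at hred
  obtain ⟨θ, -, hθ⟩ := Finset.exists_ne_zero_of_sum_ne_zero hred
  rw [H33.red_mul (hO θ) (hO' θ _)] at hθ
  have h3 := H33.ne_zero_of_red_ne_zero (left_ne_zero_of_mul hθ)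
  have h4 := right_ne_zero_of_mul hθ
  obtain ⟨φ, ψ, hφ, hψ, hθe⟩ := (H6.isIrrCharacter_prod_iff θ.1).1 θ.2
  obtain ⟨n, -, hn1, hn2⟩ := H6.irr_one_dvd_card hφ
  have h5 : ¬ p ∣ n := by
    rw [hθe] at h4
    simp only [hn1] at h4
    rw [H33.red_mul (natCast_mem _ _)
      (H33.mem_O_of_isIntegral M (H6.char_isIntegral (H6.irr_isCharacter hψ) _))] at h4
    exact fun h => left_ne_zero_of_mul h4 ((H33.red_natCast_eq_zero_iff hM n).2 h)
  obtain ⟨k, hk⟩ := hDp.exists_card_eq
  rw [hk] at hn2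
  have h6 : n = 1 := Nat.Coprime.eq_one_of_dvd
    (Nat.Coprime.pow_right k ((Nat.Prime.coprime_iff_not_dvd Fact.out).2 h5).symm) hn2
  obtain ⟨μ, hμ⟩ := H6.exists_hom_of_char_one_eq_one (H6.irr_isCharacter hφ)
    (by rw [hn1, h6, Nat.cast_one])
  let j : Z →* D × Subgroup.zpowers g := (MonoidHom.inl _ _).comp (Subgroup.inclusion hZD)
  have h7 := H31.eq_smul_of_add_eq_smul (H6.isCharacter_comp j (H6.irr_isCharacter θ.2))
    (H6.isCharacter_comp j (H6.isCharacter_sub_of_inner_ne_zero hα θ.2 h3))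
    (H6.isIrrCharacter_hom lam) (c := (χ : G → ℂ) 1) (by
      funext z
      have : f (j z) = z := by simp [f, j]
      simp [this, hover z])
  refine ⟨μ, fun z => Units.ext ?_⟩
  have e1 := congrFun h7 1
  have e2 := congrFun h7 z
  simp only [map_one, Pi.smul_apply, Units.val_one, smul_eq_mul, mul_one] at e1 e2
  rw [← e1, hθe, hμ] at e2
  have h8 := H6.irr_one_ne_zero hψ
  have e3 : (μ ⟨(z : G), hZD z.2⟩ : ℂ) * ψ 1 = (μ 1 : ℂ) * ψ 1 * lam z := e2
  rw [map_one, Units.val_one, one_mul, mul_comm] at e3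
  exact mul_left_cancel₀ h8 e3

end Cfsg.Agent.S5001
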