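import Mathlib
import Cfsg.Statements.S5011
import Cfsg.Agent.Lib.Char.Integral
import Cfsg.Agent.Lib.Char.Rep
-- import your own Cfsg.Agent.* helpers here

set_option autoImplicit false
set_option linter.style.haveILetI false
open Cfsg

namespace Cfsg.Agent.S5011

/-- Let G be a finite non-abelian simple group and ρ an irreducible complex representation of G on a space of dimension greater than one (irreducible in the sense that the only subspaces invariant under every ρ(x) are 0 and the whole space). Then for every non-identity element g of G, the centralizer of g does not act irreducibly: there is a non-zero proper subspace invariant under ρ(c) for every c commuting with g. -/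
theorem result {G : Type*} [Group G] [Finite G] [IsSimpleGroup G]
    (hG : ¬ IsMulCommutative G) {V : Type*} [AddCommGroup V] [Module ℂ V] [FiniteDimensional ℂ V]
    (ρ : Representation ℂ G V)
    (hirr : ∀ W : Submodule ℂ V, (∀ x : G, ∀ v ∈ W, ρ x v ∈ W) → W = ⊥ ∨ W = ⊤)
    (hdim : 1 < Module.finrank ℂ V) (g : G) (hg : g ≠ 1) :
    ∃ W : Submodule ℂ V, W ≠ ⊥ ∧ W ≠ ⊤ ∧ ∀ c ∈ Subgroup.centralizer ({g} : Set G), ∀ v ∈ W, ρ c v ∈ W := by
  by_contra hcon
  push Not at hcon
  haveI : Nontrivial V := Module.nontrivial_of_finrank_pos (R := ℂ) (by omega)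
  let C := Subgroup.centralizer ({g} : Set G)
  haveI : Representation.IsIrreducible (ρ.comp C.subtype : Representation ℂ C V) := by
    rw [H6.isIrreducible_iff]
    refine ⟨inferInstance, fun U hU => ?_⟩
    by_contra h
    push Not at h
    obtain ⟨c, hc, v, hv, h1⟩ := hcon U h.1 h.2
    exact h1 (hU ⟨c, hc⟩ v hv)
  obtain ⟨c, hc⟩ := H8.exists_scalar_of_mem_center (ρ.comp C.subtype : Representation ℂ C V)
    (z := ⟨g, Subgroup.mem_centralizer_singleton_iff.2 rfl⟩)
    (Subgroup.mem_center_iff.2 fun w => Subtype.ext (Subgroup.mem_centralizer_singleton_iff.1 w.2))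
  have hc' : ρ g = c • 1 := hc
  let N : Subgroup G :=
    { carrier := {x | ∃ c : ℂ, ρ x = c • 1}
      one_mem' := ⟨1, by simp⟩
      mul_mem' := by
        rintro a b ⟨c, hc⟩ ⟨d, hd⟩
        exact ⟨c * d, by rw [map_mul, hc, hd, smul_mul_smul_comm, mul_one]⟩
      inv_mem' := by
        rintro a ⟨c, hc⟩
        have h1 : ρ a⁻¹ * ρ a = 1 := by rw [← map_mul, inv_mul_cancel, map_one]
        rw [hc, mul_smul_comm, mul_one] at h1
        have hc0 : c ≠ 0 := by
          rintro rfl
          rw [zero_smul] at h1
          exact zero_ne_one h1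
        exact ⟨c⁻¹, by rw [← h1, smul_smul, inv_mul_cancel₀ hc0, one_smul]⟩ }
  have hN : N.Normal := ⟨by
    rintro x ⟨c, hc⟩ y
    refine ⟨c, ?_⟩
    rw [map_mul, map_mul, hc, mul_smul_comm, mul_one, smul_mul_assoc, ← map_mul, mul_inv_cancel,
      map_one]⟩
  rcases hN.eq_bot_or_eq_top with h | h
  · exact hg (Subgroup.mem_bot.1 (h ▸ (show g ∈ N from ⟨c, hc'⟩)))
  · obtain ⟨v, hv⟩ := exists_ne (0 : V)
    rcases hirr (Submodule.span ℂ {v}) (by
      intro x w hw
      obtain ⟨d, hd⟩ : x ∈ N := h ▸ Subgroup.mem_top x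
      rw [hd]
      exact Submodule.smul_mem _ d hw) with h1 | h1
    · exact hv ((Submodule.span_singleton_eq_bot).1 h1)
    · have := finrank_span_singleton (K := ℂ) hv
      rw [h1, finrank_top] at this
      omega

end Cfsg.Agent.S5011
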