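import Cfsg.Statements.S5012
import Mathlib
import Cfsg.Agent.Lib.LieBN.All
import Cfsg.Agent.S0956
import Cfsg.Agent.S0908
import Cfsg.Agent.Lib.Block.Defect

set_option autoImplicit false
open Cfsg

namespace Cfsg.Agent.S5012

/-- Let G be a finite simple group of Lie type in characteristic p. Then every p-block of G has defect zero or full defect: its defect is 0 or the exponent of p in the order of G (its defect groups are trivial or Sylow p-subgroups). -/
theorem result {G : Type*} [Group G] [Finite G] (p : ℕ) [Fact p.Prime] (hG : Cfsg.IsLieTypeChar p G) (M : Ideal Cfsg.AlgInt) (hM : Cfsg.IsPModular p M) (B : Set (Cfsg.IrrCharacter G)) (hB : Cfsg.IsPBlock M B) : Cfsg.blockDefect p B = 0 ∨ Cfsg.blockDefect p B = (Nat.card G).factorization p := by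
  obtain ⟨S, hirr, -⟩ := H62.LB.exists_sbn hG
  have := hM.2.1
  obtain ⟨D, hD⟩ := H33.exists_defectGroup (p := p) hB
  have h1 := Cfsg.Agent.S0908.result p M hM B hB D hD
  have hp := (Fact.out : p.Prime)
  rcases S.green_dichotomy hirr (IsPGroup.of_card h1) (fun g hg => by
    have h3 : ∀ y, y ∈ (g • S.sylow : Sylow p G) ↔ g⁻¹ * y * g ∈ S.U := fun y => by
      rw [← SetLike.mem_coe, Sylow.coe_smul, Set.mem_smul_set_iff_inv_smul_mem, ← map_inv]
      simp [H62.LB.SBN.sylow]
    obtain ⟨x, -, ⟨T, hT⟩, h2⟩ := Cfsg.Agent.S0956.result p M hM B hB D hD (g • S.sylow)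
      fun d hd => (h3 d).2 (hg d hd)
    refine ⟨x, fun d hd => ?_, fun y h4 h5 => h2.le ⟨(h3 y).2 h4, _, (h3 _).2 h5, by
      simp [mul_assoc]⟩⟩
    obtain ⟨d, -, rfl⟩ := hT.ge hd
    exact Subgroup.mem_centralizer_singleton_iff.1 d.2) with h | h
  · rw [h, Subgroup.card_bot, eq_comm, Nat.pow_eq_one] at h1
    exact Or.inl (h1.resolve_left hp.one_lt.ne')
  · rw [h, ← S.split.card_sylow S.sylow, Sylow.card_eq_multiplicity] at h1
    exact Or.inr (Nat.pow_right_injective hp.two_le h1).symm

end Cfsg.Agent.S5012
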