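import Mathlib
import Cfsg.Statements.S5139
import Cfsg.Agent.Lib.Fusion.Hyp
import Cfsg.Agent.Lib.Fusion.GroupSub
import Cfsg.Agent.S5093
-- import your own Cfsg.Agent.* helpers here

set_option autoImplicit false
open Cfsg

namespace Cfsg.Agent.S5139

/-- Let G be a finite group with Sylow p-subgroup S and O^p(G) the subgroup generated by the elements of order prime to p. Then the p-residual subsystem of the fusion system of G on S — the saturated subsystem of p-power index over the hyperfocal subgroup — is the fusion system of O^p(G) on S ∩ O^p(G): its maps are exactly the conjugation maps by elements of O^p(G) between subgroups of S ∩ O^p(G). -/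
theorem result {G : Type*} [Group G] [Finite G] (p : ℕ) [Fact p.Prime] (S : Sylow p G) (E : Cfsg.FusionSystem ((Cfsg.groupFusionSystem (S : Subgroup G)).hyperfocalSubgroup p)) (hE : (Cfsg.groupFusionSystem (S : Subgroup G)).IsPResidual p E) : ∃ h : (S : Subgroup G) ⊓ Cfsg.pResidual p G ≤ Cfsg.pResidual p G, ∀ P : Subgroup G, E.Hom P = (Cfsg.fusionSystemOfSubgroup (Cfsg.pResidual p G) ((S : Subgroup G) ⊓ Cfsg.pResidual p G) h).Hom P := by
  refine ⟨inf_le_right, ?_⟩
  have hh := Cfsg.Agent.S5093.result p S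
  haveI := H4.pResidual_normal p G
  have hsyl : H68.SylowIn p ((S : Subgroup G) ⊓ Cfsg.pResidual p G) (Cfsg.pResidual p G) :=
    H91.sylowIn_inf_of_isSubnormal S (Subgroup.Normal.isSubnormal inferInstance)
  have hD : (Cfsg.fusionSystemOfSubgroup (Cfsg.pResidual p G) ((S : Subgroup G) ⊓ Cfsg.pResidual p G) inf_le_right).HasPPowerIndexIn (Cfsg.groupFusionSystem (S : Subgroup G)) p := by
    refine H92.hasPPowerIndexIn_iff.2 ⟨H90.sub_iff_map.2 fun P f hf => ?_, hh.le, fun P hP α hα hc => ?_⟩
    · obtain ⟨h1, h2, g, -, e⟩ := H90.map_subgroup.1 hf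
      exact H90.map_group.2 ⟨h1.trans inf_le_left, fun x hx => (h2 x hx).1, g, e⟩
    · rw [H90.autGroup_group (hP.trans inf_le_left)] at hα
      rw [H90.autGroup_subgroup _ hP]
      obtain ⟨g, hg, rfl⟩ := H90.exists_conjAut_of_mem hα
      obtain ⟨j, hj⟩ := H90.exists_pow_p'_part g hc
      have h1 : H90.conjAut P g hg.2 = H90.conjAut P _ (pow_mem hg.2 (1 + orderOf (H90.conjAut P g hg.2) * j)) := by
        refine Eq.trans ?_ (map_pow P.normalizerMonoidHom ⟨g, hg.2⟩ _).symm
        show _ = H90.conjAut P g hg.2 ^ _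
        rw [pow_add, pow_one, pow_mul, pow_orderOf_eq_one, one_pow, mul_one]
      rw [h1]
      exact H90.conjAut_mem (H4.mem_pResidual_of_coprime hj) _
  have key : ∀ (T : Subgroup G) (e : T = (S : Subgroup G) ⊓ Cfsg.pResidual p G) (E : Cfsg.FusionSystem T),
      E.IsSaturated p → E.HasPPowerIndexIn (Cfsg.groupFusionSystem (S : Subgroup G)) p → ∀ P : Subgroup G, E.Hom P = (Cfsg.fusionSystemOfSubgroup (Cfsg.pResidual p G) ((S : Subgroup G) ⊓ Cfsg.pResidual p G) inf_le_right).Hom P := by
    rintro T rfl E h1 h2 P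
    rw [H92.eq_of_hasPPowerIndexIn S.isPGroup' h1 (H91.isSaturated_subgroup hsyl) h2 hD]
  exact key _ hh E hE.1 hE.2

end Cfsg.Agent.S5139
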