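import Cfsg.Statements.S5212
import Mathlib
import Cfsg.Agent.Base
import Cfsg.Agent.Lib.Fusion.Resist2

set_option autoImplicit false
open Cfsg

namespace Cfsg.Agent.S5212

/-- Let S be a finite metacyclic 2-group that is not homocyclic abelian (a direct product of cyclic groups of one common order), not dihedral, not semidihedral and not generalized quaternion. Then every saturated fusion system over S is the inner fusion system of S. -/
theorem result {Ω : Type*} [Group Ω] {S : Subgroup Ω} [Finite S] (hS : IsPGroup 2 S) (F : Cfsg.FusionSystem S) (hF : F.IsSaturated 2) (hm : Cfsg.IsMetacyclic ↥S) (hh : ¬ ∃ n k : ℕ, Nonempty (↥S ≃* Multiplicative (Fin k → ZMod (2 ^ n)))) (hd : ¬ ∃ m : ℕ, Nonempty (↥S ≃* DihedralGroup m)) (hq : ¬ ∃ m : ℕ, Nonempty (↥S ≃* QuaternionGroup m)) (hsd : ¬ Cfsg.IsQuasiDihedral ↥S) : ∀ P : Subgroup Ω, F.Hom P = (Cfsg.innerFusionSystem S).Hom P := by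
  have := H93.Super.eq_inner hS hF (H93.super_of_isMetacyclic hS hF hm ?_ ?_)
  · exact fun P => by rw [this]
  · rintro ⟨n, -, ⟨e⟩⟩
    exact hh ⟨n, 2, ⟨e.trans ((MulEquiv.prodMultiplicative _ _).symm.trans
      (AddEquiv.toMultiplicative (LinearEquiv.finTwoArrow ℤ _).toAddEquiv.symm))⟩⟩
  · rintro ⟨-, ⟨k, h⟩ | h | ⟨k, h⟩⟩
    exacts [hd ⟨_, h⟩, hsd h, hq ⟨_, h⟩]

end Cfsg.Agent.S5212
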