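import Cfsg.Statements.S5214
import Mathlib
import Cfsg.Agent.Base
import Cfsg.Agent.Lib.Fusion.Constr
import Cfsg.Agent.S1137
import Cfsg.Agent.S1138

set_option autoImplicit false
open Cfsg

namespace Cfsg.Agent.S5214

open H90 H91 Cfsg.FusionSystem in

/-- Let S be a Suzuki 2-group (a finite nonabelian 2-group with more than one involution admitting a cyclic group of automorphisms permuting its involutions regularly). Then S is normal in every saturated fusion system over S (such a group is resistant). -/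
theorem result {Ω : Type*} [Group Ω] {S : Subgroup Ω} [Finite S] (hS : IsPGroup 2 S) (F : Cfsg.FusionSystem S) (hF : F.IsSaturated 2) (hsz : Cfsg.IsSuzukiTwoGroup ↥S) : F.IsNormal S := by
  obtain ⟨h1, h2⟩ := Cfsg.Agent.S1137.result hsz
  have h3 := (Cfsg.Agent.S1138.result hsz).2.1
  have h4 : ∀ x, x ∈ centralizerIn S S ↔ x ∈ S ∧ x * x = 1 := fun x => and_congr_right fun hx =>
    ⟨fun h => congrArg Subtype.val (h2 ⟨x, hx⟩
      (Subgroup.mem_center_iff.2 fun y => Subtype.ext (h y y.2))), fun h y hy => by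
      obtain rfl | e := eq_or_ne x 1
      · simp
      · exact congrArg Subtype.val (Subgroup.mem_center_iff.1
          ((h1 ⟨x, hx⟩).1 ⟨fun e' => e (congrArg Subtype.val e'), Subtype.ext h⟩).1 ⟨y, hy⟩)⟩
  refine isNormal_of_chain3 hS hF (stronglyClosed_top F) (stronglyClosed_bot F)
    (B := centralizerIn S S) (stronglyClosed_iff_map.2 ⟨inf_le_left, fun P f hf x hx h => (h4 _).2
      ⟨hf.mem hx, by rw [← hf.map_mul hx hx, ((h4 x).1 h).2, hf.map_one]⟩⟩) bot_le inf_le_left
    (by simp) (commutator_le_of_forall fun a ha b hb => by rw [← ha.2 b hb]; simp)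
    (commutator_le_of_forall fun a ha b hb => ⟨comm_mem ha hb, fun y hy => ?_⟩)
  simpa using congrArg Subtype.val (Subgroup.mem_center_iff.1 (h3 ⟨a, ha⟩⁻¹ ⟨b, hb⟩⁻¹) ⟨y, hy⟩)

end Cfsg.Agent.S5214
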