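import Cfsg.Statements.S5222
import Cfsg.Agent.Lib.Fusion.Nilp
-- import your own Cfsg.Agent.* helpers here

set_option autoImplicit false
open Cfsg

namespace Cfsg.Agent.S5222

/-- Let F be a saturated fusion system over a finite p-group S whose normalizer fusion system of S is the inner fusion system of S (Aut_F(S) is a p-group). Then for every subgroup Q of S with [S, S] ≤ Q ≤ Φ(S), the normalizer fusion system of Q in F is the inner fusion system of N_S(Q) = S. -/
theorem result {Ω : Type*} [Group Ω] {S : Subgroup Ω} [Finite S] (p : ℕ) [Fact p.Prime] (hS : IsPGroup p S) (F : Cfsg.FusionSystem S) (hF : F.IsSaturated p) (hN : ∀ N : Cfsg.FusionSystem (Cfsg.FusionSystem.normalizerIn S S), F.IsNormalizerSystem S N → ∀ P : Subgroup Ω, N.Hom P = (Cfsg.innerFusionSystem (Cfsg.FusionSystem.normalizerIn S S)).Hom P) (Q : Subgroup Ω) (h1 : (commutator ↥S).map S.subtype ≤ Q) (h2 : Q ≤ (frattini ↥S).map S.subtype) : ∀ N : Cfsg.FusionSystem (Cfsg.FusionSystem.normalizerIn S Q), F.IsNormalizerSystem Q N → ∀ P : Subgroup Ω,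 N.Hom P = (Cfsg.innerFusionSystem (Cfsg.FusionSystem.normalizerIn S Q)).Hom P := by
  intro N hNQ P
  rw [H92.top_normalizer_inner_iff] at hN
  rw [Subgroup.map_subtype_commutator] at h1
  have hQ : Q ≤ S := h2.trans (Subgroup.map_subtype_le _)
  have hn : S ≤ Subgroup.normalizer (Q : Set Ω) := Subgroup.le_normalizer_iff.2 fun g hg x hx => by
    have := mul_mem hx (H90.inv_mul_conj_mem_of_commutator_le h1 (hQ hx) hg)
    rwa [mul_inv_cancel_left] at this
  have hs := H90.isSaturated_of_isNormalizerSystem hS hF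
    (H90.isFullyNormalized_of_le_normalizer hQ hn) hNQ
  have hc := H91.IsNormal.stronglyClosed' (H92.isNormal_of_isNormalizerSystem hQ hNQ)
  have hsub := H90.sub_of_isNormalizerSystem hNQ
  have e : Cfsg.FusionSystem.normalizerIn S Q = S := inf_eq_left.2 hn
  clear hNQ
  revert N
  rw [e]
  intro N hs hc hsub
  rw [← H92.eq_inner_of_focal_le_frattini hS hs ((H92.focal_le_of_top_inner hS hs hc h1
    fun f hf => hN f (hf.of_sub hsub)).trans h2)]

end Cfsg.Agent.S5222
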