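import Cfsg.Statements.S5233
import Mathlib
import Cfsg.Agent.Base
import Cfsg.Agent.Lib.Fusion.GenExtra
import Cfsg.Agent.Lib.FGS.Heisenberg

set_option autoImplicit false
open Cfsg

namespace Cfsg.Agent.S5233

/-- Let F be a saturated fusion system over a finite p-group S and P a subgroup of S strongly closed in F that is generalized extraspecial (its Frattini subgroup equals its commutator subgroup and has order p) and not isomorphic to E × A with A elementary abelian and E dihedral of order 8 (p = 2) or extraspecial of order p³ and exponent p (p odd). Then P is normal in F. -/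
theorem result {Ω : Type*} [Group Ω] {S : Subgroup Ω} [Finite S] (p : ℕ) [Fact p.Prime] (hS : IsPGroup p S) (F : Cfsg.FusionSystem S) (hF : F.IsSaturated p) (P : Subgroup Ω) (hP : F.StronglyClosed P) (hge : frattini ↥P = commutator ↥P ∧ Nat.card ↥(commutator ↥P) = p) (h2 : p = 2 → ¬ ∃ (A : Type) (_ : CommGroup A), (∀ a : A, a ^ 2 = 1) ∧ Nonempty (↥P ≃* DihedralGroup 4 × A)) (hodd : p ≠ 2 → ¬ ∃ (E : Type) (_ : Group E) (A : Type) (_ : CommGroup A), Cfsg.IsExtraspecial p E ∧ Nat.card E = p ^ 3 ∧ Monoid.exponent E = p ∧ (∀ a : A, a ^ p = 1) ∧ Nonempty (↥P ≃* E × A)) : F.IsNormal P := by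
  by_contra hn
  haveI := H90.finite_of_le hP.1
  haveI : IsCyclic (commutator P) := isCyclic_of_prime_card hge.2
  obtain ⟨z, hz⟩ := H5.exists_zpowers_eq (C := commutator P) inferInstance
  have hzp : z ^ p = 1 := by rw [← hge.2, ← hz, Nat.card_zpowers, pow_orderOf_eq_one]
  have key : ∀ x : P, x ∈ commutator P → (x : Ω) ∈ Subgroup.zpowers (z : Ω) := fun x hx =>
    let ⟨k, hk⟩ := hz.ge hx; ⟨k, congrArg Subtype.val hk⟩
  obtain ⟨E, A, ⟨e⟩, h1, h3, h4, h5⟩ := H93.exists_prod_of_genExtra hS hF hP hn z.2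
    (congrArg Subtype.val hzp) (fun x hx y hy => key _ (Subgroup.commutator_mem_commutator
      (Subgroup.mem_top ⟨x, hx⟩) (Subgroup.mem_top ⟨y, hy⟩)))
    fun x hx => key _ (hge.1 ▸ H5.pow_mem_frattini (hS.to_le hP.1) ⟨x, hx⟩)
  haveI := Finite.of_surjective e e.surjective
  haveI : Finite E := Finite.of_surjective _ (Prod.fst_surjective (β := A))
  haveI : Finite A := Finite.of_surjective _ (Prod.snd_surjective (α := E))
  letI : CommGroup A := { (inferInstance : Group A) with mul_comm := h1.is_comm.comm }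
  have eA : A ≃* Shrink.{0} A := Shrink.mulEquiv.symm
  have hA : ∀ a : Shrink.{0} A, a ^ p = 1 := fun a => eA.symm.injective (by
    rw [map_pow, map_one]; exact Subtype.ext (h3 _ (eA.symm a).2))
  by_cases hp : p = 2
  · obtain ⟨e'⟩ := h4 hp
    exact h2 hp ⟨_, inferInstance, hp ▸ hA, ⟨e.trans (e'.prodCongr eA)⟩⟩
  · obtain ⟨h6, h7, h8⟩ := h5 hp
    have eE : E ≃* Shrink.{0} E := Shrink.mulEquiv.symm
    haveI : Nontrivial E := Finite.one_lt_card_iff_nontrivial.1
      (h6 ▸ Nat.one_lt_pow (by decide) (Fact.out : p.Prime).one_lt)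
    exact hodd hp ⟨_, inferInstance, _, inferInstance,
      H76.isExtraspecial_of_equiv eE (H93.isExtraspecial_of_card_cube h6 h7),
      (Nat.card_congr eE.toEquiv).symm.trans h6, (Monoid.exponent_eq_of_mulEquiv eE).symm.trans
        ((Monoid.exponent_eq_prime_iff Fact.out).2 fun x hx =>
          orderOf_eq_prime (Subtype.ext (h8 x x.2)) hx), hA, ⟨e.trans (eE.prodCongr eA)⟩⟩

end Cfsg.Agent.S5233
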