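import Cfsg.Statements.S5235
import Mathlib
import Cfsg.Agent.Base
import Cfsg.Agent.Lib.Fusion.Resist2

set_option autoImplicit false
open Cfsg

namespace Cfsg.Agent.S5235

/-- Let F be a saturated fusion system over a finite 2-group S (p = 2) and P a metacyclic subgroup of S strongly closed in F that is not dihedral, not semidihedral and not generalized quaternion (here the group of order 2, the Klein four-group and the cyclic group of order 4 also count as excluded). Then P is normal in F. -/
theorem result {Ω : Type*} [Group Ω] {S : Subgroup Ω} [Finite S] (p : ℕ) [Fact p.Prime] (hS : IsPGroup p S) (F : Cfsg.FusionSystem S) (hF : F.IsSaturated p) (P : Subgroup Ω) (hP : F.StronglyClosed P) (hp : p = 2) (hm : Cfsg.IsMetacyclic ↥P) (hd : ¬ ∃ m : ℕ, Nonempty (↥P ≃* DihedralGroup m)) (hq : ¬ ∃ m : ℕ, Nonempty (↥P ≃* QuaternionGroup m)) (hsd : ¬ Cfsg.IsQuasiDihedral ↥P) : F.IsNormal P := by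
  refine H93.isNormal_of_isMetacyclic hS hF hP hm ?_
  rintro ⟨-, ⟨k, h⟩ | h | ⟨k, h⟩⟩
  exacts [hd ⟨_, h⟩, hsd h, hq ⟨_, h⟩]

end Cfsg.Agent.S5235
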