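import Cfsg.Statements.S5236
import Mathlib
import Cfsg.Agent.Base
import Cfsg.Agent.Lib.Fusion.Small
import Cfsg.Agent.Lib.PGroup.Omega
import Cfsg.Agent.Lib.Core.Coprime

set_option autoImplicit false
open Cfsg

namespace Cfsg.Agent.S5236

/-- Let p be an odd prime, F a saturated fusion system over a finite p-group S and P a subgroup of S strongly closed in F. Then P is normal in F if and only if Ω₁(P) (the subgroup generated by the elements of order p of P) has a chain of subgroups 1 = Q₀ ≤ Q₁ ≤ ⋯ ≤ Qₙ = Ω₁(P), each strongly closed in F, with [Qᵢ₊₁, P] ≤ Qᵢ for all i. -/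
theorem result {Ω : Type*} [Group Ω] {S : Subgroup Ω} [Finite S] (p : ℕ) [Fact p.Prime] (hS : IsPGroup p S) (F : Cfsg.FusionSystem S) (hF : F.IsSaturated p) (hp : p ≠ 2) (P : Subgroup Ω) (hP : F.StronglyClosed P) : F.IsNormal P ↔ ∃ (n : ℕ) (Q : Fin (n + 1) → Subgroup Ω), Q 0 = ⊥ ∧ Q (Fin.last n) = Cfsg.omegaOne p P ∧ Monotone Q ∧ (∀ i : Fin (n + 1), F.StronglyClosed (Q i)) ∧ ∀ i : Fin n, ⁅Q i.succ, P⁆ ≤ Q i.castSucc := by
  have hΩ : Cfsg.omegaOne p P ≤ P := (Subgroup.closure_le _).2 fun _ h => h.1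
  refine ⟨fun h => ?_, fun ⟨n, Q, h0, hn, _, h1, h2⟩ => H93.isNormal_of_small hS hF hP hP
    (Or.inr le_rfl) Q h0 (fun x hx hs => hn ▸ Subgroup.subset_closure
      ⟨hx, hs.resolve_right fun h => hp h.1⟩)
    (fun R σ hσ i x hx _ hi => hσ.mem_of_stronglyClosed (h1 i) hx.1 hi)
    fun g hg i x _ _ hx => H90.inv_mul_conj_mem_of_commutator_le (h2 i) hx hg⟩
  haveI := H90.finite_of_le hP.1
  obtain ⟨n, C, h0, hn, hm, h1, h2⟩ := H90.exists_char_central_series (hS.to_le hP.1)
  have hc : ((Cfsg.omegaOne p P).subgroupOf P).Characteristic := by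
    have : (Cfsg.omegaOne p P).subgroupOf P = Subgroup.closure {x : P | x ^ p = 1} := by
      refine Subgroup.map_injective P.subtype_injective ?_
      rw [Subgroup.map_subgroupOf_eq_of_le hΩ, MonoidHom.map_closure]
      refine congrArg Subgroup.closure (Set.ext fun x => ?_)
      refine ⟨fun h => ⟨⟨x, h.1⟩, Subtype.ext h.2, rfl⟩, ?_⟩
      rintro ⟨y, hy, rfl⟩
      exact ⟨y.2, congrArg Subtype.val hy⟩
    rw [this]; exact H5.characteristic_closure_pow_eq_one p
  have hs := H91.IsNormal.stronglyClosed' (H90.isNormal_of_characteristic h hΩ hc)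
  refine ⟨n, fun i => C i ⊓ Cfsg.omegaOne p P, by simp [h0], inf_eq_right.2 (hn ▸ hΩ),
    fun i j hij => inf_le_inf_right _ (hm hij), fun i => H90.stronglyClosed_inf
      (H91.IsNormal.stronglyClosed' (H90.isNormal_of_characteristic h (h2 i).1 (h2 i).2)) hs,
    fun i => le_inf ((Subgroup.commutator_mono inf_le_left le_rfl).trans (h1 i))
      ((Subgroup.commutator_mono inf_le_right le_rfl).trans (H2.commutator_le_of_le_normalizer
        (hP.1.trans (H90.le_normalizer_of_stronglyClosed hs))))⟩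

end Cfsg.Agent.S5236
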