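import Cfsg.Statements.S5276
import Cfsg.Agent.Lib.Fusion.Nilp
-- import your own Cfsg.Agent.* helpers here

set_option autoImplicit false
open Cfsg

namespace Cfsg.Agent.S5276

/-- Let p be a prime and F a saturated fusion system over a finite p-group S. Then F is the inner fusion system of S if and only if the normalizer fusion system of S itself in F is the inner fusion system (equivalently, Aut_F(S) is induced by S) and the Frattini subgroup Φ(S) is strongly closed in F. -/
theorem result {Ω : Type*} [Group Ω] {S : Subgroup Ω} [Finite S] (p : ℕ) [Fact p.Prime] (hS : IsPGroup p ↥S) (F : Cfsg.FusionSystem S) (hF : F.IsSaturated p) : (∀ P : Subgroup Ω, F.Hom P = (Cfsg.innerFusionSystem S).Hom P) ↔ (∀ N : Cfsg.FusionSystem (Cfsg.FusionSystem.normalizerIn S S), F.IsNormalizerSystem S N → ∀ P : Subgroup Ω, N.Hom P = (Cfsg.innerFusionSystem (Cfsg.FusionSystem.normalizerIn S S)).Hom P) ∧ F.StronglyClosed ((frattini ↥S).map S.subtype) := by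
  rw [H92.top_normalizer_inner_iff]
  constructor
  · intro h
    obtain rfl := H90.fs_ext h
    refine ⟨fun f hf _ => (H90.map_inner.1 hf).2, H90.stronglyClosed_iff_map.2
      ⟨Subgroup.map_subtype_le _, fun P f hf x hx hx' => ?_⟩⟩
    obtain ⟨-, g, hg, e⟩ := H90.map_inner.1 hf
    obtain ⟨y, hy, rfl⟩ := hx'
    exact ⟨_, (inferInstance : (frattini S).Normal).conj_mem y hy ⟨g, hg⟩, (e _ hx).symm⟩
  · rintro ⟨h1, h2⟩ P
    rw [← H92.eq_inner_of_focal_le_frattini hS hF
      (H92.focal_le_of_top_inner hS hF h2 (H92.commutator_le_frattini hS) h1)]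

end Cfsg.Agent.S5276
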