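import Cfsg.Statements.S5284
import Mathlib
import Cfsg.Agent.Base
import Cfsg.Agent.Lib.Fusion.AbelChain

set_option autoImplicit false
open Cfsg

namespace Cfsg.Agent.S5284

/-- Let S be a finite abelian p-group. Every saturated fusion system over S is supersoluble (S has a chain of F-strongly closed subgroups from 1 to S with cyclic steps) if and only if the invariants of S are pairwise distinct, that is, S is not isomorphic to a direct product (Z/p^n × Z/p^n) × H with n ≥ 1. -/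
theorem result {Ω : Type*} [Group Ω] {S : Subgroup Ω} [Finite S] (p : ℕ) [Fact p.Prime] (hS : IsPGroup p ↥S) (hab : IsMulCommutative ↥S) : (∀ F : Cfsg.FusionSystem S, F.IsSaturated p → (∃ (m : ℕ) (c : Fin (m + 1) → Subgroup Ω), c 0 = ⊥ ∧ c (Fin.last m) = S ∧ (∀ i : Fin (m + 1), F.StronglyClosed (c i)) ∧ ∀ i : Fin m, c i.castSucc ≤ c i.succ ∧ ∃ x ∈ S, c i.succ = c i.castSucc ⊔ Subgroup.zpowers x)) ↔ ¬ ∃ (n : ℕ) (H : Type) (_ : CommGroup H), 0 < n ∧ Nonempty (↥S ≃* (Multiplicative (ZMod (p ^ n)) × Multiplicative (ZMod (p ^ n))) × H) := by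
  have hab' : ∀ x ∈ S, ∀ y ∈ S, x * y = y * x := fun x hx y hy =>
    congrArg Subtype.val (hab.is_comm.comm (⟨x, hx⟩ : S) ⟨y, hy⟩)
  refine ⟨fun h ⟨n, H, _, hn, ⟨e⟩⟩ => ?_, fun h F hF => ?_⟩
  · have hp : p.Prime := Fact.out
    haveI : Fact (1 < p ^ n) := ⟨Nat.one_lt_pow hn.ne' hp.one_lt⟩
    obtain ⟨K, h1, h2⟩ := H93.exists_bad_aut (p := p) (IsPGroup.of_card (n := n)
      ((Nat.card_congr Multiplicative.toAdd).trans (Nat.card_zmod _))) e
    exact h2 (((H93.forall_super_iff hS).1 h).2 K h1)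
  · letI : CommGroup S := { (inferInstance : Group S) with mul_comm := hab.is_comm.comm }
    exact H93.super_of_ulmOne hS hF hab' ((H93.ulmOne_or hS).resolve_right h)

end Cfsg.Agent.S5284
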