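import Mathlib
import Cfsg.Statements.S5291
import Cfsg.Agent.Lib.Fusion.Constr
-- import your own Cfsg.Agent.* helpers here

set_option autoImplicit false
open Cfsg

namespace Cfsg.Agent.S5291

/-- Let F be a saturated fusion system over a finite p-group S and E a weakly normal subsystem of F over a subgroup T. Suppose a subgroup R of T is normal in E (E = N_E(R)), and let R* be the subgroup of T generated by the images of R under all maps of F with source R. Then R* is normal in F (F = N_F(R*)). -/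
theorem result {Ω : Type*} [Group Ω] {S : Subgroup Ω} [Finite S] (p : ℕ) [Fact p.Prime] (hS : IsPGroup p S)
    (F : Cfsg.FusionSystem S) (hF : F.IsSaturated p)
    {T : Subgroup Ω} (E : Cfsg.FusionSystem T) (hE : E.IsWeaklyNormalIn F p)
    (R : Subgroup Ω) (hR : E.IsNormal R) :
    F.IsNormal (Subgroup.closure {x : Ω | ∃ φ ∈ F.Hom R, ∃ r : R, x = φ r}) := by
  have hi := H91.IsWeaklyNormalIn.inv hE
  have := H90.finite_of_le hi.le
  have e : Subgroup.closure {x : Ω | ∃ φ ∈ F.Hom R, ∃ r : R, x = φ r} =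
      sSup {Q | E.IsNormal Q ∧ Q ≤ Subgroup.closure {x : Ω | ∃ φ ∈ F.Hom R, ∃ r : R, x = φ r}} := by
    refine le_antisymm ((Subgroup.closure_le _).2 ?_) (sSup_le fun Q hQ => hQ.2)
    rintro _ ⟨φ, hφ, r, rfl⟩
    obtain ⟨σ, hσ, e⟩ := H90.exists_perm_of_hom hφ
    obtain ⟨α, φ₀, hα, hφ₀, e'⟩ := hi.fratt R σ hR.1 hσ
    have h1 : H90.im α R ≤ Subgroup.closure {x : Ω | ∃ φ ∈ F.Hom R, ∃ r : R, x = φ r} :=
      H90.im_le_iff.2 fun x hx =>
        Subgroup.subset_closure ⟨_, (hα.map.mono hR.1).homOf_mem, ⟨x, hx⟩, rfl⟩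
    refine le_sSup (s := {Q | E.IsNormal Q ∧ Q ≤ _}) ⟨hi.isNormal_im hR hα, h1⟩ ?_
    rw [e, e' r r.2]
    exact H90.mem_im_of_mem _ (hφ₀.mem_of_stronglyClosed (H91.IsNormal.stronglyClosed' hR) r.2 r.2)
  have hn : E.IsNormal (Subgroup.closure {x : Ω | ∃ φ ∈ F.Hom R, ∃ r : R, x = φ r}) := by
    rw [e]
    exact (H91.sSup_mem_of_sup_closed (S := T) (A := {Q | E.IsNormal Q ∧ Q ≤ _})
      (fun Q hQ => hQ.1.1) ⟨⊥, H91.isNormal_bot E, bot_le⟩
      fun Q hQ R hR => ⟨H91.IsNormal.sup' hQ.1 hR.1, sup_le hQ.2 hR.2⟩).1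
  refine hi.isNormal_of_invariant hS hF hn fun α hα => (hα.homOn.mono hn.1).mem_of_closure ?_
  rintro _ ⟨φ, hφ, r, rfl⟩
  have h1 := (H90.map_fn hφ).comp hα.map fun x hx =>
    (H90.map_fn hφ).mem_of_stronglyClosed hi.sc hx (hR.1 hx)
  exact Subgroup.subset_closure ⟨_, h1.homOf_mem, r, by simp⟩

end Cfsg.Agent.S5291
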