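import Cfsg.Statements.S5297
import Mathlib
import Cfsg.Agent.Base
import Cfsg.Agent.Lib.Fusion.Small

set_option autoImplicit false
universe u
open Cfsg

namespace Cfsg.Agent.S5297

open H90 Subgroup in
theorem aux {Ω : Type u} [Group Ω] {S : Subgroup Ω} [Finite S] {p : ℕ} [Fact p.Prime]
    (hS : IsPGroup p S) {F : Cfsg.FusionSystem S} (hF : F.IsSaturated p)
    {X : ∀ A : Subgroup Ω, Set (A →* Ω)}
    (h : ∀ A B : Subgroup Ω, A ≤ (F.hyperfocalSubgroup p) → B ≤ (F.hyperfocalSubgroup p) →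
      IsCyclic ↥A → (Nat.card ↥A = p ∨ Nat.card ↥A = 4) → IsCyclic ↥B →
      (Nat.card ↥B = p ∨ Nat.card ↥B = 4) → F.homSet A B ⊆ X A) {x : Ω}
    (hx : x ∈ F.hyperfocalSubgroup p) (hs : H93.Small p x) (h1 : x ≠ 1) {σ : Equiv.Perm Ω}
    (hσ : Map F (zpowers x) σ) : homOf hσ.homOn ∈ X (zpowers x) := by
  refine h _ (zpowers (σ x)) (zpowers_le.2 hx) (zpowers_le.2 (hσ.mem_of_stronglyClosed
    (stronglyClosed_hyperfocal hS hF) (mem_zpowers x) hx)) inferInstance (hs.card_zpowers h1)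
    inferInstance ((hs.map hσ.homOn (mem_zpowers x)).card_zpowers
      fun e => h1 ((hσ.map_eq_one_iff (mem_zpowers x)).1 e)) ⟨hσ.homOf_mem, ?_⟩
  rintro ⟨_, k, rfl⟩
  exact ⟨k, (hσ.map_zpow (mem_zpowers x) k).symm⟩


/-- Let F be a saturated fusion system over a finite p-group S. If every map of F between cyclic subgroups of the hyperfocal subgroup of F of order p or 4 is a map of the normalizer system of S (it extends to a map of F defined on all of S), then S is normal in F. -/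
theorem result {Ω : Type u} [Group Ω] {S : Subgroup Ω} [Finite S] (p : ℕ) [Fact p.Prime] (hS : IsPGroup p S)
    (F : Cfsg.FusionSystem S) (hF : F.IsSaturated p)
    (h : ∀ A B : Subgroup Ω, A ≤ (F.hyperfocalSubgroup p) → B ≤ (F.hyperfocalSubgroup p) → IsCyclic ↥A → (Nat.card ↥A = p ∨ Nat.card ↥A = 4) → IsCyclic ↥B → (Nat.card ↥B = p ∨ Nat.card ↥B = 4) →
      F.homSet A B ⊆ F.normalizerHom S A) :
    F.IsNormal S := by
  refine H93.isNormal_top_of_small hS hF fun x hx hs σ hσ => ?_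
  by_cases h1 : x = 1
  · exact ⟨1, H90.map_one_perm F le_rfl, by rw [h1, hσ.map_one]; rfl⟩
  obtain ⟨-, τ, hτ, e, -⟩ := H90.nmap_iff.1 ((H90.mem_normalizerHom_iff fun _ => rfl).1
    (aux hS hF (X := fun A => F.normalizerHom S A) h hx hs h1 hσ))
  exact ⟨τ, hτ.mono le_sup_right, e x (Subgroup.mem_zpowers x)⟩

end Cfsg.Agent.S5297
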