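import Cfsg.Statements.S5300
import Mathlib
import Cfsg.Agent.Base
import Cfsg.Agent.Lib.Fusion.Small
import Cfsg.Agent.Lib.PGroup.Omega

set_option autoImplicit false
universe u
open Cfsg

namespace Cfsg.Agent.S5300

/-- Let F be a saturated fusion system over a finite p-group S. If every cyclic subgroup of the focal subgroup of F of order p (of order 2 or 4 when p = 2) is normal in S, then S is normal in F. -/
theorem result {Ω : Type u} [Group Ω] {S : Subgroup Ω} [Finite S] (p : ℕ) [Fact p.Prime] (hS : IsPGroup p S)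
    (F : Cfsg.FusionSystem S) (hF : F.IsSaturated p)
    (hnorm : ∀ x ∈ F.focalSubgroup, (x ^ p = 1 ∨ (p = 2 ∧ x ^ 4 = 1)) → ∀ s ∈ S, s * x * s⁻¹ ∈ Subgroup.zpowers x) :
    F.IsNormal S := by
  have hf := H90.focalSubgroup_le F
  have hc : ∀ x ∈ F.focalSubgroup, x ^ p = 1 → ∀ s ∈ S, s * x * s⁻¹ = x := fun x hx h s hs => by
    haveI : (Subgroup.zpowers (⟨x, hf hx⟩ : S)).Normal := ⟨by
      rintro _ ⟨k, rfl⟩ g
      obtain ⟨l, hl⟩ := hnorm x hx (Or.inl h) g g.2
      refine ⟨l * k, Subtype.ext ?_⟩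
      simp only [zpow_mul, Subgroup.coe_zpow, Subgroup.coe_mul, Subgroup.coe_inv]
      rw [← conj_zpow]; exact congrArg (· ^ k) hl⟩
    have := Subgroup.mem_center_iff.1 (H5.mem_center_of_mem_cyclic_normal hS inferInstance
      (Subgroup.mem_zpowers (⟨x, hf hx⟩ : S)) (Subtype.ext h)) ⟨s, hs⟩
    exact mul_inv_eq_iff_eq_mul.2 (congrArg Subtype.val this)
  let Z : Subgroup Ω :=
    { carrier := {x | x ∈ F.focalSubgroup ∧ x ^ p = 1}
      one_mem' := ⟨one_mem _, one_pow _⟩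
      mul_mem' := fun {x y} hx hy => ⟨mul_mem hx.1 hy.1, by
        rw [Commute.mul_pow (mul_inv_eq_iff_eq_mul.1 (hc y hy.1 hy.2 x (hf hx.1))), hx.2, hy.2,
          one_mul]⟩
      inv_mem' := fun {x} hx => ⟨inv_mem hx.1, by rw [inv_pow, hx.2, inv_one]⟩ }
  have hh := H90.hyperfocal_le_focal F p
  refine H93.isNormal_of_small hS hF (H90.stronglyClosed_top F)
    (H90.stronglyClosed_hyperfocal hS hF) (Or.inl le_rfl) ![⊥, Z, ⊤] rfl
    (fun _ _ _ => Subgroup.mem_top _) (fun R σ hσ i x hx _ hi => ?_) fun g hg i x hx hs hi => ?_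
  · fin_cases i
    · exact (hσ.map_eq_one_iff hx.1).2 hi
    · exact ⟨hh (hσ.mem_of_stronglyClosed (H90.stronglyClosed_hyperfocal hS hF) hx.1 hx.2),
        by rw [← hσ.map_pow hx.1, hi.2, hσ.map_one]⟩
    · exact Subgroup.mem_top _
  · fin_cases i
    · exact inv_mul_eq_one.2 (hc x hi.1 hi.2 g hg).symm
    · obtain ⟨k, hk⟩ := hnorm x (hh hx) hs g hg
      have hk' : x ^ k = g * x * g⁻¹ := hk
      have h1 : x ^ p ∈ Z := ⟨pow_mem (hh hx) p, hs.elim (fun h => by rw [h, one_pow])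
        fun h => by rw [← pow_mul, h.1]; exact h.2⟩
      refine ⟨mul_mem (inv_mem (hh hx)) (hk' ▸ zpow_mem (hh hx) k), ?_⟩
      rw [Commute.mul_pow (hk' ▸ (Commute.refl x).inv_left.zpow_right k), conj_pow,
        hc _ h1.1 h1.2 g hg, inv_pow, inv_mul_cancel]

end Cfsg.Agent.S5300
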