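import Cfsg.Statements.S5301
import Mathlib
import Cfsg.Agent.Base
import Cfsg.Agent.Lib.Fusion.Gen

set_option autoImplicit false
universe u
open Cfsg

namespace Cfsg.Agent.S5301

/-- Let F be a saturated fusion system over a finite p-group S. If for every subgroup P of S that is fully normalized, centric and radical in F the automorphism group that F induces on P has a normal Sylow p-subgroup, then S is normal in F. -/
theorem result {Ω : Type u} [Group Ω] {S : Subgroup Ω} [Finite S] (p : ℕ) [Fact p.Prime] (hS : IsPGroup p S)
    (F : Cfsg.FusionSystem S) (hF : F.IsSaturated p)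
    (hcl : ∀ P : Subgroup Ω, F.IsFullyNormalized P → F.IsCentric P → F.IsRadical p P →
      ∃ R : Sylow p ↥(F.autGroup P), (R : Subgroup ↥(F.autGroup P)).Normal) :
    F.IsNormal S := by
  refine H93.isNormal_top_of_no_essential hS hF fun P hP => H93.not_le_normalizer_of_isEssential hS hF hP ?_
  obtain ⟨R, hR⟩ := hcl P hP.2.1 hP.1 (H90.isRadical_of_isEssential hS hP)
  obtain ⟨R', hR'⟩ := (H90.automized_of_normalized hS hF hP.2.1).2
  have := H90.finite_mulAut_of_le hP.1.1
  have h1 : R' = R := by
    have := Sylow.unique_of_normal R hR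
    exact Subsingleton.elim _ _
  rw [← h1, hR'] at hR
  exact (Subgroup.normal_subgroupOf_iff_le_normalizer (H90.autInducedBy_le_autGroup F hP.1.1)).1 hR

end Cfsg.Agent.S5301
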