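import Mathlib
import Cfsg.Statements.S5311
import Cfsg.Agent.Lib.Fusion.SysIso
-- import your own Cfsg.Agent.* helpers here

set_option autoImplicit false
open Cfsg

namespace Cfsg.Agent.S5311

/-- The layer of a saturated fusion system F over a finite p-group S is characteristic in F: for every automorphism α of S that is an automorphism of F (α and its inverse are morphisms from F to F) and every layer E of F over T, α carries T onto T and, for every map φ of E with source P, the map induced by α on α(P) (that is, α ∘ φ ∘ α⁻¹) is a map of E. -/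
theorem result {Ω : Type*} [Group Ω] {S : Subgroup Ω} [Finite S] (p : ℕ) [Fact p.Prime] (hS : IsPGroup p S) (F : Cfsg.FusionSystem S) (hF : F.IsSaturated p)
    (α : ↥S ≃* ↥S) (hα : F.IsMorphism F (S.subtype.comp α.toMonoidHom))
    (hα' : F.IsMorphism F (S.subtype.comp α.symm.toMonoidHom))
    {T : Subgroup Ω} (E : Cfsg.FusionSystem T) (hE : E.IsLayerOf F p) :
    Cfsg.FusionSystem.imageAlong (S.subtype.comp α.toMonoidHom) T = T ∧
      ∀ (P : Subgroup Ω) (φ : ↥P →* Ω), φ ∈ E.Hom P →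
        ∀ φ' : ↥(Cfsg.FusionSystem.imageAlong (S.subtype.comp α.toMonoidHom) P) →* Ω,
          Cfsg.FusionSystem.InducedAlong (S.subtype.comp α.toMonoidHom) φ φ' →
            φ' ∈ E.Hom (Cfsg.FusionSystem.imageAlong (S.subtype.comp α.toMonoidHom) P) := by
  have key : ∀ β : ↥S ≃* ↥S, ∀ x ∈ S, H91.ex (S.subtype.comp β.toMonoidHom) x = H90.extA S β x :=
    fun β x hx => (H91.ex_of_mem _ hx).trans (H90.extA_of_mem β hx).symm
  have key' : ∀ β : ↥S ≃* ↥S, F.IsMorphism F (S.subtype.comp β.toMonoidHom) →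
      ∀ (P : Subgroup Ω) (φ : Equiv.Perm Ω), H90.Map F P φ →
        H90.Map F (H90.im (H90.extA S β) P) ⇑(H90.extA S β * φ * (H90.extA S β)⁻¹) := by
    intro β hβ P φ hφ
    rw [← H91.image_eq_im (key β) hφ.le]
    exact H91.IsMorphism.map_of hβ hφ fun x hx => by
      rw [key β x (hφ.le hx), key β _ (hφ.mem hx)]; simp
  have ha : H91.SysAut F (H90.extA S α) :=
    ⟨H90.homOn_extA α, H90.extA_mem_iff α, key' α hα, by
      rw [H90.extA_inv]; exact key' α.symm hα'⟩
  have hT := (H91.IsNormalIn.inv hE.1).le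
  haveI := H90.finite_of_le hT
  have hb := H91.IsLayerOf.sysAut hS hE ha
  refine ⟨by rw [H91.image_eq_im (key α) hT, hb.im_top], fun P φ hφ φ' hφ' => ?_⟩
  obtain ⟨σ, hσ, e⟩ := H90.exists_perm_of_hom hφ
  have h1 := hb.conj P σ hσ
  rw [← H91.image_eq_im (key α) (hσ.le.trans hT)] at h1
  refine h1.hom_mem fun y => ?_
  obtain ⟨hP, hφS, hP', e'⟩ := hφ'
  obtain ⟨y, hy⟩ := y
  obtain ⟨x, hx, rfl⟩ := (H91.mem_imageAlong' hP).1 hy
  have h2 := e' ⟨x, hx⟩
  have h3 : φ' ⟨_, hy⟩ = φ' ⟨_, hP' ⟨x, hx⟩⟩ := congrArg φ' (Subtype.ext (H91.ex_of_mem _ (hP hx)))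
  rw [h3, h2, ← H91.ex_of_mem _ (hφS ⟨x, hx⟩), key α _ (hφS ⟨x, hx⟩), e]
  show _ = (H90.extA S α * σ * (H90.extA S α)⁻¹) (H91.ex _ x)
  rw [key α x (hP hx)]; simp

end Cfsg.Agent.S5311
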