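import Cfsg.Statements.S5317
import Cfsg.Agent.Lib.Spor55.FusTwo
import Cfsg.Agent.Lib.GL.SylowSL2
import Cfsg.Agent.Lib.SL2.Invol

set_option autoImplicit false
open Cfsg

namespace Cfsg.Agent.S5317

/-- Let F be a finite field of odd order q with q² ≡ 1 mod 16 (so that a Sylow 2-subgroup of PSL(2,q), dihedral of order the 2-part of (q²−1)/2, has order at least 8). Then the 2-fusion system of PSL(2,F) on a Sylow 2-subgroup is simple: saturated, over a nontrivial 2-group, with no normal subsystem other than the trivial one and itself. -/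
theorem result {F : Type*} [Field F] [Fintype F] (hodd : Fintype.card F % 2 = 1) (h16 : 16 ∣ Fintype.card F ^ 2 - 1)
    (S : Sylow 2 (Matrix.ProjectiveSpecialLinearGroup (Fin 2) F)) :
    (Cfsg.groupFusionSystem (S : Subgroup (Matrix.ProjectiveSpecialLinearGroup (Fin 2) F))).IsSimple 2 := by
  have hF : Odd (Nat.card F) := by rw [Nat.card_eq_fintype_card, Nat.odd_iff, hodd]
  have h2 := H10.two_ne_zero_of_odd_card hF
  obtain ⟨k, -, -, -, -, h⟩ := H10.exists_sylow_two_SL_two hF
  obtain ⟨e⟩ := h S
  have hk : 2 ≤ k := by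
    have h7 := H10.card_PSL_two (F := F)
    rw [Nat.gcd_eq_left (even_iff_two_dvd.1 (Nat.Odd.sub_odd hF odd_one)), mul_assoc,
      Nat.card_eq_fintype_card (α := F), mul_comm (_ - 1), ← Nat.sq_sub_sq, one_pow] at h7
    have h8 : 2 ^ 3 ∣ Nat.card (Matrix.ProjectiveSpecialLinearGroup (Fin 2) F) :=
      Nat.dvd_of_mul_dvd_mul_left two_pos (h7 ▸ Dvd.dvd.mul_left h16 _)
    have := S.pow_dvd_card_of_pow_dvd_card h8
    rw [Nat.card_congr e.toEquiv, DihedralGroup.nat_card, ← pow_succ',
      Nat.pow_dvd_pow_iff_le_right one_lt_two] at this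
    omega
  refine H55.Fus.isSimple_of_crit S (H55.Fus.crit_of_dihedral S hk e fun a b ha hb => ?_)
  have key : ∀ a : Matrix.ProjectiveSpecialLinearGroup (Fin 2) F, orderOf a = 2 →
      IsConj (H29.matJ F : Matrix.ProjectiveSpecialLinearGroup (Fin 2) F) a := fun a ha => by
    induction a using QuotientGroup.induction_on with
    | H g =>
      obtain ⟨c, rfl⟩ := H29.exists_conj_matJ h2
        (H29.trace_of_psl_mul_self (H9.mul_self_of_orderOf_two ha) (H9.ne_one_of_orderOf_two ha))
      exact isConj_iff.2 ⟨c, rfl⟩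
  exact (key a ha).symm.trans (key b hb)

end Cfsg.Agent.S5317
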