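import Cfsg.Statements.S5319
import Cfsg.Agent.Lib.Spor55.SLThree

set_option autoImplicit false
open Cfsg

namespace Cfsg.Agent.S5319

/-- Let q be an odd prime power and F a field with q² elements. Then the 2-fusion system of PSU(3,q) (realised as the special unitary group of the standard Hermitian form over F modulo its centre) on a Sylow 2-subgroup is simple. -/
theorem result {F : Type*} [Field F] [Fintype F] (q : ℕ) (hq : Fintype.card F = q ^ 2) (hodd : q % 2 = 1) (S : Sylow 2 (Cfsg.PSU 3 F q)) :
    (Cfsg.groupFusionSystem (S : Subgroup (Cfsg.PSU 3 F q))).IsSimple 2 := by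
  have : H11.U.IsSq F q := ⟨hq⟩
  obtain ⟨P⟩ : Nonempty (Sylow 2 (Cfsg.SU 3 F q)) := inferInstance
  refine H55.Fus.isSimple_of_quot (H55.Fus.cq_center (H55.GL2.eq_one_of_dvd_three ?_))
    (H55.GL2.crit_SU hodd P) S
  rw [H11.U.card_center_SU (by omega)]
  exact Nat.gcd_dvd_left _ _

end Cfsg.Agent.S5319
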