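import Cfsg.Statements.S5320
import Cfsg.Agent.Lib.Spor55.Sp4Fus

set_option autoImplicit false
open Cfsg

namespace Cfsg.Agent.S5320

/-- For a finite field F of odd order, the 2-fusion system of the projective symplectic group PSp(4,F) on a Sylow 2-subgroup is simple. -/
theorem result {F : Type*} [Field F] [Fintype F] (hodd : Fintype.card F % 2 = 1) (S : Sylow 2 (Cfsg.PSp 2 F)) :
    (Cfsg.groupFusionSystem (S : Subgroup (Cfsg.PSp 2 F))).IsSimple 2 := by
  obtain ⟨U, hU⟩ := H55.Sp4.crit (F := F) (by rw [Nat.card_eq_fintype_card, Nat.odd_iff]; exact hodd)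
  exact H55.Fus.isSimple_of_crit S (H55.Fus.Crit.sylow hU S)

end Cfsg.Agent.S5320
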