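import Cfsg.Statements.S5331
import Mathlib
import Cfsg.Agent.Base
import Cfsg.Agent.Lib.Fusion.AbelChain

set_option autoImplicit false
open Cfsg

namespace Cfsg.Agent.S5331

/-- Let S be a finite abelian 2-group that is a direct product of cyclic groups of pairwise distinct orders 2^{a_1} < 2^{a_2} < ⋯ < 2^{a_n} (all a_i ≥ 1). Then every saturated fusion system over S is the inner one: its maps are exactly the conjugations by elements of S. -/
theorem result {Ω : Type*} [Group Ω] {S : Subgroup Ω} [Finite S] (n : ℕ) (a : Fin n → ℕ) (ha : StrictMono a) (ha1 : ∀ i, 1 ≤ a i) (e : ↥S ≃* Multiplicative ((i : Fin n) → ZMod (2 ^ a i))) (F : Cfsg.FusionSystem S) (hF : F.IsSaturated 2) (P : Subgroup Ω) : F.Hom P = (Cfsg.innerFusionSystem S).Hom P := by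
  haveI : Fact (Nat.Prime 2) := ⟨Nat.prime_two⟩
  have hc : ∀ i, Nat.card (Multiplicative (ZMod (2 ^ a i))) = 2 ^ a i := fun i =>
    (Nat.card_congr Multiplicative.toAdd).trans (Nat.card_zmod _)
  let e' := e.trans (MulEquiv.piMultiplicative _)
  have hS : IsPGroup 2 S := by
    refine IsPGroup.of_card (n := ∑ i, a i) ?_
    rw [Nat.card_congr e'.toEquiv, Nat.card_pi, Finset.prod_congr rfl fun i _ => hc i,
      Finset.prod_pow_eq_pow_sum]
  have hab : ∀ x ∈ S, ∀ y ∈ S, x * y = y * x := fun x hx y hy =>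
    congrArg Subtype.val (e.injective (a₁ := ⟨x, hx⟩ * ⟨y, hy⟩) (a₂ := ⟨y, hy⟩ * ⟨x, hx⟩)
      (by rw [map_mul, map_mul, mul_comm]))
  rw [(H93.super_of_ulmOne hS hF hab (.of_equiv e' (H93.ulmOne_pi ha.injective hc))).eq_inner hS hF]

end Cfsg.Agent.S5331
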