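import Mathlib
import Cfsg.Statements.S5521
import Cfsg.Agent.Lib.M24Geom.Six

set_option autoImplicit false
open Cfsg

namespace Cfsg.Agent.S5521

open H15 H55.Golay H96.Geo


/-- The Mathieu group M₂₄ in its natural action on the 24 coordinate positions of the binary Golay code has minimal base size exactly 7: every set of at most 6 positions is fixed pointwise by some non-identity element of M₂₄, while some set of 7 positions is fixed pointwise only by the identity. -/
theorem result :
    (∀ B : Finset Cfsg.GolayPt, B.card ≤ 6 → ∃ g ∈ Cfsg.M24, g ≠ 1 ∧ ∀ b ∈ B, g b = b) ∧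
    (∃ B : Finset Cfsg.GolayPt, B.card = 7 ∧ ∀ g ∈ Cfsg.M24, (∀ b ∈ B, g b = b) → g = 1) := by
  refine ⟨fun B hB => ?_, ofMask 8388671, by rw [card_ofMask]; decide +kernel, fun g hg h =>
    fix_base_eq_one hg (mem_fixL_of_fix_ofMask h (by decide +kernel))⟩
  obtain ⟨E, h1, -, hE⟩ := Finset.exists_subsuperset_card_eq (s := B) (t := Finset.univ)
    (n := 6) (Finset.subset_univ _) hB (by rw [Finset.card_univ, card_golayPt]; norm_num)
  have h2 : fixSet E ≠ ⊥ := by
    intro c
    have h3 : Nat.card (fixSet E) = 1 := by rw [c]; simp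
    by_cases c' : ∃ o ∈ octads, E ⊆ o
    · obtain ⟨o, ho, h⟩ := c'
      rw [card_fixSet_six_in hE ho h] at h3
      omega
    · rw [card_fixSet_six_out hE c'] at h3
      omega
  obtain ⟨⟨g, hg⟩, hne⟩ := Subgroup.ne_bot_iff_exists_ne_one.1 h2
  exact ⟨g, (mem_fixSet.1 hg).1, fun c => hne (Subtype.ext c),
    fun b hb => (mem_fixSet.1 hg).2 b (h1 hb)⟩

end Cfsg.Agent.S5521
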