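import Mathlib
import Cfsg.Statements.S5560
import Cfsg.Agent.S1187
import Cfsg.Agent.Lib.Core.Permutable
import Cfsg.Agent.Lib.Core.PCore
import Cfsg.Agent.Lib.Block.PPart

set_option autoImplicit false
open Cfsg

namespace Cfsg.Agent.S5560

/-- A Z*-type result for an odd prime p. Let G be a finite group and d an involution of G such that the product of any two conjugates of d has order a power of p. Then the product of any two conjugates of d lies in the largest normal p-subgroup O_p(G); in other words the conjugacy class of d lies in the coset O_p(G)d, and d is central modulo O_p(G). -/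
theorem result {G : Type*} [Group G] [Finite G] {p : ℕ} (hp : p.Prime) (hp2 : p ≠ 2)
    (d : G) (hd : orderOf d = 2)
    (hprod : ∀ a ∈ conjugatesOf d, ∀ b ∈ conjugatesOf d, ∃ k : ℕ, orderOf (a * b) = p ^ k) :
    ∀ a ∈ conjugatesOf d, ∀ b ∈ conjugatesOf d, a * b ∈ Cfsg.pCore p G := by
  haveI := Fact.mk hp
  have hodd : ∀ a ∈ conjugatesOf d, ∀ b ∈ conjugatesOf d, ¬ 2 ∣ orderOf (a * b) :=
    fun a ha b hb h => by
      obtain ⟨k, hk⟩ := hprod a ha b hb
      rw [hk] at h
      exact hp2 ((Nat.prime_dvd_prime_iff_eq Nat.prime_two hp).1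
        (Nat.prime_two.dvd_of_dvd_pow h)).symm
  have hdd := H41.mul_self_of_orderOf_two hd
  have hdi := H41.inv_eq_of_mul_self hdd
  have hc : ∀ g : G, g * d * g⁻¹ ∈ conjugatesOf d := fun g => isConj_iff.2 ⟨g, rfl⟩
  have hd0 : d ∈ conjugatesOf d := IsConj.refl d
  have hiso : IsIsolatedInvolution d := by
    refine ⟨hd, fun g hg => ?_⟩
    have h1 : d * (g * d * g⁻¹) * (d * (g * d * g⁻¹)) = 1 := by
      have h2 : g * d * g⁻¹ * (g * d * g⁻¹) = 1 := by
        rw [show g * d * g⁻¹ * (g * d * g⁻¹) = g * (d * d) * g⁻¹ by group, hdd]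
        group
      calc _ = d * (g * d * g⁻¹ * d) * (g * d * g⁻¹) := by group
        _ = d * d * (g * d * g⁻¹ * (g * d * g⁻¹)) := by rw [← hg.eq]; group
        _ = 1 := by rw [hdd, h2, one_mul]
    have h3 := H41.eq_one_of_odd_of_mul_self
      (Nat.odd_iff.2 (Nat.two_dvd_ne_zero.1 (hodd _ hd0 _ (hc g)))) h1
    rw [← hdi, eq_comm, inv_eq_iff_mul_eq_one, hdi, h3]
  obtain ⟨P, hP⟩ := Cfsg.Agent.S1187.exists_invariant_sylow (p := p) hiso
  have hcop : ((P : Subgroup G).relIndex ⊤).Coprime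
      ((Subgroup.centralizer ({d} : Set G)).relIndex ⊤) := by
    rw [Subgroup.relIndex_top_right, Subgroup.relIndex_top_right]
    refine Nat.coprime_of_dvd fun q hq h1 h2 => ?_
    haveI := Fact.mk hq
    have hqp : q ≠ p := by
      rintro rfl
      exact P.not_dvd_index h1
    obtain ⟨Q, hQ⟩ := Cfsg.Agent.S1187.exists_invariant_sylow (p := q) hiso
    have hle : (Q : Subgroup G) ≤ Subgroup.centralizer ({d} : Set G) := fun x hx => by
      rw [Subgroup.mem_centralizer_singleton_iff]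
      have h3 : x * d * x⁻¹ * d ∈ (Q : Subgroup G) := by
        have := mul_mem hx ((Subgroup.mem_set_normalizer_iff.1 hQ _).1 (inv_mem hx))
        rwa [hdi, ← mul_assoc, ← mul_assoc] at this
      obtain ⟨k, hk⟩ := hprod _ (hc x) _ hd0
      obtain ⟨l, hl⟩ := (H35.isPElt_of_mem Q.isPGroup' h3)
      have h4 : orderOf (x * d * x⁻¹ * d) = 1 :=
        Nat.eq_one_of_dvd_coprimes
          (Nat.Coprime.pow l k ((Nat.coprime_primes hq hp).2 hqp))
          (hl ▸ dvd_rfl) (hk ▸ dvd_rfl)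
      rw [orderOf_eq_one_iff, ← hdi, mul_inv_eq_one, hdi, mul_inv_eq_iff_eq_mul] at h4
      exact h4
    exact Q.not_dvd_index (h2.trans (Subgroup.index_dvd_of_le hle))
  have hconj : ∀ a ∈ conjugatesOf d, ∃ x ∈ (P : Subgroup G), a = x * d * x⁻¹ := fun a ha => by
    obtain ⟨g, rfl⟩ := isConj_iff.1 ha
    obtain ⟨x, hx, c, hc, rfl⟩ := H1.exists_mul_eq_of_coprime_relIndex le_top le_top hcop
      (Subgroup.mem_top g)
    refine ⟨x, hx, ?_⟩
    rw [Subgroup.mem_centralizer_singleton_iff] at hc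
    calc x * c * d * (x * c)⁻¹ = x * (c * d) * c⁻¹ * x⁻¹ := by group
      _ = _ := by rw [hc]; group
  have hmem : ∀ a ∈ conjugatesOf d, ∀ b ∈ conjugatesOf d, a * b ∈ (P : Subgroup G) :=
    fun a ha b hb => by
      obtain ⟨x, hx, rfl⟩ := hconj a ha
      obtain ⟨y, hy, rfl⟩ := hconj b hb
      have := mul_mem (mul_mem hx ((Subgroup.mem_set_normalizer_iff.1 hP _).1
        (mul_mem (inv_mem hx) hy))) (inv_mem hy)
      rw [hdi] at this
      rwa [show x * d * x⁻¹ * (y * d * y⁻¹) = x * (d * (x⁻¹ * y) * d) * y⁻¹ by group]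
  intro a ha b hb
  rw [H1.pCore_eq_normalCore P]
  intro g
  rw [show g * (a * b) * g⁻¹ = g * a * g⁻¹ * (g * b * g⁻¹) by group]
  exact hmem _ (IsConj.trans ha (isConj_iff.2 ⟨g, rfl⟩)) _ (IsConj.trans hb (isConj_iff.2 ⟨g, rfl⟩))

end Cfsg.Agent.S5560
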