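import Mathlib
import Cfsg.Statements.S5562

set_option autoImplicit false
open Cfsg

namespace Cfsg.Agent.S5562

theorem eq_of_sq_eq {G : Type*} [Group G] {u v : G} (hu : Odd (orderOf u)) (hv : Odd (orderOf v))
    (h : u ^ 2 = v ^ 2) : u = v := by
  obtain ⟨k, hk⟩ := hu.mul hv
  have h1 : u ^ (2 * k + 1) = 1 := by rw [← hk, pow_mul, pow_orderOf_eq_one, one_pow]
  have h2 : v ^ (2 * k + 1) = 1 := by rw [← hk, mul_comm, pow_mul, pow_orderOf_eq_one, one_pow]
  have e1 : u = (u ^ 2) ^ (k + 1) := by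
    rw [← pow_mul, show 2 * (k + 1) = (2 * k + 1) + 1 by ring, pow_succ, h1, one_mul]
  have e2 : v = (v ^ 2) ^ (k + 1) := by
    rw [← pow_mul, show 2 * (k + 1) = (2 * k + 1) + 1 by ring, pow_succ, h2, one_mul]
  rw [e1, e2, h]

theorem sq_of_mem {G : Type*} [Group G] {d : G} (hd : orderOf d = 2) {a : G}
    (ha : a ∈ conjugatesOf d) : a * a = 1 := by
  obtain ⟨c, hc⟩ := isConj_iff.mp (show IsConj d a from ha)
  have : d * d = 1 := by rw [← pow_two, ← hd, pow_orderOf_eq_one]
  rw [← hc]
  calc c * d * c⁻¹ * (c * d * c⁻¹) = c * (d * d) * c⁻¹ := by group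
    _ = 1 := by rw [this]; group

/-- Let G be a finite group, d an involution of G whose conjugates pairwise have products of odd order, and x any involution of G. Then the conjugacy class of d is the disjoint union, over the conjugates a of d commuting with x, of the sets of conjugates of d commuting with ax: every conjugate of d commutes with ax for exactly one conjugate a of d that commutes with x. -/
theorem result {G : Type*} [Group G] [Finite G] (d : G) (hd : orderOf d = 2)
    (hodd : ∀ a ∈ conjugatesOf d, ∀ b ∈ conjugatesOf d, Odd (orderOf (a * b)))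
    (x : G) (hx : orderOf x = 2) :
    ∀ e ∈ conjugatesOf d,
      ∃! a : G, a ∈ conjugatesOf d ∧ Commute a x ∧ Commute e (a * x) := by
  intro e he
  have hxx : x * x = 1 := by rw [← pow_two, ← hx, pow_orderOf_eq_one]
  have hee : e * e = 1 := sq_of_mem hd he
  have hxi : x⁻¹ = x := inv_eq_of_mul_eq_one_right hxx
  have hei : e⁻¹ = e := inv_eq_of_mul_eq_one_right hee
  have hconj : ∀ g : G, g * e * g⁻¹ ∈ conjugatesOf d := fun g =>
    show IsConj d _ from ((show IsConj d e from he).trans (isConj_iff.mpr ⟨g, rfl⟩))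
  have key : ∀ a, a ∈ conjugatesOf d → Commute a x → Commute e (a * x) →
      (e * a) ^ 2 = (e * x) ^ 2 := by
    intro a ha h1 h2
    have haa := sq_of_mem hd ha
    have hai : a⁻¹ = a := inv_eq_of_mul_eq_one_right haa
    have h3 : e * (a * x) = a * x * e := h2.eq
    have h4 : a * x = x * a := h1.eq
    have h5 : a * e * a = x * e * x := by
      calc a * e * a = a * (e * (a * x)) * x := by
            simp only [mul_assoc, hxx, mul_one]
        _ = (a * a) * x * e * x := by rw [h3]; group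
        _ = x * e * x := by rw [haa, one_mul]
    calc (e * a) ^ 2 = e * (a * e * a) := by rw [pow_two]; group
      _ = e * (x * e * x) := by rw [h5]
      _ = (e * x) ^ 2 := by rw [pow_two]; group
  set r := e * x with hr
  have ht : Odd (orderOf (r ^ 2)) := by
    have := hodd e he _ (hconj x)
    rwa [show e * (x * e * x⁻¹) = r ^ 2 by rw [hxi, hr, pow_two]; group] at this
  obtain ⟨k, hk⟩ := ht
  have hrn : r ^ (2 * (2 * k + 1)) = 1 := by rw [pow_mul, ← hk, pow_orderOf_eq_one]
  have her : e * r * e⁻¹ = r⁻¹ := by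
    rw [hr, mul_inv_rev, hxi, hei, ← mul_assoc, hee, one_mul]
  have herm : ∀ m : ℕ, e * r ^ m * e⁻¹ = (r ^ m)⁻¹ := by
    intro m
    rw [← conj_pow, her, inv_pow]
  have hxr : x = e * r := by rw [hr, ← mul_assoc, hee, one_mul]
  have hsw : ∀ m : ℕ, e * r ^ m = (r ^ m)⁻¹ * e := by
    intro m; rw [← herm m]; group
  have hsw' : ∀ m : ℕ, e * (r ^ m)⁻¹ = r ^ m * e := by
    intro m
    calc e * (r ^ m)⁻¹ = e * ((r ^ m)⁻¹ * e) * e⁻¹ := by group
      _ = (e * e) * r ^ m * e⁻¹ := by rw [← hsw]; group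
      _ = r ^ m * e := by rw [hee, hei, one_mul]
  have hinv : (r ^ (2 * k + 1))⁻¹ = r ^ (2 * k + 1) := by
    apply inv_eq_of_mul_eq_one_right
    rw [← pow_add, ← two_mul, hrn]
  have hax : r ^ (2 * k) * e * x = r ^ (2 * k + 1) := by rw [mul_assoc, ← hr, pow_succ]
  have hmem : r ^ (2 * k) * e ∈ conjugatesOf d := by
    have := hconj (r ^ k)
    rwa [mul_assoc, hsw', ← mul_assoc, ← pow_add, ← two_mul] at this
  have hc1 : Commute (r ^ (2 * k) * e) x := by
    show r ^ (2 * k) * e * x = x * (r ^ (2 * k) * e)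
    rw [hax]
    calc r ^ (2 * k + 1) = (r ^ (2 * k + 1))⁻¹ * (e * e) := by rw [hinv, hee, mul_one]
      _ = e * r ^ (2 * k + 1) * e := by rw [hsw]; group
      _ = e * r * (r ^ (2 * k) * e) := by rw [pow_succ']; group
      _ = x * (r ^ (2 * k) * e) := by rw [← hxr]
  have hc2 : Commute e (r ^ (2 * k) * e * x) := by
    show e * (r ^ (2 * k) * e * x) = (r ^ (2 * k) * e * x) * e
    rw [hax, hsw, hinv]
  refine ⟨r ^ (2 * k) * e, ⟨hmem, hc1, hc2⟩, ?_⟩
  rintro a ⟨ha, h1, h2⟩
  have := eq_of_sq_eq (hodd e he a ha) (hodd e he _ hmem)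
    ((key a ha h1 h2).trans (key _ hmem hc1 hc2).symm)
  exact mul_left_cancel this

end Cfsg.Agent.S5562
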