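import Mathlib
import Cfsg.Statements.S5595
import Cfsg.Agent.Lib.Spor96.LargeES

set_option autoImplicit false
open Cfsg

namespace Cfsg.Agent.S5595

open H96

theorem mem_four {G : Type*} [Group G] {x z : G} (hx : x * x = 1) (hz : z * z = 1)
    (hc : x * z = z * x) {a : G} (ha : a ∈ Subgroup.closure ({x, z} : Set G)) :
    a = 1 ∨ a = x ∨ a = z ∨ a = x * z := by
  have h1 : x * (x * z) = z := by rw [← mul_assoc, hx, one_mul]
  have h2 : z * (x * z) = x := by rw [hc, ← mul_assoc, hz, one_mul]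
  have h3 : x * z * x = z := by rw [mul_assoc, ← hc, h1]
  have h4 : x * z * z = x := by rw [mul_assoc, hz, mul_one]
  have h5 : x * z * (x * z) = 1 := by rw [← mul_assoc, h3, hz]
  induction ha using Subgroup.closure_induction with
  | mem a ha => rcases ha with rfl | rfl <;> simp
  | one => simp
  | mul a b _ _ ha hb =>
    have hc' := hc.symm
    rcases ha with ha | ha | ha | ha <;> rcases hb with hb | hb | hb | hb <;> rw [ha, hb] <;>
      simp only [one_mul, mul_one, hx, hz, h1, h2, h3, h4, h5, hc', true_or, or_true]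
  | inv a _ ha =>
    rcases ha with rfl | rfl | rfl | rfl
    · simp
    · simp [inv_eq_of_mul_eq_one_right hx]
    · simp [inv_eq_of_mul_eq_one_right hz]
    · simp only [inv_eq_of_mul_eq_one_right h5]; simp

theorem quad {H : Type*} [Group H] {a a' r t : H}
    (h1 : a * (a' * r * a'⁻¹ * r⁻¹) * a⁻¹ = a' * r * a'⁻¹ * r⁻¹)
    (h2 : a' * (a * r * a⁻¹ * r⁻¹) * a'⁻¹ = a * r * a⁻¹ * r⁻¹)
    (h3 : (a * r * a⁻¹ * r⁻¹) * (a' * r * a'⁻¹ * r⁻¹) = (a' * r * a'⁻¹ * r⁻¹) * (a * r * a⁻¹ * r⁻¹))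
    (h4 : a * a' = a' * a * t) : t * r * t⁻¹ * r⁻¹ = 1 := by
  have e1 : (a' * a) * r * (a' * a)⁻¹ = (a * r * a⁻¹ * r⁻¹) * (a' * r * a'⁻¹ * r⁻¹) * r := by
    calc (a' * a) * r * (a' * a)⁻¹ = (a' * (a * r * a⁻¹ * r⁻¹) * a'⁻¹) * (a' * r * a'⁻¹ * r⁻¹) * r := by
          group
      _ = _ := by rw [h2]
  have e2 : (a * a') * r * (a * a')⁻¹ = (a' * r * a'⁻¹ * r⁻¹) * (a * r * a⁻¹ * r⁻¹) * r := by
    calc (a * a') * r * (a * a')⁻¹ = (a * (a' * r * a'⁻¹ * r⁻¹) * a⁻¹) * (a * r * a⁻¹ * r⁻¹) * r := by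
          group
      _ = _ := by rw [h1]
  rw [← h3, ← e1, h4] at e2
  calc t * r * t⁻¹ * r⁻¹ = (a' * a)⁻¹ * (a' * a * t * r * (a' * a * t)⁻¹) * (a' * a) * r⁻¹ := by group
    _ = 1 := by rw [e2]; group

theorem main {G : Type*} [Group G] [Finite G] {z x : G} (hz : Large z) (hx : Large x)
    (hxz : x ∈ coreC z) : z ∈ coreC x := by
  by_contra hzR
  have hQ := hz.es
  have hR := hx.es
  have hc : x * z = z * x := hQ.cent x hxz
  have hzx : z * x * z⁻¹ = x := by rw [← hc]; group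
  have hne : x ≠ z := by rintro rfl; exact hzR hxz
  -- an element of Q moving x
  obtain ⟨y, hy, hyx⟩ : ∃ y ∈ coreC z, y * x * y⁻¹ = x * z := by
    by_contra hcon
    push Not at hcon
    rcases hQ.center x hxz (fun b hb => by
      rcases hQ.conj b hb x hxz with h1 | h1
      · calc x * b = (b * x * b⁻¹) * b := by rw [h1]
          _ = b * x := by group
      · exact absurd h1 (hcon b hb)) with h1 | h1
    · exact hR.ne_one h1
    · exact hne h1
  have hyz : y * z * y⁻¹ = z := by rw [hQ.cent y hy]; group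
  have stepA : ∀ t : G, t * x * t⁻¹ = x → t * z * t⁻¹ ≠ z * x := by
    intro t h1 h2
    apply hzR
    have e1 : (y * t * y) * x * (y * t * y)⁻¹ = z := by
      calc (y * t * y) * x * (y * t * y)⁻¹ = y * (t * (y * x * y⁻¹) * t⁻¹) * y⁻¹ := by group
        _ = y * ((t * x * t⁻¹) * (t * z * t⁻¹)) * y⁻¹ := by rw [hyx]; group
        _ = y * ((x * x) * z) * y⁻¹ := by rw [h1, h2, ← hc]; group
        _ = z := by rw [hR.sq, one_mul, hyz]
    have e2 : (y * t * y) * z * (y * t * y)⁻¹ = x := by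
      calc (y * t * y) * z * (y * t * y)⁻¹ = y * (t * (y * z * y⁻¹) * t⁻¹) * y⁻¹ := by group
        _ = y * (z * x) * y⁻¹ := by rw [hyz, h2]
        _ = (y * z * y⁻¹) * (y * x * y⁻¹) := by group
        _ = (z * z) * x := by rw [hyz, hyx, hc]; group
        _ = x := by rw [hQ.sq, one_mul]
    have := conj_mem_coreC (y * t * y) hxz
    rwa [e1, e2] at this
  have stepB : ∀ r ∈ coreC x, (z * r * z⁻¹ = r ∨ z * r * z⁻¹ = r * x) → z * r * z⁻¹ = r := by
    intro r hr h
    rcases h with h | h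
    · exact h
    · exfalso
      apply stepA r⁻¹
      · rw [inv_inv, mul_assoc, ← hR.cent r hr]; group
      · calc r⁻¹ * z * r⁻¹⁻¹ = r⁻¹ * (z * r * z⁻¹) * z := by group
          _ = z * x := by rw [h, ← hc]; group
  have hA : Subgroup.closure ({x, z} : Set G) ≤ coreC z := by
    rw [Subgroup.closure_le]
    rintro _ (rfl | rfl)
    · exact hxz
    · exact hQ.mem
  have hxA : x ∈ Subgroup.closure ({x, z} : Set G) := Subgroup.subset_closure (by simp)
  have hzA : z ∈ Subgroup.closure ({x, z} : Set G) := Subgroup.subset_closure (by simp)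
  have four : ∀ e ∈ coreC z, (∀ p ∈ coreC z, p * x * p⁻¹ = x → p * e * p⁻¹ = e) →
      e = 1 ∨ e = x ∨ e = z ∨ e = x * z := by
    intro e he h
    apply mem_four hR.sq hQ.sq hc
    by_contra hne
    obtain ⟨q, hq, h1, h2⟩ := hQ.exists_sep hA hzA he hne
    rw [h q hq (h1 x hxA)] at h2
    exact hQ.ne_mul_z _ h2
  have fact1 : ∀ e ∈ coreC z, e ∈ coreC x → e = 1 ∨ e = x := by
    intro e he he'
    rcases four e he (fun p hp hpx => by
      rcases hQ.conj p hp e he with h1 | h1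
      · exact h1
      · exfalso
        have := conj_mem_coreC_of_comm hpx he'
        rw [h1] at this
        exact hzR (by simpa using (coreC x).mul_mem ((coreC x).inv_mem he') this)) with
      h1 | h1 | h1 | h1
    · exact Or.inl h1
    · exact Or.inr h1
    · exact absurd (h1 ▸ he') hzR
    · exfalso
      rw [h1] at he'
      exact hzR (by simpa using (coreC x).mul_mem ((coreC x).inv_mem hR.mem) he')
  have fact2 : ∀ s ∈ coreC x, z * s * z⁻¹ = s → ∀ p ∈ coreC z, p * x * p⁻¹ = x →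
      p * s * p⁻¹ * s⁻¹ = 1 ∨ p * s * p⁻¹ * s⁻¹ = x := by
    intro s hs hsz p hp hpx
    apply fact1
    · have hsz' : s * z * s⁻¹ = z := by
        calc s * z * s⁻¹ = (z * s * z⁻¹) * z * s⁻¹ := by rw [hsz]
          _ = z := by group
      have := (coreC z).mul_mem hp (conj_mem_coreC_of_comm hsz' ((coreC z).inv_mem hp))
      simpa [mul_assoc] using this
    · exact (coreC x).mul_mem (conj_mem_coreC_of_comm hpx hs) ((coreC x).inv_mem hs)
  have fact3 : ∀ r ∈ coreC x, z * (z * r * z⁻¹ * r⁻¹) * z⁻¹ = z * r * z⁻¹ * r⁻¹ := by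
    intro r hr
    have ha : z * r * z⁻¹ * r⁻¹ ∈ coreC x :=
      (coreC x).mul_mem (conj_mem_coreC_of_comm hzx hr) ((coreC x).inv_mem hr)
    apply stepB _ ha
    have e : z * (z * r * z⁻¹ * r⁻¹) * z⁻¹ = (z * r * z⁻¹ * r⁻¹)⁻¹ := by
      calc z * (z * r * z⁻¹ * r⁻¹) * z⁻¹ = (z * z) * r * z⁻¹ * r⁻¹ * z⁻¹ := by group
        _ = r * z * r⁻¹ * z⁻¹ := by rw [hQ.sq, one_mul, hQ.inv_z]
        _ = _ := by group
    rw [e]
    rcases hR.sq_mem ha with h1 | h1
    · left; exact inv_eq_of_mul_eq_one_right h1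
    · right
      apply inv_eq_of_mul_eq_one_right
      rw [← mul_assoc, h1, hR.sq]
  have fact4 : ∀ w ∈ coreC x, (∀ s ∈ coreC x, z * s * z⁻¹ = s → s * w * s⁻¹ = w) →
      z * w * z⁻¹ = w := by
    intro w hw h
    by_contra hwz
    let S : Subgroup G := coreC x ⊓ Subgroup.centralizer {z}
    have hS : ∀ s, s ∈ S ↔ s ∈ coreC x ∧ z * s * z⁻¹ = s := by
      intro s
      simp only [S, Subgroup.mem_inf, Subgroup.mem_centralizer_singleton_iff,
        mul_inv_eq_iff_eq_mul]
      exact and_congr_right fun _ => eq_comm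
    obtain ⟨q, hq, h1, h2⟩ := hR.exists_sep (A := S) inf_le_left ((hS x).mpr ⟨hR.mem, hzx⟩) hw
      (fun hh => hwz ((hS w).mp hh).2)
    have hq' : z * q * z⁻¹ = q := by
      apply stepB q hq
      have hzq : z * q * z⁻¹ ∈ coreC x := conj_mem_coreC_of_comm hzx hq
      have hcen : ∀ r ∈ coreC x, q⁻¹ * (z * q * z⁻¹) * r = r * (q⁻¹ * (z * q * z⁻¹)) := by
        intro r hr
        have h3 := h1 _ ((hS _).mpr ⟨(coreC x).mul_mem (conj_mem_coreC_of_comm hzx hr)
          ((coreC x).inv_mem hr), fact3 r hr⟩)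
        have h4 : (z * q * z⁻¹) * r * (z * q * z⁻¹)⁻¹ = q * r * q⁻¹ := by
          have h5 : q * (z * r * z⁻¹) * q⁻¹ = z * r * z⁻¹ * r⁻¹ * (q * r * q⁻¹) := by
            rw [← h3]; group
          calc (z * q * z⁻¹) * r * (z * q * z⁻¹)⁻¹ = z * (q * (z⁻¹ * r * z) * q⁻¹) * z⁻¹ := by group
            _ = z * (q * (z * r * z⁻¹) * q⁻¹) * z⁻¹ := by rw [hQ.inv_z]
            _ = z * (z * r * z⁻¹ * r⁻¹ * (q * r * q⁻¹)) * z⁻¹ := by rw [h5]
            _ = q * r * q⁻¹ := by
              rcases hR.conj q hq r hr with h6 | h6 <;> rw [h6]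
              · calc z * (z * r * z⁻¹ * r⁻¹ * r) * z⁻¹ = (z * z) * r * (z * z)⁻¹ := by group
                  _ = r := by rw [hQ.sq]; group
              · calc z * (z * r * z⁻¹ * r⁻¹ * (r * x)) * z⁻¹
                    = (z * z) * r * (z * z)⁻¹ * (z * x * z⁻¹) := by group
                  _ = r * x := by rw [hQ.sq, hzx]; group
        calc q⁻¹ * (z * q * z⁻¹) * r
            = q⁻¹ * ((z * q * z⁻¹) * r * (z * q * z⁻¹)⁻¹) * (z * q * z⁻¹) := by group
          _ = _ := by rw [h4]; group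
      rcases hR.center _ ((coreC x).mul_mem ((coreC x).inv_mem hq) hzq) hcen with h3 | h3
      · left; exact (inv_mul_eq_one.mp h3).symm
      · right; rw [← h3]; group
    rw [h q hq hq'] at h2
    exact hR.ne_mul_z _ h2
  have fact5 : ∀ p ∈ coreC z, p * x * p⁻¹ = x → ∀ r ∈ coreC x,
      z * (p * r * p⁻¹ * r⁻¹) * z⁻¹ = p * r * p⁻¹ * r⁻¹ := by
    intro p hp hpx r hr
    apply fact4 _ ((coreC x).mul_mem (conj_mem_coreC_of_comm hpx hr) ((coreC x).inv_mem hr))
    intro s hs hsz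
    have hpx' : p⁻¹ * x * p⁻¹⁻¹ = x := by
      calc p⁻¹ * x * p⁻¹⁻¹ = p⁻¹ * (p * x * p⁻¹) * p⁻¹⁻¹ := by rw [hpx]
        _ = x := by group
    have h1 : (p⁻¹ * s * p) * r * (p⁻¹ * s * p)⁻¹ = s * r * s⁻¹ := by
      rcases fact2 s hs hsz p⁻¹ ((coreC z).inv_mem hp) hpx' with h1 | h1
      · have : p⁻¹ * s * p = s := by rw [← mul_inv_eq_one, ← h1]; group
        rw [this]
      · have : p⁻¹ * s * p = s * x := by rw [hR.cent s hs, ← h1]; group
        rw [this]
        calc s * x * r * (s * x)⁻¹ = s * (x * r) * x⁻¹ * s⁻¹ := by group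
          _ = _ := by rw [← hR.cent r hr]; group
    calc s * (p * r * p⁻¹ * r⁻¹) * s⁻¹
        = p * ((p⁻¹ * s * p) * r * (p⁻¹ * s * p)⁻¹) * p⁻¹ * (s * r * s⁻¹)⁻¹ := by group
      _ = p * (s * r * s⁻¹) * p⁻¹ * (s * r * s⁻¹)⁻¹ := by rw [h1]
      _ = _ := by
        rcases hR.conj s hs r hr with h2 | h2 <;> rw [h2]
        calc p * (r * x) * p⁻¹ * (r * x)⁻¹ = p * r * p⁻¹ * (p * x * p⁻¹) * x⁻¹ * r⁻¹ := by group
          _ = _ := by rw [hpx]; group
  have final : (∀ r ∈ coreC x, z * r * z⁻¹ * r⁻¹ = 1 ∨ z * r * z⁻¹ * r⁻¹ = x) → False := by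
    intro h
    apply hzR
    apply hR.mem_of_trivial hx.cent
    intro r hr
    rcases h r hr with h1 | h1
    · left; exact mul_inv_eq_one.mp h1
    · right; rw [hR.cent r hr, ← h1]; group
  have fact6 : ∀ p ∈ coreC z, p * x * p⁻¹ = x → ∀ p' ∈ coreC z, p' * x * p'⁻¹ = x →
      p * p' * p⁻¹ = p' := by
    intro p hp hpx p' hp' hpx'
    rcases hQ.conj p hp p' hp' with h1 | h1
    · exact h1
    exfalso
    apply final
    intro r hr
    let C : Subgroup G := Subgroup.centralizer {x}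
    have hC : ∀ g : G, g * x * g⁻¹ = x → g ∈ C := fun g hg =>
      Subgroup.mem_centralizer_singleton_iff.mpr (mul_inv_eq_iff_eq_mul.mp hg)
    have hRC : ∀ g ∈ coreC x, g ∈ C := fun g hg =>
      Subgroup.mem_centralizer_singleton_iff.mpr (hR.cent g hg)
    let X : Subgroup C :=
      { carrier := {c | (c : G) = 1 ∨ (c : G) = x}
        one_mem' := Or.inl rfl
        mul_mem' := by
          rintro a b (ha | ha) (hb | hb) <;>
            simp only [Set.mem_setOf_eq, Subgroup.coe_mul, ha, hb, hR.sq, one_mul, mul_one,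
              true_or, or_true]
        inv_mem' := by
          rintro a (ha | ha) <;>
            simp only [Set.mem_setOf_eq, Subgroup.coe_inv, ha, hR.inv_z, inv_one,
              true_or, or_true] }
    have hXn : X.Normal := ⟨by
      rintro n (hn | hn) c
      · left; simp [hn]
      · right
        have := Subgroup.mem_centralizer_singleton_iff.mp c.2
        simp only [Subgroup.coe_mul, Subgroup.coe_inv, hn, this]; group⟩
    let π := QuotientGroup.mk' X
    have hπ : ∀ c : C, π c = 1 ↔ (c : G) = 1 ∨ (c : G) = x := fun c => QuotientGroup.eq_one_iff c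
    let P : C := ⟨p, hC p hpx⟩
    let P' : C := ⟨p', hC p' hpx'⟩
    let Rr : C := ⟨r, hRC r hr⟩
    let Z : C := ⟨z, hC z hzx⟩
    have hw : p * r * p⁻¹ * r⁻¹ ∈ coreC x :=
      (coreC x).mul_mem (conj_mem_coreC_of_comm hpx hr) ((coreC x).inv_mem hr)
    have hw' : p' * r * p'⁻¹ * r⁻¹ ∈ coreC x :=
      (coreC x).mul_mem (conj_mem_coreC_of_comm hpx' hr) ((coreC x).inv_mem hr)
    have := quad (a := π P) (a' := π P') (r := π Rr) (t := π Z) ?_ ?_ ?_ ?_
    · simp only [← map_mul, ← map_inv] at this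
      exact (hπ _).mp this
    · rw [← mul_inv_eq_one]
      simp only [← map_mul, ← map_inv]
      exact (hπ _).mpr (fact2 _ hw' (fact5 p' hp' hpx' r hr) p hp hpx)
    · rw [← mul_inv_eq_one]
      simp only [← map_mul, ← map_inv]
      exact (hπ _).mpr (fact2 _ hw (fact5 p hp hpx r hr) p' hp' hpx')
    · rw [← mul_inv_eq_one]
      simp only [← map_mul, ← map_inv]
      apply (hπ _).mpr
      have e : ∀ a b : G, a * b * (b * a)⁻¹ = a * b * a⁻¹ * b⁻¹ := by intros; group
      simp only [Subgroup.coe_mul, Subgroup.coe_inv, P, P', Rr]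
      rw [e]
      rcases hR.conj _ hw _ hw' with h2 | h2 <;> rw [h2]
      · left; group
      · right; rw [hR.cent _ hw']; group
    · simp only [← map_mul]
      congr 1
      apply Subtype.ext
      change p * p' = p' * p * z
      rw [mul_assoc, hQ.cent p hp, ← mul_assoc, ← h1]; group
  apply final
  intro r hr
  have hs := fact3 r hr
  have hsR : z * r * z⁻¹ * r⁻¹ ∈ coreC x :=
    (coreC x).mul_mem (conj_mem_coreC_of_comm hzx hr) ((coreC x).inv_mem hr)
  generalize z * r * z⁻¹ * r⁻¹ = s at hs hsR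
  apply fact1 _ _ hsR
  have hsz : s * z * s⁻¹ = z := by
    calc s * z * s⁻¹ = (z * s * z⁻¹) * z * s⁻¹ := by rw [hs]
      _ = z := by group
  have hsx : s * x * s⁻¹ = x := by rw [hR.cent s hsR]; group
  apply hQ.mem_of_trivial hz.cent
  intro b hb
  have hP : ∀ e ∈ coreC z, e * x * e⁻¹ = x → e = 1 ∨ e = x ∨ e = z ∨ e = x * z :=
    fun e he hex => four e he fun p hp hpx => fact6 p hp hpx e he hex
  rcases hQ.conj b hb x hxz with h1 | h1
  · left
    rcases hP b hb h1 with h2 | h2 | h2 | h2 <;> rw [h2]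
    · group
    · exact hsx
    · exact hsz
    · calc s * (x * z) * s⁻¹ = (s * x * s⁻¹) * (s * z * s⁻¹) := by group
        _ = _ := by rw [hsx, hsz]
  · have hb' : s * b * s⁻¹ ∈ coreC z := conj_mem_coreC_of_comm hsz hb
    have hbz := hQ.cent b hb
    have h2 : b⁻¹ * x * b = x * z := by
      calc b⁻¹ * x * b = b⁻¹ * (x * z) * (z * b) := by
            rw [mul_assoc _ (x * z), mul_assoc x, ← mul_assoc z, hQ.sq, one_mul, mul_assoc]
        _ = b⁻¹ * (b * x * b⁻¹) * (b * z) := by rw [h1, hbz]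
        _ = x * z := by group
    have h3 : (b⁻¹ * (s * b * s⁻¹)) * x * (b⁻¹ * (s * b * s⁻¹))⁻¹ = x := by
      have hsx' : s⁻¹ * x * s = x := by
        calc s⁻¹ * x * s = s⁻¹ * (s * x * s⁻¹) * s := by rw [hsx]
          _ = x := by group
      calc (b⁻¹ * (s * b * s⁻¹)) * x * (b⁻¹ * (s * b * s⁻¹))⁻¹
          = b⁻¹ * (s * (b * (s⁻¹ * x * s) * b⁻¹) * s⁻¹) * b := by group
        _ = b⁻¹ * ((s * x * s⁻¹) * (s * z * s⁻¹)) * b := by rw [hsx', h1]; group
        _ = (b⁻¹ * x * b) * (b⁻¹ * (z * b)) := by rw [hsx, hsz]; group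
        _ = x * (z * z) := by rw [h2, ← hbz]; group
        _ = x := by rw [hQ.sq, mul_one]
    have h4 : (s * b * s⁻¹) * (s * b * s⁻¹) = b * b := by
      calc (s * b * s⁻¹) * (s * b * s⁻¹) = s * (b * b) * s⁻¹ := by group
        _ = b * b := by
          rcases hQ.sq_mem hb with h5 | h5 <;> rw [h5]
          · group
          · exact hsz
    have h5 : (b * x) * (b * x) = b * b * z := by
      calc (b * x) * (b * x) = b * b * ((b⁻¹ * x * b) * x) := by group
        _ = b * b * (z * (x * x)) := by rw [h2, hc]; group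
        _ = _ := by rw [hR.sq, mul_one]
    rcases hP _ ((coreC z).mul_mem ((coreC z).inv_mem hb) hb') h3 with h6 | h6 | h6 | h6
    · left; exact (inv_mul_eq_one.mp h6).symm
    · exfalso
      rw [inv_mul_eq_iff_eq_mul] at h6
      rw [h6, h5] at h4
      exact hQ.ne_mul_z _ h4.symm
    · right; exact inv_mul_eq_iff_eq_mul.mp h6
    · exfalso
      rw [inv_mul_eq_iff_eq_mul] at h6
      have h7 : b * (x * z) * (b * (x * z)) = (b * x) * (b * x) := by
        calc b * (x * z) * (b * (x * z)) = b * x * (z * b) * (x * z) := by group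
          _ = b * x * b * (z * x) * z := by rw [← hbz]; group
          _ = b * x * b * x * (z * z) := by rw [← hc]; group
          _ = _ := by rw [hQ.sq]; group
      rw [h6, h7, h5] at h4
      exact hQ.ne_mul_z _ h4.symm

/-- Orthogonality of singular involutions is symmetric. -/
theorem result {G : Type*} [Group G] [Finite G]
    (Q : G → Subgroup G)
    (hQ : ∀ x : G, Q x = (Cfsg.pCore 2 ↥(Subgroup.centralizer ({x} : Set G))).map (Subgroup.centralizer ({x} : Set G)).subtype)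
    (z : G) (hz : orderOf z = 2) (hE : Cfsg.IsExtraspecial 2 ↥(Q z))
    (hC : Subgroup.centralizer ((Q z : Subgroup G) : Set G) ≤ Q z)
    (g : G) (hx : g * z * g⁻¹ ∈ Q z) : z ∈ Q (g * z * g⁻¹) := by
  obtain rfl : Q = coreC := funext hQ
  have h := large_of hz hE hC
  exact main h (h.conj g) hx

end Cfsg.Agent.S5595
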