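import Mathlib
import Cfsg.Statements.S5596
import Cfsg.Agent.Lib.Spor96.LargeES

set_option autoImplicit false
open Cfsg

namespace Cfsg.Agent.S5596

open H96


/-- Setting: `z` is an involution of the finite group `G`; for each element `x`, `Q x` is the largest normal 2-subgroup of the centralizer of `x`; `Q z` is extraspecial and contains its own centralizer in `G`. A subgroup `U` is singular when it is elementary abelian, every non-identity element of `U` is conjugate to `z`, and any two non-identity elements `u`, `v` of `U` are orthogonal (`v ∈ Q u`). Write `QU` for the intersection of the `Q u` and `LU` for the join of the `Q u` over the non-identity `u` in `U`. If `U` is singular of order `2 ^ n` with `n ≥ 2`, then `U ≤ QU ≤ LU`, `LU` normalizes `U`, and `LU` induces on `U` its full automorphism group (the general linear group of dimension `n` over the field with two elements): every automorphism of `U` is conjugation by some element of `LU`. -/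
theorem result {G : Type*} [Group G] [Finite G]
    (Q : G → Subgroup G)
    (hQ : ∀ x : G, Q x = (Cfsg.pCore 2 ↥(Subgroup.centralizer ({x} : Set G))).map (Subgroup.centralizer ({x} : Set G)).subtype)
    (z : G) (hz : orderOf z = 2) (hE : Cfsg.IsExtraspecial 2 ↥(Q z))
    (hC : Subgroup.centralizer ((Q z : Subgroup G) : Set G) ≤ Q z)
    (U : Subgroup G) (hU2 : ∀ u ∈ U, u * u = 1)
    (hS : ∀ u ∈ U, u ≠ 1 → ∃ g : G, g * z * g⁻¹ = u)
    (hO : ∀ u ∈ U, ∀ v ∈ U, u ≠ 1 → v ≠ 1 → v ∈ Q u)
    (QU LU : Subgroup G) (hQU : QU = ⨅ u ∈ ((U : Set G) \ {1}), Q u) (hLU : LU = ⨆ u ∈ ((U : Set G) \ {1}), Q u)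
    (n : ℕ) (hn : 2 ≤ n) (hcard : Nat.card ↥U = 2 ^ n) :
    U ≤ QU ∧ QU ≤ LU ∧ LU ≤ Subgroup.normalizer (U : Set G) ∧
      ∀ φ : ↥U ≃* ↥U, ∃ g ∈ LU, ∀ u : ↥U, g * (u : G) * g⁻¹ = ((φ u : ↥U) : G) := by
  obtain rfl : Q = coreC := funext hQ
  have h := large_of hz hE hC
  have hL : ∀ u ∈ U, u ≠ 1 → Large u := fun u hu hu1 => by
    obtain ⟨g, rfl⟩ := hS u hu hu1
    exact h.conj g
  have hUQ : ∀ u ∈ U, u ≠ 1 → U ≤ coreC u := fun u hu hu1 v hv => by
    by_cases hv1 : v = 1
    · rw [hv1]; exact one_mem _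
    · exact hO u hu v hv hu1 hv1
  have hQUle : ∀ u ∈ U, u ≠ 1 → QU ≤ coreC u := fun u hu hu1 => by
    rw [hQU]; exact iInf₂_le u ⟨hu, hu1⟩
  have hLUle : ∀ u ∈ U, u ≠ 1 → coreC u ≤ LU := fun u hu hu1 => by
    rw [hLU]; exact le_iSup₂_of_le u ⟨hu, hu1⟩ le_rfl
  have hU : U ≠ ⊥ := by
    rintro rfl
    rw [Subgroup.card_bot] at hcard
    have := Nat.one_lt_two_pow (n := n) (by omega)
    omega
  obtain ⟨⟨u0, hu0⟩, hu01⟩ := (Subgroup.ne_bot_iff_exists_ne_one).mp hU
  have hu01' : u0 ≠ 1 := fun e => hu01 (Subtype.ext e)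
  have hinv : ∀ u ∈ U, u⁻¹ = u := fun u hu => inv_eq_of_mul_eq_one_right (hU2 u hu)
  have hcomm : ∀ u ∈ U, ∀ v ∈ U, u * v = v * u := fun u hu v hv => by
    rw [← hinv _ (U.mul_mem hu hv), mul_inv_rev, hinv u hu, hinv v hv]
  have hN : LU ≤ Subgroup.normalizer (U : Set G) := by
    rw [hLU]
    refine iSup₂_le ?_
    rintro u ⟨hu, hu1⟩ q hq
    have hE := (hL u hu hu1).es
    have h2 : ∀ q ∈ coreC u, ∀ v ∈ U, q * v * q⁻¹ ∈ U := fun q hq v hv => by
      rcases hE.conj q hq v (hUQ u hu hu1 hv) with h3 | h3 <;> rw [h3]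
      · exact hv
      · exact U.mul_mem hv hu
    refine Subgroup.mem_normalizer_iff.mpr fun v => ⟨h2 q hq v, fun hv => ?_⟩
    simpa [mul_assoc] using h2 q⁻¹ (inv_mem hq) _ hv
  refine ⟨?_, (hQUle u0 hu0 hu01').trans (hLUle u0 hu0 hu01'), hN, ?_⟩
  · rw [hQU]
    refine le_iInf₂ ?_
    rintro u ⟨hu, hu1⟩
    exact hUQ u hu hu1
  · intro φ
    -- the subgroup of agreement
    let W : G → Subgroup U := fun g =>
      { carrier := {u | g * (u : G) * g⁻¹ = ((φ u : U) : G)}
        one_mem' := by simp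
        mul_mem' := by
          intro a b ha hb
          change g * ((a * b : U) : G) * g⁻¹ = _
          change g * (a : G) * g⁻¹ = _ at ha
          change g * (b : G) * g⁻¹ = _ at hb
          rw [map_mul, Subgroup.coe_mul, Subgroup.coe_mul, ← ha, ← hb]; group
        inv_mem' := by
          intro a ha
          change g * ((a⁻¹ : U) : G) * g⁻¹ = _
          change g * (a : G) * g⁻¹ = _ at ha
          rw [map_inv, Subgroup.coe_inv, Subgroup.coe_inv, ← ha]; group }
    have hW : ∀ g (u : U), u ∈ W g ↔ g * (u : G) * g⁻¹ = ((φ u : U) : G) := fun _ _ => Iff.rfl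
    obtain ⟨g, hg, hmax⟩ := Set.Finite.exists_maximalFor W (LU : Set G) (Set.toFinite _)
      ⟨1, one_mem _⟩
    refine ⟨g, hg, fun v => ?_⟩
    by_contra hv
    have hgN := Subgroup.mem_normalizer_iff.mp (hN hg)
    have hb : g * v * g⁻¹ ∈ U := (hgN _).mp v.2
    set b : G := g * v * g⁻¹ with hbdef
    set u : G := b * φ v with hudef
    have hu : u ∈ U := U.mul_mem hb (φ v).2
    have hu1 : u ≠ 1 := by
      intro e
      apply hv
      rw [hudef, mul_eq_one_iff_eq_inv, hinv _ (φ v).2] at e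
      exact e
    have hE := (hL u hu hu1).es
    let A : Subgroup G :=
      { carrier := {a | ∃ w ∈ W g, a = φ w ∨ a = φ w * u}
        one_mem' := ⟨1, one_mem _, Or.inl (by simp)⟩
        mul_mem' := by
          rintro a c ⟨w, hw, ha⟩ ⟨w', hw', hc⟩
          refine ⟨w * w', mul_mem hw hw', ?_⟩
          rw [map_mul, Subgroup.coe_mul]
          rcases ha with ha | ha <;> rcases hc with hc | hc <;> rw [ha, hc]
          · left; rfl
          · right; group
          · right; rw [mul_assoc, hcomm u hu _ (φ w').2, mul_assoc]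
          · left
            rw [mul_assoc, hcomm _ (φ w').2 u hu, ← mul_assoc u, hU2 u hu, one_mul]
        inv_mem' := by
          rintro a ⟨w, hw, ha⟩
          refine ⟨w, hw, ?_⟩
          have : a ∈ U := by
            rcases ha with ha | ha <;> rw [ha]
            · exact (φ w).2
            · exact U.mul_mem (φ w).2 hu
          rwa [hinv a this] }
    have hAU : A ≤ U := by
      rintro a ⟨w, -, ha | ha⟩ <;> rw [ha]
      · exact (φ w).2
      · exact U.mul_mem (φ w).2 hu
    have hbA : b ∉ A := by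
      rintro ⟨w, hw, ha | ha⟩
      · apply hv
        rw [← (hW g w).mp hw, hbdef] at ha
        have : v = w := Subtype.ext (by simpa using ha)
        rw [this] at hbdef ⊢
        rw [hbdef]; exact hw
      · apply hv
        rw [hudef, hcomm b hb _ (φ v).2, ← mul_assoc, eq_comm, mul_eq_right,
          mul_eq_one_iff_eq_inv, hinv _ (φ v).2] at ha
        have : w = v := φ.injective (Subtype.ext ha)
        rw [this] at hw
        exact hw
    obtain ⟨q, hq, h1, h2⟩ := hE.exists_sep (hAU.trans (hUQ u hu hu1))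
      ⟨1, one_mem _, Or.inr (by simp)⟩ (hUQ u hu hu1 hb) hbA
    have hle : W g ≤ W (q * g) := by
      intro w hw
      rw [hW]
      calc q * g * w * (q * g)⁻¹ = q * (g * w * g⁻¹) * q⁻¹ := by group
        _ = φ w := by rw [(hW g w).mp hw]; exact h1 _ ⟨w, hw, Or.inl rfl⟩
    have hge := hmax (LU.mul_mem (hLUle u hu hu1 hq) hg) hle
    apply hv
    apply hge
    rw [hW]
    calc q * g * v * (q * g)⁻¹ = q * b * q⁻¹ := by rw [hbdef]; group
      _ = φ v := by rw [h2, hudef, ← mul_assoc, hU2 b hb, one_mul]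

end Cfsg.Agent.S5596
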