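import Mathlib
import Cfsg.Statements.S5597
import Cfsg.Agent.Lib.Spor96.LargeES

set_option autoImplicit false
open Cfsg

namespace Cfsg.Agent.S5597

open H96


/-- Setting: `z` is an involution of the finite group `G`; for each element `x`, `Q x` is the largest normal 2-subgroup of the centralizer of `x`; `Q z` is extraspecial and contains its own centralizer in `G`. A subgroup `U` is singular when it is elementary abelian, every non-identity element of `U` is conjugate to `z`, and any two non-identity elements `u`, `v` of `U` are orthogonal (`v ∈ Q u`). Write `QU` for the intersection of the `Q u` and `LU` for the join of the `Q u` over the non-identity `u` in `U`. If `U` is a non-trivial singular subgroup, then `LU` acts trivially on `QU / U` (every commutator of an element of `LU` with an element of `QU` lies in `U`), and for every `x` in `QU` outside `U` the centralizer of `U` in `LU` permutes the coset `x U` transitively: each `x u` with `u ∈ U` is a conjugate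 of `x` by an element of `LU` centralizing `U`. -/
theorem result {G : Type*} [Group G] [Finite G]
    (Q : G → Subgroup G)
    (hQ : ∀ x : G, Q x = (Cfsg.pCore 2 ↥(Subgroup.centralizer ({x} : Set G))).map (Subgroup.centralizer ({x} : Set G)).subtype)
    (z : G) (hz : orderOf z = 2) (hE : Cfsg.IsExtraspecial 2 ↥(Q z))
    (hC : Subgroup.centralizer ((Q z : Subgroup G) : Set G) ≤ Q z)
    (U : Subgroup G) (hU2 : ∀ u ∈ U, u * u = 1)
    (hS : ∀ u ∈ U, u ≠ 1 → ∃ g : G, g * z * g⁻¹ = u)
    (hO : ∀ u ∈ U, ∀ v ∈ U, u ≠ 1 → v ≠ 1 → v ∈ Q u)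
    (QU LU : Subgroup G) (hQU : QU = ⨅ u ∈ ((U : Set G) \ {1}), Q u) (hLU : LU = ⨆ u ∈ ((U : Set G) \ {1}), Q u)
    (hU : U ≠ ⊥) :
    (∀ g ∈ LU, ∀ x ∈ QU, g * x * g⁻¹ * x⁻¹ ∈ U) ∧
      ∀ x ∈ QU, x ∉ U → ∀ u ∈ U, ∃ g ∈ LU ⊓ Subgroup.centralizer (U : Set G), g * x * g⁻¹ = x * u := by
  obtain rfl : Q = coreC := funext hQ
  have h := large_of hz hE hC
  have hL : ∀ u ∈ U, u ≠ 1 → Large u := fun u hu hu1 => by
    obtain ⟨g, rfl⟩ := hS u hu hu1
    exact h.conj g
  have hUQ : ∀ u ∈ U, u ≠ 1 → U ≤ coreC u := fun u hu hu1 v hv => by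
    by_cases hv1 : v = 1
    · rw [hv1]; exact one_mem _
    · exact hO u hu v hv hu1 hv1
  have hQUle : ∀ u ∈ U, u ≠ 1 → QU ≤ coreC u := fun u hu hu1 => by
    rw [hQU]; exact iInf₂_le u ⟨hu, hu1⟩
  have hLUle : ∀ u ∈ U, u ≠ 1 → coreC u ≤ LU := fun u hu hu1 => by
    rw [hLU]; exact le_iSup₂_of_le u ⟨hu, hu1⟩ le_rfl
  constructor
  · let K : Subgroup G :=
      { carrier := {g | g ∈ Subgroup.normalizer (U : Set G) ∧ ∀ x ∈ QU, g * x * g⁻¹ * x⁻¹ ∈ U ∧
          g⁻¹ * x * g * x⁻¹ ∈ U}
        one_mem' := ⟨one_mem _, fun x _ => by simp⟩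
        mul_mem' := by
          rintro a b ⟨ha, ha'⟩ ⟨hb, hb'⟩
          refine ⟨mul_mem ha hb, fun x hx => ⟨?_, ?_⟩⟩
          · have := U.mul_mem ((Subgroup.mem_normalizer_iff.mp ha _).mp (hb' x hx).1) (ha' x hx).1
            convert this using 1; group
          · have := U.mul_mem ((Subgroup.mem_normalizer_iff.mp (inv_mem hb) _).mp (ha' x hx).2)
              (hb' x hx).2
            convert this using 1; group
        inv_mem' := by
          rintro a ⟨ha, ha'⟩
          refine ⟨inv_mem ha, fun x hx => ⟨?_, ?_⟩⟩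
          · simpa using (ha' x hx).2
          · simpa using (ha' x hx).1 }
    have hK : LU ≤ K := by
      rw [hLU]
      refine iSup₂_le ?_
      rintro u ⟨hu, hu1⟩ q hq
      have hE := (hL u hu hu1).es
      have h1 : ∀ q ∈ coreC u, ∀ x ∈ coreC u, q * x * q⁻¹ * x⁻¹ ∈ U := by
        intro q hq x hx
        rcases hE.conj q hq x hx with h2 | h2 <;> rw [h2]
        · simp
        · rw [hE.cent x hx]; simpa using hu
      have h2 : ∀ q ∈ coreC u, ∀ v ∈ U, q * v * q⁻¹ ∈ U := fun q hq v hv => by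
        simpa using U.mul_mem (h1 q hq v (hUQ u hu hu1 hv)) hv
      refine ⟨Subgroup.mem_normalizer_iff.mpr fun v => ⟨h2 q hq v, fun hv => ?_⟩, fun x hx => ⟨?_, ?_⟩⟩
      · simpa [mul_assoc] using h2 q⁻¹ (inv_mem hq) _ hv
      · exact h1 q hq x (hQUle u hu hu1 hx)
      · simpa using h1 q⁻¹ (inv_mem hq) x (hQUle u hu hu1 hx)
    intro g hg x hx
    exact ((hK hg).2 x hx).1
  · intro x hx hxU u hu
    by_cases hu1 : u = 1
    · exact ⟨1, one_mem _, by simp [hu1]⟩
    have hE := (hL u hu hu1).es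
    obtain ⟨q, hq, h1, h2⟩ := hE.exists_sep (hUQ u hu hu1) hu (hQUle u hu hu1 hx) hxU
    refine ⟨q, Subgroup.mem_inf.mpr ⟨hLUle u hu hu1 hq, ?_⟩, h2⟩
    rw [Subgroup.mem_centralizer_iff]
    intro v hv
    exact (mul_inv_eq_iff_eq_mul.mp (h1 v hv)).symm

end Cfsg.Agent.S5597
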