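import Mathlib
import Cfsg.Statements.S5598
import Cfsg.Agent.Lib.Spor96.LargeES

set_option autoImplicit false
open Cfsg

namespace Cfsg.Agent.S5598

open H96


/-- Setting: `z` is an involution of the finite group `G`; for each element `x`, `Q x` is the largest normal 2-subgroup of the centralizer of `x`; `Q z` is extraspecial and contains its own centralizer in `G`. A subgroup `U` is singular when it is elementary abelian, every non-identity element of `U` is conjugate to `z`, and any two non-identity elements `u`, `v` of `U` are orthogonal (`v ∈ Q u`). Write `QU` for the intersection of the `Q u` and `LU` for the join of the `Q u` over the non-identity `u` in `U`. If the singular subgroup `U` is generated by a set `T` of non-identity elements, then `QU` is already the intersection of the `Q t` over `t ∈ T`. -/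
theorem result {G : Type*} [Group G] [Finite G]
    (Q : G → Subgroup G)
    (hQ : ∀ x : G, Q x = (Cfsg.pCore 2 ↥(Subgroup.centralizer ({x} : Set G))).map (Subgroup.centralizer ({x} : Set G)).subtype)
    (z : G) (hz : orderOf z = 2) (hE : Cfsg.IsExtraspecial 2 ↥(Q z))
    (hC : Subgroup.centralizer ((Q z : Subgroup G) : Set G) ≤ Q z)
    (U : Subgroup G) (hU2 : ∀ u ∈ U, u * u = 1)
    (hS : ∀ u ∈ U, u ≠ 1 → ∃ g : G, g * z * g⁻¹ = u)
    (hO : ∀ u ∈ U, ∀ v ∈ U, u ≠ 1 → v ≠ 1 → v ∈ Q u)
    (QU LU : Subgroup G) (hQU : QU = ⨅ u ∈ ((U : Set G) \ {1}), Q u) (hLU : LU = ⨆ u ∈ ((U : Set G) \ {1}), Q u)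
    (T : Set G) (hT : Subgroup.closure T = U) (hT1 : (1 : G) ∉ T) :
    QU = ⨅ t ∈ T, Q t := by
  obtain rfl : Q = coreC := funext hQ
  have h := large_of hz hE hC
  have hL : ∀ u ∈ U, u ≠ 1 → Large u := fun u hu hu1 => by
    obtain ⟨g, rfl⟩ := hS u hu hu1
    exact h.conj g
  subst hQU
  apply le_antisymm
  · refine le_iInf₂ fun t ht => iInf₂_le t ⟨?_, ?_⟩
    · exact hT ▸ Subgroup.subset_closure ht
    · rintro rfl; exact hT1 ht
  · intro x hx
    simp only [Subgroup.mem_iInf] at hx ⊢
    have key : ∀ u ∈ Subgroup.closure T, u = 1 ∨ x ∈ coreC u := by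
      intro u hu
      induction hu using Subgroup.closure_induction with
      | mem a ha => exact Or.inr (hx a ha)
      | one => exact Or.inl rfl
      | mul a b ha hb iha ihb =>
        rw [hT] at ha hb
        by_cases ha1 : a = 1
        · rw [ha1, one_mul]; exact ihb
        by_cases hb1 : b = 1
        · rw [hb1, mul_one]; exact iha
        by_cases hab : a * b = 1
        · exact Or.inl hab
        right
        have hxa := iha.resolve_left ha1
        have hxb := ihb.resolve_left hb1
        have hE := (hL a ha ha1).es
        have hba := hO a ha b hb ha1 hb1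
        have hbz : b ∉ Subgroup.zpowers a := by
          intro hh
          have : a ∈ Subgroup.centralizer (coreC a : Set G) :=
            Subgroup.mem_centralizer_iff.mpr fun c hc => hE.cent c hc
          have h2 := (Subgroup.zpowers_le.mpr this) hh
          rcases hE.center b hba (fun c hc => (Subgroup.mem_centralizer_iff.mp h2 c hc).symm) with
            h3 | h3
          · exact hb1 h3
          · exact hab (by rw [h3, hE.sq])
        obtain ⟨q, hq, -, h2⟩ := hE.exists_sep (Subgroup.zpowers_le.mpr hE.mem)
          (Subgroup.mem_zpowers a) hba hbz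
        have h3 := conj_mem_coreC q hxb
        rw [h2, hE.cent b hba] at h3
        rcases hE.conj q hq x hxa with h4 | h4 <;> rw [h4] at h3
        · exact h3
        · have h5 := hO (a * b) (U.mul_mem ha hb) a ha hab ha1
          simpa using (coreC (a * b)).mul_mem h3 ((coreC (a * b)).inv_mem h5)
      | inv a ha iha =>
        rw [hT] at ha
        rwa [inv_eq_of_mul_eq_one_right (hU2 a ha)]
    rintro u ⟨hu, hu1⟩
    exact (key u (hT ▸ hu)).resolve_left hu1

end Cfsg.Agent.S5598
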