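import Cfsg.Statements.S5945
import Mathlib
import Cfsg.Agent.Lib.SymMax.AutPerm

set_option autoImplicit false
open Cfsg

namespace Cfsg.Agent.S5945

/-- The symmetric group S_6 has exactly 12 subgroups of index 6; each of them is isomorphic to S_5, and at least one of them is not the stabilizer of any point. -/
theorem result : Nat.card {H : Subgroup (Equiv.Perm (Fin 6)) // H.index = 6} = 12 ∧ (∀ H : Subgroup (Equiv.Perm (Fin 6)), H.index = 6 → Nonempty (H ≃* Equiv.Perm (Fin 5))) ∧ ∃ H : Subgroup (Equiv.Perm (Fin 6)), H.index = 6 ∧ ∀ a : Fin 6, H ≠ MulAction.stabilizer (Equiv.Perm (Fin 6)) a := by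
  obtain ⟨ψ, hne, hall⟩ := H98.exists_outer_six (Ω := Fin 6) (by simp)
  have hi : ∀ x : Fin 6, (MulAction.stabilizer (Equiv.Perm (Fin 6)) x).index = 6 := fun x => by
    rw [MulAction.index_stabilizer_of_transitive]; simp
  have hi' : ∀ x : Fin 6, ((MulAction.stabilizer (Equiv.Perm (Fin 6)) x).comap ψ.toMonoidHom).index = 6 :=
    fun x => by rw [Subgroup.index_comap_of_surjective _ ψ.surjective, hi]
  have hiso : ∀ x : Fin 6, Nonempty (MulAction.stabilizer (Equiv.Perm (Fin 6)) x ≃* Equiv.Perm (Fin 5)) := by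
    intro x
    rw [← H98.range_ofSubtype_ne]
    have e : {z // z ≠ x} ≃ Fin 5 := Fintype.equivFinOfCardEq (by simp)
    exact ⟨(MonoidHom.ofInjective Equiv.Perm.ofSubtype_injective).symm.trans e.permCongrHom⟩
  refine ⟨?_, fun H hH => ?_, ⟨_, hi' 0, fun a => hne 0 a⟩⟩
  · let f : Fin 6 ⊕ Fin 6 → {H : Subgroup (Equiv.Perm (Fin 6)) // H.index = 6} :=
      Sum.elim (fun x => ⟨_, hi x⟩) (fun x => ⟨_, hi' x⟩)
    have hf : Function.Bijective f := by
      constructor
      · rintro (x | x) (y | y) h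
        · rw [H98.stabilizer_perm_injective (by simp) (congrArg Subtype.val h)]
        · exact absurd (congrArg Subtype.val h).symm (hne _ _)
        · exact absurd (congrArg Subtype.val h) (hne _ _)
        · rw [H98.stabilizer_perm_injective (by simp)
            (Subgroup.comap_injective (f := ψ.toMonoidHom) ψ.surjective (congrArg Subtype.val h))]
      · rintro ⟨H, hH⟩
        obtain ⟨y, rfl | rfl⟩ := hall H hH
        · exact ⟨Sum.inl y, rfl⟩
        · exact ⟨Sum.inr y, rfl⟩
    rw [← Nat.card_eq_of_bijective f hf]; simp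
  · obtain ⟨y, rfl | rfl⟩ := hall H hH
    · exact hiso y
    · obtain ⟨e⟩ := hiso y
      rw [Subgroup.comap_equiv_eq_map_symm']
      exact ⟨(ψ.symm.subgroupMap _).symm.trans e⟩

end Cfsg.Agent.S5945
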