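import Cfsg.Statements.S5712
import Mathlib
import Cfsg.Agent.Lib.TwoTv.Main
import Cfsg.Agent.Lib.Inv2.Symp
import Cfsg.Agent.Lib.Core.PCore
import Cfsg.Agent.Lib.Forms.Bridge
import Cfsg.Agent.S0247
import Cfsg.Agent.S5945

set_option autoImplicit false
open Cfsg

namespace Cfsg.Agent.S5712


/-- Let F be a finite field of characteristic two, n ≥ 2, V = F^{2n} with the non-degenerate alternating form f(u, v) = Σ (u_i v_{n+i} + u_{n+i} v_i), and G the group of invertible matrices preserving f. Let a ≠ 0 be a vector, H its stabilizer in G, and X a subgroup of O₂(H) of order |F|^{2n−2} no element of which is a transvection (no element g has g − 1 of rank one). If L is a subgroup of G containing X that acts irreducibly on V (no proper non-zero L-invariant subspace), then L = G, or, for some quadratic form Q on V whose polar form is f, L is the isometry group of Q or its subgroup of the isometries g for which g − 1 has even rank, or |F| = 2, n = 2 and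 L is isomorphic to the alternating group of degree 6 or to the symmetric group of degree 5. -/
theorem result {F : Type*} [Field F] [Fintype F] [CharP F 2] {n : ℕ} (hn : 2 ≤ n) (a : (Fin n ⊕ Fin n → F)) (ha : a ≠ 0)
    (X : Subgroup (GL (Fin n ⊕ Fin n) F)) (hXG : X ≤ Cfsg.preserving (Units.coeHom (Matrix (Fin n ⊕ Fin n) (Fin n ⊕ Fin n) F)) (fun u v : (Fin n ⊕ Fin n → F) => ∑ i : Fin n, (u (Sum.inl i) * v (Sum.inr i) + u (Sum.inr i) * v (Sum.inl i))))
    (hXO : ∀ H : Subgroup (GL (Fin n ⊕ Fin n) F),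
      (∀ g : GL (Fin n ⊕ Fin n) F, g ∈ H ↔ (g ∈ Cfsg.preserving (Units.coeHom (Matrix (Fin n ⊕ Fin n) (Fin n ⊕ Fin n) F)) (fun u v : (Fin n ⊕ Fin n → F) => ∑ i : Fin n, (u (Sum.inl i) * v (Sum.inr i) + u (Sum.inr i) * v (Sum.inl i))) ∧ Matrix.mulVec (g : Matrix (Fin n ⊕ Fin n) (Fin n ⊕ Fin n) F) a = a)) →
      X ≤ (Cfsg.pCore 2 ↥H).map H.subtype)
    (hcard : Nat.card ↥X = Fintype.card F ^ (2 * n - 2))
    (hntv : ∀ x ∈ X, ((x : Matrix (Fin n ⊕ Fin n) (Fin n ⊕ Fin n) F) - 1).rank ≠ 1)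
    (L : Subgroup (GL (Fin n ⊕ Fin n) F)) (hXL : X ≤ L) (hLG : L ≤ Cfsg.preserving (Units.coeHom (Matrix (Fin n ⊕ Fin n) (Fin n ⊕ Fin n) F)) (fun u v : (Fin n ⊕ Fin n → F) => ∑ i : Fin n, (u (Sum.inl i) * v (Sum.inr i) + u (Sum.inr i) * v (Sum.inl i))))
    (hirr : ∀ W : Submodule F (Fin n ⊕ Fin n → F), (∀ g ∈ L, ∀ w ∈ W, Matrix.mulVec (g : Matrix (Fin n ⊕ Fin n) (Fin n ⊕ Fin n) F) w ∈ W) → W = ⊥ ∨ W = ⊤) :
    L = Cfsg.preserving (Units.coeHom (Matrix (Fin n ⊕ Fin n) (Fin n ⊕ Fin n) F)) (fun u v : (Fin n ⊕ Fin n → F) => ∑ i : Fin n, (u (Sum.inl i) * v (Sum.inr i) + u (Sum.inr i) * v (Sum.inl i))) ∨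
    (∃ Q : QuadraticForm F (Fin n ⊕ Fin n → F), (∀ u v, QuadraticMap.polar ⇑Q u v = (fun u v : (Fin n ⊕ Fin n → F) => ∑ i : Fin n, (u (Sum.inl i) * v (Sum.inr i) + u (Sum.inr i) * v (Sum.inl i))) u v) ∧
      (L = Cfsg.isometryGroup F ⇑Q ∨
        ∀ g : GL (Fin n ⊕ Fin n) F, g ∈ L ↔ (g ∈ Cfsg.isometryGroup F ⇑Q ∧ Even ((g : Matrix (Fin n ⊕ Fin n) (Fin n ⊕ Fin n) F) - 1).rank))) ∨
    (Fintype.card F = 2 ∧ n = 2 ∧ (Nonempty (↥L ≃* ↥(alternatingGroup (Fin 6))) ∨ Nonempty (↥L ≃* Equiv.Perm (Fin 5)))) := by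
  classical
  have h2 : (2 : F) = 0 := CharTwo.two_eq_zero
  set f := H11.Sp.bilin n F with hf
  have hfe : ∀ u v : Fin n ⊕ Fin n → F,
      (∑ i : Fin n, (u (Sum.inl i) * v (Sum.inr i) + u (Sum.inr i) * v (Sum.inl i))) = f u v :=
    fun u v => by
      rw [hf, H11.Sp.bilin_apply, H11.Sp.form_eq_sum]
      exact Finset.sum_congr rfl fun i _ => by
        linear_combination (u (Sum.inl i) * v (Sum.inr i)) * h2
  have h0 : H97t.Ctx0 f := ⟨h2, H11.Sp.form_self, H11.Sp.bilin_nondegenerate.1⟩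
  simp only [hfe] at hXG hXO hLG ⊢
  set G := Cfsg.preserving (Units.coeHom (Matrix (Fin n ⊕ Fin n) (Fin n ⊕ Fin n) F))
    (fun u v => f u v) with hG
  have hGe : G = H97.pull (H97.spP n F).Isom := H97.spGL_eq' n
  have hdim : Module.finrank F (Fin n ⊕ Fin n → F) = 2 * n := H97.finrank_sp n
  have hd3 : 3 ≤ Module.finrank F (Fin n ⊕ Fin n → F) := by omega
  have hd4 : 4 ≤ Module.finrank F (Fin n ⊕ Fin n → F) := by omega
  set e := H97.toLE (Fin n ⊕ Fin n) F with he
  have hmem : ∀ g, g ∈ G ↔ ∀ x y, f (e g x) (e g y) = f x y := fun g => Iff.rfl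
  obtain ⟨b, hab⟩ := h0.exists_one ha
  let H : Subgroup (GL (Fin n ⊕ Fin n) F) := G ⊓ (MulAction.stabilizer _ a).comap e.toMonoidHom
  have hH : ∀ g, g ∈ H ↔ g ∈ G ∧ e g a = a := fun g => Iff.rfl
  have hXN := hXO H hH
  set N := (Cfsg.pCore 2 ↥H).map H.subtype with hN
  have hNH : N ≤ H := Subgroup.map_subtype_le _
  have hform : ∀ x ∈ X.map e.toMonoidHom, ∃ w c, f w a = 0 ∧ f w b = 0 ∧
      ∀ v, x v = H97t.uu f a w c v := fun x hx => by
    have : Finite (N.map e.toMonoidHom) := Finite.of_equiv _ (e.subgroupMap N).toEquiv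
    refine h0.core (N := N.map e.toMonoidHom) ((H1.isPGroup_pCore.map _).map _) hab ?_ ?_ ?_
      hd3 (Subgroup.map_mono hXN hx)
    · rintro _ ⟨g, hg, rfl⟩
      exact (hmem g).1 ((hH g).1 (hNH hg)).1
    · rintro _ ⟨g, hg, rfl⟩
      exact ((hH g).1 (hNH hg)).2
    · rintro v hv _ ⟨_, ⟨g, hg, rfl⟩, rfl⟩
      have ht : e.symm (H97t.tv h0 v) ∈ H := (hH _).2 ⟨(hmem _).2 (by
        simpa only [MulEquiv.apply_symm_apply] using H97t.tv_iso h0 v), by
        rw [MulEquiv.apply_symm_apply, H97t.tv_apply, h0.sym, hv, zero_smul, add_zero]⟩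
      refine ⟨_, ⟨_, (Cfsg.pCore_normal 2 H).conj_mem' g hg ⟨_, ht⟩, rfl⟩, ?_⟩
      simp
  have hfull := h0.full hab hform (fun k ⟨_, ⟨g, hg, rfl⟩, hk⟩ => by
      by_contra hk0
      refine hntv g hg ?_
      rw [H66.rank_eq_finrank_range, ← finrank_span_singleton (K := F) ha]
      refine congrArg (fun W : Submodule F (Fin n ⊕ Fin n → F) => Module.finrank F W) ?_
      ext v
      simp only [LinearMap.mem_range, Submodule.mem_span_singleton]
      have hk' : ∀ v, (Matrix.toLin' (g : Matrix (Fin n ⊕ Fin n) (Fin n ⊕ Fin n) F) - 1 :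
          Module.End F (Fin n ⊕ Fin n → F)) v = (k * f v a) • a := fun v => by
        have := hk v
        simp only [H97t.uu, smul_zero, map_zero, add_zero, zero_add] at this
        rw [LinearMap.sub_apply, Module.End.one_apply, sub_eq_iff_eq_add', ← this]
        rfl
      constructor
      · rintro ⟨y, rfl⟩
        exact ⟨_, (hk' y).symm⟩
      · rintro ⟨t, rfl⟩
        refine ⟨(t / k) • b, ?_⟩
        rw [hk', map_smul, LinearMap.smul_apply, h0.sym b a, hab, smul_eq_mul, mul_one,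
          mul_div_cancel₀ _ hk0])
    (by
      rw [Subgroup.card_map_of_injective e.injective, hcard,
        Module.natCard_eq_pow_finrank (K := F) (V := Fin n ⊕ Fin n → F), hdim,
        Nat.card_eq_fintype_card, ← pow_add]
      congr 1
      omega)
  obtain ⟨L', rfl⟩ := H97.pull_surjective L
  have hctx := h0.ctx (L := L') hd3 (fun g hg => by
      simpa only [MulEquiv.apply_symm_apply] using (hmem (e.symm g)).1
        (hLG (H97.mem_pull.2 (by rwa [← he, MulEquiv.apply_symm_apply])))) ha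
    (fun w hw => by
      obtain ⟨c, _, ⟨g, hg, rfl⟩, hc⟩ := hfull w hw
      exact ⟨c, _, H97.mem_pull.1 (hXL hg), hc⟩)
    (fun W hW => hirr W fun g hg w hw => hW _ (H97.mem_pull.1 hg) w hw)
  rcases hctx.main (a := a) ⟨1, one_mem _, 1, one_ne_zero, (one_smul _ _).symm⟩ hd4 with
    h | ⟨Q, hQ, hle, h⟩ | ⟨hF, h4, h120⟩
  · exact Or.inl (le_antisymm hLG (hGe ▸ H97.pull_le_pull.2 h))
  · refine Or.inr (Or.inl ⟨Q, hQ, ?_⟩)
    have hO : ∀ g, g ∈ Cfsg.isometryGroup F ⇑Q ↔ e g ∈ H12.O Q := fun g => by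
      rw [H12.mem_isometryGroup, H12.mem_O]; rfl
    rcases h with h | h
    · exact Or.inl (Subgroup.ext fun g => by
        rw [hO, H97.mem_pull]; exact ⟨fun x => hle x, fun x => h x⟩)
    · refine Or.inr fun g => ?_
      have hr : ∀ hg : e g ∈ H12.O Q, Module.finrank F (H12.mov ⟨e g, hg⟩) =
          ((g : Matrix (Fin n ⊕ Fin n) (Fin n ⊕ Fin n) F) - 1).rank := fun hg => by
        rw [H66.rank_eq_finrank_range, ← LinearMap.range_neg, neg_sub]
        rfl
      rw [hO, H97.mem_pull]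
      exact ⟨fun hg => ⟨hle hg, hr (hle hg) ▸ (h ⟨_, hle hg⟩).1 hg⟩,
        fun hg => (h ⟨_, hg.1⟩).2 ((hr hg.1).symm ▸ hg.2)⟩
  · obtain rfl : n = 2 := by have := hdim.symm.trans h4; omega
    rw [Nat.card_eq_fintype_card] at hF
    by_cases hLG' : H97.pull L' = G
    · exact Or.inl hLG'
    refine Or.inr (Or.inr ⟨hF, rfl, ?_⟩)
    obtain ⟨ψ⟩ := Cfsg.Agent.S0247.result hF
    have hL' : L' ≤ (H28.spPQ 2 F).Isom := H97.pull_le_pull.1 (hGe ▸ hLG)
    let χ : (H28.spPQ 2 F).Isom ≃* Equiv.Perm (Fin 6) := H28.spEquiv.symm.trans ψ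
    let M : Subgroup (Equiv.Perm (Fin 6)) := (L'.subgroupOf _).map χ.toMonoidHom
    have eL : ↥(H97.pull L') ≃* M :=
      ((e.subgroupMap (H97.pull L')).trans (MulEquiv.subgroupCongr
        (Subgroup.map_comap_eq_self_of_surjective e.surjective L'))).trans
        ((Subgroup.subgroupOfEquivOfLe hL').symm.trans (χ.subgroupMap _))
    have hc : Nat.card M = Nat.card L' := by
      rw [Subgroup.card_map_of_injective χ.injective,
        Nat.card_congr (Subgroup.subgroupOfEquivOfLe hL').toEquiv]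
    have hi := M.index_mul_card
    rw [hc, Nat.card_perm, Nat.card_eq_fintype_card (α := Fin 6), Fintype.card_fin] at hi
    obtain ⟨m, hm⟩ := h120
    rw [hm] at hi
    have hi6 : M.index * m = 6 := by
      simp only [Nat.factorial] at hi
      nlinarith
    have h1 : M.index ≠ 1 := fun h1 => hLG' (le_antisymm hLG (hGe ▸ H97.pull_le_pull.2 fun g hg => by
      have : χ ⟨g, hg⟩ ∈ M := Subgroup.index_eq_one.1 h1 ▸ Subgroup.mem_top _
      exact Subgroup.mem_subgroupOf.1 ((Subgroup.mem_map_iff_mem χ.injective).1 this)))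
    have h3 : M.index ≠ 3 := fun h3 => by
      have hd : M.normalCore.index ∣ M.index.factorial := by
        rw [Subgroup.normalCore_eq_ker, Subgroup.index_ker, Subgroup.index_eq_card, ← Nat.card_perm]
        exact Subgroup.card_subgroup_dvd_card _
      have hnt : Nontrivial M.normalCore := by
        rw [Subgroup.nontrivial_iff_ne_bot]
        intro e0
        rw [e0, Subgroup.index_bot, h3, Nat.card_perm, Nat.card_eq_fintype_card,
          Fintype.card_fin] at hd
        exact absurd hd (by decide)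
      have := Subgroup.index_dvd_of_le
        ((Equiv.Perm.alternatingGroup_le_of_normal (by simp) hnt).trans M.normalCore_le)
      rw [h3, alternatingGroup.index_eq_two] at this
      exact absurd this (by decide)
    have h26 : M.index = 2 ∨ M.index = 6 := by
      have key : ∀ k : ℕ, k ∣ 6 → k ≠ 1 → k ≠ 3 → k = 2 ∨ k = 6 := fun k hd h1 h3 => by
        have := Nat.le_of_dvd (by norm_num) hd
        interval_cases k <;> simp_all
      exact key _ (Dvd.intro _ hi6) h1 h3
    rcases h26 with h | h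
    · exact Or.inl ⟨eL.trans (MulEquiv.subgroupCongr
        (Equiv.Perm.eq_alternatingGroup_of_index_eq_two h))⟩
    · obtain ⟨e5⟩ := Cfsg.Agent.S5945.result.2.1 M h
      exact Or.inr ⟨eL.trans e5⟩

end Cfsg.Agent.S5712
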