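import Cfsg.Statements.S5729
import Mathlib


set_option autoImplicit false
open Cfsg

namespace Cfsg.Agent.S5729


/-- Let a finite group G act faithfully and transitively on a set with n ≥ 3 points. Then either G is a Frobenius permutation group (Frobenius as a permutation group: transitive, some non-identity element fixes a point, and no non-identity element fixes two points) of order n(n − 1) and exactly |G|/n of its elements are derangements (fix no point), or the number of derangements is greater than |G|/n. -/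
theorem result {G Ω : Type*} [Group G] [Finite G] [MulAction G Ω] [FaithfulSMul G Ω] [Fintype Ω] (htr : MulAction.IsPretransitive G Ω) (hn : 3 ≤ Fintype.card Ω) :
    ((MulAction.IsPretransitive G Ω ∧ (∃ g : G, g ≠ 1 ∧ ∃ ω : Ω, g • ω = ω) ∧ ∀ g : G, g ≠ 1 → Nat.card (MulAction.fixedBy Ω g) ≤ 1) ∧ Nat.card G = Fintype.card Ω * (Fintype.card Ω - 1) ∧ Fintype.card Ω * Nat.card {g : G // ∀ ω : Ω, g • ω ≠ ω} = Nat.card G) ∨
    Nat.card G < Fintype.card Ω * Nat.card {g : G // ∀ ω : Ω, g • ω ≠ ω} := by
  classical
  have := Fintype.ofFinite G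
  set n := Fintype.card Ω with hn_def
  let f : G → ℕ := fun g => Nat.card (MulAction.fixedBy Ω g)
  have hnt : Nontrivial Ω := Fintype.one_lt_card_iff_nontrivial.1 (by omega)
  have h1 : ∑ g, f g = Fintype.card G := by
    have h := MulAction.sum_card_fixedBy_eq_card_orbits_mul_card_group G Ω
    have hq : Fintype.card (MulAction.orbitRel.Quotient G Ω) = 1 := by
      rw [Fintype.card_eq_one_iff_nonempty_unique]
      exact (MulAction.pretransitive_iff_unique_quotient_of_nonempty G Ω).1 htr
    rw [hq, one_mul] at h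
    rw [← h]
    exact Finset.sum_congr rfl fun g _ => Nat.card_eq_fintype_card
  have h2 : 2 * Fintype.card G ≤ ∑ g, f g ^ 2 := by
    have h := MulAction.sum_card_fixedBy_eq_card_orbits_mul_card_group G (Ω × Ω)
    have hq : 2 ≤ Fintype.card (MulAction.orbitRel.Quotient G (Ω × Ω)) := by
      obtain ⟨a, b, hab⟩ := exists_pair_ne Ω
      apply Fintype.one_lt_card_iff.2
      refine ⟨Quotient.mk _ (a, b), Quotient.mk _ (a, a), fun h => ?_⟩
      obtain ⟨g, hg⟩ := MulAction.orbitRel_apply.1 (Quotient.exact h)
      simp only [Prod.smul_mk, Prod.mk.injEq] at hg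
      exact hab (hg.1.symm.trans hg.2)
    have h3 : ∑ g, f g ^ 2 = ∑ g : G, Fintype.card (MulAction.fixedBy (Ω × Ω) g) := by
      refine Finset.sum_congr rfl fun g _ => ?_
      rw [← Nat.card_eq_fintype_card, pow_two, ← Nat.card_prod]
      refine Nat.card_congr ⟨fun x => ⟨(x.1.1, x.2.1), ?_⟩, fun y => (⟨y.1.1, ?_⟩, ⟨y.1.2, ?_⟩), fun x => rfl, fun y => rfl⟩
      · exact Prod.ext x.1.2 x.2.2
      · exact congrArg Prod.fst y.2
      · exact congrArg Prod.snd y.2
    rw [h3, h]
    exact Nat.mul_le_mul_right _ hq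
  have hle : ∀ g, f g ≤ n := fun g => by
    simp only [f, hn_def]
    rw [← Nat.card_eq_fintype_card]
    exact Nat.card_le_card_of_injective _ Subtype.val_injective
  have hf1 : f 1 = n := by
    simp only [f, hn_def, MulAction.fixedBy_one_eq_univ]
    rw [Nat.card_univ, Nat.card_eq_fintype_card]
  have hfn : ∀ g, f g = n → g = 1 := by
    intro g hg
    apply FaithfulSMul.eq_of_smul_eq_smul (α := Ω)
    intro ω
    have h4 : MulAction.fixedBy Ω g = Set.univ := by
      apply Set.eq_of_subset_of_ncard_le (Set.subset_univ _)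
      rw [Set.ncard_univ, Nat.card_eq_fintype_card, ← hn_def, ← hg]
      exact le_of_eq (Nat.card_coe_set_eq _)
    have : ω ∈ MulAction.fixedBy Ω g := by rw [h4]; trivial
    rw [one_smul]; exact this
  have hf0 : ∀ g, f g = 0 ↔ ∀ ω : Ω, g • ω ≠ ω := by
    intro g
    simp only [f]
    rw [Nat.card_eq_zero]
    constructor
    · rintro (h | h) ω hω
      · exact h.false ⟨ω, hω⟩
      · exact not_finite (MulAction.fixedBy Ω g)
    · intro h
      exact Or.inl ⟨fun x => h x.1 x.2⟩
  set D := Nat.card {g : G // ∀ ω : Ω, g • ω ≠ ω} with hD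
  have hD' : D = (Finset.univ.filter fun g => f g = 0).card := by
    rw [hD, Nat.card_eq_fintype_card, Fintype.card_subtype]
    congr 1
    ext g
    simp [hf0]
  -- t g = n·[f g = 0] - (f g - 1)(f g - n) ≥ 0
  let t : G → ℤ := fun g => (if f g = 0 then (n : ℤ) else 0) - ((f g : ℤ) - 1) * ((f g : ℤ) - n)
  have ht : ∀ g, 0 ≤ t g := by
    intro g
    simp only [t]
    split_ifs with h
    · rw [h]; simp
    · have : (1 : ℤ) ≤ f g := by exact_mod_cast Nat.one_le_iff_ne_zero.2 h
      have : (f g : ℤ) ≤ n := by exact_mod_cast hle g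
      nlinarith
  have hsum : ∑ g, t g = (n : ℤ) * D - ((∑ g, f g ^ 2 : ℕ) - (n + 1) * (∑ g, f g : ℕ) + n * Fintype.card G) := by
    simp only [t]
    rw [Finset.sum_sub_distrib, ← Finset.sum_filter, Finset.sum_const, ← hD']
    congr 1
    · simp [mul_comm]
    · push_cast
      rw [Finset.mul_sum, ← Finset.sum_sub_distrib, ← Finset.card_univ, mul_comm (n : ℤ), ← nsmul_eq_mul,
        ← Finset.sum_const, ← Finset.sum_add_distrib]
      exact Finset.sum_congr rfl fun g _ => by ring
  rw [Nat.card_eq_fintype_card]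
  by_cases hlt : Fintype.card G < n * D
  · exact Or.inr hlt
  left
  have hsum0 : 0 ≤ ∑ g, t g := Finset.sum_nonneg fun g _ => ht g
  rw [h1] at hsum
  have h2' : (2 : ℤ) * Fintype.card G ≤ (∑ g, f g ^ 2 : ℕ) := by exact_mod_cast h2
  have hlt' : (n : ℤ) * D ≤ Fintype.card G := by exact_mod_cast not_lt.1 hlt
  have heq : (n : ℤ) * D = Fintype.card G := by nlinarith
  have hz : ∑ g, t g = 0 := by nlinarith
  have hz' := (Finset.sum_eq_zero_iff_of_nonneg fun g _ => ht g).1 hz
  have hle1 : ∀ g, g ≠ 1 → f g ≤ 1 := by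
    intro g hg
    have h := hz' g (Finset.mem_univ g)
    simp only [t] at h
    split_ifs at h with h0
    · omega
    · have h5 : ((f g : ℤ) - 1) * ((f g : ℤ) - n) = 0 := by linarith
      rcases mul_eq_zero.1 h5 with h6 | h6
      · omega
      · exact absurd (hfn g (by omega)) hg
  -- count: D = n - 1
  have hDn : D + 1 = n := by
    have h7 : ∑ g, ((f g : ℤ) + (if f g = 0 then 1 else 0)) = ∑ g : G, (1 + if g = 1 then (n : ℤ) - 1 else 0) := by
      refine Finset.sum_congr rfl fun g _ => ?_
      by_cases hg : g = 1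
      · subst hg
        rw [hf1, if_neg (by omega), if_pos rfl]; ring
      · have := hle1 g hg
        rw [if_neg hg]
        split_ifs with h0 <;> omega
    rw [Finset.sum_add_distrib, Finset.sum_add_distrib, ← Finset.sum_filter, Finset.sum_const, ← hD',
      Finset.sum_ite_eq' Finset.univ (1 : G), if_pos (Finset.mem_univ _), ← Nat.cast_sum, h1] at h7
    simp at h7
    omega
  have heq' : n * D = Fintype.card G := by exact_mod_cast heq
  refine ⟨⟨htr, ?_, hle1⟩, ?_, heq'⟩
  · by_contra hcon
    push Not at hcon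
    have h8 : Finset.univ.erase (1 : G) ⊆ Finset.univ.filter fun g => f g = 0 := by
      intro g hg
      simp only [Finset.mem_filter, Finset.mem_univ, true_and]
      exact (hf0 g).2 (hcon g (Finset.ne_of_mem_erase hg))
    have h9 := Finset.card_le_card h8
    rw [← hD', Finset.card_erase_of_mem (Finset.mem_univ _), Finset.card_univ, ← heq'] at h9
    have : 2 ≤ D := by omega
    have : 3 * D ≤ n * D := Nat.mul_le_mul_right _ hn
    omega
  · rw [← heq']
    congr 1
    omega

end Cfsg.Agent.S5729
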