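import Mathlib
import Cfsg.Statements.S5730
import Cfsg.Agent.Lib.Perm.Der2B

set_option autoImplicit false
open Cfsg

namespace Cfsg.Agent.S5730

open MulAction H26.Der2


/-- Let a finite group G act faithfully and transitively on a set with n ≥ 7 points. Then either G is a Frobenius permutation group (Frobenius as a permutation group: transitive, some non-identity element fixes a point, and no non-identity element fixes two points) of order n(n − 1)/a with a ∈ {1, 2}, in which case exactly a|G|/n of its elements are derangements, or the number of derangements is at least 2|G|/n. (Equality does occur: PSL₃(2) acting on the 7 points of the Fano plane has exactly 2|G|/7 derangements.) -/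
theorem result {G Ω : Type*} [Group G] [Finite G] [MulAction G Ω] [FaithfulSMul G Ω] [Fintype Ω] (htr : MulAction.IsPretransitive G Ω) (hn : 7 ≤ Fintype.card Ω) :
    (∃ a : ℕ, (a = 1 ∨ a = 2) ∧ (MulAction.IsPretransitive G Ω ∧ (∃ g : G, g ≠ 1 ∧ ∃ ω : Ω, g • ω = ω) ∧ ∀ g : G, g ≠ 1 → Nat.card (MulAction.fixedBy Ω g) ≤ 1) ∧ a * Nat.card G = Fintype.card Ω * (Fintype.card Ω - 1) ∧ Fintype.card Ω * Nat.card {g : G // ∀ ω : Ω, g • ω ≠ ω} = a * Nat.card G) ∨
    2 * Nat.card G ≤ Fintype.card Ω * Nat.card {g : G // ∀ ω : Ω, g • ω ≠ ω} := by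
  classical
  haveI := Fintype.ofFinite G
  haveI : Nontrivial Ω := Fintype.one_lt_card_iff_nontrivial.1 (by omega)
  obtain ⟨a, b, hab⟩ := exists_pair_ne Ω
  have hid := identity (G := G) (Ω := Ω) htr
  have hE : 0 ≤ ∑ g : G, (fx Ω g : ℚ) * (fx Ω g - 1) * (Fintype.card Ω / fx Ω g - 1) :=
    Finset.sum_nonneg fun g _ => term_nonneg g
  have hGpos : (0 : ℚ) < Nat.card G := by exact_mod_cast Nat.card_pos
  have hq : ∀ p p' : Ω × Ω, (Quotient.mk _ p : orbitRel.Quotient G (Ω × Ω)) = Quotient.mk _ p' ↔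
      ∃ g : G, g • p' = p := fun p p' => Quotient.eq
  have hne : ∀ x y : Ω, x ≠ y →
      (Quotient.mk _ (x, y) : orbitRel.Quotient G (Ω × Ω)) ≠ Quotient.mk _ (a, a) := fun x y h e => by
    obtain ⟨g, hg⟩ := (hq _ _).1 e
    obtain ⟨rfl, rfl⟩ := Prod.ext_iff.1 hg
    exact h rfl
  by_cases h2 : IsMultiplyPretransitive G Ω 2
  swap
  · right
    have h3 : 3 ≤ Nat.card (orbitRel.Quotient G (Ω × Ω)) := by
      rw [is_two_pretransitive_iff] at h2
      push Not at h2
      obtain ⟨x, y, z, w, h1, h3, h4⟩ := h2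
      haveI := Fintype.ofFinite (orbitRel.Quotient G (Ω × Ω))
      rw [Nat.card_eq_fintype_card, Nat.succ_le_iff, Fintype.two_lt_card_iff]
      refine ⟨_, _, _, (hne x y h1).symm, (hne z w h3).symm, fun e => ?_⟩
      obtain ⟨g, hg⟩ := (hq _ _).1 e.symm
      obtain ⟨e1, e2⟩ := Prod.ext_iff.1 hg
      exact h4 g e1 e2
    have h4 : (3 : ℚ) ≤ Nat.card (orbitRel.Quotient G (Ω × Ω)) := by exact_mod_cast h3
    have : (2 * Nat.card G : ℚ) ≤ Fintype.card Ω * Nat.card {g : G // ∀ ω : Ω, g • ω ≠ ω} := by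
      rw [hid]; nlinarith
    exact_mod_cast this
  have hr : Nat.card (orbitRel.Quotient G (Ω × Ω)) = 2 := by
    rw [Nat.card_eq_two_iff]
    refine ⟨_, _, hne a b hab, Set.eq_univ_of_forall fun q => ?_⟩
    obtain ⟨⟨x, y⟩, rfl⟩ := Quotient.exists_rep q
    by_cases e : x = y
    · subst e
      obtain ⟨g, rfl⟩ := htr.exists_smul_eq a x
      exact Or.inr ((hq _ _).2 ⟨g, rfl⟩)
    · obtain ⟨g, rfl, rfl⟩ := is_two_pretransitive_iff.1 h2 hab e
      exact Or.inl ((hq _ _).2 ⟨g, rfl⟩)
  haveI := Fintype.ofFinite (St G a b)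
  have hG := card_G h2 hab
  rw [hr, sum_pairs h2 hab _ (fun g k => by rw [fx_conj]), Finset.sum_sub_distrib, Finset.sum_const,
    Finset.card_univ, ← Nat.card_eq_fintype_card (α := St G a b), nsmul_eq_mul, mul_one] at hid
  have hn' : (7 : ℚ) ≤ Fintype.card Ω := by exact_mod_cast hn
  by_cases hm : St G a b = ⊥
  · left
    have hm1 : Nat.card (St G a b) = 1 := by rw [hm, Subgroup.card_bot]
    refine ⟨1, Or.inl rfl, ⟨htr, ?_, fun g hg => ?_⟩, by rw [hG, hm1]; ring, ?_⟩
    · obtain ⟨c, hc⟩ : ∃ c, c ∉ ({a, b} : Finset Ω) := by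
        by_contra hc
        push Not at hc
        have := Finset.card_pair hab
        rw [Finset.eq_univ_of_forall hc, Finset.card_univ] at this
        omega
      simp only [Finset.mem_insert, Finset.mem_singleton, not_or] at hc
      obtain ⟨g, e1, e2⟩ := is_two_pretransitive_iff.1 h2 hab (Ne.symm hc.1)
      exact ⟨g, by rintro rfl; exact hc.2 (by simpa using e2.symm), a, e1⟩
    · rw [Finite.card_le_one_iff_subsingleton]
      refine ⟨fun x y => Subtype.ext ?_⟩
      by_contra hxy
      have := card_St h2 hab hxy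
      rw [hm1] at this
      have h3 : g ∈ St G x.1 y.1 := ⟨x.2, y.2⟩
      rw [Subgroup.eq_bot_of_card_eq _ this] at h3
      exact hg h3
    · haveI : Subsingleton (St G a b) := (Nat.card_eq_one_iff_unique.1 hm1).1
      rw [Fintype.sum_subsingleton _ 1, Subgroup.coe_one, fx_one, div_self (by linarith), hm1] at hid
      have : (Fintype.card Ω * Nat.card {g : G // ∀ ω : Ω, g • ω ≠ ω} : ℚ) = 1 * Nat.card G := by
        rw [hid]; push_cast; ring
      exact_mod_cast this
  · right
    have h3 := ineq h2 hn hab hm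
    have hG' : (Nat.card G : ℚ) = Fintype.card Ω * (Fintype.card Ω - 1) * Nat.card (St G a b) := by
      rw [hG]; push_cast [Nat.cast_sub (show 1 ≤ Fintype.card Ω by omega)]; ring
    have h4 : (0 : ℚ) ≤ Fintype.card Ω * (Fintype.card Ω - 1) := by nlinarith
    have : (2 * Nat.card G : ℚ) ≤ Fintype.card Ω * Nat.card {g : G // ∀ ω : Ω, g • ω ≠ ω} := by
      rw [hid, hG']
      have := mul_le_mul_of_nonneg_left h3 h4
      push_cast
      nlinarith
    exact_mod_cast this

end Cfsg.Agent.S5730
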