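import Cfsg.Statements.S5738
import Mathlib


set_option autoImplicit false
open Cfsg

namespace Cfsg.Agent.S5738

theorem mem_norm_iff {F K : Type*} [Field F] [Field K] [Algebra F K] (g : (Module.End F K)ˣ) :
    g ∈ Subgroup.normalizer (((Units.map ((Algebra.lmul F K : K →ₐ[F] Module.End F K) : K →* Module.End F K)).range : Subgroup (Module.End F K)ˣ) : Set (Module.End F K)ˣ) ↔
    ∃ (φ : K ≃ₐ[F] K) (c : Kˣ), ∀ x, (g : Module.End F K) x = c * φ x := by
  have hinv : ∀ x, ((g⁻¹ : (Module.End F K)ˣ) : Module.End F K) ((g : Module.End F K) x) = x := by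
    intro x
    rw [← Module.End.mul_apply, Units.inv_mul]; rfl
  have hinv' : ∀ x, (g : Module.End F K) (((g⁻¹ : (Module.End F K)ˣ) : Module.End F K) x) = x := by
    intro x
    rw [← Module.End.mul_apply, Units.mul_inv]; rfl
  constructor
  · intro h
    rw [Subgroup.mem_normalizer_iff] at h
    have h1 : (g : Module.End F K) 1 ≠ 0 := by
      intro h0
      have h2 := hinv 1
      rw [h0, map_zero] at h2
      exact zero_ne_one h2
    have key : ∀ a b : K, (g : Module.End F K) (a * b) * (g : Module.End F K) 1 =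
        (g : Module.End F K) a * (g : Module.End F K) b := by
      intro a b
      by_cases ha : a = 0
      · simp [ha]
      obtain ⟨s, hs⟩ := (h _).1 ⟨Units.mk0 a ha, rfl⟩
      have h3 : ∀ y, (s : K) * (g : Module.End F K) y = (g : Module.End F K) (a * y) := by
        intro y
        have := congrArg (fun u : (Module.End F K)ˣ => (u : Module.End F K) ((g : Module.End F K) y)) hs
        simpa [hinv] using this
      have h4 := h3 1
      rw [mul_one] at h4
      rw [← h3 b, ← h4]; ring
    let ψ : K →ₗ[F] K := (Algebra.lmul F K ((g : Module.End F K) 1)⁻¹) ∘ₗ (g : Module.End F K)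
    have hψ : ∀ x, ψ x = ((g : Module.End F K) 1)⁻¹ * (g : Module.End F K) x := fun x => rfl
    let φ₀ : K →ₐ[F] K := AlgHom.ofLinearMap ψ (by rw [hψ, inv_mul_cancel₀ h1]) (by
      intro a b
      rw [hψ, hψ, hψ]
      field_simp
      rw [mul_comm]; exact key a b)
    have hbij : Function.Bijective φ₀ := by
      refine ⟨φ₀.injective, fun y => ⟨((g⁻¹ : (Module.End F K)ˣ) : Module.End F K) ((g : Module.End F K) 1 * y), ?_⟩⟩
      change ψ _ = y
      rw [hψ, hinv', ← mul_assoc, inv_mul_cancel₀ h1, one_mul]
    refine ⟨AlgEquiv.ofBijective φ₀ hbij, Units.mk0 _ h1, fun x => ?_⟩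
    change _ = (g : Module.End F K) 1 * ψ x
    rw [hψ, ← mul_assoc, mul_inv_cancel₀ h1, one_mul]
  · rintro ⟨φ, c, h⟩
    have h' : ∀ x, ((g⁻¹ : (Module.End F K)ˣ) : Module.End F K) x = φ.symm ((c : K)⁻¹ * x) := by
      intro x
      conv_lhs => rw [show x = (g : Module.End F K) (φ.symm ((c : K)⁻¹ * x)) by
        rw [h, AlgEquiv.apply_symm_apply, ← mul_assoc, mul_inv_cancel₀ c.ne_zero, one_mul]]
      rw [hinv]
    rw [Subgroup.mem_normalizer_iff]
    intro u
    constructor
    · rintro ⟨a, rfl⟩
      refine ⟨Units.map (φ : K →* K) a, ?_⟩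
      ext x
      simp only [Units.coe_map, MonoidHom.coe_coe, Algebra.coe_lmul_eq_mul, LinearMap.mul_apply',
        Units.val_mul, Module.End.mul_apply, h, h', map_mul, AlgEquiv.apply_symm_apply]
      field_simp
    · rintro ⟨a, ha⟩
      refine ⟨Units.map (φ.symm : K →* K) a, ?_⟩
      have : u = g⁻¹ * (g * u * g⁻¹) * g := by group
      rw [this, ← ha]
      ext x
      simp only [Units.coe_map, MonoidHom.coe_coe, Algebra.coe_lmul_eq_mul, LinearMap.mul_apply',
        Units.val_mul, Module.End.mul_apply, h, h', map_mul, AlgEquiv.symm_apply_apply, map_inv₀]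
      have : φ.symm (c : K) ≠ 0 := by simp
      field_simp


/-- Let F ⊆ K be finite fields with |F| = q and [K : F] = n ≥ 2, so |K| = q^n. Regard K as an n-dimensional F-vector space; the multiplications by non-zero elements of K form a cyclic subgroup of GL_F(K) of order q^n − 1 acting regularly on the non-zero vectors (a Singer group). Its normaliser in GL_F(K) has order n·(q^n − 1). -/
theorem result {F K : Type*} [Field F] [Fintype F] [Field K] [Fintype K] [Algebra F K] (n : ℕ) (hn : 2 ≤ n) (hdim : Module.finrank F K = n) :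
    Nat.card (Subgroup.normalizer (((Units.map ((Algebra.lmul F K : K →ₐ[F] Module.End F K) : K →* Module.End F K)).range : Subgroup (Module.End F K)ˣ) : Set (Module.End F K)ˣ)) = n * (Fintype.card K - 1) := by
  classical
  have hfd : FiniteDimensional F K := Module.Finite.of_finite
  let e : (K ≃ₐ[F] K) × Kˣ → (Module.End F K)ˣ := fun x =>
    Units.map ((Algebra.lmul F K : K →ₐ[F] Module.End F K) : K →* Module.End F K) x.2 *
      LinearMap.GeneralLinearGroup.ofLinearEquiv x.1.toLinearEquiv
  have he : ∀ x y, (e x : Module.End F K) y = x.2 * x.1 y := fun x y => rfl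
  let e' : (K ≃ₐ[F] K) × Kˣ → Subgroup.normalizer (((Units.map ((Algebra.lmul F K : K →ₐ[F] Module.End F K) : K →* Module.End F K)).range : Subgroup (Module.End F K)ˣ) : Set (Module.End F K)ˣ) :=
    fun x => ⟨e x, (mem_norm_iff _).2 ⟨x.1, x.2, he x⟩⟩
  have hbij : Function.Bijective e' := by
    constructor
    · rintro ⟨φ, c⟩ ⟨ψ, d⟩ h
      have h1 : ∀ y, (c : K) * φ y = d * ψ y := fun y =>
        congrArg (fun u : (Module.End F K)ˣ => (u : Module.End F K) y) (congrArg Subtype.val h)
      have h2 : c = d := by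
        ext; simpa using h1 1
      subst h2
      congr 1
      ext y
      exact mul_left_cancel₀ c.ne_zero (h1 y)
    · rintro ⟨g, hg⟩
      obtain ⟨φ, c, h⟩ := (mem_norm_iff g).1 hg
      refine ⟨(φ, c), Subtype.ext ?_⟩
      ext y
      exact (h y).symm
  rw [← Nat.card_congr (Equiv.ofBijective e' hbij), Nat.card_prod, IsGalois.card_aut_eq_finrank, hdim,
    Nat.card_units, Nat.card_eq_fintype_card]

end Cfsg.Agent.S5738
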