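import Cfsg.Statements.S5739
import Mathlib


set_option autoImplicit false
open Cfsg

namespace Cfsg.Agent.S5739


/-- Let F ⊆ K be finite fields with |F| = q and [K : F] = n ≥ 2, and let M ≤ GL_F(K) be the Singer group of multiplications by non-zero elements of K. If g ∈ GL_F(K) does not normalise M, then the order of M ∩ gMg⁻¹ divides q^r − 1 for some proper divisor r of n. In particular, when n is prime, that order divides q − 1. -/
theorem result {F K : Type*} [Field F] [Fintype F] [Field K] [Fintype K] [Algebra F K] (n : ℕ) (hn : 2 ≤ n) (hdim : Module.finrank F K = n)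
    (g : (Module.End F K)ˣ) (hg : ((Units.map ((Algebra.lmul F K : K →ₐ[F] Module.End F K) : K →* Module.End F K)).range).map (MulAut.conj g).toMonoidHom ≠ (Units.map ((Algebra.lmul F K : K →ₐ[F] Module.End F K) : K →* Module.End F K)).range) :
    ∃ r : ℕ, 1 ≤ r ∧ r ∣ n ∧ r < n ∧ Nat.card ↥(((Units.map ((Algebra.lmul F K : K →ₐ[F] Module.End F K) : K →* Module.End F K)).range).map (MulAut.conj g).toMonoidHom ⊓ (Units.map ((Algebra.lmul F K : K →ₐ[F] Module.End F K) : K →* Module.End F K)).range) ∣ Fintype.card F ^ r - 1 := by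
  classical
  have hfd : FiniteDimensional F K := Module.Finite.of_finite
  set L := Units.map ((Algebra.lmul F K : K →ₐ[F] Module.End F K) : K →* Module.End F K) with hL
  let S₀ : Subalgebra F K :=
    { carrier := {a | ∃ b : K, Algebra.lmul F K a = (g : Module.End F K) * Algebra.lmul F K b * ((g⁻¹ : (Module.End F K)ˣ) : Module.End F K)}
      mul_mem' := by
        rintro a a' ⟨b, hb⟩ ⟨b', hb'⟩
        refine ⟨b * b', ?_⟩
        rw [map_mul, map_mul, hb, hb']
        simp only [mul_assoc, Units.inv_mul_cancel_left]
      add_mem' := by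
        rintro a a' ⟨b, hb⟩ ⟨b', hb'⟩
        refine ⟨b + b', ?_⟩
        rw [map_add, map_add, hb, hb', mul_add, add_mul]
      algebraMap_mem' := by
        intro r
        refine ⟨algebraMap F K r, ?_⟩
        rw [AlgHom.commutes, ← Algebra.commutes, mul_assoc, Units.mul_inv, mul_one] }
  let S : IntermediateField F K := Subalgebra.IsAlgebraic.toIntermediateField (S := S₀)
    (fun x _ => Algebra.IsAlgebraic.isAlgebraic x)
  have hS : ∀ a, a ∈ S ↔ ∃ b : K, Algebra.lmul F K a = (g : Module.End F K) * Algebra.lmul F K b * ((g⁻¹ : (Module.End F K)ˣ) : Module.End F K) :=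
    fun a => Iff.rfl
  have hmul := Module.finrank_mul_finrank F S K
  have hne : S ≠ ⊤ := by
    intro htop
    apply hg
    symm
    have hfin : Finite (Module.End F K)ˣ := by
      have : Finite (Module.End F K) := Finite.of_injective (fun f : Module.End F K => (f : K → K)) DFunLike.coe_injective
      infer_instance
    apply Subgroup.eq_of_le_of_card_ge
    · rintro _ ⟨a, rfl⟩
      obtain ⟨b, hb⟩ := (hS a).1 (htop ▸ IntermediateField.mem_top)
      have hb0 : b ≠ 0 := by
        rintro rfl
        have := congrArg (fun f : Module.End F K => f 1) hb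
        simp at this
      refine ⟨L (Units.mk0 b hb0), ⟨_, rfl⟩, ?_⟩
      ext x
      exact (congrArg (fun f : Module.End F K => f x) hb).symm
    · exact le_of_eq (Subgroup.card_map_of_injective (MulAut.conj g).injective)
  refine ⟨Module.finrank F S, Module.finrank_pos, ⟨_, by rw [← hdim, ← hmul]⟩, ?_, ?_⟩
  · have h1 : Module.finrank S K ≠ 1 := fun h => hne (IntermediateField.finrank_eq_one_iff_eq_top.1 h)
    have h2 : 0 < Module.finrank S K := Module.finrank_pos
    have h3 : 0 < Module.finrank F S := Module.finrank_pos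
    rw [← hdim, ← hmul]
    exact (Nat.lt_mul_iff_one_lt_right h3).2 (by omega)
  · have hc : IsCyclic L.range := isCyclic_of_surjective L.rangeRestrict L.rangeRestrict_surjective
    have hc' : IsCyclic ↥(L.range.map (MulAut.conj g).toMonoidHom ⊓ L.range) :=
      Subgroup.isCyclic_of_le inf_le_right
    rw [← IsCyclic.exponent_eq_card]
    apply Monoid.exponent_dvd_of_forall_pow_eq_one
    rintro ⟨x, ⟨_, ⟨b, rfl⟩, hb⟩, a, rfl⟩
    have ha : (a : K) ∈ S := (hS a).2 ⟨b, (congrArg Units.val hb).symm⟩
    have := Fintype.ofFinite S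
    have h4 := FiniteField.pow_card_sub_one_eq_one (⟨a, ha⟩ : S) (fun h => a.ne_zero (congrArg Subtype.val h))
    rw [Module.card_eq_pow_finrank (K := F)] at h4
    have h5 : a ^ (Fintype.card F ^ Module.finrank F S - 1) = 1 := by
      ext
      simpa using congrArg Subtype.val h4
    ext : 1
    change L a ^ _ = 1
    rw [← map_pow, h5, map_one]

end Cfsg.Agent.S5739
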