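import Cfsg.Statements.S5746
import Mathlib
import Cfsg.Agent.Lib.Small30.G24J2
import Cfsg.Agent.Lib.SuzSp.G24

set_option autoImplicit false
open Cfsg

namespace Cfsg.Agent.S5746

theorem transfer {G G' : Type*} [Group G] [Group G'] (e : G ≃* G') (H : Subgroup G)
    (h : ∀ x : G, x ∉ H → IsCoatom ((H ⊓ H.map (MulAut.conj x).toMonoidHom).subgroupOf H))
    (x : G') (hx : x ∉ H.map e.toMonoidHom) :
    IsCoatom ((H.map e.toMonoidHom ⊓ (H.map e.toMonoidHom).map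
      (MulAut.conj x).toMonoidHom).subgroupOf (H.map e.toMonoidHom)) := by
  obtain ⟨x, rfl⟩ := e.surjective x
  have h1 := ((e.subgroupMap H).mapSubgroup.isCoatom_iff _).2 (h x fun hh => hx ⟨x, hh, rfl⟩)
  refine (congrArg IsCoatom (Subgroup.ext ?_)).mpr h1
  rintro ⟨_, g, hg, rfl⟩
  constructor
  · rintro ⟨_, _, ⟨u, hu, rfl⟩, e1⟩
    refine ⟨⟨g, hg⟩, ⟨hg, u, hu, e.injective ?_⟩, rfl⟩
    have e2 : e x * e u * (e x)⁻¹ = e g := e1
    show e (x * u * x⁻¹) = e g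
    rw [map_mul, map_mul, map_inv, e2]
  · rintro ⟨⟨g', hg'⟩, ⟨_, u, hu, e1⟩, e2⟩
    have e3 : e g' = e g := congrArg Subtype.val e2
    refine ⟨⟨g, hg, rfl⟩, _, ⟨u, hu, rfl⟩, ?_⟩
    have e4 : x * u * x⁻¹ = g' := e1
    show e x * e u * (e x)⁻¹ = e g
    rw [← e3, ← e4, map_mul, map_mul, map_inv]

/-- The Chevalley group G₂(4) (over the field with 4 elements) has a maximal subgroup H isomorphic to the Hall–Janko group J₂ such that for every x outside H the intersection H ∩ xHx⁻¹ is a maximal subgroup of H; that is, the action of G₂(4) on the cosets of H is extremely primitive. -/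
theorem result {F : Type*} [Field F] [Fintype F] (hF : Fintype.card F = 4) :
    ∃ H : Subgroup (Cfsg.Lie.chevG2.group F), IsCoatom H ∧ Cfsg.Spor.IsoJ2 H ∧
      ∀ x : Cfsg.Lie.chevG2.group F, x ∉ H → IsCoatom ((H ⊓ H.map (MulAut.conj x).toMonoidHom).subgroupOf H) := by
  obtain ⟨e0⟩ := H40.G24.nonempty_equiv H30.F4 H30.F4.card_eq
  obtain ⟨f⟩ := H30.F4.nonempty_ringEquiv hF
  have e := e0.trans (H37.tabG2.fieldEquiv f.symm)
  obtain ⟨H, h1, ⟨f'⟩, h3⟩ := H30.GJ.main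
  exact ⟨H.map e.toMonoidHom, (e.mapSubgroup.isCoatom_iff _).2 h1,
    ⟨(e.subgroupMap H).symm.trans f'⟩, transfer e H h3⟩

end Cfsg.Agent.S5746
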