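import Cfsg.Statements.S5747
import Mathlib


set_option autoImplicit false
open Cfsg

namespace Cfsg.Agent.S5747

section aux
variable {G Ω : Type*} [Group G] [MulAction G Ω]

/-- irredundant base of a subgroup, as a list -/
inductive IB : Subgroup G → List Ω → Prop
  | nil : IB ⊥ []
  | cons (H : Subgroup G) (x : Ω) (l : List Ω) (h : ∃ g ∈ H, g • x ≠ x)
      (hl : IB (H ⊓ MulAction.stabilizer G x) l) : IB H (x :: l)

theorem ib_nil_iff (H : Subgroup G) : IB H ([] : List Ω) ↔ H = ⊥ := by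
  constructor
  · intro h; cases h; rfl
  · rintro rfl; exact IB.nil

theorem ib_cons_iff (H : Subgroup G) (x : Ω) (l : List Ω) :
    IB H (x :: l) ↔ (∃ g ∈ H, g • x ≠ x) ∧ IB (H ⊓ MulAction.stabilizer G x) l := by
  constructor
  · intro h; cases h with | cons _ _ _ h hl => exact ⟨h, hl⟩
  · rintro ⟨h, hl⟩; exact IB.cons H x l h hl

theorem ib_ofFn_iff (t : ℕ) : ∀ (H : Subgroup G) (f : Fin t → Ω), IB H (List.ofFn f) ↔
    ((∀ g ∈ H, (∀ i : Fin t, g • f i = f i) → g = 1) ∧
      ∀ i : Fin t, ∃ g ∈ H, (∀ j : Fin t, j < i → g • f j = f j) ∧ g • f i ≠ f i) := by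
  induction t with
  | zero =>
    intro H f
    simp [ib_nil_iff, Subgroup.eq_bot_iff_forall]
  | succ t ih =>
    intro H f
    rw [List.ofFn_succ, ib_cons_iff, ih]
    constructor
    · rintro ⟨⟨g0, hg0, hg0'⟩, h1, h2⟩
      refine ⟨fun g hg hfix => h1 g ⟨hg, hfix 0⟩ fun i => hfix _, fun i => ?_⟩
      refine Fin.cases ?_ (fun i => ?_) i
      · exact ⟨g0, hg0, fun j hj => absurd hj (Fin.not_lt_zero j), hg0'⟩
      · obtain ⟨g, hg, h3, h4⟩ := h2 i
        refine ⟨g, hg.1, fun j => ?_, h4⟩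
        refine Fin.cases (fun _ => hg.2) (fun j hj => h3 j (Fin.succ_lt_succ_iff.1 hj)) j
    · rintro ⟨h1, h2⟩
      refine ⟨?_, fun g hg hfix => h1 g hg.1 fun i => ?_, fun i => ?_⟩
      · obtain ⟨g, hg, -, h4⟩ := h2 0
        exact ⟨g, hg, h4⟩
      · exact Fin.cases hg.2 hfix i
      · obtain ⟨g, hg, h3, h4⟩ := h2 i.succ
        exact ⟨g, ⟨hg, h3 0 (Fin.succ_pos i)⟩, fun j hj => h3 _ (Fin.succ_lt_succ_iff.2 hj), h4⟩

theorem thin (l : List Ω) : ∀ H : Subgroup G, (∀ g ∈ H, (∀ y ∈ l, g • y = y) → g = 1) →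
    IB H l ∨ ∃ l' : List Ω, IB H l' ∧ l'.length < l.length := by
  induction l with
  | nil =>
    intro H h
    left
    rw [ib_nil_iff, Subgroup.eq_bot_iff_forall]
    exact fun g hg => h g hg (by simp)
  | cons x l ih =>
    intro H h
    have h' : ∀ g ∈ H ⊓ MulAction.stabilizer G x, (∀ y ∈ l, g • y = y) → g = 1 := by
      intro g hg hfix
      refine h g hg.1 fun y hy => ?_
      rcases List.mem_cons.1 hy with rfl | hy
      · exact hg.2
      · exact hfix y hy
    by_cases hx : ∃ g ∈ H, g • x ≠ x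
    · rcases ih _ h' with h1 | ⟨l', h1, h2⟩
      · exact Or.inl (IB.cons H x l hx h1)
      · exact Or.inr ⟨x :: l', IB.cons H x l' hx h1, by simpa using h2⟩
    · push Not at hx
      have heq : H ⊓ MulAction.stabilizer G x = H := inf_eq_left.2 fun g hg => hx g hg
      rw [heq] at h'
      rcases ih _ h' with h1 | ⟨l', h1, h2⟩
      · exact Or.inr ⟨l, h1, by simp⟩
      · exact Or.inr ⟨l', h1, by simp; omega⟩

theorem ib_base {H : Subgroup G} {l : List Ω} (h : IB H l) :
    ∀ g ∈ H, (∀ y ∈ l, g • y = y) → g = 1 := by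
  induction h with
  | nil => intro g hg _; simpa using hg
  | cons H x l h hl ih =>
    intro g hg hfix
    exact ih g ⟨hg, hfix x (by simp)⟩ fun y hy => hfix y (by simp [hy])

theorem ib_of_min (l : List Ω) : ∀ H : Subgroup G, l.Nodup →
    (∀ x ∈ l, ∃ g ∈ H, (∀ y ∈ l, y ≠ x → g • y = y) ∧ g • x ≠ x) →
    (∀ g ∈ H, (∀ y ∈ l, g • y = y) → g = 1) → IB H l := by
  induction l with
  | nil =>
    intro H _ _ h
    rw [ib_nil_iff, Subgroup.eq_bot_iff_forall]
    exact fun g hg => h g hg (by simp)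
  | cons x l ih =>
    intro H hnd h1 h2
    rw [List.nodup_cons] at hnd
    refine IB.cons H x l ?_ (ih _ hnd.2 ?_ ?_)
    · obtain ⟨g, hg, -, h3⟩ := h1 x (by simp)
      exact ⟨g, hg, h3⟩
    · intro z hz
      obtain ⟨g, hg, h3, h4⟩ := h1 z (by simp [hz])
      refine ⟨g, ⟨hg, h3 x (by simp) ?_⟩, fun y hy hyz => h3 y (by simp [hy]) hyz, h4⟩
      rintro rfl
      exact hnd.1 hz
    · intro g hg hfix
      refine h2 g hg.1 fun y hy => ?_
      rcases List.mem_cons.1 hy with rfl | hy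
      · exact hg.2
      · exact hfix y hy

theorem len_eq [Finite G] (H : Subgroup G) :
    (∀ l l' : List Ω, l.Perm l' → IB H l → IB H l') →
    ∀ l l' : List Ω, IB H l → IB H l' → l.length = l'.length := by
  induction H using WellFoundedLT.induction with
  | _ H ih =>
  intro hR l l' hl hl'
  have key : ∀ x : Ω, (∃ g ∈ H, g • x ≠ x) → ∀ m m' : List Ω, IB (H ⊓ MulAction.stabilizer G x) m →
      IB (H ⊓ MulAction.stabilizer G x) m' → m.length = m'.length := by
    intro x hx
    apply ih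
    · refine lt_of_le_of_ne inf_le_left fun h => ?_
      obtain ⟨g, hg, hg'⟩ := hx
      rw [← h] at hg
      exact hg' hg.2
    · intro m m' hp hm
      exact ((ib_cons_iff _ _ _).1 (hR _ _ (hp.cons x) (IB.cons H x m hx hm))).2
  have key2 : ∀ (x y : Ω) (B C : List Ω), IB H (x :: B) → IB H (y :: C) →
      (∃ g ∈ H ⊓ MulAction.stabilizer G x, g • y ≠ y) → B.length = C.length := by
    intro x y B C hB hC hy
    rw [ib_cons_iff] at hB hC
    have hbase : ∀ g ∈ H ⊓ MulAction.stabilizer G x ⊓ MulAction.stabilizer G y, (∀ z ∈ B, g • z = z) → g = 1 :=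
      fun g hg hfix => ib_base hB.2 g hg.1 hfix
    obtain ⟨D, hD⟩ : ∃ D : List Ω, IB (H ⊓ MulAction.stabilizer G x ⊓ MulAction.stabilizer G y) D := by
      rcases thin B _ hbase with h | ⟨D, h, -⟩
      · exact ⟨B, h⟩
      · exact ⟨D, h⟩
    have h1 : IB (H ⊓ MulAction.stabilizer G x) (y :: D) := IB.cons _ _ _ hy hD
    have h2 : IB H (y :: x :: D) := hR _ _ (List.Perm.swap y x D) (IB.cons _ _ _ hB.1 h1)
    rw [key x hB.1 _ _ hB.2 h1, key y hC.1 _ _ hC.2 ((ib_cons_iff _ _ _).1 h2).2]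
    rfl
  cases l with
  | nil =>
    cases l' with
    | nil => rfl
    | cons y C =>
      rw [ib_nil_iff] at hl
      obtain ⟨⟨g, hg, hg'⟩, -⟩ := (ib_cons_iff _ _ _).1 hl'
      rw [hl, Subgroup.mem_bot] at hg
      exact absurd (by rw [hg, one_smul]) hg'
  | cons x B =>
    cases l' with
    | nil =>
      rw [ib_nil_iff] at hl'
      obtain ⟨⟨g, hg, hg'⟩, -⟩ := (ib_cons_iff _ _ _).1 hl
      rw [hl', Subgroup.mem_bot] at hg
      exact absurd (by rw [hg, one_smul]) hg'
    | cons y C =>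
      simp only [List.length_cons, add_left_inj]
      by_cases h1 : ∃ g ∈ H ⊓ MulAction.stabilizer G x, g • y ≠ y
      · exact key2 x y B C hl hl' h1
      by_cases h2 : ∃ g ∈ H ⊓ MulAction.stabilizer G y, g • x ≠ x
      · exact (key2 y x C B hl' hl h2).symm
      push Not at h1 h2
      have heq : H ⊓ MulAction.stabilizer G x = H ⊓ MulAction.stabilizer G y :=
        le_antisymm (fun g hg => ⟨hg.1, h1 g hg⟩) (fun g hg => ⟨hg.1, h2 g hg⟩)
      rw [ib_cons_iff] at hl hl'
      exact key x hl.1 _ _ hl.2 (heq ▸ hl'.2)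

end aux


/-- Let a finite group G act on a finite set Ω. An irredundant base is a sequence of points ω₁, …, ω_t whose pointwise stabiliser is trivial and in which each ω_i is moved by some element fixing ω₁, …, ω_{i−1}. Then all irredundant bases have the same length if and only if every reordering of an irredundant base is again an irredundant base. -/
theorem result {G Ω : Type*} [Group G] [Finite G] [MulAction G Ω] [Fintype Ω] :
    (∀ (t t' : ℕ) (f : Fin t → Ω) (f' : Fin t' → Ω), ((∀ g : G, (∀ i : Fin t, g • f i = f i) → g = 1) ∧ ∀ i : Fin t, ∃ g : G, (∀ j : Fin t, j < i → g • f j = f j) ∧ g • f i ≠ f i) → ((∀ g : G, (∀ i : Fin t', g • f' i = f' i) → g = 1) ∧ ∀ i : Fin t', ∃ g : G, (∀ j : Fin t', j < i → g • f' j = f' j) ∧ g • f' i ≠ f' i) → t = t') ↔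
    (∀ (t : ℕ) (f : Fin t → Ω) (σ : Equiv.Perm (Fin t)), ((∀ g : G, (∀ i : Fin t, g • f i = f i) → g = 1) ∧ ∀ i : Fin t, ∃ g : G, (∀ j : Fin t, j < i → g • f j = f j) ∧ g • f i ≠ f i) → ((∀ g : G, (∀ i : Fin t, g • (f ∘ σ) i = (f ∘ σ) i) → g = 1) ∧ ∀ i : Fin t, ∃ g : G, (∀ j : Fin t, j < i → g • (f ∘ σ) j = (f ∘ σ) j) ∧ g • (f ∘ σ) i ≠ (f ∘ σ) i)) := by
  have conv : ∀ (t : ℕ) (f : Fin t → Ω), IB (⊤ : Subgroup G) (List.ofFn f) ↔
      ((∀ g : G, (∀ i : Fin t, g • f i = f i) → g = 1) ∧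
        ∀ i : Fin t, ∃ g : G, (∀ j : Fin t, j < i → g • f j = f j) ∧ g • f i ≠ f i) := by
    intro t f
    rw [ib_ofFn_iff]
    simp
  constructor
  · intro h t f σ hf
    rw [← conv]
    rcases thin (List.ofFn (f ∘ σ)) (⊤ : Subgroup G) (fun g _ hg => hf.1 g fun i => hg _ (by
      rw [List.mem_ofFn]; exact ⟨σ.symm i, by simp⟩)) with h1 | ⟨l', h1, h2⟩
    · exact h1
    · rw [← List.ofFn_get l', conv] at h1
      have := h _ _ _ _ hf h1
      rw [List.length_ofFn] at h2
      omega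
  · intro h t t' f f' hf hf'
    have hR : ∀ l l' : List Ω, l.Perm l' → IB (⊤ : Subgroup G) l → IB (⊤ : Subgroup G) l' := by
      intro l l' hp hl
      have hb := ib_base hl
      have hmin : ∀ i : Fin l.length, ∃ g : G, (∀ j, j ≠ i → g • l.get j = l.get j) ∧ g • l.get i ≠ l.get i := by
        intro i
        rw [← List.ofFn_get l, conv] at hl
        let m : Fin l.length := ⟨l.length - 1, by have := i.2; omega⟩
        obtain ⟨g, h1, h2⟩ := (h _ _ (Equiv.swap i m) hl).2 m
        refine ⟨g, fun j hj => ?_, by simpa using h2⟩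
        have h3 : Equiv.swap i m j < m := by
          have h4 : Equiv.swap i m j ≠ m := by
            intro h5
            apply hj
            have := congrArg (Equiv.swap i m) h5
            simpa using this
          have h6 := (Equiv.swap i m j).2
          have h7 : (Equiv.swap i m j).1 ≠ l.length - 1 := fun h8 => h4 (Fin.ext h8)
          show (Equiv.swap i m j).1 < l.length - 1
          omega
        simpa using h1 _ h3
      have hnd : l.Nodup := by
        rw [List.nodup_iff_injective_get]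
        intro i j hij
        by_contra hne
        obtain ⟨g, h1, h2⟩ := hmin i
        exact h2 (hij ▸ h1 j (Ne.symm hne))
      refine ib_of_min l' ⊤ (hp.nodup_iff.1 hnd) (fun x hx => ?_) fun g hg hfix => hb g hg fun y hy => hfix y (hp.mem_iff.1 hy)
      obtain ⟨i, rfl⟩ := List.mem_iff_get.1 (hp.mem_iff.2 hx)
      obtain ⟨g, h1, h2⟩ := hmin i
      refine ⟨g, trivial, fun y hy hne => ?_, h2⟩
      obtain ⟨j, rfl⟩ := List.mem_iff_get.1 (hp.mem_iff.2 hy)
      exact h1 j fun hji => hne (by rw [hji])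
    have := len_eq (⊤ : Subgroup G) hR _ _ ((conv _ _).2 hf) ((conv _ _).2 hf')
    simpa using this

end Cfsg.Agent.S5747
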