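import Mathlib
import Cfsg.Statements.S5751
import Cfsg.Agent.Lib.H5.Cores
import Cfsg.Agent.Lib.Chev.Main
import Cfsg.Agent.Lib.Chev.Simple

set_option autoImplicit false
open Cfsg

namespace Cfsg.Agent.S5751

/-- An extremal example for iterated cores of conjugate maximal subgroups: there exist a finite group G and two distinct conjugate maximal subgroups M₁, M₂ of G, with M₁ having trivial core in G, such that, if we define two descending sequences of subgroups by A₀ = M₁, B₀ = M₂ and, for every i, A_{i+1} = the core in M₁ of A_i ∩ B_i and B_{i+1} = the core in M₂ of A_i ∩ B_i (the core in M of a subgroup Y ≤ M is the largest normal subgroup of M contained in Y), the subgroup A₆ is trivial while A₅ is not (so the index 6 cannot be lowered to 5). (One example is a maximal parabolic subgroup of the Chevalley group of type E₈ over a finite field and a suitable conjugate of it.) -/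
theorem result :
    ∃ (G : Type) (_ : Group G) (_ : Finite G) (M₁ M₂ : Subgroup G) (g : G) (A B : ℕ → Subgroup G),
      IsCoatom M₁ ∧ M₂ = M₁.map (MulAut.conj g).toMonoidHom ∧ M₁ ≠ M₂ ∧ M₁.normalCore = ⊥ ∧ A 0 = M₁ ∧ B 0 = M₂ ∧
      (∀ i, A (i + 1) = ((A i ⊓ B i).subgroupOf M₁).normalCore.map M₁.subtype) ∧
      (∀ i, B (i + 1) = ((A i ⊓ B i).subgroupOf M₂).normalCore.map M₂.subtype) ∧ A 6 = ⊥ ∧ A 5 ≠ ⊥ := by
  obtain ⟨R, E0, hE⟩ := H38.exists_isMat (D := Lie.chevE8) (by simp) (ZMod 2)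
  let E := hE.grp
  have hF : E.Faith := hE.grp_faith
  have htop : E.Gp = ⊤ := hE.grp_top
  have hH : E.H = ⊥ := by
    refine eq_bot_iff.2 ((Subgroup.closure_le _).2 ?_)
    rintro _ ⟨r, c, hc, rfl⟩
    have : c = 1 := by revert c; decide
    rw [this, E.h_one]
    exact Subgroup.one_mem _
  have hsym : ∀ i j, R.A i j = R.A j i := fun i j => by
    rw [← R.wt_sim, ← R.wt_sim, ← R.cartan_eq, ← R.cartan_eq, R.sim_eq, R.sim_eq]
    revert i j
    decide +kernel
  have hrc : ∀ r, R.rt r = R.cor r := by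
    refine R.root_induction (fun i => by rw [R.rt_sim, R.cor_sim]) fun i r h => ?_
    rw [R.rt_σ, ← R.refl_sim, R.cor_refl, R.rt_sim, R.cor_sim, R.pair_eq_sum, h]
    congr 2
    simp only [H38.RS.wt_sim, H38.RS.wt, H38.RS.wtv, h, R.rt_sim]
    refine Finset.sum_congr rfl fun j _ => ?_
    simp [Pi.single_apply, hsym i j]
  let i : Fin Lie.chevE8.rank := ⟨3, by decide⟩
  have hlev : ∀ r, R.rt r i = (Lie.chevE8.coroot.getD r #[]).getD 3 0 := fun r => by
    rw [hrc, R.cor_eq]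
  have hsim : ∀ r, r ≠ R.sim i → (r : ℕ) ≠ 130 := fun r h e => h (Fin.ext (e.trans (R.sim_eq i).symm))
  have h1 : ∀ r, R.rt r i = 1 → r ≠ R.sim i → ∃ j, j ≠ i ∧ 0 < R.wt r j := fun r a b => by
    have k : ∀ r : Fin Lie.chevE8.nroots, (Lie.chevE8.coroot.getD r #[]).getD 3 0 = 1 → (r : ℕ) ≠ 130 →
        ∃ j : Fin Lie.chevE8.rank, j ≠ ⟨3, by decide⟩ ∧ 0 < Lie.chevE8.cartan j r := by decide +kernel
    simpa only [R.cartan_eq] using k r (hlev r ▸ a) (hsim r b)
  have h2 : ∀ r, r ≠ R.sim i → R.wt r i ≤ 1 := fun r b => by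
    have k : ∀ r : Fin Lie.chevE8.nroots, (r : ℕ) ≠ 130 → Lie.chevE8.cartan 3 r ≤ 1 := by decide +kernel
    rw [← R.cartan_eq]
    exact k r (hsim r b)
  have h6 : ∀ r, R.rt r i ≤ 6 := fun r => by
    rw [hlev]
    revert r
    decide +kernel
  have hθ : R.rt ⟨239, by decide⟩ i = 6 := by rw [hlev]; decide +kernel
  have hm := E.rep_n_sim i (c := 1) one_ne_zero
  set m := E.n (R.sim i) 1
  let M₁ := E.P {j | j ≠ i}
  let M₂ := M₁.map (MulAut.conj m).toMonoidHom
  let AB : ℕ → Subgroup (Lie.chevE8.group (ZMod 2)) × Subgroup (Lie.chevE8.group (ZMod 2)) := fun k =>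
    Nat.rec (M₁, M₂) (fun _ p => (((p.1 ⊓ p.2).subgroupOf M₁).normalCore.map M₁.subtype,
      ((p.1 ⊓ p.2).subgroupOf M₂).normalCore.map M₂.subtype)) k
  have key := H5.Cores.cores hF htop hH (R.connected (by simp)) h1 h2 hm (fun k => (AB k).1)
    (fun k => (AB k).2) rfl rfl (fun _ => rfl) (fun _ => rfl)
  have a6 : (AB 6).1 = ⊥ := by
    refine (key 5).trans ?_
    rw [← E.XS_empty]
    congr 1
    refine Set.eq_empty_of_forall_notMem fun r hr => ?_
    have := h6 r
    rw [H5.Cores.mem_lev] at hr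
    omega
  refine ⟨_, inferInstance, inferInstance, M₁, M₂, m, fun k => (AB k).1, fun k => (AB k).2,
    H5.Cores.isCoatom_P hF htop i, rfl, fun e => ?_, ?_, rfl, rfl, fun _ => rfl, fun _ => rfl, a6,
    fun e => ?_⟩
  · have a : m * E.x (R.sim i) 1 * m⁻¹ ∈ M₁ :=
      e ▸ ⟨_, E.B_le_P _ (E.U_le_B (E.x_mem_U (R.pos_sim i) 1)), rfl⟩
    obtain ⟨c, hc, e'⟩ := hm.conj_x (R.sim i)
    rw [e', R.s_sim] at a
    exact hc (by simpa using H5.Cores.x_neg_mem_P hF (k := i) (by simp) a)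
  · have hn := M₁.normalCore_normal
    have c : ∀ k, M₁.normalCore ≤ (AB k).1 ⊓ (AB k).2 := by
      have c0 : M₁.normalCore ≤ M₁ ⊓ M₂ := fun g hg => ⟨M₁.normalCore_le hg,
        ⟨m⁻¹ * g * m, M₁.normalCore_le (hn.conj_mem' g hg m), by simp [mul_assoc]⟩⟩
      intro k
      induction k with
      | zero => exact c0
      | succ k ih =>
        exact fun g hg => ⟨H5.Cores.mem_core.2 ⟨(c0 hg).1, fun p _ => ih (hn.conj_mem g hg p)⟩,
          H5.Cores.mem_core.2 ⟨(c0 hg).2, fun p _ => ih (hn.conj_mem g hg p)⟩⟩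
    exact eq_bot_iff.2 (a6 ▸ (c 6).trans inf_le_left)
  · have a : E.x ⟨239, by decide⟩ 1 ∈ (AB 5).1 :=
      key 4 ▸ E.x_mem_XS (H5.Cores.mem_lev.2 (by rw [hθ]; rfl)) 1
    exact hF.x_one_ne _ (Subgroup.mem_bot.1 ((show (AB 5).1 = ⊥ from e) ▸ a))

end Cfsg.Agent.S5751
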