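import Mathlib
import Cfsg.Statements.S5752
import Cfsg.Agent.Lib.Perm75.TW

set_option autoImplicit false
open Cfsg

namespace Cfsg.Agent.S5752

open Subgroup H75

/-- A form of the Thompson–Wielandt Theorem on primitive permutation groups. Let G be a finite group and M₁, M₂ two distinct conjugate maximal subgroups of G with trivial core in G; define two descending sequences of subgroups by A₀ = M₁, B₀ = M₂ and, for every i, A_{i+1} = the core in M₁ of A_i ∩ B_i and B_{i+1} = the core in M₂ of A_i ∩ B_i (the core in M of a subgroup Y ≤ M is the largest normal subgroup of M contained in Y). If A₂ and B₂ are both non-trivial, then for some prime p the subgroup generated by A₂ and B₂ is a p-group, and for each j the generalized Fitting subgroups of M_j and of its first core (A₁, resp. B₁) are their largest normal p-subgroups. -/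
theorem result {G : Type*} [Group G] [Finite G] (M₁ M₂ : Subgroup G) (hmax : IsCoatom M₁) (g : G)
    (hconj : M₂ = M₁.map (MulAut.conj g).toMonoidHom) (hne : M₁ ≠ M₂) (hcore : M₁.normalCore = ⊥)
    (A B : ℕ → Subgroup G) (hA0 : A 0 = M₁) (hB0 : B 0 = M₂)
    (hA : ∀ i, A (i + 1) = ((A i ⊓ B i).subgroupOf M₁).normalCore.map M₁.subtype)
    (hB : ∀ i, B (i + 1) = ((A i ⊓ B i).subgroupOf M₂).normalCore.map M₂.subtype) (hA2 : A 2 ≠ ⊥) (hB2 : B 2 ≠ ⊥) :
    ∃ p : ℕ, p.Prime ∧ IsPGroup p ↥(A 2 ⊔ B 2) ∧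
      Cfsg.generalizedFittingSubgroup ↥M₁ = Cfsg.pCore p ↥M₁ ∧ Cfsg.generalizedFittingSubgroup ↥(A 1) = Cfsg.pCore p ↥(A 1) ∧
      Cfsg.generalizedFittingSubgroup ↥M₂ = Cfsg.pCore p ↥M₂ ∧ Cfsg.generalizedFittingSubgroup ↥(B 1) = Cfsg.pCore p ↥(B 1) := by
  have e : M₁ ≃* M₂ := (M₁.equivMapOfInjective _ (MulAut.conj g).injective).trans
    (MulEquiv.subgroupCongr hconj.symm)
  have hmax2 : IsCoatom M₂ := by
    rw [hconj]
    exact (OrderIso.isCoatom_iff (MulAut.conj g).mapSubgroup M₁).mpr hmax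
  have hcore2 : M₂.normalCore = ⊥ := by
    rw [← le_bot_iff, ← hcore, normal_le_normalCore]
    intro x hx
    have := hx g
    rw [hconj] at this
    obtain ⟨y, hy, e⟩ := this
    have : y = x := (MulAut.conj g).injective e
    rwa [← this]
  have h := twPair_of_isCoatom hmax hmax2 hcore hcore2 hne ⟨e⟩
  have a1 : A 1 = coreIn M₁ (M₁ ⊓ M₂) := by rw [hA 0, hA0, hB0]; rfl
  have b1 : B 1 = coreIn M₂ (M₁ ⊓ M₂) := by rw [hB 0, hA0, hB0]; rfl
  have a2 : A 2 = coreIn M₁ (A 1 ⊓ B 1) := hA 1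
  have b2 : B 2 = coreIn M₂ (A 1 ⊓ B 1) := hB 1
  have la : A 2 ≤ A 1 ⊓ B 1 := a2 ▸ coreIn_le _ _
  have na : M₁ ≤ normalizer (A 2 : Set G) := a2 ▸ le_normalizer_coreIn _ _
  have nb : M₂ ≤ normalizer (B 2 : Set G) := b2 ▸ le_normalizer_coreIn _ _
  obtain ⟨p, hp, h1, h2, h3, h4⟩ := h.main (A := A 2) (B := B 2) (a1 ▸ b1 ▸ la) na hA2
    (a1 ▸ b1 ▸ b2 ▸ coreIn_le _ _) nb hB2
  have := Fact.mk hp
  have key : ∀ M Y : Subgroup G, generalizedFittingSubgroup M = pCore p M →
      generalizedFittingSubgroup (coreIn M Y) = pCore p (coreIn M Y) := by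
    intro M Y hM
    have h5 := H23.fStar_eq_pCore_of_isSubnormal hM (H := (coreIn M Y).subgroupOf M)
      (normal_subgroupOf_of_le_normalizer (le_normalizer_coreIn _ _)).isSubnormal
    have e := subgroupOfEquivOfLe (coreIn_le_left M Y)
    rw [← H23.map_fStar_equiv e, h5, H1.map_pCore_equiv]
  refine ⟨p, hp, h1.to_sup_of_normal_right' h2 ?_, h3, a1 ▸ key _ _ h3, h4, b1 ▸ key _ _ h4⟩
  exact ((la.trans inf_le_right).trans (b1 ▸ coreIn_le_left _ _)).trans nb

end Cfsg.Agent.S5752
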