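import Mathlib
import Cfsg.Agent.Base
import Cfsg.Agent.Lib.BinAff.Main
import Cfsg.Statements.S5753

set_option autoImplicit false
open Cfsg

namespace Cfsg.Agent.S5753

theorem fld {E : Type} [Field E] [Fintype E] (p m : ℕ) [Fact p.Prime] [CharP E p]
    (hE : Nat.card E = (p ^ m) ^ 2) :
    ∃ (F : Type) (_ : Field F) (_ : Fintype F) (_ : Algebra F E), Module.finrank F E = 2 ∧
      (∀ a : E, Algebra.norm F a = 1 ↔ a ^ (p ^ m + 1) = 1) ∧
      (∀ φ : E ≃ₐ[F] E, (∀ x, φ x = x) ∨ ∀ x, φ x = x ^ p ^ m) ∧
      ∃ φ : E ≃ₐ[F] E, ∀ x, φ x = x ^ p ^ m := by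
  classical
  have hp : p.Prime := Fact.out
  have hm : m ≠ 0 := by
    rintro rfl
    have : 1 < Nat.card E := Finite.one_lt_card
    rw [hE] at this
    simp at this
  letI : Algebra (ZMod p) E := ZMod.algebra _ _
  have hfin : Module.finrank (ZMod p) E = m * 2 := by
    have := FiniteField.pow_finrank_eq_natCard p E
    rw [hE, ← pow_mul] at this
    exact Nat.pow_right_injective hp.two_le this
  obtain ⟨f⟩ := FiniteField.nonempty_algHom_of_finrank_dvd (F := ZMod p) (K := GaloisField p m)
    (L := E) (by rw [GaloisField.finrank p hm, hfin]; exact dvd_mul_right _ _)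
  letI : Algebra (GaloisField p m) E := f.toRingHom.toAlgebra
  have iT := Fintype.ofFinite (GaloisField p m)
  have hF : Nat.card (GaloisField p m) = p ^ m := GaloisField.card p m hm
  have hq : 1 < p ^ m := Nat.one_lt_pow hm hp.one_lt
  have h2 : Module.finrank (GaloisField p m) E = 2 := by
    have := Module.natCard_eq_pow_finrank (K := GaloisField p m) (V := E)
    rw [hE, hF] at this
    exact (Nat.pow_right_injective hq this).symm
  let φ : E ≃ₐ[GaloisField p m] E := FiniteField.frobeniusAlgEquivOfAlgebraic (GaloisField p m) E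
  have hφ : ∀ x, φ x = x ^ p ^ m := fun x => by
    rw [← hF, Nat.card_eq_fintype_card]; rfl
  refine ⟨GaloisField p m, inferInstance, iT, inferInstance, h2, fun a => ?_, fun ψ => ?_, φ, hφ⟩
  · rw [← (algebraMap (GaloisField p m) E).injective.eq_iff, FiniteField.algebraMap_norm_eq_pow,
      map_one, hE, hF]
    have : ((p ^ m) ^ 2 - 1) / (p ^ m - 1) = p ^ m + 1 := by
      apply Nat.div_eq_of_eq_mul_left (by omega)
      obtain ⟨k, hk⟩ : ∃ k, p ^ m = k + 1 := ⟨p ^ m - 1, by omega⟩
      rw [hk, Nat.add_sub_cancel]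
      apply Nat.sub_eq_of_eq_add
      ring
    rw [this]
  · have hφ1 : φ ≠ 1 := by
      intro e
      have h1 := FiniteField.orderOf_frobeniusAlgEquivOfAlgebraic (GaloisField p m) E
      change orderOf φ = _ at h1
      rw [e, orderOf_one, h2] at h1
      omega
    by_cases hψ : ψ = 1
    · exact Or.inl fun x => by rw [hψ]; rfl
    · right
      have hc : Nat.card (E ≃ₐ[GaloisField p m] E) = 2 := by rw [IsGalois.card_aut_eq_finrank, h2]
      obtain ⟨y, -, hy⟩ := (Nat.card_eq_two_iff' (1 : E ≃ₐ[GaloisField p m] E)).1 hc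
      intro x
      rw [hy ψ hψ, ← hy φ hφ1, hφ]

open scoped IsMulCommutative

/-- The binary primitive permutation groups of affine type (the known proof uses the classification of the finite simple groups). Let a finite group G act faithfully and primitively on a finite set Ω, with a non-trivial abelian normal subgroup, and suppose the action is binary: for every n ≥ 2 and all n-tuples I, J of points, if for every pair of positions some element of G carries the corresponding pair of entries of I to those of J, then a single element carries I to J. Then either Ω has a prime number of points and every point stabilizer has order at most 2, or Ω can be identified with a field E that is a quadratic extension of a subfield F in such a way that the permutations induced by G are exactly the maps x ↦ a·φ(x) + b with a ∈ E of norm 1 over F, φ an automorphism of E over F and b ∈ E (the affine group of the anisotropic plane orthogonal group). -/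
theorem result {G Ω : Type*} [Group G] [Finite G] [MulAction G Ω] [FaithfulSMul G Ω] [Fintype Ω]
    (hprim : MulAction.IsPreprimitive G Ω)
    (haff : ∃ N : Subgroup G, N.Normal ∧ N ≠ ⊥ ∧ IsMulCommutative ↥N)
    (hbin : ∀ (n : ℕ) (I J : Fin n → Ω), 2 ≤ n →
      (∀ i j : Fin n, i ≠ j → ∃ g : G, g • I i = J i ∧ g • I j = J j) → ∃ g : G, ∀ i, g • I i = J i) :
    ((Fintype.card Ω).Prime ∧ ∀ ω : Ω, Nat.card ↥(MulAction.stabilizer G ω) ≤ 2) ∨
    (∃ (F E : Type) (_ : Field F) (_ : Fintype F) (_ : Field E) (_ : Fintype E) (_ : Algebra F E) (e : Ω ≃ E),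
        Module.finrank F E = 2 ∧
        ∀ σ : Equiv.Perm Ω, σ ∈ (MulAction.toPermHom G Ω).range ↔
          ∃ (a b : E) (φ : E ≃ₐ[F] E), Algebra.norm F a = 1 ∧ ∀ ω : Ω, e (σ ω) = a * φ (e ω) + b) := by
  classical
  obtain ⟨N, hNn, hN0, hNc⟩ := haff
  have htr : ∀ M : Subgroup G, M.Normal → M ≠ ⊥ → MulAction.IsPretransitive M Ω := by
    intro M hM hM0
    apply MulAction.IsQuasiPreprimitive.isPretransitive_of_normal
    intro e
    apply hM0
    rw [eq_bot_iff]
    intro g hg
    apply eq_of_smul_eq_smul (α := Ω)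
    intro ω
    have : ω ∈ MulAction.fixedPoints M Ω := e ▸ Set.mem_univ _
    rw [one_smul]
    exact this ⟨g, hg⟩
  have hNt := htr N hNn hN0
  obtain ⟨ω0⟩ : Nonempty Ω := by
    by_contra hn
    apply hN0
    rw [eq_bot_iff]
    intro g _
    exact eq_of_smul_eq_smul (α := Ω) fun ω => (hn ⟨ω⟩).elim
  have hreg : ∀ n m : N, (n : G) • ω0 = (m : G) • ω0 → n = m := by
    intro n m e
    apply Subtype.ext
    apply eq_of_smul_eq_smul (α := Ω)
    intro ω
    obtain ⟨k, rfl⟩ := hNt.exists_smul_eq ω0 ω
    change (n : G) • (k : G) • ω0 = (m : G) • (k : G) • ω0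
    have c1 : (n : G) * k = k * n := congrArg Subtype.val (mul_comm n k)
    have c2 : (m : G) * k = k * m := congrArg Subtype.val (mul_comm m k)
    rw [← mul_smul, c1, mul_smul, e, ← mul_smul, ← c2, mul_smul]
  let H := MulAction.stabilizer G ω0
  letI act : DistribMulAction H (Additive N) :=
    { smul := fun h v => Additive.ofMul (MulAut.conjNormal (h : G) v.toMul)
      one_smul := fun v => by
        change Additive.ofMul (MulAut.conjNormal ((1 : H) : G) v.toMul) = v
        simp
      mul_smul := fun g h v => by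
        change Additive.ofMul (MulAut.conjNormal ((g * h : H) : G) v.toMul) =
          Additive.ofMul (MulAut.conjNormal (g : G) (MulAut.conjNormal (h : G) v.toMul))
        simp
      smul_zero := fun h => by
        change Additive.ofMul (MulAut.conjNormal (h : G) 1) = 0
        simp
      smul_add := fun h v w => by
        change Additive.ofMul (MulAut.conjNormal (h : G) (v.toMul * w.toMul)) =
          Additive.ofMul (MulAut.conjNormal (h : G) v.toMul * MulAut.conjNormal (h : G) w.toMul)
        rw [map_mul] }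
  let ψ : Additive N → Ω := fun v => (v.toMul : G) • ω0
  have hψi : Function.Injective ψ := fun v w e => hreg _ _ e
  have hψs : Function.Surjective ψ := fun ω => by
    obtain ⟨k, hk⟩ := hNt.exists_smul_eq ω0 ω
    exact ⟨Additive.ofMul k, hk⟩
  have hψ0 : ψ 0 = ω0 := one_smul _ _
  have hψh : ∀ (h : H) (v : Additive N), (h : G) • ψ v = ψ (h • v) := by
    intro h v
    change (h : G) • (v.toMul : G) • ω0 = ((MulAut.conjNormal (h : G) v.toMul : N) : G) • ω0
    rw [MulAut.conjNormal_apply, mul_smul, mul_smul]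
    congr 2
    exact (inv_smul_eq_iff.2 (MulAction.mem_stabilizer_iff.1 h.2).symm).symm
  have hψn : ∀ v w : Additive N, (v.toMul : G) • ψ w = ψ (v + w) := by
    intro v w
    change (v.toMul : G) • (w.toMul : G) • ω0 = ((v.toMul * w.toMul : N) : G) • ω0
    rw [← mul_smul]; rfl
  have hdec : ∀ g : G, ∃ (v : Additive N) (h : H), g = (v.toMul : G) * h := by
    intro g
    obtain ⟨v, hv⟩ := hψs (g • ω0)
    refine ⟨v, ⟨(v.toMul : G)⁻¹ * g, ?_⟩, by simp⟩
    rw [MulAction.mem_stabilizer_iff, mul_smul, inv_smul_eq_iff]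
    exact hv.symm
  have hB : H79.BA.Bin H (Additive N) := by
    constructor
    · intro h hh
      apply Subtype.ext
      apply eq_of_smul_eq_smul (α := Ω)
      intro ω
      obtain ⟨v, rfl⟩ := hψs ω
      rw [hψh, hh]; simp
    · intro X f h1 h2
      have hpair : ∀ x y x' y' : Additive N, H79.BA.Cj H (x - y) (x' - y') →
          ∃ g : G, g • ψ x = ψ x' ∧ g • ψ y = ψ y' := by
        rintro x y x' y' ⟨h, hh⟩
        refine ⟨(y'.toMul : G) * h * ((-y).toMul : G), ?_, ?_⟩
        · rw [mul_smul, mul_smul, hψn, hψh, hψn, neg_add_eq_sub, hh]; simp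
        · rw [mul_smul, mul_smul, hψn, hψh, hψn]; simp
      have := Fintype.ofFinite (Option (Option X))
      let ι := Fintype.equivFin (Option (Option X))
      let u : Option (Option X) → Additive N := fun o => o.elim 0 fun o => o.elim 0 fun x => x.1
      let u' : Option (Option X) → Additive N := fun o => o.elim 0 fun o => o.elim 0 fun x => f x.1
      obtain ⟨g, hg⟩ := hbin _ (fun i => ψ (u (ι.symm i))) (fun i => ψ (u' (ι.symm i)))
        (by
          rw [← Nat.card_eq_fintype_card, Finite.card_option, Finite.card_option]; omega) (by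
          intro i j _
          apply hpair
          rcases ι.symm i with _ | _ | x <;> rcases ι.symm j with _ | _ | y
          all_goals first
            | exact H79.BA.Cj.refl _
            | exact h2 _ x.2 _ y.2
            | simpa [u, u'] using h1 _ x.2
            | simpa [u, u'] using (h1 _ y.2).neg)
      have hg0 : g ∈ H := by
        have := hg (ι none)
        simp only [Equiv.symm_apply_apply] at this
        change g • ψ 0 = ψ 0 at this
        rwa [hψ0] at this
      refine ⟨⟨g, hg0⟩, fun x hx => hψi ?_⟩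
      rw [← hψh]
      have := hg (ι (some (some ⟨x, hx⟩)))
      simp only [Equiv.symm_apply_apply] at this
      exact this
  have hI : H79.BA.Irr H (Additive N) := by
    intro P hP
    let M : Subgroup G := (AddSubgroup.toSubgroup' P).map N.subtype
    have hM : ∀ g : G, g ∈ M ↔ ∃ v ∈ P, (v.toMul : G) = g := fun g => Iff.rfl
    have hMn : M.Normal := ⟨fun x hx g => by
      obtain ⟨v, hv, rfl⟩ := (hM x).1 hx
      obtain ⟨w, h, rfl⟩ := hdec g
      refine (hM _).2 ⟨h • v, hP h v hv, ?_⟩
      have c1 : (w.toMul : G) * (h • v).toMul = (h • v).toMul * w.toMul :=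
        congrArg Subtype.val (mul_comm w.toMul (h • v).toMul)
      have c2 : ((h • v).toMul : G) = h * v.toMul * (h : G)⁻¹ := MulAut.conjNormal_apply _ _
      calc ((h • v).toMul : G) = w.toMul * (h • v).toMul * (w.toMul : G)⁻¹ := by rw [c1]; group
        _ = _ := by rw [c2]; group⟩
    by_cases hM0 : M = ⊥
    · left
      rw [eq_bot_iff]
      intro v hv
      have : (v.toMul : G) ∈ M := (hM _).2 ⟨v, hv, rfl⟩
      rw [hM0, Subgroup.mem_bot] at this
      exact Subtype.ext this
    · right
      rw [eq_top_iff]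
      intro v _
      obtain ⟨⟨k, hk⟩, e⟩ := (htr M hMn hM0).exists_smul_eq ω0 (ψ v)
      obtain ⟨w, hw, rfl⟩ := (hM k).1 hk
      exact hψi (show ψ w = ψ v from e) ▸ hw
  have hnt : Nontrivial (Additive N) := (Subgroup.nontrivial_iff_ne_bot N).2 hN0
  let Ψ : Additive N ≃ Ω := Equiv.ofBijective ψ ⟨hψi, hψs⟩
  rcases H79.BA.classify hB hI with ⟨h1, h2⟩ | ⟨E, iF, iT, p, m, hp, hc, e, hE, h1, h2, a, h3⟩
  · left
    refine ⟨by rwa [← Nat.card_eq_fintype_card, ← Nat.card_congr Ψ], fun ω => ?_⟩
    obtain ⟨g, rfl⟩ := MulAction.exists_smul_eq G ω0 ω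
    rwa [← Nat.card_congr (MulAction.stabilizerEquivStabilizer (g := g) (a := ω0) rfl).toEquiv]
  · right
    obtain ⟨F, jF, jT, jA, hf, hn, hφ, φ, hφ'⟩ := fld (E := E) p m hE
    refine ⟨F, E, jF, jT, iF, iT, jA, Ψ.symm.trans e.toEquiv, hf, fun σ => ⟨?_, ?_⟩⟩
    · rintro ⟨g, rfl⟩
      obtain ⟨v, h, rfl⟩ := hdec g
      have key : ∀ w : Additive N, (Ψ.symm.trans e.toEquiv)
          ((MulAction.toPermHom G Ω ((v.toMul : G) * h)) (Ψ w)) = e (h • w) + e v := by
        intro w
        have : (MulAction.toPermHom G Ω ((v.toMul : G) * h)) (Ψ w) = Ψ (v + h • w) := by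
          change ((v.toMul : G) * h) • ψ w = ψ (v + h • w)
          rw [mul_smul, hψh, hψn]
        rw [this]
        simp [add_comm]
      obtain ⟨α, hα, h4 | h4⟩ := h1 h
      · refine ⟨α, e v, 1, (hn α).2 hα, fun ω => ?_⟩
        obtain ⟨w, rfl⟩ := Ψ.surjective ω
        rw [key, h4]; simp
      · refine ⟨α, e v, φ, (hn α).2 hα, fun ω => ?_⟩
        obtain ⟨w, rfl⟩ := Ψ.surjective ω
        rw [key, h4, hφ']; simp
    · rintro ⟨α, β, χ, hα, hσ⟩
      obtain ⟨k, hk⟩ := h2 α ((hn α).1 hα)
      obtain ⟨h, hh⟩ : ∃ h : H, ∀ w, e (h • w) = α * χ (e w) := by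
        rcases hφ χ with h4 | h4
        · exact ⟨k, fun w => by rw [hk, h4]⟩
        · exact ⟨k * a, fun w => by rw [mul_smul, hk, h3, h4]⟩
      refine ⟨((e.symm β).toMul : G) * h, Equiv.ext fun ω => ?_⟩
      obtain ⟨w, rfl⟩ := Ψ.surjective ω
      apply (Ψ.symm.trans e.toEquiv).injective
      rw [hσ]
      have : (MulAction.toPermHom G Ω (((e.symm β).toMul : G) * h)) (Ψ w) =
          Ψ (e.symm β + h • w) := by
        change (((e.symm β).toMul : G) * h) • ψ w = ψ (e.symm β + h • w)
        rw [mul_smul, hψh, hψn]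
      rw [this]
      simp [hh, add_comm]

end Cfsg.Agent.S5753
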