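import Cfsg.Statements.S5754
import Mathlib


set_option autoImplicit false
open Cfsg

namespace Cfsg.Agent.S5754

theorem exists_refl {F V : Type*} [Field F] [AddCommGroup V] [Module F V]
    (Q : QuadraticForm F V) (d : V) (hd : Q d ≠ 0) :
    ∃ φ : Q.IsometryEquiv Q, ∀ x, φ x = x - ((Q d)⁻¹ * QuadraticMap.polar Q d x) • d := by
  let f : V →ₗ[F] V := LinearMap.id - ((Q d)⁻¹ • QuadraticMap.polarBilin Q d).smulRight d
  have hf : ∀ x, f x = x - ((Q d)⁻¹ * QuadraticMap.polar Q d x) • d := fun x => by simp [f]
  have hinv : Function.Involutive f := by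
    intro x
    rw [hf, hf, QuadraticMap.polar_sub_right, QuadraticMap.polar_smul_right, QuadraticMap.polar_self]
    have : (Q d)⁻¹ * (QuadraticMap.polar Q d x - ((Q d)⁻¹ * QuadraticMap.polar Q d x) • (2 • Q d)) =
        - ((Q d)⁻¹ * QuadraticMap.polar Q d x) := by
      simp only [smul_eq_mul, nsmul_eq_mul]
      field_simp
      push_cast
      ring
    rw [this]
    module
  refine ⟨⟨LinearEquiv.ofInvolutive f hinv, fun x => ?_⟩, hf⟩
  change Q (f x) = Q x
  rw [hf, sub_eq_add_neg, ← neg_smul, QuadraticMap.map_add Q, QuadraticMap.map_smul,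
    QuadraticMap.polar_smul_right, QuadraticMap.polar_comm Q x d]
  simp only [smul_eq_mul]
  field_simp
  ring

theorem exists_isom {F V ι : Type*} [Field F] [AddCommGroup V] [Module F V]
    (Q : QuadraticForm F V) (hQ : Q.Anisotropic) (w w' : ι → V) (h1 : ∀ i, Q (w i) = Q (w' i))
    (h2 : ∀ i j, QuadraticMap.polar Q (w i) (w j) = QuadraticMap.polar Q (w' i) (w' j))
    (s : Finset ι) : ∃ φ : Q.IsometryEquiv Q, ∀ i ∈ s, φ (w i) = w' i := by
  classical
  induction s using Finset.induction_on with
  | empty => exact ⟨QuadraticMap.IsometryEquiv.refl Q, by simp⟩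
  | insert k s hk ih =>
    obtain ⟨φ, hφ⟩ := ih
    by_cases h : φ (w k) = w' k
    · refine ⟨φ, fun i hi => ?_⟩
      rcases Finset.mem_insert.1 hi with rfl | hi
      · exact h
      · exact hφ i hi
    have hpol : ∀ x y, QuadraticMap.polar Q (φ x) (φ y) = QuadraticMap.polar Q x y := by
      intro x y
      simp only [QuadraticMap.polar, ← map_add, QuadraticMap.IsometryEquiv.map_app]
    have hd : Q (φ (w k) - w' k) ≠ 0 := fun h0 => h (sub_eq_zero.1 (hQ _ h0))
    obtain ⟨r, hr⟩ := exists_refl Q _ hd
    refine ⟨φ.trans r, fun i hi => ?_⟩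
    change r (φ (w i)) = _
    rcases Finset.mem_insert.1 hi with rfl | hi
    · rw [hr]
      have : QuadraticMap.polar Q (φ (w i) - w' i) (φ (w i)) = Q (φ (w i) - w' i) := by
        rw [QuadraticMap.polar_sub_left, QuadraticMap.polar_self, sub_eq_add_neg (φ (w i)),
          QuadraticMap.map_add Q, QuadraticMap.polar_neg_right, QuadraticMap.map_neg,
          QuadraticMap.IsometryEquiv.map_app, h1, QuadraticMap.polar_comm Q (w' i)]
        simp only [nsmul_eq_mul]
        push_cast
        ring
      rw [this, inv_mul_cancel₀ hd]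
      simp
    · rw [hr, QuadraticMap.polar_sub_left, hpol, hφ i hi, h2]
      simp


/-- Let V be a finite-dimensional vector space over a finite field F carrying an anisotropic quadratic form Q (Q(v) = 0 only for v = 0). Then the group of all maps v ↦ φ(v) + c, with φ an isometry of Q and c ∈ V, acts on V as a binary permutation group: given n ≥ 2 and two n-tuples u, u' of vectors such that every pair of corresponding entries of u is carried to that of u' by such a map, one such map carries u to u'. -/
theorem result {F V : Type*} [Field F] [Finite F] [AddCommGroup V] [Module F V] [Module.Finite F V]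
    (Q : QuadraticForm F V) (hQ : Q.Anisotropic) (n : ℕ) (hn : 2 ≤ n) (u u' : Fin n → V)
    (h2 : ∀ i j : Fin n, i ≠ j → ∃ (φ : Q.IsometryEquiv Q) (c : V), φ (u i) + c = u' i ∧ φ (u j) + c = u' j) :
    ∃ (φ : Q.IsometryEquiv Q) (c : V), ∀ i, φ (u i) + c = u' i := by
  classical
  let z : Fin n := ⟨0, by omega⟩
  have hdiff : ∀ i j, Q (u i - u j) = Q (u' i - u' j) := by
    intro i j
    by_cases hij : i = j
    · subst hij; simp
    · obtain ⟨φ, c, h3, h4⟩ := h2 i j hij
      rw [← h3, ← h4, add_sub_add_right_eq_sub, ← map_sub, QuadraticMap.IsometryEquiv.map_app]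
  obtain ⟨φ, hφ⟩ := exists_isom Q hQ (fun i => u i - u z) (fun i => u' i - u' z) (fun i => hdiff i z)
    (fun i j => by
      have e : ∀ a b : V, QuadraticMap.polar Q a b = Q a + Q b - Q (a - b) := by
        intro a b
        rw [sub_eq_add_neg a, QuadraticMap.map_add Q, QuadraticMap.polar_neg_right, QuadraticMap.map_neg]
        ring
      rw [e, e, sub_sub_sub_cancel_right, sub_sub_sub_cancel_right, hdiff, hdiff j, hdiff i j])
    Finset.univ
  refine ⟨φ, u' z - φ (u z), fun i => ?_⟩
  have := hφ i (Finset.mem_univ i)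
  simp only [map_sub] at this
  rw [← sub_eq_zero]
  rw [← sub_eq_zero] at this
  rw [← this]
  abel

end Cfsg.Agent.S5754
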