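import Cfsg.Statements.S5763
import Mathlib
import Cfsg.Agent.Lib.SymMax.Partition

set_option autoImplicit false
open Cfsg

namespace Cfsg.Agent.S5763

open Equiv Equiv.Perm

def fget (F i : ℕ) : ℕ := Nat.mod (Nat.shiftRight F (Nat.mul 2 i)) 4

def tget (T i : ℕ) : ℕ := Nat.mod (Nat.shiftRight T (Nat.mul 3 i)) 8

def allTo (p : ℕ → Bool) (n : ℕ) : Bool := Nat.rec true (fun k r => (p k).and r) n

theorem allTo_spec {p : ℕ → Bool} {n : ℕ} (h : allTo p n = true) : ∀ k < n, p k = true := by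
  induction n with
  | zero => intro k hk; omega
  | succ n ih =>
    have h1 : ((p n).and (allTo p n)) = true := h
    rw [Bool.and_eq_true] at h1
    intro k hk
    rcases Nat.lt_succ_iff_lt_or_eq.1 hk with h2 | rfl
    · exact ih h1.2 k h2
    · exact h1.1

def okAux (a b c d : ℕ) : Bool :=
  ((Nat.beq a b).xor (Nat.beq c d)).not.and
    ((Nat.beq (Nat.div a 2) (Nat.div b 2)).xor (Nat.beq (Nat.div c 2) (Nat.div d 2))).not

def okPair (F T x y : ℕ) : Bool := okAux (fget F x) (fget F y) (fget F (tget T x)) (fget F (tget T y))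

def ok (F T : ℕ) : Bool := allTo (fun x => allTo (fun y => okPair F T x y) 8) 8

def pw (F i : ℕ) : ℕ := Nat.shiftLeft 1 (Nat.mul 4 (fget F i))

def bal (F : ℕ) : Bool :=
  Nat.beq (Nat.add (Nat.add (Nat.add (pw F 0) (pw F 1)) (Nat.add (pw F 2) (pw F 3)))
    (Nat.add (Nat.add (pw F 4) (pw F 5)) (Nat.add (pw F 6) (pw F 7)))) 8738

def invs : List ℕ := [14570689, 11789505, 9925825, 14599816, 16406152, 16434376, 16434817, 6852524, 5017068, 6823845, 4988389, 2206526, 2177406, 371511, 342391]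

theorem main_check : allTo (fun hi => allTo (fun lo =>
    (bal (Nat.add (Nat.mul 256 hi) lo)).not.or (invs.any (ok (Nat.add (Nat.mul 256 hi) lo)))) 256) 256 = true := by
  decide +kernel

theorem invs_check : ∀ T ∈ invs, ok 64080 T = true ∧ (∀ i : Fin 8, tget T (tget T i) = i) ∧
    ∃ i : Fin 8, tget T i ≠ i := by decide +kernel

theorem tget_lt (T i : ℕ) : tget T i < 8 := Nat.mod_lt _ (by norm_num)

def P0 : Subgroup (Perm (Fin 8)) :=
  H98.partStab (fun x : Fin 8 => x.1 / 2) ⊓ H98.partStab (fun x : Fin 8 => x.1 / 2 / 2)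

theorem sq_step {Ω ι κ : Type*} {f : Ω → ι} {f' : Ω → κ} {h : Perm Ω} (hh : h ∈ H98.partStab f)
    (h1 : ∀ x, f' (h x) = f' x)
    (h2 : ∀ x y z, f' x = f' y → f' y = f' z → f x ≠ f y → f y ≠ f z → f x = f z) (x : Ω) :
    f ((h ^ 2) x) = f x := by
  rw [sq, Perm.mul_apply]
  by_cases h3 : f x = f (h x)
  · rw [← (hh _ _).1 h3, ← h3]
  · exact (h2 x (h x) (h (h x)) (h1 x).symm (h1 _).symm h3 (fun h4 => h3 ((hh _ _).2 h4))).symm

theorem isPGroup_P0 : IsPGroup 2 P0 := by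
  rintro ⟨g, hg1, hg2⟩
  refine ⟨3, Subtype.ext ?_⟩
  have h1 := sq_step (f' := fun _ => ()) hg2 (fun _ => rfl) (by decide +kernel)
  have h2 := sq_step (f' := fun x : Fin 8 => x.1 / 2 / 2) (Subgroup.pow_mem _ hg1 2) h1 (by decide +kernel)
  have h3 := sq_step (f := id) (f' := fun x : Fin 8 => x.1 / 2) (h := (g ^ 2) ^ 2) (fun x y => (Equiv.injective _).eq_iff.symm) h2
    (by decide +kernel)
  show g ^ 2 ^ 3 = 1
  rw [show 2 ^ 3 = 2 * 2 * 2 from rfl, pow_mul, pow_mul]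
  exact Equiv.ext h3

theorem pres_of_ok {F T : ℕ} (h : ok F T = true) (x y : Fin 8) :
    (fget F x = fget F y ↔ fget F (tget T x) = fget F (tget T y)) ∧
      (fget F x / 2 = fget F y / 2 ↔ fget F (tget T x) / 2 = fget F (tget T y) / 2) := by
  have h1 := allTo_spec (allTo_spec h x x.2) y y.2
  have key : ∀ a b c d : ℕ, ((Nat.beq a b).xor (Nat.beq c d)).not = true → (a = b ↔ c = d) := by
    intro a b c d h
    rw [← Nat.beq_eq, ← Nat.beq_eq]
    revert h
    cases Nat.beq a b <;> cases Nat.beq c d <;> simp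
  simp only [okPair, okAux, Bool.and_eq_true] at h1
  exact ⟨key _ _ _ _ h1.1, key _ _ _ _ h1.2⟩

theorem exists_common (z : Perm (Fin 8)) : ∃ t ∈ P0, t ≠ 1 ∧ z⁻¹ * t * z ∈ P0 := by
  let a : Fin 8 → ℕ := fun i => (z⁻¹ i).1 / 2
  have ha : ∀ i, a i < 4 := fun i => by have := (z⁻¹ i).2; simp only [a]; omega
  let F := a 0 + 4 * a 1 + 16 * a 2 + 64 * a 3 + 256 * a 4 + 1024 * a 5 + 4096 * a 6 + 16384 * a 7
  have h0 := ha 0; have h1 := ha 1; have h2 := ha 2; have h3 := ha 3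
  have h4 := ha 4; have h5 := ha 5; have h6 := ha 6; have h7 := ha 7
  have hF : ∀ i : Fin 8, fget F i = a i := by
    intro i
    have hh : ∀ F i, fget F i = F / 2 ^ (2 * i) % 4 := fun F i => by
      rw [← Nat.shiftRight_eq_div_pow]; rfl
    fin_cases i <;> simp only [hh, F] <;> simp <;> omega
  have hbal : bal F = true := by
    have := Equiv.sum_comp z⁻¹ (fun j : Fin 8 => 16 ^ (j.1 / 2))
    rw [Fin.sum_univ_eight, Fin.sum_univ_eight] at this
    have e0 := hF 0; have e1 := hF 1; have e2 := hF 2; have e3 := hF 3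
    have e4 := hF 4; have e5 := hF 5; have e6 := hF 6; have e7 := hF 7
    have hh : ∀ F i, pw F i = 16 ^ fget F i := fun F i => by
      rw [show 16 = 2 ^ 4 from rfl, ← pow_mul, ← Nat.one_shiftLeft]; rfl
    simp only [bal, Nat.beq_eq, hh, Nat.add_eq]
    erw [e0, e1, e2, e3, e4, e5, e6, e7]
    simp only [a]
    norm_num at this ⊢
    omega
  have hm' := allTo_spec (allTo_spec main_check (F / 256) (by omega)) (F % 256) (Nat.mod_lt _ (by norm_num))
  simp only [Nat.add_eq, Nat.mul_eq] at hm'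
  rw [Nat.div_add_mod, hbal] at hm'
  simp only [Bool.not_true, Bool.false_or, List.any_eq_true] at hm'
  obtain ⟨T, hT, hok⟩ := hm'
  obtain ⟨hok0, hinv, i, hi⟩ := invs_check T hT
  let t0 : Fin 8 → Fin 8 := fun i => ⟨tget T i, tget_lt _ _⟩
  have ht0 : Function.Involutive t0 := fun i => Fin.ext (hinv i)
  have hF0 : ∀ i : Fin 8, fget 64080 i = i.1 / 2 := by decide +kernel
  refine ⟨ht0.toPerm t0, ⟨fun x y => ?_, fun x y => ?_⟩, fun h => hi ?_, ⟨fun x y => ?_, fun x y => ?_⟩⟩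
  · have := (pres_of_ok hok0 x y).1
    rwa [hF0, hF0, hF0 (t0 x), hF0 (t0 y)] at this
  · have := (pres_of_ok hok0 x y).2
    rwa [hF0, hF0, hF0 (t0 x), hF0 (t0 y)] at this
  · exact congrArg Fin.val (congrFun (congrArg DFunLike.coe h) i)
  · have := (pres_of_ok hok (z x) (z y)).1
    rw [hF, hF, hF (t0 (z x)), hF (t0 (z y))] at this
    simpa [a] using this
  · have := (pres_of_ok hok (z x) (z y)).2
    rw [hF, hF, hF (t0 (z x)), hF (t0 (z y))] at this
    simpa [a] using this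

/-- In the symmetric group on 8 letters any two Sylow 2-subgroups have non-trivial intersection: for a Sylow 2-subgroup H and every element x, H ∩ xHx⁻¹ ≠ 1. -/
theorem result (H : Sylow 2 (Equiv.Perm (Fin 8))) (x : Equiv.Perm (Fin 8)) :
    (H : Subgroup (Equiv.Perm (Fin 8))) ⊓ (H : Subgroup (Equiv.Perm (Fin 8))).map (MulAut.conj x).toMonoidHom ≠ ⊥ := by
  obtain ⟨P, hP⟩ := isPGroup_P0.exists_le_sylow
  obtain ⟨y, rfl⟩ := MulAction.exists_smul_eq (Equiv.Perm (Fin 8)) P H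
  obtain ⟨t, ht, ht1, ht2⟩ := exists_common (y⁻¹ * x * y)
  have hmem : ∀ s ∈ P0, y * s * y⁻¹ ∈ ((y • P : Sylow 2 (Equiv.Perm (Fin 8))) : Subgroup (Equiv.Perm (Fin 8))) :=
    fun s hs => ⟨s, hP hs, rfl⟩
  rw [Subgroup.ne_bot_iff_exists_ne_one]
  refine ⟨⟨y * t * y⁻¹, hmem t ht, _, hmem _ ht2, ?_⟩, fun h => ht1 ?_⟩
  · simp [mul_assoc]
  · have h1 : y * t * y⁻¹ = 1 := congrArg Subtype.val h
    simpa using h1

end Cfsg.Agent.S5763
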