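import Cfsg.Statements.S5885
import Mathlib
import Cfsg.Agent.Base

set_option autoImplicit false
open Cfsg

namespace Cfsg.Agent.S5885

open MulAction
open scoped Pointwise

theorem three_cycle {G Ω : Type*} [Group G] [MulAction G Ω] [IsPreprimitive G Ω] {n : ℕ} (e : Ω ≃ Fin n)
    (hA : ∀ P : Subgroup (Equiv.Perm (Fin n)), IsPreprimitive P (Fin n) → alternatingGroup (Fin n) ≤ P)
    {x y z : Ω} (xy : x ≠ y) (xz : x ≠ z) (yz : y ≠ z) :
    ∃ g : G, g • x = y ∧ g • y = z ∧ ∀ w, w ≠ x → w ≠ y → w ≠ z → g • w = w := by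
  let φ : G →* Equiv.Perm (Fin n) := e.permCongrHom.toMonoidHom.comp (toPermHom G Ω)
  let f : Ω →ₑ[φ.rangeRestrict] Fin n := ⟨e, fun g w => by
    change e (g • w) = e (g • e.symm (e w))
    rw [e.symm_apply_apply]⟩
  have h1 := hA φ.range (IsPreprimitive.of_surjective (f := f) e.surjective)
  obtain ⟨g, hg⟩ := h1 (show Equiv.swap (e x) (e z) * Equiv.swap (e x) (e y) ∈ alternatingGroup _ by
    simp [Equiv.Perm.sign_swap (e.injective.ne xy), Equiv.Perm.sign_swap (e.injective.ne xz)])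
  have h2 : ∀ w, e (g • w) = Equiv.swap (e x) (e z) (Equiv.swap (e x) (e y) (e w)) := fun w => by
    have := congrArg (fun σ : Equiv.Perm (Fin n) => σ (e w)) hg
    simpa [φ] using this
  refine ⟨g, e.injective ?_, e.injective ?_, fun w a b c => e.injective ?_⟩
  · rw [h2, Equiv.swap_apply_left,
      Equiv.swap_apply_of_ne_of_ne (e.injective.ne xy.symm) (e.injective.ne yz)]
  · rw [h2, Equiv.swap_apply_right, Equiv.swap_apply_left]
  · rw [h2, Equiv.swap_apply_of_ne_of_ne (e.injective.ne a) (e.injective.ne b),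
      Equiv.swap_apply_of_ne_of_ne (e.injective.ne a) (e.injective.ne c)]

theorem coatom_iff {G : Type*} [Group G] {H K : Subgroup G} (h : H ≤ K) :
    IsCoatom (H.subgroupOf K) ↔ ¬ K ≤ H ∧ ∀ X : Subgroup G, H ≤ X → X ≤ K → X ≤ H ∨ K ≤ X := by
  constructor
  · refine fun hc => ⟨fun e => hc.1 (Subgroup.subgroupOf_eq_top.2 e), fun X h1 h2 => ?_⟩
    rcases (hc.le_iff.1 (Subgroup.subgroupOf_mono K h1 : _ ≤ X.subgroupOf K)) with e | e
    · exact Or.inr (Subgroup.subgroupOf_eq_top.1 e)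
    · exact Or.inl fun x hx => (e.le (show (⟨x, h2 hx⟩ : K) ∈ X.subgroupOf K from hx) :)
  · refine fun hc => ⟨fun e => hc.1 (Subgroup.subgroupOf_eq_top.1 e), fun Y hY => ?_⟩
    rcases hc.2 (Y.map K.subtype) (fun x hx => ⟨⟨x, h hx⟩, hY.le hx, rfl⟩)
      (Subgroup.map_subtype_le _) with e | e
    · exact absurd (fun y hy => e ⟨y, hy, rfl⟩) hY.2
    · refine eq_top_iff.2 fun y _ => ?_
      obtain ⟨y', hy, e⟩ := e y.2
      rwa [← show y' = y from Subtype.ext e]

/-- Let n be an odd positive integer such that every primitive permutation group of degree n contains the alternating group (so the symmetric and alternating groups are the only primitive groups of degree n). Let G be a finite group, M a maximal subgroup of G of index n, and H a maximal subgroup of M. Then H is a second maximal subgroup of G: H is maximal in every maximal subgroup K of G containing H. -/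
theorem result {G : Type*} [Group G]
    [Finite G] (n : ℕ) (hodd : Odd n)
    (hA : ∀ P : Subgroup (Equiv.Perm (Fin n)), MulAction.IsPreprimitive P (Fin n) → alternatingGroup (Fin n) ≤ P)
    (M : Subgroup G) (hM : IsCoatom M) (hn : M.index = n) (H : Subgroup G) (hHM : H ≤ M)
    (hmax : IsCoatom (H.subgroupOf M)) (K : Subgroup G) (hK : IsCoatom K) (hHK : H ≤ K) :
    IsCoatom (H.subgroupOf K) := by
  classical
  by_cases hKM : K = M
  · exact hKM ▸ hmax
  rw [coatom_iff hHM] at hmax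
  have hMK : ¬ M ≤ K := fun h => hKM ((hM.le_iff.1 h).resolve_left hK.1)
  have hKH : ∀ k ∈ K, k ∈ M → k ∈ H := fun k h1 h2 =>
    (hmax.2 (K ⊓ M) (le_inf hHK hHM) inf_le_right).resolve_right (fun h => hMK (h.trans inf_le_left))
      ⟨h1, h2⟩
  refine (coatom_iff hHK).2 ⟨fun h => hKM ((hK.le_iff.1 (h.trans hHM)).resolve_left hM.1).symm,
    fun X hHX hXK => ?_⟩
  by_cases hN : M.normalCore ≤ H
  swap
  · have h1 : M ≤ M.normalCore ⊔ X := ((hmax.2 (M.normalCore ⊔ H) le_sup_right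
      (sup_le M.normalCore_le hHM)).resolve_left fun h => hN (le_sup_left.trans h)).trans
      (sup_le_sup_left hHX _)
    rcases hM.le_iff.1 h1 with h | h
    · refine Or.inr fun k hk => ?_
      have : k ∈ ((M.normalCore ⊔ X : Subgroup G) : Set G) := h ▸ Subgroup.mem_top k
      rw [Subgroup.normal_mul] at this
      obtain ⟨u, hu, x, hx, rfl⟩ := this
      exact X.mul_mem (hHX (hKH u ((K.mul_mem_cancel_right (hXK hx)).1 hk) (M.normalCore_le hu))) hx
    · exact Or.inl fun x hx => hKH x (hXK hx) (h ▸ Subgroup.mem_sup_right hx)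
  by_contra hc
  push Not at hc
  let a : G ⧸ M := ((1 : G) : G ⧸ M)
  have ha : ∀ {g : G}, g • a = a ↔ g ∈ M := fun {g} => by
    rw [← mem_stabilizer_iff, stabilizer_quotient]
  have : Nontrivial (G ⧸ M) := by
    rw [← Finite.one_lt_card_iff_nontrivial]
    exact Subgroup.one_lt_index_of_ne_top hM.1
  have : IsPreprimitive G (G ⧸ M) := (isCoatom_stabilizer_iff_preprimitive G a).1
    (by rwa [stabilizer_quotient])
  have h3 := fun x y z => three_cycle (G := G) (x := x) (y := y) (z := z)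
    (Finite.equivFinOfCardEq (show Nat.card (G ⧸ M) = n from hn)) hA
  have hX : ∀ {k x : G}, k ∈ K → x ∈ X → k • a = x • a → k ∈ X := fun {k x} hk hx e => by
    have := X.mul_mem hx (hHX (hKH (x⁻¹ * k) (K.mul_mem (K.inv_mem (hXK hx)) hk)
      (ha.1 (by rw [mul_smul, e, inv_smul_smul]))))
    rwa [mul_inv_cancel_left] at this
  obtain ⟨x, hx, hxH⟩ := SetLike.not_le_iff_exists.1 hc.1
  obtain ⟨k, hk, hkX⟩ := SetLike.not_le_iff_exists.1 hc.2
  have n1 : x • a ≠ a := fun e => hxH (hKH x (hXK hx) (ha.1 e))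
  have n2 : ∀ y ∈ X, k • a ≠ y • a := fun y hy e => hkX (hX hk hy e)
  have n3 : k • a ≠ a := by simpa using n2 1 X.one_mem
  by_cases htr : ∀ w : G ⧸ M, w ∈ orbit K a
  swap
  · push Not at htr
    obtain ⟨w, hw⟩ := htr
    have h4 : stabilizer G (orbit K a) = K := by
      refine (hK.le_iff.1 fun g hg => smul_orbit (⟨g, hg⟩ : K) a).resolve_left fun e => hw ?_
      obtain ⟨g, rfl⟩ := exists_smul_eq G a w
      have : g • orbit K a = orbit K a := mem_stabilizer_iff.1 (e ▸ Subgroup.mem_top g)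
      exact this ▸ Set.smul_mem_smul_set (mem_orbit_self a)
    obtain ⟨g, e1, e2, e3⟩ := h3 a (x • a) (k • a) n1.symm n3.symm (n2 x hx).symm
    have hg : g ∈ K := by
      rw [← h4, mem_stabilizer_iff]
      refine Set.eq_of_subset_of_ncard_le ?_ (Set.ncard_smul_set _ _).ge
      have hout : ∀ w ∉ orbit K a, g • w = w := fun w hw => e3 w (fun e => hw (e.symm ▸ mem_orbit_self a))
        (fun e => hw (e ▸ ⟨⟨x, hXK hx⟩, rfl⟩)) fun e => hw (e ▸ ⟨⟨k, hk⟩, rfl⟩)
      rintro _ ⟨w, hw, rfl⟩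
      by_contra h
      have h' : g • w = w := smul_left_cancel g (hout _ h)
      exact h (show g • w ∈ _ by rwa [h'])
    exact n2 (g * x) (X.mul_mem (hX hg hx e1) hx) (by rw [mul_smul, e2])
  have hcard : ∀ g : G, (g • orbit X a).ncard = (orbit X a).ncard := fun g => Set.ncard_smul_set _ _
  have hdisj : ∀ k ∈ K, k ∉ X → Disjoint (orbit X a) (k • orbit X a) := fun k hk hkX => by
    refine Set.disjoint_left.2 ?_
    rintro _ ⟨y, rfl⟩ ⟨_, ⟨z, rfl⟩, e⟩
    exact hkX ((X.mul_mem_cancel_right z.2).1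
      (hX (K.mul_mem hk (hXK z.2)) y.2 (by rw [mul_smul]; exact e)))
  obtain ⟨w, hw1, hw2⟩ : ∃ w, w ∉ orbit X a ∧ w ∉ k • orbit X a := by
    by_contra h
    push Not at h
    have h4 : orbit X a ∪ k • orbit X a = Set.univ :=
      Set.eq_univ_of_forall fun w => (em _).imp_right (h w)
    have h5 := congrArg Set.ncard h4
    rw [Set.ncard_union_eq (hdisj k hk hkX), hcard, Set.ncard_univ] at h5
    rw [← hn, Subgroup.index, ← h5] at hodd
    exact Nat.not_odd_iff_even.2 ⟨_, rfl⟩ hodd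
  have m1 : ∀ y ∈ X, y • a ∈ orbit X a := fun y hy => ⟨⟨y, hy⟩, rfl⟩
  have m2 : ∀ y ∈ X, k • y • a ∉ orbit X a := fun y hy h =>
    Set.disjoint_left.1 (hdisj k hk hkX) h (Set.smul_mem_smul_set (m1 y hy))
  have h5 : M ⊓ stabilizer G (orbit X a) ≤ H := by
    refine (hmax.2 _ (le_inf hHM fun h hh => smul_orbit (⟨h, hHX hh⟩ : X) a) inf_le_left).resolve_right
      fun h => ?_
    obtain ⟨g, e1, -, e3⟩ := h3 (x • a) (k • a) w (n2 x hx).symm (fun e => hw1 (e ▸ m1 x hx))
      fun e => hw2 (e ▸ Set.smul_mem_smul_set (mem_orbit_self a))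
    have h6 : g • orbit X a = orbit X a :=
      (h (ha.1 (e3 a n1.symm n3.symm fun e => hw1 (e ▸ mem_orbit_self a)))).2
    refine m2 1 X.one_mem ?_
    rw [one_smul, ← e1, ← h6]
    exact Set.smul_mem_smul_set (m1 x hx)
  obtain ⟨g, e1, e2, e3⟩ := h3 (k • a) (k • x • a) w (fun e => n1 (smul_left_cancel k e).symm)
    (fun e => hw2 (e ▸ Set.smul_mem_smul_set (mem_orbit_self a)))
    fun e => hw2 (e ▸ Set.smul_mem_smul_set (m1 x hx))
  have hfix : ∀ v ∈ orbit X a, g • v = v := fun v hv =>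
    e3 v (fun e => m2 1 X.one_mem (by rwa [one_smul, ← e])) (fun e => m2 x hx (e ▸ hv))
      fun e => hw1 (e ▸ hv)
  have hg : g ∈ K := hHK (h5 ⟨ha.1 (hfix a (mem_orbit_self a)), Set.ext fun v =>
    ⟨by rintro ⟨v, hv, rfl⟩; simpa [hfix v hv] using hv, fun hv => ⟨v, hv, hfix v hv⟩⟩⟩)
  have h7 : k⁻¹ * g * k ∈ X := hX (K.mul_mem (K.mul_mem (K.inv_mem hk) hg) hk) hx
    (by rw [mul_smul, mul_smul, e1, inv_smul_smul])
  refine hw2 ⟨_, m1 _ (X.mul_mem h7 hx), ?_⟩
  simp only [mul_smul, smul_inv_smul, e2]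

end Cfsg.Agent.S5885
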