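import Cfsg.Statements.S5887
import Mathlib
import Cfsg.Agent.Base

set_option autoImplicit false
open Cfsg

namespace Cfsg.Agent.S5887

open Matrix

theorem mat_ext {F : Type*} [Field F] {n : ℕ} {A B : Matrix (Fin n) (Fin n) F}
    (h : ∀ v, A *ᵥ v = B *ᵥ v) : A = B :=
  Matrix.toLin'.injective (LinearMap.ext h)

theorem exists_unip {F : Type*} [Field F] {E : Type*} [Field E] [Algebra F E] {n : ℕ}
    (ρ : E →ₐ[F] Matrix (Fin n) (Fin n) F) (hlt : Module.finrank F E < n) (τ : E →ₗ[F] E) :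
    ∃ g ∈ Cfsg.Geo.specialLinear (Fin n) F, ∀ K₁ : Subalgebra F E,
      g ∈ Cfsg.Geo.subalgebraNormalizer (K₁.map ρ) ↔ ∀ k ∈ K₁, ∀ x, τ (k * x) = k * τ x := by
  classical
  letI : Module E (Fin n → F) :=
    Module.compHom (Fin n → F) ((Matrix.toLinAlgEquiv'.toAlgHom.comp ρ).toRingHom :
      E →+* Module.End F (Fin n → F))
  have hsmul : ∀ (k : E) (v : Fin n → F), k • v = ρ k *ᵥ v := fun k v => rfl
  haveI : IsScalarTower F E (Fin n → F) := ⟨fun c k v => by
    rw [hsmul, hsmul, map_smul, Matrix.smul_mulVec]⟩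
  haveI : SMulCommClass F E (Fin n → F) := ⟨fun c k v => by
    rw [hsmul, hsmul, Matrix.mulVec_smul]⟩
  haveI : Module.Finite E (Fin n → F) := Module.Finite.of_restrictScalars_finite F E _
  have hdim := Module.finrank_mul_finrank F E (Fin n → F)
  rw [Module.finrank_fin_fun] at hdim
  have h2 : 2 ≤ Module.finrank E (Fin n → F) := by
    by_contra h
    have : Module.finrank E (Fin n → F) = 0 ∨ Module.finrank E (Fin n → F) = 1 := by omega
    rcases this with h | h <;> rw [h] at hdim <;> omega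
  let b := Module.finBasis E (Fin n → F)
  let i0 : Fin (Module.finrank E (Fin n → F)) := ⟨0, by omega⟩
  let i1 : Fin (Module.finrank E (Fin n → F)) := ⟨1, by omega⟩
  have h01 : i0 ≠ i1 := by simp [i0, i1]
  obtain ⟨lam, w, u, hw, hlw, hlu⟩ : ∃ (lam : (Fin n → F) →ₗ[E] E) (w u : Fin n → F),
      w ≠ 0 ∧ lam w = 0 ∧ lam u = 1 :=
    ⟨b.coord i1, b i0, b i1, b.ne_zero _, by simp [h01.symm], by simp⟩
  let mk : (E →ₗ[F] E) → (Fin n → F) → Matrix (Fin n) (Fin n) F := fun σ z =>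
    LinearMap.toMatrix' (((LinearMap.toSpanSingleton E _ z).restrictScalars F).comp
      (σ.comp (lam.restrictScalars F)))
  have hmk : ∀ σ z v, mk σ z *ᵥ v = σ (lam v) • z := fun σ z v => by
    simp only [mk]
    rw [← Matrix.toLin'_apply, Matrix.toLin'_toMatrix']
    rfl
  set T := mk τ w with hT
  have hTT : T * T = 0 := mat_ext (fun v => by
    rw [← Matrix.mulVec_mulVec, hmk, hmk, map_smul, hlw]; simp)
  let g : GL (Fin n) F := ⟨1 + T, 1 - T, by
    rw [add_mul, mul_sub, mul_sub, hTT]; simp, by rw [sub_mul, mul_add, mul_add, hTT]; simp⟩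
  have hg : ∀ v, (g : Matrix (Fin n) (Fin n) F) *ᵥ v = v + τ (lam v) • w := fun v => by
    show (1 + T) *ᵥ v = _
    rw [Matrix.add_mulVec, Matrix.one_mulVec, hmk]
  have hg' : ∀ v, ((g⁻¹ : GL (Fin n) F) : Matrix (Fin n) (Fin n) F) *ᵥ v = v - τ (lam v) • w := fun v => by
    show (1 - T) *ᵥ v = _
    rw [Matrix.sub_mulVec, Matrix.one_mulVec, hmk]
  refine ⟨g, ?_, fun K₁ => ⟨fun h k hk x => ?_, fun h => ?_⟩⟩
  · rw [Cfsg.Geo.specialLinear, MonoidHom.mem_ker]
    apply Units.ext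
    show (1 + T).det = 1
    have h1 : T = T * mk LinearMap.id u := mat_ext (fun v => by
      rw [← Matrix.mulVec_mulVec, hmk, hmk, hmk, map_smul, hlu]; simp)
    have h3 : mk LinearMap.id u * T = 0 := mat_ext (fun v => by
      rw [← Matrix.mulVec_mulVec, hmk, hmk, map_smul, hlw]; simp)
    rw [h1, Matrix.det_one_add_mul_comm, h3]; simp
  · obtain ⟨k', -, hk'⟩ := (h (ρ k)).1 ⟨k, hk, rfl⟩
    have h1 : ∀ v, k' • v = (g : Matrix (Fin n) (Fin n) F) *ᵥ
        (k • (((g⁻¹ : GL (Fin n) F) : Matrix (Fin n) (Fin n) F) *ᵥ v)) := fun v => by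
      rw [hsmul, hsmul, Matrix.mulVec_mulVec, Matrix.mulVec_mulVec, ← hk']; rfl
    have h3 := h1 w
    rw [hg', hg, hlw] at h3
    simp only [map_zero, zero_smul, sub_zero, map_smul, hlw, smul_zero, add_zero] at h3
    have h4 : k' = k := smul_left_injective E hw h3
    have h5 := h1 (x • u)
    rw [hg', hg, h4] at h5
    simp only [map_smul, map_sub, hlu, hlw, smul_eq_mul, mul_one, mul_zero, sub_zero, smul_sub, smul_smul] at h5
    apply smul_left_injective E hw
    show τ (k * x) • w = (k * τ x) • w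
    linear_combination (exp := 1) -h5
  · have hc : ∀ k ∈ K₁, (g : Matrix (Fin n) (Fin n) F) * ρ k = ρ k * g := fun k hk => mat_ext (fun v => by
      rw [← Matrix.mulVec_mulVec, ← Matrix.mulVec_mulVec, ← hsmul, ← hsmul, hg, hg, map_smul, smul_eq_mul,
        h k hk, smul_add, smul_smul])
    intro m
    constructor
    · rintro ⟨k, hk, rfl⟩
      refine ⟨k, hk, ?_⟩
      show ρ k = _ * ρ k * _
      rw [hc k hk, mul_assoc, ← Units.val_mul, mul_inv_cancel, Units.val_one, mul_one]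
    · rintro ⟨k, hk, he⟩
      refine ⟨k, hk, ?_⟩
      have he' : ρ k = g * m * ((g⁻¹ : GL (Fin n) F) : Matrix (Fin n) (Fin n) F) := he
      show ρ k = m
      have h1 : ρ k * g = g * m := by
        rw [he', mul_assoc, ← Units.val_mul, inv_mul_cancel, Units.val_one, mul_one]
      rw [← hc k hk] at h1
      exact (Units.mul_right_inj g).1 h1

theorem main {F : Type*} [Field F] [Fintype F] {E : Type*} [Field E] [Algebra F E] {n r : ℕ}
    (ρ : E →ₐ[F] Matrix (Fin n) (Fin n) F) (hr : Module.finrank F E = r) (hr1 : 1 < r) (hrp : ¬ r.Prime)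
    (hlt : r < n) : ∃ L : Subgroup (GL (Fin n) F), Cfsg.Geo.subalgebraNormalizer ρ.range ≤ L ∧
      (∃ g ∈ Cfsg.Geo.specialLinear (Fin n) F, g ∈ L ∧ g ∉ Cfsg.Geo.subalgebraNormalizer ρ.range) ∧
      ∃ g ∈ Cfsg.Geo.specialLinear (Fin n) F, g ∉ L := by
  classical
  obtain ⟨s, hsr, hs2, hslt⟩ := Nat.exists_dvd_of_not_prime2 hr1 hrp
  haveI : Module.Finite F E := Module.finite_of_finrank_pos (by omega)
  haveI : Finite E := Module.finite_of_finite F
  haveI := Fintype.ofFinite E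
  set q := Fintype.card F with hq
  have hq2 : 2 ≤ q := Fintype.one_lt_card
  have hE : Fintype.card E = q ^ r := by rw [Module.card_eq_pow_finrank (K := F), hr]
  let φ : E →ₐ[F] E := FiniteField.frobeniusAlgHom F E
  have hφ : ∀ (j : ℕ) (x : E), (φ ^ j) x = x ^ q ^ j := by
    intro j
    induction j with
    | zero => simp
    | succ j ih => intro x; rw [pow_succ', AlgHom.mul_apply, ih, pow_succ, pow_mul]; rfl
  let K₀ : Subalgebra F E := AlgHom.equalizer (φ ^ s) (AlgHom.id F E)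
  have hK₀ : ∀ x, x ∈ K₀ ↔ x ^ q ^ s = x := fun x => by
    rw [← hφ]; rfl
  have hρ : Function.Injective ρ := by
    have : Nontrivial (Matrix (Fin n) (Fin n) F) := by
      have : Nonempty (Fin n) := ⟨⟨0, by omega⟩⟩
      infer_instance
    exact ρ.toRingHom.injective
  have hmem : ∀ m, m ∈ K₀.map ρ ↔ m ∈ ρ.range ∧ m ^ q ^ s = m := by
    intro m
    constructor
    · rintro ⟨k, hk, rfl⟩
      refine ⟨⟨k, rfl⟩, ?_⟩
      show ρ k ^ q ^ s = ρ k
      rw [← map_pow, (hK₀ k).1 hk]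
    · rintro ⟨⟨k, rfl⟩, h⟩
      refine ⟨k, (hK₀ k).2 (hρ ?_), rfl⟩
      rw [map_pow]; exact h
  obtain ⟨γ, hγ⟩ := IsCyclic.exists_ofOrder_eq_natCard (α := Eˣ)
  rw [Nat.card_units, Nat.card_eq_fintype_card, hE] at hγ
  have hpow : ∀ (a : Eˣ) (j : ℕ), (a : E) ^ q ^ j = a → orderOf a ∣ q ^ j - 1 := by
    intro a j h
    rw [orderOf_dvd_iff_pow_eq_one]
    have h1 : a ^ q ^ j = a := Units.ext (by simpa using h)
    have h2 : q ^ j = (q ^ j - 1) + 1 := (Nat.sub_add_cancel (Nat.one_le_pow _ _ (by omega))).symm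
    rw [h2, pow_succ] at h1
    simpa using h1
  have hlt1 : q ^ s < q ^ r := Nat.pow_lt_pow_right hq2 hslt
  have hlt2 : q ^ 1 < q ^ s := Nat.pow_lt_pow_right hq2 hs2
  rw [pow_one] at hlt2
  refine ⟨Cfsg.Geo.subalgebraNormalizer (K₀.map ρ), fun g hg m => ?_, ?_, ?_⟩
  · rw [hmem, hmem, hg m, Units.conj_pow, Units.mul_left_inj, Units.mul_right_inj]
  · obtain ⟨g, hg, h⟩ := exists_unip ρ (hr ▸ hlt) (φ ^ s).toLinearMap
    refine ⟨g, hg, (h K₀).2 (fun k hk x => ?_), fun hn => ?_⟩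
    · have : (φ ^ s) k = k := hk
      rw [AlgHom.toLinearMap_apply, AlgHom.toLinearMap_apply, map_mul, this]
    · rw [← Algebra.map_top] at hn
      have h1 := (h ⊤).1 hn γ trivial 1
      simp only [mul_one, AlgHom.toLinearMap_apply, one_pow, hφ] at h1
      have h2 := Nat.le_of_dvd (by omega) (hγ ▸ hpow γ s h1)
      omega
  · obtain ⟨g, hg, h⟩ := exists_unip ρ (hr ▸ hlt) (φ ^ 1).toLinearMap
    refine ⟨g, hg, fun hn => ?_⟩
    obtain ⟨t, rfl⟩ := hsr
    obtain ⟨c, hc⟩ : q ^ s - 1 ∣ q ^ (s * t) - 1 := by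
      rw [pow_mul]; exact Nat.sub_one_dvd_pow_sub_one _ _
    have hc0 : c ≠ 0 := by rintro rfl; omega
    have ho : orderOf (γ ^ c) = q ^ s - 1 := by
      rw [orderOf_pow_of_dvd hc0 (by rw [hγ, hc]; exact dvd_mul_left _ _), hγ, hc,
        Nat.mul_div_cancel _ (Nat.pos_of_ne_zero hc0)]
    have hb : ((γ ^ c : Eˣ) : E) ∈ K₀ := by
      rw [hK₀, ← Units.val_pow_eq_pow_val]
      congr 1
      have h2 : q ^ s = (q ^ s - 1) + 1 := by omega
      rw [h2, pow_succ, ← ho, pow_orderOf_eq_one, one_mul]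
    have h1 := (h K₀).1 hn _ hb 1
    simp only [mul_one, AlgHom.toLinearMap_apply, one_pow, hφ] at h1
    have h2 := Nat.le_of_dvd (by rw [pow_one]; omega) (ho ▸ hpow _ 1 h1)
    rw [pow_one] at h2
    omega

/-- Let F be a finite field, n a positive integer and r a composite number (r > 1, not prime) that divides n with r < n. Let K be a subalgebra of the algebra of n × n matrices over F which is a field of degree r over F (commutative, every non-zero element invertible, of dimension r over F). Then the normaliser N of K in GL_n(F) (a group of type ΓL_{n/r}(F_{q^r})) is not a maximal subgroup of GL_n(F), and N ∩ SL_n(F) is not a maximal subgroup of SL_n(F): both lie properly inside the normaliser of an intermediate subfield of prime degree over F. -/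
theorem result {F : Type*} [Field F]
    [Fintype F] (n r : ℕ) (hr1 : 1 < r) (hrp : ¬ r.Prime) (hrn : r ∣ n) (hlt : r < n)
    (K : Subalgebra F (Matrix (Fin n) (Fin n) F)) (hK : Cfsg.Geo.IsFieldSubalgebra r K) :
    ¬ IsCoatom (Cfsg.Geo.subalgebraNormalizer K) ∧
      ¬ Cfsg.Geo.IsMaximalIn (Cfsg.Geo.specialLinear (Fin n) F)
        (Cfsg.Geo.subalgebraNormalizer K ⊓ Cfsg.Geo.specialLinear (Fin n) F) := by
  have : Nonempty (Fin n) := ⟨⟨0, by omega⟩⟩
  have hf : IsField K := ⟨exists_pair_ne K, fun x y => Subtype.ext (hK.comm _ x.2 _ y.2), fun {x} hx => by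
    obtain ⟨y, hy, h⟩ := hK.inv x x.2 (fun h => hx (Subtype.ext h))
    exact ⟨⟨y, hy⟩, Subtype.ext h⟩⟩
  letI : Field K := hf.toField
  obtain ⟨L, h1, ⟨g, hg, hgL, hgN⟩, g', hg', hg'L⟩ := main K.val hK.finrank_eq hr1 hrp hlt
  rw [Subalgebra.range_val] at h1 hgN
  constructor
  · intro h
    exact hg'L (h.2 L (lt_of_le_of_ne h1 (fun he => hgN (he ▸ hgL))) ▸ Subgroup.mem_top _)
  · intro h
    rcases h.2 (L ⊓ Cfsg.Geo.specialLinear (Fin n) F) (inf_le_inf_right _ h1) inf_le_right with he | he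
    · have h2 : g ∈ L ⊓ Cfsg.Geo.specialLinear (Fin n) F := ⟨hgL, hg⟩
      rw [he] at h2
      exact hgN h2.1
    · exact hg'L (he.symm ▸ hg' : g' ∈ L ⊓ Cfsg.Geo.specialLinear (Fin n) F).1

end Cfsg.Agent.S5887
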