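import Cfsg.Statements.S5890
import Mathlib
import Cfsg.Agent.Lib.PSL2Max.Fin

set_option autoImplicit false
open Cfsg

namespace Cfsg.Agent.S5890

open H98 H29 Matrix MatrixGroups MulAction

theorem map_range {F : Type*} [Field F] [Finite F] {p : ℕ} [Fact p.Prime] [CharP F p] {j : ℕ}
    (h : Nat.card F = p ^ j) : (Matrix.ProjGenLinGroup.mk.comp Matrix.SpecialLinearGroup.toGL).range.map
      (ProjGenLinGroup.map (algebraMap F (AlgebraicClosure F)) : PGL(2, F) →* _)
      = PS (fld (AlgebraicClosure F) p j) := by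
  rw [← range_iota h]
  ext z
  constructor
  · rintro ⟨_, ⟨g, rfl⟩, rfl⟩; exact ⟨g, rfl⟩
  · rintro ⟨g, rfl⟩
    obtain ⟨g, rfl⟩ := QuotientGroup.mk_surjective g
    exact ⟨_, ⟨g, rfl⟩, rfl⟩

/-- Let F be a finite field with q ≥ 4 elements, let L ≤ PGL₂(F) be the image of SL₂(F) (a copy of PSL₂(F), of index gcd(2, q − 1)), and let M be a maximal subgroup of PGL₂(F) that does not contain L. Suppose q ∉ {7, 9, 11} and that q is not a prime congruent to ±11 or ±19 modulo 40. Then M ∩ L is a maximal subgroup of L. (For the excluded q there are maximal subgroups of PGL₂(q) — dihedral groups of order 12 and 16 at q = 7, of order 20 and 16 at q = 9, of order 20 at q = 11, and S₄ at the excluded primes — whose intersection with L is not maximal in L.) -/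
theorem result {F : Type*} [Field F]
    [Fintype F] (h4 : 4 ≤ Fintype.card F) (h7 : Fintype.card F ≠ 7) (h9 : Fintype.card F ≠ 9) (h11 : Fintype.card F ≠ 11)
    (h40 : (Fintype.card F).Prime → Fintype.card F % 40 ∉ ({11, 19, 21, 29} : Finset ℕ))
    (M : Subgroup (Matrix.ProjGenLinGroup (Fin 2) F)) (hM : IsCoatom M)
    (hML : ¬ (Matrix.ProjGenLinGroup.mk.comp Matrix.SpecialLinearGroup.toGL).range ≤ M) :
    IsCoatom ((M ⊓ (Matrix.ProjGenLinGroup.mk.comp Matrix.SpecialLinearGroup.toGL).range).subgroupOf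
      (Matrix.ProjGenLinGroup.mk.comp Matrix.SpecialLinearGroup.toGL).range) := by
  obtain ⟨p, _, _, j, hj, hFq⟩ := exists_card_eq_pow F
  have hq : Fintype.card F = p ^ j := by rw [← Nat.card_eq_fintype_card, hFq]
  rw [hq] at h4 h7 h9 h11 h40
  have := NeZero.mk hj
  have hf := pgl_map_injective (algebraMap F (AlgebraicClosure F))
  rw [isCoatom_iff_map_covBy _ hf, range_pglMap hFq] at hM
  rw [← Subgroup.map_le_map_iff_of_injective hf, map_range hFq] at hML
  rw [isCoatom_iff_map_covBy ((ProjGenLinGroup.map (algebraMap F (AlgebraicClosure F)) : PGL(2, F) →* _).comp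
    (Subgroup.subtype _)) (hf.comp (Subgroup.subtype_injective _)),
    MonoidHom.range_comp (ProjGenLinGroup.map _), Subgroup.range_subtype, ← Subgroup.map_map, Subgroup.subgroupOf_map_subtype,
    inf_assoc, inf_idem, Subgroup.map_inf _ _ _ hf, map_range hFq, inf_comm]
  generalize M.map (ProjGenLinGroup.map (algebraMap F (AlgebraicClosure F)) : PGL(2, F) →* _) = N at hM hML
  rcases Nat.even_or_odd (p ^ j) with he | hodd
  · rw [PS_eq_PG _ (by rwa [card_fld hj]), inf_eq_right.2 hM.le]; exact hM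
  have hp2 : p ≠ 2 := by
    rintro rfl
    exact (Nat.not_even_iff_odd.2 hodd) ((Nat.even_pow' hj).2 even_two)
  have hg := gcd_two_of_odd hodd
  rcases class_PG hp2 hj h4 hM hML with ⟨c, hc, rfl⟩ | ⟨x, y, t, h1, h2, rfl⟩ | ⟨rfl, h1, h2, h⟩ |
    ⟨i, r, c, hc, hr, h1, rfl, rfl⟩
  · rw [← cj_PS hc, ← cj_inf, cj_covBy, ← inf_assoc, inf_eq_left.2 (PS_le_PG _)]
    exact stab_covBy le_rfl (PS_le_PG _)
  · obtain ⟨u, h3, h5⟩ := h2.exists_PS hj (h1.imp (fun e => ⟨e.1, by omega⟩) id)
    rw [← inf_assoc, inf_eq_left.2 (PS_le_PG _)]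
    refine h5.covBy_PS hj (Tor.not_dvd hj (h1.imp (fun e => h3.trans e.1) (fun e => h3.trans e))) ?_
    rw [hg] at h3
    obtain ⟨m, hm⟩ := hodd
    omega
  · obtain ⟨A, hA, eA, -⟩ := exists_alt4_of_sym4 h
    have h3 := alt4_le_PS eA (hA.trans hM.le)
    have h5 := two_mul_card_inf_PS (by rwa [card_fld hj]) hM.le h2
    have := finite_of_le (inf_le_left : PS (fld (AlgebraicClosure F) p 1) ⊓ N ≤ _)
    rw [← eq_of_le_of_card_le (le_inf h3 hA) (by rw [card_alt4 eA]; rw [card_sym4 h] at h5; omega)]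
    rw [pow_one] at h4 h40
    have h6 := h40 Fact.out
    simp only [Finset.mem_insert, Finset.mem_singleton, not_or] at h6
    exact alt4_covBy (by omega) h1 (by omega) h3 eA
  · have hi : i ≠ 0 := left_ne_zero_of_mul hj
    have := NeZero.mk hi
    have ho : Odd (p ^ i) := ((Fact.out : p.Prime).odd_of_ne_two hp2).pow
    have h2 : 1 < p ^ i := Nat.one_lt_pow hi (Fact.out : p.Prime).one_lt
    have h3 := ((PS_covBy_PG (k := fld (AlgebraicClosure F) p i) (by rwa [card_fld hi])).eq_or_eq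
      (le_inf (PS_mono (fld_le (dvd_mul_right i r))) (PS_le_PG _)) inf_le_right).resolve_right
      (fun e => h1 (hr.even_iff.1 (even_of_PG_le_PS hp2 hi (inf_eq_right.1 e))))
    rw [← cj_PS hc, ← cj_inf, cj_covBy, h3]
    exact PS_covBy_PS hi hr (by obtain ⟨m, hm⟩ := ho; omega) (Or.inr h1)

end Cfsg.Agent.S5890
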