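import Cfsg.Statements.S5891
import Mathlib
import Cfsg.Agent.Lib.PSL2Max.Fin

set_option autoImplicit false
open Cfsg

namespace Cfsg.Agent.S5891

open H98 H29 Matrix MatrixGroups MulAction

theorem map_range {F : Type*} [Field F] [Finite F] {p : ℕ} [Fact p.Prime] [CharP F p] {j : ℕ}
    (h : Nat.card F = p ^ j) : (Matrix.ProjGenLinGroup.mk.comp Matrix.SpecialLinearGroup.toGL).range.map
      (ProjGenLinGroup.map (algebraMap F (AlgebraicClosure F)) : PGL(2, F) →* _)
      = PS (fld (AlgebraicClosure F) p j) := by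
  rw [← range_iota h]
  ext z
  constructor
  · rintro ⟨_, ⟨g, rfl⟩, rfl⟩; exact ⟨g, rfl⟩
  · rintro ⟨g, rfl⟩
    obtain ⟨g, rfl⟩ := QuotientGroup.mk_surjective g
    exact ⟨_, ⟨g, rfl⟩, rfl⟩

/-- Let F be a finite field of odd order q > 3 and characteristic p, and let M be a maximal subgroup of PGL₂(F) not containing the image L of SL₂(F) (a copy of PSL₂(F) of index 2). Then one of the following holds: |M| = q(q − 1) (M is the stabiliser of a point of the projective line); q ≠ 5 and M is dihedral of order 2(q − 1); M is dihedral of order 2(q + 1); q = p ≡ ±3 (mod 8) and M ≅ S₄; or q = q₀^r for an odd prime r and M ≅ PGL₂(F₀) with |F₀| = q₀. -/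
theorem result {F : Type*} [Field F] [Fintype F]
    (hodd : Odd (Fintype.card F)) (h3 : 3 < Fintype.card F) (M : Subgroup (Matrix.ProjGenLinGroup (Fin 2) F)) (hM : IsCoatom M)
    (hML : ¬ (Matrix.ProjGenLinGroup.mk.comp Matrix.SpecialLinearGroup.toGL).range ≤ M) :
    Nat.card M = Fintype.card F * (Fintype.card F - 1) ∨
    (Fintype.card F ≠ 5 ∧ Nonempty (M ≃* DihedralGroup (Fintype.card F - 1))) ∨
    Nonempty (M ≃* DihedralGroup (Fintype.card F + 1)) ∨
    ((Fintype.card F).Prime ∧ (Fintype.card F % 8 = 3 ∨ Fintype.card F % 8 = 5) ∧ Nonempty (M ≃* Equiv.Perm (Fin 4))) ∨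
    (∃ (F₀ : Type) (_ : Field F₀) (_ : Fintype F₀) (r : ℕ), r.Prime ∧ Odd r ∧ Fintype.card F = Fintype.card F₀ ^ r ∧
        Nonempty (M ≃* Matrix.ProjGenLinGroup (Fin 2) F₀)) := by
  obtain ⟨p, _, _, j, hj, hFq⟩ := exists_card_eq_pow F
  have hq : Fintype.card F = p ^ j := by rw [← Nat.card_eq_fintype_card, hFq]
  rw [hq] at hodd h3 ⊢
  have := NeZero.mk hj
  have hp2 : p ≠ 2 := by
    rintro rfl
    exact (Nat.not_even_iff_odd.2 hodd) ((Nat.even_pow' hj).2 even_two)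
  have hf := pgl_map_injective (algebraMap F (AlgebraicClosure F))
  have e := M.equivMapOfInjective _ hf
  rw [isCoatom_iff_map_covBy _ hf, range_pglMap hFq] at hM
  rw [← Subgroup.map_le_map_iff_of_injective hf, map_range hFq] at hML
  rcases class_PG hp2 hj h3 hM hML with ⟨c, -, h⟩ | ⟨x, y, t, h1, h2, h⟩ | ⟨rfl, h1, -, h⟩ | ⟨i, r, c, -, hr, h1, h2, h⟩
  · left
    rw [Nat.card_congr e.toEquiv, h, card_cj, card_PG_inf_stabilizer, card_fld hj]
  · obtain ⟨e'⟩ := h2.dihedral (by rintro rfl; rw [orderOf_one] at h1; omega)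
    rcases h1 with ⟨h1, h4⟩ | h1
    · exact Or.inr (Or.inl ⟨h4, ⟨h1 ▸ (e.trans (MulEquiv.subgroupCongr h)).trans e'⟩⟩)
    · exact Or.inr (Or.inr (Or.inl ⟨h1 ▸ (e.trans (MulEquiv.subgroupCongr h)).trans e'⟩))
  · rw [pow_one]
    exact Or.inr (Or.inr (Or.inr (Or.inl ⟨Fact.out, h1, ⟨e.trans h.some⟩⟩)))
  · obtain ⟨F₀, _, _, h4, -, ⟨e'⟩⟩ := exists_small_fld (AlgebraicClosure F) p (i := i) (by rintro rfl; simp [h2] at hj)
    exact Or.inr (Or.inr (Or.inr (Or.inr ⟨F₀, inferInstance, inferInstance, r, hr, hr.odd_of_ne_two h1,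
      by rw [h4, h2, pow_mul], ⟨((e.trans (MulEquiv.subgroupCongr h)).trans (cjEquiv c _).symm).trans
        ((pgEquiv _).symm.trans e')⟩⟩)))

end Cfsg.Agent.S5891
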