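import Cfsg.Statements.S5894
import Mathlib
import Cfsg.Agent.Lib.SymMax.Partition

set_option autoImplicit false
open Cfsg

namespace Cfsg.Agent.S5894

open Equiv Equiv.Perm MulAction Pointwise in
theorem aux {Ω : Type*} [Fintype Ω] [DecidableEq Ω] (m : ℕ) (hm : 2 ≤ m) (f : Ω → Bool)
    (hf : ∀ i, Nat.card {x : Ω // f x = i} = m) :
    ∃ M H K : Subgroup (Equiv.Perm Ω), IsCoatom M ∧ M.index = 2 * m ∧ H ≤ M ∧ IsCoatom (H.subgroupOf M) ∧
      IsCoatom K ∧ H ≤ K ∧ ¬ IsCoatom (H.subgroupOf K) := by
  classical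
  have hcard := H98.card_eq_of_fibres hf
  rw [Nat.card_eq_fintype_card, Fintype.card_bool] at hcard
  obtain ⟨x, x', hxx, hx, hx'⟩ := H98.exists_pair_of_two_le (f := f) true (by rw [hf]; exact hm)
  obtain ⟨y, -, -, hy, -⟩ := H98.exists_pair_of_two_le (f := f) false (by rw [hf]; exact hm)
  have : Nontrivial Ω := ⟨x, x', hxx⟩
  let φ : Perm {z // z ≠ x} →* Perm Ω := ofSubtype
  have hφ : Function.Injective φ := ofSubtype_injective
  have hrange : φ.range = stabilizer (Perm Ω) x := by
    ext g
    rw [mem_range_ofSubtype_iff, mem_stabilizer_iff, Perm.smul_def]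
    constructor
    · intro h
      by_contra hne
      exact h (Finset.mem_coe.2 (mem_support.2 hne)) rfl
    · intro h z hz hzx
      rw [hzx] at hz
      exact mem_support.1 (Finset.mem_coe.1 hz) h
  let s0 : Set {z // z ≠ x} := {z | f z = false}
  have hyx : y ≠ x := by rintro rfl; simp [hx] at hy
  have hs0 : IsCoatom (stabilizer (Perm {z // z ≠ x}) s0) := by
    refine Perm.isCoatom_stabilizer ⟨⟨y, hyx⟩, hy⟩ ⟨⟨x', hxx.symm⟩, by simp [s0, hx']⟩ ?_
    rw [Nat.card_eq_fintype_card, Fintype.card_subtype_compl, Fintype.card_subtype_eq, hcard]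
    omega
  let L : Subgroup (Perm Ω) := stabilizer (Perm Ω) {z | f z = false}
  have hL : ∀ g : Perm Ω, g ∈ L ↔ ∀ z, f (g z) = f z := by
    intro g
    rw [mem_stabilizer_iff]
    constructor
    · intro h z
      have : g z ∈ {z | f z = false} ↔ z ∈ {z | f z = false} := by
        conv_lhs => rw [← h]
        exact Set.smul_mem_smul_set_iff
      simp only [Set.mem_setOf_eq] at this
      cases h1 : f (g z) <;> cases h2 : f z <;> simp_all
    · intro h
      ext z
      rw [Set.mem_smul_set_iff_inv_smul_mem, Perm.smul_def, Set.mem_setOf_eq, Set.mem_setOf_eq, ← h]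
      simp
  have hLK : L ≤ H98.partStab f := fun g hg =>
    H98.mem_partStab_of_comp id Function.injective_id ((hL g).1 hg)
  have hHL : (stabilizer (Perm {z // z ≠ x}) s0).map φ ≤ L := by
    rintro _ ⟨g, hg, rfl⟩
    rw [hL]
    intro z
    by_cases hz : z = x
    · rw [ofSubtype_apply_of_not_mem g (by simpa using hz)]
    · rw [ofSubtype_apply_of_mem g hz]
      have h : g • s0 = s0 := hg
      have : g ⟨z, hz⟩ ∈ s0 ↔ ⟨z, hz⟩ ∈ s0 := by
        conv_lhs => rw [← h]
        exact Set.smul_mem_smul_set_iff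
      simp only [s0, Set.mem_setOf_eq] at this
      cases h1 : f (g ⟨z, hz⟩) <;> cases h2 : f z <;> simp_all
  refine ⟨φ.range, (stabilizer (Perm {z // z ≠ x}) s0).map φ, H98.partStab f, ?_, ?_,
    Subgroup.map_le_range _ _, ?_, H98.isCoatom_partStab hm f hf, hHL.trans hLK, ?_⟩
  · rw [hrange]; exact IsPreprimitive.isCoatom_stabilizer_of_isPreprimitive _ x
  · rw [hrange, index_stabilizer_of_transitive, Nat.card_eq_fintype_card, hcard]
  · have h1 := (OrderIso.isCoatom_iff (MonoidHom.ofInjective hφ).mapSubgroup _).2 hs0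
    convert h1
    ext ⟨g, g', rfl⟩
    rw [Subgroup.mem_subgroupOf]
    constructor
    · rintro ⟨g'', h, he⟩
      exact ⟨g'', h, Subtype.ext he⟩
    · rintro ⟨g'', h, he⟩
      exact ⟨g'', h, congrArg Subtype.val he⟩
  · intro hco
    have h1 : ((stabilizer (Perm {z // z ≠ x}) s0).map φ).subgroupOf (H98.partStab f) <
        L.subgroupOf (H98.partStab f) := by
      refine lt_of_le_of_ne (fun g hg => hHL hg) (fun h => ?_)
      have h2 : (⟨swap x x', H98.swap_mem_partStab (hx.trans hx'.symm)⟩ : H98.partStab f) ∈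
          L.subgroupOf (H98.partStab f) := (hL _).2 (H98.apply_swap_of_eq (hx.trans hx'.symm))
      rw [← h] at h2
      have h3 := Subgroup.map_le_range _ _ h2
      rw [hrange, mem_stabilizer_iff, Perm.smul_def] at h3
      simp at h3
      exact hxx h3.symm
    have h2 := hco.2 _ h1
    rw [Subgroup.subgroupOf_eq_top] at h2
    obtain ⟨w, hw, -⟩ := H98.exists_blockSwap f true false (by rw [hf, hf])
    have h3 := (hL w).1 (h2 (H98.mem_partStab_of_comp _ (Equiv.swap true false).injective hw)) x
    rw [hw, hx] at h3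
    simp at h3

/-- For every m ≥ 2 the symmetric group on 2m letters has a maximal subgroup M of index 2m together with a maximal subgroup H of M that is not second maximal: some maximal subgroup K of the symmetric group contains H without H being maximal in K. (One may take M the stabiliser of a letter, H ≅ S_m × S_{m−1} inside it, and K ≅ S_m ≀ S₂ the stabiliser of a partition into two m-sets, with H < S_m × S_m < K.) So the prime-index hypothesis in the second-maximality criterion cannot be relaxed to any even index ≥ 4. -/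
theorem result (m : ℕ) (hm : 2 ≤ m) :
    ∃ M H K : Subgroup (Equiv.Perm (Fin (2 * m))), IsCoatom M ∧ M.index = 2 * m ∧ H ≤ M ∧ IsCoatom (H.subgroupOf M) ∧
      IsCoatom K ∧ H ≤ K ∧ ¬ IsCoatom (H.subgroupOf K) := by
  let e : Fin (2 * m) ≃ Bool × Fin m := finProdFinEquiv.symm.trans (Equiv.prodCongr finTwoEquiv (Equiv.refl _))
  refine aux m hm (fun z => (e z).1) (fun i => ?_)
  rw [Nat.card_congr (e.subtypeEquiv (q := fun w => w.1 = i) (fun _ => Iff.rfl))]
  have : {w : Bool × Fin m // w.1 = i} ≃ Fin m :=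
    { toFun := fun w => w.1.2
      invFun := fun j => ⟨(i, j), rfl⟩
      left_inv := by rintro ⟨⟨a, b⟩, rfl⟩; rfl
      right_inv := fun _ => rfl }
  rw [Nat.card_congr this]; simp

end Cfsg.Agent.S5894
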