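import Cfsg.Statements.S5902
import Mathlib
import Cfsg.Agent.S5901

set_option autoImplicit false
open Cfsg

namespace Cfsg.Agent.S5902

/-- Let G be a finite group, X a subgroup whose own subgroup lattice is complemented, and suppose X lies in exactly one maximal subgroup M of G. Then every subgroup H of G not contained in the normal core of M has a complement in the subgroup lattice of G (some C with H ⊔ C = G and H ⊓ C = 1); in particular the subgroup lattice of G modulo the normal core of M is complemented. -/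
theorem result {G : Type*} [Group G] [Finite G] (X M : Subgroup G)
    (hK : ComplementedLattice (Subgroup X))
    (hM : IsCoatom M) (hXM : X ≤ M) (huniq : ∀ M' : Subgroup G, IsCoatom M' → X ≤ M' → M' = M) :
    (∀ H : Subgroup G, ¬ H ≤ M.normalCore → ∃ C : Subgroup G, H ⊔ C = ⊤ ∧ H ⊓ C = ⊥) ∧
    ComplementedLattice (Subgroup (G ⧸ M.normalCore)) := by
  have h1 : ∀ H : Subgroup G, ¬ H ≤ M → ∃ C : Subgroup G, H ⊔ C = ⊤ ∧ H ⊓ C = ⊥ := by
    intro H hH
    refine Cfsg.Agent.S5901.result ⊥ X M bot_le (fun h => hM.1 (top_le_iff.1 (h ▸ hXM))) ?_ hM hXM huniq H hH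
      (inf_bot_eq H)
    intro Y _ hYX
    obtain ⟨C, hC⟩ := exists_isCompl (Y.subgroupOf X)
    refine ⟨C.map X.subtype, bot_le, Subgroup.map_subtype_le _, ?_, ?_⟩
    · have := congrArg (Subgroup.map X.subtype) hC.sup_eq_top
      rw [Subgroup.map_sup, Subgroup.subgroupOf_map_subtype, inf_eq_left.2 hYX, ← MonoidHom.range_eq_map,
        Subgroup.range_subtype] at this
      exact this
    · have := congrArg (Subgroup.map X.subtype) hC.inf_eq_bot
      rw [Subgroup.map_inf _ _ _ X.subtype_injective, Subgroup.subgroupOf_map_subtype, inf_eq_left.2 hYX,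
        Subgroup.map_bot] at this
      exact this
  have h2 : ∀ H : Subgroup G, ¬ H ≤ M.normalCore → ∃ C : Subgroup G, H ⊔ C = ⊤ ∧ H ⊓ C = ⊥ := by
    intro H hH
    obtain ⟨h, hh, hn⟩ := SetLike.not_le_iff_exists.1 hH
    have : ∃ g : G, g * h * g⁻¹ ∉ M := by
      by_contra hc
      push Not at hc
      exact hn hc
    obtain ⟨g, hg⟩ := this
    let e := (MulAut.conj g).mapSubgroup
    obtain ⟨C, hC1, hC2⟩ := h1 (e H) (fun hle => hg (hle ⟨h, hh, rfl⟩))
    refine ⟨e.symm C, ?_, ?_⟩
    · apply e.injective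
      rw [map_sup, e.apply_symm_apply, hC1, map_top]
    · apply e.injective
      rw [map_inf, e.apply_symm_apply, hC2, map_bot]
  refine ⟨h2, ⟨fun K => ?_⟩⟩
  by_cases hKb : K = ⊥
  · exact ⟨⊤, hKb ▸ isCompl_bot_top⟩
  · set N := M.normalCore with hN
    have hne : ¬ K.comap (QuotientGroup.mk' N) ≤ N := by
      intro hle
      apply hKb
      rw [eq_bot_iff]
      intro x hx
      obtain ⟨y, rfl⟩ := QuotientGroup.mk'_surjective N x
      exact Subgroup.mem_bot.2 ((QuotientGroup.eq_one_iff y).2 (hle hx))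
    obtain ⟨C, hC1, hC2⟩ := h2 _ hne
    refine ⟨C.map (QuotientGroup.mk' N), ?_, ?_⟩
    · rw [disjoint_iff, eq_bot_iff]
      rintro x ⟨hx, c, hc, rfl⟩
      have : c ∈ K.comap (QuotientGroup.mk' N) ⊓ C := ⟨hx, hc⟩
      rw [hC2, Subgroup.mem_bot] at this
      rw [this, map_one]
      exact Subgroup.one_mem _
    · rw [codisjoint_iff]
      have := congrArg (Subgroup.map (QuotientGroup.mk' N)) hC1
      rw [Subgroup.map_sup, Subgroup.map_comap_eq_self_of_surjective (QuotientGroup.mk'_surjective N),
        Subgroup.map_top_of_surjective _ (QuotientGroup.mk'_surjective N)] at this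
      exact this

end Cfsg.Agent.S5902
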