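import Cfsg.Statements.S5903
import Mathlib
import Cfsg.Agent.S5901

set_option autoImplicit false
open Cfsg

namespace Cfsg.Agent.S5903

/-- Let G be a finite simple group, X a subgroup lying in exactly one maximal subgroup M of G, and N a subgroup of prime order with N ≤ X that is central in M. If the subgroup lattice of X/N is complemented, then the subgroup lattice of G is complemented. -/
theorem result {G : Type*} [Group G] [Finite G] [IsSimpleGroup G] (X M N : Subgroup G)
    (hM : IsCoatom M) (hXM : X ≤ M) (huniq : ∀ M' : Subgroup G, IsCoatom M' → X ≤ M' → M' = M)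
    (hNX : N ≤ X) (hN : (Nat.card N).Prime) (hcen : ∀ n ∈ N, ∀ m ∈ M, m * n = n * m)
    [(N.subgroupOf X).Normal] (hK : ComplementedLattice (Subgroup (X ⧸ N.subgroupOf X))) :
    ComplementedLattice (Subgroup G) := by
  have hint : ∀ Y : Subgroup G, N ≤ Y → Y ≤ X → ∃ C : Subgroup G, N ≤ C ∧ C ≤ X ∧ Y ⊔ C = X ∧ Y ⊓ C = N := by
    intro Y hNY hYX
    set π := QuotientGroup.mk' (N.subgroupOf X) with hπ
    have hsurj : Function.Surjective π := QuotientGroup.mk'_surjective _
    obtain ⟨C, hC⟩ := exists_isCompl ((Y.subgroupOf X).map π)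
    have hker : π.ker = N.subgroupOf X := QuotientGroup.ker_mk' _
    have hY : ((Y.subgroupOf X).map π).comap π = Y.subgroupOf X := by
      rw [Subgroup.comap_map_eq, hker]
      exact sup_eq_left.2 (fun x hx => hNY hx)
    refine ⟨(C.comap π).map X.subtype, ?_, Subgroup.map_subtype_le _, ?_, ?_⟩
    · intro n hn
      refine ⟨⟨n, hNX hn⟩, ?_, rfl⟩
      have : (⟨n, hNX hn⟩ : X) ∈ π.ker := by rw [hker]; exact hn
      exact Subgroup.ker_le_comap π C this
    · have h1 := congrArg (Subgroup.comap π) hC.sup_eq_top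
      rw [← Subgroup.comap_sup_eq π _ _ hsurj, hY, Subgroup.comap_top] at h1
      have := congrArg (Subgroup.map X.subtype) h1
      rw [Subgroup.map_sup, Subgroup.subgroupOf_map_subtype, inf_eq_left.2 hYX, ← MonoidHom.range_eq_map,
        Subgroup.range_subtype] at this
      exact this
    · have h1 := congrArg (Subgroup.comap π) hC.inf_eq_bot
      rw [Subgroup.comap_inf, hY, MonoidHom.comap_bot, hker] at h1
      have := congrArg (Subgroup.map X.subtype) h1
      rw [Subgroup.map_inf _ _ _ X.subtype_injective, Subgroup.subgroupOf_map_subtype, inf_eq_left.2 hYX,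
        Subgroup.subgroupOf_map_subtype, inf_eq_left.2 hNX] at this
      exact this
  have hXt : X ≠ ⊤ := fun h => hM.1 (top_le_iff.1 (h ▸ hXM))
  have hNb : N ≠ ⊥ := by
    intro h
    rw [h, Subgroup.card_bot] at hN
    exact Nat.not_prime_one hN
  refine ⟨fun H => ?_⟩
  by_cases hex : ∃ g : G, ¬ (MulAut.conj g).mapSubgroup H ≤ M ∧ (MulAut.conj g).mapSubgroup H ⊓ N = ⊥
  · obtain ⟨g, hg1, hg2⟩ := hex
    set e := (MulAut.conj g).mapSubgroup
    obtain ⟨C, hC1, hC2⟩ := Cfsg.Agent.S5901.result N X M hNX hXt hint hM hXM huniq _ hg1 hg2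
    refine ⟨e.symm C, ?_, ?_⟩
    · rw [disjoint_iff]
      apply e.injective
      rw [map_inf, e.apply_symm_apply, hC2, map_bot]
    · rw [codisjoint_iff]
      apply e.injective
      rw [map_sup, e.apply_symm_apply, hC1, map_top]
  · push Not at hex
    have hcl : Subgroup.normalClosure (N : Set G) = ⊤ := by
      rcases (inferInstance : (Subgroup.normalClosure (N : Set G)).Normal).eq_bot_or_eq_top with h | h
      · exact absurd (eq_bot_iff.2 (h ▸ Subgroup.le_normalClosure)) hNb
      · exact h
    have hnorm : Subgroup.normalizer (H : Set G) = ⊤ := by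
      rw [eq_top_iff, ← hcl, Subgroup.normalClosure, Subgroup.closure_le]
      intro x hx
      rw [Group.mem_conjugatesOfSet_iff] at hx
      obtain ⟨n, hn, hc⟩ := hx
      obtain ⟨c, rfl⟩ := isConj_iff.1 hc
      by_cases hle : (MulAut.conj c⁻¹).mapSubgroup H ≤ M
      · apply Subgroup.centralizer_le_normalizer
        rw [Subgroup.mem_centralizer_iff]
        intro h hh
        have h1 : c⁻¹ * h * c⁻¹⁻¹ ∈ M := hle ⟨h, hh, rfl⟩
        have h2 := hcen n hn _ h1
        calc h * (c * n * c⁻¹) = c * (c⁻¹ * h * c⁻¹⁻¹ * n) * c⁻¹ := by group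
          _ = c * n * c⁻¹ * h := by rw [h2]; group
      · have h1 := hex c⁻¹ hle
        have h2 : ((MulAut.conj c⁻¹).mapSubgroup H ⊓ N).subgroupOf N ≠ ⊥ := by
          intro h
          apply h1
          rw [Subgroup.subgroupOf_eq_bot] at h
          exact h.eq_bot_of_le inf_le_right
        haveI : Fact (Nat.card N).Prime := ⟨hN⟩
        have h3 := (Subgroup.eq_bot_or_eq_top_of_prime_card _).resolve_left h2
        rw [Subgroup.subgroupOf_eq_top] at h3
        obtain ⟨h, hh, hh2⟩ := (h3 hn).1
        apply Subgroup.le_normalizer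
        have : c * n * c⁻¹ = h := by
          rw [← hh2]; simp [mul_assoc]
        rw [this]; exact hh
    have hHn : H.Normal := Subgroup.normalizer_eq_top_iff.1 hnorm
    rcases hHn.eq_bot_or_eq_top with h | h
    · exact ⟨⊤, h ▸ isCompl_bot_top⟩
    · exact ⟨⊥, h ▸ isCompl_top_bot⟩

end Cfsg.Agent.S5903
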