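import Cfsg.Statements.S5904
import Mathlib
import Cfsg.Agent.Lib.SymMax.Partition

set_option autoImplicit false
open scoped Pointwise
open Cfsg

namespace Cfsg.Agent.S5904

/-- Let Ω be a finite set with more than two elements and O ⊆ Ω a subset with exactly as many elements as its complement. Then the setwise stabilizer of O in the symmetric group on Ω is not a maximal subgroup (it is properly contained in the stabilizer of the partition {O, Ω ∖ O}, which is proper). -/
theorem result {Ω : Type*} [Fintype Ω] [DecidableEq Ω] (hΩ : 2 < Fintype.card Ω)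
    (O : Set Ω) (hO : Nat.card O = Nat.card ↥Oᶜ) :
    ¬ IsCoatom (MulAction.stabilizer (Equiv.Perm Ω) O) := by
  classical
  intro hco
  let f : Ω → Bool := fun x => decide (x ∈ O)
  have hcard : Nat.card O + Nat.card ↥Oᶜ = Fintype.card Ω := by
    rw [Nat.card_coe_set_eq, Nat.card_coe_set_eq, Set.ncard_add_ncard_compl, Nat.card_eq_fintype_card]
  have hf : ∀ i, Nat.card {x : Ω // f x = i} = Nat.card O := by
    intro i
    cases i
    · rw [hO]; exact Nat.card_congr (Equiv.subtypeEquivRight (fun x => by simp [f]))
    · exact Nat.card_congr (Equiv.subtypeEquivRight (fun x => by simp [f]))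
  have h2 : 2 ≤ Nat.card O := by omega
  have hW := H98.isCoatom_partStab h2 f hf
  have hle : MulAction.stabilizer (Equiv.Perm Ω) O ≤ H98.partStab f := by
    intro g hg
    refine H98.mem_partStab_of_comp id Function.injective_id (fun x => ?_)
    rw [MulAction.mem_stabilizer_iff] at hg
    have : g x ∈ O ↔ x ∈ O := by
      conv_lhs => rw [← hg]
      exact Set.smul_mem_smul_set_iff
    simp [f, this]
  obtain ⟨w, hw, -⟩ := H98.exists_blockSwap f true false (by rw [hf, hf])
  have hwW : w ∈ H98.partStab f := H98.mem_partStab_of_comp _ (Equiv.swap true false).injective hw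
  refine hW.1 (hco.2 _ (lt_of_le_of_ne hle (fun h => ?_)))
  rw [← h, MulAction.mem_stabilizer_iff] at hwW
  obtain ⟨x, -, -, hx, -⟩ := H98.exists_pair_of_two_le (f := f) true (by rw [hf]; exact h2)
  have h3 := hw x
  rw [hx, Equiv.swap_apply_left] at h3
  have h4 : w x ∈ O := by
    rw [← hwW]
    exact Set.smul_mem_smul_set (by simpa [f] using hx)
  simp [f, h4] at h3

end Cfsg.Agent.S5904
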