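import Cfsg.Statements.S5908
import Mathlib
import Cfsg.Agent.S0827

set_option autoImplicit false
open Cfsg

namespace Cfsg.Agent.S5908

theorem not_compl_of_surj {G : Type*} [Group G] (φ : G →* QuaternionGroup 2) (hφ : Function.Surjective φ) :
    ¬ ComplementedLattice (Subgroup G) := by
  intro h
  let Z : Subgroup (QuaternionGroup 2) :=
    { carrier := {x | x = 1 ∨ x = QuaternionGroup.a 2}
      mul_mem' := by
        rintro x y (rfl | rfl) (rfl | rfl) <;> simp only [Set.mem_setOf_eq] <;> decide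
      one_mem' := Or.inl rfl
      inv_mem' := by
        rintro x (rfl | rfl) <;> simp only [Set.mem_setOf_eq] <;> decide }
  obtain ⟨C, hC⟩ := exists_isCompl (Z.comap φ)
  have h1 : ∀ c ∈ C, φ c ∈ Z → c = 1 := fun c hc hz => by
    have : c ∈ Z.comap φ ⊓ C := ⟨hz, hc⟩
    rwa [hC.inf_eq_bot, Subgroup.mem_bot] at this
  have h2 : ∀ x : QuaternionGroup 2, (x * x = 1 ∨ x * x = QuaternionGroup.a 2) ∧
      (x * x = 1 → x = 1 ∨ x = QuaternionGroup.a 2) := by decide
  have h3 : C ≤ Z.comap φ := by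
    intro c hc
    have h4 := h1 (c * c) (C.mul_mem hc hc) (by rw [map_mul]; exact (h2 _).1)
    exact (h2 (φ c)).2 (by rw [← map_mul, h4, map_one])
  have h4 := hC.sup_eq_top
  rw [sup_eq_left.2 h3] at h4
  obtain ⟨g, hg⟩ := hφ (QuaternionGroup.a 1)
  have h5 : φ g ∈ Z := (h4 ▸ Subgroup.mem_top g : g ∈ Z.comap φ)
  rw [hg] at h5
  revert h5
  show ¬ (_ ∨ _)
  decide

/-- The subgroup lattice of PSU₃(2) (the solvable group of order 72, realised over the field with 4 elements) is not complemented: some subgroup H has no subgroup X with H ⊔ X = ⊤ and H ⊓ X = ⊥. -/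
theorem result {F : Type*} [Field F] [Fintype F] (hF : Fintype.card F = 4) :
    ¬ ComplementedLattice (Subgroup (Cfsg.PSU 3 F 2)) := by
  obtain ⟨N, _, -, -, ⟨e⟩⟩ := Cfsg.Agent.S0827.result hF
  exact not_compl_of_surj (e.toMonoidHom.comp (QuotientGroup.mk' N))
    (e.surjective.comp (QuotientGroup.mk'_surjective N))

end Cfsg.Agent.S5908
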