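import Cfsg.Statements.S5910
import Mathlib
import Cfsg.Agent.Lib.SymMax.Partition

set_option autoImplicit false
open Cfsg

namespace Cfsg.Agent.S5910

open Equiv Equiv.Perm

def Q (i j k l : Fin 4) : Prop :=
  (i = j ∧ k = l) ∨ (i = k ∧ j = l) ∨ (i = l ∧ j = k) ∨
    (¬ i = j ∧ ¬ i = k ∧ ¬ i = l ∧ ¬ j = k ∧ ¬ j = l ∧ ¬ k = l)

instance decQ (i j k l : Fin 4) : Decidable (Q i j k l) := by unfold Q; infer_instance

def P (a b c d : Fin 4 × Fin 2) : Prop := Q a.1 b.1 c.1 d.1 ∧ a.2 + b.2 + c.2 + d.2 = 0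

instance decP (a b c d : Fin 4 × Fin 2) : Decidable (P a b c d) := by unfold P; infer_instance

def K0 : Subgroup (Perm (Fin 4 × Fin 2)) where
  carrier := {g | ∀ a b c d, P a b c d ↔ P (g a) (g b) (g c) (g d)}
  mul_mem' {g h} hg hh a b c d := by rw [hh, hg]; rfl
  one_mem' _ _ _ _ := Iff.rfl
  inv_mem' {g} hg a b c d := by rw [hg (g⁻¹ a)]; simp

theorem sum_zero : ∀ t : Fin 4 → Fin 2, ∏ i, sign (Equiv.addRight (t i)) = 1 →
    ∀ i j k l, Q i j k l → t i + t j + t k + t l = 0 := by decide +kernel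

theorem le_K0 : H98.partStab (Prod.fst : Fin 4 × Fin 2 → Fin 4) ⊓ alternatingGroup _ ≤ K0 := by
  rintro g ⟨hW, hA⟩
  have hW' : ∀ x y : Fin 4 × Fin 2, x.1 = y.1 ↔ (g x).1 = (g y).1 := hW
  let σ0 : Fin 4 → Fin 4 := fun i => (g (i, 0)).1
  have hσ0 : Function.Injective σ0 := fun i j h => (hW' (i, 0) (j, 0)).2 h
  let σ : Perm (Fin 4) := Equiv.ofBijective σ0 (Finite.injective_iff_bijective.1 hσ0)
  let t : Fin 4 → Fin 2 := fun i => (g (i, 0)).2
  have hg : ∀ i s, g (i, s) = (σ i, s + t i) := by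
    intro i s
    have h1 : (g (i, s)).1 = σ i := ((hW' (i, s) (i, 0)).1 rfl)
    refine Prod.ext h1 ?_
    have h2 : (g (i, s)).2 = t i → s = 0 := by
      intro h
      have : g (i, s) = g (i, 0) := Prod.ext h1 h
      exact (Prod.ext_iff.1 (g.injective this)).2
    have h3 : s = 0 → (g (i, s)).2 = t i := by rintro rfl; rfl
    have h4 : ∀ s u v : Fin 2, (u = v → s = 0) → (s = 0 → u = v) → u = s + v := by decide
    exact h4 _ _ _ h2 h3
  have hdec : g = prodCongrLeft (fun _ : Fin 2 => σ) * prodCongrRight (fun i => Equiv.addRight (t i)) := by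
    ext ⟨i, s⟩ : 1
    rw [hg]; rfl
  have hs : ∏ i, sign (Equiv.addRight (t i)) = 1 := by
    have h1 : sign g = 1 := hA
    rw [hdec, Perm.sign_mul, sign_prodCongrLeft, sign_prodCongrRight] at h1
    simpa using h1
  rintro ⟨i, a⟩ ⟨j, b⟩ ⟨k, c⟩ ⟨l, d⟩
  have hQ : Q i j k l ↔ Q (σ i) (σ j) (σ k) (σ l) := by
    simp only [Q, σ.injective.eq_iff]
  simp only [hg, P, ← hQ]
  refine and_congr_right (fun h => ?_)
  have h1 := sum_zero t hs i j k l h
  have : a + t i + (b + t j) + (c + t k) + (d + t l) = a + b + c + d + (t i + t j + t k + t l) := by abel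
  rw [this, h1, add_zero]

theorem mem_K0 : swap ((0, 1) : Fin 4 × Fin 2) (1, 0) * swap (2, 1) (3, 0) ∈ K0 := by
  show ∀ a b c d, _
  decide +kernel

theorem not_mem_K0 : swap ((0, 0) : Fin 4 × Fin 2) (0, 1) * swap (0, 0) (1, 0) ∉ K0 := by
  intro h
  have := h (0, 0) (0, 1) (2, 0) (2, 1)
  revert this
  decide +kernel

/-- Let Ω be a set with 8 elements and f : Ω → Fin 4 a labelling whose four fibres all have size 2 (a partition of the 8 points into 4 pairs). Then the group of even permutations preserving this partition, (S₂ ≀ S₄) ∩ A₈, is not a maximal subgroup of the alternating group A₈ (it lies in a subgroup isomorphic to the affine group AGL₃(2)). -/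
theorem result {Ω : Type*} [Fintype Ω] [DecidableEq Ω] (h8 : Fintype.card Ω = 8)
    (f : Ω → Fin 4) (hf : ∀ i : Fin 4, Nat.card {x : Ω // f x = i} = 2) :
    ¬ IsCoatom ((Subgroup.closure {g : Equiv.Perm Ω | ∀ x y : Ω, f x = f y ↔ f (g x) = f (g y)} ⊓ alternatingGroup Ω).subgroupOf (alternatingGroup Ω)) := by
  rw [H98.closure_partStab]
  have hF : ∀ i, Nonempty ({x : Ω // f x = i} ≃ Fin 2) := fun i =>
    Finite.card_eq.1 (by rw [hf]; simp)
  let e : Ω ≃ Fin 4 × Fin 2 :=
    (Equiv.sigmaFiberEquiv f).symm.trans (Equiv.sigmaEquivProdOfEquiv (fun i => (hF i).some))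
  have he : ∀ x, (e x).1 = f x := fun x => rfl
  have hW : ∀ g : Perm Ω, g ∈ H98.partStab f ↔
      e.permCongr g ∈ H98.partStab (Prod.fst : Fin 4 × Fin 2 → Fin 4) := by
    intro g
    simp only [H98.mem_partStab, Equiv.permCongr_apply, he]
    constructor
    · intro h x y
      rw [← h, ← he, ← he]; simp
    · intro h x y
      have := h (e x) (e y)
      simpa [he] using this
  have hA : ∀ g : Perm Ω, g ∈ alternatingGroup Ω ↔ e.permCongr g ∈ alternatingGroup (Fin 4 × Fin 2) := by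
    intro g
    simp only [mem_alternatingGroup, sign_permCongr]
  intro hco
  let K : Subgroup (Perm Ω) := K0.comap e.permCongrHom.toMonoidHom
  have hK : ∀ g : Perm Ω, g ∈ K ↔ e.permCongr g ∈ K0 := fun g => Iff.rfl
  have h1 : (H98.partStab f ⊓ alternatingGroup Ω).subgroupOf (alternatingGroup Ω) <
      K.subgroupOf (alternatingGroup Ω) := by
    refine lt_of_le_of_ne (fun g hg => le_K0 ⟨(hW _).1 hg.1, (hA _).1 hg.2⟩) (fun h => ?_)
    have h2 : e.permCongr.symm (swap ((0, 1) : Fin 4 × Fin 2) (1, 0) * swap (2, 1) (3, 0)) ∈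
        alternatingGroup Ω := by
      rw [hA, Equiv.apply_symm_apply]
      exact H98.swap_mul_swap_mem_alt (by decide) (by decide)
    have h3 : (⟨_, h2⟩ : alternatingGroup Ω) ∈ K.subgroupOf (alternatingGroup Ω) := by
      rw [Subgroup.mem_subgroupOf, hK, Equiv.apply_symm_apply]
      exact mem_K0
    rw [← h] at h3
    have h4 := (hW _).1 h3.1
    simp only [Subgroup.coe_subtype, Equiv.apply_symm_apply] at h4
    have := h4 (0, 0) (0, 1)
    revert this
    decide +kernel
  have h2 := hco.2 _ h1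
  rw [Subgroup.subgroupOf_eq_top] at h2
  have h3 : e.permCongr.symm (swap ((0, 0) : Fin 4 × Fin 2) (0, 1) * swap (0, 0) (1, 0)) ∈
        alternatingGroup Ω := by
    rw [hA, Equiv.apply_symm_apply]
    exact H98.swap_mul_swap_mem_alt (by decide) (by decide)
  have h4 := (hK _).1 (h2 h3)
  rw [Equiv.apply_symm_apply] at h4
  exact not_mem_K0 h4

end Cfsg.Agent.S5910
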