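import Cfsg.Statements.S5912
import Mathlib
import Cfsg.Agent.Lib.SymMax.AutPerm

set_option autoImplicit false
open Cfsg

namespace Cfsg.Agent.S5912

/-- The symmetric group on a 6-element set Ω has exactly two conjugacy classes of subgroups of index 6: there are two non-conjugate subgroups of index 6 (a point stabilizer and a transitive subgroup isomorphic to S₅), and every subgroup of index 6 is conjugate to one of them. -/
theorem result {Ω : Type*} [Fintype Ω] [DecidableEq Ω] (h6 : Fintype.card Ω = 6) :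
    ∃ H₁ H₂ : Subgroup (Equiv.Perm Ω), H₁.index = 6 ∧ H₂.index = 6 ∧
      (¬ ∃ g : Equiv.Perm Ω, Subgroup.map (MulAut.conj g).toMonoidHom H₁ = H₂) ∧
      ∀ H : Subgroup (Equiv.Perm Ω), H.index = 6 →
        ∃ g : Equiv.Perm Ω, Subgroup.map (MulAut.conj g).toMonoidHom H₁ = H ∨ Subgroup.map (MulAut.conj g).toMonoidHom H₂ = H := by
  obtain ⟨ψ, hne, hall⟩ := H98.exists_outer_six h6
  obtain ⟨x⟩ : Nonempty Ω := Fintype.card_pos_iff.1 (by omega)
  have hi : (MulAction.stabilizer (Equiv.Perm Ω) x).index = 6 := by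
    rw [MulAction.index_stabilizer_of_transitive, Nat.card_eq_fintype_card, h6]
  refine ⟨MulAction.stabilizer (Equiv.Perm Ω) x, (MulAction.stabilizer (Equiv.Perm Ω) x).comap ψ.toMonoidHom,
    hi, ?_, ?_, fun H hH => ?_⟩
  · rw [Subgroup.index_comap_of_surjective _ ψ.surjective, hi]
  · rintro ⟨g, hg⟩
    rw [← MulAction.stabilizer_smul_eq_stabilizer_map_conj] at hg
    exact hne _ _ hg.symm
  · obtain ⟨y, rfl | rfl⟩ := hall H hH
    · refine ⟨Equiv.swap x y, Or.inl ?_⟩
      rw [← MulAction.stabilizer_smul_eq_stabilizer_map_conj, Equiv.Perm.smul_def, Equiv.swap_apply_left]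
    · refine ⟨ψ.symm (Equiv.swap x y), Or.inr ?_⟩
      rw [H98.comap_stabilizer_conj, ψ.apply_symm_apply, Equiv.swap_apply_left]

end Cfsg.Agent.S5912
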