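import Cfsg.Statements.S5913
import Mathlib

set_option autoImplicit false
open Cfsg

namespace Cfsg.Agent.S5913

/-- Let S be a non-abelian simple group and n a natural number. Every normal subgroup N of the direct power S^n (functions Fin n → S) is a subproduct: there is a set T of coordinates such that N consists exactly of the elements whose coordinates outside T are trivial. In particular the minimal normal subgroups of S^n are its n factors. -/
theorem result {S : Type*} [Group S] [IsSimpleGroup S] (hS : ¬ IsMulCommutative S) (n : ℕ)
    (N : Subgroup (Fin n → S)) [N.Normal] :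
    ∃ T : Finset (Fin n), ∀ x : Fin n → S, x ∈ N ↔ ∀ i, i ∉ T → x i = 1 := by
  classical
  refine ⟨Finset.univ.filter (fun i => ∃ x ∈ N, x i ≠ 1), fun x => ⟨fun hx i hi => ?_, fun hx => ?_⟩⟩
  · by_contra h
    exact hi (by simp only [Finset.mem_filter, Finset.mem_univ, true_and]; exact ⟨x, hx, h⟩)
  · -- every single-coordinate element at a coordinate in T is in N
    have hcen : Subgroup.center S = ⊥ := by
      rcases (inferInstance : (Subgroup.center S).Normal).eq_bot_or_eq_top with h | h
      · exact h
      · exfalso
        apply hS
        exact ⟨⟨fun a b => by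
          have : b ∈ Subgroup.center S := h ▸ Subgroup.mem_top b
          exact Subgroup.mem_center_iff.1 this a⟩⟩
    have key : ∀ i, (∃ y ∈ N, y i ≠ 1) → ∀ s : S, (Pi.mulSingle i s : Fin n → S) ∈ N := by
      rintro i ⟨y, hy, hyi⟩ s
      let K : Subgroup S := N.comap (MonoidHom.mulSingle (fun _ : Fin n => S) i)
      haveI : K.Normal := inferInstance
      rcases (inferInstance : K.Normal).eq_bot_or_eq_top with h | h
      · exfalso
        apply hyi
        have : y i ∈ Subgroup.center S := by
          rw [Subgroup.mem_center_iff]
          intro g
          have h1 : (Pi.mulSingle i g : Fin n → S) * y * (Pi.mulSingle i g : Fin n → S)⁻¹ * y⁻¹ ∈ N :=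
            N.mul_mem (Subgroup.Normal.conj_mem inferInstance y hy _) (N.inv_mem hy)
          have h2 : (Pi.mulSingle i g : Fin n → S) * y * (Pi.mulSingle i g : Fin n → S)⁻¹ * y⁻¹ =
              Pi.mulSingle i (g * y i * g⁻¹ * (y i)⁻¹) := by
            funext j
            by_cases hj : j = i
            · subst hj; simp
            · simp [Pi.mulSingle_eq_of_ne hj]
          have h3 : g * y i * g⁻¹ * (y i)⁻¹ ∈ K := by
            show (MonoidHom.mulSingle (fun _ : Fin n => S) i) _ ∈ N
            rw [MonoidHom.mulSingle_apply, ← h2]; exact h1
          rw [h, Subgroup.mem_bot] at h3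
          calc g * y i = (g * y i * g⁻¹ * (y i)⁻¹) * (y i * g) := by group
            _ = y i * g := by rw [h3, one_mul]
        rw [hcen] at this
        exact Subgroup.mem_bot.1 this
      · have : s ∈ K := h ▸ Subgroup.mem_top s
        exact this
    have hx' : x ∈ Subgroup.pi Set.univ (fun i => N.comap (MonoidHom.mulSingle (fun _ : Fin n => S) i)) := by
      intro i _
      by_cases hi : ∃ y ∈ N, y i ≠ 1
      · exact key i hi _
      · have : x i = 1 := hx i (by simpa only [Finset.mem_filter, Finset.mem_univ, true_and] using hi)
        rw [this]; exact Subgroup.one_mem _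
    exact (Subgroup.pi_le_iff.2 (fun i => Subgroup.map_comap_le _ _)) hx'

end Cfsg.Agent.S5913
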