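import Cfsg.Statements.S5922
import Mathlib
import Cfsg.Agent.Lib.H5.E8L2D
import Cfsg.Agent.Lib.Weyl.PoinWE8

set_option autoImplicit false
open Cfsg

namespace Cfsg.Agent.S5922

open H5.E8T

lemma ker_eq {G F : Type*} [Group G] [Field F] {H : Subgroup G}
    (e : ↥H ≃* Matrix.ProjectiveSpecialLinearGroup (Fin 2) F) :
    (H.subtype.comp (e.symm.toMonoidHom.comp (QuotientGroup.mk' (Subgroup.center _)))).ker = Subgroup.center _ := by
  ext g
  rw [MonoidHom.mem_ker, MonoidHom.comp_apply, MonoidHom.comp_apply, map_eq_one_iff _ H.subtype_injective,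
    MulEquiv.coe_toMonoidHom, map_eq_one_iff _ e.symm.injective]
  exact QuotientGroup.eq_one_iff g

/-- Let G be the Chevalley group of type E₈ over the field with three elements (generated by its root elements in the 248-dimensional adjoint representation; it is the simple group E₈(3)). Then G has no subgroup isomorphic to PSL₂(243) and no subgroup isomorphic to PSL₂(729). Here F₂₄₃ and F₇₂₉ denote fields with 243 and 729 elements. -/
theorem result
    {F₂₄₃ F₇₂₉ : Type*} [Field F₂₄₃] [Fintype F₂₄₃] (h243 : Fintype.card F₂₄₃ = 243) [Field F₇₂₉] [Fintype F₇₂₉] (h729 : Fintype.card F₇₂₉ = 729)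
    (H : Subgroup ↥(Cfsg.Lie.chevE8.group (ZMod 3))) :
    IsEmpty (↥H ≃* Matrix.ProjectiveSpecialLinearGroup (Fin 2) F₂₄₃) ∧ IsEmpty (↥H ≃* Matrix.ProjectiveSpecialLinearGroup (Fin 2) F₇₂₉) := by
  have hD : Lie.chevE8 ∈ H37.Tabs := by simp [H37.Tabs]
  have hc := (H37.isMat hD H38.rsE8 (ZMod 3)).card_group H38.smithE8 (q := 3) (by simp) (H39.poinWE8 H38.rsE8 _)
  rw [pow_zero, one_mul, show Lie.chevE8.nroots / 2 = 120 from rfl] at hc
  have hf : ∀ r : ℕ, r.Prime → ((r ^ 2 : ℕ) : ℤ) ∣ Nat.card (Lie.chevE8.group (ZMod 3)) →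
      ¬ ((r ^ 3 : ℕ) : ℤ) ∣ Nat.card (Lie.chevE8.group (ZMod 3)) →
      (Nat.card (Lie.chevE8.group (ZMod 3))).factorization r = 2 := fun r hr h1 h2 => by
    rw [Int.natCast_dvd_natCast] at h1 h2
    have h0 : Nat.card (Lie.chevE8.group (ZMod 3)) ≠ 0 := fun e => h2 (e ▸ dvd_zero _)
    rw [hr.pow_dvd_iff_le_factorization h0] at h1 h2
    omega
  have : Fact (Nat.Prime 61) := ⟨by norm_num⟩
  have : Fact (Nat.Prime 73) := ⟨by norm_num⟩
  exact ⟨⟨fun e => no_L2 hD H38.rsE8 H38.smithE8 (r := 61) (by decide) (by decide)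
      (hf _ Fact.out (by rw [hc]; decide +kernel) (by rw [hc]; decide +kernel)) tor_a (by decide) ct_chk u_a v_a inv_chk mod_a
      line_a pair_a (e := 4) (a := 61) (b := 4) rfl rfl (by decide) (by decide) (by decide) (by decide) h243 _ (ker_eq e)⟩,
    ⟨fun e => no_L2 hD H38.rsE8 H38.smithE8 (r := 73) (by decide) (by decide)
      (hf _ Fact.out (by rw [hc]; decide +kernel) (by rw [hc]; decide +kernel)) tor_b (by decide) ct_chk u_b v_b inv_chk mod_b
      line_b pair_b (e := 10) (a := 146) (b := 5) rfl rfl (by decide) (by decide) (by decide) (by decide) h729 _ (ker_eq e)⟩⟩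

end Cfsg.Agent.S5922
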