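import Cfsg.Statements.S5939
import Mathlib
import Cfsg.Agent.Lib.PSL2Max.Fin

set_option autoImplicit false
open Cfsg

namespace Cfsg.Agent.S5939

open H98 H29 Matrix MatrixGroups MulAction

/-- Let p be a prime and F a finite field of characteristic p such that either F has p elements and p ≡ ±1 (mod 10), or F has p² elements and p ≡ ±3 (mod 10). Then PSL_2(F) has a maximal subgroup isomorphic to the alternating group A_5. -/
theorem result {F : Type*} [Field F] [Fintype F] (p : ℕ) [Fact p.Prime] [CharP F p] (h : (Fintype.card F = p ∧ (p % 10 = 1 ∨ p % 10 = 9)) ∨ (Fintype.card F = p ^ 2 ∧ (p % 10 = 3 ∨ p % 10 = 7))) : ∃ H : Subgroup (Matrix.ProjectiveSpecialLinearGroup (Fin 2) F), IsCoatom H ∧ Nonempty (H ≃* alternatingGroup (Fin 5)) := by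
  have h1 := (Fact.out : p.Prime).one_lt
  rcases h with ⟨hF, h⟩ | ⟨hF, h⟩
  · have hq : Nat.card F = p ^ 1 := by rw [Nat.card_eq_fintype_card, hF, pow_one]
    obtain ⟨M, hM, e⟩ := (alt5_PS_iff (K := AlgebraicClosure F) (p := p) (by omega) one_ne_zero).2
      (by rw [pow_one]; omega)
    exact exists_coatom hq (alt5_covBy (Or.inl ⟨rfl, by omega⟩) hM e) e
  · have hq : Nat.card F = p ^ 2 := by rw [Nat.card_eq_fintype_card, hF]
    obtain ⟨M, hM, e⟩ := (alt5_PS_iff (K := AlgebraicClosure F) (p := p) (by omega) two_ne_zero).2 (by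
      rw [Nat.pow_mod]
      rcases (show p % 5 = 2 ∨ p % 5 = 3 by omega) with e | e <;> simp [e])
    exact exists_coatom hq (alt5_covBy (Or.inr ⟨rfl, h⟩) hM e) e

end Cfsg.Agent.S5939
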