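import Cfsg.Statements.S5947
import Cfsg.Agent.Lib.Elusive.Fld
import Cfsg.Agent.S5946
import Cfsg.Agent.Lib.Zsig.Basic

set_option autoImplicit false
open Cfsg

namespace Cfsg.Agent.S5947

open H99 H28 Module Polynomial

theorem eq_one_of_pow_add_one {p f m : ℕ} (hp : 1 < p) (hf : 0 < f) (h : p ^ f + 1 = 2 ^ m) :
    f = 1 := by
  have h1 := one_lt_pow₀ hp hf.ne'
  rcases Nat.even_or_odd' f with ⟨t, rfl | rfl⟩
  · obtain ⟨m, rfl⟩ : ∃ l, m = l + 2 := ⟨m - 2, by rcases m with _ | _ | m <;> omega⟩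
    have : ∀ x < 4, x ^ 2 % 4 ≠ 3 := by decide
    exact (this _ (Nat.mod_lt (p ^ t) four_pos) (by
      rw [← Nat.pow_mod, ← pow_mul']; rw [pow_add] at h; omega)).elim
  obtain ⟨a, -, ha⟩ := (Nat.dvd_prime_pow Nat.prime_two).mp
    (h ▸ by simpa using Odd.nat_add_dvd_pow_add_pow p 1 ⟨t, rfl⟩ : p + 1 ∣ 2 ^ m)
  obtain ⟨a, rfl⟩ : ∃ b, a = b + 1 := ⟨a - 1, by rcases a with _ | a <;> omega⟩
  by_contra h2
  have h3 : a + 1 < m := (Nat.pow_lt_pow_iff_right one_lt_two).mp (by
    have := Nat.pow_lt_pow_right hp (show 1 < 2 * t + 1 by omega)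
    rw [pow_one] at this
    omega)
  have h4 : p ^ 2 ≡ 1 [MOD 2 ^ (a + 2)] := ((Nat.modEq_iff_dvd' (Nat.one_le_pow _ _ (by omega))).mpr
    ⟨2 ^ a - 1, by
      rw [← one_pow 2, Nat.sq_sub_sq, ha, one_pow, show p - 1 = 2 * (2 ^ a - 1) by omega]; ring⟩).symm
  have h5 := (((h4.pow t).mul_right p).add_right 1).symm
  rw [← pow_mul, ← pow_succ, h, one_pow, one_mul, ha] at h5
  have := (Nat.pow_dvd_pow_iff_le_right one_lt_two).mp ((h5.dvd_iff dvd_rfl).mpr (pow_dvd_pow 2 h3))
  omega

/-- Let F ⊆ K be finite fields with |F| = q and [K : F] = n ≥ 2, regard K as an n-dimensional F-vector space, and let M ≤ GL_F(K) be the Singer group of multiplications by non-zero elements of K (cyclic of order q^n − 1). Assume (n, q) ≠ (6, 2), and that it is not the case that n = 2 with q a prime such that q + 1 is a power of 2. Then every abelian subgroup of GL_F(K) of order q^n − 1 is conjugate to M. -/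
theorem result {F K : Type*} [Field F] [Fintype F] [Field K] [Fintype K] [Algebra F K] (n : ℕ) (hn : 2 ≤ n) (hdim : Module.finrank F K = n)
    (hex1 : ¬ (n = 6 ∧ Fintype.card F = 2))
    (hex2 : ¬ (n = 2 ∧ (Fintype.card F).Prime ∧ ∃ a : ℕ, Fintype.card F + 1 = 2 ^ a))
    (U : Subgroup (Module.End F K)ˣ) (hU : IsMulCommutative U) (hcard : Nat.card U = Fintype.card K - 1) :
    ∃ g : (Module.End F K)ˣ, U.map (MulAut.conj g).toMonoidHom = (Units.map ((Algebra.lmul F K : K →ₐ[F] Module.End F K) : K →* Module.End F K)).range := by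
  obtain ⟨r, hr, h1, h2⟩ := H69.Zsig.zsigmondy (a := Fintype.card F) Fintype.one_lt_card hn
    (fun h => hex1 ⟨h.2, h.1⟩) fun ⟨h, m, hm⟩ => hex2 ⟨h, by
      obtain ⟨p, hp⟩ := CharP.exists F
      have := Fact.mk (CharP.char_is_prime F p)
      obtain ⟨f, h0, hf⟩ := exists_card_eq F p
      rw [hf, eq_one_of_pow_add_one this.out.one_lt h0 (hf ▸ hm), pow_one]
      exact this.out, m, hm⟩
  have := Fact.mk hr
  have hc := Module.card_eq_pow_finrank (K := F) (V := K)
  rw [hdim] at hc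
  have h0 := cast_ne_zero_base (K := F) (cast_ne_zero_of_dvd (hc ▸ h1))
  have H : Ord F r _ := ⟨h0, rfl⟩
  obtain hi : _ = n := (Nat.le_of_dvd (by omega) ((H.dvd_iff n).mp h1)).eq_of_not_lt
    fun h => h2 _ H.pos h ((H.dvd_iff _).mpr dvd_rfl)
  rw [hi] at H
  have : Finite (End F K) := Finite.of_injective _ DFunLike.coe_injective
  obtain ⟨u, h3, h4, h5⟩ := exists_orderOf_of_dvd (r := r) U (by rwa [hcard, hc])
  have h6 : (u : End F K) ^ r = 1 := by rw [← Units.val_pow_eq_pow_val, h4, Units.val_one]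
  have h7 : movS r (u : End F K) = ⊤ := Submodule.eq_top_of_finrank_eq
    ((Submodule.finrank_le _).antisymm (hdim ▸ Nat.le_of_dvd (finrank_movS_pos h0 h6
      fun h => h5 (Units.ext h)) (ord_dvd_finrank H (inv_movS r _) le_rfl)))
  obtain ⟨π, h8, h9, h10⟩ := exists_monic_irreducible_factor (u : End F K).charpoly (fun h => by
    have := natDegree_eq_zero_of_isUnit h
    rw [LinearMap.charpoly_natDegree] at this
    omega)
  have h11 := H.natDegree_eq h9 (H65.dvd_of_dvd_charpoly (LinearMap.ker_eq_top.mp h7) h9 h10)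
  have h12 := eq_of_monic_of_dvd_of_natDegree_le h8 (LinearMap.charpoly_monic _) h10
    (by rw [LinearMap.charpoly_natDegree, h11, hdim])
  have := Fact.mk h9
  have := h8.finite_adjoinRoot
  have : Finite (AdjoinRoot π) := Module.finite_of_finite F
  have h13 : finrank F (AdjoinRoot π) = finrank F K := by rw [H65.finrank_adjoinRoot, h11, hdim]
  obtain ⟨ψ⟩ := FiniteField.nonempty_algHom_of_finrank_dvd h13.dvd
  have h14 := (LinearMap.injective_iff_surjective_of_finrank_eq_finrank h13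
    (f := ψ.toLinearMap)).mp ψ.injective
  have h15 := H65.charpoly_cyc h8
  obtain ⟨e, he⟩ := ((H65.similar_of_charpoly_eq_of_squarefree h9.squarefree h9.squarefree
    (h12 ▸ LinearMap.aeval_self_charpoly _) (f' := H65.cyc π)
    ((congrArg _ h15.symm).trans (LinearMap.aeval_self_charpoly _)) (h12.trans h15.symm)).trans
    (k := Algebra.lmul F K (ψ (AdjoinRoot.root π)))
    ⟨LinearEquiv.ofBijective ψ.toLinearMap ⟨ψ.injective, h14⟩, fun v => map_mul ψ _ v⟩)
  obtain ⟨g, hg⟩ : ∃ g : (End F K)ˣ, (g : End F K) = e :=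
    ⟨(LinearMap.GeneralLinearGroup.generalLinearEquiv F K).symm e, rfl⟩
  have h16 : (MulAut.conj g u : End F K) = Algebra.lmul F K (ψ (AdjoinRoot.root π)) := by
    rw [MulAut.conj_apply, Units.val_mul, Units.mul_inv_eq_iff_eq_mul, Units.val_mul, hg]
    exact LinearMap.ext he
  refine ⟨g, Subgroup.eq_of_le_of_card_ge ?_ ?_⟩
  · rw [← S5946.result n hn hdim]
    rintro _ ⟨x, hx, rfl⟩ _ ⟨a, rfl⟩
    obtain ⟨b, hb⟩ := h14 a
    obtain ⟨s, rfl⟩ := AdjoinRoot.mk_surjective b
    have h17 : Commute (MulAut.conj g u) (MulAut.conj g x) :=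
      (show Commute u x from setLike_mul_comm h3 hx).map _
    have h18 := h17.units_val
    rw [h16] at h18
    refine Units.ext (?_ : Commute (Algebra.lmul F K a) _)
    rw [← hb, ← AdjoinRoot.aeval_eq, AlgHom.toLinearMap_apply, ← aeval_algHom_apply,
      ← aeval_algHom_apply]
    exact Algebra.commute_of_mem_adjoin_singleton_of_commute (aeval_mem_adjoin_singleton F _)
      h18.symm |>.symm
  · rw [Subgroup.card_map_of_injective (MulAut.conj g).injective, hcard, ← Nat.card_eq_fintype_card,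
      ← Nat.card_units]
    exact Nat.card_le_card_of_surjective _ (MonoidHom.rangeRestrict_surjective _)

end Cfsg.Agent.S5947
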